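import Cfsg.Agent.GUn.Defs
import Mathlib.RingTheory.RootsOfUnity.AlgebraicallyClosed
import Mathlib.RingTheory.RootsOfUnity.Complex

/-!
# S4537: arithmetic of the tori, part 1 (`Mk`, `pr`); port of `GLn/Ar`
-/

set_option autoImplicit false

namespace Cfsg.GUn

open Finset Function GLn

universe u

variable {k : Type u} [Field k] {Φ : Frob k}

/-- the order of the torus `Mk m` -/
def NN (Φ : Frob k) (m : ℕ) : ℕ := (Φ.Q ^ m - 1).natAbs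

theorem natAbs_Q (Φ : Frob k) : Φ.Q.natAbs = Φ.q := by
  unfold Frob.Q; split_ifs <;> simp

theorem NN_dvd_iff {m : ℕ} {a : ℤ} : (NN Φ m : ℤ) ∣ a ↔ Φ.Q ^ m - 1 ∣ a := Int.natAbs_dvd

theorem dvd_NN_iff {m a : ℕ} : a ∣ NN Φ m ↔ (a : ℤ) ∣ Φ.Q ^ m - 1 := Int.natCast_dvd.symm

theorem nl_eq (p m : ℕ) : nl Φ p m = p ^ (NN Φ m).factorization p := rfl

theorem fr_apply (x : kˣ) : fr Φ x = x ^ Φ.Q := rfl

theorem fr_iterate (n : ℕ) (x : kˣ) : (fr Φ)^[n] x = x ^ Φ.Q ^ n := by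
  induction n with
  | zero => simp
  | succ n ih => rw [iterate_succ_apply', ih, fr_apply, ← zpow_mul, pow_succ]

@[simp] theorem io_rep (o : I Φ) : io Φ o.rep = o := Dyn.omk_rep o

@[simp] theorem io_pow_q (x : kˣ) (n : ℕ) : io Φ (x ^ Φ.Q ^ n) = io Φ x := by
  rw [← fr_iterate]; exact Dyn.omk_iterate x n

@[simp] theorem io_pow_Q (x : kˣ) : io Φ (x ^ Φ.Q) = io Φ x := Dyn.omk_apply x

theorem pow_q_eq_iff (x : kˣ) (m : ℕ) : x ^ Φ.Q ^ m = x ↔ x ^ (Φ.Q ^ m - 1) = 1 := by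
  rw [zpow_sub_one, mul_inv_eq_one]

theorem pow_q_eq_iff' (x : kˣ) (m : ℕ) : x ^ Φ.Q ^ m = x ↔ x ^ NN Φ m = 1 := by
  rw [pow_q_eq_iff, NN, pow_natAbs_eq_one]

/-- the geometric sum -/
theorem geom_mul (c m : ℕ) :
    (∑ i ∈ range m, Φ.Q ^ (c * i)) * (Φ.Q ^ c - 1) = Φ.Q ^ (c * m) - 1 := by
  simp only [pow_mul, geom_sum_mul]

theorem prod_zpow_sum {M ι : Type*} [CommGroup M] (s : Finset ι) (f : ι → ℤ) (x : M) :
    ∏ i ∈ s, x ^ f i = x ^ ∑ i ∈ s, f i := by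
  classical
  induction s using Finset.induction_on with
  | empty => simp
  | insert a s h ih => rw [prod_insert h, sum_insert h, zpow_add, ih]

theorem prod_pow_q (c m : ℕ) (x : kˣ) :
    ∏ i ∈ range m, x ^ Φ.Q ^ (c * i) = x ^ ∑ i ∈ range m, Φ.Q ^ (c * i) := prod_zpow_sum _ _ _

theorem NN_dvd_of_dvd {c m : ℕ} (h : c ∣ m) : NN Φ c ∣ NN Φ m := by
  obtain ⟨m, rfl⟩ := h
  exact Int.natAbs_dvd_natAbs.2 (Dvd.intro_left _ (geom_mul c m))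

variable [Big k]

omit [Big k] in
theorem ringChar_dvd_q (Φ : Frob k) : ringChar k ∣ Φ.q := by
  obtain ⟨r, h, e⟩ := Φ.hq
  exact e ▸ dvd_pow_self _ h.ne'

theorem Q_ne_zero (Φ : Frob k) : Φ.Q ≠ 0 := fun h => by
  have := natAbs_Q Φ
  have := Φ.one_lt_q
  simp only [h] at *; omega

theorem Q_pow_ne_one {m : ℕ} (hm : 0 < m) : Φ.Q ^ m ≠ 1 := fun h => by
  have := congrArg Int.natAbs h
  rw [Int.natAbs_pow, natAbs_Q] at this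
  exact (Nat.one_lt_pow hm.ne' Φ.one_lt_q).ne' this

theorem NN_pos {m : ℕ} (hm : 0 < m) : 0 < NN Φ m :=
  Int.natAbs_pos.2 (sub_ne_zero.2 (Q_pow_ne_one hm))

theorem Q_pow_sub_ne {m : ℕ} (hm : 0 < m) : (Φ.Q : ℂ) ^ m - 1 ≠ 0 := by
  exact_mod_cast sub_ne_zero.2 (Q_pow_ne_one (Φ := Φ) hm)

theorem sign_sq (Φ : Frob k) : Φ.Q.sign * Φ.Q.sign = 1 := by
  rcases lt_or_gt_of_ne (Q_ne_zero Φ) with h | h
  · simp [Int.sign_eq_neg_one_of_neg h]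
  · simp [Int.sign_eq_one_of_pos h]

/-- `|Q ^ m - 1| = sign Q ^ m * (Q ^ m - 1)` -/
theorem NN_eq {m : ℕ} (hm : 0 < m) : (NN Φ m : ℤ) = Φ.Q.sign ^ m * (Φ.Q ^ m - 1) := by
  have h1 : (1 : ℤ) < (Φ.q : ℤ) ^ m := by exact_mod_cast Nat.one_lt_pow hm.ne' Φ.one_lt_q
  have h0 : (0 : ℤ) < Φ.q := by exact_mod_cast Φ.one_lt_q.le
  rw [NN, Int.natCast_natAbs, Frob.Q]
  split_ifs
  · rw [Int.sign_neg, Int.sign_eq_one_of_pos h0]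
    rcases m.even_or_odd with h | h
    · rw [h.neg_pow, h.neg_pow, one_pow, one_mul, abs_of_pos (by omega)]
    · rw [h.neg_pow, h.neg_pow, one_pow, abs_of_neg (by omega), neg_one_mul]
  · rw [Int.sign_eq_one_of_pos h0, one_pow, one_mul, abs_of_pos (by omega)]

theorem coprime_q_of_not_dvd {N : ℕ} (h : ¬ ringChar k ∣ N) : Φ.q.Coprime N := by
  obtain ⟨r, -, e⟩ := Φ.hq
  rw [e]
  exact ((Nat.Prime.coprime_iff_not_dvd Big.prime).2 h).pow_left _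

theorem coprime_q_prime {p : ℕ} (hp : p.Prime) (h : p ≠ ringChar k) : Φ.q.Coprime p :=
  coprime_q_of_not_dvd fun hd => h ((Nat.prime_dvd_prime_iff_eq Big.prime hp).1 hd).symm

omit [Big k] in
theorem isCoprime_Q {N : ℕ} (h : Φ.q.Coprime N) : IsCoprime Φ.Q N := by
  rwa [Int.isCoprime_iff_gcd_eq_one, Int.gcd_eq_natAbs, natAbs_Q]

theorem orderOf_pos_K (x : kˣ) : 0 < orderOf x := (Big.tors x).orderOf_pos

theorem not_ringChar_dvd_orderOf (x : kˣ) : ¬ ringChar k ∣ orderOf x := fun h => by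
  have := Fact.mk (Big.prime (k := k))
  have h1 := orderOf_pow_orderOf_div (orderOf_pos_K x).ne' h
  have h2 : (x ^ (orderOf x / ringChar k)) ^ ringChar k = 1 := by
    conv_lhs => rw [← h1]
    rw [h1, ← pow_mul, Nat.div_mul_cancel h, pow_orderOf_eq_one]
  have h3 : x ^ (orderOf x / ringChar k) = 1 := Units.ext (by
    have := congrArg Units.val h2
    rw [Units.val_pow_eq_pow_val, Units.val_one, ← one_pow (ringChar k)] at this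
    exact frobenius_inj k (ringChar k) this)
  rw [h3, orderOf_one] at h1
  exact (Big.prime (k := k)).ne_one h1.symm

theorem coprime_q_orderOf (x : kˣ) : Φ.q.Coprime (orderOf x) :=
  coprime_q_of_not_dvd (not_ringChar_dvd_orderOf x)

omit [Big k] in
theorem zmod_pow_eq_one_iff (N n : ℕ) : (Φ.Q : ZMod N) ^ n = 1 ↔ (N : ℤ) ∣ Φ.Q ^ n - 1 := by
  rw [← ZMod.intCast_zmod_eq_zero_iff_dvd, Int.cast_sub, Int.cast_pow, Int.cast_one, sub_eq_zero]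

omit [Big k] in
theorem orderOf_zmod_pos {N : ℕ} (hN : 0 < N) (h : Φ.q.Coprime N) :
    0 < orderOf (Φ.Q : ZMod N) := by
  have : NeZero N := ⟨hN.ne'⟩
  obtain ⟨u, hu⟩ := (ZMod.coe_int_isUnit_iff_isCoprime Φ.Q N).2 (isCoprime_Q h).symm
  rw [← hu, orderOf_units]
  exact orderOf_pos u

omit [Big k] in
theorem pow_q_eq_iff_zmod (x : kˣ) (m : ℕ) :
    x ^ Φ.Q ^ m = x ↔ orderOf (Φ.Q : ZMod (orderOf x)) ∣ m := by
  rw [pow_q_eq_iff, orderOf_dvd_iff_pow_eq_one, zmod_pow_eq_one_iff, orderOf_dvd_iff_zpow_eq_one]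

variable (Φ) in
theorem allPer : Dyn.AllPer (fr Φ) := fun x =>
  ⟨_, orderOf_zmod_pos (orderOf_pos_K x) (coprime_q_orderOf (Φ := Φ) x),
    (fr_iterate _ x).trans ((pow_q_eq_iff_zmod x _).2 dvd_rfl)⟩

theorem io_eq_iff {x y : kˣ} : io Φ x = io Φ y ↔ ∃ n : ℕ, x ^ Φ.Q ^ n = y := by
  simp only [← fr_iterate]
  exact (allPer Φ).omk_eq_iff

theorem exists_rep_io (x : kˣ) : ∃ n : ℕ, (io Φ x).rep = x ^ Φ.Q ^ n := by
  obtain ⟨n, hn⟩ := io_eq_iff.1 (io_rep (io Φ x)).symm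
  exact ⟨n, hn.symm⟩

theorem per_pos (o : I Φ) : 0 < o.per := (allPer Φ).per_pos o

theorem per_io_dvd_iff (x : kˣ) (m : ℕ) : (io Φ x).per ∣ m ↔ x ^ Φ.Q ^ m = x := by
  rw [← fr_iterate]; exact ((allPer Φ).iterate_eq_iff x m).symm

theorem per_io (x : kˣ) : (io Φ x).per = orderOf (Φ.Q : ZMod (orderOf x)) :=
  Nat.dvd_antisymm ((per_io_dvd_iff _ _).2 ((pow_q_eq_iff_zmod _ _).2 dvd_rfl))
    ((pow_q_eq_iff_zmod _ _).1 ((per_io_dvd_iff _ _).1 dvd_rfl))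

theorem pow_q_per (x : kˣ) : x ^ Φ.Q ^ (io Φ x).per = x := (per_io_dvd_iff x _).1 dvd_rfl

theorem rep_pow_q_per (o : I Φ) : o.rep ^ Φ.Q ^ o.per = o.rep := by
  have := pow_q_per (Φ := Φ) o.rep
  rwa [io_rep] at this

theorem pow_q_injective (n : ℕ) : Injective fun x : kˣ => x ^ Φ.Q ^ n := by
  simp only [← fr_iterate]
  exact (allPer Φ).injective.iterate n

theorem orderOf_pow_q (x : kˣ) (n : ℕ) : orderOf (x ^ Φ.Q ^ n) = orderOf x :=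
  orderOf_injective (zpowGroupHom (Φ.Q ^ n)) (pow_q_injective n) x

theorem orderOf_rep_io (x : kˣ) : orderOf (io Φ x).rep = orderOf x := by
  obtain ⟨n, hn⟩ := exists_rep_io (Φ := Φ) x
  rw [hn, orderOf_pow_q]

theorem mem_pts {o : I Φ} {x : kˣ} : x ∈ o.pts ↔ io Φ x = o := (allPer Φ).mem_pts

theorem orderOf_th (x : kˣ) : orderOf (Big.th x) = orderOf x := orderOf_injective _ Big.th_inj x

theorem not_ringChar_dvd_NN {m : ℕ} (hm : 0 < m) : ¬ ringChar k ∣ NN Φ m := fun h => by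
  have h1 : (ringChar k : ℤ) ∣ Φ.Q ^ m :=
    dvd_pow (Int.natCast_dvd.2 (natAbs_Q Φ ▸ ringChar_dvd_q Φ)) hm.ne'
  have h2 := (dvd_sub h1 (dvd_NN_iff.1 h))
  rw [sub_sub_cancel] at h2
  exact (Big.prime (k := k)).ne_one (Nat.dvd_one.1 (by exact_mod_cast h2))

theorem neZero_K {m : ℕ} (hm : 0 < m) : NeZero ((NN Φ m : ℕ) : k) :=
  ⟨fun h => not_ringChar_dvd_NN hm ((ringChar.spec k _).1 h)⟩

omit [Big k] in
theorem setOf_Mk (m : ℕ) : {x : kˣ | x ^ Φ.Q ^ m = x} = (rootsOfUnity (NN Φ m) k : Set kˣ) := by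
  ext x
  rw [Set.mem_ofPred_eq, pow_q_eq_iff', SetLike.mem_coe, mem_rootsOfUnity]

theorem finite_Mk {m : ℕ} (hm : 0 < m) : {x : kˣ | x ^ Φ.Q ^ m = x}.Finite := by
  have : NeZero (NN Φ m) := ⟨(NN_pos hm).ne'⟩
  rw [setOf_Mk]
  exact Set.finite_coe_iff.1 (inferInstanceAs (Finite (rootsOfUnity (NN Φ m) k)))

theorem finite_fix {m : ℕ} (hm : 0 < m) : {x : kˣ | (fr Φ)^[m] x = x}.Finite := by
  simp only [fr_iterate]; exact finite_Mk hm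

theorem mem_Mk {m : ℕ} (hm : 0 < m) {x : kˣ} : x ∈ Mk Φ m ↔ x ^ Φ.Q ^ m = x := by
  rw [Mk, dif_pos (finite_Mk hm), Set.Finite.mem_toFinset, Set.mem_ofPred_eq]

theorem mem_Mk' {m : ℕ} (hm : 0 < m) {x : kˣ} : x ∈ Mk Φ m ↔ x ^ NN Φ m = 1 := by
  rw [mem_Mk hm, pow_q_eq_iff']

theorem mem_Mk'' {m : ℕ} (hm : 0 < m) {x : kˣ} : x ∈ Mk Φ m ↔ x ^ (Φ.Q ^ m - 1) = 1 := by
  rw [mem_Mk hm, pow_q_eq_iff]

theorem mem_Mk_orderOf {m : ℕ} (hm : 0 < m) {x : kˣ} : x ∈ Mk Φ m ↔ orderOf x ∣ NN Φ m := by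
  rw [mem_Mk' hm, orderOf_dvd_iff_pow_eq_one]

theorem mem_Mk_per {m : ℕ} (hm : 0 < m) {x : kˣ} : x ∈ Mk Φ m ↔ (io Φ x).per ∣ m := by
  rw [mem_Mk hm, per_io_dvd_iff]

theorem Mk_eq_fixF {m : ℕ} (hm : 0 < m) : Mk Φ m = Dyn.fixF (fr Φ) m (finite_fix hm) := by
  ext x; rw [mem_Mk hm, Dyn.mem_fixF, fr_iterate]

theorem infinite_units_K : Infinite kˣ := by
  by_contra h
  rw [not_infinite_iff_finite] at h
  have : Finite k := Finite.of_surjective (fun o : Option kˣ => o.elim 0 Units.val)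
    fun a => by
      by_cases ha : a = 0
      · exact ⟨none, ha.symm⟩
      · exact ⟨some (Units.mk0 a ha), rfl⟩
  exact not_finite k

theorem Mk_zero : Mk Φ 0 = ∅ := by
  have := infinite_units_K (k := k)
  rw [Mk, dif_neg]
  simp only [pow_zero, zpow_one, Set.ofPred_true]
  exact Set.infinite_univ

theorem pos_of_mem_Mk {m : ℕ} {x : kˣ} (hx : x ∈ Mk Φ m) : 0 < m := by
  rcases Nat.eq_zero_or_pos m with rfl | h
  · simp [Mk_zero] at hx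
  · exact h

theorem pow_of_mem_Mk {m : ℕ} {x : kˣ} (hx : x ∈ Mk Φ m) : x ^ Φ.Q ^ m = x :=
  (mem_Mk (pos_of_mem_Mk hx)).1 hx

theorem pow_of_mem_Mk' {m : ℕ} {x : kˣ} (hx : x ∈ Mk Φ m) : x ^ NN Φ m = 1 :=
  (mem_Mk' (pos_of_mem_Mk hx)).1 hx

theorem pow_of_mem_Mk'' {m : ℕ} {x : kˣ} (hx : x ∈ Mk Φ m) : x ^ (Φ.Q ^ m - 1) = 1 :=
  (mem_Mk'' (pos_of_mem_Mk hx)).1 hx

theorem card_Mk {m : ℕ} (hm : 0 < m) : #(Mk Φ m) = NN Φ m := by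
  have : NeZero (NN Φ m) := ⟨(NN_pos hm).ne'⟩
  have := neZero_K (Φ := Φ) hm
  rw [Mk, dif_pos (finite_Mk hm), ← Set.ncard_eq_toFinset_card _ (finite_Mk hm), setOf_Mk,
    ← Nat.card_coe_set_eq]
  exact HasEnoughRootsOfUnity.natCard_rootsOfUnity k _

theorem one_mem_Mk {m : ℕ} (hm : 0 < m) : (1 : kˣ) ∈ Mk Φ m := (mem_Mk hm).2 (one_zpow _)

theorem mul_mem_Mk {m : ℕ} {x y : kˣ} (hx : x ∈ Mk Φ m) (hy : y ∈ Mk Φ m) : x * y ∈ Mk Φ m :=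
  (mem_Mk (pos_of_mem_Mk hx)).2 (by rw [mul_zpow, pow_of_mem_Mk hx, pow_of_mem_Mk hy])

theorem inv_mem_Mk {m : ℕ} {x : kˣ} (hx : x ∈ Mk Φ m) : x⁻¹ ∈ Mk Φ m :=
  (mem_Mk (pos_of_mem_Mk hx)).2 (by rw [inv_zpow, pow_of_mem_Mk hx])

theorem zpow_mem_Mk {m : ℕ} {x : kˣ} (hx : x ∈ Mk Φ m) (n : ℤ) : x ^ n ∈ Mk Φ m :=
  (mem_Mk (pos_of_mem_Mk hx)).2 (by rw [← zpow_mul, mul_comm, zpow_mul, pow_of_mem_Mk hx])

theorem pow_mem_Mk {m : ℕ} {x : kˣ} (hx : x ∈ Mk Φ m) (n : ℕ) : x ^ n ∈ Mk Φ m := by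
  simpa using zpow_mem_Mk hx n

theorem prod_mem_Mk {m : ℕ} (hm : 0 < m) {ι : Type*} {s : Finset ι} {f : ι → kˣ}
    (h : ∀ i ∈ s, f i ∈ Mk Φ m) : ∏ i ∈ s, f i ∈ Mk Φ m :=
  Finset.prod_induction _ (· ∈ Mk Φ m) (fun _ _ => mul_mem_Mk) (one_mem_Mk hm) h

theorem mem_Mk_of_dvd {c m : ℕ} (hm : 0 < m) (h : c ∣ m) {x : kˣ} (hx : x ∈ Mk Φ c) :
    x ∈ Mk Φ m := (mem_Mk_per hm).2 (((mem_Mk_per (pos_of_mem_Mk hx)).1 hx).trans h)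

theorem rep_mem_Mk {o : I Φ} {m : ℕ} (hm : 0 < m) (h : o.per ∣ m) : o.rep ∈ Mk Φ m :=
  (mem_Mk_per hm).2 (by rwa [io_rep])

theorem rep_mem_Mk_mul (o : I Φ) {m : ℕ} (hm : 0 < m) : o.rep ∈ Mk Φ (o.per * m) :=
  rep_mem_Mk (Nat.mul_pos (per_pos o) hm) (dvd_mul_right _ _)

theorem mem_Mk_self (x : kˣ) : x ∈ Mk Φ (io Φ x).per := (mem_Mk_per (per_pos _)).2 dvd_rfl

theorem exists_mem_Mk₂ (x y : kˣ) : ∃ m, x ∈ Mk Φ m ∧ y ∈ Mk Φ m :=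
  have h := Nat.mul_pos (per_pos (io Φ x)) (per_pos (io Φ y))
  ⟨_, (mem_Mk_per h).2 (dvd_mul_right _ _), (mem_Mk_per h).2 (dvd_mul_left _ _)⟩

theorem pow_q_of_mem_one {z : kˣ} (hz : z ∈ Mk Φ 1) (n : ℕ) : z ^ Φ.Q ^ n = z :=
  (per_io_dvd_iff _ n).1 (((mem_Mk_per one_pos).1 hz).trans (one_dvd n))

/-- `Mk` as a subgroup -/
noncomputable def MG (Φ : Frob k) (m : ℕ) : Subgroup kˣ := rootsOfUnity (NN Φ m) k

theorem mem_MG {m : ℕ} (hm : 0 < m) {x : kˣ} : x ∈ MG Φ m ↔ x ∈ Mk Φ m := by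
  rw [mem_Mk' hm, MG, mem_rootsOfUnity]

theorem finite_MG {m : ℕ} (hm : 0 < m) : Finite (MG Φ m) := by
  have : NeZero (NN Φ m) := ⟨(NN_pos hm).ne'⟩
  unfold MG; infer_instance

theorem card_MG {m : ℕ} (hm : 0 < m) : Nat.card (MG Φ m) = NN Φ m := by
  have : NeZero (NN Φ m) := ⟨(NN_pos hm).ne'⟩
  have := neZero_K (Φ := Φ) hm
  exact HasEnoughRootsOfUnity.natCard_rootsOfUnity k _

/-! ### the pairing -/

/-- the standard primitive root of unity of order `NN m` -/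
noncomputable def zt (Φ : Frob k) (m : ℕ) : ℂ :=
  Complex.exp (2 * Real.pi * Complex.I / ((Φ.Q : ℂ) ^ m - 1))

omit [Big k] in
theorem zt_ne_zero (m : ℕ) : zt Φ m ≠ 0 := Complex.exp_ne_zero _

theorem zt_prim {m : ℕ} (hm : 0 < m) : IsPrimitiveRoot (zt Φ m) (NN Φ m) := by
  have h := Complex.isPrimitiveRoot_exp _ (NN_pos (Φ := Φ) hm).ne'
  have e0 : Φ.Q ^ m - 1 = (NN Φ m : ℤ) ∨ Φ.Q ^ m - 1 = -(NN Φ m : ℤ) := Int.natAbs_eq _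
  rcases e0 with e | e
  · have : (Φ.Q : ℂ) ^ m - 1 = NN Φ m := by
      exact_mod_cast e
    rwa [zt, this]
  · have : (Φ.Q : ℂ) ^ m - 1 = -NN Φ m := by
      exact_mod_cast e
    rw [zt, this, div_neg, Complex.exp_neg]
    exact h.inv

/-- the discrete logarithm in `Mk m` -/
noncomputable abbrev lgz (Φ : Frob k) (m : ℕ) (ξ : kˣ) : ℤ := lgN (Φ.Q ^ m - 1) ξ

theorem th_eq_zt {m : ℕ} {ξ : kˣ} (h : ξ ∈ Mk Φ m) :
    (Big.th ξ : ℂ) = zt Φ m ^ lgz Φ m ξ := by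
  have hm := pos_of_mem_Mk h
  have : NeZero (NN Φ m) := ⟨(NN_pos hm).ne'⟩
  have h1 : (Big.th ξ : ℂ) ^ NN Φ m = 1 := by
    rw [← Units.val_pow_eq_pow_val, ← map_pow, pow_of_mem_Mk' h, map_one, Units.val_one]
  obtain ⟨i, -, hi⟩ := (zt_prim hm).eq_pow_of_pow_eq_one h1
  have key : ∀ a : ℤ, Complex.exp (2 * Real.pi * Complex.I * a / ((Φ.Q ^ m - 1 : ℤ) : ℂ)) =
      zt Φ m ^ a := fun a => by
    rw [zt, ← Complex.exp_int_mul]; congr 1; push_cast; ring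
  rw [← key]
  exact Classical.epsilon_spec (p := fun a : ℤ => (Big.th ξ : ℂ) =
    Complex.exp (2 * Real.pi * Complex.I * a / ((Φ.Q ^ m - 1 : ℤ) : ℂ))) ⟨i, by
      rw [key, zpow_natCast, hi]⟩

theorem pr_apply (m : ℕ) (ξ x : kˣ) : pr Φ m ξ x = Big.th x ^ lgz Φ m ξ := rfl

theorem pr_val (m : ℕ) (ξ x : kˣ) : (pr Φ m ξ x : ℂ) = (Big.th x : ℂ) ^ lgz Φ m ξ := by
  rw [pr_apply, Units.val_zpow_eq_zpow_val]

theorem pr_comm {m : ℕ} {ξ x : kˣ} (hξ : ξ ∈ Mk Φ m) (hx : x ∈ Mk Φ m) :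
    pr Φ m ξ x = pr Φ m x ξ := by
  apply Units.ext
  rw [pr_val, pr_val, th_eq_zt hξ, th_eq_zt hx, ← zpow_mul, ← zpow_mul, mul_comm]

theorem pr_mul {m : ℕ} {ξ η x : kˣ} (hξ : ξ ∈ Mk Φ m) (hη : η ∈ Mk Φ m) (hx : x ∈ Mk Φ m) :
    pr Φ m (ξ * η) x = pr Φ m ξ x * pr Φ m η x := by
  rw [pr_comm (mul_mem_Mk hξ hη) hx, map_mul, pr_comm hx hξ, pr_comm hx hη]

theorem pr_one {m : ℕ} {x : kˣ} (hx : x ∈ Mk Φ m) : pr Φ m 1 x = 1 := by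
  rw [pr_comm (one_mem_Mk (pos_of_mem_Mk hx)) hx, map_one]

theorem pr_zpow {m : ℕ} {ξ x : kˣ} (hξ : ξ ∈ Mk Φ m) (hx : x ∈ Mk Φ m) (n : ℤ) :
    pr Φ m (ξ ^ n) x = pr Φ m ξ x ^ n := by
  rw [pr_comm (zpow_mem_Mk hξ n) hx, map_zpow, pr_comm hx hξ]

theorem pr_pow {m : ℕ} {ξ x : kˣ} (hξ : ξ ∈ Mk Φ m) (hx : x ∈ Mk Φ m) (n : ℕ) :
    pr Φ m (ξ ^ n) x = pr Φ m ξ x ^ n := by
  rw [pr_comm (pow_mem_Mk hξ n) hx, map_pow, pr_comm hx hξ]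

theorem pr_inv {m : ℕ} {ξ x : kˣ} (hξ : ξ ∈ Mk Φ m) (hx : x ∈ Mk Φ m) :
    pr Φ m ξ⁻¹ x = (pr Φ m ξ x)⁻¹ := by
  rw [pr_comm (inv_mem_Mk hξ) hx, map_inv, pr_comm hx hξ]

theorem pr_pow' {m : ℕ} {ξ x : kˣ} (hξ : ξ ∈ Mk Φ m) (hx : x ∈ Mk Φ m) (n : ℕ) :
    pr Φ m (ξ ^ n) x = pr Φ m ξ (x ^ n) := by rw [pr_pow hξ hx, map_pow]

theorem pr_zpow' {m : ℕ} {ξ x : kˣ} (hξ : ξ ∈ Mk Φ m) (hx : x ∈ Mk Φ m) (n : ℤ) :
    pr Φ m (ξ ^ n) x = pr Φ m ξ (x ^ n) := by rw [pr_zpow hξ hx, map_zpow]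

theorem pr_prod {m : ℕ} (hm : 0 < m) {ι : Type*} {s : Finset ι} {f : ι → kˣ}
    (h : ∀ i ∈ s, f i ∈ Mk Φ m) {x : kˣ} (hx : x ∈ Mk Φ m) :
    pr Φ m (∏ i ∈ s, f i) x = ∏ i ∈ s, pr Φ m (f i) x := by
  rw [pr_comm (prod_mem_Mk hm h) hx, map_prod]
  exact Finset.prod_congr rfl fun i hi => pr_comm hx (h i hi)

theorem conj_hom (f : kˣ →* ℂˣ) (x : kˣ) : (starRingEnd ℂ) (f x : ℂ) = (f x⁻¹ : ℂ) := by
  have h : ‖(f x : ℂ)‖ = 1 := by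
    refine Complex.norm_eq_one_of_pow_eq_one (n := orderOf x) ?_ (orderOf_pos_K x).ne'
    rw [← Units.val_pow_eq_pow_val, ← map_pow, pow_orderOf_eq_one, map_one, Units.val_one]
  rw [map_inv, Units.val_inv_eq_inv_val, Complex.inv_eq_conj h]

theorem conj_th (x : kˣ) : (starRingEnd ℂ) (Big.th x : ℂ) = (Big.th x⁻¹ : ℂ) := conj_hom _ x

theorem conj_pr (m : ℕ) (ξ x : kˣ) :
    (starRingEnd ℂ) (pr Φ m ξ x : ℂ) = (pr Φ m ξ x⁻¹ : ℂ) := conj_hom _ x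

theorem exists_gen {m : ℕ} (hm : 0 < m) : ∃ g ∈ Mk Φ m, (Big.th g : ℂ) = zt Φ m := by
  have : NeZero (NN Φ m) := ⟨(NN_pos hm).ne'⟩
  have := neZero_K (Φ := Φ) hm
  obtain ⟨z, hz⟩ := HasEnoughRootsOfUnity.exists_primitiveRoot k (NN Φ m)
  obtain ⟨g, rfl⟩ := hz.isUnit (NeZero.ne _)
  have hg : IsPrimitiveRoot g (NN Φ m) := IsPrimitiveRoot.coe_units_iff.1 hz
  have h1 : IsPrimitiveRoot (Big.th g : ℂ) (NN Φ m) :=
    IsPrimitiveRoot.coe_units_iff.2 (hg.map_of_injective Big.th_inj)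
  obtain ⟨i, -, hi⟩ := h1.eq_pow_of_pow_eq_one (zt_prim hm).pow_eq_one
  exact ⟨g ^ i, pow_mem_Mk ((mem_Mk' hm).2 hg.pow_eq_one) i, by rw [map_pow, ← hi]; simp⟩

/-- the standard generator of `Mk m` -/
noncomputable def gen (Φ : Frob k) (m : ℕ) : kˣ := by
  classical exact if hm : 0 < m then (exists_gen (Φ := Φ) hm).choose else 1

theorem gen_mem {m : ℕ} (hm : 0 < m) : gen Φ m ∈ Mk Φ m := by
  rw [gen, dif_pos hm]; exact (exists_gen hm).choose_spec.1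

theorem th_gen {m : ℕ} (hm : 0 < m) : (Big.th (gen Φ m) : ℂ) = zt Φ m := by
  rw [gen, dif_pos hm]; exact (exists_gen hm).choose_spec.2

theorem gen_pow_lgz {m : ℕ} {ξ : kˣ} (h : ξ ∈ Mk Φ m) : gen Φ m ^ lgz Φ m ξ = ξ :=
  Big.th_inj (Units.ext (by
    rw [map_zpow, Units.val_zpow_eq_zpow_val, th_gen (pos_of_mem_Mk h), th_eq_zt h]))

theorem orderOf_gen {m : ℕ} (hm : 0 < m) : orderOf (gen Φ m) = NN Φ m := by
  rw [← orderOf_th, ← orderOf_units, th_gen hm, ← (zt_prim hm).eq_orderOf]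

theorem pr_gen_right {m : ℕ} {ξ : kˣ} (h : ξ ∈ Mk Φ m) : pr Φ m ξ (gen Φ m) = Big.th ξ := by
  rw [pr_apply, ← map_zpow, gen_pow_lgz h]

theorem pr_gen {m : ℕ} {x : kˣ} (h : x ∈ Mk Φ m) : pr Φ m (gen Φ m) x = Big.th x := by
  rw [pr_comm (gen_mem (pos_of_mem_Mk h)) h, pr_gen_right h]

/-- `th ^ a` on `Mk m` is `pr m (gen m ^ a)` -/
theorem pr_gen_zpow {m : ℕ} {x : kˣ} (h : x ∈ Mk Φ m) (a : ℤ) :
    pr Φ m (gen Φ m ^ a) x = Big.th x ^ a := by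
  rw [pr_zpow (gen_mem (pos_of_mem_Mk h)) h, pr_gen h]

theorem pr_gen_pow {m : ℕ} {x : kˣ} (h : x ∈ Mk Φ m) (a : ℕ) :
    pr Φ m (gen Φ m ^ a) x = Big.th x ^ a := by
  rw [pr_pow (gen_mem (pos_of_mem_Mk h)) h, pr_gen h]

theorem eq_of_pr_eq {m : ℕ} {ξ η : kˣ} (hξ : ξ ∈ Mk Φ m) (hη : η ∈ Mk Φ m)
    (h : ∀ x ∈ Mk Φ m, pr Φ m ξ x = pr Φ m η x) : ξ = η := by
  have := h _ (gen_mem (pos_of_mem_Mk hξ))
  rw [pr_gen_right hξ, pr_gen_right hη] at this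
  exact Big.th_inj this

theorem sum_Mk_mul_left {m : ℕ} {y : kˣ} (hy : y ∈ Mk Φ m) {A : Type*} [AddCommMonoid A]
    (f : kˣ → A) : ∑ x ∈ Mk Φ m, f (y * x) = ∑ x ∈ Mk Φ m, f x :=
  Finset.sum_nbij' (fun x => y * x) (fun x => y⁻¹ * x) (fun _ hx => mul_mem_Mk hy hx)
    (fun _ hx => mul_mem_Mk (inv_mem_Mk hy) hx) (fun x _ => by simp) (fun x _ => by simp)
    fun _ _ => rfl

theorem sum_Mk_pow_q {m : ℕ} (n : ℕ) {A : Type*} [AddCommMonoid A]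
    (f : kˣ → A) : ∑ x ∈ Mk Φ m, f (x ^ Φ.Q ^ n) = ∑ x ∈ Mk Φ m, f x := by
  refine Finset.sum_bij (fun x _ => x ^ Φ.Q ^ n) (fun x hx => zpow_mem_Mk hx _)
    (fun x _ y _ h => pow_q_injective n h) (fun y hy => ?_) fun _ _ => rfl
  have : (Mk Φ m).image (fun x => x ^ Φ.Q ^ n) = Mk Φ m :=
    Finset.eq_of_subset_of_card_le (fun z hz => by
      obtain ⟨x, hx, rfl⟩ := Finset.mem_image.1 hz
      exact zpow_mem_Mk hx _) (by rw [Finset.card_image_of_injective _ (pow_q_injective n)])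
  rw [← this] at hy
  obtain ⟨x, hx, rfl⟩ := Finset.mem_image.1 hy
  exact ⟨x, hx, rfl⟩

theorem sum_pr {m : ℕ} {ξ : kˣ} (hξ : ξ ∈ Mk Φ m) :
    ∑ x ∈ Mk Φ m, (pr Φ m ξ x : ℂ) = if ξ = 1 then (NN Φ m : ℂ) else 0 := by
  have hm := pos_of_mem_Mk hξ
  split_ifs with h
  · subst h
    rw [Finset.sum_congr rfl fun x hx => congrArg Units.val (pr_one hx)]
    simp [card_Mk hm]
  · have h1 := sum_Mk_mul_left (gen_mem (Φ := Φ) hm) fun x => (pr Φ m ξ x : ℂ)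
    simp only [map_mul, Units.val_mul, ← Finset.mul_sum, pr_gen_right hξ] at h1
    have h2 : (Big.th ξ : ℂ) ≠ 1 := fun h2 =>
      h (Big.th_inj ((Units.ext h2).trans (map_one _).symm))
    exact eq_zero_of_mul_eq_self_left h2 h1

theorem sum_pr_left {m : ℕ} {x : kˣ} (hx : x ∈ Mk Φ m) :
    ∑ ξ ∈ Mk Φ m, (pr Φ m ξ x : ℂ) = if x = 1 then (NN Φ m : ℂ) else 0 := by
  rw [← sum_pr hx]
  exact Finset.sum_congr rfl fun ξ hξ => by rw [pr_comm hξ hx]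

theorem sum_pr_conj {m : ℕ} {ξ η : kˣ} (hξ : ξ ∈ Mk Φ m) (hη : η ∈ Mk Φ m) :
    ∑ x ∈ Mk Φ m, (pr Φ m ξ x : ℂ) * (starRingEnd ℂ) (pr Φ m η x : ℂ) =
      if ξ = η then (NN Φ m : ℂ) else 0 := by
  have := sum_pr (mul_mem_Mk hξ (inv_mem_Mk hη))
  simp only [mul_inv_eq_one] at this
  rw [← this]
  refine Finset.sum_congr rfl fun x hx => ?_
  rw [conj_pr, pr_mul hξ (inv_mem_Mk hη) hx, pr_inv hη hx, map_inv, Units.val_mul]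

theorem norm_mem_Mk {c m : ℕ} (h : c ∣ m) {x : kˣ} (hx : x ∈ Mk Φ m) :
    ∏ i ∈ range (m / c), x ^ Φ.Q ^ (c * i) ∈ Mk Φ c := by
  have hm := pos_of_mem_Mk hx
  obtain ⟨m, rfl⟩ := h
  have hc : 0 < c := Nat.pos_of_mul_pos_right hm |> fun _ => Nat.pos_of_ne_zero (by
    rintro rfl; simp at hm)
  rw [mem_Mk'' hc, prod_pow_q, ← zpow_mul, Nat.mul_div_cancel_left _ hc, geom_mul,
    pow_of_mem_Mk'' hx]

theorem zt_pow_geom {c m : ℕ} (hc : 0 < c) (hm : 0 < m) :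
    zt Φ (c * m) ^ (∑ i ∈ range m, Φ.Q ^ (c * i)) = zt Φ c := by
  have h1 := Q_pow_sub_ne (Φ := Φ) hc
  have h2 := Q_pow_sub_ne (Φ := Φ) (Nat.mul_pos hc hm)
  have h3 := congrArg (Int.cast : ℤ → ℂ) (geom_mul (Φ := Φ) c m)
  rw [zt, zt, ← Complex.exp_int_mul]
  congr 1
  rw [Int.cast_mul, Int.cast_sub, Int.cast_sub, Int.cast_pow, Int.cast_pow, Int.cast_one] at h3
  rw [mul_div_assoc', div_eq_div_iff h2 h1, ← h3]
  ring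

/-- compatibility of the pairings with the norm maps -/
theorem pr_compat {c m : ℕ} (h : c ∣ m) {ξ x : kˣ} (hξ : ξ ∈ Mk Φ c) (hx : x ∈ Mk Φ m) :
    pr Φ m ξ x = pr Φ c ξ (∏ i ∈ range (m / c), x ^ Φ.Q ^ (c * i)) := by
  have hk := pos_of_mem_Mk hx
  have hc := pos_of_mem_Mk hξ
  rw [pr_comm (mem_Mk_of_dvd hk h hξ) hx]
  obtain ⟨m, rfl⟩ := h
  have hm : 0 < m := Nat.pos_of_mul_pos_left hk
  apply Units.ext
  rw [Nat.mul_div_cancel_left _ hc, prod_pow_q, pr_val, pr_val, map_zpow,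
    Units.val_zpow_eq_zpow_val, th_eq_zt hξ, th_eq_zt hx, ← zt_pow_geom hc hm]
  simp only [← zpow_mul]
  congr 1
  ring

/-- the norm maps are onto -/
theorem norm_gen {c m : ℕ} (hc : 0 < c) (hm : 0 < m) :
    ∏ i ∈ range m, gen Φ (c * m) ^ Φ.Q ^ (c * i) = gen Φ c :=
  Big.th_inj (Units.ext (by
    rw [prod_pow_q, map_zpow, Units.val_zpow_eq_zpow_val, th_gen (Nat.mul_pos hc hm), th_gen hc,
      zt_pow_geom hc hm]))

theorem exists_norm_eq {c m : ℕ} (hk : 0 < m) (h : c ∣ m) {y : kˣ} (hy : y ∈ Mk Φ c) :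
    ∃ x ∈ Mk Φ m, ∏ i ∈ range (m / c), x ^ Φ.Q ^ (c * i) = y := by
  have hc := pos_of_mem_Mk hy
  obtain ⟨m, rfl⟩ := h
  have hm : 0 < m := Nat.pos_of_mul_pos_left hk
  refine ⟨gen Φ (c * m) ^ lgz Φ c y, zpow_mem_Mk (gen_mem hk) _, ?_⟩
  rw [Nat.mul_div_cancel_left _ hc, prod_pow_q, ← zpow_mul, mul_comm (lgz Φ c y), zpow_mul,
    ← prod_pow_q, norm_gen hc hm, gen_pow_lgz hy]

/-- `pr m z` is `pr 1 z` of the norm -/
theorem pr_of_mem_one {m : ℕ} {z x : kˣ} (hz : z ∈ Mk Φ 1) (hx : x ∈ Mk Φ m) :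
    pr Φ m z x = pr Φ 1 z (∏ i ∈ range m, x ^ Φ.Q ^ i) := by
  simpa using pr_compat (one_dvd m) hz hx

/-! ### powers of the Frobenius map -/

omit [Big k] in
theorem NN_pow {e : ℕ} (he : 0 < e) (m : ℕ) : NN (Φ.pow e) m = NN Φ (e * m) := by
  rw [NN, NN, Φ.Q_pow he, pow_mul]

omit [Big k] in
theorem Mk_pow {e : ℕ} (he : 0 < e) (m : ℕ) : Mk (Φ.pow e) m = Mk Φ (e * m) := by
  have : {x : kˣ | x ^ (Φ.pow e).Q ^ m = x} = {x | x ^ Φ.Q ^ (e * m) = x} := by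
    rw [Φ.Q_pow he, pow_mul]
  rw [Mk, Mk]
  congr! 2

theorem pr_pow_frob {e : ℕ} (he : 0 < e) (m : ℕ) : pr (Φ.pow e) m = pr Φ (e * m) := by
  funext ξ; rw [pr, pr, Φ.Q_pow he, pow_mul]

omit [Big k] in
theorem fr_pow {e : ℕ} (he : 0 < e) : fr (Φ.pow e) = (fr Φ)^[e] := by
  funext x; rw [fr_iterate, fr_apply, Φ.Q_pow he]

end Cfsg.GUn
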