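import Cfsg.Agent.GUn.Ar

/-!
# S4537: arithmetic of the tori, part 2 (`p`-parts, `rpI`, `mulI`, `Φ.pow`); port of `GLn/ArB`
-/

set_option autoImplicit false
set_option linter.unusedSectionVars false

namespace Cfsg.GUn

open Finset Function GLn

universe u

variable {k : Type u} [Field k] [Big k] {Φ : Frob k}

/-! ### orbits of bounded length -/

variable (Φ) in
/-- the orbits whose length divides `m` (`0 < m`) -/
noncomputable def Ok (m : ℕ) : Finset (I Φ) := (Mk Φ m).image (io Φ)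

theorem mem_Ok {m : ℕ} (hk : 0 < m) {o : I Φ} : o ∈ Ok Φ m ↔ o.per ∣ m := by
  rw [Ok, Finset.mem_image]
  constructor
  · rintro ⟨x, hx, rfl⟩
    exact (mem_Mk_per hk).1 hx
  · exact fun h => ⟨o.rep, rep_mem_Mk hk h, io_rep o⟩

theorem sum_Mk_orbits (m : ℕ) {A : Type*} [AddCommMonoid A] (f : kˣ → A) :
    ∑ x ∈ Mk Φ m, f x = ∑ o ∈ Ok Φ m, ∑ x ∈ o.pts, f x := by
  rcases Nat.eq_zero_or_pos m with rfl | hk
  · simp [Ok, Mk_zero]
  exact (allPer Φ).sum_orbits _ _ (fun x => by rw [mem_Mk_per hk, mem_Ok hk]) f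

theorem sum_Mk_io (m : ℕ) {A : Type*} [AddCommMonoid A] (f : I Φ → A) :
    ∑ x ∈ Mk Φ m, f (io Φ x) = ∑ o ∈ Ok Φ m, o.per • f o := by
  rw [sum_Mk_orbits]
  refine Finset.sum_congr rfl fun o _ => ?_
  rw [← o.card_pts, ← Finset.sum_const]
  exact Finset.sum_congr rfl fun x hx => by rw [mem_pts.1 hx]

theorem finite_per_le (n : ℕ) : {o : I Φ | o.per ≤ n}.Finite :=
  (Ok Φ n.factorial).finite_toSet.subset fun o ho =>
    (mem_Ok n.factorial_pos).2 (Nat.dvd_factorial (per_pos o) ho)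

theorem pts_eq (x : kˣ) : (io Φ x).pts = (range (io Φ x).per).image fun i => x ^ Φ.Q ^ i := by
  rw [(allPer Φ).pts_omk, (allPer Φ).per_omk]
  simp only [fr_iterate]

theorem sum_pts_io (x : kˣ) {A : Type*} [AddCommMonoid A] (f : kˣ → A) :
    ∑ y ∈ (io Φ x).pts, f y = ∑ i ∈ range (io Φ x).per, f (x ^ Φ.Q ^ i) := by
  rw [(allPer Φ).sum_pts_omk, (allPer Φ).per_omk]
  simp only [fr_iterate]

theorem sum_range_pow_q (x : kˣ) {A : Type*} [AddCommMonoid A] (f : kˣ → A) {m : ℕ}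
    (hk : (io Φ x).per ∣ m) :
    ∑ i ∈ range m, f (x ^ Φ.Q ^ i) = (m / (io Φ x).per) • ∑ y ∈ (io Φ x).pts, f y := by
  have := Dyn.sum_range_of_dvd (T := fr Φ) x f (k := m) (by rwa [← (allPer Φ).per_omk])
  simp only [fr_iterate, ← (allPer Φ).per_omk] at this
  rw [this, sum_pts_io]

theorem pow_q_eq_pow_q_iff (x : kˣ) (i j : ℕ) :
    x ^ Φ.Q ^ i = x ^ Φ.Q ^ j ↔ i ≡ j [MOD (io Φ x).per] := by
  wlog h : i ≤ j generalizing i j
  · rw [eq_comm, this j i (by omega)]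
    exact ⟨Nat.ModEq.symm, Nat.ModEq.symm⟩
  obtain ⟨d, rfl⟩ := Nat.exists_eq_add_of_le h
  rw [Nat.modEq_iff_dvd' h, Nat.add_sub_cancel_left, per_io_dvd_iff, add_comm, pow_add, zpow_mul]
  exact ⟨fun h => (pow_q_injective i h).symm, fun h => by rw [h]⟩

/-! ### `p`-parts -/

section parts

variable {p : ℕ} [hp : Fact p.Prime]

omit hp in
theorem exists_MG₂ (x y : kˣ) : ∃ H : Subgroup kˣ, Finite H ∧ x ∈ H ∧ y ∈ H := by
  have : NeZero (orderOf x * orderOf y) := ⟨(Nat.mul_pos (orderOf_pos_K x) (orderOf_pos_K y)).ne'⟩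
  refine ⟨rootsOfUnity (orderOf x * orderOf y) k, inferInstance, ?_, ?_⟩
  · rw [mem_rootsOfUnity, pow_mul, pow_orderOf_eq_one, one_pow]
  · rw [mem_rootsOfUnity, mul_comm, pow_mul, pow_orderOf_eq_one, one_pow]

theorem pPartK_mul (x y : kˣ) : pPart p (x * y) = pPart p x * pPart p y := by
  obtain ⟨m, _, hx, hy⟩ := exists_MG₂ x y
  have := congrArg Subtype.val (pPart_mul (p := p) (x := (⟨x, hx⟩ : m)) (y := ⟨y, hy⟩)
    (Commute.all _ _))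
  simpa [coe_pPart] using this

theorem pRegPartK_mul (x y : kˣ) : pRegPart p (x * y) = pRegPart p x * pRegPart p y := by
  simp only [pRegPart, pPartK_mul, mul_inv]
  exact mul_mul_mul_comm _ _ _ _

omit hp [Big k] in
theorem pPartK_inv (x : kˣ) : pPart p x⁻¹ = (pPart p x)⁻¹ := pPart_inv p x

variable (k p) in
/-- the `p`-part as a homomorphism -/
noncomputable def pPartH : kˣ →* kˣ := ⟨⟨pPart p, pPart_one p⟩, pPartK_mul⟩

variable (k p) in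
/-- the `p'`-part as a homomorphism -/
noncomputable def pRegH : kˣ →* kˣ := ⟨⟨pRegPart p, pRegPart_one p⟩, pRegPartK_mul⟩

theorem pPartK_pow (x : kˣ) (n : ℕ) : pPart p (x ^ n) = pPart p x ^ n :=
  map_pow (pPartH k p) x n

theorem pRegPartK_pow (x : kˣ) (n : ℕ) : pRegPart p (x ^ n) = pRegPart p x ^ n :=
  map_pow (pRegH k p) x n

theorem pPartK_zpow (x : kˣ) (n : ℤ) : pPart p (x ^ n) = pPart p x ^ n :=
  map_zpow (pPartH k p) x n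

theorem pRegPartK_zpow (x : kˣ) (n : ℤ) : pRegPart p (x ^ n) = pRegPart p x ^ n :=
  map_zpow (pRegH k p) x n

theorem pRegPartK_inv (x : kˣ) : pRegPart p x⁻¹ = (pRegPart p x)⁻¹ := map_inv (pRegH k p) x

omit [Big k] in
theorem pElt_iff {u : kˣ} : (∃ a : ℕ, orderOf u = p ^ a) ↔ ∃ a : ℕ, u ^ p ^ a = 1 :=
  ⟨fun ⟨a, h⟩ => ⟨a, by rw [← h, pow_orderOf_eq_one]⟩, fun ⟨_, h⟩ =>
    ((Nat.dvd_prime_pow hp.out).1 (orderOf_dvd_of_pow_eq_one h)).imp fun _ h => h.2⟩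

theorem exists_orderOf_pPartK (x : kˣ) : ∃ a : ℕ, orderOf (pPart p x) = p ^ a := by
  obtain ⟨m, _, hx, -⟩ := exists_MG₂ x x
  obtain ⟨a, ha⟩ := exists_orderOf_pPart (p := p) (⟨x, hx⟩ : m)
  exact ⟨a, by rw [← ha, ← Subgroup.orderOf_coe, coe_pPart]⟩

theorem not_dvd_orderOf_pRegPartK (x : kˣ) : ¬ p ∣ orderOf (pRegPart p x) := by
  obtain ⟨m, _, hx, -⟩ := exists_MG₂ x x
  have := not_dvd_orderOf_pRegPart (p := p) (⟨x, hx⟩ : m)
  rwa [← Subgroup.orderOf_coe, coe_pRegPart] at this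

theorem pRegPartK_eq_self_iff {x : kˣ} : pRegPart p x = x ↔ ¬ p ∣ orderOf x := by
  obtain ⟨m, _, hx, -⟩ := exists_MG₂ x x
  have := pRegPart_eq_self_iff (p := p) (g := (⟨x, hx⟩ : m))
  rwa [← Subgroup.orderOf_coe, Subtype.ext_iff, coe_pRegPart] at this

theorem pRegPartK_eq_one_iff {x : kˣ} : pRegPart p x = 1 ↔ ∃ a : ℕ, orderOf x = p ^ a := by
  obtain ⟨m, _, hx, -⟩ := exists_MG₂ x x
  have := pRegPart_eq_one_iff (p := p) (g := (⟨x, hx⟩ : m))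
  rwa [← Subgroup.orderOf_coe, Subtype.ext_iff, coe_pRegPart] at this

theorem pPartK_eq_self_iff {x : kˣ} : pPart p x = x ↔ ∃ a : ℕ, orderOf x = p ^ a := by
  obtain ⟨m, _, hx, -⟩ := exists_MG₂ x x
  have := pPart_eq_self_iff (p := p) (g := (⟨x, hx⟩ : m))
  rwa [← Subgroup.orderOf_coe, Subtype.ext_iff, coe_pPart] at this

theorem pPartK_eq_one_iff {x : kˣ} : pPart p x = 1 ↔ ¬ p ∣ orderOf x := by
  obtain ⟨m, _, hx, -⟩ := exists_MG₂ x x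
  have := pPart_eq_one_iff (p := p) (g := (⟨x, hx⟩ : m))
  rwa [← Subgroup.orderOf_coe, Subtype.ext_iff, coe_pPart] at this

theorem pRegPartK_idem (x : kˣ) : pRegPart p (pRegPart p x) = pRegPart p x :=
  pRegPartK_eq_self_iff.2 (not_dvd_orderOf_pRegPartK x)

theorem pPartK_idem (x : kˣ) : pPart p (pPart p x) = pPart p x :=
  pPartK_eq_self_iff.2 (exists_orderOf_pPartK x)

theorem pRegPartK_pPart (x : kˣ) : pRegPart p (pPart p x) = 1 :=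
  pRegPartK_eq_one_iff.2 (exists_orderOf_pPartK x)

theorem pPartK_pRegPart (x : kˣ) : pPart p (pRegPart p x) = 1 :=
  pPartK_eq_one_iff.2 (not_dvd_orderOf_pRegPartK x)

theorem pRegPartK_mul_of {s u : kˣ} (hs : ¬ p ∣ orderOf s) (hu : ∃ a : ℕ, orderOf u = p ^ a) :
    pRegPart p (s * u) = s := by
  rw [pRegPartK_mul, pRegPartK_eq_self_iff.2 hs, pRegPartK_eq_one_iff.2 hu, mul_one]

theorem pPartK_mul_of {s u : kˣ} (hs : ¬ p ∣ orderOf s) (hu : ∃ a : ℕ, orderOf u = p ^ a) :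
    pPart p (s * u) = u := by
  rw [pPartK_mul, pPartK_eq_one_iff.2 hs, pPartK_eq_self_iff.2 hu, one_mul]

theorem not_dvd_orderOf_mul {s t : kˣ} (hs : ¬ p ∣ orderOf s) (ht : ¬ p ∣ orderOf t) :
    ¬ p ∣ orderOf (s * t) :=
  pPartK_eq_one_iff.1 (by rw [pPartK_mul, pPartK_eq_one_iff.2 hs, pPartK_eq_one_iff.2 ht, one_mul])

omit hp in
theorem pPart_mem_Mk {m : ℕ} {x : kˣ} (hx : x ∈ Mk Φ m) : pPart p x ∈ Mk Φ m :=
  pow_mem_Mk hx _

omit hp in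
theorem pRegPart_mem_Mk {m : ℕ} {x : kˣ} (hx : x ∈ Mk Φ m) : pRegPart p x ∈ Mk Φ m :=
  mul_mem_Mk (inv_mem_Mk (pPart_mem_Mk hx)) hx

omit hp in
theorem reg_io {x : kˣ} : Reg p (io Φ x) ↔ ¬ p ∣ orderOf x := by rw [Reg, orderOf_rep_io]

theorem rpI_io (x : kˣ) : rpI p (io Φ x) = io Φ (pRegPart p x) := by
  obtain ⟨n, hn⟩ := exists_rep_io (Φ := Φ) x
  rw [rpI, hn, pRegPartK_zpow, io_pow_q]

theorem reg_rpI (o : I Φ) : Reg p (rpI p o) := reg_io.2 (not_dvd_orderOf_pRegPartK _)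

theorem rpI_eq_self_iff {o : I Φ} : rpI p o = o ↔ Reg p o :=
  ⟨fun h => h ▸ reg_rpI o, fun h => by rw [rpI, pRegPartK_eq_self_iff.2 h, io_rep]⟩

theorem Reg.rpI_eq {o : I Φ} (h : Reg p o) : rpI p o = o := rpI_eq_self_iff.2 h

theorem rpI_rpI (o : I Φ) : rpI p (rpI p o) = rpI p o := (reg_rpI o).rpI_eq

omit hp in
theorem per_rpI_dvd (o : I Φ) : (rpI p o).per ∣ o.per :=
  (mem_Mk_per (per_pos o)).1 (pRegPart_mem_Mk (rep_mem_Mk (per_pos o) dvd_rfl))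

/-- every orbit over `ψ` is the orbit of `ψ.rep * u` for an `p`-element `u` -/
theorem exists_io_of_rpI {φ ψ : I Φ} (h : rpI p φ = ψ) :
    ∃ u : kˣ, (∃ a : ℕ, orderOf u = p ^ a) ∧ φ = io Φ (ψ.rep * u) := by
  obtain ⟨n, hn⟩ := io_eq_iff.1 (h.trans (io_rep ψ).symm)
  refine ⟨pPart p (φ.rep ^ Φ.Q ^ n), exists_orderOf_pPartK _, ?_⟩
  rw [← hn, ← pRegPartK_zpow, pRegPart_mul_pPart, io_pow_q, io_rep]

theorem rpI_io_mul {s u : kˣ} (hs : ¬ p ∣ orderOf s) (hu : ∃ a : ℕ, orderOf u = p ^ a) :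
    rpI p (io Φ (s * u)) = io Φ s := by rw [rpI_io, pRegPartK_mul_of hs hu]

theorem per_io_mul {s u : kˣ} (h : (orderOf s).Coprime (orderOf u)) :
    (io Φ (s * u)).per = Nat.lcm (io Φ s).per (io Φ u).per := by
  have key : ∀ n, (io Φ (s * u)).per ∣ n ↔ (io Φ s).per ∣ n ∧ (io Φ u).per ∣ n := fun n => by
    simp only [per_io_dvd_iff, pow_q_eq_iff', ← orderOf_dvd_iff_pow_eq_one]
    rw [(Commute.all s u).orderOf_mul_eq_mul_orderOf_of_coprime h]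
    exact ⟨fun h => ⟨dvd_of_mul_right_dvd h, dvd_of_mul_left_dvd h⟩,
      fun h' => h.mul_dvd_of_dvd_of_dvd h'.1 h'.2⟩
  exact Nat.dvd_antisymm ((key _).2 ⟨Nat.dvd_lcm_left _ _, Nat.dvd_lcm_right _ _⟩)
    (Nat.lcm_dvd ((key _).1 dvd_rfl).1 ((key _).1 dvd_rfl).2)

theorem coprime_orderOf_of {s u : kˣ} (hs : ¬ p ∣ orderOf s)
    (hu : ∃ a : ℕ, orderOf u = p ^ a) : (orderOf s).Coprime (orderOf u) := by
  obtain ⟨a, ha⟩ := hu
  rw [ha]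
  exact ((Nat.Prime.coprime_iff_not_dvd hp.out).2 hs).symm.pow_right a

variable (Φ p) in
/-- the `p`-elements of `Mk m` -/
noncomputable def Lk (m : ℕ) : Finset kˣ := (Mk Φ m).filter fun u => pRegPart p u = 1

variable (Φ p) in
/-- the `p'`-elements of `Mk m` -/
noncomputable def Rk (m : ℕ) : Finset kˣ := (Mk Φ m).filter fun s => ¬ p ∣ orderOf s

theorem mem_Lk {m : ℕ} {u : kˣ} :
    u ∈ Lk Φ p m ↔ u ∈ Mk Φ m ∧ ∃ a : ℕ, orderOf u = p ^ a := by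
  rw [Lk, mem_filter, pRegPartK_eq_one_iff]

omit hp in
theorem mem_Rk {m : ℕ} {s : kˣ} : s ∈ Rk Φ p m ↔ s ∈ Mk Φ m ∧ ¬ p ∣ orderOf s := by
  rw [Rk, mem_filter]

theorem nl_pos (m : ℕ) : 0 < nl Φ p m := pow_pos hp.out.pos _

omit hp in
theorem nl_dvd (m : ℕ) : nl Φ p m ∣ NN Φ m := Nat.ordProj_dvd _ _

theorem mem_Lk' {m : ℕ} (hk : 0 < m) {u : kˣ} : u ∈ Lk Φ p m ↔ u ^ nl Φ p m = 1 := by
  rw [mem_Lk, mem_Mk_orderOf hk, ← orderOf_dvd_iff_pow_eq_one]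
  constructor
  · rintro ⟨h, a, ha⟩
    rw [ha] at h ⊢
    exact pow_dvd_pow _ ((hp.out.pow_dvd_iff_le_factorization (NN_pos hk).ne').1 h)
  · intro h
    obtain ⟨a, -, ha⟩ := (Nat.dvd_prime_pow hp.out).1 h
    exact ⟨h.trans (nl_dvd m), a, ha⟩

omit hp in
/-- the number of `r`-th roots of unity -/
theorem card_roots {r m : ℕ} (hk : 0 < m) (hr : r ∣ NN Φ m) (S : Finset kˣ)
    (hS : ∀ x, x ∈ S ↔ x ^ r = 1) : #S = r := by
  have : NeZero (NN Φ m) := ⟨(NN_pos hk).ne'⟩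
  have := neZero_K (Φ := Φ) hk
  have : NeZero r := ⟨fun h => (NeZero.ne (NN Φ m)) (by rw [h] at hr; simpa using hr)⟩
  have := HasEnoughRootsOfUnity.of_dvd k hr
  rw [← HasEnoughRootsOfUnity.natCard_rootsOfUnity k r, ← Nat.card_eq_finsetCard]
  exact Nat.card_congr (Equiv.subtypeEquivRight fun x => by rw [hS, mem_rootsOfUnity])

theorem card_Lk {m : ℕ} (hk : 0 < m) : #(Lk Φ p m) = nl Φ p m :=
  card_roots hk (nl_dvd m) _ fun _ => mem_Lk' hk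

theorem one_mem_Lk {m : ℕ} (hk : 0 < m) : (1 : kˣ) ∈ Lk Φ p m := (mem_Lk' hk).2 (one_pow _)

/-- splitting `Mk m` into `p'`- and `p`-parts -/
theorem sum_Mk_split (m : ℕ) {A : Type*} [AddCommMonoid A] (f : kˣ → A) :
    ∑ x ∈ Mk Φ m, f x = ∑ s ∈ Rk Φ p m, ∑ u ∈ Lk Φ p m, f (s * u) := by
  rw [← Finset.sum_product']
  refine Finset.sum_nbij' (fun x => (pRegPart p x, pPart p x)) (fun y => y.1 * y.2)
    (fun x hx => ?_) (fun y hy => ?_) (fun x _ => pRegPart_mul_pPart p x) (fun y hy => ?_)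
    fun x _ => by rw [pRegPart_mul_pPart]
  · exact mem_product.2 ⟨mem_Rk.2 ⟨pRegPart_mem_Mk hx, not_dvd_orderOf_pRegPartK x⟩,
      mem_Lk.2 ⟨pPart_mem_Mk hx, exists_orderOf_pPartK x⟩⟩
  · exact mul_mem_Mk (mem_Rk.1 (mem_product.1 hy).1).1 (mem_Lk.1 (mem_product.1 hy).2).1
  · have h1 := (mem_Rk.1 (mem_product.1 hy).1).2
    have h2 := (mem_Lk.1 (mem_product.1 hy).2).2
    exact Prod.ext (pRegPartK_mul_of h1 h2) (pPartK_mul_of h1 h2)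

omit hp in
theorem e0_dvd_iff (m : ℕ) : e0 Φ p ∣ m ↔ p ∣ NN Φ m := by
  rw [e0, orderOf_dvd_iff_pow_eq_one, zmod_pow_eq_one_iff, dvd_NN_iff]

omit hp in
theorem e0_dvd_iff' (m : ℕ) : e0 Φ p ∣ m ↔ (p : ℤ) ∣ Φ.Q ^ m - 1 := by
  rw [e0_dvd_iff, dvd_NN_iff]

theorem e0_pos (h : p ≠ ringChar k) : 0 < e0 Φ p :=
  orderOf_zmod_pos hp.out.pos (coprime_q_prime hp.out h)

theorem e0_dvd_sub_one (h : p ≠ ringChar k) : e0 Φ p ∣ p - 1 := by
  refine ZMod.orderOf_dvd_card_sub_one fun h0 => ?_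
  have := e0_pos (Φ := Φ) h
  rw [e0, h0, orderOf_zero] at this
  exact this.false

theorem e0_lt (h : p ≠ ringChar k) : e0 Φ p < p := by
  have h1 := hp.out.two_le
  have := Nat.le_of_dvd (by omega) (e0_dvd_sub_one (Φ := Φ) h)
  omega

omit hp in
theorem e0_eq_one_iff : e0 Φ p = 1 ↔ p ∣ NN Φ 1 := by
  rw [← Nat.dvd_one, e0_dvd_iff]

theorem one_lt_nl_iff {m : ℕ} (hk : 0 < m) : 1 < nl Φ p m ↔ e0 Φ p ∣ m := by
  rw [e0_dvd_iff, nl_eq, hp.out.dvd_iff_one_le_factorization (NN_pos hk).ne']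
  constructor
  · intro h
    by_contra h0
    rw [show (NN Φ m).factorization p = 0 by omega] at h
    simp at h
  · exact fun h => Nat.one_lt_pow (by omega) hp.out.one_lt

theorem nl_eq_one_iff {m : ℕ} (hk : 0 < m) : nl Φ p m = 1 ↔ ¬ e0 Φ p ∣ m := by
  rw [← one_lt_nl_iff hk]
  have := nl_pos (Φ := Φ) (p := p) m
  omega

/-- the length of the orbit of a non-trivial `p`-element -/
theorem per_io_of_pElt (h : p ≠ ringChar k) {u : kˣ} (hu : ∃ a : ℕ, orderOf u = p ^ a)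
    (h1 : u ≠ 1) : ∃ b, (io Φ u).per = e0 Φ p * p ^ b := by
  obtain ⟨_ | a, ha⟩ := hu
  · exact absurd (orderOf_eq_one_iff.1 (by simpa using ha)) h1
  have h2 : e0 Φ p ∣ (io Φ u).per := by
    rw [e0_dvd_iff]
    exact (ha ▸ dvd_pow_self p a.succ_ne_zero).trans
      ((mem_Mk_orderOf (per_pos _)).1 (mem_Mk_self u))
  have h3 : (io Φ u).per ∣ e0 Φ p * p ^ a := by
    rw [per_io_dvd_iff, pow_q_eq_iff', ← orderOf_dvd_iff_pow_eq_one, ha, dvd_NN_iff, pow_mul]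
    simpa using dvd_sub_pow_of_dvd_sub ((e0_dvd_iff' (Φ := Φ) (p := p) _).1 dvd_rfl) a
  obtain ⟨c, hc⟩ := h2
  rw [hc] at h3
  obtain ⟨b, -, rfl⟩ := (Nat.dvd_prime_pow hp.out).1 (Nat.dvd_of_mul_dvd_mul_left (e0_pos h) h3)
  exact ⟨b, hc⟩

omit hp in
theorem per_mul_ee (o : I Φ) : o.per * ee p o = Nat.lcm o.per (e0 Φ p) := by
  rw [ee, Nat.lcm, Nat.mul_div_assoc _ (Nat.gcd_dvd_right _ _)]

theorem ee_pos (h : p ≠ ringChar k) (o : I Φ) : 0 < ee p o :=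
  Nat.div_pos (Nat.le_of_dvd (e0_pos h) (Nat.gcd_dvd_right _ _))
    (Nat.gcd_pos_of_pos_left _ (per_pos o))

omit hp in
theorem ee_dvd_e0 (o : I Φ) : ee p o ∣ e0 Φ p := Nat.div_dvd_of_dvd (Nat.gcd_dvd_right _ _)

theorem ee_lt (h : p ≠ ringChar k) (o : I Φ) : ee p o < p :=
  (Nat.le_of_dvd (e0_pos h) (ee_dvd_e0 o)).trans_lt (e0_lt h)

omit hp in
theorem e0_dvd_per_mul_iff (o : I Φ) (m : ℕ) : e0 Φ p ∣ o.per * m ↔ ee p o ∣ m := by
  rw [← Nat.mul_dvd_mul_iff_left (b := ee p o) (per_pos o), per_mul_ee, Nat.lcm_dvd_iff]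
  exact ⟨fun h => ⟨dvd_mul_right _ _, h⟩, fun h => h.2⟩

omit hp in
theorem ee_congr {o o' : I Φ} (h : o.per = o'.per) : ee p o = ee p o' := by rw [ee, ee, h]

theorem e0_dvd_per_of_not_reg {φ : I Φ} (h : ¬ Reg p φ) : e0 Φ p ∣ φ.per := by
  rw [e0_dvd_iff]
  exact (not_not.1 h).trans ((mem_Mk_orderOf (per_pos φ)).1 (rep_mem_Mk (per_pos φ) dvd_rfl))

theorem ee_dvd_of_not_reg {φ : I Φ} (h : ¬ Reg p φ) :
    ee p (rpI p φ) ∣ φ.per / (rpI p φ).per := by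
  rw [← e0_dvd_per_mul_iff, Nat.mul_div_cancel' (per_rpI_dvd φ)]
  exact e0_dvd_per_of_not_reg h

/-- the exact length of a non-regular orbit -/
theorem per_of_not_reg (h : p ≠ ringChar k) {φ : I Φ} (hφ : ¬ Reg p φ) :
    ∃ b, φ.per = Nat.lcm (rpI p φ).per (e0 Φ p * p ^ b) := by
  have h1 : pPart p φ.rep ≠ 1 := fun h1 => hφ (pPartK_eq_one_iff.1 h1)
  obtain ⟨b, hb⟩ := per_io_of_pElt h (exists_orderOf_pPartK φ.rep) h1
  refine ⟨b, ?_⟩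
  rw [← hb, rpI, ← per_io_mul (coprime_orderOf_of (not_dvd_orderOf_pRegPartK _)
    (exists_orderOf_pPartK _)), pRegPart_mul_pPart, io_rep]

/-- the elements of `Mk m` over an `p'`-orbit -/
theorem sum_Mk_rpI {ψ : I Φ} (hψ : Reg p ψ) {m : ℕ} (hk : 0 < m) (hd : ψ.per ∣ m) {A : Type*}
    [AddCommMonoid A] (f : kˣ → A) :
    ∑ x ∈ Mk Φ m with rpI p (io Φ x) = ψ, f x = ∑ s ∈ ψ.pts, ∑ u ∈ Lk Φ p m, f (s * u) := by
  rw [Finset.sum_filter, sum_Mk_split (p := p)]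
  have h1 : ψ.pts = (Rk Φ p m).filter fun s => io Φ s = ψ := by
    ext s
    rw [mem_filter, mem_pts, mem_Rk]
    refine ⟨fun h => ⟨⟨(mem_Mk_per hk).2 (h ▸ hd), reg_io.1 (h ▸ hψ)⟩, h⟩, fun h => h.2⟩
  rw [h1, Finset.sum_filter]
  refine Finset.sum_congr rfl fun s hs => ?_
  rw [Finset.sum_congr rfl fun u hu => by rw [rpI_io_mul (mem_Rk.1 hs).2 (mem_Lk.1 hu).2]]
  split_ifs <;> simp

theorem sum_per_rpI {ψ : I Φ} (hψ : Reg p ψ) {m : ℕ} (hk : 0 < m) (hd : ψ.per ∣ m) :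
    ∑ o ∈ Ok Φ m with rpI p o = ψ, o.per = ψ.per * nl Φ p m := by
  have h1 := sum_Mk_rpI hψ hk hd fun _ => 1
  rw [Finset.sum_filter, sum_Mk_io m fun o => if rpI p o = ψ then 1 else 0] at h1
  rw [Finset.sum_filter]
  simp only [smul_eq_mul, mul_ite, mul_one, mul_zero, Finset.sum_const, card_Lk hk,
    Dyn.Orb.card_pts] at h1
  exact h1

end parts

/-! ### `mulI` -/

theorem pr_eq_one {m : ℕ} {ξ x : kˣ} (hξ : ξ ∈ Mk Φ m) (hx : x ∈ Mk Φ m)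
    (h : (orderOf ξ).Coprime (orderOf x)) : pr Φ m ξ x = 1 := by
  have h2 : pr Φ m ξ x ^ orderOf x = 1 := by rw [← map_pow, pow_orderOf_eq_one, map_one]
  have h3 : pr Φ m ξ x ^ orderOf ξ = 1 := by
    rw [pr_comm hξ hx, ← map_pow, pow_orderOf_eq_one, map_one]
  have := pow_gcd_eq_one.2 ⟨h3, h2⟩
  rwa [h.gcd_eq_one, pow_one] at this

variable {z w : kˣ}

theorem mulI_io (hz : z ∈ Mk Φ 1) (x : kˣ) : mulI z (io Φ x) = io Φ (z * x) := by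
  obtain ⟨n, hn⟩ := exists_rep_io (Φ := Φ) x
  rw [mulI, hn, ← io_pow_q (z * x) n, mul_zpow, pow_q_of_mem_one hz]

@[simp] theorem mulI_one (o : I Φ) : mulI 1 o = o := by rw [mulI, one_mul, io_rep]

theorem mulI_mul (hz : z ∈ Mk Φ 1) (w : kˣ) (o : I Φ) : mulI (z * w) o = mulI z (mulI w o) := by
  rw [mulI.eq_1 w, mulI_io hz, mulI, mul_assoc]

theorem mulI_inv_mulI (hz : z ∈ Mk Φ 1) (o : I Φ) : mulI z⁻¹ (mulI z o) = o := by
  rw [← mulI_mul (inv_mem_Mk hz), inv_mul_cancel, mulI_one]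

theorem mulI_mulI_inv (hz : z ∈ Mk Φ 1) (o : I Φ) : mulI z (mulI z⁻¹ o) = o := by
  rw [← mulI_mul hz, mul_inv_cancel, mulI_one]

theorem mulI_comm (hz : z ∈ Mk Φ 1) (hw : w ∈ Mk Φ 1) (o : I Φ) :
    mulI z (mulI w o) = mulI w (mulI z o) := by
  rw [← mulI_mul hz, mul_comm, mulI_mul hw]

/-- `mulI` as a permutation -/
noncomputable def mulE (hz : z ∈ Mk Φ 1) : I Φ ≃ I Φ :=
  ⟨mulI z, mulI z⁻¹, mulI_inv_mulI hz, mulI_mulI_inv hz⟩

theorem mulI_injective (hz : z ∈ Mk Φ 1) : Injective (mulI z : I Φ → I Φ) := (mulE hz).injective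

theorem mulI_surjective (hz : z ∈ Mk Φ 1) : Surjective (mulI z : I Φ → I Φ) :=
  (mulE hz).surjective

theorem per_mulI (hz : z ∈ Mk Φ 1) (o : I Φ) : (mulI z o).per = o.per := by
  have key : ∀ z ∈ Mk Φ 1, ∀ o : I Φ, (mulI z o).per ∣ o.per := fun z hz o =>
    (mem_Mk_per (per_pos o)).1 (mul_mem_Mk (mem_Mk_of_dvd (per_pos o) (one_dvd _) hz)
      (rep_mem_Mk (per_pos o) dvd_rfl))
  refine Nat.dvd_antisymm (key z hz o) ?_
  simpa only [mulI_inv_mulI hz] using key z⁻¹ (inv_mem_Mk hz) (mulI z o)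

theorem ee_mulI (p : ℕ) (hz : z ∈ Mk Φ 1) (o : I Φ) : ee p (mulI z o) = ee p o :=
  ee_congr (per_mulI hz o)

theorem mulI_eq_iff {o : I Φ} : mulI z o = o ↔ ∃ i, z * o.rep = o.rep ^ Φ.Q ^ i := by
  rw [eq_comm, mulI]
  conv_lhs => lhs; rw [← io_rep o]
  rw [io_eq_iff]
  exact ⟨fun ⟨i, h⟩ => ⟨i, h.symm⟩, fun ⟨i, h⟩ => ⟨i, h.symm⟩⟩

theorem exists_pow_eq {r : ℕ} (hr : 0 < r) (y : kˣ) : ∃ x : kˣ, x ^ r = y := by
  obtain ⟨z, hz⟩ := IsAlgClosed.exists_pow_nat_eq (y : k) hr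
  have h0 : z ≠ 0 := by
    rintro rfl
    rw [zero_pow hr.ne'] at hz
    exact y.ne_zero hz.symm
  exact ⟨Units.mk0 z h0, Units.ext (by simpa using hz)⟩

section parts

variable {p : ℕ} [hp : Fact p.Prime]

theorem rpI_mulI (hz : z ∈ Mk Φ 1) (o : I Φ) :
    rpI p (mulI z o) = mulI (pRegPart p z) (rpI p o) := by
  rw [mulI, rpI_io, rpI, mulI_io (pRegPart_mem_Mk hz), pRegPartK_mul]

theorem rpI_mulI_of (hz : z ∈ Mk Φ 1) (h : ¬ p ∣ orderOf z) (o : I Φ) :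
    rpI p (mulI z o) = mulI z (rpI p o) := by
  rw [rpI_mulI hz, pRegPartK_eq_self_iff.2 h]

theorem Reg.mulI (h : ¬ p ∣ orderOf z) {o : I Φ} (ho : Reg p o) : Reg p (mulI z o) :=
  reg_io.2 (not_dvd_orderOf_mul h ho)

theorem reg_mulI_iff (hz : z ∈ Mk Φ 1) (h : ¬ p ∣ orderOf z) {o : I Φ} :
    Reg p (mulI z o) ↔ Reg p o :=
  ⟨fun ho => by simpa only [mulI_inv_mulI hz] using ho.mulI (z := z⁻¹) (by rwa [orderOf_inv]),
    Reg.mulI h⟩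

omit hp in
/-- if `p` does not divide `Q - 1` all elements of `Mk 1` are `p`-regular -/
theorem not_dvd_orderOf_Mk_one (h : ¬ p ∣ NN Φ 1) (hz : z ∈ Mk Φ 1) : ¬ p ∣ orderOf z :=
  fun h1 => h (h1.trans ((mem_Mk_orderOf one_pos).1 hz))

end parts

/-! ### the powers of the Frobenius map -/

section pow

variable {e : ℕ}

omit [Big k] in
theorem Q_pow_pow (he : 0 < e) (n : ℕ) : (Φ.pow e).Q ^ n = Φ.Q ^ (e * n) := by
  rw [Φ.Q_pow he, pow_mul]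

theorem io_pow_eq_iff (he : 0 < e) {x y : kˣ} :
    io (Φ.pow e) x = io (Φ.pow e) y ↔ ∃ n : ℕ, x ^ Φ.Q ^ (e * n) = y := by
  simp only [io_eq_iff, Q_pow_pow he]

theorem io_eq_of_io_pow (he : 0 < e) {x y : kˣ} (h : io (Φ.pow e) x = io (Φ.pow e) y) :
    io Φ x = io Φ y := by
  obtain ⟨n, rfl⟩ := (io_pow_eq_iff he).1 h
  rw [io_pow_q]

theorem per_io_pow_dvd_iff (he : 0 < e) (x : kˣ) (n : ℕ) :
    (io (Φ.pow e) x).per ∣ n ↔ (io Φ x).per ∣ e * n := by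
  rw [per_io_dvd_iff, per_io_dvd_iff, Q_pow_pow he]

theorem mul_per_io_pow (he : 0 < e) (x : kˣ) :
    e * (io (Φ.pow e) x).per = Nat.lcm (io Φ x).per e := by
  refine Nat.dvd_antisymm ?_
    (Nat.lcm_dvd ((per_io_pow_dvd_iff he x _).1 dvd_rfl) (dvd_mul_right _ _))
  obtain ⟨c, hc⟩ := Nat.dvd_lcm_right (io Φ x).per e
  rw [hc]
  exact Nat.mul_dvd_mul_left _ ((per_io_pow_dvd_iff he x _).2 (hc ▸ Nat.dvd_lcm_left _ _))

theorem per_io_pow (he : 0 < e) (x : kˣ) :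
    (io (Φ.pow e) x).per = (io Φ x).per / Nat.gcd (io Φ x).per e := by
  refine Nat.eq_of_mul_eq_mul_left he ?_
  rw [mul_per_io_pow he, Nat.lcm, mul_comm, Nat.mul_div_assoc _ (Nat.gcd_dvd_left _ _)]

omit [Big k] in
theorem nl_pow (he : 0 < e) (p m : ℕ) : nl (Φ.pow e) p m = nl Φ p (e * m) := by
  rw [nl_eq, nl_eq, NN_pow he]

theorem Rk_pow (he : 0 < e) (p m : ℕ) : Rk (Φ.pow e) p m = Rk Φ p (e * m) := by
  rw [Rk, Rk, Mk_pow he]

theorem Lk_pow (he : 0 < e) (p m : ℕ) : Lk (Φ.pow e) p m = Lk Φ p (e * m) := by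
  rw [Lk, Lk, Mk_pow he]

end pow

end Cfsg.GUn
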