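import Cfsg.Agent.GUn.ArB
import Cfsg.Agent.GLn.ArC

/-!
# S4537: multipartitions (`act`, `deg`, `nn`, `cd`, `ww`); port of `GLn/ArC`
-/

set_option autoImplicit false
set_option linter.unusedSectionVars false

namespace Cfsg.GUn

open Finset Function
open GLn (Bt sz rc sz_zero Bt.sz_eq_zero_iff Bt.sz_add_tri rc_one clsF_eq_of_rc)

universe u

variable {k : Type u} [Field k] [Big k] {Φ : Frob k} {N : ℕ} {z w : kˣ}

theorem fsp_apply {f : I Φ → Bt N} (h : (Function.support f).Finite) (o : I Φ) :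
    fsp f o = f o := by
  rw [fsp, dif_pos h]
  rfl

theorem act_apply (hz : z ∈ Mk Φ 1) (μ : MP Φ N) (φ : I Φ) : act z μ φ = μ (mulI z⁻¹ φ) :=
  fsp_apply ((μ.hasFiniteSupport.preimage (mulI_injective (inv_mem_Mk hz)).injOn).subset fun _ h => h) φ

theorem act_apply_mulI (hz : z ∈ Mk Φ 1) (μ : MP Φ N) (φ : I Φ) : act z μ (mulI z φ) = μ φ := by
  rw [act_apply hz, mulI_inv_mulI hz]

theorem act_eq (hz : z ∈ Mk Φ 1) (μ : MP Φ N) : act z μ = μ.equivMapDomain (mulE hz) :=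
  Finsupp.ext fun φ => act_apply hz μ φ

@[simp] theorem act_one (μ : MP Φ N) : act 1 μ = μ :=
  Finsupp.ext fun φ => by rw [act_apply (one_mem_Mk one_pos), inv_one, mulI_one]

theorem act_mul (hz : z ∈ Mk Φ 1) (hw : w ∈ Mk Φ 1) (μ : MP Φ N) :
    act (z * w) μ = act z (act w μ) := Finsupp.ext fun φ => by
  rw [act_apply hz, act_apply hw, act_apply (mul_mem_Mk hz hw), ← mulI_mul (inv_mem_Mk hw),
    mul_inv_rev]

theorem act_injective (hz : z ∈ Mk Φ 1) : Injective (act z : MP Φ N → MP Φ N) := fun μ ν h => by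
  rw [← act_one μ, ← act_one ν, ← inv_mul_cancel z, act_mul (inv_mem_Mk hz) hz,
    act_mul (inv_mem_Mk hz) hz, h]

theorem act_pow_of (hz : z ∈ Mk Φ 1) {μ : MP Φ N} (h : act z μ = μ) (j : ℕ) : act (z ^ j) μ = μ := by
  induction j with
  | zero => rw [pow_zero, act_one]
  | succ j ih => rw [pow_succ, act_mul (pow_mem_Mk hz j) hz, h, ih]

theorem act_inv_of (hz : z ∈ Mk Φ 1) {μ : MP Φ N} (h : act z μ = μ) : act z⁻¹ μ = μ := by
  conv_lhs => rw [← h, ← act_mul (inv_mem_Mk hz) hz, inv_mul_cancel, act_one]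

theorem act_eq_self_iff (hz : z ∈ Mk Φ 1) {μ : MP Φ N} :
    act z μ = μ ↔ ∀ φ, μ (mulI z φ) = μ φ :=
  ⟨fun h φ => by conv_lhs => rw [← h, act_apply_mulI hz],
    fun h => Finsupp.ext fun φ => by rw [act_apply hz, ← h, mulI_mulI_inv hz]⟩

theorem mem_support_act (hz : z ∈ Mk Φ 1) {μ : MP Φ N} {φ : I Φ} :
    φ ∈ (act z μ).support ↔ mulI z⁻¹ φ ∈ μ.support := by
  rw [Finsupp.mem_support_iff, Finsupp.mem_support_iff, act_apply hz]

theorem sum_act (hz : z ∈ Mk Φ 1) (μ : MP Φ N) {A : Type*} [AddCommMonoid A] (g : I Φ → Bt N → A) :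
    (act z μ).sum g = μ.sum fun o X => g (mulI z o) X := by
  rw [act_eq hz, Finsupp.sum_equivMapDomain]
  rfl

theorem prod_act (hz : z ∈ Mk Φ 1) (μ : MP Φ N) {A : Type*} [CommMonoid A] (g : I Φ → Bt N → A) :
    (act z μ).prod g = μ.prod fun o X => g (mulI z o) X := by
  rw [act_eq hz, Finsupp.prod_equivMapDomain]
  rfl

theorem deg_act (hz : z ∈ Mk Φ 1) (μ : MP Φ N) : deg (act z μ) = deg μ := by
  simp only [deg, sum_act hz, per_mulI hz]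

theorem deg_eq_sum (μ : MP Φ N) {s : Finset (I Φ)} (hs : μ.support ⊆ s) :
    deg μ = ∑ o ∈ s, o.per * sz N (μ o).1 :=
  Finsupp.sum_of_support_subset μ hs _ fun _ _ => by simp

theorem per_mul_sz_le_deg (μ : MP Φ N) (o : I Φ) : o.per * sz N (μ o).1 ≤ deg μ := by
  rw [deg_eq_sum μ (Finset.subset_insert o _)]
  exact Finset.single_le_sum (f := fun o : I Φ => o.per * sz N (μ o).1) (fun _ _ => Nat.zero_le _)
    (mem_insert_self _ _)

theorem sz_le_deg (μ : MP Φ N) (o : I Φ) : sz N (μ o).1 ≤ deg μ :=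
  (Nat.le_mul_of_pos_left _ (per_pos o)).trans (per_mul_sz_le_deg μ o)

theorem deg_eq_zero_iff {μ : MP Φ N} : deg μ = 0 ↔ μ = 0 :=
  ⟨fun h => Finsupp.ext fun o => Bt.sz_eq_zero_iff.1 (Nat.le_zero.1 (h ▸ sz_le_deg μ o)),
    fun h => by rw [h, deg, Finsupp.sum_zero_index]⟩

theorem deg_single (o : I Φ) (X : Bt N) : deg (Finsupp.single o X) = o.per * sz N X.1 := by
  rw [deg, Finsupp.sum_single_index (by simp)]

/-! ### `nn`, `cd`, `ww` -/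

variable {p : ℕ}

theorem nn_eq_sum (μ : MP Φ N) (ψ : I Φ) {s : Finset (I Φ)} (hs : μ.support ⊆ s) :
    nn p μ ψ = ∑ φ ∈ s with rpI p φ = ψ, φ.per / ψ.per * sz N (μ φ).1 := by
  rw [Finset.sum_filter]
  exact Finsupp.sum_of_support_subset μ hs _ fun _ _ => by simp

theorem per_mul_nn (μ : MP Φ N) (ψ : I Φ) {s : Finset (I Φ)} (hs : μ.support ⊆ s) :
    ψ.per * nn p μ ψ = ∑ φ ∈ s with rpI p φ = ψ, φ.per * sz N (μ φ).1 := by
  rw [nn_eq_sum μ ψ hs, Finset.mul_sum]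
  refine Finset.sum_congr rfl fun φ h => ?_
  rw [← mul_assoc, Nat.mul_div_cancel' ((mem_filter.1 h).2 ▸ per_rpI_dvd φ)]

theorem deg_eq_sum_nn (μ : MP Φ N) {t : Finset (I Φ)} (ht : ∀ φ ∈ μ.support, rpI p φ ∈ t) :
    deg μ = ∑ ψ ∈ t, ψ.per * nn p μ ψ := by
  rw [deg_eq_sum μ Subset.rfl, ← Finset.sum_fiberwise_of_maps_to ht]
  exact Finset.sum_congr rfl fun ψ _ => (per_mul_nn μ ψ Subset.rfl).symm

theorem per_div_pos (φ : I Φ) : 0 < φ.per / (rpI p φ).per :=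
  Nat.div_pos (Nat.le_of_dvd (per_pos φ) (per_rpI_dvd φ)) (per_pos _)

theorem nn_eq_zero_iff {μ : MP Φ N} {ψ : I Φ} :
    nn p μ ψ = 0 ↔ ∀ φ, rpI p φ = ψ → μ φ = 0 := by
  rw [nn_eq_sum μ ψ Subset.rfl, Finset.sum_eq_zero_iff]
  constructor
  · intro h φ hφ
    by_contra h0
    have := h φ (mem_filter.2 ⟨Finsupp.mem_support_iff.2 h0, hφ⟩)
    rcases Nat.mul_eq_zero.1 this with h1 | h1
    · exact (hφ ▸ per_div_pos φ).ne' h1
    · exact h0 (Bt.sz_eq_zero_iff.1 h1)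
  · intro h φ hφ
    rw [h φ (mem_filter.1 hφ).2, sz_zero, mul_zero]

theorem finite_support_nn (μ : MP Φ N) : (Function.support (nn p μ)).Finite :=
  (μ.hasFiniteSupport.image (rpI p)).subset fun ψ h => by
    by_contra h1
    refine h (nn_eq_zero_iff.2 fun φ hφ => ?_)
    by_contra h2
    exact h1 ⟨φ, h2, hφ⟩

theorem per_mul_nn_le_deg (μ : MP Φ N) (ψ : I Φ) : ψ.per * nn p μ ψ ≤ deg μ := by
  rw [per_mul_nn μ ψ Subset.rfl, deg_eq_sum μ Subset.rfl]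
  exact Finset.sum_le_sum_of_subset (Finset.filter_subset _ _)

theorem nn_le_deg (μ : MP Φ N) (ψ : I Φ) : nn p μ ψ ≤ deg μ :=
  (Nat.le_mul_of_pos_left _ (per_pos ψ)).trans (per_mul_nn_le_deg μ ψ)

theorem cd_of_reg (μ : MP Φ N) {ψ : I Φ} (h : Reg p ψ) :
    cd p μ ψ = (nn p μ ψ, rc (ee p ψ) (μ ψ).1) := by rw [cd, if_pos h]

theorem cd_of_not_reg (μ : MP Φ N) {ψ : I Φ} (h : ¬ Reg p ψ) : cd p μ ψ = 0 := by
  rw [cd, if_neg h]

theorem ww_of_reg (μ : MP Φ N) {ψ : I Φ} (h : Reg p ψ) : ww p μ ψ =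
    (nn p μ ψ + SymCh.tri N - SymCh.base (SymCh.clsF (ee p ψ) (μ ψ).1)) / ee p ψ := by
  rw [ww, if_pos h]

theorem ww_of_not_reg (μ : MP Φ N) {ψ : I Φ} (h : ¬ Reg p ψ) : ww p μ ψ = 0 := by
  rw [ww, if_neg h]

theorem reg_of_ww_pos {μ : MP Φ N} {ψ : I Φ} (h : 0 < ww p μ ψ) : Reg p ψ := by
  by_contra h1
  rw [ww_of_not_reg μ h1] at h
  exact lt_irrefl _ h

theorem rc_eq_of_cd {μ ν : MP Φ N} (h : cd p μ = cd p ν) {ψ : I Φ} (hψ : Reg p ψ) :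
    rc (ee p ψ) (μ ψ).1 = rc (ee p ψ) (ν ψ).1 := by
  have := congrFun h ψ
  rw [cd_of_reg μ hψ, cd_of_reg ν hψ] at this
  exact congrArg Prod.snd this

theorem ww_le_nn (μ : MP Φ N) (ψ : I Φ) : ww p μ ψ ≤ nn p μ ψ := by
  by_cases h : Reg p ψ
  · rw [ww_of_reg μ h]
    rcases Nat.eq_zero_or_pos (ee p ψ) with h0 | h0
    · rw [Nat.div_eq_zero_iff.2 (Or.inl h0)]; exact Nat.zero_le _
    · have h2 := SymCh.tri_le_base (SymCh.clsF (ee p ψ) (μ ψ).1)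
      rw [SymCh.sum_clsF h0, (μ ψ).2] at h2
      exact (Nat.div_le_self _ _).trans (by omega)
  · rw [ww_of_not_reg μ h]; exact Nat.zero_le _

theorem finite_support_ww (μ : MP Φ N) : (Function.support (ww p μ)).Finite :=
  (finite_support_nn (p := p) μ).subset fun ψ h h0 => h (Nat.le_zero.1 (h0 ▸ ww_le_nn μ ψ))

theorem W_eq_sum (μ : MP Φ N) {t : Finset (I Φ)} (ht : ∀ ψ, 0 < ww p μ ψ → ψ ∈ t) :
    W p μ = ∑ ψ ∈ t, ww p μ ψ :=
  finsum_eq_sum_of_support_subset _ fun ψ h => ht ψ (Nat.pos_of_ne_zero h)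

variable [hp : Fact p.Prime]

theorem nn_of_not_reg (μ : MP Φ N) {ψ : I Φ} (h : ¬ Reg p ψ) : nn p μ ψ = 0 :=
  nn_eq_zero_iff.2 fun φ hφ => absurd (hφ ▸ reg_rpI φ) h

theorem nn_eq_of_cd {μ ν : MP Φ N} (h : cd p μ = cd p ν) : nn p μ = nn p ν := funext fun ψ => by
  by_cases hψ : Reg p ψ
  · have := congrFun h ψ
    rw [cd_of_reg μ hψ, cd_of_reg ν hψ] at this
    exact congrArg Prod.fst this
  · rw [nn_of_not_reg μ hψ, nn_of_not_reg ν hψ]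

theorem cd_eq_iff {μ ν : MP Φ N} : cd p μ = cd p ν ↔ ∀ ψ, Reg p ψ →
    nn p μ ψ = nn p ν ψ ∧ rc (ee p ψ) (μ ψ).1 = rc (ee p ψ) (ν ψ).1 := by
  refine ⟨fun h ψ hψ => ⟨congrFun (nn_eq_of_cd h) ψ, rc_eq_of_cd h hψ⟩, fun h => funext fun ψ => ?_⟩
  by_cases hψ : Reg p ψ
  · rw [cd_of_reg μ hψ, cd_of_reg ν hψ, (h ψ hψ).1, (h ψ hψ).2]
  · rw [cd_of_not_reg μ hψ, cd_of_not_reg ν hψ]

theorem ww_eq_of_cd {μ ν : MP Φ N} (h : cd p μ = cd p ν) : ww p μ = ww p ν := funext fun ψ => by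
  by_cases hψ : Reg p ψ
  · rw [ww_of_reg μ hψ, ww_of_reg ν hψ, nn_eq_of_cd h, clsF_eq_of_rc (rc_eq_of_cd h hψ)]
  · rw [ww_of_not_reg μ hψ, ww_of_not_reg ν hψ]

theorem W_eq_of_cd {μ ν : MP Φ N} (h : cd p μ = cd p ν) : W p μ = W p ν := by
  rw [W, W, ww_eq_of_cd h]

theorem deg_eq_of_cd {μ ν : MP Φ N} (h : cd p μ = cd p ν) : deg μ = deg ν := by
  rw [deg_eq_sum_nn (p := p) μ (t := (μ.support ∪ ν.support).image (rpI p))
      fun φ hφ => mem_image_of_mem _ (mem_union_left _ hφ),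
    deg_eq_sum_nn (p := p) ν (t := (μ.support ∪ ν.support).image (rpI p))
      fun φ hφ => mem_image_of_mem _ (mem_union_right _ hφ), nn_eq_of_cd h]

theorem nn_act (hz : z ∈ Mk Φ 1) (μ : MP Φ N) (ψ : I Φ) :
    nn p (act z μ) ψ = nn p μ (mulI (pRegPart p z)⁻¹ ψ) := by
  have hr := pRegPart_mem_Mk (p := p) hz
  simp only [nn, sum_act hz, per_mulI hz, per_mulI (inv_mem_Mk hr), rpI_mulI hz]
  refine Finsupp.sum_congr fun φ _ => if_congr ?_ rfl rfl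
  exact ⟨fun h => by rw [← h, mulI_inv_mulI hr], fun h => by rw [h, mulI_mulI_inv hr]⟩

theorem ee_eq_one (h : p ∣ NN Φ 1) (o : I Φ) : ee p o = 1 :=
  Nat.dvd_one.1 (e0_eq_one_iff.2 h ▸ ee_dvd_e0 o)

theorem cd_act (hz : z ∈ Mk Φ 1) (μ : MP Φ N) (ψ : I Φ) :
    cd p (act z μ) ψ = cd p μ (mulI (pRegPart p z)⁻¹ ψ) := by
  have h1 : ¬ p ∣ orderOf (pRegPart p z)⁻¹ := by
    rw [orderOf_inv]; exact not_dvd_orderOf_pRegPartK z
  have hr := inv_mem_Mk (pRegPart_mem_Mk (p := p) hz)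
  by_cases hψ : Reg p ψ
  · rw [cd_of_reg _ hψ, cd_of_reg _ (hψ.mulI h1), nn_act hz, ee_mulI _ hr, act_apply hz]
    by_cases h2 : p ∣ orderOf z
    · rw [ee_eq_one (h2.trans ((mem_Mk_orderOf one_pos).1 hz))]
      exact Prod.ext rfl (funext fun j => by simp only [rc_one])
    · rw [pRegPartK_eq_self_iff.2 h2]
  · rw [cd_of_not_reg _ hψ, cd_of_not_reg _ fun h => hψ ((reg_mulI_iff hr h1).1 h)]

theorem cd_act_congr (hz : z ∈ Mk Φ 1) {μ ν : MP Φ N} (h : cd p μ = cd p ν) :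
    cd p (act z μ) = cd p (act z ν) := funext fun ψ => by rw [cd_act hz, cd_act hz, h]

theorem cd_act_of_pElt (hz : z ∈ Mk Φ 1) (h : ∃ a, orderOf z = p ^ a) (μ : MP Φ N) :
    cd p (act z μ) = cd p μ := funext fun ψ => by
  rw [cd_act hz, pRegPartK_eq_one_iff.2 h, inv_one, mulI_one]

theorem ww_act (hz : z ∈ Mk Φ 1) (μ : MP Φ N) (ψ : I Φ) :
    ww p (act z μ) ψ = ww p μ (mulI (pRegPart p z)⁻¹ ψ) := by
  have h1 : ¬ p ∣ orderOf (pRegPart p z)⁻¹ := by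
    rw [orderOf_inv]; exact not_dvd_orderOf_pRegPartK z
  have hr := inv_mem_Mk (pRegPart_mem_Mk (p := p) hz)
  by_cases hψ : Reg p ψ
  · have h := cd_act (p := p) hz μ ψ
    rw [cd_of_reg _ hψ, cd_of_reg _ (hψ.mulI h1), ee_mulI _ hr] at h
    rw [ww_of_reg _ hψ, ww_of_reg _ (hψ.mulI h1), nn_act hz, ee_mulI _ hr,
      clsF_eq_of_rc (congrArg Prod.snd h)]
  · rw [ww_of_not_reg _ hψ, ww_of_not_reg _ fun h => hψ ((reg_mulI_iff hr h1).1 h)]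

/-- the part of `nn` coming from the non-regular orbits -/
theorem nn_eq_sz_add (μ : MP Φ N) {ψ : I Φ} (hψ : Reg p ψ) : nn p μ ψ = sz N (μ ψ).1 +
    ∑ φ ∈ μ.support.erase ψ with rpI p φ = ψ, φ.per / ψ.per * sz N (μ φ).1 := by
  rw [nn_eq_sum μ ψ (s := insert ψ (μ.support.erase ψ)) (Finset.subset_insert_iff.2 Subset.rfl),
    Finset.filter_insert, if_pos hψ.rpI_eq, Finset.sum_insert (by simp),
    Nat.div_self (per_pos ψ), one_mul]

theorem Basic.nn_eq {μ : MP Φ N} (h : Basic p μ) {ψ : I Φ} (hψ : Reg p ψ) :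
    nn p μ ψ = sz N (μ ψ).1 := by
  rw [nn_eq_sz_add μ hψ, Finset.sum_eq_zero, add_zero]
  intro φ hφ
  obtain ⟨h1, h2⟩ := mem_filter.1 hφ
  obtain ⟨h3, h4⟩ := mem_erase.1 h1
  exact absurd ((h φ h4).rpI_eq.symm.trans h2) h3

/-- the weight as a sum -/
theorem ww_eq (hc : p ≠ ringChar k) (μ : MP Φ N) {ψ : I Φ} (hψ : Reg p ψ) :
    ww p μ ψ = SymCh.wt (ee p ψ) (μ ψ).1 + ∑ φ ∈ μ.support.erase ψ with rpI p φ = ψ,
      φ.per / ψ.per / ee p ψ * sz N (μ φ).1 := by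
  have he := ee_pos hc ψ
  have h1 : ∑ φ ∈ μ.support.erase ψ with rpI p φ = ψ, φ.per / ψ.per * sz N (μ φ).1 =
      ee p ψ * ∑ φ ∈ μ.support.erase ψ with rpI p φ = ψ,
        φ.per / ψ.per / ee p ψ * sz N (μ φ).1 := by
    rw [Finset.mul_sum]
    refine Finset.sum_congr rfl fun φ hφ => ?_
    obtain ⟨h1, h2⟩ := mem_filter.1 hφ
    have h3 : ¬ Reg p φ := fun h => (mem_erase.1 h1).1 (h.rpI_eq.symm.trans h2)
    rw [← mul_assoc, Nat.mul_div_cancel' (h2 ▸ ee_dvd_of_not_reg h3)]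
  have h2 := Bt.sz_add_tri (μ ψ)
  rw [SymCh.sum_eq_base_add he] at h2
  rw [ww_of_reg μ hψ, nn_eq_sz_add μ hψ, h1]
  refine Nat.div_eq_of_eq_mul_right he ?_
  rw [mul_add]
  omega

theorem nn_add_tri (hc : p ≠ ringChar k) (μ : MP Φ N) {ψ : I Φ} (hψ : Reg p ψ) :
    nn p μ ψ + SymCh.tri N =
      SymCh.base (SymCh.clsF (ee p ψ) (μ ψ).1) + ee p ψ * ww p μ ψ := by
  have he := ee_pos hc ψ
  have h1 : ∑ φ ∈ μ.support.erase ψ with rpI p φ = ψ, φ.per / ψ.per * sz N (μ φ).1 =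
      ee p ψ * ∑ φ ∈ μ.support.erase ψ with rpI p φ = ψ,
        φ.per / ψ.per / ee p ψ * sz N (μ φ).1 := by
    rw [Finset.mul_sum]
    refine Finset.sum_congr rfl fun φ hφ => ?_
    obtain ⟨h1, h2⟩ := mem_filter.1 hφ
    have h3 : ¬ Reg p φ := fun h => (mem_erase.1 h1).1 (h.rpI_eq.symm.trans h2)
    rw [← mul_assoc, Nat.mul_div_cancel' (h2 ▸ ee_dvd_of_not_reg h3)]
  have h2 := Bt.sz_add_tri (μ ψ)
  rw [SymCh.sum_eq_base_add he] at h2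
  rw [ww_eq hc μ hψ, nn_eq_sz_add μ hψ, h1, mul_add]
  omega

/-- weight zero: an `e`-core at `ψ` and nothing at the other orbits over `ψ` -/
theorem ww_eq_zero_iff (hc : p ≠ ringChar k) (μ : MP Φ N) {ψ : I Φ} (hψ : Reg p ψ) :
    ww p μ ψ = 0 ↔ SymCh.wt (ee p ψ) (μ ψ).1 = 0 ∧ ∀ φ, φ ≠ ψ → rpI p φ = ψ → μ φ = 0 := by
  rw [ww_eq hc μ hψ, Nat.add_eq_zero_iff, Finset.sum_eq_zero_iff]
  refine and_congr_right fun _ => ⟨fun h φ h1 h2 => ?_, fun h φ hφ => ?_⟩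
  · by_contra h0
    have := h φ (mem_filter.2 ⟨mem_erase.2 ⟨h1, Finsupp.mem_support_iff.2 h0⟩, h2⟩)
    have h3 : ¬ Reg p φ := fun h => h1 (h.rpI_eq.symm.trans h2)
    rcases Nat.mul_eq_zero.1 this with h4 | h4
    · subst h2
      exact (Nat.div_pos (Nat.le_of_dvd (per_div_pos φ) (ee_dvd_of_not_reg h3))
        (ee_pos hc _)).ne' h4
    · exact h0 (Bt.sz_eq_zero_iff.1 h4)
  · rw [h φ (mem_erase.1 (mem_filter.1 hφ).1).1 (mem_filter.1 hφ).2, sz_zero, mul_zero]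

theorem ww_eq_nn (h : p ∣ NN Φ 1) (μ : MP Φ N) (ψ : I Φ) : ww p μ ψ = nn p μ ψ := by
  by_cases hψ : Reg p ψ
  · rw [ww_of_reg μ hψ, ee_eq_one h, Nat.div_one]
    have : SymCh.base (SymCh.clsF 1 (μ ψ).1) = SymCh.tri N := by
      have h1 := SymCh.sum_clsF (p := 1) one_pos (μ ψ).1
      rw [(μ ψ).2] at h1
      simp only [SymCh.base, Fin.sum_univ_one, Fin.isValue, Fin.val_zero, zero_mul, add_zero,
        one_mul] at h1 ⊢
      rw [h1]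
    omega
  · rw [ww_of_not_reg μ hψ, nn_of_not_reg μ hψ]

end Cfsg.GUn
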