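import Cfsg.Agent.GUn.JtB

/-!
# S4537: Frobenius stable products of matrix algebras
-/

set_option autoImplicit false

namespace Cfsg.GUn

open Matrix Finset

universe u v w

variable {k : Type u} [Field k] {Φ : Frob k}

/-! ### matrices -/

section
variable {ι : Type v} [Fintype ι] [DecidableEq ι] {κ : Type w} [Fintype κ] [DecidableEq κ]

open Polynomial Module GLn in
/-- nilpotent matrices of every type -/
theorem exists_jt {l : Multiset ℕ} (h0 : 0 ∉ l) (hl : l.sum = Fintype.card ι) :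
    ∃ A : Matrix ι ι k, IsNilpotent A ∧ jt A = l := by
  classical
  obtain ⟨n, hn⟩ : ∃ n, l.card = n := ⟨_, rfl⟩
  obtain ⟨c, rfl⟩ := BL.exists_fin_of_card l hn
  have hm := fun i => (monic_X_sub_C (0 : k)).pow (c i)
  haveI := fun i => (hm i).finite_adjoinRoot
  obtain ⟨φ⟩ := (FiniteDimensional.nonempty_linearEquiv_iff_finrank_eq (R := k) (M := ι → k)
    (M' := Π i, AdjoinRoot ((X - C (0 : k)) ^ c i))).2 (by
      rw [finrank_fintype_fun_eq_card, finrank_pi_fintype, ← hl]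
      exact sum_congr rfl fun i _ => by rw [finrank_adjoinRoot (hm i).ne_zero]; simp)
  have h : MM (LinearMap.toMatrix' (φ.symm.conj (piRoot fun i => (X - C (0 : k)) ^ c i))) _
      (piRoot fun i => (X - C (0 : k)) ^ c i) := ⟨φ, fun x => by simp⟩
  have := MM.jt_jordan (c := fun i => (0, c i)) (fun i => Nat.pos_of_ne_zero fun e =>
    h0 (e ▸ Multiset.mem_map_of_mem _ (mem_univ i))) h 0
  rw [zero_smul, sub_zero, filter_true_of_mem fun _ _ => rfl] at this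
  exact ⟨_, isNilpotent_iff_sum_jt.2 (this ▸ hl), this⟩

theorem exists_GL_jt (ξ : kˣ) {l : Multiset ℕ} (h0 : 0 ∉ l) (hl : l.sum = Fintype.card ι) :
    ∃ g : GL ι k, IsNilpotent (g.val - (ξ : k) • 1) ∧ jt (g.val - (ξ : k) • 1) = l := by
  obtain ⟨A, h1, h2⟩ := exists_jt (k := k) h0 hl
  obtain ⟨g, hg⟩ := h1.isUnit_add_left_of_commute (scal ι ξ).isUnit (by
    rw [scal_val]; exact (Commute.one_right A).smul_right _)
  exact ⟨g, by rwa [hg, scal_val, add_sub_cancel_left], by rwa [hg, scal_val, add_sub_cancel_left]⟩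

theorem eq_zero_of_intertwine {A : Matrix ι ι k} {B : Matrix κ κ k} (hB : B.charpoly.Splits)
    (h : ∀ τ ∈ B.charpoly.roots, τ ∉ A.charpoly.roots) {Y : Matrix ι κ k} (hY : A * Y = Y * B) :
    Y = 0 := by
  classical
  have := finrank_ker_syl A hB (s := B.charpoly.roots.toFinset) fun _ => Multiset.mem_toFinset.2
  rw [sum_eq_zero fun τ hτ => by
    rw [jt_sub_eq_zero_iff.2 (h τ (Multiset.mem_toFinset.1 hτ))]; rfl,
    Submodule.finrank_eq_zero] at this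
  exact (Submodule.mem_bot k).1 (this ▸ mem_ker_syl.2 hY)

theorem eq_zero_of_eig [IsAlgClosed k] {g : GL ι k} {h : GL κ k} (H : ∀ α ∈ eig h, α ∉ eig g)
    {Y : Matrix ι κ k} (hY : g.val * Y = Y * h.val) : Y = 0 :=
  eq_zero_of_intertwine (IsAlgClosed.splits _) (fun τ h1 h2 => by
    rw [← eig_map_val] at h1
    obtain ⟨α, hα, rfl⟩ := Multiset.mem_map.1 h1
    exact H α hα (mem_eig.2 h2)) hY

theorem exists_perm_GL (σ : Equiv.Perm ι) :
    ∃ w : GL ι k, ∀ M : Matrix ι ι k, w.val * M * (w⁻¹).val = M.submatrix σ σ :=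
  ⟨⟨σ.toPEquiv.toMatrix, σ.symm.toPEquiv.toMatrix, by
    rw [← PEquiv.toMatrix_trans, ← Equiv.toPEquiv_trans]; simp, by
    rw [← PEquiv.toMatrix_trans, ← Equiv.toPEquiv_trans]; simp⟩,
    fun M => by
      change σ.toPEquiv.toMatrix * M * σ.symm.toPEquiv.toMatrix = _
      rw [PEquiv.toMatrix_toPEquiv_mul, PEquiv.mul_toMatrix_toPEquiv]; rfl⟩

theorem blockDiagonal'_mul_apply {σ : Type*} [Fintype σ] [DecidableEq σ] {n : σ → Type*}
    [∀ i, Fintype (n i)] {ρ : Type*} (M : ∀ i, Matrix (n i) (n i) k) (Z : Matrix (Σ i, n i) ρ k)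
    (x : σ) (i : n x) (c : ρ) : (blockDiagonal' M * Z) ⟨x, i⟩ c = ∑ l, M x i l * Z ⟨x, l⟩ c := by
  rw [mul_apply, Fintype.sum_sigma, sum_eq_single x]
  · simp
  · exact fun y _ h => sum_eq_zero fun l _ => by rw [blockDiagonal'_apply_ne _ _ _ h.symm, zero_mul]
  · simp

theorem mul_blockDiagonal'_apply {σ : Type*} [Fintype σ] [DecidableEq σ] {n : σ → Type*}
    [∀ i, Fintype (n i)] {ρ : Type*} (M : ∀ i, Matrix (n i) (n i) k) (Z : Matrix ρ (Σ i, n i) k)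
    (x : σ) (i : n x) (c : ρ) : (Z * blockDiagonal' M) c ⟨x, i⟩ = ∑ l, Z c ⟨x, l⟩ * M x l i := by
  rw [mul_apply, Fintype.sum_sigma, sum_eq_single x]
  · simp
  · exact fun y _ h => sum_eq_zero fun l _ => by rw [blockDiagonal'_apply_ne _ _ _ h, mul_zero]
  · simp

end

theorem kr_apply (r : ℕ) {n : ℕ} (A : Matrix (Fin n) (Fin n) k) (x y : Fin r × Fin n) :
    kr r A x y = if x.1 = y.1 then A x.2 y.2 else 0 := by
  simp [kr, one_apply]

theorem kr_injective {r n : ℕ} (hr : 0 < r) :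
    Function.Injective (kr r : Matrix (Fin n) (Fin n) k → _) := fun A B h => by
  ext i j
  simpa [kr_apply] using congrFun (congrFun h (⟨0, hr⟩, i)) (⟨0, hr⟩, j)

theorem mat_kr (r : ℕ) {n : ℕ} (A : Matrix (Fin n) (Fin n) k) : Φ.mat (kr r A) = kr r (Φ.mat A) := by
  unfold Frob.mat
  split_ifs <;> ext <;> simp [kr_apply, apply_ite Φ.σ, eq_comm]

/-! ### cyclic shifts -/

/-- reduction modulo `n` -/
def fm {n : ℕ} (hn : 0 < n) (i : ℕ) : Fin n := ⟨i % n, Nat.mod_lt _ hn⟩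

theorem finRotate_val {n : ℕ} (i : Fin n) : (finRotate n i : ℕ) = (i + 1) % n := by
  cases n with
  | zero => exact i.elim0
  | succ n => rw [finRotate_apply, Fin.val_add, Fin.val_one', Nat.add_mod_mod]

theorem prev_val {n : ℕ} (i : Fin n) : (((finRotate n).symm i : ℕ) + 1) % n = i := by
  rw [← finRotate_val, Equiv.apply_symm_apply]

theorem prev_fm {n : ℕ} (hn : 0 < n) (i : ℕ) : (finRotate n).symm (fm hn (i + 1)) = fm hn i := by
  rw [Equiv.symm_apply_eq, Fin.ext_iff, finRotate_val]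
  exact (Nat.mod_add_mod _ _ _).symm

theorem fm_val {n : ℕ} (hn : 0 < n) (i : Fin n) : fm hn i = i := Fin.ext (Nat.mod_eq_of_lt i.2)

theorem fm_self {n : ℕ} (hn : 0 < n) : fm hn n = ⟨0, hn⟩ := Fin.ext (Nat.mod_self n)

theorem fm_prev {n : ℕ} (hn : 0 < n) (i : Fin n) : fm hn ((finRotate n).symm i + 1) = i :=
  Fin.ext (prev_val i)

variable {ι : Type} [Fintype ι] [DecidableEq ι] {J : Type v} [Fintype J] [DecidableEq J]
  {d m δ : J → ℕ}

/-- `prev` as a permutation -/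
def prevE (d : J → ℕ) : Equiv.Perm (Om d) := Equiv.sigmaCongrRight fun j => (finRotate (d j)).symm

omit [Fintype J] [DecidableEq J] in
theorem prev_injective : Function.Injective (prev : Om d → Om d) := (prevE d).injective

omit [Fintype J] [DecidableEq J] in
theorem prev_surjective : Function.Surjective (prev : Om d → Om d) := (prevE d).surjective

omit [Fintype J] [DecidableEq J] in
theorem spread_injective (hd : ∀ j, 0 < d j) : Function.Injective (spread Φ d m) := fun _ _ h =>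
  funext fun j => Subtype.ext (congrFun h ⟨j, ⟨0, hd j⟩⟩)

omit [Fintype J] [DecidableEq J] in
theorem mem_range_spread (hd : ∀ j, 0 < d j) {a : Π x : Om d, GL (Fin (m x.1)) k}
    (h : ∀ x, Φ.Fr _ (a (prev x)) = a x) : a ∈ (spread Φ d m).range := by
  have key (j) (i : ℕ) : (Φ.Fr _)^[i] (a ⟨j, ⟨0, hd j⟩⟩) = a ⟨j, fm (hd j) i⟩ := by
    induction i with
    | zero => rfl
    | succ i ih => rw [Function.iterate_succ_apply', ih, ← h ⟨j, fm (hd j) (i + 1)⟩, ← prev_fm]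
  refine ⟨fun j => ⟨a ⟨j, ⟨0, hd j⟩⟩, (mem_G_pow (hd j)).2 (by rw [key, fm_self])⟩, ?_⟩
  funext ⟨j, i⟩
  rw [spread_apply, key, fm_val]

omit [Fintype J] [DecidableEq J] in
/-- Lang's theorem in the product -/
theorem lang_prod [Big k] (hL : StLang k) (hd : ∀ j, 0 < d j)
    (a : Π x : Om d, GL (Fin (m x.1)) k) :
    ∃ b : Π x : Om d, GL (Fin (m x.1)) k, a = b⁻¹ * fun x => Φ.Fr _ (b (prev x)) := by
  have (j : J) : ∃ b : ℕ → GL (Fin (m j)) k, b (d j) = b 0 ∧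
      ∀ i, b (i + 1) = Φ.Fr _ (b i) * (a ⟨j, fm (hd j) (i + 1)⟩)⁻¹ := by
    let c : ℕ → GL (Fin (m j)) k := fun n =>
      n.rec 1 fun i y => Φ.Fr _ y * (a ⟨j, fm (hd j) (i + 1)⟩)⁻¹
    obtain ⟨h, hh⟩ := hL (Φ.pow (d j)) _ (c (d j))⁻¹
    refine ⟨fun i => (Φ.Fr _)^[i] h * c i, ?_, fun i => ?_⟩
    · beta_reduce
      rw [← Φ.Fr_pow (hd j), ← inv_inv (c (d j)), hh]
      simp [c]
    · simp only [Function.iterate_succ_apply', map_mul, mul_assoc, c]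
  choose b h0 h using this
  refine ⟨fun x => b x.1 x.2, funext fun ⟨j, i⟩ => ?_⟩
  have h1 := h j ((finRotate (d j)).symm i)
  have h2 : b j ((finRotate (d j)).symm i + 1) = b j i := by
    rw [← prev_val i]
    rcases (Nat.succ_le_of_lt ((finRotate (d j)).symm i).2).eq_or_lt with e | e
    · rw [show ((finRotate (d j)).symm i : ℕ) + 1 = d j from e, Nat.mod_self, h0]
    · rw [Nat.mod_eq_of_lt e]
  rw [fm_prev, h2, eq_mul_inv_iff_mul_eq] at h1
  exact eq_inv_mul_iff_mul_eq.2 h1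

/-! ### the embeddings -/

section
variable (e : (Σ x : Om d, Fin (δ x.1) × Fin (m x.1)) ≃ ι) (h : GL ι k)

include e in
theorem card_of_equiv : Fintype.card ι = ∑ j, d j * (δ j * m j) := by
  rw [← Fintype.card_congr e]
  simp [Fintype.sum_sigma]

theorem emb_injective (hδ : ∀ j, 0 < δ j) : Function.Injective (emb e h) := fun a b H => by
  rw [emb_apply, emb_apply, Units.mul_left_inj, Units.mul_right_inj] at H
  exact funext fun x => kr_injective (hδ _)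
    (congrFun (blockDiagonal'_injective ((reindex e e).injective H)) x)

theorem emb_mul_left (g : GL ι k) (a : Π x : Om d, Matrix (Fin (m x.1)) (Fin (m x.1)) k) :
    emb e (g * h) a = g.val * emb e h a * (g⁻¹).val := by
  simp only [emb_apply, _root_.mul_inv_rev, Units.val_mul, Matrix.mul_assoc]

theorem rank_emb (a : Π x : Om d, Matrix (Fin (m x.1)) (Fin (m x.1)) k) :
    (emb e h a).rank = ∑ x : Om d, δ x.1 * (a x).rank := by
  rw [emb_apply, rank_conj, rank_reindex, bdg, rank_blockDiagonal']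
  exact sum_congr rfl fun x _ => rank_kr _ _

theorem jt_emb (a : Π x : Om d, Matrix (Fin (m x.1)) (Fin (m x.1)) k) :
    jt (emb e h a) = ∑ x : Om d, δ x.1 • jt (a x) :=
  jt_eq_sum_of_rank fun j => by rw [← map_pow, rank_emb]; rfl

theorem jt_emb_sub (a : Π x : Om d, Matrix (Fin (m x.1)) (Fin (m x.1)) k) (τ : k) :
    jt (emb e h a - τ • 1) = ∑ x : Om d, δ x.1 • jt (a x - τ • 1) := by
  rw [← map_one (emb e h), ← map_smul, ← map_sub, jt_emb]; rfl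

theorem trace_emb (a : Π x : Om d, Matrix (Fin (m x.1)) (Fin (m x.1)) k) :
    (emb e h a).trace = ∑ x : Om d, δ x.1 • (a x).trace := by
  rw [emb_apply, trace_mul_cycle, Units.inv_mul, Matrix.one_mul,
    show (reindex e e (bdg δ a)).trace = (bdg δ a).trace from
      Equiv.sum_comp e.symm fun x => bdg δ a x x, bdg, trace_blockDiagonal']
  simp [kr, trace_kronecker]

theorem isUnit_of_emb (hδ : ∀ j, 0 < δ j) {a : Π x : Om d, Matrix (Fin (m x.1)) (Fin (m x.1)) k}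
    (H : IsUnit (emb e h a)) (x : Om d) : IsUnit (a x) := by
  rw [← jt_eq_zero_iff, jt_emb, sum_eq_zero_iff] at H
  simpa [(hδ _).ne', jt_eq_zero_iff] using H x (mem_univ x)

end

/-- intertwiners between blocks without common constituents -/
theorem mem_range_emb (e : (Σ x : Om d, Fin 1 × Fin (m x.1)) ≃ ι) (h : GL ι k)
    {a b : Π x : Om d, Matrix (Fin (m x.1)) (Fin (m x.1)) k} {Z : Matrix ι ι k}
    (hZ : emb (δ := fun _ => 1) e h b * Z = Z * emb (δ := fun _ => 1) e h a)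
    (H : ∀ x y, x ≠ y → ∀ Y : Matrix (Fin (m x.1)) (Fin (m y.1)) k,
      b x * Y = Y * a y → Y = 0) :
    Z ∈ (emb (δ := fun _ => 1) e h).range := by
  obtain ⟨Z, rfl⟩ : ∃ Z', Z = h.val * reindex e e Z' * (h⁻¹).val :=
    ⟨(reindex e e).symm ((h⁻¹).val * Z * h.val), by simp [Matrix.mul_assoc]⟩
  have h1 : bdg (fun _ => 1) b * Z = Z * bdg (fun _ => 1) a := by
    simp only [emb_apply, Matrix.mul_assoc, Units.inv_mul_cancel_left, Units.mul_right_inj] at hZ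
    simp only [← Matrix.mul_assoc, Units.mul_left_inj, reindex_apply, submatrix_mul_equiv] at hZ
    exact (reindex e e).injective hZ
  refine ⟨fun x => of fun i j => Z ⟨x, 0, i⟩ ⟨x, 0, j⟩, ?_⟩
  refine (emb_apply _ _ _).trans ?_
  congr 3
  ext ⟨x, u, i⟩ ⟨y, v, j⟩
  obtain rfl := Subsingleton.elim u 0
  obtain rfl := Subsingleton.elim v 0
  by_cases hxy : x = y
  · subst hxy
    simp [bdg, kr_apply]
  · rw [bdg, blockDiagonal'_apply_ne _ _ _ hxy]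
    refine (congrFun (congrFun (H x y hxy (of fun i j => Z ⟨x, 0, i⟩ ⟨y, 0, j⟩) ?_) i) j).symm
    ext i j
    have := congrFun (congrFun h1 ⟨x, 0, i⟩) ⟨y, 0, j⟩
    rw [bdg, bdg, blockDiagonal'_mul_apply, mul_blockDiagonal'_apply] at this
    simpa [Fintype.sum_prod_type, kr_apply, mul_apply] using this

theorem stEmb [Big k] (hL : StLang k) : StEmb k := fun Φ ι _ _ J _ _ d m hd hc => by
  obtain ⟨e⟩ : Nonempty ((Σ x : Om d, Fin 1 × Fin (m x.1)) ≃ ι) :=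
    Fintype.card_eq.1 (by simp [hc, Fintype.sum_sigma])
  let π : Equiv.Perm (Σ x : Om d, Fin 1 × Fin (m x.1)) :=
    { toFun x := ⟨prev x.1, x.2⟩
      invFun x := ⟨⟨x.1.1, finRotate _ x.1.2⟩, x.2⟩
      left_inv := fun ⟨⟨j, i⟩, u⟩ => congrArg
        (fun i => (⟨⟨j, i⟩, u⟩ : Σ x : Om d, Fin 1 × Fin (m x.1))) (Equiv.apply_symm_apply _ i)
      right_inv := fun ⟨⟨j, i⟩, u⟩ => congrArg
        (fun i => (⟨⟨j, i⟩, u⟩ : Σ x : Om d, Fin 1 × Fin (m x.1))) (Equiv.symm_apply_apply _ i) }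
  obtain ⟨w, hw⟩ := exists_perm_GL (k := k) (e.symm.trans (π.trans e))
  obtain ⟨h, rfl⟩ := hL Φ ι w
  refine ⟨⟨e, h, hd, fun a => ?_⟩⟩
  have h1 : Φ.mat (bdg (fun _ => 1) a) = bdg (fun _ => 1) fun x => Φ.mat (a x) := by
    simp only [bdg, ← mat_kr]
    unfold Frob.mat
    split_ifs
    · rw [blockDiagonal'_map _ _ (map_zero _), blockDiagonal'_transpose]
    · rw [blockDiagonal'_map _ _ (map_zero _)]
  rw [emb_apply, emb_apply, mat_conj, mat_reindex, h1]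
  have h2 := hw (reindex e e (bdg (fun _ => 1) fun x => Φ.mat (a x)))
  simp only [_root_.mul_inv_rev, inv_inv, Units.val_mul, Matrix.mul_assoc,
    Units.inv_mul_eq_iff_eq_mul] at h2
  simp only [← Matrix.mul_assoc] at h2
  rw [Units.eq_mul_inv_iff_mul_eq, h2]
  congr 1
  ext i j
  obtain ⟨⟨x, u⟩, rfl⟩ := e.surjective i
  obtain ⟨⟨y, v⟩, rfl⟩ := e.surjective j
  by_cases hxy : x = y
  · subst hxy
    simp [bdg, π]
  · simp [bdg, π, blockDiagonal'_apply_ne _ _ _ hxy,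
      blockDiagonal'_apply_ne _ _ _ (prev_injective.ne hxy)]

/-! ### the group embeddings -/

namespace Dec

variable (D : Dec ι d m δ Φ)

/-- the embedding of the algebra -/
noncomputable abbrev E := emb D.e D.h

include D in
theorem card_eq : Fintype.card ι = ∑ j, d j * (δ j * m j) := card_of_equiv D.e

theorem U_injective (hδ : ∀ j, 0 < δ j) : Function.Injective D.U := fun _ _ H =>
  funext fun x => Units.ext (congrFun (emb_injective D.e D.h hδ (congrArg Units.val H)) x)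

theorem Ψ_coe (y : Π j, (Φ.pow (d j)).G (Fin (m j))) : (D.Ψ y).1 = D.U (spread Φ d m y) := rfl

theorem Ψ_injective (hδ : ∀ j, 0 < δ j) : Function.Injective D.Ψ := fun _ _ H =>
  spread_injective D.pos (D.U_injective hδ (congrArg Subtype.val H))

theorem mem_range_U (hδ : ∀ j, 0 < δ j) {g : GL ι k} :
    g ∈ D.U.range ↔ g.val ∈ D.E.range := by
  refine ⟨fun ⟨a, h⟩ => ⟨_, congrArg Units.val h⟩, fun ⟨a, h⟩ => ?_⟩
  have := isUnit_of_emb D.e D.h hδ (a := a) (by rw [show emb D.e D.h a = _ from h]; exact g.isUnit)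
  exact ⟨fun x => (this x).unit, Units.ext h⟩

theorem mem_range_Ψ' (hδ : ∀ j, 0 < δ j) {g : Φ.G ι} : g ∈ D.Ψ.range ↔ g.1 ∈ D.U.range := by
  refine ⟨fun ⟨y, h⟩ => ⟨_, congrArg Subtype.val h⟩, fun ⟨a, h⟩ => ?_⟩
  have := g.2
  rw [Φ.mem_G, ← h, D.Fr_U] at this
  obtain ⟨y, rfl⟩ := mem_range_spread D.pos (congrFun (D.U_injective hδ this))
  exact ⟨y, Subtype.ext h⟩

theorem mem_range_Ψ (hδ : ∀ j, 0 < δ j) {g : Φ.G ι} :
    g ∈ D.Ψ.range ↔ g.1.val ∈ D.E.range := (D.mem_range_Ψ' hδ).trans (D.mem_range_U hδ)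

theorem jt_U (a : Π x : Om d, GL (Fin (m x.1)) k) (τ : k) :
    jt ((D.U a).val - τ • 1) = ∑ x : Om d, δ x.1 • jt ((a x).val - τ • 1) := jt_emb_sub _ _ _ _

theorem eig_U (a : Π x : Om d, GL (Fin (m x.1)) k) :
    eig (D.U a) = ∑ x : Om d, δ x.1 • eig (a x) := by
  ext α
  simp [count_eig, D.jt_U, Multiset.count_sum', Multiset.sum_sum, Multiset.sum_nsmul]

theorem det_U [IsAlgClosed k] (a : Π x : Om d, GL (Fin (m x.1)) k) :
    GeneralLinearGroup.det (D.U a) = ∏ x : Om d, GeneralLinearGroup.det (a x) ^ δ x.1 := by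
  simp [← prod_eig, D.eig_U, Multiset.prod_sum, Multiset.prod_nsmul]

theorem jt_Ψ (y : Π j, (Φ.pow (d j)).G (Fin (m j))) (τ : k) : jt ((D.Ψ y).1.val - τ • 1) =
    ∑ j, ∑ i ∈ range (d j), δ j • jt (((Φ.Fr _)^[i] (y j).1).val - τ • 1) := by
  rw [D.Ψ_coe, D.jt_U, Fintype.sum_sigma]
  refine sum_congr rfl fun j _ => ?_
  rw [← Fin.sum_univ_eq_sum_range]
  rfl

theorem eig_Ψ [Big k] (y : Π j, (Φ.pow (d j)).G (Fin (m j))) : eig (D.Ψ y).1 =
    ∑ j, ∑ i ∈ range (d j), δ j • (eig (y j).1).map (· ^ Φ.Q ^ i) := by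
  rw [D.Ψ_coe, D.eig_U, Fintype.sum_sigma]
  simp only [← eig_Fr_iterate]
  exact sum_congr rfl fun j _ => Fin.sum_univ_eq_sum_range
    (fun i => δ j • eig ((Φ.Fr _)^[i] (y j).1)) _

theorem det_Ψ [IsAlgClosed k] (y : Π j, (Φ.pow (d j)).G (Fin (m j))) :
    GeneralLinearGroup.det (D.Ψ y).1 =
      ∏ j, (∏ i ∈ range (d j), GeneralLinearGroup.det (y j).1 ^ Φ.Q ^ i) ^ δ j := by
  rw [D.Ψ_coe, D.det_U, Fintype.prod_sigma]
  simp only [← det_Fr_iterate, ← prod_pow]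
  exact prod_congr rfl fun j _ => Fin.prod_univ_eq_prod_range
    (fun i => GeneralLinearGroup.det ((Φ.Fr _)^[i] (y j).1) ^ δ j) _

theorem U_scal (ξ : kˣ) : (D.U fun _ => scal _ ξ) = scal ι ξ := by
  refine Units.ext ?_
  rw [D.U_val, scal_val, ← map_one (emb D.e D.h), ← map_smul]
  exact congrArg _ (funext fun _ => scal_val ξ)

theorem Ψ_scal {ξ : kˣ} (hξ : ξ ^ Φ.Q = ξ) {s : Π j, (Φ.pow (d j)).G (Fin (m j))}
    (hs : ∀ j, (s j).1 = scal _ ξ) : (D.Ψ s).1 = scal ι ξ := by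
  rw [D.Ψ_coe, ← D.U_scal]
  refine congrArg _ (funext fun x => ?_)
  rw [spread_apply, hs, Function.iterate_fixed (Φ.mem_G.1 (scal_mem_G hξ))]

/-- conjugation by an element of the finite group -/
def conj (g : Φ.G ι) : Dec ι d m δ Φ where
  e := D.e
  h := g.1 * D.h
  pos := D.pos
  fr a := by rw [emb_mul_left, emb_mul_left, mat_conj, D.fr, Φ.mem_G.1 g.2]

theorem conj_emb (g : Φ.G ι) (a : Π x : Om d, Matrix (Fin (m x.1)) (Fin (m x.1)) k) :
    emb (D.conj g).e (D.conj g).h a = g.1.val * emb D.e D.h a * (g.1⁻¹).val := emb_mul_left _ _ _ _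

theorem conj_U (g : Φ.G ι) (a : Π x : Om d, GL (Fin (m x.1)) k) :
    (D.conj g).U a = g.1 * D.U a * g.1⁻¹ := Units.ext (D.conj_emb g _)

theorem conj_Ψ (g : Φ.G ι) (y : Π j, (Φ.pow (d j)).G (Fin (m j))) :
    (D.conj g).Ψ y = g * D.Ψ y * g⁻¹ := Subtype.ext (D.conj_U g _)

/-- Lang's theorem for the image -/
theorem exists_fix [Big k] (hL : StLang k) {P : GL ι k} (hP : P⁻¹ * Φ.Fr ι P ∈ D.U.range) :
    ∃ b, P * (D.U b)⁻¹ ∈ Φ.G ι := by
  obtain ⟨a, ha⟩ := hP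
  obtain ⟨b, rfl⟩ := lang_prod (Φ := Φ) hL D.pos a
  rw [map_mul, map_inv, ← D.Fr_U, inv_mul_eq_iff_eq_mul] at ha
  exact ⟨b, by rw [Φ.mem_G, map_mul, map_inv, ha]; group⟩

end Dec

/-- intertwiners between elements whose blocks have no common eigenvalues -/
theorem Dec.mem_range_of_eig [IsAlgClosed k] (D : Dec ι d m (fun _ => 1) Φ)
    {a b : Π x : Om d, GL (Fin (m x.1)) k} (H : ∀ x y, x ≠ y → ∀ α ∈ eig (a y), α ∉ eig (b x))
    {Z : Matrix ι ι k} (hZ : (D.U b).val * Z = Z * (D.U a).val) : Z ∈ D.E.range :=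
  mem_range_emb D.e D.h hZ fun x y hxy _ => eq_zero_of_eig (H x y hxy)

/-! ### primary decomposition -/

variable (Φ d) in
/-- representatives of distinct orbits of lengths `d j` -/
structure Sep (ξ : J → kˣ) : Prop where
  per : ∀ j, (io Φ (ξ j)).per = d j
  inj : Function.Injective fun j => io Φ (ξ j)

variable (Φ) in
/-- the blocks have the single eigenvalues `ξ j ^ Q ^ i` -/
def Prim (ξ : J → kˣ) (a : Π x : Om d, GL (Fin (m x.1)) k) : Prop :=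
  ∀ x, ∀ α ∈ eig (a x), α = ξ x.1 ^ Φ.Q ^ (x.2 : ℕ)

variable [Big k] {ξ : J → kˣ}

theorem pow_q_mod (x : kˣ) (i : ℕ) : x ^ Φ.Q ^ (i % (io Φ x).per) = x ^ Φ.Q ^ i := by
  rw [← fr_iterate, ← fr_iterate, (allPer Φ).per_omk, Function.iterate_mod_minimalPeriod_eq]

section
omit [Fintype J] [DecidableEq J]

theorem Sep.mem_Mk (h : Sep Φ d ξ) (j : J) : ξ j ∈ Mk Φ (d j) := h.per j ▸ mem_Mk_self _

theorem Sep.pos (h : Sep Φ d ξ) (j : J) : 0 < d j := h.per j ▸ per_pos _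

theorem Sep.pow_mod (h : Sep Φ d ξ) (j : J) (i : ℕ) : ξ j ^ Φ.Q ^ (i % d j) = ξ j ^ Φ.Q ^ i :=
  h.per j ▸ pow_q_mod _ _

theorem Sep.injective (h : Sep Φ d ξ) :
    Function.Injective fun x : Om d => ξ x.1 ^ Φ.Q ^ (x.2 : ℕ) := by
  rintro ⟨j, i⟩ ⟨j', i'⟩ e
  obtain rfl : j = j' := h.inj (by simpa using congrArg (io Φ) e)
  have := h.per j
  rw [(allPer Φ).per_omk] at this
  simp only [← fr_iterate] at e
  rw [Fin.ext (Function.iterate_injOn_Iio_minimalPeriod (i.2.trans_eq this.symm)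
    (i'.2.trans_eq this.symm) e)]

theorem Sep.exists_of_io (h : Sep Φ d ξ) {j : J} {τ : kˣ} (e : io Φ τ = io Φ (ξ j)) :
    ∃ i : Fin (d j), τ = ξ j ^ Φ.Q ^ (i : ℕ) := by
  obtain ⟨n, rfl⟩ := io_eq_iff.1 e.symm
  exact ⟨fm (h.pos j) n, (h.pow_mod j n).symm⟩

theorem Sep.prev_pow (h : Sep Φ d ξ) (x : Om d) :
    (ξ x.1 ^ Φ.Q ^ ((prev x).2 : ℕ)) ^ Φ.Q = ξ x.1 ^ Φ.Q ^ (x.2 : ℕ) := by
  rw [← _root_.zpow_mul, ← pow_succ, ← h.pow_mod, prev_val]

theorem Prim.shift (h : Sep Φ d ξ) {a : Π x : Om d, GL (Fin (m x.1)) k} (ha : Prim Φ ξ a) :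
    Prim Φ ξ fun x => Φ.Fr _ (a (prev x)) := fun x α hα => by
  rw [eig_Fr] at hα
  obtain ⟨β, hβ, rfl⟩ := Multiset.mem_map.1 hα
  rw [ha _ β hβ]
  exact h.prev_pow x

theorem prim_iterate {y : Π j, GL (Fin (m j)) k} (hy : ∀ j, ∀ α ∈ eig (y j), α = ξ j) :
    Prim (d := d) Φ ξ fun x => (Φ.Fr _)^[x.2] (y x.1) := fun x α hα => by
  rw [eig_Fr_iterate] at hα
  obtain ⟨β, hβ, rfl⟩ := Multiset.mem_map.1 hα
  rw [hy _ β hβ]

theorem prim_spread {y : Π j, (Φ.pow (d j)).G (Fin (m j))}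
    (hy : ∀ j, ∀ α ∈ eig (y j).1, α = ξ j) : Prim Φ ξ (spread Φ d m y) :=
  prim_iterate (y := fun j => (y j).1) hy

omit [Big k] in
theorem eig_of_scal {n : ℕ} {g : GL (Fin n) k} {ξ : kˣ} (h : g = scal _ ξ) : ∀ α ∈ eig g, α = ξ :=
  fun _ hα => Multiset.eq_of_mem_replicate (by rwa [h, eig_scal] at hα)

end

namespace Dec

section
variable (D : Dec ι d m δ Φ)

theorem jt_U_prim (h : Sep Φ d ξ) {a : Π x : Om d, GL (Fin (m x.1)) k} (ha : Prim Φ ξ a)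
    (x : Om d) : jt ((D.U a).val - ((ξ x.1 ^ Φ.Q ^ (x.2 : ℕ) : kˣ) : k) • 1) =
      δ x.1 • jt ((a x).val - ((ξ x.1 ^ Φ.Q ^ (x.2 : ℕ) : kˣ) : k) • 1) := by
  rw [D.jt_U, sum_eq_single x]
  · exact fun y _ hy => by rw [notMem_eig.1 fun e => hy (h.injective (ha y _ e)).symm, smul_zero]
  · simp

omit [Big k] in
theorem jt_U_eq_zero {a : Π x : Om d, GL (Fin (m x.1)) k} (ha : Prim Φ ξ a) {τ : kˣ}
    (hτ : ∀ j, io Φ τ ≠ io Φ (ξ j)) : jt ((D.U a).val - (τ : k) • 1) = 0 := by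
  rw [D.jt_U]
  exact sum_eq_zero fun x _ => by
    rw [notMem_eig.1 fun e => hτ x.1 (by rw [ha x _ e, io_pow_q]), smul_zero]

theorem typ_Ψ (h : Sep Φ d ξ) {y : Π j, (Φ.pow (d j)).G (Fin (m j))}
    (hy : ∀ j, ∀ α ∈ eig (y j).1, α = ξ j) (j : J) :
    typ Φ (D.Ψ y).1 (io Φ (ξ j)) = δ j • jt ((y j).1.val - (ξ j : k) • 1) := by
  have := D.jt_U_prim h (prim_spread hy) ⟨j, 0, h.pos j⟩
  simp only [pow_zero, zpow_one] at this
  exact (typ_io (D.Ψ y).2 _).trans this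

theorem typ_Ψ_eq_zero {y : Π j, (Φ.pow (d j)).G (Fin (m j))}
    (hy : ∀ j, ∀ α ∈ eig (y j).1, α = ξ j) {o : I Φ} (ho : ∀ j, o ≠ io Φ (ξ j)) :
    typ Φ (D.Ψ y).1 o = 0 := D.jt_U_eq_zero (prim_spread hy) (by simpa using ho)

end

variable (D : Dec ι d m (fun _ => 1) Φ)

theorem mem_range_of_prim (h : Sep Φ d ξ) {a b : Π x : Om d, GL (Fin (m x.1)) k}
    (ha : Prim Φ ξ a) (hb : Prim Φ ξ b) {Z : Matrix ι ι k}
    (hZ : (D.U b).val * Z = Z * (D.U a).val) : Z ∈ D.E.range :=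
  D.mem_range_of_eig (fun x y hxy α h1 h2 =>
    hxy (h.injective ((hb x α h2).symm.trans (ha y α h1)))) hZ

theorem mem_range_Ψ_of (h : Sep Φ d ξ) {y y' : Π j, (Φ.pow (d j)).G (Fin (m j))}
    (hy : ∀ j, ∀ α ∈ eig (y j).1, α = ξ j) (hy' : ∀ j, ∀ α ∈ eig (y' j).1, α = ξ j) {z : Φ.G ι}
    (hz : D.Ψ y' * z = z * D.Ψ y) : z ∈ D.Ψ.range :=
  (D.mem_range_Ψ fun _ => one_pos).2 (D.mem_range_of_prim h (prim_spread hy) (prim_spread hy')
    (congrArg (fun g : Φ.G ι => g.1.val) hz))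

theorem centralizer_le (h : Sep Φ d ξ) {y : Π j, (Φ.pow (d j)).G (Fin (m j))}
    (hy : ∀ j, ∀ α ∈ eig (y j).1, α = ξ j) : Subgroup.centralizer {D.Ψ y} ≤ D.Ψ.range :=
  fun _ hz => D.mem_range_Ψ_of h hy hy (hz _ rfl)

theorem range_Ψ (h : Sep Φ d ξ) {s : Π j, (Φ.pow (d j)).G (Fin (m j))}
    (hs : ∀ j, (s j).1 = scal _ (ξ j)) : D.Ψ.range = Subgroup.centralizer {D.Ψ s} := by
  refine le_antisymm ?_ (D.centralizer_le h fun j => eig_of_scal (hs j))
  rintro _ ⟨y, rfl⟩ _ rfl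
  rw [← map_mul, ← map_mul]
  exact congrArg _ (funext fun j => Subtype.ext (by
    simp only [Pi.mul_apply, Subgroup.coe_mul, hs, scal_comm]))

theorem commute_iff (h : Sep Φ d ξ) {s : Π j, (Φ.pow (d j)).G (Fin (m j))}
    (hs : ∀ j, (s j).1 = scal _ (ξ j)) {Z : Matrix ι ι k} :
    Commute (D.Ψ s).1.val Z ↔ Z ∈ D.E.range := by
  have := prim_spread (Φ := Φ) fun j => eig_of_scal (hs j)
  refine ⟨D.mem_range_of_prim h this this, ?_⟩
  rintro ⟨a, rfl⟩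
  refine Commute.map (funext fun x => ?_) D.E
  change (spread Φ d m s x).val * a x = a x * (spread Φ d m s x).val
  simp only [spread_apply, hs, Fr_iterate_scal, scal_val, Matrix.smul_mul,
    Matrix.mul_smul, Matrix.one_mul, Matrix.mul_one]

/-- a fixed element which is geometrically conjugate to a primary element -/
theorem exists_conj_of_isConj (hL : StLang k) (h : Sep Φ d ξ)
    {a : Π x : Om d, GL (Fin (m x.1)) k} (ha : Prim Φ ξ a) {g : Φ.G ι} (hg : IsConj (D.U a) g.1) :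
    ∃ (x : Φ.G ι) (y : Π j, (Φ.pow (d j)).G (Fin (m j))), g = x * D.Ψ y * x⁻¹ ∧
      ∀ j, IsConj (a ⟨j, 0, h.pos j⟩) (y j).1 := by
  obtain ⟨P, hP⟩ := isConj_iff.1 hg
  have h1 := g.2
  rw [Φ.mem_G, ← hP, map_mul, map_mul, map_inv, D.Fr_U] at h1
  obtain ⟨b, hb⟩ := D.exists_fix hL (P := P) ((D.mem_range_U fun _ => one_pos).2
    (D.mem_range_of_prim h (ha.shift h) ha (congrArg Units.val (show D.U a * (P⁻¹ * _) = _ * _ by
      rw [mul_assoc P⁻¹, mul_inv_eq_iff_eq_mul.1 h1]; group))))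
  obtain ⟨y, hy⟩ := (D.mem_range_Ψ' (fun _ => one_pos) (g := (⟨_, hb⟩ : Φ.G ι)⁻¹ * g * ⟨_, hb⟩)).2
    ⟨b * a * b⁻¹, by simp [← hP, mul_assoc]⟩
  refine ⟨⟨_, hb⟩, y, by rw [hy]; group, fun j => isConj_iff.2 ⟨b ⟨j, 0, h.pos j⟩, ?_⟩⟩
  have : D.U (b * a * b⁻¹) = D.U (spread Φ d m y) := by
    rw [← D.Ψ_coe, hy]; simp [← hP, mul_assoc]
  exact congrFun (D.U_injective (fun _ => one_pos) this) ⟨j, 0, h.pos j⟩

/-- primary decomposition -/
theorem exists_conj (hL : StLang k) (h : Sep Φ d ξ) {g : Φ.G ι}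
    (hg : ∀ j, (eig g.1).count (ξ j) = m j) :
    ∃ (x : Φ.G ι) (y : Π j, (Φ.pow (d j)).G (Fin (m j))), g = x * D.Ψ y * x⁻¹ ∧
      ∀ j, ∀ α ∈ eig (y j).1, α = ξ j := by
  choose a h1 h2 using fun j => exists_GL_jt (ι := Fin (m j)) (ξ j) (zero_notMem_jt _)
    ((count_eig g.1 (ξ j)).symm.trans ((hg j).trans (Fintype.card_fin _).symm))
  have h3 := fun j => isNilpotent_sub_iff.1 (h1 j)
  have ha := prim_iterate (Φ := Φ) (d := d) h3
  obtain ⟨x, y, e, hy⟩ := D.exists_conj_of_isConj hL h ha (g := g) (isConj_of_jt fun τ => by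
    by_cases hτ : ∃ j, io Φ τ = io Φ (ξ j)
    · obtain ⟨j, hj⟩ := hτ
      obtain ⟨i, rfl⟩ := h.exists_of_io hj
      rw [D.jt_U_prim h ha ⟨j, i⟩, one_smul, jt_Fr_iterate, h2, jt_pow_Q g.2]
    · push Not at hτ
      rw [D.jt_U_eq_zero ha hτ, ← typ_io g.2, typ_eq_zero_of_sum g.2
        (S := univ.image fun j => io Φ (ξ j)) _ (by simpa [eq_comm] using hτ)]
      rw [sum_image h.inj.injOn, D.card_eq]
      exact sum_congr rfl fun j _ => by rw [← count_eig_io g.2, hg, h.per, one_mul])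
  exact ⟨x, y, e, fun j α hα => h3 j α (by rwa [← eig_of_isConj (hy j)] at hα)⟩

end Dec

omit [Big k] in
theorem exists_enum (S : Finset (I Φ)) : ∃ (r : ℕ) (o : Fin r → I Φ), Function.Injective o ∧
    univ.image o = S :=
  ⟨_, fun j => S.equivFin.symm j, Subtype.val_injective.comp S.equivFin.symm.injective, by
    ext x
    exact ⟨fun h => by obtain ⟨j, -, rfl⟩ := mem_image.1 h; exact Subtype.property _,
      fun h => mem_image.2 ⟨S.equivFin ⟨x, h⟩, mem_univ _, by simp⟩⟩⟩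

omit [Big k] [Fintype J] [DecidableEq J] in
theorem sep_rep {o : J → I Φ} (ho : Function.Injective o) :
    Sep Φ (fun j => (o j).per) fun j => (o j).rep := ⟨by simp, by simpa using ho⟩

/-- a decomposition adapted to the eigenvalues of `g` -/
theorem exists_dec_eig (hL : StLang k) (g : Φ.G ι) :
    ∃ (r : ℕ) (d m : Fin r → ℕ) (ξ : Fin r → kˣ) (_ : Dec ι d m (fun _ => 1) Φ),
      Sep Φ d ξ ∧ (∀ j, 0 < m j) ∧ ∀ j, (eig g.1).count (ξ j) = m j := by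
  obtain ⟨r, o, ho, hS⟩ := exists_enum (typF Φ g.1).support
  obtain ⟨D⟩ := stEmb hL Φ ι (Fin r) (fun j => (o j).per) (fun j => (typ Φ g.1 (o j)).sum)
    (fun _ => per_pos _) (by rw [← sum_typF g.2, Finsupp.sum, ← hS, sum_image ho.injOn]; rfl)
  refine ⟨r, _, _, _, D, sep_rep ho, fun j => ?_, fun j => (sum_typ _ _).symm⟩
  rw [sum_typ, Multiset.count_pos, ← not_not (a := _ ∈ _), ← typ_eq_zero_iff]
  exact Finsupp.mem_support_iff.1 (hS ▸ mem_image_of_mem o (mem_univ j))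

/-- primary decomposition of an element -/
theorem exists_dec (hL : StLang k) (g : Φ.G ι) :
    ∃ (r : ℕ) (d m : Fin r → ℕ) (ξ : Fin r → kˣ) (D : Dec ι d m (fun _ => 1) Φ)
      (y : Π j, (Φ.pow (d j)).G (Fin (m j))), Sep Φ d ξ ∧ (∀ j, 0 < m j) ∧ g = D.Ψ y ∧
      ∀ j, ∀ α ∈ eig (y j).1, α = ξ j := by
  obtain ⟨r, d, m, ξ, D, h, hm, hg⟩ := exists_dec_eig hL g
  obtain ⟨x, y, e, hy⟩ := D.exists_conj hL h hg
  exact ⟨r, d, m, ξ, D.conj x, y, h, hm, by rw [D.conj_Ψ, e], hy⟩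

theorem eq_scal_of_pow {κ : Type w} [Fintype κ] [DecidableEq κ] {g : GL κ k} {ξ : kˣ}
    (h : ∀ α ∈ eig g, α = ξ) {N : ℕ} (hN : ¬ ringChar k ∣ N) (hg : g ^ N = 1) : g = scal κ ξ := by
  by_cases h0 : eig g = 0
  · haveI := Fintype.card_eq_zero_iff.1 (by rw [← card_eig g, h0]; rfl)
    exact Subsingleton.elim _ _
  obtain ⟨α, hα⟩ := Multiset.exists_mem_of_ne_zero h0
  obtain rfl := h α hα
  obtain ⟨a, ha⟩ := exists_pow_eq_one_of_eig (g := scal κ α⁻¹ * g) (N := 1) fun β hβ => by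
    rw [eig_scal_mul] at hβ
    obtain ⟨γ, hγ, rfl⟩ := Multiset.mem_map.1 hβ
    simp [h γ hγ]
  have h1 : (scal κ α⁻¹ * g) ^ N = 1 := by
    rw [(scal_commute _ _).mul_pow, hg, ← map_pow, inv_pow, pow_eq_one_of_mem_eig hg hα]; simp
  rw [one_mul] at ha
  have := (pow_eq_one_iff_of_coprime (((Nat.Prime.coprime_iff_not_dvd Big.prime).2 hN).pow_left
    a)).1 ⟨ha, h1⟩
  rwa [map_inv, inv_mul_eq_one, eq_comm] at this

/-- a semisimple element is conjugate to a product of scalars -/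
theorem Dec.isConj_scal (D : Dec ι d m (fun _ => 1) Φ) (hL : StLang k) (h : Sep Φ d ξ)
    {s : Π j, (Φ.pow (d j)).G (Fin (m j))} (hs : ∀ j, (s j).1 = scal _ (ξ j)) {g : Φ.G ι}
    (hg : ∀ j, (eig g.1).count (ξ j) = m j) {N : ℕ} (hN : ¬ ringChar k ∣ N) (h1 : g ^ N = 1) :
    IsConj (D.Ψ s) g := by
  obtain ⟨x, y, rfl, hy⟩ := D.exists_conj hL h hg
  rw [conj_pow, mul_inv_eq_one, mul_eq_left, ← map_pow,
    map_eq_one_iff _ (D.Ψ_injective fun _ => one_pos)] at h1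
  obtain rfl : s = y := funext fun j => Subtype.ext ((hs j).trans
    (eq_scal_of_pow (hy j) hN (congrArg Subtype.val (congrFun h1 j))).symm)
  exact isConj_iff.2 ⟨x, rfl⟩

/-- semisimple elements with the same eigenvalues are conjugate -/
theorem isConj_of_eig (hL : StLang k) {g h : Φ.G ι} {N : ℕ} (hN : ¬ ringChar k ∣ N)
    (hg : g ^ N = 1) (hh : h ^ N = 1) (e : eig g.1 = eig h.1) : IsConj g h := by
  obtain ⟨r, d, m, ξ, D, H, -, hm⟩ := exists_dec_eig hL g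
  have := fun g => D.isConj_scal hL H (s := fun j => ⟨_, scal_mem_G_of_Mk (H.mem_Mk j)⟩)
    (fun _ => rfl) (g := g) (N := N)
  exact (this g hm hN hg).symm.trans (this h (e ▸ hm) hN hh)

/-- the centralizer of a semisimple element -/
theorem exists_dec_scal (hL : StLang k) {g : Φ.G ι} {N : ℕ} (hN : ¬ ringChar k ∣ N)
    (hg : g ^ N = 1) : ∃ (r : ℕ) (d m : Fin r → ℕ) (ξ : Fin r → kˣ)
      (D : Dec ι d m (fun _ => 1) Φ) (s : Π j, (Φ.pow (d j)).G (Fin (m j))), Sep Φ d ξ ∧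
      (∀ j, 0 < m j) ∧ g = D.Ψ s ∧ ∀ j, (s j).1 = scal _ (ξ j) := by
  obtain ⟨r, d, m, ξ, D, y, h, hm, rfl, hy⟩ := exists_dec hL g
  rw [← map_pow, map_eq_one_iff _ (D.Ψ_injective fun _ => one_pos)] at hg
  exact ⟨r, d, m, ξ, D, y, h, hm, rfl, fun j =>
    eq_scal_of_pow (hy j) hN (congrArg Subtype.val (congrFun hg j))⟩

/-! ### two factors -/

variable {e n j : ℕ}

theorem exists_dec2 (hL : StLang k) (he : 0 < e) (hc : Fintype.card ι = n + e * j) :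
    Nonempty (Dec ι (d2 e) (m2 n j) (fun _ => 1) Φ) :=
  stEmb hL Φ ι Bool _ _ (fun b => by cases b; exacts [one_pos, he]) (by simp [hc, add_comm])

theorem sep2 {ξ₀ ξ₁ : kˣ} (h0 : ξ₀ ∈ Mk Φ 1) (h1 : (io Φ ξ₁).per = e) (h : ξ₀ ≠ ξ₁) :
    Sep Φ (d2 e) fun b => cond b ξ₁ ξ₀ := by
  have : io Φ ξ₀ ≠ io Φ ξ₁ := fun e => by
    obtain ⟨n, rfl⟩ := io_eq_iff.1 e
    exact h (pow_q_of_mem_one h0 n).symm
  refine ⟨fun b => ?_, fun a b => ?_⟩
  · cases b
    exacts [Nat.dvd_one.1 ((mem_Mk_per one_pos).1 h0), h1]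
  · cases a <;> cases b <;> simp [this, this.symm]

/-- a pair as a family -/
def pair2 (y : Φ.G (Fin n) × (Φ.pow e).G (Fin j)) :
    Π b, (Φ.pow (d2 e b)).G (Fin (m2 n j b))
  | false => y.1
  | true => y.2

namespace Dec

variable (D : Dec ι (d2 e) (m2 n j) (fun _ => 1) Φ)

section
omit [Big k]

theorem f2_eq (y : Φ.G (Fin n) × (Φ.pow e).G (Fin j)) : D.f2 y = D.Ψ (pair2 y) :=
  congrArg D.Ψ (funext fun b => by cases b <;> rfl)

include D in
theorem pos2 : 0 < e := D.pos true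

include D in
theorem card2 : Fintype.card ι = n + e * j := by simpa [add_comm] using D.card_eq

theorem f2_injective : Function.Injective D.f2 := fun a b h => by
  rw [f2_eq, f2_eq] at h
  have := D.Ψ_injective (fun _ => one_pos) h
  exact Prod.ext (congrFun this false) (congrFun this true)

theorem range_f2 : D.f2.range = D.Ψ.range := by
  refine le_antisymm ?_ ?_ <;> rintro _ ⟨y, rfl⟩
  · exact ⟨_, (D.f2_eq y).symm⟩
  · exact ⟨(y false, y true), (D.f2_eq _).trans (congrArg D.Ψ (funext fun b => by cases b <;> rfl))⟩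

theorem conj_f2 (g : Φ.G ι) (y : Φ.G (Fin n) × (Φ.pow e).G (Fin j)) :
    (D.conj g).f2 y = g * D.f2 y * g⁻¹ := D.conj_Ψ g _

theorem jt_f2 (y : Φ.G (Fin n) × (Φ.pow e).G (Fin j)) (τ : k) : jt ((D.f2 y).1.val - τ • 1) =
    jt (y.1.1.val - τ • 1) + ∑ i ∈ range e, jt (((Φ.Fr _)^[i] y.2.1).val - τ • 1) := by
  rw [f2_eq, D.jt_Ψ, Fintype.sum_bool, add_comm]
  simp only [one_smul]
  exact congrArg₂ _ (sum_range_one _) rfl

theorem f2_scal {ξ : kˣ} (hξ : ξ ^ Φ.Q = ξ) {x₀ : Φ.G (Fin n)} {x₁ : (Φ.pow e).G (Fin j)}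
    (h0 : x₀.1 = scal _ ξ) (h1 : x₁.1 = scal _ ξ) : (D.f2 (x₀, x₁)).1 = scal ι ξ := by
  rw [f2_eq]
  exact D.Ψ_scal hξ fun b => by cases b; exacts [h0, h1]

end

theorem eig_f2 (y : Φ.G (Fin n) × (Φ.pow e).G (Fin j)) : eig (D.f2 y).1 =
    eig y.1.1 + ∑ i ∈ range e, (eig y.2.1).map (· ^ Φ.Q ^ i) := by
  rw [f2_eq, D.eig_Ψ, Fintype.sum_bool, add_comm]
  simp only [one_smul]
  exact congrArg₂ _ ((sum_range_one _).trans (by simp [pair2])) rfl

theorem det_f2 (y : Φ.G (Fin n) × (Φ.pow e).G (Fin j)) : GeneralLinearGroup.det (D.f2 y).1 =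
    GeneralLinearGroup.det y.1.1 * ∏ i ∈ range e, GeneralLinearGroup.det y.2.1 ^ Φ.Q ^ i := by
  rw [f2_eq, D.det_Ψ, Fintype.prod_bool, mul_comm]
  simp only [pow_one]
  exact congrArg₂ _ ((prod_range_one _).trans (by simp [pair2])) rfl

variable {ξ₀ ξ₁ : kˣ} (h0 : ξ₀ ∈ Mk Φ 1) (h1 : (io Φ ξ₁).per = e) (h : ξ₀ ≠ ξ₁)
include h0 h1 h

theorem range_f2_eq {x₀ : Φ.G (Fin n)} {x₁ : (Φ.pow e).G (Fin j)} (hx₀ : x₀.1 = scal _ ξ₀)
    (hx₁ : x₁.1 = scal _ ξ₁) : D.f2.range = Subgroup.centralizer {D.f2 (x₀, x₁)} := by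
  rw [range_f2, f2_eq]
  exact D.range_Ψ (sep2 h0 h1 h) fun b => by cases b; exacts [hx₀, hx₁]

theorem centralizer_f2_le {y₀ : Φ.G (Fin n)} {y₁ : (Φ.pow e).G (Fin j)}
    (hy₀ : ∀ α ∈ eig y₀.1, α = ξ₀) (hy₁ : ∀ α ∈ eig y₁.1, α = ξ₁) :
    Subgroup.centralizer {D.f2 (y₀, y₁)} ≤ D.f2.range := by
  rw [range_f2, f2_eq]
  exact D.centralizer_le (sep2 h0 h1 h) fun b => by cases b; exacts [hy₀, hy₁]

theorem isConj_f2 (hL : StLang k) {x₀ : Φ.G (Fin n)} {x₁ : (Φ.pow e).G (Fin j)}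
    (hx₀ : x₀.1 = scal _ ξ₀) (hx₁ : x₁.1 = scal _ ξ₁) {g : Φ.G ι} (g0 : (eig g.1).count ξ₀ = n)
    (g1 : (eig g.1).count ξ₁ = j) {N : ℕ} (hN : ¬ ringChar k ∣ N) (hg : g ^ N = 1) :
    IsConj (D.f2 (x₀, x₁)) g := by
  rw [f2_eq]
  exact D.isConj_scal hL (sep2 h0 h1 h) (fun b => by cases b; exacts [hx₀, hx₁])
    (fun b => by cases b; exacts [g0, g1]) hN hg

end Dec

end Cfsg.GUn
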