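import Cfsg.Agent.GUn.Lab
import Cfsg.Agent.GUn.Dec

/-! The piece `Blk`. -/

set_option autoImplicit false
set_option linter.unusedSectionVars false

namespace Cfsg.GUn

open Finset
open GLn (Bt sz rc sz_zero)

universe u

variable {k : Type u} [Field k] [Big k] {Φ : Frob k} {p N : ℕ} {μ ν : MP Φ N}
  {ι : Type} [Fintype ι] [DecidableEq ι] {χ χ' : IrrCharacter (Φ.G ι)} {M : Ideal AlgInt}

theorem cen_f2 {e n j : ℕ} (D : Dec ι (d2 e) (m2 n j) (fun _ => 1) Φ) (hp : p.Prime) {ξ₀ ξ₁ : kˣ}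
    (h0 : ∃ a, ξ₀ ^ p ^ a = 1) (h1 : ∃ a, ξ₁ ^ p ^ a = 1) (hm : ξ₀ ∈ Mk Φ 1)
    (he : (io Φ ξ₁).per = e) (hne : ξ₀ ≠ ξ₁) {x₀ : Φ.G (Fin n)} {x₁ : (Φ.pow e).G (Fin j)}
    (e0 : x₀.1 = scal _ ξ₀) (e1 : x₁.1 = scal _ ξ₁) : Cen p D.f2 x₀ x₁ := by
  obtain ⟨a, ha⟩ := h0
  obtain ⟨b, hb⟩ := h1
  refine ⟨D.f2_injective, D.range_f2_eq hm he hne e0 e1, ?_⟩
  obtain ⟨c, -, hc⟩ := (Nat.dvd_prime_pow hp).1 (orderOf_dvd_of_pow_eq_one (x := D.f2 (x₀, x₁))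
    (n := p ^ (a + b)) (by
      rw [← map_pow, Prod.pow_mk, ← map_one D.f2]
      congr 2 <;> refine Subtype.ext ?_
      · rw [Subgroup.coe_pow, e0, ← map_pow, pow_add, pow_mul, ha, one_pow, map_one]; rfl
      · rw [Subgroup.coe_pow, e1, ← map_pow, pow_add, mul_comm, pow_mul, hb, one_pow, map_one]; rfl))
  exact ⟨c, hc⟩

namespace Blk

theorem union (hI : StIrr k) (hC : StCls k) (hc : p ≠ ringChar k) (hM : IsPModular p M)
    (μ : MP Φ N) (hN : Fintype.card ι ≤ N) : IsBlockUnion M (UU ι p μ) := by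
  refine hM.isBlockUnion_of_classInner ?_
  rintro χ ⟨ν, h1, h2⟩ ψ hψ
  obtain ⟨ν', h3⟩ := exists_lab' hI hN ψ
  by_contra h
  exact hψ ⟨ν', h3, (hC.cls Φ ι p hM.prime hc N ν ν' hN h1.1 h3.1 ((h1.inner_ne h3).2 h)).symm.trans h2⟩

theorem cd_eq (hI : StIrr k) (hC : StCls k) (hc : p ≠ ringChar k) (hM : IsPModular p M)
    (hN : Fintype.card ι ≤ N) (h : Lab μ χ) (h' : Lab ν χ') (e : χ' ∈ blockOf M χ.1) :
    cd p ν = cd p μ := by
  obtain ⟨ν', h1, h2⟩ := union hI hC hc hM μ hN χ ⟨μ, h, rfl⟩ χ' e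
  rwa [h'.unique hI h1]

theorem basic (hI : StIrr k) (hC : StCls k) (hc : p ≠ ringChar k) (hM : IsPModular p M)
    (χ : IrrCharacter (Φ.G ι)) (hN : Fintype.card ι ≤ N) :
    ∃ ν : MP Φ N, ∃ χ' ∈ blockOf M χ.1, Basic p ν ∧ Lab ν χ' := by
  obtain ⟨μ, h⟩ := exists_lab' hI hN χ
  by_contra! h0
  have h1 : ∀ f ∈ Submodule.span ℂ {f | ∃ ν : MP Φ N, Basic p ν ∧ deg ν = Fintype.card ι ∧
      cd p ν = cd p μ ∧ f = pRegularPart p (Ch ι ν)}, classInner f (Ch ι μ) = 0 := fun f hf => by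
    induction hf using Submodule.span_induction with
    | mem x hx =>
      obtain ⟨ν, h1, h2, -, rfl⟩ := hx
      obtain ⟨χ', h3⟩ := exists_lab hI h2
      by_contra h4
      exact h0 ν χ' (hM.sameBlock_symm (hM.sameBlock_of_classInner_pRegularPart_ne_zero
        ((h3.inner_ne h).1 h4))) h1 h3
    | zero => exact classInner_zero_left _
    | add x y _ _ h1 h2 => rw [classInner_add_left, h1, h2, add_zero]
    | smul c x _ h1 => rw [classInner_smul_left, h1, mul_zero]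
  refine (h.inner_ne h).2 (fun h2 => χ.pRegularPart_ne_zero hM.prime (classInner_self_eq_zero.1 ?_))
    (h1 _ (hC.span Φ ι p hM.prime hc N μ hN h.1))
  rw [← classInner_pRegularPart_left, h2]

theorem span (hI : StIrr k) (hC : StCls k) (hp : p.Prime) (hc : p ≠ ringChar k) (μ : MP Φ N)
    (hN : Fintype.card ι ≤ N) (hd : deg μ = Fintype.card ι) :
    Submodule.span ℂ ((fun ν => pRegularPart p (Ch ι ν)) '' XS p μ) = regSpan p (UU ι p μ) := by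
  refine le_antisymm (Submodule.span_le.2 ?_) (Submodule.span_le.2 ?_)
  · rintro _ ⟨ν, ⟨-, h1, h2⟩, rfl⟩
    obtain ⟨χ, h3⟩ := exists_lab hI (h1.trans hd)
    obtain ⟨a, -, h4, -⟩ := h3.sgn
    simp only [h4, pRegularPart_smul]
    exact Submodule.smul_mem _ _ (pRegularPart_mem_regSpan ⟨ν, h3, h2⟩)
  · rintro _ ⟨χ, ⟨ν, h1, h2⟩, rfl⟩
    obtain ⟨a, -, -, h4⟩ := h1.sgn
    simp only [h4, pRegularPart_smul]
    refine Submodule.smul_mem _ _ (Submodule.span_mono ?_ (hC.span Φ ι p hp hc N ν hN h1.1))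
    rintro _ ⟨ν', h5, h6, h7, rfl⟩
    exact ⟨ν', ⟨h5, h6.trans hd.symm, h7.trans h2⟩, rfl⟩

/-- removal of a node -/
theorem peel_one (hE : StEmb k) (hP : StPeel k) (hp : p.Prime) (hc : p ≠ ringChar k)
    (hQ : (p : ℤ) ∣ Φ.Q - 1) (hN : Fintype.card ι ≤ N) (ψ : I Φ) {n : ℕ}
    (hn : Fintype.card ι = n + ψ.per) : ∃ (f : Φ.G (Fin n) × Φ.G (Fin ψ.per) →* Φ.G ι)
      (x : Φ.G (Fin ψ.per)) (X : Bt N), Cen p f 1 x ∧ (0 < n → ∀ ζ, (f (1, x)).1 ≠ scal ι ζ) ∧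
      sz N X.1 = 1 ∧ ∀ ν : MP Φ N, Basic p ν → deg ν = Fintype.card ι → ν ψ ≠ 0 →
        ∃ Z, Mv 1 (ν ψ) Z ∧ pair3 p f 1 x (Ch ι ν) (Ch (Fin n) (ν.update ψ Z))
          (Ch (Fin ψ.per) (Finsupp.single ψ X)) ≠ 0 := by
  obtain ⟨D⟩ := hE Φ ι Bool (d2 1) (m2 n ψ.per) (fun b => by cases b <;> exact one_pos)
    (by simp [hn, add_comm])
  obtain ⟨ξ, h1, h2⟩ := exists_orderOf_eq one_pos (dvd_NN_iff.2 (by rwa [pow_one]) : p ∣ NN Φ 1)
  obtain ⟨X, hX⟩ := exists_sz (N := N) (by have := per_pos ψ; omega) 1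
  have h3 : ∃ a, ξ ^ p ^ a = 1 := ⟨1, by rw [pow_one, ← h2, pow_orderOf_eq_one]⟩
  have h4 := Nat.dvd_one.1 ((mem_Mk_per one_pos).1 h1)
  have h5 : ξ ≠ 1 := by rintro rfl; exact hp.one_lt.ne (orderOf_one.symm.trans h2)
  refine ⟨D.f2, ⟨_, scal_mem_G_of_Mk h1⟩, X, cen_f2 D hp ⟨0, one_pow _⟩ h3 (one_mem_Mk one_pos) h4
    h5.symm (map_one _).symm rfl, fun h0 ζ e => ?_, hX, fun ν hν hd h => ?_⟩
  · have h6 := fun τ : kˣ => (congrArg (fun g : GL ι k => jt (g.val - (τ : k) • 1)) e).symm.trans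
      (D.jt_f2 (1, ⟨_, scal_mem_G_of_Mk h1⟩) τ)
    simp only [range_one, sum_singleton, Function.iterate_zero, id_eq, jt_scal,
      show (1 : Φ.G (Fin n)).1 = scal _ 1 from (map_one _).symm] at h6
    have h7 := congrArg Multiset.card (h6 1)
    have h8 := congrArg Multiset.card (h6 ξ)
    have := per_pos ψ
    by_cases h9 : ζ = 1
    · simp [h9, h5.symm] at h8; omega
    · simp [h9, h5] at h7; omega
  obtain ⟨Y, hY⟩ := exists_Mv_one h
  obtain ⟨Z, h6, h7⟩ := hP Φ ι p hp hc 1 n _ D ξ h3 h4 h5 N ν ψ 1 Y hN hν hd one_pos (by simp)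
    (mul_comm _ _) hY ⟨_, scal_mem_G_of_Mk h1⟩ rfl
  refine ⟨Z, h6, ?_⟩
  rw [show Ch (Fin ψ.per) (Finsupp.single ψ X) = _ from congrArg (ch _) (chi_single_one ψ hX)]
  simp only [pair3, one_mul]
  exact h7

theorem one (hI : StIrr k) (hC : StCls k) (hE : StEmb k) (hP : StPeel k) (hL : StPl.{u})
    (hc : p ≠ ringChar k) (hM : IsPModular p M) (hQ : (p : ℤ) ∣ Φ.Q - 1) (m : ℕ) :
    ∀ (ι : Type) [Fintype ι] [DecidableEq ι] (μ ν : MP Φ N) (χ χ' : IrrCharacter (Φ.G ι)),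
    Fintype.card ι = m → Fintype.card ι ≤ N → Lab μ χ → Lab ν χ' → cd p ν = cd p μ →
    χ' ∈ blockOf M χ.1 := by
  have := Fact.mk hM.prime
  induction m using Nat.strong_induction_on with
  | _ m ih =>
  intro ι _ _ μ ν χ χ' hm hN h h' e
  obtain ⟨μ₀, χ₀, a1, a2, a3⟩ := basic hI hC hc hM χ hN
  obtain ⟨ν₀, χ₀', b1, b2, b3⟩ := basic hI hC hc hM χ' hN
  refine hM.sameBlock_trans a1 (hM.sameBlock_trans ?_ (hM.sameBlock_symm b1))
  have h1 := (a2.cd_eq_iff hQ b2).1 ((cd_eq hI hC hc hM hN h a3 a1).trans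
    (e.symm.trans (cd_eq hI hC hc hM hN h' b3 b1).symm))
  by_cases h0 : μ₀ = 0
  · obtain rfl : ν₀ = μ₀ := h0 ▸ deg_eq_zero_iff.1 (by rw [b3.1, ← a3.1, h0, deg_eq_zero_iff])
    exact a3.unique' b3 ▸ hM.sameBlock_refl _
  obtain ⟨ψ, hψ⟩ := DFunLike.ne_iff.1 h0
  have h2 : sz N (μ₀ ψ).1 ≠ 0 := mt GLn.Bt.sz_eq_zero_iff.1 hψ
  have h3 := (Nat.le_mul_of_pos_right _ (Nat.pos_of_ne_zero h2)).trans (per_mul_sz_le_deg μ₀ ψ)
  rw [a3.1] at h3
  obtain ⟨n, hn⟩ := Nat.exists_eq_add_of_le' h3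
  obtain ⟨f, x, X, h4, -, hX, h5⟩ := peel_one hE hP hM.prime hc hQ hN ψ hn
  obtain ⟨Z, a4, a5⟩ := h5 μ₀ a2 a3.1 hψ
  obtain ⟨Z', b4, b5⟩ := h5 ν₀ b2 b3.1 (mt GLn.Bt.sz_eq_zero_iff.2 (h1 ψ ▸ h2))
  have h6 : ∀ {ν : MP Φ N} {Z}, deg ν = Fintype.card ι → Mv 1 (ν ψ) Z →
      deg (ν.update ψ Z) = Fintype.card (Fin n) := fun {ν Z} hd h => by
    have := deg_update_add ν ψ Z
    rw [← h.sz_add, mul_add, hd, hn] at this
    rw [Fintype.card_fin]; omega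
  obtain ⟨θ, a6⟩ := exists_lab hI (h6 a3.1 a4)
  obtain ⟨θ', b6⟩ := exists_lab hI (h6 b3.1 b4)
  obtain ⟨θ₁, h7⟩ := exists_lab hI (μ := Finsupp.single ψ X) (ι := Fin ψ.per)
    (by rw [deg_single, hX, mul_one, Fintype.card_fin])
  have h8 := a2 ψ (Finsupp.mem_support_iff.2 hψ)
  refine hL.same _ _ _ p M hM _ _ _ h4 _ _ θ θ' θ₁ θ₁ (a3.pair3_ne a6 h7 a5) (b3.pair3_ne b6 h7 b5)
    (ih n (by have := per_pos ψ; omega) _ _ _ _ _ (Fintype.card_fin n)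
      (by rw [Fintype.card_fin]; omega) a6 b6 (((b2.update h8 _).cd_eq_iff hQ (a2.update h8 _)).2
        fun φ => ?_)) (hM.mem_blockOf_self _)
  rw [Finsupp.update_apply, Finsupp.update_apply]
  split_ifs
  · have := a4.sz_add; have := b4.sz_add; have := h1 ψ; omega
  · exact (h1 φ).symm

end Blk

variable (k) in
theorem stBlk (hI : StIrr k) (hC : StCls k) (hE : StEmb k) (hP : StPeel k) (hL : StPl.{u}) :
    StBlk k where
  union _ _ _ _ _ hc _ hM _ μ := Blk.union hI hC hc hM μ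
  span _ _ _ _ _ hp hc _ := Blk.span hI hC hp hc
  cd_eq _ _ _ _ _ hc _ hM _ _ _ _ _ := Blk.cd_eq hI hC hc hM
  basic _ _ _ _ _ hc _ hM _ := Blk.basic hI hC hc hM
  one _ _ _ _ _ hc _ hM hQ _ _ _ _ _ := Blk.one hI hC hE hP hL hc hM hQ _ _ _ _ _ _ rfl

theorem pow_per_eq_one {z : kˣ} (hz : z ∈ Mk Φ 1) {ψ : I Φ} (h : mulI z ψ = ψ) : z ^ ψ.per = 1 := by
  have h1 := sum_pts_io (Φ := Φ) (z * ψ.rep) Additive.ofMul
  rw [← mulI, h, ← io_rep ψ, sum_pts_io, io_rep, ← ofMul_prod, ← ofMul_prod] at h1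
  exact (by simpa [mul_zpow, prod_mul_distrib, pow_q_of_mem_one hz] using h1 :
    ψ.per • Additive.ofMul z = 0)

variable (k) in
theorem stCan (hI : StIrr k) (hB : StBlk k) (hH : StCh k) (hE : StEmb k) (hP : StPeel k)
    (hL : StPl.{u}) : StCan k := by
  intro Φ ι _ _ p hc M hM hQ h0 θ D hD hs
  have := Fact.mk hM.prime
  obtain ⟨ν, χ, h1, h2, h3⟩ := hB.basic Φ ι p hc M hM _ θ le_rfl
  obtain ⟨ψ, hψ⟩ := DFunLike.ne_iff.1 (mt deg_eq_zero_iff.2 (h3.1.trans_gt h0).ne')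
  have h4 : sz _ (ν ψ).1 ≠ 0 := mt GLn.Bt.sz_eq_zero_iff.1 hψ
  have h5 := h3.1 ▸ per_mul_sz_le_deg ν ψ
  obtain ⟨n, hn⟩ := Nat.exists_eq_add_of_le' ((Nat.le_mul_of_pos_right _
    (Nat.pos_of_ne_zero h4)).trans h5)
  obtain rfl : n = 0 := by
    obtain ⟨f, x, X, a1, a2, -, a3⟩ := Blk.peel_one hE hP hM.prime hc hQ le_rfl ψ hn
    obtain ⟨Z, -, a4⟩ := a3 ν h2 h3.1 hψ
    obtain ⟨y, -, a5⟩ := exists_ne_zero_of_sum_ne_zero a4
    obtain ⟨y', -, a6⟩ := exists_ne_zero_of_sum_ne_zero a5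
    by_contra a7
    refine h3.apply_ne.1 (left_ne_zero_of_mul (left_ne_zero_of_mul a6))
      (hD.irr_eq_zero hM (isPBlock_blockOf θ) (fun g hg => ?_) h1)
    rw [← Prod.mk_mul_mk, map_mul, pPart_mul_of_commute (Subgroup.mem_centralizer_singleton_iff.1
      (a1.range ▸ ⟨_, rfl⟩)).symm a1.pelt (by
        rw [orderOf_injective f a1.inj]
        exact GLn.not_dvd_orderOf_prod hM.prime
          (fun h => right_ne_zero_of_mul (left_ne_zero_of_mul a6) (by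
            rw [pRegularPart_of_dvd h, map_zero]))
          fun h => right_ne_zero_of_mul a6 (by rw [pRegularPart_of_dvd h, map_zero]))] at hg
    obtain ⟨ζ, e⟩ := hs _ hg
    refine a2 (Nat.pos_of_ne_zero a7) ζ ?_
    rwa [Subgroup.coe_mul, Subgroup.coe_mul, Subgroup.coe_inv, mul_inv_eq_iff_eq_mul, scal_comm,
      mul_right_inj] at e
  rw [zero_add] at hn
  have h6 : sz _ (ν ψ).1 = 1 := le_antisymm (Nat.le_of_mul_le_mul_left
    (h5.trans (by rw [mul_one, hn])) (per_pos ψ)) (Nat.pos_of_ne_zero h4)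
  have h7 : ν = Finsupp.single ψ (ν ψ) := by
    have := deg_update_add ν ψ 0
    rw [h6, h3.1.trans hn, sz_zero, mul_one, mul_zero, add_zero, Nat.add_eq_right,
      deg_eq_zero_iff] at this
    rw [← Finsupp.update_self ν ψ, ← Finsupp.update_idem ν ψ 0, this, Finsupp.zero_update]
    simp
  have h8 := (hL.reg _ p M hM _ (isPBlock_blockOf θ) D hD (fun x hx => by
    obtain ⟨ζ, e⟩ := hs x hx
    exact Subgroup.mem_center_iff.2 fun g => Subtype.ext (by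
      rw [Subgroup.coe_mul, Subgroup.coe_mul, e, scal_comm])) θ (hM.mem_blockOf_self θ) χ h1).1
  refine ⟨fun u hu => ?_, fun z hz h9 e => ?_⟩
  · have a1 : ¬ p ∣ orderOf u := fun h => by
      obtain ⟨a, ha⟩ := exists_pow_of_unip (isNilpotent_iff_sum_jt.2 (by rw [hu]; simp))
      exact hc ((Nat.prime_dvd_prime_iff_eq hM.prime Big.prime).1 (hM.prime.dvd_of_dvd_pow
        (h.trans (orderOf_dvd_of_pow_eq_one (Subtype.ext ha)))))
    have a2 := congrFun h8 u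
    have a3 := hH.uni Φ ι ψ.rep u h0 hu
    rw [pRegularPart_of_not_dvd a1, pRegularPart_of_not_dvd a1] at a2
    rw [hn, ← chi_single_one ψ h6, ← h7, ← Ch] at a3
    rw [a2]
    exact h3.2.imp (fun e => by rw [← e, a3]) fun e => by rw [← a3, e]; exact (neg_neg _).symm
  · have a1 : χ.twist (lin Φ ι z) ∈ blockOf M χ.1 := by
      refine hM.sameBlock_symm (hM.sameBlock_of_classInner_pRegularPart_ne_zero fun h =>
        χ.pRegularPart_ne_zero hM.prime (classInner_self_eq_zero.1 ?_))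
      rw [← classInner_pRegularPart_left, ← h, ← h8, ← e]
      congr 1
      funext g
      have := congrFun h8 g
      simp only [pRegularPart_apply, IrrCharacter.twist_apply] at this ⊢
      split_ifs at this ⊢
      exacts [rfl, by rw [this]]
    have a2 := congrFun (nn_eq_of_cd (hB.cd_eq Φ ι p hc M hM _ _ _ _ _ le_rfl h3 (h3.twist hI hz)
      a1)) ψ
    rw [nn_act hz, pRegPartK_eq_self_iff.2 h9, h2.nn_eq', h2.nn_eq', h6, h7,
      Finsupp.single_apply] at a2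
    split_ifs at a2 with a3
    · rw [hn, ← orderOf_inv]
      exact orderOf_dvd_of_pow_eq_one (pow_per_eq_one (inv_mem_Mk hz) a3.symm)
    · simp at a2

end Cfsg.GUn
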