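import Cfsg.Agent.GUn.CCa

/-! The Clifford count `StCC`. -/

set_option autoImplicit false

namespace Cfsg.GUn.CC

open scoped MonoidAlgebra ComplexConjugate
open Finset

universe u v

variable {G : Type u} [Group G] [Finite G] {p : ℕ} {M : Ideal AlgInt}

/-- a linear character with values in `O` -/
noncomputable def wO (M : Ideal AlgInt) (η : G →* ℂˣ) : G →* valO M where
  toFun g := ⟨η g, mem_valO_iff.2 (valM_eq_one_of_pow_eq_one (orderOf_pos g).ne' (by
    rw [← Units.val_pow_eq_pow_val, ← map_pow, pow_orderOf_eq_one, map_one, Units.val_one])).le⟩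
  map_one' := Subtype.ext (by simp)
  map_mul' a b := Subtype.ext (by simp)

/-- its reduction -/
noncomputable def wK (M : Ideal AlgInt) (η : G →* ℂˣ) : G →* resK M :=
  (IsLocalRing.residue (valO M)).toMonoidHom.comp (wO M η)

theorem wK_inv (η : G →* ℂˣ) (g : G) : wK M η g * wK M η⁻¹ g = 1 := by
  have : wO M η g * wO M η⁻¹ g = 1 := Subtype.ext (by simp [wO])
  simp only [wK, MonoidHom.comp_apply, ← map_mul, this, map_one]

theorem wK_eq_one {η : G →* ℂˣ} {g : G} (h : η g = 1) : wK M η g = 1 := by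
  have : wO M η g = 1 := Subtype.ext (by simp [wO, h])
  simp only [wK, MonoidHom.comp_apply, this, map_one]

theorem tau_tw (η : G →* ℂˣ) {θ : G → ℂ} (hθ : IsClassFunction G θ) {e : (resK M)[G]}
    (he : IsIdempotentElem e) :
    tau M (fun g => (η g : ℂ) * θ g) 1 e = tau M θ 1 (tw (wK M η) e) := by
  obtain ⟨E, hE, rfl⟩ := exists_idem_lift' he
  have h1 : ∀ a, tw (wK M η) (toK M G a) = toK M G (tw (wO M η) a) := fun a => by
    induction a using MonoidAlgebra.induction_linear with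
    | zero => simp
    | add a b ha hb => simp only [map_add, ha, hb]
    | single g r => rw [tw_single, toK_single, toK_single, tw_single, red_coe, red_coe, map_mul]; rfl
  have h2 : ∀ a, charAlg θ (toC M G (tw (wO M η) a)) =
      charAlg (fun g => (η g : ℂ) * θ g) (toC M G a) := fun a => by
    induction a using MonoidAlgebra.induction_linear with
    | zero => simp
    | add a b ha hb => simp only [map_add, ha, hb]
    | single g r =>
      rw [tw_single, toC_single, toC_single, charAlg_single, charAlg_single]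
      simp [wO]; ring
  rw [h1, tau_one_toK hθ (hE.map _), h2, tau_one_toK _ hE]
  intro g x
  simp only [map_mul, map_inv, hθ g x, mul_inv_cancel_comm]

variable {U : Set (IrrCharacter G)}

theorem tau_mul (hM : IsPModular p M) (hU : IsBlockUnion M U) {θ : G → ℂ}
    (hθ : IsClassFunction G θ) {e : (resK M)[G]} (he : IsIdempotentElem e) :
    tau M (blockPart U θ) 1 e = tau M θ 1 (idemK M U * e) :=
  hU.tau_blockPart hM hθ (isFixedGA_zpowers_one e) he

theorem pt_equiv (hM : IsPModular p M) (hU : IsBlockUnion M U) {s : Finset (resK M)[G]}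
    {φ : s → G → ℂ} {f : s → ℕ} (h : IsBrauerData p M U s φ f) (i : s) {e : (resK M)[G]}
    (he : IsPrimIdem (⊤ : Subalgebra (resK M) (resK M)[G]) e) (h0 : tau M (φ i) 1 e ≠ 0) :
    IdemEquiv (⊤ : Subalgebra (resK M) (resK M)[G]) e i := by
  have hc := h.basic.isClassFunction i
  rcases he.idemK_mul hM hU with h1 | h1
  · rw [← h.basic.blockPart_eq hM hU i, tau_mul hM hU hc he.idem, h1, tau_zero hc] at h0
    exact absurd rfl h0
  · obtain ⟨i', hi', h2⟩ := h.reps.surj e he h1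
    rw [h2.tau_one_eq hc he.idem (h.reps.prim i' hi').idem] at h0
    by_cases h3 : i = ⟨i', hi'⟩
    · rw [h3]; exact h2
    · exact absurd (h.tau_ne _ _ h3) h0

theorem mem_of_tau (hM : IsPModular p M) (hU : IsBlockUnion M U) {χ : IrrCharacter G}
    {e : (resK M)[G]} (he : IsIdempotentElem e) (h1 : idemK M U * e = e)
    (h0 : tau M χ.1 1 e ≠ 0) : χ ∈ U := by
  by_contra h
  rw [← h1, ← tau_mul hM hU χ.isClassFunction he, blockPart_irr_of_notMem h,
    ← zero_smul ℂ (0 : G → ℂ), tau_smul_left, zero_mul] at h0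
  exact h0 rfl

open Classical in
/-- fixed points on the points versus fixed points on a basis -/
theorem card_fix_le (hM : IsPModular p M) (hU : IsBlockUnion M U) {s : Finset (resK M)[G]}
    {φ : s → G → ℂ} {f : s → ℕ} (h : IsBrauerData p M U s φ f) {ι : Type v} {X : Finset ι}
    {x : ι → G → ℂ} (hx : LinearIndependent ℂ (fun i : X => x i))
    (hs : Submodule.span ℂ (x '' X) = regSpan p U) (η : G →* ℂˣ)
    (hη : ∀ i ∈ X, ∃ i' ∈ X, (fun g => (η g : ℂ) * x i g) = x i') :
    #{i ∈ s | IdemEquiv (⊤ : Subalgebra (resK M) (resK M)[G]) i (tw (wK M η) i)} ≤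
      #{i ∈ X | (fun g => (η g : ℂ) * x i g) = x i} := by
  have := Fintype.ofFinite G
  set L : (G → ℂ) →ₗ[ℂ] (G → ℂ) := LinearMap.mulLeft ℂ (fun g => (η g : ℂ))
  have hL' : ∀ v, L v = fun g => (η g : ℂ) * v g := fun _ => rfl
  have hL : ∀ v ∈ regSpan p U, L v ∈ regSpan p U := by
    rw [← hs]
    intro v hv
    refine (Submodule.map_span_le L _ _).2 ?_ ⟨v, hv, rfl⟩
    rintro _ ⟨i, hi, rfl⟩
    obtain ⟨i', hi', e⟩ := hη i hi
    exact Submodule.subset_span ⟨i', hi', e.symm⟩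
  choose π hπ hπ' using hη
  have h1 := trace_eq hx (by rw [← hs, Set.image_eq_range]; rfl) L hL
    (fun i j => if j = ⟨π i i.2, hπ i i.2⟩ then 1 else 0) fun i => by simp [hL', hπ' i i.2]
  have hidem : ∀ i : s, IsIdempotentElem (i : (resK M)[G]) := fun i => (h.reps.prim i i.2).idem
  have h2 := trace_eq h.basic.indep h.basic.span_eq L hL _
    fun i => h.basic.eq_sum_of_mem_regSpan hM hU (hL _ (h.basic.mem_regSpan i))
  choose n hn using fun i : s => h.tau_nat i (tw (wK M η) i.1) ((hidem i).map _)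
  have h3 : ∀ i : s, classInner (L (φ i)) (projChar U (fun χ (j : s) => (decNum M χ.1 j.1 : ℤ)) i) =
      n i := fun i => by
    rw [hU.classInner_projChar_decNum hM (fun j : s => (j : (resK M)[G])) i (hidem i)
      (h.reps.blk i i.2) (isClassFunction_of_mem_regSpan (hL _ (h.basic.mem_regSpan i))), hL',
      tau_tw η (h.basic.isClassFunction i) (hidem i), hn]
  rw [h1, Finset.sum_congr rfl fun i _ => h3 i, Finset.sum_boole, ← Nat.cast_sum,
    Nat.cast_inj] at h2
  calc _ = ∑ i : s, if IdemEquiv (⊤ : Subalgebra (resK M) (resK M)[G]) i (tw (wK M η) i)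
        then 1 else 0 := by
        rw [Finset.card_filter, Finset.sum_coe_sort s fun i =>
          if IdemEquiv (⊤ : Subalgebra (resK M) (resK M)[G]) i (tw (wK M η) i) then 1 else 0]
    _ ≤ ∑ i : s, n i := Finset.sum_le_sum fun i _ => by
        split_ifs with hi
        · have h4 := hn i
          rw [← hi.tau_one_eq (h.basic.isClassFunction i) (hidem i) ((hidem i).map _),
            h.tau_self] at h4
          exact (Nat.cast_eq_one.1 h4.symm).ge
        · exact Nat.zero_le _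
    _ ≤ _ := by
        rw [← h2]
        refine Finset.card_le_card_of_injOn Subtype.val (fun i hi => ?_) Subtype.val_injective.injOn
        have h4 := congrArg Subtype.val (Finset.mem_filter.1 hi).2
        simp only [Finset.coe_filter, Set.mem_setOf_eq]
        exact ⟨i.2, (hπ' i i.2).trans (congrArg x h4.symm)⟩

variable {S : Subgroup G} [S.Normal] [Fintype S] {b : Set (IrrCharacter S)}
  {t : Finset (resK M)[S]} {ψ : t → S → ℂ} {d : t → ℕ}

theorem exists_le (hM : IsPModular p M) (hU : IsBlockUnion M U) {s : Finset (resK M)[G]}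
    (hs : IsPointReps M U s) (hb : IsPBlock M b) (h : IsBrauerData p M b t ψ d)
    (hcov : ∃ χ ∈ U, ∃ ϑ ∈ b, classInner (fun n : S => χ.1 n) ϑ.1 ≠ 0) (j : t) :
    ∃ i ∈ s, ∃ a c, a * gaPush (resK M) S.subtype j * c = i := by
  have := range_subtype_normal (N := S)
  have hj := (h.reps.prim j j.2).idem
  obtain ⟨ϑ, hϑ, h1⟩ := h.exists_decNum_ne_zero j
  obtain ⟨χ, hχ, h2⟩ := hb.exists_over_of_covers_hom hM S.subtype_injective hU hcov hϑ
  have hz := Subalgebra.mem_center_iff.1 (idemK_mem_center (M := M) U)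
  have h3 : idemK M U * gaPush (resK M) S.subtype j ≠ 0 := fun h0 => by
    have hc := χ.isCharacter.comp S.subtype
    have h4 : (fun x => χ.1 (S.subtype x)) = ∑ ϑ : IrrCharacter S,
        (cmult (fun x => χ.1 (S.subtype x)) ϑ.1 : ℂ) • ϑ.1 := funext fun x => by
      rw [Finset.sum_apply]; exact hc.eq_sum_cmult x
    have h5 := tau_one_comp S.subtype χ.isClassFunction hj
    rw [← blockPart_irr_of_mem hχ, tau_mul hM hU χ.isClassFunction (hj.map _), h0,
      tau_zero χ.isClassFunction, blockPart_irr_of_mem hχ, h4, tau_sum_left] at h5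
    simp only [← IsCharacter.cast_decNum (IrrCharacter.isCharacter _) hj, ← Nat.cast_mul,
      ← Nat.cast_sum, Nat.cast_eq_zero, Finset.sum_eq_zero_iff, mul_eq_zero] at h5
    refine h1 ((h5 ϑ (Finset.mem_univ _)).resolve_left fun h6 => h2 ?_)
    rw [← hc.cast_cmult ϑ.isCharacter, h6, Nat.cast_zero]
  have hU1 := (hU.isIdempotentElem_idemK hM)
  obtain ⟨i', hi', h4, -, -⟩ := exists_primIdem_map_ne_zero (⊤ : Subalgebra (resK M) (resK M)[G])
    trivial (IsIdempotentElem.mul_of_commute (hz _).symm hU1 (hj.map (gaPush (resK M) S.subtype)))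
    (AddMonoidHom.id _) h3
  obtain ⟨i, hi, h5⟩ := hs.surj i' hi' (by rw [← h4, ← mul_assoc, ← mul_assoc, hU1.eq])
  obtain ⟨a, -, c, -, -, h6, h7, -⟩ := h5.exists_normalized hi'.idem (hs.prim i hi).idem
  refine ⟨i, hi, c * idemK M U, i' * a, ?_⟩
  rw [mul_assoc c, mul_assoc c, ← mul_assoc _ i', h4, h7, h6]

omit [Fintype S] in
theorem mem_blockStab_of_equiv (hM : IsPModular p M) (hb : IsPBlock M b) (h : IsPointReps M b t)
    {j j' : (resK M)[S]} (hj : j ∈ t) (hj' : j' ∈ t) {g : G}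
    (he : IdemEquiv (⊤ : Subalgebra (resK M) (resK M)[S]) (cj g j) j') : g ∈ blockStab b := by
  have h0 := prim_cj g (h.prim j hj)
  obtain ⟨a, -, c, -, h1, -, -, h2, -⟩ := he.exists_normalized h0.idem (h.prim j' hj').idem
  have hz := Subalgebra.mem_center_iff.1 (idemK_mem_center (M := M) b)
  have h3 : idemK M b * cj g j = cj g j := by
    rw [← h1, ← h2, ← mul_assoc, ← mul_assoc, ← hz a, mul_assoc a, h.blk j' hj']
  have h4 : cj g (idemK M b) * idemK M b ≠ 0 := fun h5 => h0.ne_zero (by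
    rw [← h.blk j hj, map_mul, ← h3, ← mul_assoc, h5, zero_mul])
  have hB := hb.isBlk_subIdem hM
  rw [hb.mem_blockStab_iff_gaConj hM]
  refine (hB.conj_of_normalizer (top_le_normalizer_of_normal (Subgroup.mem_top g))).eq_of_mul_ne_zero'
    hB fun h5 => h4 (gaPush_injective S.subtype_injective ?_)
  rw [map_mul, push_cj, map_zero]
  exact h5

omit [Fintype S] in
open Classical in
theorem card_below_le (hM : IsPModular p M) (hb : IsPBlock M b) (h : IsPointReps M b t)
    {i : (resK M)[G]} (hi : IsPrimIdem (⊤ : Subalgebra (resK M) (resK M)[G]) i)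
    {j : (resK M)[S]} (hj : j ∈ t) (hij : ∃ a c, a * gaPush (resK M) S.subtype j * c = i) :
    #{j' ∈ t | ∃ a c, a * gaPush (resK M) S.subtype j' * c = i} * (blockStab b).index ≤
      (stab (h.prim j hj).idem).index := by
  have hle : stab (h.prim j hj).idem ≤ blockStab b := fun g hg =>
    mem_blockStab_of_equiv hM hb h hj hj hg
  rw [← Subgroup.relIndex_mul_index hle]
  refine Nat.mul_le_mul_right _ ?_
  obtain ⟨a, c, hij⟩ := hij
  have key : ∀ j' : {j' ∈ t | ∃ a c, a * gaPush (resK M) S.subtype j' * c = i},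
      ∃ g : blockStab b, IdemEquiv (⊤ : Subalgebra (resK M) (resK M)[S]) (cj g.1 j) j' := by
    rintro ⟨j', hj'⟩
    obtain ⟨h1, a', c', h2⟩ := Finset.mem_filter.1 hj'
    obtain ⟨g, hg⟩ := exists_cj hi (h.prim j hj) (h.prim j' h1) hij h2
    exact ⟨⟨g, mem_blockStab_of_equiv hM hb h hj h1 hg⟩, hg⟩
  choose g hg using key
  rw [← Nat.card_eq_finsetCard]
  refine Nat.card_le_card_of_injective (fun j' => (g j' : blockStab b ⧸
    (stab (h.prim j hj).idem).subgroupOf (blockStab b))) fun x y e => Subtype.ext ?_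
  have h1 := equiv_map (cj (g x).1) (Subgroup.mem_subgroupOf.1 (QuotientGroup.eq.1 e))
  rw [← cj_mul, Subgroup.coe_mul, Subgroup.coe_inv, mul_inv_cancel_left] at h1
  have hx := (Finset.mem_filter.1 x.2).1
  have hy := (Finset.mem_filter.1 y.2).1
  have hj1 := (h.prim j hj).idem
  exact h.inj _ hx _ hy (((hg x).symm.trans (h.prim _ hx).idem (hj1.map _) (hj1.map _)
    h1.symm).trans (h.prim _ hx).idem (hj1.map _) (h.prim _ hy).idem (hg y))

variable {A : Type u} [CommGroup A] [Finite A] {δ : G →* A}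

omit [Finite A] in
theorem apply_eq_one {l : A →* ℂˣ} {a : A} {m n : ℕ} (hm : l ^ m = 1) (hn : a ^ n = 1)
    (h : m.Coprime n) : l a = 1 := by
  have := pow_gcd_eq_one.2 ⟨(by rw [← MonoidHom.pow_apply, hm]; rfl : l a ^ m = 1),
    (by rw [← map_pow, hn, map_one] : l a ^ n = 1)⟩
  rwa [h, pow_one] at this

variable (δ) in
/-- the annihilator -/
noncomputable def perp (H : Subgroup G) : Subgroup (A →* ℂˣ) :=
  (MonoidHom.domRestrictHom (H.map δ) ℂˣ).ker

omit [Finite G] [Finite A] in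
theorem mem_perp {H : Subgroup G} {l : A →* ℂˣ} : l ∈ perp δ H ↔ ∀ g ∈ H, l (δ g) = 1 := by
  simp [perp, MonoidHom.mem_ker, MonoidHom.domRestrict_eq_one_iff]

omit [Finite G] in
theorem card_perp (hδ : Function.Surjective δ) {H : Subgroup G} (hH : δ.ker ≤ H) :
    Nat.card (perp δ H) = H.index := by
  have := GLn.enoughRoots A
  rw [perp, CommGroup.card_domRestrictHom_ker, ← Subgroup.index_map_eq H hδ hH]
  rfl

theorem pow_mem_charInertia (hp : p.Prime) (hS : S = δ.ker) {κ : ℕ} {χ : IrrCharacter G}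
    (hκ : ∀ l : A →* ℂˣ, (∃ a : ℕ, l ^ p ^ a = 1) → χ.twist (l.comp δ) = χ → l ^ κ = 1)
    {ϑ : IrrCharacter S} (h : classInner (fun n : S => χ.1 n) ϑ.1 ≠ 0) {g : G} {a : ℕ}
    (hg : g ^ p ^ a = 1) : g ^ κ ∈ charInertia ϑ.1 := by
  have := Fact.mk hp
  have := Fintype.ofFinite G
  have := GLn.enoughRoots A
  have hle : δ.ker ≤ charInertia ϑ.1 := hS ▸ ϑ.le_charInertia
  have h0 : ∀ y ∉ charInertia ϑ.1, χ.1 y = 0 := fun y hy => by
    obtain ⟨ξ, -, h1⟩ := clifford_corr_surj ϑ.le_charInertia le_rfl χ h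
    rw [← h1]
    refine indFun_eq_zero_of_forall_not_mem _ _ fun x hx => hy ?_
    have h2 : y * (x * y * x⁻¹)⁻¹ ∈ δ.ker := by simp [MonoidHom.mem_ker]
    have h3 := Subgroup.mul_mem _ (hle h2) hx
    rwa [inv_mul_cancel_right] at h3
  rw [← Subgroup.comap_map_eq_self hle, Subgroup.mem_comap,
    ← CommGroup.forall_monoidHom_apply_eq_one_iff ℂ]
  intro l hl
  have h1 : l ∈ perp δ (charInertia ϑ.1) := mem_perp.2 fun y hy => hl _ ⟨y, hy, rfl⟩
  obtain ⟨c, hc⟩ := exists_orderOf_pPart (p := p) l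
  have h2 := hκ (pPart p l) ⟨c, by rw [← hc, pow_orderOf_eq_one]⟩ (Subtype.ext (funext fun y => by
    by_cases hy : y ∈ charInertia ϑ.1
    · simp [mem_perp.1 (pPart_mem p h1) y hy]
    · simp [h0 y hy]))
  have h3 : pRegPart p l (δ g) = 1 :=
    apply_eq_one (pow_orderOf_eq_one _) (by rw [← map_pow, hg, map_one])
      (((Nat.Prime.coprime_iff_not_dvd hp).2 (pPart_eq_one_iff.1 (pPart_pRegPart l))).symm.pow_right a)
  rw [map_pow, map_pow, ← pPart_mul_pRegPart p l, MonoidHom.mul_apply, h3, mul_one,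
    ← MonoidHom.pow_apply, h2, MonoidHom.one_apply]

theorem pow_kappa (hM : IsPModular p M) (hU : IsBlockUnion M U) (hδ : Function.Surjective δ)
    (hS : S = δ.ker) {κ : ℕ} (hκ : ∀ χ ∈ U, ∀ l : A →* ℂˣ, (∃ a : ℕ, l ^ p ^ a = 1) →
      χ.twist (l.comp δ) = χ → l ^ κ = 1) (hb : IsPBlock M b) (h : IsBrauerData p M b t ψ d)
    (hcov : ∃ χ ∈ U, ∃ ϑ ∈ b, classInner (fun n : S => χ.1 n) ϑ.1 ≠ 0) (j : t) {l : A →* ℂˣ}
    (hl : l ∈ perp δ (stab (h.reps.prim j j.2).idem)) {c : ℕ} (hc : l ^ p ^ c = 1) :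
    l ^ κ = 1 := by
  have := hM.fact_prime
  have := range_subtype_normal (N := S)
  ext a
  obtain ⟨g, rfl⟩ := hδ a
  obtain ⟨a, ha⟩ := exists_orderOf_pPart (p := p) g
  have h1 : l (δ (pRegPart p g)) = 1 :=
    apply_eq_one hc (n := orderOf (pRegPart p g)) (by rw [← map_pow, pow_orderOf_eq_one, map_one])
      (((Nat.Prime.coprime_iff_not_dvd hM.1).2 (pPart_eq_one_iff.1 (pPart_pRegPart g))).pow_left c)
  have h2 : pPart p g ^ κ ∈ stab (h.reps.prim j j.2).idem := by
    refine pt_equiv hM (hb.isBlockUnion hM) h j (prim_cj _ (h.reps.prim j j.2)) ?_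
    rw [cj, ← tau_one_comp _ (h.basic.isClassFunction j) (h.reps.prim j j.2).idem]
    have h3 : (fun x => ψ j ((MulAut.conjNormal (pPart p g ^ κ)).toMonoidHom x)) = ψ j := by
      obtain ⟨m, hm⟩ := h.basic.span j
      funext x
      rw [hm, Finset.sum_apply, Finset.sum_apply]
      refine Finset.sum_congr rfl fun ϑ hϑ => ?_
      obtain ⟨χ, hχ, h4⟩ := hb.exists_over_of_covers_hom hM S.subtype_injective hU hcov
        (mem_irrFinset.1 hϑ)
      have h5 := mem_charInertia.1 (pow_mem_charInertia hM.1 hS (hκ χ hχ) h4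
        (by rw [← ha, pow_orderOf_eq_one] : pPart p g ^ p ^ a = 1)) x
      have h6 := (MulAut.conjNormal (H := S) (pPart p g ^ κ)).orderOf_eq x
      replace h5 : ϑ.1 (MulAut.conjNormal (H := S) (pPart p g ^ κ) x) = ϑ.1 x := h5
      by_cases h7 : p ∣ orderOf x <;>
        simp [pRegularPart, IsPRegular, h5, h6, h7, -map_pow]
    rw [h3, h.tau_self]
    exact one_ne_zero
  rw [MonoidHom.pow_apply, ← pPart_mul_pRegPart p g, map_mul, map_mul, h1, mul_one, ← map_pow,
    ← map_pow, mem_perp.1 hl _ h2, MonoidHom.one_apply]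

open Classical in
theorem card_le_mul [IsCyclic A] [Fintype (A →* ℂˣ)] (hp : p.Prime) {κ : ℕ} (hκ : 0 < κ)
    (H : Subgroup (A →* ℂˣ)) (h : ∀ l ∈ H, ∀ c : ℕ, l ^ p ^ c = 1 → l ^ κ = 1)
    (F : Finset (A →* ℂˣ)) (hF : ∀ l ∈ H, ¬ p ∣ orderOf l → l ∈ F) : Nat.card H ≤ κ * #F := by
  have := Fact.mk hp
  have := GLn.enoughRoots A
  obtain ⟨e⟩ := CommGroup.monoidHom_mulEquiv_of_hasEnoughRootsOfUnity A ℂ
  have : IsCyclic (A →* ℂˣ) := isCyclic_of_surjective e.symm e.symm.surjective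
  refine le_trans ?_ (Nat.mul_le_mul_right _ (IsCyclic.card_pow_eq_one_le (α := A →* ℂˣ) hκ))
  rw [← Finset.card_product, ← Fintype.card_eq_nat_card, ← Finset.card_univ]
  refine Finset.card_le_card_of_injOn (fun l => (pPart p l.1, pRegPart p l.1)) (fun l _ => ?_)
    fun l _ l' _ e => Subtype.ext ?_
  · obtain ⟨c, hc⟩ := exists_orderOf_pPart (p := p) l.1
    exact Finset.mem_product.2 ⟨Finset.mem_filter.2 ⟨Finset.mem_univ _,
      h _ (pPart_mem p l.2) c (by rw [← hc, pow_orderOf_eq_one])⟩,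
      hF _ (pRegPart_mem p l.2) (pPart_eq_one_iff.1 (pPart_pRegPart _))⟩
  · obtain ⟨e1, e2⟩ := Prod.mk.inj e
    rw [← pPart_mul_pRegPart p l.1, ← pPart_mul_pRegPart p l'.1, e1, e2]

end Cfsg.GUn.CC

namespace Cfsg.GUn

open CC Finset
open scoped MonoidAlgebra

theorem stCC : StCC := by
  classical
  intro Γ A _ _ _ _ _ δ hδ S _ _ hS p M hM U hU κ hκ0 hκ ι X x hx hsp Z c T hT hTx b hb hcov Y hY hYb
  have := GLn.enoughRoots A
  have := Fintype.ofFinite (A →* ℂˣ)
  obtain ⟨s, φ, f, h⟩ := hU.exists_isBrauerData hM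
  obtain ⟨t, ψ, d, h'⟩ := (hb.isBlockUnion hM).exists_isBrauerData hM
  set r : (resK M)[Γ] → (A →* ℂˣ) → Prop := fun i l =>
    IdemEquiv (⊤ : Subalgebra (resK M) (resK M)[Γ]) i (tw (wK M (l.comp δ)) i) with hr
  set P : Finset (A →* ℂˣ) := {l | ¬ p ∣ orderOf l}
  have h1 : #Y ≤ (blockStab b).index := by
    rw [← card_perp hδ (hS ▸ le_blockStab b), ← Nat.card_eq_finsetCard]
    exact Nat.card_le_card_of_injective
      (fun z : Y => (⟨c z, mem_perp.2 fun g hg => hYb z z.2 hg⟩ : perp δ (blockStab b)))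
      fun z z' e => Subtype.ext (hY z.2 z'.2 (congrArg Subtype.val e))
  have h2 : #t ≤ ∑ i ∈ s, #{j ∈ t | ∃ a c, a * gaPush (resK M) S.subtype j * c = i} := by
    refine le_trans (Finset.card_le_card fun j hj => ?_) Finset.card_biUnion_le
    obtain ⟨i, hi, e⟩ := exists_le hM hU h.reps hb h' hcov ⟨j, hj⟩
    exact Finset.mem_biUnion.2 ⟨i, hi, Finset.mem_filter.2 ⟨hj, e⟩⟩
  have h3 : ∀ i ∈ s, #Y * #{j ∈ t | ∃ a c, a * gaPush (resK M) S.subtype j * c = i} ≤
      κ * #{l ∈ P | r i l} := fun i hi => by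
    rcases Finset.eq_empty_or_nonempty
      {j ∈ t | ∃ a c, a * gaPush (resK M) S.subtype j * c = i} with e | ⟨j, hj⟩
    · simp [e]
    obtain ⟨hj, a, a', e⟩ := Finset.mem_filter.1 hj
    refine (Nat.mul_le_mul_right _ h1).trans ((mul_comm _ _).trans_le
      ((card_below_le hM hb h'.reps (h.reps.prim i hi) hj ⟨a, a', e⟩).trans ?_))
    rw [← card_perp hδ (hS ▸ le_stab _)]
    refine card_le_mul hM.1 hκ0 _ (fun l hl c hc =>
      pow_kappa hM hU hδ hS hκ hb h' hcov ⟨j, hj⟩ hl hc) _ fun l hl hl' => ?_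
    exact Finset.mem_filter.2 ⟨Finset.mem_filter.2 ⟨Finset.mem_univ _, hl'⟩,
      tw_equiv (h.reps.prim i hi) (h'.reps.prim j hj) e (wK_inv _)
        fun g hg => wK_eq_one (mem_perp.1 hl g hg)⟩
  have h4 : ∑ l ∈ P, #{i ∈ s | r i l} ≤ ∑ l ∈ T.image c, #{i ∈ s | r i l} := by
    refine Finset.sum_le_sum_of_ne_zero fun l hl h0 => ?_
    obtain ⟨i, hi⟩ := Finset.card_ne_zero.1 h0
    obtain ⟨hi, hil⟩ := Finset.mem_filter.1 hi
    have hi1 := (h.reps.prim i hi).idem
    obtain ⟨χ, hχ, h5⟩ := h.exists_decNum_ne_zero ⟨i, hi⟩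
    obtain ⟨z, hz, e⟩ := hT l (Finset.mem_filter.1 hl).2 ⟨χ, hχ, mem_of_tau hM hU hi1
      (h.reps.blk i hi) (by
        rw [show (χ.twist (l.comp δ)).1 = fun g => ((l.comp δ) g : ℂ) * χ.1 g from rfl,
          tau_tw _ χ.isClassFunction hi1, ← hil.tau_one_eq χ.isClassFunction hi1 (hi1.map _),
          ← χ.isCharacter.cast_decNum hi1]
        exact Nat.cast_ne_zero.2 h5)⟩
    exact Finset.mem_image.2 ⟨z, hz, e⟩
  rw [← h'.card_eq]
  calc _ ≤ ∑ i ∈ s, κ * #{l ∈ P | r i l} := by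
        refine (Nat.mul_le_mul_left _ h2).trans ?_
        rw [Finset.mul_sum]
        exact Finset.sum_le_sum h3
    _ = κ * ∑ l ∈ P, #{i ∈ s | r i l} := by
        rw [← Finset.mul_sum]
        simp only [Finset.card_filter]
        rw [Finset.sum_comm]
    _ ≤ _ := Nat.mul_le_mul_left _ (h4.trans ((Finset.sum_image_le_of_nonneg
        fun _ _ => Nat.zero_le _).trans (Finset.sum_le_sum fun z hz =>
          card_fix_le hM hU h hx hsp ((c z).comp δ) (hTx z hz))))

end Cfsg.GUn
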