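import Cfsg.Agent.GUn.Defs2
import Cfsg.Agent.Blk.AutTrace
import Cfsg.Agent.GLn.ClifB

/-! Clifford theory of points: algebraic part. -/

set_option autoImplicit false

namespace Cfsg.GUn.CC

open scoped MonoidAlgebra ComplexConjugate

universe u v

section lin

variable {W : Type*} [AddCommGroup W] [Module ℂ W]

theorem trace_eq {ι : Type*} [Fintype ι] {x : ι → W} (hx : LinearIndependent ℂ x)
    {V : Submodule ℂ W} (hV : Submodule.span ℂ (Set.range x) = V) (L : W →ₗ[ℂ] W)
    (hL : ∀ v ∈ V, L v ∈ V) (m : ι → ι → ℂ) (hm : ∀ i, L (x i) = ∑ j, m i j • x j) :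
    LinearMap.trace ℂ V (L.restrict hL) = ∑ i, m i i := by
  classical
  subst hV
  set b := Module.Basis.span hx
  rw [LinearMap.trace_eq_matrix_trace ℂ b, Matrix.trace]
  refine Finset.sum_congr rfl fun i _ => ?_
  have : L.restrict hL (b i) = ∑ j, m i j • b j := by
    refine Subtype.ext ?_
    simp [b, LinearMap.restrict_apply, hm]
  rw [Matrix.diag_apply, LinearMap.toMatrix_apply, this]
  simp [Finsupp.single_apply]

end lin

section tw

variable {G : Type u} [Group G] {R : Type v} [CommRing R]

/-- the twist of the group algebra by a linear character -/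
noncomputable def tw (w : G →* R) : R[G] →ₐ[R] R[G] :=
  MonoidAlgebra.lift R R[G] G
    { toFun g := MonoidAlgebra.single g (w g)
      map_one' := by rw [map_one]; rfl
      map_mul' a b := by rw [MonoidAlgebra.single_mul_single, map_mul] }

theorem tw_single (w : G →* R) (g : G) (r : R) :
    tw w (MonoidAlgebra.single g r) = MonoidAlgebra.single g (w g * r) := by
  simp [tw, mul_comm]

theorem tw_tw (w w' : G →* R) (h : ∀ g, w g * w' g = 1) (a : R[G]) : tw w (tw w' a) = a := by
  induction a using MonoidAlgebra.induction_linear with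
  | zero => simp
  | add a b ha hb => rw [map_add, map_add, ha, hb]
  | single g r => rw [tw_single, tw_single, ← mul_assoc, h, one_mul]

theorem tw_push {H : Type*} [Group H] (f : H →* G) (w : G →* R) (h : ∀ x, w (f x) = 1) (a : R[H]) :
    tw w (gaPush R f a) = gaPush R f a := by
  induction a using MonoidAlgebra.induction_linear with
  | zero => simp
  | add a b ha hb => rw [map_add, map_add, ha, hb]
  | single g r => rw [gaPush_single, tw_single, h, one_mul]

variable {S : Subgroup G} [S.Normal]

/-- conjugation on the algebra of a normal subgroup -/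
noncomputable def cj (g : G) : R[S] →ₐ[R] R[S] := gaPush R (MulAut.conjNormal g).toMonoidHom

theorem cj_mul (g h : G) (a : R[S]) : cj (g * h) a = cj g (cj h a) := by
  rw [cj, cj, cj, gaPush_gaPush, map_mul]; rfl

theorem cj_one (a : R[S]) : cj (1 : G) a = a := by
  induction a using MonoidAlgebra.induction_linear with
  | zero => simp
  | add a b ha hb => rw [map_add, ha, hb]
  | single g r => rw [cj, gaPush_single, map_one]; rfl

theorem single_mul_push (g : G) (r : R) (a : R[S]) :
    MonoidAlgebra.single g r * gaPush R S.subtype a =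
      gaPush R S.subtype (cj g a) * MonoidAlgebra.single g r := by
  induction a using MonoidAlgebra.induction_linear with
  | zero => simp
  | add a b ha hb => simp only [map_add, mul_add, add_mul, ha, hb]
  | single x s => simp [cj, gaPush_single, MonoidAlgebra.single_mul_single, mul_comm]

theorem push_cj (g : G) (a : R[S]) :
    gaPush R S.subtype (cj g a) = gaConj R g (gaPush R S.subtype a) := by
  rw [gaConj_eq, single_mul_push, mul_assoc, MonoidAlgebra.single_mul_single, mul_inv_cancel,
    mul_one, ← MonoidAlgebra.one_def, mul_one]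

theorem cj_coe (g : S) (a : R[S]) :
    cj (g : G) a = MonoidAlgebra.single g 1 * a * MonoidAlgebra.single g⁻¹ 1 := by
  rw [← gaConj_eq, gaConj_eq_gaPush, cj]
  congr 2

theorem isNilpotent_push_mul [Finite G] {x : R[S]} (h : ∀ z, IsNilpotent (x * z)) (y : G) :
    IsNilpotent (gaPush R S.subtype x * MonoidAlgebra.single y 1) := by
  have key : ∀ n : ℕ, ∃ z, (gaPush R S.subtype x * MonoidAlgebra.single y 1) ^ (n + 1) =
      gaPush R S.subtype (x * z) * MonoidAlgebra.single (y ^ (n + 1)) 1 := by
    intro n
    induction n with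
    | zero => exact ⟨1, by simp⟩
    | succ n ih =>
      obtain ⟨z, hz⟩ := ih
      refine ⟨z * cj (y ^ (n + 1)) x, ?_⟩
      rw [pow_succ, hz, mul_assoc, ← mul_assoc (MonoidAlgebra.single _ _), single_mul_push,
        mul_assoc, MonoidAlgebra.single_mul_single, ← pow_succ, mul_one, ← mul_assoc, ← map_mul,
        mul_assoc x]
  obtain ⟨z, hz⟩ := key (orderOf y - 1)
  rw [Nat.sub_add_cancel (orderOf_pos y), pow_orderOf_eq_one, ← MonoidAlgebra.one_def,
    mul_one] at hz
  exact IsNilpotent.of_pow (hz ▸ (h z).map _)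

end tw

section pts

variable {k : Type v} [Field k] {A : Type*} [Ring A] [Algebra k A]

theorem prim_map {f g : A →ₐ[k] A} (h1 : ∀ a, f (g a) = a) (h2 : ∀ a, g (f a) = a) {i : A}
    (hi : IsPrimIdem (⊤ : Subalgebra k A) i) : IsPrimIdem (⊤ : Subalgebra k A) (f i) :=
  hi.map_algEquiv (AlgEquiv.ofAlgHom f g (AlgHom.ext h1) (AlgHom.ext h2)) fun _ => by simp

theorem equiv_map (f : A →ₐ[k] A) {i j : A} (h : IdemEquiv (⊤ : Subalgebra k A) i j) :
    IdemEquiv (⊤ : Subalgebra k A) (f i) (f j) := by
  obtain ⟨a, -, b, -, rfl, rfl⟩ := h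
  exact ⟨f a, trivial, f b, trivial, (map_mul f a b).symm, (map_mul f b a).symm⟩

theorem isNilpotent_swap {a b : A} (h : IsNilpotent (a * b)) : IsNilpotent (b * a) := by
  obtain ⟨n, hn⟩ := h
  refine ⟨n + 1, ?_⟩
  have : ∀ m : ℕ, (b * a) ^ (m + 1) = b * (a * b) ^ m * a := fun m => by
    induction m with
    | zero => simp
    | succ m ih => rw [pow_succ, ih, pow_succ]; simp only [mul_assoc]
  rw [this, hn, mul_zero, zero_mul]

variable {G : Type u} [Group G] [Finite G] {S : Subgroup G} [S.Normal]

omit [Finite G] in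
theorem prim_cj (g : G) {j : k[S]} (hj : IsPrimIdem (⊤ : Subalgebra k k[S]) j) :
    IsPrimIdem (⊤ : Subalgebra k k[S]) (cj g j) :=
  prim_map (g := cj g⁻¹) (fun a => by rw [← cj_mul, mul_inv_cancel, cj_one])
    (fun a => by rw [← cj_mul, inv_mul_cancel, cj_one]) hj

/-- the stabilizer of a point -/
def stab {j : k[S]} (hj : IsIdempotentElem j) : Subgroup G where
  carrier := {g | IdemEquiv (⊤ : Subalgebra k k[S]) (cj g j) j}
  one_mem' := by
    change IdemEquiv _ _ _
    rw [cj_one]; exact IdemEquiv.refl trivial hj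
  mul_mem' {a b} ha hb := by
    change IdemEquiv _ _ _
    rw [cj_mul]
    exact IdemEquiv.trans ((hj.map _).map _) (hj.map _) hj (equiv_map _ hb) ha
  inv_mem' {a} ha := by
    have := equiv_map (cj a⁻¹) ha
    rw [← cj_mul, inv_mul_cancel, cj_one] at this
    exact this.symm

omit [Finite G] in
theorem le_stab {j : k[S]} (hj : IsIdempotentElem j) : S ≤ stab hj := fun g hg => by
  refine ⟨MonoidAlgebra.single ⟨g, hg⟩ 1 * j, trivial, j * MonoidAlgebra.single ⟨g, hg⟩⁻¹ 1,
    trivial, ?_, ?_⟩
  · rw [cj_coe ⟨g, hg⟩, mul_assoc, ← mul_assoc j, hj.eq, mul_assoc]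
  · rw [mul_assoc, ← mul_assoc _ _ j, MonoidAlgebra.single_mul_single, inv_mul_cancel, mul_one,
      ← MonoidAlgebra.one_def, one_mul, hj.eq]

theorem nil_of_not_equiv {j j' : k[S]} (hj : IsPrimIdem (⊤ : Subalgebra k k[S]) j)
    (hj' : IsPrimIdem (⊤ : Subalgebra k k[S]) j') {g : G}
    (h : ¬ IdemEquiv (⊤ : Subalgebra k k[S]) (cj g j) j') (r : k) (y : G) (s : k) :
    IsNilpotent (gaPush k S.subtype j' * MonoidAlgebra.single g r * gaPush k S.subtype j *
      MonoidAlgebra.single y s) := by
  have h1 : ∀ z, IsNilpotent (j' * cj g j * z) := fun z => by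
    have h2 : IsNilpotent (j' * 1 * cj g j * z * j') := by
      by_contra h2
      exact h (hj'.idemEquiv_of_not_isNilpotent (prim_cj g hj) trivial trivial h2).symm
    have h3 := isNilpotent_swap h2
    rwa [mul_one, ← mul_assoc, ← mul_assoc, hj'.idem.eq] at h3
  have h2 := (isNilpotent_push_mul h1 (g * y)).smul (r * s)
  rw [← mul_smul_comm, MonoidAlgebra.smul_single, smul_eq_mul, mul_one] at h2
  rwa [mul_assoc (gaPush k S.subtype j'), single_mul_push, ← mul_assoc, ← map_mul, mul_assoc,
    MonoidAlgebra.single_mul_single]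

variable [IsAlgClosed k]

/-- the points below a point are conjugate -/
theorem exists_cj {i a b a' b' : k[G]} (hi : IsPrimIdem (⊤ : Subalgebra k k[G]) i) {j j' : k[S]}
    (hj : IsPrimIdem (⊤ : Subalgebra k k[S]) j) (hj' : IsPrimIdem (⊤ : Subalgebra k k[S]) j')
    (h : a * gaPush k S.subtype j * b = i) (h' : a' * gaPush k S.subtype j' * b' = i) :
    ∃ g : G, IdemEquiv (⊤ : Subalgebra k k[S]) (cj g j) j' := by
  by_contra hc
  push Not at hc
  obtain ⟨t, t1, t2, t3, -⟩ := hi.exists_ptTrace_top
  have key : ∀ c d, t (gaPush k S.subtype j' * c * gaPush k S.subtype j * d) = 0 := by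
    intro c d
    induction c using MonoidAlgebra.induction_linear with
    | zero => simp
    | add c c' h h' => simp only [mul_add, add_mul, map_add, h, h', add_zero]
    | single g r =>
      induction d using MonoidAlgebra.induction_linear with
      | zero => simp
      | add c c' h h' => simp only [mul_add, map_add, h, h', add_zero]
      | single y s => exact t2 _ (nil_of_not_equiv hj hj' (hc g) r y s)
  have h1 := key (b' * a) (b * a')
  rw [← mul_assoc, t1, ← mul_assoc, ← mul_assoc, ← mul_assoc, ← mul_assoc, h', mul_assoc, mul_assoc,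
    ← mul_assoc a, h, hi.idem.eq, t3] at h1
  exact one_ne_zero h1

/-- characters trivial on the stabilizer fix the points above -/
theorem tw_equiv {i a b : k[G]} (hi : IsPrimIdem (⊤ : Subalgebra k k[G]) i) {j : k[S]}
    (hj : IsPrimIdem (⊤ : Subalgebra k k[S]) j) (h : a * gaPush k S.subtype j * b = i)
    {w w' : G →* k} (hw : ∀ g, w g * w' g = 1) (h1 : ∀ g ∈ stab hj.idem, w g = 1) :
    IdemEquiv (⊤ : Subalgebra k k[G]) i (tw w i) := by
  obtain ⟨t, t1, t2, t3, t4⟩ := hi.exists_ptTrace_top
  by_contra hc
  have h2 := t4 _ (prim_map (tw_tw w w' hw) (tw_tw w' w fun g => by rw [mul_comm, hw]) hi) hc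
  have key : ∀ c, t (gaPush k S.subtype j * tw w c) = t (gaPush k S.subtype j * c) := by
    intro c
    induction c using MonoidAlgebra.induction_linear with
    | zero => simp
    | add c c' h h' => simp only [mul_add, map_add, h, h']
    | single g r =>
      rw [tw_single]
      by_cases hg : g ∈ stab hj.idem
      · rw [h1 g hg, one_mul]
      have : ∀ s, t (gaPush k S.subtype j * MonoidAlgebra.single g s) = 0 := fun s => by
        have h3 := t2 _ (nil_of_not_equiv hj hj hg s 1 1)
        rwa [← MonoidAlgebra.one_def, mul_one, t1, ← mul_assoc, ← map_mul, hj.idem.eq] at h3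
      rw [this, this]
  rw [← h, map_mul (tw w), map_mul (tw w), tw_push S.subtype w (fun x => h1 _ (le_stab _ x.2)),
    mul_assoc, t1, mul_assoc, ← map_mul (tw w), key, ← mul_assoc, t1, ← mul_assoc, h, t3] at h2
  exact one_ne_zero h2

end pts

end Cfsg.GUn.CC
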