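import Cfsg.Agent.GUn.Jt
import Cfsg.Agent.GUn.Ar

/-!
# S4537: eigenvalues and types of elements
-/

set_option autoImplicit false

namespace Cfsg.GUn

open Matrix Finset

universe u v w

variable {k : Type u} [Field k] {Φ : Frob k} {ι : Type v} [Fintype ι] [DecidableEq ι]
  {κ : Type w} [Fintype κ] [DecidableEq κ]

/-! ### eigenvalues -/

theorem un_val {a : k} (h : a ≠ 0) : (un a : k) = a := by rw [un, dif_neg h]; rfl

@[simp] theorem un_coe (x : kˣ) : un (x : k) = x := Units.ext (un_val x.ne_zero)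

theorem ne_zero_of_mem_roots (g : GL ι k) {a : k} (h : a ∈ g.val.charpoly.roots) : a ≠ 0 := by
  rintro rfl
  refine jt_sub_eq_zero_iff.1 ?_ h
  rw [zero_smul, sub_zero]
  exact jt_eq_zero_iff.2 g.isUnit

theorem eig_map_val (g : GL ι k) : (eig g).map Units.val = g.val.charpoly.roots := by
  rw [eig, Multiset.map_map]
  exact (Multiset.map_congr rfl fun a h => un_val (ne_zero_of_mem_roots g h)).trans
    (Multiset.map_id _)

theorem eig_eq_iff {g : GL ι k} {s : Multiset kˣ} :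
    eig g = s ↔ g.val.charpoly.roots = s.map Units.val := by
  rw [← eig_map_val]
  exact (Multiset.map_injective Units.val_injective).eq_iff.symm

theorem mem_eig {g : GL ι k} {α : kˣ} : α ∈ eig g ↔ (α : k) ∈ g.val.charpoly.roots := by
  rw [← eig_map_val, Multiset.mem_map_of_injective Units.val_injective]

theorem count_eig (g : GL ι k) (α : kˣ) : (eig g).count α = (jt (g.val - (α : k) • 1)).sum := by
  classical
  rw [sum_jt_sub_eq_count, ← eig_map_val, Multiset.count_map_eq_count' _ _ Units.val_injective]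

theorem notMem_eig {g : GL ι k} {α : kˣ} : α ∉ eig g ↔ jt (g.val - (α : k) • 1) = 0 := by
  rw [jt_sub_eq_zero_iff, mem_eig]

theorem mem_eig_iff {g : GL ι k} {α : kˣ} : α ∈ eig g ↔ jt (g.val - (α : k) • 1) ≠ 0 := by
  rw [Ne, ← notMem_eig, not_not]

theorem notMem_eig_iff_isUnit {g : GL ι k} {α : kˣ} :
    α ∉ eig g ↔ IsUnit (g.val - (α : k) • 1) := notMem_eig.trans jt_eq_zero_iff

theorem eig_congr {g : GL ι k} {h : GL κ k}
    (e : ∀ α : kˣ, jt (g.val - (α : k) • 1) = jt (h.val - (α : k) • 1)) : eig g = eig h :=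
  Multiset.ext.2 fun α => by rw [count_eig, count_eig, e]

theorem jt_conj_val (P g : GL ι k) (τ : k) :
    jt ((P * g * P⁻¹).val - τ • 1) = jt (g.val - τ • 1) := jt_conj_sub P _ τ

theorem eig_conj (P g : GL ι k) : eig (P * g * P⁻¹) = eig g :=
  eig_congr fun _ => jt_conj_val P g _

theorem eig_of_isConj {g h : GL ι k} (c : IsConj g h) : eig g = eig h := by
  obtain ⟨P, rfl⟩ := isConj_iff.1 c
  exact (eig_conj P g).symm

theorem typ_conj (P g : GL ι k) : typ Φ (P * g * P⁻¹) = typ Φ g :=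
  funext fun _ => jt_conj_val P g _

theorem typ_of_isConj {g h : GL ι k} (c : IsConj g h) : typ Φ g = typ Φ h := by
  obtain ⟨P, rfl⟩ := isConj_iff.1 c
  exact (typ_conj P g).symm

theorem zero_notMem_typ (g : GL ι k) (o : I Φ) : 0 ∉ typ Φ g o := zero_notMem_jt _

theorem sum_typ (g : GL ι k) (o : I Φ) : (typ Φ g o).sum = (eig g).count o.rep :=
  (count_eig g _).symm

theorem typ_eq_zero_iff {g : GL ι k} {o : I Φ} : typ Φ g o = 0 ↔ o.rep ∉ eig g := notMem_eig.symm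

theorem typ_finite (g : GL ι k) : (Function.support (typ Φ g)).Finite :=
  ((eig g).toFinset.image (io Φ)).finite_toSet.subset fun o ho =>
    mem_coe.2 (mem_image.2 ⟨o.rep, Multiset.mem_toFinset.2 (mem_eig_iff.2 ho), io_rep o⟩)

variable (Φ) in
/-- the type as a finitely supported function -/
noncomputable def typF (g : GL ι k) : I Φ →₀ Multiset ℕ :=
  Finsupp.ofSupportFinite _ (typ_finite g)

@[simp] theorem typF_coe (g : GL ι k) : ⇑(typF Φ g) = typ Φ g := rfl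

@[simp] theorem scal_val (ξ : kˣ) : (scal ι ξ).val = (ξ : k) • 1 := by
  change Matrix.scalar ι (ξ : k) = _
  rw [scalar_apply, smul_one_eq_diagonal]

theorem scal_comm (ξ : kˣ) (g : GL ι k) : scal ι ξ * g = g * scal ι ξ :=
  Units.ext (by simp)

theorem scal_commute (ξ : kˣ) (g : GL ι k) : Commute (scal ι ξ) g := scal_comm ξ g

theorem scal_injective [Nonempty ι] : Function.Injective (scal ι : kˣ → GL ι k) := fun x y h => by
  obtain ⟨i⟩ := ‹Nonempty ι›
  have := congrArg (fun g : GL ι k => g.val i i) h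
  exact Units.ext (by simpa using this)

theorem det_scal (ξ : kˣ) : GeneralLinearGroup.det (scal ι ξ) = ξ ^ Fintype.card ι :=
  Units.ext (by simp [GeneralLinearGroup.val_det_apply])

theorem jt_scal_mul (ξ τ : kˣ) (g : GL ι k) :
    jt ((scal ι ξ * g).val - ((ξ * τ : kˣ) : k) • 1) = jt (g.val - (τ : k) • 1) := by
  rw [← jt_smul ξ.ne_zero (g.val - _), Units.val_mul, scal_val, Units.val_mul, smul_sub, smul_smul,
    Matrix.smul_mul, Matrix.one_mul]

theorem jt_scal_mul' (ξ τ : kˣ) (g : GL ι k) :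
    jt ((scal ι ξ * g).val - (τ : k) • 1) = jt (g.val - ((ξ⁻¹ * τ : kˣ) : k) • 1) := by
  rw [← jt_scal_mul ξ (ξ⁻¹ * τ), mul_inv_cancel_left]

theorem eig_eq_map {g : GL ι k} {h : GL κ k} {f : kˣ → kˣ} (hf : Function.Bijective f)
    (e : ∀ α : kˣ, jt (g.val - (f α : k) • 1) = jt (h.val - (α : k) • 1)) :
    eig g = (eig h).map f :=
  Multiset.ext.2 fun α => by
    obtain ⟨β, rfl⟩ := hf.2 α
    rw [Multiset.count_map_eq_count' _ _ hf.1, count_eig, count_eig, e]

theorem eig_scal_mul (ξ : kˣ) (g : GL ι k) : eig (scal ι ξ * g) = (eig g).map (ξ * ·) :=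
  eig_eq_map (Group.mulLeft_bijective ξ) fun α => jt_scal_mul ξ α g

theorem jt_scal (ξ τ : kˣ) : jt ((scal ι ξ).val - (τ : k) • 1) =
    if ξ = τ then Multiset.replicate (Fintype.card ι) 1 else 0 := by
  rw [scal_val, ← sub_smul]
  split_ifs with h
  · rw [h, sub_self, zero_smul, jt_zero]
  · rw [jt_smul (sub_ne_zero.2 fun e => h (Units.ext e)), jt_eq_zero_iff.2 isUnit_one]

theorem eig_scal (ξ : kˣ) : eig (scal ι ξ) = Multiset.replicate (Fintype.card ι) ξ :=
  Multiset.ext.2 fun α => by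
    rw [count_eig, jt_scal, Multiset.count_replicate]
    split_ifs <;> simp

theorem eig_one : eig (1 : GL ι k) = Multiset.replicate (Fintype.card ι) 1 := by
  rw [← eig_scal, map_one]

theorem jt_inv_sub (g : GL ι k) (τ : kˣ) :
    jt ((g⁻¹).val - ((τ⁻¹ : kˣ) : k) • 1) = jt (g.val - (τ : k) • 1) := by
  have h : (g⁻¹).val - ((τ⁻¹ : kˣ) : k) • 1 =
      (-((τ⁻¹ : kˣ) : k)) • ((g⁻¹).val * (g.val - (τ : k) • 1)) := by
    rw [Matrix.mul_sub, Units.inv_mul, Matrix.mul_smul, Matrix.mul_one, smul_sub, smul_smul]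
    simp [sub_eq_add_neg, add_comm]
  rw [h, jt_smul (neg_ne_zero.2 (Units.ne_zero _)), jt_unit_mul (Units.isUnit _)]
  exact ((Commute.refl g).inv_right.map (Units.coeHom _)).sub_left
    ((Commute.one_left _).smul_left _)

theorem eig_inv (g : GL ι k) : eig g⁻¹ = (eig g).map (·⁻¹) :=
  eig_eq_map inv_involutive.bijective (jt_inv_sub g)

section
variable [IsAlgClosed k]

theorem card_eig (g : GL ι k) : (eig g).card = Fintype.card ι := by
  rw [eig, Multiset.card_map, GLn.BL.card_roots_charpoly (IsAlgClosed.splits _)]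

theorem prod_eig (g : GL ι k) : (eig g).prod = GeneralLinearGroup.det g :=
  Units.ext <| by
    rw [GeneralLinearGroup.val_det_apply, det_eq_prod_roots_charpoly, ← eig_map_val]
    exact map_multiset_prod (Units.coeHom k) _

theorem eig_pow (g : GL ι k) (n : ℕ) : eig (g ^ n) = (eig g).map (· ^ n) := by
  rw [eig_eq_iff, Units.val_pow_eq_pow_val, GLn.BL.roots_charpoly_pow, ← eig_map_val,
    Multiset.map_map, Multiset.map_map]
  rfl

theorem eig_zpow (g : GL ι k) (n : ℤ) : eig (g ^ n) = (eig g).map (· ^ n) := by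
  cases n with
  | ofNat n => simpa using eig_pow g n
  | negSucc n => simp [eig_inv, eig_pow]

theorem pow_eq_one_of_mem_eig {g : GL ι k} {n : ℕ} (h : g ^ n = 1) {α : kˣ} (hα : α ∈ eig g) :
    α ^ n = 1 := by
  have := Multiset.mem_map_of_mem (· ^ n) hα
  rw [← eig_pow, h, eig_one] at this
  exact Multiset.eq_of_mem_replicate this

theorem isNilpotent_sub_iff {g : GL ι k} {ξ : kˣ} :
    IsNilpotent (g.val - (ξ : k) • 1) ↔ ∀ α ∈ eig g, α = ξ := by
  rw [isNilpotent_iff_sum_jt, ← count_eig, ← card_eig g, Multiset.count_eq_card]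
  exact forall₂_congr fun _ _ => eq_comm

theorem isConj_of_jt {g h : GL ι k}
    (e : ∀ α : kˣ, jt (g.val - (α : k) • 1) = jt (h.val - (α : k) • 1)) : IsConj g h := by
  obtain ⟨P, hP⟩ := exists_conj_of_jt' (A := g.val) (B := h.val) fun τ => by
    by_cases h0 : τ = 0
    · rw [h0, zero_smul, sub_zero, sub_zero, jt_eq_zero_iff.2 g.isUnit, jt_eq_zero_iff.2 h.isUnit]
    · exact e (Units.mk0 τ h0)
  exact isConj_iff.2 ⟨P, Units.ext hP⟩

end

/-! ### the Frobenius map -/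

theorem mat_add (A B : Matrix ι ι k) : Φ.mat (A + B) = Φ.mat A + Φ.mat B := by
  unfold Frob.mat; split_ifs <;> simp [Matrix.map_add]

theorem mat_sub (A B : Matrix ι ι k) : Φ.mat (A - B) = Φ.mat A - Φ.mat B := by
  unfold Frob.mat; split_ifs <;> simp [Matrix.map_sub]

theorem mat_zero : Φ.mat (0 : Matrix ι ι k) = 0 := by
  unfold Frob.mat; split_ifs <;> simp

theorem mat_one : Φ.mat (1 : Matrix ι ι k) = 1 := by
  unfold Frob.mat; split_ifs <;> simp

theorem mat_smul (c : k) (A : Matrix ι ι k) : Φ.mat (c • A) = Φ.σ c • Φ.mat A := by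
  unfold Frob.mat; split_ifs <;> ext <;> simp

theorem mat_mul (A B : Matrix ι ι k) :
    Φ.mat (A * B) = if Φ.neg then Φ.mat B * Φ.mat A else Φ.mat A * Φ.mat B := by
  unfold Frob.mat; split_ifs <;> simp

theorem mat_injective : Function.Injective (Φ.mat : Matrix ι ι k → _) := fun A B h => by
  unfold Frob.mat at h
  refine Matrix.map_injective Φ.σ.injective ?_
  split_ifs at h
  exacts [transpose_injective h, h]

theorem mat_conj (P : GL ι k) (A : Matrix ι ι k) : Φ.mat (P.val * A * (P⁻¹).val) =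
    (Φ.Fr ι P).val * Φ.mat A * ((Φ.Fr ι P)⁻¹).val := by
  rw [← map_inv, Φ.Fr_val, Φ.Fr_val, mat_mul, mat_mul]
  split_ifs <;> simp [Matrix.mul_assoc]

theorem mat_reindex (e : ι ≃ κ) (A : Matrix ι ι k) :
    Φ.mat (reindex e e A) = reindex e e (Φ.mat A) := by
  unfold Frob.mat; split_ifs <;> rfl

theorem rank_mat (A : Matrix ι ι k) : (Φ.mat A).rank = A.rank := by
  unfold Frob.mat; split_ifs <;> simp [rank_map, rank_transpose]

theorem jt_mat (A : Matrix ι ι k) : jt (Φ.mat A) = jt A := by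
  unfold Frob.mat; split_ifs <;> simp [jt_map, jt_transpose]

theorem σ_val (τ : kˣ) : Φ.σ (if Φ.neg then τ⁻¹ else τ : kˣ) = ((τ ^ Φ.Q : kˣ) : k) := by
  rw [Φ.hσ, Frob.Q]; split_ifs <;> simp

theorem jt_Fr (g : GL ι k) (τ : kˣ) :
    jt ((Φ.Fr ι g).val - ((τ ^ Φ.Q : kˣ) : k) • 1) = jt (g.val - (τ : k) • 1) := by
  rw [Φ.Fr_val, ← σ_val, ← mat_one (Φ := Φ), ← mat_smul, ← mat_sub, jt_mat, mat_one]
  split_ifs
  exacts [jt_inv_sub g τ, rfl]

theorem jt_Fr_iterate (n : ℕ) (g : GL ι k) (τ : kˣ) :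
    jt (((Φ.Fr ι)^[n] g).val - ((τ ^ Φ.Q ^ n : kˣ) : k) • 1) = jt (g.val - (τ : k) • 1) := by
  induction n with
  | zero => simp
  | succ n ih => rw [Function.iterate_succ_apply', pow_succ, _root_.zpow_mul, jt_Fr, ih]

theorem Fr_scal (ξ : kˣ) : Φ.Fr ι (scal ι ξ) = scal ι (ξ ^ Φ.Q) := by
  refine Units.ext ?_
  rw [Φ.Fr_val, scal_val, ← σ_val, ← map_inv, ← apply_ite (scal ι), scal_val, mat_smul, mat_one]

theorem Fr_iterate_scal (n : ℕ) (ξ : kˣ) : (Φ.Fr ι)^[n] (scal ι ξ) = scal ι (ξ ^ Φ.Q ^ n) := by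
  induction n with
  | zero => simp
  | succ n ih => rw [Function.iterate_succ_apply', ih, Fr_scal, pow_succ, _root_.zpow_mul]

theorem scal_mem_G {ξ : kˣ} (h : ξ ^ Φ.Q = ξ) : scal ι ξ ∈ Φ.G ι := by
  rw [Φ.mem_G, Fr_scal, h]

theorem scal_mem_G_pow {d : ℕ} (hd : 0 < d) {ξ : kˣ} (h : ξ ^ Φ.Q ^ d = ξ) :
    scal ι ξ ∈ (Φ.pow d).G ι := scal_mem_G (by rwa [Φ.Q_pow hd])

theorem det_Fr (g : GL ι k) :
    GeneralLinearGroup.det (Φ.Fr ι g) = GeneralLinearGroup.det g ^ Φ.Q := by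
  refine Units.ext ?_
  rw [← σ_val, ← map_inv, ← apply_ite GeneralLinearGroup.det, GeneralLinearGroup.val_det_apply,
    GeneralLinearGroup.val_det_apply, Φ.Fr_val, RingHom.map_det, Frob.mat]
  split_ifs <;> simp

theorem det_Fr_iterate (n : ℕ) (g : GL ι k) :
    GeneralLinearGroup.det ((Φ.Fr ι)^[n] g) = GeneralLinearGroup.det g ^ Φ.Q ^ n := by
  induction n with
  | zero => simp
  | succ n ih => rw [Function.iterate_succ_apply', det_Fr, ih, pow_succ, _root_.zpow_mul]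

theorem det_pow_Q {g : GL ι k} (hg : g ∈ Φ.G ι) :
    GeneralLinearGroup.det g ^ Φ.Q = GeneralLinearGroup.det g := by rw [← det_Fr, Φ.mem_G.1 hg]

theorem mem_G_pow {d : ℕ} (hd : 0 < d) {g : GL ι k} :
    g ∈ (Φ.pow d).G ι ↔ (Φ.Fr ι)^[d] g = g := by rw [Frob.mem_G, Φ.Fr_pow hd]

theorem jt_pow_Q {g : GL ι k} (hg : g ∈ Φ.G ι) (n : ℕ) (τ : kˣ) :
    jt (g.val - ((τ ^ Φ.Q ^ n : kˣ) : k) • 1) = jt (g.val - (τ : k) • 1) := by
  rw [← jt_Fr_iterate (Φ := Φ) n g τ, Function.iterate_fixed (Φ.mem_G.1 hg)]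

variable [Big k]

theorem exists_pow_of_unip {g : GL ι k} (h : IsNilpotent (g.val - 1)) :
    ∃ a, g ^ ringChar k ^ a = 1 := by
  obtain ⟨n, hn⟩ := h
  haveI := Fact.mk (Big.prime (k := k))
  cases isEmpty_or_nonempty ι
  · exact ⟨0, Subsingleton.elim _ _⟩
  refine ⟨n, Units.ext ?_⟩
  have := sub_pow_char_pow_of_commute (ringChar k) n (Commute.one_right g.val)
  rw [pow_eq_zero_of_le (Nat.lt_pow_self (Big.prime (k := k)).one_lt).le hn, one_pow] at this
  exact sub_eq_zero.1 this.symm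

theorem isNilpotent_of_pow {g : GL ι k} {a : ℕ} (h : g ^ ringChar k ^ a = 1) :
    IsNilpotent (g.val - 1) := by
  haveI := Fact.mk (Big.prime (k := k))
  cases isEmpty_or_nonempty ι
  · exact ⟨0, Subsingleton.elim _ _⟩
  refine ⟨ringChar k ^ a, ?_⟩
  rw [sub_pow_char_pow_of_commute (ringChar k) a (Commute.one_right g.val), one_pow,
    ← Units.val_pow_eq_pow_val, h, Units.val_one, sub_self]

theorem exists_pow_eq_one_of_eig {g : GL ι k} {N : ℕ} (h : ∀ α ∈ eig g, α ^ N = 1) :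
    ∃ a, g ^ (N * ringChar k ^ a) = 1 := by
  have := (isNilpotent_sub_iff (g := g ^ N) (ξ := 1)).2 fun α hα => by
    rw [eig_pow] at hα
    obtain ⟨β, hβ, rfl⟩ := Multiset.mem_map.1 hα
    exact h β hβ
  rw [Units.val_one, one_smul] at this
  simpa only [pow_mul] using exists_pow_of_unip this

theorem dvd_orderOf_iff_eig {p : ℕ} (hp : p.Prime) (h0 : p ≠ ringChar k) (g : GL ι k) :
    p ∣ orderOf g ↔ ∃ α ∈ eig g, p ∣ orderOf α := by
  refine ⟨fun h => ?_, fun ⟨α, hα, h⟩ => h.trans (orderOf_dvd_of_pow_eq_one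
    (pow_eq_one_of_mem_eig (pow_orderOf_eq_one g) hα))⟩
  obtain ⟨a, ha⟩ := exists_pow_eq_one_of_eig (g := g) (N := ((eig g).map orderOf).prod)
    fun α hα => orderOf_dvd_iff_pow_eq_one.1 (Multiset.dvd_prod (Multiset.mem_map_of_mem _ hα))
  rcases (hp.dvd_mul).1 (h.trans (orderOf_dvd_of_pow_eq_one ha)) with h | h
  · obtain ⟨_, h1, h2⟩ := hp.prime.exists_mem_multiset_dvd h
    obtain ⟨α, hα, rfl⟩ := Multiset.mem_map.1 h1
    exact ⟨α, hα, h2⟩
  · exact absurd ((Nat.prime_dvd_prime_iff_eq hp Big.prime).1 (hp.dvd_of_dvd_pow h)) h0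

theorem isOfFinOrder_GL (g : GL ι k) : IsOfFinOrder g := by
  obtain ⟨a, ha⟩ := exists_pow_eq_one_of_eig (g := g) (N := ((eig g).map orderOf).prod)
    fun α hα => orderOf_dvd_iff_pow_eq_one.1 (Multiset.dvd_prod (Multiset.mem_map_of_mem _ hα))
  refine isOfFinOrder_iff_pow_eq_one.2 ⟨_, mul_pos (Multiset.prod_pos fun n hn => ?_)
    (pow_pos (Big.prime (k := k)).pos _), ha⟩
  obtain ⟨α, -, rfl⟩ := Multiset.mem_map.1 hn
  exact orderOf_pos_K α

theorem det_mem_Mk {g : GL ι k} (hg : g ∈ Φ.G ι) : GeneralLinearGroup.det g ∈ Mk Φ 1 :=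
  (mem_Mk one_pos).2 (by rw [pow_one, det_pow_Q hg])

theorem scal_mem_G_of_Mk {d : ℕ} {ξ : kˣ} (h : ξ ∈ Mk Φ d) : scal ι ξ ∈ (Φ.pow d).G ι :=
  scal_mem_G_pow (pos_of_mem_Mk h) (pow_of_mem_Mk h)

theorem pow_q_bijective (n : ℕ) : Function.Bijective fun x : kˣ => x ^ Φ.Q ^ n := by
  have : Function.Bijective (fr Φ)^[n] :=
    Function.Bijective.iterate ⟨(allPer Φ).injective, (allPer Φ).surjective⟩ n
  rwa [funext (fr_iterate n)] at this

theorem eig_Fr_iterate (n : ℕ) (g : GL ι k) :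
    eig ((Φ.Fr ι)^[n] g) = (eig g).map (· ^ Φ.Q ^ n) :=
  eig_eq_map (pow_q_bijective n) (jt_Fr_iterate n g)

theorem eig_Fr (g : GL ι k) : eig (Φ.Fr ι g) = (eig g).map (· ^ Φ.Q) := by
  simpa using eig_Fr_iterate (Φ := Φ) 1 g

theorem typ_io {g : GL ι k} (hg : g ∈ Φ.G ι) (τ : kˣ) :
    typ Φ g (io Φ τ) = jt (g.val - (τ : k) • 1) := by
  obtain ⟨n, h⟩ := exists_rep_io (Φ := Φ) τ
  rw [typ, h, jt_pow_Q hg]

theorem count_eig_io {g : GL ι k} (hg : g ∈ Φ.G ι) (τ : kˣ) :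
    (eig g).count τ = (typ Φ g (io Φ τ)).sum := by rw [typ_io hg, count_eig]

theorem mem_eig_io {g : GL ι k} (hg : g ∈ Φ.G ι) {τ : kˣ} :
    τ ∈ eig g ↔ typ Φ g (io Φ τ) ≠ 0 := by rw [typ_io hg, mem_eig_iff]

theorem eig_eq_sum {g : GL ι k} (hg : g ∈ Φ.G ι) {S : Finset (I Φ)}
    (hS : ∀ o, typ Φ g o ≠ 0 → o ∈ S) : eig g = ∑ o ∈ S, (typ Φ g o).sum • o.pts.val := by
  ext τ
  rw [count_eig_io hg, Multiset.count_sum', sum_eq_single (io Φ τ)]
  · rw [Multiset.count_nsmul, Multiset.count_eq_one_of_mem (io Φ τ).pts.nodup (mem_pts.2 rfl),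
      mul_one]
  · intro o _ h
    rw [Multiset.count_nsmul, Multiset.count_eq_zero_of_notMem fun e => h (mem_pts.1 e).symm,
      mul_zero]
  · intro h
    rw [not_not.1 (mt (hS _) h)]
    simp

theorem prod_map_eig {g : GL ι k} (hg : g ∈ Φ.G ι) {S : Finset (I Φ)}
    (hS : ∀ o, typ Φ g o ≠ 0 → o ∈ S) {M : Type*} [CommMonoid M] (F : kˣ → M) :
    ((eig g).map F).prod = ∏ o ∈ S, (∏ t ∈ o.pts, F t) ^ (typ Φ g o).sum := by
  rw [eig_eq_sum hg hS, ← Multiset.coe_mapAddMonoidHom, map_sum, Multiset.prod_sum,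
    Multiset.coe_mapAddMonoidHom]
  exact prod_congr rfl fun o _ => by rw [Multiset.map_nsmul, Multiset.prod_nsmul]; rfl

theorem sum_per_typ {g : GL ι k} (hg : g ∈ Φ.G ι) {S : Finset (I Φ)}
    (hS : ∀ o, typ Φ g o ≠ 0 → o ∈ S) :
    ∑ o ∈ S, o.per * (typ Φ g o).sum = Fintype.card ι := by
  rw [← card_eig g, eig_eq_sum hg hS, Multiset.card_sum]
  exact sum_congr rfl fun o _ => by rw [Multiset.card_nsmul, card_val, o.card_pts, mul_comm]

theorem sum_typF {g : GL ι k} (hg : g ∈ Φ.G ι) :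
    ((typF Φ g).sum fun o l => o.per * l.sum) = Fintype.card ι :=
  sum_per_typ hg fun _ h => Finsupp.mem_support_iff.2 h

theorem finsum_per_typ {g : GL ι k} (hg : g ∈ Φ.G ι) :
    ∑ᶠ o : I Φ, o.per * (typ Φ g o).sum = Fintype.card ι := by
  rw [← sum_typF hg, Finsupp.sum, finsum_eq_sum_of_support_subset]
  · rfl
  · intro o h
    exact mem_coe.2 (Finsupp.mem_support_iff.2 fun e => h (by simp [show typ Φ g o = 0 from e]))

theorem sum_per_typ_le {g : GL ι k} (hg : g ∈ Φ.G ι) (S : Finset (I Φ)) :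
    ∑ o ∈ S, o.per * (typ Φ g o).sum ≤ Fintype.card ι := by
  rw [← sum_per_typ hg (S := S ∪ (typF Φ g).support) fun o h =>
    mem_union_right _ (Finsupp.mem_support_iff.2 h)]
  exact sum_le_sum_of_subset subset_union_left

/-- if the part over `S` has full degree, the type vanishes outside `S` -/
theorem typ_eq_zero_of_sum {g : GL ι k} (hg : g ∈ Φ.G ι) {S : Finset (I Φ)}
    (h : ∑ o ∈ S, o.per * (typ Φ g o).sum = Fintype.card ι) {o : I Φ} (ho : o ∉ S) :
    typ Φ g o = 0 := by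
  have := sum_per_typ_le hg (insert o S)
  rw [sum_insert ho, h, add_le_iff_nonpos_left, Nat.le_zero, mul_eq_zero_iff_left (per_pos o).ne',
    sum_typ, Multiset.count_eq_zero] at this
  exact typ_eq_zero_iff.2 this

theorem jt_eq_of_typ {g : GL ι k} {h : GL κ k} (hg : g ∈ Φ.G ι) (hh : h ∈ Φ.G κ)
    (e : typ Φ g = typ Φ h) (α : kˣ) : jt (g.val - (α : k) • 1) = jt (h.val - (α : k) • 1) := by
  rw [← typ_io hg, ← typ_io hh, e]

theorem eig_eq_of_typ {g : GL ι k} {h : GL κ k} (hg : g ∈ Φ.G ι) (hh : h ∈ Φ.G κ)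
    (e : typ Φ g = typ Φ h) : eig g = eig h := eig_congr (jt_eq_of_typ hg hh e)

theorem isConj_GL_of_typ {g h : GL ι k} (hg : g ∈ Φ.G ι) (hh : h ∈ Φ.G ι)
    (e : typ Φ g = typ Φ h) : IsConj g h := isConj_of_jt (jt_eq_of_typ hg hh e)

/-- the dimension of the space of intertwiners -/
theorem finrank_ker_syl_typ {g : GL ι k} {h : GL κ k} (hg : g ∈ Φ.G ι) (hh : h ∈ Φ.G κ) :
    Module.finrank k (LinearMap.ker (syl g.val h.val)) =
      ∑ᶠ o : I Φ, o.per * ipc (typ Φ g o) (typ Φ h o) := by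
  classical
  rw [finrank_ker_syl _ (IsAlgClosed.splits _) (s := (eig h).toFinset.image Units.val) fun τ hτ =>
      by simpa [← eig_map_val] using hτ, sum_image Units.val_injective.injOn,
    (allPer Φ).sum_orbits_inv _ (typF Φ h).support
      (fun x => by rw [Multiset.mem_toFinset, mem_eig_io hh, Finsupp.mem_support_iff]; rfl),
    finsum_eq_sum_of_support_subset]
  · rfl
  · intro o ho
    exact mem_coe.2 (Finsupp.mem_support_iff.2 fun e => ho (by
      simp [show typ Φ h o = 0 from e, ipc]))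
  · intro x
    have := jt_pow_Q hg 1 x
    have := jt_pow_Q hh 1 x
    simp_all [fr_apply]

end Cfsg.GUn
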