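import Cfsg.Agent.GUn.Ev
import Cfsg.Agent.GUn.JtB

/-! The piece `Ch`: elementary properties of the characteristic map. -/

set_option autoImplicit false

namespace Cfsg.GUn

open Finset GLn MvPolynomial SymCh

universe u

variable {k : Type u} [Field k] [Big k] {Φ : Frob k} {ι : Type} [Fintype ι] [DecidableEq ι]

omit [Big k] in
theorem ch_apply (a : A Φ) (g : Φ.G ι) : ch ι a g = ev (typ Φ g.1) a := rfl

omit [Big k] in
theorem typ_eq_zero_of_notMem {g : GL ι k} {T : Finset (I Φ)} (h : (typF Φ g).support ⊆ T) :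
    ∀ o ∉ T, typ Φ g o = 0 := fun _ ho => Finsupp.notMem_support_iff.1 fun e => ho (h e)

theorem io_one_rep : (io Φ 1).rep = 1 := by
  obtain ⟨n, hn⟩ := exists_rep_io (Φ := Φ) 1
  rw [hn, one_zpow]

theorem io_one_per : (io Φ 1).per = 1 := Nat.dvd_one.1 ((per_io_dvd_iff _ _).2 (one_zpow _))

theorem io_eq_one_iff {t : kˣ} : io Φ t = io Φ 1 ↔ t = 1 :=
  ⟨fun e => by obtain ⟨n, hn⟩ := io_eq_iff.1 e.symm; rw [← hn, one_zpow], fun e => e ▸ rfl⟩

theorem typ_one_apply (g : GL ι k) : typ Φ g (io Φ 1) = jt (g.val - 1) := by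
  rw [typ, io_one_rep, Units.val_one, one_smul]

variable (h : StHL)
include h

theorem fb_sum_eq {τ : Multiset (I Φ × ℕ)} {g : GL ι k} (e : ev (typ Φ g) (pmon xo τ) ≠ 0)
    (o : I Φ) : (fb τ o).sum = (typ Φ g o).sum := by
  rw [ev_pmon' h (T := insert o ((typF Φ g).support ∪ (τ.map Prod.fst).toFinset))
    (typ_eq_zero_of_notMem (subset_union_left.trans (subset_insert _ _))) fun x hx =>
      mem_insert_of_mem (mem_union_right _ (Multiset.mem_toFinset.2 (Multiset.mem_map_of_mem _ hx)))]
    at e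
  exact go_size h (prod_ne_zero_iff.1 e o (mem_insert_self _ _))

theorem typ_eq_zero_of_X {o o' : I Φ} {r : ℕ} {g : GL ι k} (e : ev (typ Φ g) (X (o, r)) ≠ 0)
    (ho : o' ≠ o) : typ Φ g o' = 0 := by
  have := fb_sum_eq h (τ := {(o, r)}) (g := g) (by simpa [pmon, xo] using e) o'
  rw [fb_eq_zero (by simpa using ho.symm)] at this
  exact Multiset.eq_zero_of_forall_notMem fun a ha =>
    zero_notMem_typ g o' (Multiset.sum_eq_zero_iff.1 this.symm a ha ▸ ha)

theorem ch_mu (F : kˣ → ℂ) (a : A Φ) (g : Φ.G ι) :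
    ch ι (mu F a) g = ((eig g.1).map F).prod * ch ι a g := by
  induction a using MvPolynomial.induction_on' with
  | add a b ha hb => simp only [map_add, Pi.add_apply, ha, hb, mul_add]
  | monomial s c =>
    rw [monomial_eq_pmon]
    generalize Finsupp.toMultiset s = τ
    set T := (typF Φ g.1).support ∪ (τ.map Prod.fst).toFinset
    rw [map_smul, mu_pmon F (T := T) fun x hx =>
      mem_union_right _ (Multiset.mem_toFinset.2 (Multiset.mem_map_of_mem _ hx)),
      prod_map_eig g.2 (S := T) fun o ho => mem_union_left _ (Finsupp.mem_support_iff.2 ho)]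
    simp only [map_smul, smul_eq_mul, ch_apply]
    by_cases e : ev (typ Φ g.1) (pmon xo τ) = 0
    · simp only [e, mul_zero]
    · simp only [fb_sum_eq h e]; ring

theorem ch_hom {n : ℕ} {a : A Φ} (ha : Hom n a) (hn : n ≠ Fintype.card ι) : ch ι a = 0 := by
  induction ha using IsWeightedHomogeneous.induction_on with
  | zero => exact map_zero _
  | add a b _ _ ha hb => rw [map_add, ha, hb, add_zero]
  | monomial s c hs =>
    funext g
    rw [ch_apply, monomial_eq_pmon, map_smul]
    refine smul_eq_zero_of_right _ (by_contra fun e => hn ?_)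
    rw [← hs, weight_eq (T := (typF Φ g.1).support ∪ s.support.image Prod.fst) fun x hx =>
      mem_union_right _ (mem_image_of_mem _ hx), ← sum_per_typ g.2 fun o ho =>
      mem_union_left (s.support.image Prod.fst) ((Finsupp.mem_support_iff (f := typF Φ g.1)).2 ho)]
    exact sum_congr rfl fun o _ => by rw [rho_eq, fb_sum_eq h e]

variable (k) in
/-- piece `Ch` -/
theorem stCh : StCh k where
  hom _ _ _ _ _ _ ha hn := ch_hom h ha hn
  cls Φ ι _ _ a g z := by
    rw [ch_apply, ch_apply]
    exact congrArg (ev · a) (typ_conj z.1 g.1)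
  mul _ _ _ _ := ch_mu h
  reg Φ ι _ _ p hp h0 a := funext fun g => by
    rw [dd, ch_mu h, pRegularPart]
    have := dvd_orderOf_iff_eig hp h0 g.1
    rw [Subgroup.orderOf_coe] at this
    split_ifs with e
    · rw [Multiset.prod_eq_one, one_mul]
      intro x hx
      obtain ⟨α, hα, rfl⟩ := Multiset.mem_map.1 hx
      exact if_neg fun e' => e (this.2 ⟨α, hα, e'⟩)
    · obtain ⟨α, hα, e'⟩ := this.1 (not_not.1 e)
      refine mul_eq_zero_of_left (Multiset.prod_eq_zero ?_) _
      exact Multiset.mem_map.2 ⟨α, hα, if_pos e'⟩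
  one Φ ι _ _ := funext fun g => by
    rw [ch_apply, ev_hh h _ (typ_eq_zero_of_notMem subset_rfl) (zero_notMem_typ _),
      if_pos (sum_per_typ g.2 fun o ho => Finsupp.mem_support_iff.2 ho)]
    rfl
  prim Φ ι _ _ m ξ g _ e := by
    rw [ch_apply, P, map_sum] at e
    obtain ⟨t, ht, e⟩ := exists_ne_zero_of_sum_ne_zero e
    rw [map_smul] at e
    exact ⟨t, ht, fun α hα => by_contra fun e' => (mem_eig_io g.2).1 hα
      (typ_eq_zero_of_X h (right_ne_zero_of_smul e) e')⟩
  uni Φ ι _ _ ξ u hn hu := by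
    rw [← typ_one_apply (Φ := Φ)] at hu
    rw [ch_apply, P, map_sum, sum_eq_single_of_mem 1 (one_mem_Mk hn) fun t _ ht => ?_]
    · have := ev_prod_pm h (T := {io Φ 1}) (fun o ho => typ_eq_zero_of_sum u.2
        (by simp [hu, io_one_per]) ho) fun _ => {Fintype.card ι}
      rw [prod_singleton, prod_singleton, hu, go,
        (hl h _).delta _ hn _ (mem_ptn.2 (by simpa using hn))] at this
      simpa [io_one_per, pm, xo] using this
    · rw [map_smul]
      refine smul_eq_zero_of_right _ (by_contra fun e => ?_)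
      have := typ_eq_zero_of_X h e fun e' => ht (io_eq_one_iff.1 e'.symm)
      simp [hu] at this

end Cfsg.GUn
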