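import Cfsg.Agent.GUn.Fock
import Cfsg.Agent.GUn.ArC
import Cfsg.Agent.GLn.Core

/-! The piece `StCls`. -/

set_option autoImplicit false
set_option linter.unusedSectionVars false

namespace Cfsg.GUn

open Finset SymCh ComplexConjugate
open GLn (Bt sz rc ex pm S mnorm S_mem_adjoin_b pm_mem_adjoin_b Sreg S_split Sreg_mem sum_rptn_phi
  dvd_of_mem_map clsF_ne_of_rc S_range_b)

universe u

variable {k : Type u} [Field k] [Big k] {Φ : Frob k} {N p e : ℕ}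

namespace Cls

section Local

variable {q : ℕ → A Φ} (hq : ∀ r, 0 < r → Lin (q r)) {w : ℕ → ℂ}
  (h : ∀ k l, 0 < k → 0 < l → ipA (q k) (q l) = if k = l then k * w k else 0)
  (hw : ∀ k, 0 < k → ¬ e ∣ k → w k = 1)

include hq h hw

theorem ip_Sreg (X Y : Finset ℕ) (ν ν' : Multiset ℕ) (m m' : ℕ) :
    ipA (Sreg q N e X ν m) (Sreg q N e Y ν' m') = if m = m' then
      ((∑ ρ ∈ rptn e m, ph N X (ν + ρ) * ph N Y (ν' + ρ) / zz ρ : ℚ) : ℂ) else 0 := by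
  simp only [Sreg, ip_sum_left, ip_sum_right, ip_smul_left, ip_smul_right, map_ratCast, mul_sum]
  have h1 : ∀ {m}, ∀ ρ ∈ rptn e m, ∀ k ∈ ρ, 0 < k := fun ρ hρ => (mem_ptn.1 (mem_rptn.1 hρ).1).2
  split_ifs with hm
  · subst hm
    rw [Rat.cast_sum]
    refine sum_congr rfl fun ρ hρ => ?_
    rw [sum_eq_single_of_mem ρ hρ fun σ hσ hne => by
      rw [ip_pm hq h (h1 _ hσ) (h1 _ hρ), if_neg hne, mul_zero, mul_zero],
      ip_pm hq h (h1 _ hρ) (h1 _ hρ), if_pos rfl, Multiset.prod_eq_one fun x hx => by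
        obtain ⟨k, hk, rfl⟩ := Multiset.mem_map.1 hx
        exact hw k (h1 _ hρ k hk) ((mem_rptn.1 hρ).2 k hk)]
    have : (zz ρ : ℂ) ≠ 0 := Nat.cast_ne_zero.2 (zz_pos (h1 _ hρ)).ne'
    push_cast
    field_simp
  · refine sum_eq_zero fun σ hσ => sum_eq_zero fun ρ hρ => ?_
    rw [ip_pm hq h (h1 _ hρ) (h1 _ hσ), if_neg, mul_zero, mul_zero]
    rintro rfl
    exact hm ((mem_ptn.1 (mem_rptn.1 hρ).1).1.symm.trans (mem_ptn.1 (mem_rptn.1 hσ).1).1)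

theorem ip_S_mul_eq_zero (he : 0 < e) {X Y : Finset ℕ} (hX : #X = N) (hY : #Y = N)
    (hN : sz N X ≤ N) (hc : clsF e X ≠ clsF e Y) {y y' : A Φ}
    (hy : y ∈ Algebra.adjoin ℂ (q '' {k | 0 < k ∧ e ∣ k}))
    (hy' : y' ∈ Algebra.adjoin ℂ (q '' {k | 0 < k ∧ e ∣ k})) :
    ipA (y * S q N X) (y' * S q N Y) = 0 := by
  have h1 : ∀ {j}, ∀ μ ∈ ptn j, (zz (μ.map (e * ·)) : ℂ)⁻¹ • pm q (μ.map (e * ·)) ∈
      Algebra.adjoin ℂ (q '' {k | 0 < k ∧ e ∣ k}) := fun μ hμ =>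
    Subalgebra.smul_mem _ (pm_mem_adjoin_b fun k hk => by
      obtain ⟨s, hs, rfl⟩ := Multiset.mem_map.1 hk
      exact ⟨_, ⟨Nat.mul_pos he ((mem_ptn.1 hμ).2 s hs), dvd_mul_right _ _⟩, rfl⟩) _
  simp only [S_split he, mul_sum, ip_sum_left, ip_sum_right, ← mul_assoc]
  refine sum_eq_zero fun j _ => sum_eq_zero fun μ hμ => sum_eq_zero fun j' _ =>
    sum_eq_zero fun μ' hμ' => ?_
  rw [ip_mul_mul_adjoin _ _ _ (mul_mem hy (h1 _ hμ')) (mul_mem hy' (h1 _ hμ))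
    (Sreg_mem _ _ _ _) (Sreg_mem _ _ _ _), ip_Sreg hq h hw]
  · split_ifs
    · simp only [ph]
      rw [sum_rptn_phi ((Nat.sub_le _ _).trans hN) dvd_of_mem_map dvd_of_mem_map
        (by rwa [cls_lab hX, cls_lab hY]), Rat.cast_zero, mul_zero]
    · exact mul_zero _
  · rintro _ ⟨k, hk, rfl⟩
    exact hq k hk.1
  · rintro _ ⟨k, hk, rfl⟩
    exact hq k hk.1
  · rintro _ ⟨k, hk, rfl⟩ _ ⟨l, hl, rfl⟩
    rw [h k l hk.1 hl.1, if_neg fun e : k = l => hl.2 (e ▸ hk.2)]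

end Local

variable (p) in
/-- the truncated power sums -/
noncomputable def qq (o : I Φ) (m : ℕ) : A Φ := dd p (pp o m)

theorem lin_qq (o : I Φ) (m : ℕ) : Lin (qq p o m) := (lin_pp o m).dd p

theorem hom_qq (o : I Φ) (m : ℕ) : Hom (o.per * m) (qq p o m) := (hom_pp o m).dd p

theorem dd_chi (μ : MP Φ N) : dd p (chi μ) = schur (qq p) μ := Gen.map_schur (dd p) pp μ

variable [Fact p.Prime]

theorem ip_qq (o o' : I Φ) {m m' : ℕ} (hm : 0 < m) (hm' : 0 < m') :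
    ipA (qq p o m) (qq p o' m') = gram p o m o' m' := by
  rw [qq, qq, ip_dd_dd, gr_pp _ _ hm hm']

theorem dd_P_reg {m : ℕ} {ξ : kˣ} (hξ : ξ ∈ Mk Φ m) :
    dd p (P Φ m (pRegPart p ξ)) = dd p (P Φ m ξ) := by
  rw [P_eq_Pf, P_eq_Pf, dd_Pf, dd_Pf]
  refine Pf_congr fun α hα => ?_
  split_ifs with h
  · rw [zero_mul, zero_mul]
  · have hu := pPart_mem_Mk (p := p) hξ
    conv_rhs => rw [← pPart_mul_pRegPart p ξ, pr_mul hu (pRegPart_mem_Mk hξ) hα]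
    rw [pr_eq_one hu hα (coprime_orderOf_of h (exists_orderOf_pPartK ξ)).symm, one_mul,
      one_mul, one_mul]

theorem per_rpI_mul (o : I Φ) (m : ℕ) :
    (rpI p o).per * (o.per / (rpI p o).per * m) = o.per * m := by
  rw [← mul_assoc, Nat.mul_div_cancel' (per_rpI_dvd o)]

theorem qq_eq (o : I Φ) {m : ℕ} (hm : 0 < m) :
    qq p o m = qq p (rpI p o) (o.per / (rpI p o).per * m) := by
  have h := rep_mem_Mk_mul o hm
  rw [qq, qq, pp, pp, per_rpI_mul, rpI, P_rep_io (pRegPart_mem_Mk h), dd_P_reg h]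

theorem gram_reg {ψ : I Φ} (h : Reg p ψ) (m m' : ℕ) :
    gram p ψ m ψ m' = if m = m' then (m : ℂ) * (nl Φ p (ψ.per * m) : ℂ)⁻¹ else 0 := by
  have h0 : (ψ.per : ℂ) ≠ 0 := Nat.cast_ne_zero.2 (per_pos ψ).ne'
  simp only [gram, h.rpI_eq, and_true, Nat.mul_right_inj (per_pos ψ).ne', Nat.cast_mul,
    mul_div_mul_left _ _ h0, div_eq_mul_inv]

theorem gram_ne {o o' : I Φ} (h : rpI p o ≠ rpI p o') (m m' : ℕ) : gram p o m o' m' = 0 :=
  if_neg fun e => h e.2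

theorem spM_le (P : I Φ → Prop) (n : ℕ) : Gen.spM (qq p) P n ≤ Gen.spM (qq p) (Reg p) n := by
  refine Submodule.span_mono ?_
  rintro _ ⟨τ, hτ, rfl⟩
  refine ⟨τ.map fun x => (rpI p x.1, x.1.per / (rpI p x.1).per * x.2), ⟨fun y hy => ?_, ?_⟩, ?_⟩
  · obtain ⟨x, hx, rfl⟩ := Multiset.mem_map.1 hy
    exact ⟨reg_rpI _, Nat.mul_pos (per_div_pos _) (hτ.1 x hx).2⟩
  · simp only [Multiset.map_map, Function.comp_def, per_rpI_mul, hτ.2]
  · simp only [pmon, Multiset.map_map, Function.comp_def]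
    exact congrArg _ (Multiset.map_congr rfl fun x hx => (qq_eq _ (hτ.1 x hx).2).symm)

theorem dd_chi_mem_span (μ : MP Φ N) (h : deg μ ≤ N) : dd p (chi μ) ∈
    Submodule.span ℂ ((fun ν => dd p (chi ν)) '' {ν : MP Φ N | Basic p ν ∧ deg ν = deg μ}) := by
  simp only [dd_chi]
  exact Gen.spM_le_span _ _ h (spM_le _ _ (Gen.schur_mem_spM _ μ (P := fun _ => True)
    fun _ _ => trivial))

variable (Φ p) in
/-- the basic algebra -/
noncomputable def BA : Subalgebra ℂ (A Φ) :=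
  Algebra.adjoin ℂ {a | ∃ ψ m, Reg p ψ ∧ 0 < m ∧ a = pp ψ m}

theorem S_mem_BA {ψ : I Φ} (h : Reg p ψ) (X : Finset ℕ) : S (pp ψ) N X ∈ BA Φ p :=
  S_mem_adjoin_b (fun m hm => by exact ⟨ψ, m, h, hm, rfl⟩) X

theorem chi_mem_BA {μ : MP Φ N} (h : Basic p μ) : chi μ ∈ BA Φ p :=
  Subalgebra.prod_mem _ fun o ho => S_mem_BA (h o ho) _

/-- `dd` is injective on the basic algebra (strong form) -/
theorem eq_zero_of_BA {a : A Φ} (ha : a ∈ BA Φ p) (h0 : ipA (dd p a) a = 0) : a = 0 := by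
  classical
  have h1 : a ∈ Submodule.span ℂ (Set.range
      fun τ : {τ : Multiset (I Φ × ℕ) // ∀ x ∈ τ, Reg p x.1 ∧ 0 < x.2} => pmon pp τ.1) := by
    rw [BA, ← Subalgebra.mem_toSubmodule, Algebra.adjoin_eq_span] at ha
    refine Submodule.span_mono (fun x hx => ?_) ha
    induction hx using Submonoid.closure_induction with
    | mem x hx =>
      obtain ⟨ψ, m, h1, h2, rfl⟩ := hx
      exact ⟨⟨{(ψ, m)}, by simp [h1, h2]⟩, by simp [pmon]⟩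
    | one => exact ⟨⟨0, by simp⟩, by simp [pmon]⟩
    | mul x y _ _ hx hy =>
      obtain ⟨τ, rfl⟩ := hx
      obtain ⟨σ, rfl⟩ := hy
      exact ⟨⟨τ.1 + σ.1, fun x hx => (Multiset.mem_add.1 hx).elim (τ.2 x) (σ.2 x)⟩,
        Gen.pmon_add ..⟩
  rw [← Finsupp.range_linearCombination] at h1
  obtain ⟨c, rfl⟩ := h1
  suffices c = 0 by rw [this, map_zero]
  ext τ
  have h2 := ip_eq_zero_of_self ((ip_dd_dd p _ _).trans h0) (pmon (qq p) τ.1)
  have h3 (σ : {τ : Multiset (I Φ × ℕ) // ∀ x ∈ τ, Reg p x.1 ∧ 0 < x.2}) :=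
    ip_multiset (s := {x : I Φ × ℕ | Reg p x.1 ∧ 0 < x.2}) (a := fun x => qq p x.1 x.2)
      (fun x _ => lin_qq _ _) (fun x hx y hy hxy => by
        rw [ip_qq _ _ hx.2 hy.2]
        by_cases e : x.1 = y.1
        · rw [← e, gram_reg hx.1, if_neg fun e' => hxy (Prod.ext e e')]
        · exact gram_ne (by rwa [hx.1.rpI_eq, hy.1.rpI_eq]) _ _) σ.2 τ.2
  rw [Finsupp.linearCombination_apply, Finsupp.sum, map_sum, ip_sum_left,
    sum_eq_single τ (fun σ _ hσ => ?_) fun h => ?_, map_smul, ip_smul_left, Gen.map_pmon] at h2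
  · refine (mul_eq_zero.1 h2).resolve_right ?_
    change ipA (pmon (qq p) τ.1) _ ≠ 0
    rw [pmon, h3, if_pos rfl]
    refine prod_ne_zero_iff.2 fun x hx => ?_
    have hx' := τ.2 x (Multiset.mem_toFinset.1 hx)
    simp only [ip_qq _ _ hx'.2 hx'.2, gram_reg hx'.1, if_true]
    exact mul_ne_zero (Nat.cast_ne_zero.2 (Nat.factorial_ne_zero _)) (pow_ne_zero _
      (mul_ne_zero (Nat.cast_ne_zero.2 hx'.2.ne') (inv_ne_zero (Nat.cast_ne_zero.2 (nl_pos _).ne'))))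
  · rw [map_smul, ip_smul_left, Gen.map_pmon]
    change _ * ipA (pmon (qq p) σ.1) _ = 0
    rw [pmon, pmon, h3, if_neg fun e => hσ (Subtype.ext e), mul_zero]
  · rw [Finsupp.notMem_support_iff.1 h, zero_smul, map_zero, ip_zero_left]

/-- the local factor of a truncated product of Schur functions -/
noncomputable def locF (p : ℕ) (μ : MP Φ N) (ψ : I Φ) : A Φ :=
  ∏ φ ∈ μ.support with rpI p φ = ψ, S (qq p φ) N (μ φ).1

theorem locF_eq (μ : MP Φ N) (ψ : I Φ) {T : Finset (I Φ)} (h : μ.support ⊆ T) :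
    locF p μ ψ = ∏ φ ∈ T with rpI p φ = ψ, S (qq p φ) N (μ φ).1 :=
  prod_subset (filter_subset_filter _ h) fun φ h1 h2 => by
    rw [Finsupp.notMem_support_iff.1 fun h3 => h2 (mem_filter.2 ⟨h3, (mem_filter.1 h1).2⟩)]
    exact S_range_b _

theorem hom_locF (μ : MP Φ N) (ψ : I Φ) : Hom (ψ.per * nn p μ ψ) (locF p μ ψ) := by
  rw [per_mul_nn μ ψ Subset.rfl]
  exact MvPolynomial.IsWeightedHomogeneous.prod _ _ _ fun φ _ =>
    hom_S (fun r _ => hom_qq φ r) N _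

theorem locF_mem (μ : MP Φ N) (ψ : I Φ) :
    locF p μ ψ ∈ Algebra.adjoin ℂ (qq p ψ '' {k | 0 < k}) :=
  Subalgebra.prod_mem _ fun φ hφ => S_mem_adjoin_b (fun k hk => by
    obtain rfl := (mem_filter.1 hφ).2
    exact ⟨_, Nat.mul_pos (per_div_pos φ) hk, (qq_eq φ hk).symm⟩) _

theorem ip_dd_chi (μ ν : MP Φ N) {T : Finset (I Φ)} (hT : ∀ ψ ∈ T, Reg p ψ)
    (hμ : ∀ φ ∈ μ.support, rpI p φ ∈ T) (hν : ∀ φ ∈ ν.support, rpI p φ ∈ T) :
    ipA (dd p (chi μ)) (chi ν) = ∏ ψ ∈ T, ipA (locF p μ ψ) (locF p ν ψ) := by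
  have h : ∀ μ : MP Φ N, (∀ φ ∈ μ.support, rpI p φ ∈ T) → dd p (chi μ) = ∏ ψ ∈ T, locF p μ ψ :=
    fun μ h => (dd_chi μ).trans (prod_fiberwise_of_maps_to h _).symm
  rw [← ip_dd_dd, h μ hμ, h ν hν]
  refine ip_prod_prod_adjoin (fun ψ => qq p ψ '' {k | 0 < k ∧ Reg p ψ}) ?_ ?_ T
    (fun ψ hψ => by simpa only [hT ψ hψ, and_true] using locF_mem μ ψ)
    fun ψ hψ => by simpa only [hT ψ hψ, and_true] using locF_mem ν ψ
  · rintro ψ _ ⟨k, hk, rfl⟩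
    exact lin_qq _ _
  · rintro ψ ψ' hne _ ⟨k, hk, rfl⟩ _ ⟨l, hl, rfl⟩
    rw [ip_qq _ _ hk.1 hl.1, gram_ne (by rwa [hk.2.rpI_eq, hl.2.rpI_eq])]

theorem locF_eq_mul (μ : MP Φ N) {ψ : I Φ} (hψ : Reg p ψ) :
    ∃ y ∈ Algebra.adjoin ℂ (qq p ψ '' {k | 0 < k ∧ ee p ψ ∣ k}),
      locF p μ ψ = y * S (qq p ψ) N (μ ψ).1 := by
  refine ⟨∏ φ ∈ ({φ ∈ insert ψ μ.support | rpI p φ = ψ}).erase ψ, S (qq p φ) N (μ φ).1,
    Subalgebra.prod_mem _ fun φ hφ => S_mem_adjoin_b (fun k hk => ?_) _, by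
    rw [locF_eq μ ψ (subset_insert ψ _)]
    exact (prod_erase_mul {φ ∈ insert ψ μ.support | rpI p φ = ψ}
      (fun φ => S (qq p φ) N (μ φ).1) (mem_filter.2 ⟨mem_insert_self _ _, hψ.rpI_eq⟩)).symm⟩
  obtain ⟨h1, h2⟩ := mem_erase.1 hφ
  obtain rfl := (mem_filter.1 h2).2
  exact ⟨_, ⟨Nat.mul_pos (per_div_pos φ) hk, (ee_dvd_of_not_reg fun h3 =>
    h1 h3.rpI_eq.symm).mul_right _⟩, (qq_eq φ hk).symm⟩

theorem ip_locF_eq_zero (hc : p ≠ ringChar k) {μ ν : MP Φ N} {ψ : I Φ} (hψ : Reg p ψ)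
    (hN : sz N (μ ψ).1 ≤ N) (h : cd p μ ψ ≠ cd p ν ψ) : ipA (locF p μ ψ) (locF p ν ψ) = 0 := by
  rw [cd_of_reg _ hψ, cd_of_reg _ hψ] at h
  by_cases hn : nn p μ ψ = nn p ν ψ
  · obtain ⟨y, hy, h1⟩ := locF_eq_mul μ hψ
    obtain ⟨y', hy', h2⟩ := locF_eq_mul ν hψ
    rw [h1, h2]
    refine ip_S_mul_eq_zero (w := fun k => (nl Φ p (ψ.per * k) : ℂ)⁻¹)
      (fun k _ => lin_qq ψ k) (fun k l hk hl => by rw [ip_qq _ _ hk hl, gram_reg hψ])
      (fun k hk hek => ?_) (ee_pos hc ψ) (μ ψ).2 (ν ψ).2 hN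
      (clsF_ne_of_rc (ee_pos hc ψ) fun h3 => h (Prod.ext hn h3)) hy hy'
    rw [(nl_eq_one_iff (Nat.mul_pos (per_pos ψ) hk)).2 (mt (e0_dvd_per_mul_iff ψ k).1 hek),
      Nat.cast_one, inv_one]
  · exact (hom_locF μ ψ).ip_eq_zero (hom_locF ν ψ) fun h3 =>
      hn (Nat.eq_of_mul_eq_mul_left (per_pos ψ) h3)

theorem core (hc : p ≠ ringChar k) {μ ν : MP Φ N} (hμ : deg μ ≤ N) (h : cd p μ ≠ cd p ν) :
    ipA (dd p (chi μ)) (chi ν) = 0 := by
  obtain ⟨ψ, hψ⟩ := Function.ne_iff.1 h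
  have hR : Reg p ψ := by_contra fun h => hψ (by rw [cd_of_not_reg _ h, cd_of_not_reg _ h])
  refine (ip_dd_chi μ ν (T := insert ψ ((μ.support ∪ ν.support).image (rpI p)))
    (fun φ hφ => ?_) (fun φ hφ => ?_) fun φ hφ => ?_).trans (prod_eq_zero (mem_insert_self _ _)
      (ip_locF_eq_zero hc hR ((sz_le_deg μ ψ).trans hμ) hψ))
  · rcases mem_insert.1 hφ with rfl | hφ
    · exact hR
    · obtain ⟨φ, -, rfl⟩ := mem_image.1 hφ
      exact reg_rpI φ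
  · exact mem_insert_of_mem (mem_image_of_mem _ (mem_union_left _ hφ))
  · exact mem_insert_of_mem (mem_image_of_mem _ (mem_union_right _ hφ))

omit [Fact p.Prime] in
theorem hom_sum {J : Type*} {s : Finset J} {n : ℕ} {ν : J → MP Φ N} (c : J → ℂ)
    (h : ∀ j ∈ s, deg (ν j) = n) : Hom n (∑ j ∈ s, c j • chi (ν j)) :=
  MvPolynomial.IsWeightedHomogeneous.sum _ _ _ fun j hj => (h j hj ▸ hom_chi (ν j)).smul _

end Cls

open Cls

variable (k) in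
theorem stCls (hC : StCh k) (hI : StIso k) : StCls k where
  cls Φ ι _ _ p hp hc N μ ν hN hμ _ h := by
    have := Fact.mk hp
    by_contra h0
    rw [Ch, Ch, ← hC.reg Φ ι p hp hc, hI _ _ _ _ (hμ ▸ (hom_chi μ).dd p)] at h
    exact h (core hc (hμ ▸ hN) h0)
  ind Φ ι _ _ p hp hc N := by
    have := Fact.mk hp
    classical
    refine linearIndependent_iff'.2 fun s c h0 ν hν => ?_
    have h1 : ∑ i ∈ s, c i • chi i.1 = 0 := by
      refine eq_zero_of_BA (p := p) (Subalgebra.sum_mem _ fun i _ =>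
        Subalgebra.smul_mem _ (chi_mem_BA i.2.1) _) ?_
      rw [← hI _ ι _ _ ((hom_sum c fun i _ => i.2.2).dd p), map_sum, map_sum]
      simp only [map_smul, hC.reg Φ ι p hp hc]
      rw [show ∑ i ∈ s, c i • pRegularPart p (ch ι (chi i.1)) = 0 from h0, classInner_zero_left]
    have h2 := congrArg (ipA · (chi ν.1)) h1
    simpa [ip_sum_left, ip_smul_left, ip_chi_chi, Subtype.val_inj, hν] using h2
  span Φ ι _ _ p hp hc N μ hN hμ := by
    have := Fact.mk hp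
    classical
    obtain ⟨c, hc1, hc2⟩ := (Finsupp.mem_span_image_iff_linearCombination ℂ).1
      (dd_chi_mem_span (p := p) μ (hμ ▸ hN))
    have hs : ∀ ν ∈ c.support, Basic p ν ∧ deg ν = Fintype.card ι := fun ν hν =>
      ⟨(hc1 hν).1, (hc1 hν).2.trans hμ⟩
    rw [Finsupp.linearCombination_apply, Finsupp.sum,
      ← sum_filter_add_sum_filter_not _ fun ν => cd p ν = cd p μ] at hc2
    set b := ∑ ν ∈ c.support with ¬ cd p ν = cd p μ, c ν • chi ν with hb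
    have h1 : dd p b = dd p (chi μ - ∑ ν ∈ c.support with cd p ν = cd p μ, c ν • chi ν) := by
      rw [map_sub, ← hc2, map_sum, map_sum]
      simp only [map_smul, add_sub_cancel_left]
    have h2 : ch ι (dd p b) = 0 := by
      rw [← classInner_self_eq_zero, hI _ ι _ _ ((hom_sum c fun ν hν =>
        (hs ν (mem_filter.1 hν).1).2).dd p), ip_dd_dd, ip_dd, h1, ← ip_dd, map_sum,
        ip_sum_left]
      refine sum_eq_zero fun ν hν => ?_
      obtain ⟨h3, h4⟩ := mem_filter.1 hν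
      have h5 := (hs ν h3).2.trans_le hN
      rw [map_smul, ip_smul_left, ip_sub_right, ip_sum_right, core hc h5 h4,
        sum_eq_zero fun ν' hν' => ?_, sub_zero, mul_zero]
      rw [ip_smul_right, core hc h5 fun e => h4 (e.trans (mem_filter.1 hν').2), mul_zero]
    rw [h1, map_sub, map_sub, sub_eq_zero, map_sum, map_sum] at h2
    rw [Ch, ← hC.reg Φ ι p hp hc, h2]
    refine Submodule.sum_mem _ fun ν hν => ?_
    obtain ⟨h3, h4⟩ := mem_filter.1 hν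
    rw [map_smul, map_smul, hC.reg Φ ι p hp hc]
    exact Submodule.smul_mem _ _ (Submodule.subset_span ⟨ν, (hs ν h3).1, (hs ν h3).2, h4, rfl⟩)

end Cfsg.GUn
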