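import Cfsg.Agent.GUn.Defs
import Cfsg.Agent.GLn.Peel
import Cfsg.Agent.Blk.PairBridge
import Cfsg.Agent.Blk.Cover
import Cfsg.Prelude.Def_CaseTheorems

/-!
# S4537: frozen definitions, part 2 (block side; plan: `docs/GUn2.md`)
-/

set_option autoImplicit false

namespace Cfsg.GUn

open Matrix Finset
open scoped ComplexConjugate MonoidAlgebra
open GLn (Bt sz)

universe u

/-! ### general block theory -/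

section general

variable {Γ G₀ G₁ : Type u} [Group Γ] [Group G₀] [Group G₁]

/-- the pairing on the section of `f (u₀, u₁)` -/
noncomputable def pair3 [Fintype G₀] [Fintype G₁] (p : ℕ) (f : G₀ × G₁ →* Γ) (u₀ : G₀) (u₁ : G₁)
    (χ : Γ → ℂ) (θ₀ : G₀ → ℂ) (θ₁ : G₁ → ℂ) : ℂ :=
  ∑ s₀, ∑ s₁, χ (f (u₀ * s₀, u₁ * s₁)) * conj (pRegularPart p θ₀ s₀) * conj (pRegularPart p θ₁ s₁)

/-- `f` identifies `G₀ × G₁` with the centralizer of the `p`-element `f (u₀, u₁)` -/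
structure Cen (p : ℕ) (f : G₀ × G₁ →* Γ) (u₀ : G₀) (u₁ : G₁) : Prop where
  inj : Function.Injective f
  range : f.range = Subgroup.centralizer {f (u₀, u₁)}
  pelt : ∃ a : ℕ, orderOf (f (u₀, u₁)) = p ^ a

/-- the block has a centric pair supported on `K` -/
def MC [Finite Γ] (p : ℕ) (M : Ideal AlgInt) (B : Set (IrrCharacter Γ)) (K : Subgroup Γ) : Prop :=
  ∃ (A : Subgroup Γ) (f : (resK M)[Γ]), IsPairOf p ⊤ ⊤ (idemK M B) A f ∧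
    (∀ S : Subgroup Γ, IsPGroup p S → S ≤ Subgroup.centralizer (A : Set Γ) →
      brGA (resK M) S f ≠ 0 → S ≤ A) ∧ f ∈ suppGA (resK M) K

end general

/-- piece `Pl`: blocks and centralizers that are direct products -/
structure StPl : Prop where
  same : ∀ (Γ G₀ G₁ : Type u) [Group Γ] [Finite Γ] [Group G₀] [Group G₁] [Fintype G₀] [Fintype G₁]
    (p : ℕ) (M : Ideal AlgInt), IsPModular p M → ∀ (f : G₀ × G₁ →* Γ) (u₀ : G₀) (u₁ : G₁),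
    Cen p f u₀ u₁ → ∀ (χ χ' : IrrCharacter Γ) (θ₀ θ₀' : IrrCharacter G₀) (θ₁ θ₁' : IrrCharacter G₁),
    pair3 p f u₀ u₁ χ.1 θ₀.1 θ₁.1 ≠ 0 → pair3 p f u₀ u₁ χ'.1 θ₀'.1 θ₁'.1 ≠ 0 →
    θ₀' ∈ blockOf M θ₀.1 → θ₁' ∈ blockOf M θ₁.1 → χ' ∈ blockOf M χ.1
  coeff : ∀ (Γ G₀ G₁ : Type u) [Group Γ] [Finite Γ] [Group G₀] [Group G₁] [Fintype G₀] [Fintype G₁]
    (p : ℕ) (M : Ideal AlgInt), IsPModular p M → ∀ (f : G₀ × G₁ →* Γ) (u₀ : G₀) (u₁ : G₁),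
    Cen p f u₀ u₁ → ∀ (χ : IrrCharacter Γ) (θ₀ : IrrCharacter G₀) (θ₁ : IrrCharacter G₁),
    pair3 p f u₀ u₁ χ.1 θ₀.1 θ₁.1 ≠ 0 →
    (∀ (φ₀ : IrrCharacter G₀) (φ₁ : IrrCharacter G₁), ∃ φ₀' ∈ blockOf M φ₀.1, ∃ φ₁' ∈ blockOf M φ₁.1,
      ∃ χ' : IrrCharacter Γ, pair3 p f u₀ u₁ χ'.1 φ₀'.1 φ₁'.1 ≠ 0 ∧
        (χ' ∈ blockOf M χ.1 → φ₀' ∈ blockOf M θ₀.1 ∧ φ₁' ∈ blockOf M θ₁.1)) →
    ∀ x y, (idemK M (blockOf M χ.1)).coeff (f (x, y)) =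
      (idemK M (blockOf M θ₀.1)).coeff x * (idemK M (blockOf M θ₁.1)).coeff y
  cen : ∀ (Γ : Type u) [Group Γ] [Finite Γ] (p : ℕ) (M : Ideal AlgInt), IsPModular p M →
    ∀ (B : Set (IrrCharacter Γ)), IsPBlock M B →
    (∀ χ ∈ B, ∀ g, χ.1 g ≠ 0 → pPart p g ∈ Subgroup.center Γ) →
    ∀ D, IsDefectGroup p M B D → D ≤ Subgroup.center Γ
  reg : ∀ (Γ : Type u) [Group Γ] [Finite Γ] (p : ℕ) (M : Ideal AlgInt), IsPModular p M →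
    ∀ (B : Set (IrrCharacter Γ)), IsPBlock M B → ∀ D, IsDefectGroup p M B D →
    D ≤ Subgroup.center Γ → ∀ χ ∈ B, ∀ ψ ∈ B, pRegularPart p χ.1 = pRegularPart p ψ.1 ∧
      ((∀ x ∈ D, χ.1 x = χ.1 1) → (∀ x ∈ D, ψ.1 x = ψ.1 1) → χ = ψ)
  mc0 : ∀ (Γ : Type u) [Group Γ] [Finite Γ] (p : ℕ) (M : Ideal AlgInt), IsPModular p M →
    ∀ (χ : IrrCharacter Γ) (D : Subgroup Γ), IsDefectGroup p M (blockOf M χ.1) D →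
    D ≤ Subgroup.center Γ → ∀ K : Subgroup Γ, (∀ g ∉ K, χ.1 g = 0) → MC p M (blockOf M χ.1) K
  mc : ∀ (Γ G₀ G₁ : Type u) [Group Γ] [Finite Γ] [Group G₀] [Group G₁] [Fintype G₀] [Fintype G₁]
    (p : ℕ) (M : Ideal AlgInt), IsPModular p M → ∀ (f : G₀ × G₁ →* Γ) (u₀ : G₀) (u₁ : G₁),
    Cen p f u₀ u₁ → ∀ (χ : IrrCharacter Γ) (θ₀ : IrrCharacter G₀) (θ₁ : IrrCharacter G₁),
    pair3 p f u₀ u₁ χ.1 θ₀.1 θ₁.1 ≠ 0 → ∀ K : Subgroup Γ,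
    MC p M (blockOf M θ₀.1) (K.comap (f.comp (MonoidHom.inl G₀ G₁))) →
    MC p M (blockOf M θ₁.1) (K.comap (f.comp (MonoidHom.inr G₀ G₁))) → MC p M (blockOf M χ.1) K

/-- piece `Up`: from a centric pair to a maximal pair -/
def StUp : Prop := ∀ (Γ : Type u) [Group Γ] [Finite Γ] (p : ℕ) (M : Ideal AlgInt), IsPModular p M →
  ∀ (B : Set (IrrCharacter Γ)), IsPBlock M B → ∀ η : Γ →* ℂˣ, ¬ p ∣ orderOf η → MC p M B η.ker →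
  ∃ D e, IsMaxPair p ⊤ ⊤ (idemK M B) D e ∧ e ∈ suppGA (resK M) η.ker

/-- piece `LW0`: the canonical character of a maximal pair -/
def StLW0 : Prop := ∀ (Γ C : Type u) [Group Γ] [Finite Γ] [Group C] [Finite C] (p : ℕ)
  (M : Ideal AlgInt), IsPModular p M → ∀ (B : Set (IrrCharacter Γ)), IsPBlock M B →
  ∀ (D : Subgroup Γ) (e : (resK M)[Γ]), IsMaxPair p ⊤ ⊤ (idemK M B) D e → ∀ η : Γ →* ℂˣ,
  ¬ p ∣ orderOf η → e ∈ suppGA (resK M) η.ker → ∀ j : C →* Γ, Function.Injective j →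
  j.range = Subgroup.centralizer (D : Set Γ) → ∃ θ : IrrCharacter C,
    e = gaPush (resK M) j (idemK M (blockOf M θ.1)) ∧ (∀ x, j x ∈ D → θ.1 x = θ.1 1) ∧
    θ.twist (η.comp j) = θ ∧ IsDefectGroup p M (blockOf M θ.1) (D.comap j)

/-- piece `LW`: the stabilizer of a covered block -/
def StLW : Prop := ∀ (Γ C G₀ A : Type u) [Group Γ] [Finite Γ] [Group C] [Finite C] [Group G₀]
  [Finite G₀] [CommGroup A] [Finite A] [IsCyclic A] (δ : Γ →* A) (S : Subgroup Γ) [S.Normal]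
  [Fintype S], S = δ.ker → ∀ (p : ℕ) (M : Ideal AlgInt), IsPModular p M →
  ∀ (B : Set (IrrCharacter Γ)), IsPBlock M B → ∀ (D : Subgroup Γ) (j : C →* Γ),
  Function.Injective j → j.range = Subgroup.centralizer (D : Set Γ) → ∀ θ : IrrCharacter C,
  IsMaxPair p ⊤ ⊤ (idemK M B) D (gaPush (resK M) j (idemK M (blockOf M θ.1))) →
  (∀ x, j x ∈ D → θ.1 x = θ.1 1) → ∀ η : A →* ℂˣ, ¬ p ∣ orderOf η →
  θ.twist ((η.comp δ).comp j) = θ → ∀ (u : C) (i₀ : G₀ →* C) (θ₀ : IrrCharacter G₀) (ε : ℂ),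
  δ (j u) = 1 → (∀ x, Commute u (i₀ x)) → (ε = 1 ∨ ε = -1) → (∀ x, θ.1 (u * i₀ x) = ε * θ₀.1 x) →
  (∀ g ∈ Subgroup.normalizer (D : Set Γ), ∃ c : C, Commute (j c * g) (j u) ∧
    (∀ x, Commute (j c * g) (j (i₀ x))) ∧ η (δ (j c * g)) = 1) →
  ∀ b : Set (IrrCharacter S), IsPBlock M b →
  (∃ χ ∈ B, ∃ ϑ ∈ b, classInner (fun n : S => χ.1 n) ϑ.1 ≠ 0) → blockStab b ≤ (η.comp δ).ker

open Classical in
/-- piece `CC`: the Clifford count -/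
def StCC : Prop := ∀ (Γ A : Type u) [Group Γ] [Finite Γ] [CommGroup A] [Finite A] [IsCyclic A]
  (δ : Γ →* A), Function.Surjective δ → ∀ (S : Subgroup Γ) [S.Normal] [Fintype S], S = δ.ker →
  ∀ (p : ℕ) (M : Ideal AlgInt), IsPModular p M → ∀ U : Set (IrrCharacter Γ), IsBlockUnion M U →
  ∀ κ : ℕ, 0 < κ → (∀ χ ∈ U, ∀ l : A →* ℂˣ, (∃ a : ℕ, l ^ p ^ a = 1) →
    χ.twist (l.comp δ) = χ → l ^ κ = 1) →
  ∀ (ι : Type u) (X : Finset ι) (x : ι → Γ → ℂ), LinearIndependent ℂ (fun i : X => x i) →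
  Submodule.span ℂ (x '' X) = regSpan p U → ∀ (Z : Type u) (c : Z → (A →* ℂˣ)) (T : Finset Z),
  (∀ l : A →* ℂˣ, ¬ p ∣ orderOf l → (∃ χ ∈ U, χ.twist (l.comp δ) ∈ U) → ∃ z ∈ T, c z = l) →
  (∀ z ∈ T, ∀ i ∈ X, ∃ i' ∈ X, (fun g => (c z (δ g) : ℂ) * x i g) = x i') →
  ∀ b : Set (IrrCharacter S), IsPBlock M b →
  (∃ χ ∈ U, ∃ ϑ ∈ b, classInner (fun n : S => χ.1 n) ϑ.1 ≠ 0) → ∀ Y : Finset Z, Set.InjOn c Y →
  (∀ z ∈ Y, blockStab b ≤ ((c z).comp δ).ker) →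
  #Y * blockRank p b ≤ κ * ∑ z ∈ T, #{i ∈ X | (fun g => (c z (δ g) : ℂ) * x i g) = x i}

/-! ### labels -/

variable {k : Type u} [Field k] [Big k] {Φ : Frob k} {N : ℕ}

/-- `χ = ± Ch μ` -/
def Lab {ι : Type} [Fintype ι] [DecidableEq ι] (μ : MP Φ N) (χ : IrrCharacter (Φ.G ι)) : Prop :=
  deg μ = Fintype.card ι ∧ (Ch ι μ = χ.1 ∨ Ch ι μ = -χ.1)

/-- the class of `μ` -/
def UU (ι : Type) [Fintype ι] [DecidableEq ι] (p : ℕ) (μ : MP Φ N) :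
    Set (IrrCharacter (Φ.G ι)) := {χ | ∃ ν : MP Φ N, Lab ν χ ∧ cd p ν = cd p μ}

omit [Big k] in
/-- the elements of `Mk 1` which permute the covered blocks freely -/
def Y1 (p : ℕ) (μ : MP Φ N) (z : kˣ) : Prop :=
  z ∈ Mk Φ 1 ∧ ¬ p ∣ orderOf z ∧ cd p (act z μ) = cd p μ ∧
    ∀ ψ, 0 < ww p μ ψ → ∃ i : ℕ, z * ψ.rep = ψ.rep ^ Φ.Q ^ (e0 Φ p * i)

omit [Big k] in
/-- the basic set -/
def XS (p : ℕ) (μ : MP Φ N) : Set (MP Φ N) := {ν | Basic p ν ∧ deg ν = deg μ ∧ cd p ν = cd p μ}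

omit [Big k] in
open Classical in
/-- the stabilizer of the class -/
noncomputable def TT (p : ℕ) (μ : MP Φ N) : Finset kˣ :=
  {z ∈ Mk Φ 1 | ¬ p ∣ orderOf z ∧ cd p (act z μ) = cd p μ}

omit [Big k] in
/-- the total number of fixed points -/
noncomputable def fxs (p : ℕ) (μ : MP Φ N) : ℕ :=
  ∑ z ∈ TT p μ, {ν | ν ∈ XS p μ ∧ act z ν = ν}.ncard

omit [Big k] in
/-- the factors on which `R` acts trivially -/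
def Triv {ι : Type} [Fintype ι] [DecidableEq ι] {r : ℕ} {d m δ : Fin r → ℕ} (D : Dec ι d m δ Φ)
    (R : Subgroup (Φ.G ι)) (j : Fin r) : Prop :=
  ∀ x ∈ R, ∀ i, emb D.e D.h (Pi.single ⟨j, i⟩ 1) * x.1.val = emb D.e D.h (Pi.single ⟨j, i⟩ 1)

variable (k)

/-- merging two basic labels (character side) -/
def StMerge : Prop := ∀ (Φ : Frob k) (ι : Type) [Fintype ι] [DecidableEq ι] (p : ℕ), p.Prime →
  p ≠ ringChar k → ∀ (n j : ℕ) (D : Dec ι (d2 1) (m2 n j) (fun _ => 1) Φ) (ξ₀ ξ₁ : kˣ),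
  (∃ a, ξ₀ ^ p ^ a = 1) → (∃ a, ξ₁ ^ p ^ a = 1) → ξ₀ ∈ Mk Φ 1 → ξ₁ ∈ Mk Φ 1 → ξ₀ ≠ ξ₁ →
  ∀ (N : ℕ) (μ₀ μ₁ : MP Φ N), Fintype.card ι ≤ N → Basic p μ₀ → Basic p μ₁ → deg μ₀ = n →
  deg μ₁ = j → ∀ (x₀ : Φ.G (Fin n)) (x₁ : Φ.G (Fin j)), x₀.1 = scal _ ξ₀ → x₁.1 = scal _ ξ₁ →
  ∃ μ : MP Φ N, Basic p μ ∧ (∀ φ, sz N (μ φ).1 = sz N (μ₀ φ).1 + sz N (μ₁ φ).1) ∧
    ∑ y₀ : Φ.G (Fin n), ∑ y₁ : Φ.G (Fin j), Ch ι μ (D.f2 (x₀ * y₀, x₁ * y₁)) *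
      conj (pRegularPart p (Ch (Fin n) μ₀) y₀) * conj (pRegularPart p (Ch (Fin j) μ₁) y₁) ≠ 0

/-- piece `Blk`: blocks and labels -/
structure StBlk : Prop where
  union : ∀ (Φ : Frob k) (ι : Type) [Fintype ι] [DecidableEq ι] (p : ℕ), p ≠ ringChar k →
    ∀ M : Ideal AlgInt, IsPModular p M → ∀ (N : ℕ) (μ : MP Φ N), Fintype.card ι ≤ N →
    IsBlockUnion M (UU ι p μ)
  span : ∀ (Φ : Frob k) (ι : Type) [Fintype ι] [DecidableEq ι] (p : ℕ), p.Prime → p ≠ ringChar k →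
    ∀ (N : ℕ) (μ : MP Φ N), Fintype.card ι ≤ N → deg μ = Fintype.card ι →
    Submodule.span ℂ ((fun ν => pRegularPart p (Ch ι ν)) '' XS p μ) = regSpan p (UU ι p μ)
  cd_eq : ∀ (Φ : Frob k) (ι : Type) [Fintype ι] [DecidableEq ι] (p : ℕ), p ≠ ringChar k →
    ∀ M : Ideal AlgInt, IsPModular p M → ∀ (N : ℕ) (μ ν : MP Φ N) (χ χ' : IrrCharacter (Φ.G ι)),
    Fintype.card ι ≤ N → Lab μ χ → Lab ν χ' → χ' ∈ blockOf M χ.1 → cd p ν = cd p μ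
  basic : ∀ (Φ : Frob k) (ι : Type) [Fintype ι] [DecidableEq ι] (p : ℕ), p ≠ ringChar k →
    ∀ M : Ideal AlgInt, IsPModular p M → ∀ (N : ℕ) (χ : IrrCharacter (Φ.G ι)),
    Fintype.card ι ≤ N → ∃ (ν : MP Φ N), ∃ χ' ∈ blockOf M χ.1, Basic p ν ∧ Lab ν χ'
  one : ∀ (Φ : Frob k) (ι : Type) [Fintype ι] [DecidableEq ι] (p : ℕ), p ≠ ringChar k →
    ∀ M : Ideal AlgInt, IsPModular p M → (p : ℤ) ∣ Φ.Q - 1 →
    ∀ (N : ℕ) (μ ν : MP Φ N) (χ χ' : IrrCharacter (Φ.G ι)),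
    Fintype.card ι ≤ N → Lab μ χ → Lab ν χ' → cd p ν = cd p μ → χ' ∈ blockOf M χ.1

/-- piece `Can`: blocks with scalar defect group -/
def StCan : Prop := ∀ (Φ : Frob k) (ι : Type) [Fintype ι] [DecidableEq ι] (p : ℕ), p ≠ ringChar k →
  ∀ M : Ideal AlgInt, IsPModular p M → (p : ℤ) ∣ Φ.Q - 1 → 0 < Fintype.card ι →
  ∀ (θ : IrrCharacter (Φ.G ι)) (D : Subgroup (Φ.G ι)), IsDefectGroup p M (blockOf M θ.1) D →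
  (∀ x ∈ D, ∃ ξ, x.1 = scal ι ξ) →
  (∀ u : Φ.G ι, jt (u.1.val - 1) = {Fintype.card ι} → θ.1 u = 1 ∨ θ.1 u = -1) ∧
    ∀ z ∈ Mk Φ 1, ¬ p ∣ orderOf z → θ.twist (lin Φ ι z) = θ → orderOf z ∣ Fintype.card ι

/-- piece `Nrm`: the normalizer of a `p`-subgroup -/
def StNrm : Prop := ∀ (Φ : Frob k) (ι : Type) [Fintype ι] [DecidableEq ι] (p : ℕ), p.Prime →
  p ≠ ringChar k → ∀ R : Subgroup (Φ.G ι), IsPGroup p R →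
  ∀ (r : ℕ) (d m δ : Fin r → ℕ) (D : Dec ι d m δ Φ), (∀ j, 0 < m j) → (∀ j, 0 < δ j) →
  (∀ M, M ∈ (emb D.e D.h).range ↔ ∀ x ∈ R, Commute M x.1.val) →
  ∀ u : Π j, (Φ.pow (d j)).G (Fin (m j)), (∀ j, Triv D R j → u j = 1) →
  (∀ j, ¬ Triv D R j → jt ((u j).1.val - 1) = {m j}) →
  ∀ g ∈ Subgroup.normalizer (R : Set (Φ.G ι)), ∃ c, Commute (D.Ψ c * g) (D.Ψ u) ∧
    (∀ y, (∀ j, ¬ Triv D R j → y j = 1) → Commute (D.Ψ c * g) (D.Ψ y)) ∧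
    ∀ z ∈ Mk Φ 1, (∀ j, ¬ Triv D R j → orderOf z ∣ m j) → lin Φ ι z (D.Ψ c * g) = 1

/-- piece `MC`: the chain -/
def StMC : Prop := ∀ (Φ : Frob k) (ι : Type) [Fintype ι] [DecidableEq ι] (p : ℕ), p ≠ ringChar k →
  ∀ M : Ideal AlgInt, IsPModular p M → ∀ (N : ℕ) (μ : MP Φ N) (χ : IrrCharacter (Φ.G ι)),
  Fintype.card ι ≤ N → Lab μ χ → ∀ z, Y1 p μ z → MC p M (blockOf M χ.1) (lin Φ ι z).ker

/-- piece `DG1` -/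
def StDG1 : Prop := ∀ (Φ : Frob k) (ι : Type) [Fintype ι] [DecidableEq ι] (p : ℕ), p ≠ ringChar k →
  ∀ M : Ideal AlgInt, IsPModular p M → ∀ (N : ℕ) (μ : MP Φ N) (χ : IrrCharacter (Φ.G ι)),
  Fintype.card ι ≤ N → Lab μ χ → ∀ D, IsDefectGroup p M (blockOf M χ.1) D →
  ∃ E : Subgroup (Φ.G ι), Nat.card E = p ^ W p μ ∧ (∀ a ∈ E, ∀ b ∈ E, a * b = b * a) ∧
    (∀ a ∈ E, a ^ p = 1) ∧ IsConjLE E D

/-- piece `W` -/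
def StW : Prop := ∀ (Φ : Frob k) (ι : Type) [Fintype ι] [DecidableEq ι] (p : ℕ), p ≠ ringChar k →
  ∀ M : Ideal AlgInt, IsPModular p M → ∀ (N : ℕ) (μ : MP Φ N) (χ : IrrCharacter (Φ.G ι)),
  Fintype.card ι ≤ N → Lab μ χ → ∀ z, Y1 p μ z → ∀ [(SG Φ ι).Normal] [Fintype (SG Φ ι)]
  (b : Set (IrrCharacter (SG Φ ι))), IsPBlock M b →
  (∃ χ' ∈ blockOf M χ.1, ∃ ϑ ∈ b, classInner (fun n : SG Φ ι => χ'.1 n) ϑ.1 ≠ 0) →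
  blockStab b ≤ (lin Φ ι z).ker

/-- piece `Q8`: the quaternion group in the defect groups of a family of weight two -/
def StQ8 : Prop := 2 ≠ ringChar k → ∀ (Φ : Frob k) (ι : Type) [Fintype ι] [DecidableEq ι]
  (M : Ideal AlgInt), IsPModular 2 M → ∀ (N : ℕ) (ψ : I Φ) (X : Bt N) (χ : IrrCharacter (Φ.G ι)),
  Fintype.card ι ≤ N → Reg 2 ψ → sz N X.1 = 2 → Lab (Finsupp.single ψ X) χ →
  ∀ D, IsDefectGroup 2 M (blockOf M χ.1) D → ∃ a ∈ D, ∃ b ∈ D, a ∈ SG Φ ι ∧ b ∈ SG Φ ι ∧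
    a.1 * a.1 = -1 ∧ b.1 * b.1 = -1 ∧ a.1 * b.1 = -(b.1 * a.1)

/-- piece `DG2` -/
def StDG2 : Prop := 2 ≠ ringChar k → ∀ (Φ : Frob k) (ι : Type) [Fintype ι] [DecidableEq ι]
  (M : Ideal AlgInt), IsPModular 2 M → ∀ (N : ℕ) (μ : MP Φ N) (χ : IrrCharacter (Φ.G ι)),
  Fintype.card ι ≤ N → Lab μ χ → (∀ ψ, Even (nn 2 μ ψ)) →
  ∀ D, IsDefectGroup 2 M (blockOf M χ.1) D → ∀ s,
  SectionalPRankLE 2 s (D ⊓ SG Φ ι : Subgroup (Φ.G ι)) →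
  W 2 μ ≤ s ∧ ((4 : ℤ) ∣ Φ.Q - 1 → 3 * W 2 μ ≤ 2 * s + 2)

/-- piece `Cnt` (arithmetic only) -/
structure StCnt : Prop where
  kap : ∀ (Φ : Frob k) (p : ℕ), p.Prime → p ≠ ringChar k → ∀ (N : ℕ) (ν : MP Φ N),
    ∀ z ∈ Mk Φ 1, (∃ a, z ^ p ^ a = 1) → act z ν = ν → ∀ ψ, orderOf z ∣ nn p ν ψ
  cnt : ∀ (Φ : Frob k) (p : ℕ), p.Prime → p ≠ ringChar k → ∀ (N : ℕ) (μ : MP Φ N),
    (p + 1) * deg μ ≤ N → 0 < deg μ → (XS p μ).Finite ∧ ∃ Y : Finset kˣ, Y.Nonempty ∧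
    (∀ z ∈ Y, Y1 p μ z) ∧ (¬ (p : ℤ) ∣ Φ.Q - 1 → fxs p μ ≤ #Y * p ^ W p μ) ∧
    ((p : ℤ) ∣ Φ.Q - 1 → 2 * fxs p μ ≤ #Y * 2 ^ W p μ ∧
      (p ≠ 2 → ∀ a, (∀ ψ, p ^ a ∣ nn p μ ψ) → p ^ a * fxs p μ ≤ #Y * p ^ (W p μ - 1)))

end Cfsg.GUn
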