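import Cfsg.Agent.GUn.ArC
import Cfsg.Agent.GUn.Defs2
import Cfsg.Agent.GLn.Cnt

/-! The piece `StCnt` of S4537. -/

set_option autoImplicit false

namespace Cfsg.GUn

open Finset SymCh MulAction
open GLn (Bt sz rc clsF_eq_of_rc mem_bs_sz)

universe u

variable {k : Type u} [Field k] [Big k] {Φ : Frob k} {N p : ℕ} [hp : Fact p.Prime]

namespace Cnt

omit hp [Big k] in
theorem pow_pow_q (x : kˣ) (i j : ℕ) : (x ^ Φ.Q ^ i) ^ Φ.Q ^ j = x ^ Φ.Q ^ (i + j) := by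
  rw [← zpow_mul, ← pow_add]

variable (Φ) in
/-- scalars which act on `x` as a power of `Fr ^ e` -/
noncomputable def Kx (e : ℕ) (x : kˣ) : Subgroup kˣ where
  carrier := {z | z ∈ Mk Φ 1 ∧ ∃ i, z * x = x ^ Φ.Q ^ (e * i)}
  one_mem' := ⟨one_mem_Mk one_pos, 0, by simp⟩
  mul_mem' := by
    rintro a b ⟨ha, i, hi⟩ ⟨hb, j, hj⟩
    refine ⟨mul_mem_Mk ha hb, i + j, ?_⟩
    rw [mul_assoc, hj, mul_add, ← pow_pow_q, ← hi, mul_zpow, pow_q_of_mem_one ha]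
  inv_mem' := by
    rintro a ⟨ha, i, hi⟩
    obtain ⟨d, hd⟩ := Nat.exists_eq_succ_of_ne_zero (per_pos (io Φ x)).ne'
    refine ⟨inv_mem_Mk ha, i * d, ?_⟩
    rw [inv_mul_eq_iff_eq_mul, ← pow_q_of_mem_one ha (e * (i * d)), ← mul_zpow, hi, pow_pow_q,
      eq_comm, ← per_io_dvd_iff, hd]
    exact ⟨e * i, by rw [Nat.succ_eq_add_one]; ring⟩

omit hp in
theorem Kx_io {e : ℕ} {x y : kˣ} (h : io Φ x = io Φ y) : Kx Φ e x = Kx Φ e y := by
  obtain ⟨n, rfl⟩ := io_eq_iff.1 h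
  ext z
  refine and_congr_right fun hz => exists_congr fun i => ?_
  rw [pow_pow_q, add_comm, ← pow_pow_q, ← (pow_q_injective (Φ := Φ) n).eq_iff, mul_zpow,
    pow_q_of_mem_one hz]

omit hp in
theorem Kx_mulI (e : ℕ) {g : kˣ} (hg : g ∈ Mk Φ 1) (o : I Φ) :
    Kx Φ e (mulI g o).rep = Kx Φ e o.rep := by
  rw [Kx_io (io_rep (mulI g o))]
  ext z
  refine and_congr_right fun _ => exists_congr fun i => ?_
  rw [mul_zpow, pow_q_of_mem_one hg, mul_left_comm, mul_right_inj]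

omit hp in
theorem relIndex_le {A : Type*} [CommGroup A] (f : A →* kˣ) (hf : ∀ z, f z ∈ Mk Φ 1) (e : ℕ)
    (o : I Φ) (S : Subgroup A) (hS : ∀ z ∈ S, mulI (f z) o = o) :
    ((Kx Φ e o.rep).comap f).relIndex S ≤ o.per.gcd e := by
  have hg := Nat.gcd_pos_of_pos_left e (per_pos o)
  choose j hj using fun z : S => mulI_eq_iff.1 (hS z z.2)
  rw [← Nat.card_fin (o.per.gcd e)]
  refine Nat.card_le_card_of_injective (fun c => (⟨j c.out % _, Nat.mod_lt _ hg⟩ : Fin _))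
    fun c c' h => ?_
  obtain ⟨i, hi⟩ := GLn.Cnt.exists_modEq (per_pos o) (Fin.ext_iff.1 h)
  rw [← c.out_eq, ← c'.out_eq]
  refine QuotientGroup.eq.2 ⟨hf _, i, ?_⟩
  replace hi := (pow_q_eq_pow_q_iff (Φ := Φ) o.rep (j c.out + e * i) (j c'.out)).2
    (by rwa [io_rep])
  rw [← pow_pow_q, ← hj, ← hj, mul_zpow, pow_q_of_mem_one (hf _)] at hi
  simp only [Subgroup.coe_subtype, Subgroup.coe_mul, Subgroup.coe_inv, map_mul, map_inv]
  rw [mul_assoc, ← hi, inv_mul_cancel_left]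

variable (p) in
/-- the scalars which fix the class -/
def AG (μ : MP Φ N) : Subgroup kˣ where
  carrier := {z | z ∈ Mk Φ 1 ∧ ¬ p ∣ orderOf z ∧ cd p (act z μ) = cd p μ}
  one_mem' := ⟨one_mem_Mk one_pos, by simpa using hp.out.ne_one, by rw [act_one]⟩
  mul_mem' {a b} ha hb := ⟨mul_mem_Mk ha.1 hb.1, not_dvd_orderOf_mul ha.2.1 hb.2.1, by
    rw [act_mul ha.1 hb.1, cd_act_congr ha.1 hb.2.2, ha.2.2]⟩
  inv_mem' ha := ⟨inv_mem_Mk ha.1, by simpa using ha.2.1, by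
    rw [← cd_act_congr (inv_mem_Mk ha.1) ha.2.2, ← act_mul (inv_mem_Mk ha.1) ha.1, inv_mul_cancel,
      act_one]⟩

variable {μ : MP Φ N}

theorem ww_mulI (z : AG p μ) (ψ : I Φ) : ww p μ (mulI z.1 ψ) = ww p μ ψ := by
  rw [← ww_eq_of_cd z.2.2.2, ww_act z.2.1, pRegPartK_eq_self_iff.2 z.2.2.1, mulI_inv_mulI z.2.1,
    ww_eq_of_cd z.2.2.2]

variable (p μ) in
/-- the active orbits -/
abbrev J : Type u := {ψ : I Φ // 0 < ww p μ ψ}

noncomputable instance : Fintype (J p μ) :=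
  @Fintype.ofFinite _ ((finite_support_ww μ).subset fun _ h => ne_of_gt h)

noncomputable instance : Fintype (AG p μ) :=
  @Fintype.ofFinite _ ((Mk Φ 1).finite_toSet.subset fun _ h => h.1)

noncomputable instance : SMul (AG p μ) (J p μ) where
  smul z i := ⟨mulI z.1 i.1, i.2.trans_eq (ww_mulI z i.1).symm⟩

theorem smul_val (z : AG p μ) (i : J p μ) : (z • i).1 = mulI z.1 i.1 := rfl

noncomputable instance : MulAction (AG p μ) (J p μ) where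
  one_smul _ := Subtype.ext (by rw [smul_val, OneMemClass.coe_one, mulI_one])
  mul_smul a _ _ := Subtype.ext (by
    rw [smul_val, smul_val, smul_val, Subgroup.coe_mul, mulI_mul a.2.1])

theorem W_eq : W p μ = ∑ i : J p μ, ww p μ i.1 := by
  rw [W_eq_sum μ (t := univ.map (Function.Embedding.subtype _ : J p μ ↪ I Φ))
    fun ψ h => mem_map.2 ⟨⟨ψ, h⟩, mem_univ _, rfl⟩, sum_map]
  rfl

theorem eq_of_ww (hc : p ≠ ringChar k) {ν ν' : MP Φ N} (h : cd p ν = cd p ν') {ψ : I Φ}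
    (hψ : Reg p ψ) (h0 : ww p ν ψ = 0) : ν ψ = ν' ψ := by
  have he := ee_pos hc ψ
  have h1 := sum_eq_base_add he (ν ψ).1
  have h2 := sum_eq_base_add he (ν' ψ).1
  have h3 := clsF_eq_of_rc (rc_eq_of_cd h hψ)
  rw [((ww_eq_zero_iff hc ν hψ).1 h0).1, mul_zero, add_zero] at h1
  rw [((ww_eq_zero_iff hc ν' hψ).1 (ww_eq_of_cd h ▸ h0)).1, mul_zero, add_zero, ← h3] at h2
  have h4 := (ν ψ).sz_add_tri.trans h1
  obtain ⟨Y, hY⟩ := bc_base he ((sum_clsF he _).trans (ν ψ).2) h4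
  refine Subtype.ext ((mem_singleton.1 (hY ▸ mem_bc.2 ⟨mem_bs_sz (ν ψ).2, rfl⟩)).trans
    (mem_singleton.1 (hY ▸ mem_bc.2 ⟨mem_bs.2 ⟨(ν' ψ).2, h2.trans h4.symm⟩, h3.symm⟩)).symm)

theorem eq_of_inactive (hc : p ≠ ringChar k) {ν ν' : MP Φ N} (h : cd p ν = cd p ν') {φ : I Φ}
    (h0 : ww p ν (rpI p φ) = 0) : ν φ = ν' φ := by
  by_cases hφ : φ = rpI p φ
  · exact eq_of_ww hc h (hφ ▸ reg_rpI φ) (hφ ▸ h0)
  · rw [((ww_eq_zero_iff hc ν (reg_rpI φ)).1 h0).2 φ hφ rfl,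
      ((ww_eq_zero_iff hc ν' (reg_rpI φ)).1 (ww_eq_of_cd h ▸ h0)).2 φ hφ rfl]

theorem injOn (hc : p ≠ ringChar k) :
    Set.InjOn (fun (ν : MP Φ N) (i : J p μ) => (ν i.1).1) (XS p μ) := fun ν hν ν' hν' h => by
  ext1 o
  by_cases ho : Reg p o
  · by_cases h0 : 0 < ww p μ o
    · exact Subtype.ext (congrFun h ⟨_, h0⟩)
    · exact eq_of_ww hc (hν.2.2.trans hν'.2.2.symm) ho (by rw [ww_eq_of_cd hν.2.2]; omega)
  · rw [Finsupp.notMem_support_iff.1 fun e => ho (hν.1 o e),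
      Finsupp.notMem_support_iff.1 fun e => ho (hν'.1 o e)]

theorem mem_bs_nn {ν : MP Φ N} (hν : ν ∈ XS p μ) (i : J p μ) : (ν i.1).1 ∈ bs N (nn p μ i.1) := by
  rw [← nn_eq_of_cd hν.2.2, hν.1.nn_eq (reg_of_ww_pos i.2)]
  exact mem_bs_sz (ν i.1).2

theorem finite_XS (hc : p ≠ ringChar k) : (XS p μ).Finite := by
  classical
  exact Set.Finite.of_injOn (t := Fintype.piFinset fun i : J p μ => bs N (nn p μ i.1))
    (fun _ hν => Fintype.mem_piFinset.2 (mem_bs_nn hν)) (injOn hc) (finite_toSet _)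

theorem fxs_le (hc : p ≠ ringChar k) (Y : J p μ → Finset (Finset ℕ))
    (hY : ∀ ν ∈ XS p μ, ∀ i, (ν i.1).1 ∈ Y i) : fxs p μ ≤ ∑ z : AG p μ, GLn.Num.fx Y z := by
  classical
  rw [fxs, sum_subtype (p := (· ∈ AG p μ)) _ fun z => by rw [TT, mem_filter]; rfl]
  refine sum_le_sum fun z _ => ?_
  rw [GLn.Num.fx, ← Set.ncard_coe_finset]
  refine Set.ncard_le_ncard_of_injOn (fun ν i => (ν i.1).1) (fun ν hν => ?_)
    ((injOn hc).mono fun _ h => h.1) (finite_toSet _)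
  simp only [coe_filter, Fintype.mem_piFinset, Set.mem_setOf_eq]
  exact ⟨hY ν hν.1, fun i => by rw [smul_val, (act_eq_self_iff z.2.1).1 hν.2]⟩

variable (p μ) in
/-- the local kernels -/
noncomputable def KJ (i : J p μ) : Subgroup (AG p μ) :=
  (Kx Φ (e0 Φ p) i.1.rep).comap (AG p μ).subtype

theorem KJ_le (i : J p μ) : KJ p μ i ≤ stabilizer (AG p μ) i := fun _ ⟨_, _, h⟩ =>
  Subtype.ext (mulI_eq_iff.2 ⟨_, h⟩)

theorem case1 (hc : p ≠ ringChar k) (hN : 2 * deg μ ≤ N) :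
    fxs p μ ≤ Nat.card (⨅ i, KJ p μ i : Subgroup _) * p ^ W p μ := by
  let Y : J p μ → Finset (Finset ℕ) := fun i =>
    bc N (ee p i.1) (clsF (ee p i.1) (μ i.1).1) (nn p μ i.1)
  have hY : ∀ i, #(Y i) = cc (ee p i.1) (ww p μ i.1) := fun i => by
    have he := ee_pos hc i.1
    have h1 := nn_add_tri hc μ (reg_of_ww_pos i.2)
    have h2 := (sum_clsF he _).trans (μ i.1).2
    have h3 := tri_le_base (clsF (ee p i.1) (μ i.1).1)
    have h4 := nn_le_deg (p := p) μ i.1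
    have h5 := sz_le_deg μ i.1
    rw [h2] at h3
    exact card_bc he h2 (le_clsF (mem_bs_sz (μ i.1).2) (by omega)) h1
  refine (fxs_le hc Y fun ν hν i => mem_bc.2 ⟨mem_bs_nn hν i,
    clsF_eq_of_rc (rc_eq_of_cd hν.2.2 (reg_of_ww_pos i.2))⟩).trans ?_
  rw [W_eq]
  refine GLn.Num.sum_fx_le_pow Y (fun g i => by rw [hY, hY, smul_val, ee_mulI _ g.2.1, ww_mulI]) _
    KJ_le (fun g i => by rw [KJ, KJ, smul_val, Kx_mulI _ g.2.1]) (fun g i => ww_mulI g i.1)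
    fun i => ?_
  rw [hY]
  refine GLn.Num.mul_cc_lt (Nat.pos_of_ne_zero Subgroup.index_ne_zero_of_finite) i.2
    ((Nat.mul_le_mul_right _ (relIndex_le _ (fun z => z.2.1) _ _ _
      fun z hz => congrArg Subtype.val hz)).trans_lt ?_)
  rw [ee, Nat.mul_div_cancel' (Nat.gcd_dvd_right _ _)]
  exact e0_lt hc

theorem KJ_eq (h : p ∣ NN Φ 1) (i : J p μ) : KJ p μ i = stabilizer (AG p μ) i :=
  (KJ_le i).antisymm fun z hz => by
    obtain ⟨j, hj⟩ := mulI_eq_iff.1 ((smul_val z i).symm.trans (congrArg Subtype.val hz))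
    exact ⟨z.2.1, j, by rw [e0_eq_one_iff.2 h, one_mul]; exact hj⟩

theorem nonempty_J (h : p ∣ NN Φ 1) (h0 : 0 < deg μ) : Nonempty (J p μ) := by
  obtain ⟨φ, hφ⟩ := Finsupp.ne_iff.1 (deg_eq_zero_iff.not.1 h0.ne')
  exact ⟨⟨rpI p φ, ww_eq_nn h μ _ ▸ Nat.pos_of_ne_zero fun e => hφ (nn_eq_zero_iff.1 e φ rfl)⟩⟩

theorem case2 (hc : p ≠ ringChar k) (h : p ∣ NN Φ 1) (h0 : 0 < deg μ) :
    2 * fxs p μ ≤ Nat.card (⨅ i, KJ p μ i : Subgroup _) * 2 ^ W p μ := by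
  haveI := nonempty_J h h0
  simp only [KJ_eq h, W_eq]
  exact (Nat.mul_le_mul_left _ (fxs_le hc (fun i => bs N (ww p μ i.1))
    fun ν hν i => ww_eq_nn h μ _ ▸ mem_bs_nn hν i)).trans (GLn.Num.two_mul_sum_fx_le _
      (fun g i => by rw [smul_val, ww_mulI]) (fun g i => ww_mulI g i.1) (fun i => i.2)
      fun i => (card_bs_le _ _).trans (GLn.Num.pn_le_two_pow _))

omit hp in
theorem arith {W : ℕ} (h : 4 ≤ W) : (W + 1) * 2 ^ W ≤ 3 ^ W := by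
  induction W, h using Nat.le_induction with
  | base => norm_num
  | succ W h ih =>
    rw [pow_succ, pow_succ]
    nlinarith [Nat.zero_le (2 ^ W)]

theorem case3 (hc : p ≠ ringChar k) (h : p ∣ NN Φ 1) (h0 : 0 < deg μ) (h2 : p ≠ 2) (a : ℕ)
    (ha : ∀ ψ, p ^ a ∣ nn p μ ψ) :
    p ^ a * fxs p μ ≤ Nat.card (⨅ i, KJ p μ i : Subgroup _) * p ^ (W p μ - 1) := by
  obtain ⟨i₀⟩ := nonempty_J h h0
  have h3 : 3 ≤ p := by have := hp.out.two_le; omega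
  have h4 : ∀ i : J p μ, p ^ a ≤ ww p μ i.1 := fun i =>
    Nat.le_of_dvd i.2 (ww_eq_nn h μ _ ▸ ha i.1)
  have h5 : p ^ a ∣ W p μ := W_eq (p := p) (μ := μ) ▸ dvd_sum fun i _ => ww_eq_nn h μ _ ▸ ha i.1
  have h6 : 0 < W p μ := W_eq (p := p) (μ := μ) ▸ sum_pos (fun i _ => i.2) ⟨i₀, mem_univ _⟩
  have h7 := case2 hc h h0
  obtain ⟨w, hw⟩ := Nat.exists_eq_succ_of_ne_zero h6.ne'
  rw [hw, pow_succ, ← mul_assoc, mul_comm 2, Nat.mul_le_mul_right_iff two_pos] at h7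
  rw [hw, Nat.succ_sub_one]
  by_cases h8 : p ^ a * 2 ^ w ≤ p ^ w
  · rw [mul_comm]
    exact (Nat.mul_le_mul_right _ h7).trans (by
      rw [mul_assoc, mul_comm (2 ^ w)]; exact Nat.mul_le_mul_left _ h8)
  have h9 := Nat.le_of_dvd h6 h5
  have h10 : a ≠ 0 := by
    rintro rfl
    exact h8 (by rw [pow_zero, one_mul]; exact Nat.pow_le_pow_left hp.out.two_le _)
  have h11 : p ≤ p ^ a := Nat.le_self_pow h10 p
  have h12 : w < 4 := by
    by_contra h12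
    exact h8 ((Nat.mul_le_mul_right _ (h9.trans_eq hw)).trans ((arith (not_lt.1 h12)).trans
      (Nat.pow_le_pow_left h3 _)))
  have h13 : p ≠ 4 := by rintro rfl; exact absurd hp.out (by decide)
  obtain rfl : p = 3 := by omega
  have h14 := (dvd_pow_self 3 h10).trans h5
  have h15 := dvd_pow_self 3 h10
  obtain rfl : w = 2 := by omega
  have h16 : ∀ i : J 3 μ, i = i₀ := fun i => by_contra fun hi => by
    have := sum_le_sum_of_subset (f := fun i : J 3 μ => ww 3 μ i.1) (subset_univ {i, i₀})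
    rw [sum_pair hi, ← W_eq] at this
    have := h4 i
    have := h4 i₀
    omega
  haveI : Subsingleton (J 3 μ) := ⟨fun i j => (h16 i).trans (h16 j).symm⟩
  have h17 : (⨅ i, KJ 3 μ i) = ⊤ := by
    simp only [KJ_eq h, iInf_eq_top, Subgroup.eq_top_iff']
    exact fun i z => Subsingleton.elim _ _
  have h18 := (fxs_le hc (fun i => bs N (ww 3 μ i.1))
    fun ν hν i => ww_eq_nn h μ _ ▸ mem_bs_nn hν i).trans (sum_le_card_nsmul _ _ 3 fun z _ =>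
      (GLn.Num.fx_le_prod _ z ∅ (by simp)).trans (by
        rw [sdiff_empty, Fintype.prod_subsingleton _ i₀, ← Fintype.sum_subsingleton
          (fun i : J 3 μ => ww 3 μ i.1) i₀, ← W_eq, hw]
        exact (card_bs_le _ _).trans pn_three.le))
  rw [h17, Subgroup.card_top, Nat.card_eq_fintype_card, show 3 ^ a = 3 by omega]
  rw [card_univ, smul_eq_mul] at h18
  omega

omit hp in
theorem dvd_sum_of_mul {z : kˣ} {S : Finset kˣ} (hS : ∀ x ∈ S, z * x ∈ S) {f : kˣ → ℕ}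
    (hf : ∀ x, f (z * x) = f x) : orderOf z ∣ ∑ x ∈ S, f x := by
  classical
  have h1 : ∀ n x, (z * ·)^[n] x = z ^ n * x := fun n x => by rw [mul_left_iterate]
  have h2 : GLn.Dyn.AllPer (z * ·) := fun x => ⟨orderOf z, orderOf_pos_K z, by
    rw [Function.IsPeriodicPt, Function.IsFixedPt, h1, pow_orderOf_eq_one, one_mul]⟩
  rw [h2.sum_orbits_inv S (S.image (GLn.Dyn.omk _)) (fun x => ⟨mem_image_of_mem _, fun hx => ?_⟩) hf]
  · refine dvd_sum fun O _ => Dvd.dvd.mul_right ?_ _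
    have := (h2.iterate_eq_iff O.rep O.per).2 (by rw [GLn.Dyn.omk_rep])
    rwa [h1, mul_eq_right, ← orderOf_dvd_iff_pow_eq_one] at this
  · obtain ⟨y, hy, e⟩ := mem_image.1 hx
    obtain ⟨n, rfl⟩ := h2.omk_eq_iff.1 e
    exact Function.Iterate.rec (· ∈ S) hy hS n

theorem nn_eq_sum_Lk (ν : MP Φ N) {ψ : I Φ} (hψ : Reg p ψ) {m : ℕ} (hm : 0 < m) (hd : ψ.per ∣ m)
    (hν : ∀ φ ∈ ν.support, φ.per ∣ m) :
    nn p ν ψ = ∑ u ∈ Lk Φ p m, sz N (ν (io Φ (ψ.rep * u))).1 := by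
  refine Nat.eq_of_mul_eq_mul_left (per_pos ψ) ?_
  have h1 := sum_Mk_rpI hψ hm hd fun x => sz N (ν (io Φ x)).1
  rw [sum_filter, sum_Mk_io m fun o => if rpI p o = ψ then sz N (ν o).1 else 0] at h1
  simp only [smul_eq_mul, mul_ite, mul_zero, ← sum_filter] at h1
  rw [per_mul_nn ν ψ fun φ h => (mem_Ok hm).2 (hν φ h), h1, ← ψ.card_pts, ← smul_eq_mul,
    ← sum_const]
  refine sum_congr rfl fun s hs => ?_
  obtain ⟨n, rfl⟩ := io_eq_iff.1 ((io_rep ψ).trans (mem_pts.1 hs).symm)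
  rw [Lk, sum_filter, sum_filter, ← sum_Mk_pow_q n]
  refine sum_congr rfl fun u _ => if_congr ?_ (by rw [← mul_zpow, io_pow_q]) rfl
  rw [pRegPartK_zpow, ← (pow_q_injective (Φ := Φ) n).eq_iff (a := pRegPart p u), one_zpow]

theorem kap (ν : MP Φ N) {z : kˣ} (hz : z ∈ Mk Φ 1) (h : ∃ a, z ^ p ^ a = 1) (hν : act z ν = ν)
    (ψ : I Φ) : orderOf z ∣ nn p ν ψ := by
  by_cases hψ : Reg p ψ
  · have hm : 0 < ψ.per * ∏ φ ∈ ν.support, φ.per :=
      Nat.mul_pos (per_pos ψ) (prod_pos fun φ _ => per_pos φ)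
    rw [nn_eq_sum_Lk ν hψ hm (dvd_mul_right _ _) fun φ hφ => (dvd_prod_of_mem _ hφ).mul_left _]
    refine dvd_sum_of_mul (fun x hx => ?_) fun x => ?_
    · rw [Lk, mem_filter] at hx ⊢
      exact ⟨mul_mem_Mk (mem_Mk_of_dvd hm (one_dvd _) hz) hx.1, by
        rw [pRegPartK_mul, hx.2, pRegPartK_eq_one_iff.2 (pElt_iff.2 h), one_mul]⟩
    · rw [mul_left_comm, ← mulI_io hz, (act_eq_self_iff hz).1 hν]
  · rw [nn_of_not_reg ν hψ]
    exact dvd_zero _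

end Cnt

omit hp in
variable (k) in
theorem stCnt : StCnt k where
  kap Φ p hp _ N ν z hz h hν ψ := haveI := Fact.mk hp; Cnt.kap ν hz h hν ψ
  cnt Φ p hp hc N μ hN h0 := by
    classical
    haveI := Fact.mk hp
    have h1 : (p : ℤ) ∣ Φ.Q - 1 → p ∣ NN Φ 1 := fun h => dvd_NN_iff.2 (by rwa [pow_one])
    have h2 : #((univ.filter (· ∈ ⨅ i, Cnt.KJ p μ i)).map (Function.Embedding.subtype _)) =
        Nat.card (⨅ i, Cnt.KJ p μ i : Subgroup _) := by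
      rw [card_map, ← Fintype.card_subtype, Nat.card_eq_fintype_card]
    refine ⟨Cnt.finite_XS hc, _, ⟨1, mem_map.2 ⟨1, mem_filter.2 ⟨mem_univ _, one_mem _⟩, rfl⟩⟩,
      fun z hz => ?_, fun _ => h2 ▸ Cnt.case1 hc ((Nat.mul_le_mul_right _
        (Nat.succ_le_succ hp.one_le)).trans hN), fun h => ⟨h2 ▸ Cnt.case2 hc (h1 h) h0,
      fun h3 a ha => h2 ▸ Cnt.case3 hc (h1 h) h0 h3 a ha⟩⟩
    obtain ⟨z, h3, rfl⟩ := mem_map.1 hz
    exact ⟨z.2.1, z.2.2.1, z.2.2.2, fun ψ hψ =>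
      And.right (Subgroup.mem_iInf.1 (mem_filter.1 h3).2 ⟨ψ, hψ⟩)⟩

end Cfsg.GUn
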