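import Cfsg.Agent.GUn.Ar

/-! Lang's theorem for the general linear and unitary groups. -/

set_option autoImplicit false

namespace Cfsg.GUn

open Matrix Finset Polynomial

universe u

variable {k : Type u} [Field k] (Φ : Frob k) {ι : Type} [Fintype ι] [DecidableEq ι]

theorem Frob.σ_pow (m : ℕ) (x : k) : (Φ.σ ^ m) x = x ^ Φ.q ^ m := by
  induction m with
  | zero => simp
  | succ n ih => rw [pow_succ', RingHom.mul_def, RingHom.comp_apply, ih, Φ.hσ, ← pow_mul, pow_succ]

/-- the field with `q ^ m` elements -/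
def Frob.Fx (m : ℕ) : Subfield k := RingHom.eqLocusField (Φ.σ ^ m) (RingHom.id k)

variable {Φ} in
theorem Frob.mem_Fx {m : ℕ} {x : k} : x ∈ Φ.Fx m ↔ x ^ Φ.q ^ m = x := by
  rw [← Φ.σ_pow]; rfl

variable {Φ} in
theorem Frob.σ_mem {m : ℕ} {x : k} (h : x ∈ Φ.Fx m) : Φ.σ x ∈ Φ.Fx m := Φ.hσ x ▸ pow_mem h _

variable {Φ} in
theorem Frob.Fx_mono {m n : ℕ} (h : m ∣ n) : Φ.Fx m ≤ Φ.Fx n := fun x hx => by
  obtain ⟨c, rfl⟩ := h
  rw [Frob.mem_Fx] at hx ⊢
  induction c with
  | zero => simp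
  | succ c ih => rw [Nat.mul_succ, pow_add, pow_mul, ih, hx]

variable [Big k]

theorem Frob.card_Fx {m : ℕ} (hm : 0 < m) : Nat.card (Φ.Fx m) = Φ.q ^ m := by
  have h1 : 1 < Φ.q ^ m := Nat.one_lt_pow hm.ne' Φ.one_lt_q
  have := card_rootSet_eq_natDegree (K := k) (galois_poly_separable (K := k) (ringChar k) (Φ.q ^ m)
    ((ringChar_dvd_q Φ).trans (dvd_pow_self _ hm.ne'))) (IsAlgClosed.splits _)
  rw [FiniteField.X_pow_card_sub_X_natDegree_eq k h1] at this
  rw [← this, ← Nat.card_eq_fintype_card]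
  refine Nat.card_congr (Equiv.subtypeEquivRight fun x => ?_)
  rw [mem_rootSet_of_ne (FiniteField.X_pow_card_sub_X_ne_zero k h1), Frob.mem_Fx]
  simp [sub_eq_zero]

theorem Frob.finite_Fx {m : ℕ} (hm : 0 < m) : Finite (Φ.Fx m) :=
  Nat.finite_of_card_ne_zero (by rw [Φ.card_Fx hm]; exact (pow_pos (one_pos.trans Φ.one_lt_q) _).ne')

theorem Frob.exists_Fx {α : Type*} [Finite α] (f : α → k) : ∃ m, 0 < m ∧ ∀ i, f i ∈ Φ.Fx m := by
  have := Fintype.ofFinite α
  have h : ∀ x : k, ∃ m, 0 < m ∧ x ∈ Φ.Fx m := fun x => by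
    by_cases hx : x = 0
    · exact ⟨1, one_pos, hx ▸ zero_mem _⟩
    refine ⟨_, per_pos (io { Φ with neg := false } (Units.mk0 x hx)), Frob.mem_Fx.2 ?_⟩
    have := congrArg Units.val (pow_q_per (Φ := { Φ with neg := false }) (Units.mk0 x hx))
    rwa [show Frob.Q { Φ with neg := false } = (Φ.q : ℤ) from rfl, ← Nat.cast_pow, zpow_natCast,
      Units.val_pow_eq_pow_val] at this
  choose m h1 h2 using h
  exact ⟨∏ i, m (f i), prod_pos fun i _ => h1 _, fun i =>
    Frob.Fx_mono (dvd_prod_of_mem _ (mem_univ i)) (h2 _)⟩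

theorem Lang.exists_fix (a : GL ι k) : ∃ P : GL ι k, a.val * P.val.map Φ.σ = P.val := by
  let ψ : (ι → k) →+ (ι → k) := ⟨⟨fun v => a.val *ᵥ (Φ.σ ∘ v), by
    rw [Pi.comp_zero, map_zero]; exact mulVec_zero _⟩, fun v w =>
    (congrArg (a.val *ᵥ ·) (funext fun i => map_add Φ.σ _ _)).trans (mulVec_add _ _ _)⟩
  have h1 : ∀ (c : k) v i, ψ^[i] (c • v) = c ^ Φ.q ^ i • ψ^[i] v := fun c v i => by
    induction i with
    | zero => simp
    | succ i ih =>
      rw [Function.iterate_succ_apply', Function.iterate_succ_apply', ih, pow_succ, pow_mul, ← Φ.hσ]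
      refine Eq.trans ?_ (mulVec_smul _ _ _)
      exact congrArg (a.val *ᵥ ·) (funext fun i => map_mul Φ.σ _ _)
  have h2 : ∀ v, ∃ M, 0 < M ∧ ψ^[M] v = v := fun v => by
    obtain ⟨m, hm, h⟩ := Φ.exists_Fx (Sum.elim v fun x : ι × ι => a.val x.1 x.2)
    have := Φ.finite_Fx hm
    obtain ⟨i, j, hij, e⟩ := Set.Finite.exists_lt_map_eq_of_forall_mem (f := fun i => ψ^[i] v)
      (t := Set.univ.pi fun _ => (Φ.Fx m : Set k)) (fun i => by
        induction i with
        | zero => exact fun i _ => h (.inl i)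
        | succ i ih =>
          rw [Function.iterate_succ_apply']
          exact fun j _ => sum_mem fun l _ => mul_mem (h (.inr (j, l))) (Frob.σ_mem (ih l trivial)))
      (Set.Finite.pi fun _ => Set.toFinite _)
    exact ⟨j - i, by omega, Function.iterate_cancel (fun v w e => funext fun i =>
      Φ.σ.injective (congrFun (mulVec_injective_of_isUnit a.isUnit e) i)) e.symm⟩
  have h3 : Submodule.span k {v | ψ v = v} = ⊤ := by
    by_contra h
    obtain ⟨f, h0, hf⟩ := Submodule.exists_le_ker_of_lt_top _ (lt_top_iff_ne_top.2 h)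
    refine h0 (LinearMap.ext fun v => ?_)
    obtain ⟨M, hM, hv⟩ := h2 v
    have := Φ.finite_Fx hM
    have := Fintype.ofFinite (Φ.Fx M)
    have h4 := eq_zero_of_natDegree_lt_card_of_eval_eq_zero
      (∑ i ∈ range M, monomial (Φ.q ^ i) (f (ψ^[i] v))) (Φ.Fx M).subtype.injective (fun c => ?_) ?_
    · have h5 := congrArg (coeff · 1) h4
      simp only [finsetSum_coeff, coeff_monomial, Nat.pow_eq_one, Φ.one_lt_q.ne', false_or,
        sum_ite_eq', mem_range, hM, if_true] at h5
      exact h5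
    · have h5 : ∑ i ∈ range M, ψ^[i] (c.1 • v) ∈ LinearMap.ker f := by
        refine hf (Submodule.subset_span ?_)
        have h6 := (sum_range_succ' (fun i => ψ^[i] (c.1 • v)) M).symm.trans (sum_range_succ _ M)
        rw [h1 _ _ M, hv, Frob.mem_Fx.1 c.2] at h6
        simpa only [Set.mem_ofPred_eq, map_sum, Function.iterate_succ_apply'] using add_right_cancel h6
      simpa [eval_finsetSum, h1, mul_comm] using h5
    · rw [← Nat.card_eq_fintype_card, Φ.card_Fx hM]
      exact (natDegree_sum_le_of_forall_le _ _ fun i hi => (natDegree_monomial_le _).trans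
        (Nat.pow_le_pow_right (one_pos.trans Φ.one_lt_q) (Nat.le_sub_one_of_lt (mem_range.1 hi)))).trans_lt
        (Nat.pow_lt_pow_right Φ.one_lt_q (by omega))
  obtain ⟨s, h4, h5, h6⟩ := exists_linearIndependent k {v | ψ v = v}
  let b := Module.Basis.mk h6 (by rw [Subtype.range_coe, h5, h3])
  let b' := b.reindex (b.indexEquiv (Pi.basisFun k ι))
  have := (Pi.basisFun k ι).invertibleToMatrix b'
  refine ⟨unitOfInvertible ((Pi.basisFun k ι).toMatrix b'), Matrix.ext fun i j => ?_⟩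
  have h7 : ψ (b' j) = b' j := by
    simp only [b', b, Module.Basis.reindex_apply, Module.Basis.mk_apply]
    exact h4 (Subtype.prop _)
  exact congrFun h7 i

theorem Lang.exists_on {b : Matrix ι ι k} (hb : IsUnit b) (h : (b.map Φ.σ)ᵀ = b) :
    ∃ g : Matrix ι ι k, (g.map Φ.σ)ᵀ * b * g = 1 := by
  classical
  let B : (ι → k) → (ι → k) →ₗ[k] k := fun v => (dotProductBilin k k (Φ.σ ∘ v)).comp b.mulVecLin
  have hB : ∀ v w, B v w = ∑ i, ∑ j, Φ.σ (v i) * b i j * w j := fun v w => by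
    simp [B, dotProduct, mulVec, mul_sum, mul_assoc]
  have hA : ∀ v v' w, B (v + v') w = B v w + B v' w := fun v v' w => by
    simp [hB, add_mul, sum_add_distrib]
  let V : AddSubgroup (ι → k) := .pi Set.univ fun _ => (Φ.Fx 2).toAddSubgroup
  have hV : ∀ {v}, v ∈ V → ∀ i, Φ.σ (Φ.σ (v i)) = v i := fun hv i => hv i trivial
  have h1 : ∀ {v}, v ∈ V → ∀ w, B w v = Φ.σ (B v w) := fun hv w => by
    rw [hB, hB, sum_comm]
    simp only [map_sum, map_mul, hV hv]
    refine sum_congr rfl fun i _ => sum_congr rfl fun j _ => ?_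
    rw [show Φ.σ (b i j) = b j i from congrFun (congrFun h j) i]; ring
  have h2 : ∀ {c v}, c ∈ Φ.Fx 2 → v ∈ V → c • v ∈ V := fun hc hv i _ => mul_mem hc (hv i trivial)
  have h3 : ∀ {v w}, v ∈ V → w ∈ V → B v w ∈ Φ.Fx 2 := fun hv hw => ((h1 hw _).trans
    (congrArg _ (h1 hv _))).symm
  have h4 : ∀ j, Pi.single j 1 ∈ V := fun j i _ => by
    rw [Pi.single_apply]; split_ifs; exacts [one_mem (Φ.Fx 2), zero_mem (Φ.Fx 2)]
  have key : ∀ s : Finset ι, ∃ e : ι → ι → k, (∀ i, e i ∈ V) ∧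
      ∀ i ∈ s, ∀ j ∈ s, B (e i) (e j) = if i = j then 1 else 0 := fun s => by
    induction s using Finset.induction_on with
    | empty => exact ⟨0, fun _ => zero_mem _, by simp⟩
    | insert i₀ s hi ih =>
      obtain ⟨e, he, ho⟩ := ih
      let π : ι → ι → k := fun j => Pi.single j 1 - ∑ i ∈ s, B (e i) (Pi.single j 1) • e i
      have p1 : ∀ j, π j ∈ V := fun j => sub_mem (h4 j) (sum_mem fun i _ => h2 (h3 (he i) (h4 j)) (he i))
      have p2 : ∀ j, ∀ i ∈ s, B (e i) (π j) = 0 := fun j i hi => by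
        rw [map_sub, map_sum, sum_congr rfl fun l hl => by rw [map_smul, ho i hi l hl]]
        simp [hi]
      obtain ⟨j, hj⟩ : ∃ j, π j ≠ 0 := by
        by_contra! h0
        have h5 := finrank_span_finset_le_card (R := k) (s.image e)
        rw [Set.finrank, (eq_top_iff (a := Submodule.span k _)).2 ((Pi.basisFun k ι).span_eq.ge.trans (Submodule.span_le.2 ?_)),
          finrank_top, Module.finrank_fintype_fun_eq_card] at h5
        · exact (h5.trans card_image_le).not_gt (card_lt_univ_of_notMem hi)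
        rintro _ ⟨j, rfl⟩
        rw [Pi.basisFun_apply, sub_eq_zero.1 (h0 j)]
        exact sum_mem fun i hi => Submodule.smul_mem _ _ (Submodule.subset_span (by simp; use i))
      obtain ⟨l, hl⟩ : ∃ l, B (π j) (π l) ≠ 0 := by
        by_contra! h0
        refine hj (funext fun i => Φ.σ.injective ((congrFun (vecMul_injective_of_isUnit hb
          (a₁ := Φ.σ ∘ π j) (a₂ := 0) (funext fun l => ?_)) i).trans (map_zero _).symm))
        have h5 := h0 l
        rw [map_sub, map_sum, sum_eq_zero fun i hi => by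
          rw [map_smul, h1 (he i), p2 j i hi, map_zero, smul_zero], sub_zero] at h5
        exact (by simpa [B] using h5 : Φ.σ ∘ π j ⬝ᵥ b.col l = 0).trans (congrFun (zero_vecMul b) l).symm
      obtain ⟨w, w1, w2, w3⟩ : ∃ w ∈ V, (∀ i ∈ s, B (e i) w = 0) ∧ B w w ≠ 0 := by
        by_contra! h0
        obtain ⟨t, ht⟩ := IsAlgClosed.exists_root (X ^ Φ.q + X - 1 : k[X]) (by
          rw [add_sub_assoc, degree_add_eq_left_of_degree_lt, degree_X_pow]
          · exact_mod_cast (one_pos.trans Φ.one_lt_q).ne'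
          · rw [degree_X_pow, ← C_1, degree_X_sub_C]; exact_mod_cast Φ.one_lt_q)
        have t1 : Φ.σ t + t = 1 := by simpa [Φ.hσ, sub_eq_zero] using ht
        have t2 : t ∈ Φ.Fx 2 := by
          have := congrArg Φ.σ t1
          rw [map_add, map_one] at this
          change Φ.σ (Φ.σ t) = t
          linear_combination this - t1
        have t3 := h2 (div_mem t2 (h3 (p1 j) (p1 l))) (p1 l)
        have h5 := h0 _ (add_mem (p1 j) t3) fun i hi => by simp [p2 _ i hi]
        rw [hA, map_add, map_add, h0 _ (p1 j) (p2 j), h0 _ t3 fun i hi => by simp [p2 _ i hi],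
          h1 (p1 j) (_ • _), map_smul, smul_eq_mul, div_mul_cancel₀ _ hl, zero_add, add_zero,
          add_comm, t1] at h5
        exact one_ne_zero h5
      obtain ⟨c, hc⟩ := IsAlgClosed.exists_pow_nat_eq (B w w)⁻¹ Φ.q.succ_pos
      rw [pow_succ, ← Φ.hσ] at hc
      have c0 : Φ.σ c ≠ 0 := left_ne_zero_of_mul (hc ▸ inv_ne_zero w3)
      have c1 : c ∈ Φ.Fx 2 := by
        have := congrArg Φ.σ hc
        rw [map_mul, map_inv₀, ← h1 w1, ← hc, mul_comm] at this
        exact mul_left_cancel₀ c0 this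
      have c2 : ∀ i ∈ s, B (e i) (c • w) = 0 := fun i hi => by simp [w2 i hi]
      refine ⟨Function.update e i₀ (c • w), fun i => ?_, fun i hi' j hj' => ?_⟩
      · rw [Function.update_apply]; split_ifs; exacts [h2 c1 w1, he i]
      rcases mem_insert.1 hi' with rfl | h5 <;> rcases mem_insert.1 hj' with rfl | h6
      · rw [Function.update_self, if_pos rfl, map_smul, h1 w1, map_smul, smul_eq_mul, smul_eq_mul,
          map_mul, ← h1 w1, mul_left_comm, ← mul_assoc, hc, inv_mul_cancel₀ w3]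
      · have : i ≠ j := by rintro rfl; exact hi h6
        rw [Function.update_self, Function.update_of_ne this.symm, if_neg this, h1 (he j), c2 j h6,
          map_zero]
      · have : i ≠ j := by rintro rfl; exact hi h5
        rw [Function.update_self, Function.update_of_ne this, if_neg this, c2 i h5]
      · rw [Function.update_of_ne (by rintro rfl; exact hi h5),
          Function.update_of_ne (by rintro rfl; exact hi h6), ho i h5 j h6]
  obtain ⟨e, -, he⟩ := key univ
  refine ⟨(of e)ᵀ, Matrix.ext fun i j => ?_⟩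
  rw [one_apply, ← he i (mem_univ _) j (mem_univ _), hB, sum_comm]
  simp [mul_apply, sum_mul]

variable (k) in
theorem stLang : StLang k := fun Φ ι _ _ a => by
  cases hn : Φ.neg
  · obtain ⟨P, h⟩ := Lang.exists_fix Φ a
    refine ⟨P⁻¹, ?_⟩
    rw [inv_inv, map_inv, eq_mul_inv_iff_mul_eq]
    exact Units.ext (by simpa [Frob.Fr_val, Frob.mat, hn] using h)
  obtain ⟨P, h⟩ := Lang.exists_fix (Φ.pow 2) (a * Φ.Fr ι a)
  have h1 : (Φ.Fr ι a).val = ((a⁻¹).val.map Φ.σ)ᵀ := by simp [Frob.Fr_val, Frob.mat, hn]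
  have h2 : (Φ.Fr ι P⁻¹).val = (P.val.map Φ.σ)ᵀ := by
    simp only [Frob.Fr_val, Frob.mat, hn, if_true, inv_inv]
  obtain ⟨g, hg⟩ := Lang.exists_on Φ (Φ.Fr ι P⁻¹ * a⁻¹ * P).isUnit (by
    rw [Units.val_mul, Units.val_mul, h2, Matrix.map_mul, Matrix.map_mul, transpose_mul,
      transpose_mul, ← h1, transpose_map, transpose_transpose, Matrix.mul_assoc]
    congr 1
    conv_rhs => rw [← h, Units.val_mul, Matrix.mul_assoc, Units.inv_mul_cancel_left]
    rfl)
  obtain ⟨g, rfl⟩ := (isUnit_of_mul_isUnit_right (hg ▸ isUnit_one) : IsUnit g)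
  refine ⟨(P * g)⁻¹, ?_⟩
  have h3 : (Φ.Fr ι g⁻¹).val = (g.val.map Φ.σ)ᵀ := by
    simp only [Frob.Fr_val, Frob.mat, hn, if_true, inv_inv]
  rw [← h3, ← Units.val_mul, ← Units.val_mul, Units.val_eq_one] at hg
  rw [inv_inv, _root_.mul_inv_rev, map_mul]
  generalize Φ.Fr ι g⁻¹ = x, Φ.Fr ι P⁻¹ = y at hg ⊢
  rw [show P * g * (x * y) = P * g * (x * (y * a⁻¹ * P) * g) * (P * g)⁻¹ * a by group, hg]
  group

end Cfsg.GUn
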