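import Cfsg.Agent.GUn.Lab
import Cfsg.Agent.GUn.Dec
import Cfsg.Agent.GUn.Lang
import Cfsg.Agent.GLn.Two

/-! # S4537, block side: piece `DG2` -/

set_option autoImplicit false

namespace Cfsg.GUn

open Finset Matrix
open GLn (Bt sz)

universe u

namespace DG2

section grp

/-- an elementary abelian quotient of order at least `2 ^ w` -/
def Sec (Q : Type u) [Group Q] (w : ℕ) : Prop :=
  ∃ (E : Type u) (_ : Group E) (π : Q →* E), Function.Surjective π ∧
    (∀ a b : E, a * b = b * a) ∧ (∀ a : E, a ^ 2 = 1) ∧ 2 ^ w ≤ Nat.card E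

variable {G : Type u} [Group G]

theorem Sec.prod {G1 G2 : Type u} [Group G1] [Group G2] {f : G1 × G2 →* G}
    (hf : Function.Injective f) {A : Subgroup G1} {B : Subgroup G2} {v w : ℕ} (hA : Sec A v)
    (hB : Sec B w) : Sec ((A.prod B).map f) (v + w) := by
  obtain ⟨E, _, π, h1, h2, h3, h4⟩ := hA
  obtain ⟨E', _, π', h1', h2', h3', h4'⟩ := hB
  refine ⟨E × E', inferInstance, (π.prodMap π').comp
    (((A.prod B).equivMapOfInjective f hf).symm.trans (A.prodEquiv B)).toMonoidHom,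
    (h1.prodMap h1').comp (MulEquiv.surjective _), fun a b => Prod.ext (h2 _ _) (h2' _ _),
    fun a => Prod.ext (h3 _) (h3' _), ?_⟩
  rw [Nat.card_prod, pow_add]
  exact Nat.mul_le_mul h4 h4'

variable [Finite G]

theorem two_mul_card_le {A B : Subgroup G} (h : A ≤ B) (h' : ¬ B ≤ A) :
    2 * Nat.card A ≤ Nat.card B := by
  obtain ⟨m, hm⟩ := Subgroup.card_dvd_of_le h
  have h1 : m ≠ 1 := fun h1 => h' (Subgroup.eq_of_le_of_card_ge h (by rw [hm, h1, mul_one])).ge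
  have h0 : m ≠ 0 := fun h0 => Nat.card_pos.ne' (by rw [hm, h0, mul_zero])
  rw [hm, mul_comm]
  exact Nat.mul_le_mul_left _ (by omega)

theorem unit {a b c z : G} (hz : z ∈ Subgroup.center G) (hz1 : z ≠ 1) (ha : a * a = z)
    (hb : b * b = z) (hab : a * b = z * (b * a)) (hc : c ∈ Subgroup.center G)
    (hcc : c * c ∈ Subgroup.zpowers z) {t : ℕ} (ht : t = 2 ∨ (t = 3 ∧ c ∉ Subgroup.zpowers z)) :
    Sec (Subgroup.closure {a, b, c} : Subgroup G) t := by
  have hZ : Subgroup.zpowers z ≤ Subgroup.center G := Subgroup.zpowers_le.2 hz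
  have : (Subgroup.zpowers z).Normal := ⟨fun n hn g => by
    rw [Subgroup.mem_center_iff.1 (hZ hn) g, mul_inv_cancel_right]; exact hn⟩
  set π := QuotientGroup.mk' (Subgroup.zpowers z) with hπ
  have hk : π.ker = Subgroup.zpowers z := QuotientGroup.ker_mk' _
  have h1 : ∀ x ∈ Subgroup.zpowers z, π x = 1 := fun x hx => by rwa [← hk] at hx
  have hz' := h1 z (Subgroup.mem_zpowers z)
  set B : Subgroup G := Subgroup.closure {a, b, c} with hB
  have haB : a ∈ B := Subgroup.subset_closure (by simp)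
  have hbB : b ∈ B := Subgroup.subset_closure (by simp)
  have hcB : c ∈ B := Subgroup.subset_closure (by simp)
  have hZB : Subgroup.zpowers z ≤ B := Subgroup.zpowers_le.2 (ha ▸ mul_mem haB haB)
  have e1 : π a * π b = π b * π a := by rw [← map_mul, hab, map_mul, hz', one_mul, map_mul]
  have e2 : ∀ x, π x * π c = π c * π x := fun x => by
    rw [← map_mul, Subgroup.mem_center_iff.1 hc x, map_mul]
  have hcomm : ∀ x ∈ B.map π, ∀ y ∈ B.map π, x * y = y * x := by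
    have : IsMulCommutative (B.map π) := by
      rw [hB, MonoidHom.map_closure]
      refine Subgroup.isMulCommutative_closure ?_
      rintro _ ⟨x, rfl | rfl | rfl, rfl⟩ _ ⟨y, rfl | rfl | rfl, rfl⟩
      exacts [rfl, e1, e2 _, e1.symm, rfl, e2 _, (e2 _).symm, (e2 _).symm, rfl]
    exact fun x hx y hy => setLike_mul_comm hx hy
  have hsq : ∀ x ∈ B, π x ^ 2 = 1 := by
    intro x hx
    induction hx using Subgroup.closure_induction with
    | mem x hx =>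
      rw [sq, ← map_mul]
      rcases hx with rfl | rfl | rfl
      exacts [ha ▸ hz', hb ▸ hz', h1 _ hcc]
    | one => rw [map_one, one_pow]
    | mul x y hx hy h2 h3 =>
      rw [map_mul, Commute.mul_pow (hcomm _ ⟨x, hx, rfl⟩ _ ⟨y, hy, rfl⟩), h2, h3, one_mul]
    | inv x _ h2 => rw [map_inv, inv_pow, h2, inv_one]
  have hne : a * b ≠ b * a := fun h => hz1 (by rw [h] at hab; exact (right_eq_mul.1 hab))
  have key : ∀ {K L : Subgroup G}, Subgroup.zpowers z ≤ K → K ≤ L → ¬ L ≤ K →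
      2 * Nat.card (K.map π) ≤ Nat.card (L.map π) := fun h2 h3 h4 =>
    two_mul_card_le (Subgroup.map_mono h3) fun h5 => h4 (by
      rwa [Subgroup.map_le_map_iff, hk, sup_eq_left.2 h2] at h5)
  have hC : ∀ x : G, Subgroup.center G ≤ Subgroup.centralizer {x} := fun x =>
    Subgroup.center_le_centralizer _
  have k1 := key (K := B ⊓ Subgroup.centralizer {a}) (le_inf hZB (hZ.trans (hC a))) inf_le_left
    fun h => hne (Subgroup.mem_centralizer_singleton_iff.1 (h hbB).2).symm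
  have k2 := key (K := B ⊓ Subgroup.centralizer {a} ⊓ Subgroup.centralizer {b})
    (le_inf (le_inf hZB (hZ.trans (hC a))) (hZ.trans (hC b))) inf_le_left
    fun h => hne (Subgroup.mem_centralizer_singleton_iff.1
      (h ⟨haB, Subgroup.mem_centralizer_singleton_iff.2 rfl⟩).2)
  refine ⟨B.map π, inferInstance, π.subgroupMap B, π.subgroupMap_surjective B,
    fun x y => Subtype.ext (hcomm _ x.2 _ y.2), ?_, ?_⟩
  · rintro ⟨_, x, hx, rfl⟩
    exact Subtype.ext (hsq x hx)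
  · rcases ht with rfl | ⟨rfl, h⟩
    · have := Nat.card_pos
        (α := (B ⊓ Subgroup.centralizer {a} ⊓ Subgroup.centralizer {b} : Subgroup G).map π)
      omega
    · have k3 := key (L := B ⊓ Subgroup.centralizer {a} ⊓ Subgroup.centralizer {b}) le_rfl
        (le_inf (le_inf hZB (hZ.trans (hC a))) (hZ.trans (hC b)))
        fun h' => h (h' ⟨⟨hcB, hC a hc⟩, hC b hc⟩)
      have := Nat.card_pos (α := (Subgroup.zpowers z).map π)
      omega

theorem Sec.le {A : Type u} [Group A] (δ : G →* A) {Q D : Subgroup G} {T : Subgroup A} [Finite T]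
    {w s : ℕ} (h : Sec Q w) (hT : ∀ x ∈ Q, δ x ∈ T) (hD : IsConjLE Q D)
    (hs : SectionalPRankLE 2 s (D ⊓ δ.ker : Subgroup G)) : 2 ^ w ≤ 2 ^ s * Nat.card T := by
  obtain ⟨E, _, π, h1, h2, h3, h4⟩ := h
  have : Finite E := Finite.of_surjective π h1
  obtain ⟨x, hx⟩ := hD
  have h5 : IsConjLE (Q ⊓ δ.ker) (D ⊓ δ.ker) := ⟨x, by
    rintro _ ⟨y, hy, rfl⟩
    exact ⟨hx ⟨y, hy.1, rfl⟩, (MonoidHom.normal_ker _).conj_mem y hy.2 x⟩⟩
  set K := (δ.comp Q.subtype).ker with hK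
  have h6 := (hs.of_isConjLE h5).card_le_of_section
    ((Q.subtype.comp K.subtype).codRestrict _ fun y => ⟨y.1.2, y.2⟩) (π.subgroupMap K)
    (π.subgroupMap_surjective K) (fun y hy => by
      have : y = 1 := Subtype.ext (Subtype.ext (congrArg Subtype.val (MonoidHom.mem_ker.1 hy) :))
      rw [this]
      exact one_mem _) (fun a b => Subtype.ext (h2 _ _)) fun a => Subtype.ext (h3 _)
  have h7 : K.index ≤ Nat.card T := by
    rw [hK, Subgroup.index_ker]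
    exact Subgroup.card_le_of_le (by rintro _ ⟨y, rfl⟩; exact hT _ y.2)
  have h8 := Nat.le_of_dvd (Nat.pos_of_ne_zero Subgroup.index_ne_zero_of_finite)
    (K.index_map_dvd h1)
  rw [← (K.map π).card_mul_index] at h4
  exact h4.trans (Nat.mul_le_mul h6 (h8.trans h7))

end grp

variable {k : Type u} [Field k] [Big k] {Φ : Frob k} {N : ℕ} {M : Ideal AlgInt}

theorem two_dvd (h2 : 2 ≠ ringChar k) : ((2 : ℕ) : ℤ) ∣ Φ.Q - 1 := by
  have h : Odd Φ.Q := by
    rw [← Int.natAbs_odd, natAbs_Q]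
    exact Nat.coprime_two_right.1 (coprime_q_prime Nat.prime_two h2)
  exact even_iff_two_dvd.1 (h.sub_odd odd_one)

theorem two_dvd' (h2 : 2 ≠ ringChar k) : 2 ∣ NN Φ 1 :=
  dvd_NN_iff.2 (by rw [pow_one]; exact two_dvd h2)

theorem W_sum (h2 : 2 ≠ ringChar k) {μ : MP Φ N} (hμ : Basic 2 μ) {t : Finset (I Φ)}
    (ht : μ.support ⊆ t) : W 2 μ = ∑ ψ ∈ t, sz N (μ ψ).1 := by
  have h : ∀ ψ, ww 2 μ ψ = sz N (μ ψ).1 := fun ψ => by rw [ww_eq_nn (two_dvd' h2), hμ.nn_eq']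
  rw [W_eq_sum μ (t := t) fun ψ hψ => ht (Finsupp.mem_support_iff.2 fun h0 => by
    rw [h, h0, GLn.sz_zero] at hψ; exact lt_irrefl _ hψ)]
  exact Finset.sum_congr rfl fun ψ _ => h ψ

theorem add_of_sz (h2 : 2 ≠ ringChar k) {μ μ₀ μ₁ : MP Φ N} (h : Basic 2 μ) (h₀ : Basic 2 μ₀)
    (h₁ : Basic 2 μ₁) (e : ∀ φ, sz N (μ φ).1 = sz N (μ₀ φ).1 + sz N (μ₁ φ).1) :
    deg μ = deg μ₀ + deg μ₁ ∧ W 2 μ = W 2 μ₀ + W 2 μ₁ := by
  have a0 : μ.support ⊆ μ.support ∪ (μ₀.support ∪ μ₁.support) := subset_union_left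
  have a1 : μ₀.support ⊆ μ.support ∪ (μ₀.support ∪ μ₁.support) :=
    subset_union_left.trans subset_union_right
  have a2 : μ₁.support ⊆ μ.support ∪ (μ₀.support ∪ μ₁.support) :=
    subset_union_right.trans subset_union_right
  rw [deg_eq_sum _ a0, deg_eq_sum _ a1, deg_eq_sum _ a2, W_sum h2 h a0, W_sum h2 h₀ a1,
    W_sum h2 h₁ a2, ← sum_add_distrib, ← sum_add_distrib]
  exact ⟨sum_congr rfl fun φ _ => by rw [e, mul_add], sum_congr rfl fun φ _ => e φ⟩

theorem unitG (h2 : 2 ≠ ringChar k) (hQ : StQ8 k) (hM : IsPModular 2 M) {c : kˣ} (hc : c ∈ Mk Φ 1)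
    (hcc : c ^ 2 = 1 ∨ c ^ 2 = -1) {t : ℕ} (ht : t = 2 ∨ (t = 3 ∧ c ^ 2 ≠ 1)) {ψ : I Φ}
    {X : Bt N} {j : ℕ} {χ : IrrCharacter (Φ.G (Fin j))} (hN : j ≤ N) (hψ : Reg 2 ψ)
    (hX : sz N X.1 = 2) (hl : Lab (Finsupp.single ψ X) χ) {D : Subgroup (Φ.G (Fin j))}
    (hD : IsDefectGroup 2 M (blockOf M χ.1) D) : ∃ Q ≤ D,
      (∀ x ∈ Q, GeneralLinearGroup.det x.1 ∈ Subgroup.zpowers (c ^ 2)) ∧ Sec Q t := by
  obtain ⟨a, haD, b, hbD, ha, hb, h1, h3, h4⟩ := hQ h2 Φ (Fin j) M hM N ψ X χ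
    (by rwa [Fintype.card_fin]) hψ hX hl D hD
  have hj : j = 2 * ψ.per := by
    have := hl.1
    rw [deg_single, hX, Fintype.card_fin] at this
    omega
  have : Nonempty (Fin j) := ⟨⟨0, by have := per_pos ψ; omega⟩⟩
  have hs : scal (Fin j) (-1 : kˣ) = -1 := Units.ext (by simp)
  have hn : (-1 : kˣ) ≠ 1 := fun h => by
    obtain ⟨ξ, -, hξ⟩ := exists_orderOf_eq (Φ := Φ) one_pos (two_dvd' h2)
    have h5 := pow_orderOf_eq_one ξ
    rw [hξ, Units.ext_iff, Units.val_pow_eq_pow_val, Units.val_one, sq, mul_self_eq_one_iff] at h5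
    have h6 : ξ = 1 := h5.elim (fun h5 => Units.ext h5) fun h5 => (Units.ext h5 : ξ = -1).trans h
    rw [h6, orderOf_one] at hξ
    omega
  set c' : Φ.G (Fin j) := ⟨scal _ c, scal_mem_G_of_Mk hc⟩ with hc'
  have hcen : c' ∈ Subgroup.center _ :=
    Subgroup.mem_center_iff.2 fun g => Subtype.ext (scal_comm c g.1).symm
  have hz : (a * a).1 = -1 := h1
  have hc2 : (c' * c').1 = scal _ (c ^ 2) := by rw [sq, map_mul]; rfl
  have hcD : c' ∈ D := by
    have : (Subgroup.zpowers c').Normal := ⟨fun n hn g => by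
      rw [Subgroup.mem_center_iff.1 (Subgroup.zpowers_le.2 hcen hn) g, mul_inv_cancel_right]
      exact hn⟩
    have h5 : c' ^ 2 ^ 2 = 1 := Subtype.ext (by
      change scal _ c ^ 2 ^ 2 = 1
      rw [← map_pow, sq 2, pow_mul]
      rcases hcc with h | h <;> rw [h] <;> simp)
    obtain ⟨i, -, hi⟩ := (Nat.dvd_prime_pow Nat.prime_two).1 (orderOf_dvd_of_pow_eq_one h5)
    exact hD.le_of_normal hM (isPBlock_blockOf χ)
      (IsPGroup.of_card ((Nat.card_zpowers c').trans hi)) (Subgroup.mem_zpowers c')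
  refine ⟨Subgroup.closure {a, b, c'}, (Subgroup.closure_le _).2 ?_, fun x hx => ?_,
    unit (z := a * a) (Subgroup.mem_center_iff.2 fun g => Subtype.ext ?_) (fun h => hn ?_) rfl
      (Subtype.ext (h3.trans h1.symm)) (Subtype.ext ?_) hcen ?_ (ht.imp_right fun h => ⟨h.1, ?_⟩)⟩
  · rintro _ (rfl | rfl | rfl)
    exacts [haD, hbD, hcD]
  · have : Subgroup.closure {a, b, c'} ≤ (Subgroup.zpowers (c ^ 2)).comap
        (GeneralLinearGroup.det.comp (Φ.G (Fin j)).subtype) := by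
      rw [Subgroup.closure_le]
      rintro _ (rfl | rfl | rfl)
      · exact Subgroup.ker_le_comap _ _ ha
      · exact Subgroup.ker_le_comap _ _ hb
      · change GeneralLinearGroup.det (scal (Fin j) c) ∈ Subgroup.zpowers (c ^ 2)
        rw [det_scal, Fintype.card_fin, hj, pow_mul]
        exact pow_mem (Subgroup.mem_zpowers _) _
    exact this hx
  · rw [Subgroup.coe_mul, Subgroup.coe_mul _ _ g, hz, mul_neg_one, neg_one_mul]
  · refine scal_injective (ι := Fin j) ?_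
    rw [hs, map_one, ← hz, h]
    rfl
  · rw [Subgroup.coe_mul, Subgroup.coe_mul _ (a * a), hz, neg_one_mul]
    exact h4
  · rcases hcc with h | h
    · rw [show c' * c' = 1 from Subtype.ext (by rw [hc2, h, map_one]; rfl)]
      exact one_mem _
    · rw [show c' * c' = a * a from Subtype.ext (by rw [hc2, h, hs, hz])]
      exact Subgroup.mem_zpowers _
  · rintro ⟨i, hi⟩
    refine h.2 (scal_injective (ι := Fin j) ?_)
    have h5 : (a * a) ^ 2 = 1 := Subtype.ext (by rw [Subgroup.coe_pow, hz]; simp)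
    rw [← hc2, map_one, ← hi, ← sq, ← _root_.zpow_natCast, ← _root_.zpow_mul, mul_comm,
      _root_.zpow_mul, _root_.zpow_natCast, h5, _root_.one_zpow]
    rfl

theorem main (h2 : 2 ≠ ringChar k) (hI : StIrr k) (hB : StBlk k) (hMe : StMerge k) (hQ : StQ8 k)
    (hM : IsPModular 2 M) {c : kˣ} (hc : c ∈ Mk Φ 1) (hcc : c ^ 2 = 1 ∨ c ^ 2 = -1) {t : ℕ}
    (ht : t = 2 ∨ (t = 3 ∧ c ^ 2 ≠ 1)) (w : ℕ) : ∀ (ι : Type) [Fintype ι] [DecidableEq ι]
    (μ : MP Φ N) (χ : IrrCharacter (Φ.G ι)), Fintype.card ι ≤ N → Basic 2 μ →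
    (∀ ψ, Even (sz N (μ ψ).1)) → W 2 μ = 2 * w → Lab μ χ →
    ∀ D, IsDefectGroup 2 M (blockOf M χ.1) D → ∃ Q, IsConjLE Q D ∧
      (∀ x ∈ Q, GeneralLinearGroup.det x.1 ∈ Subgroup.zpowers (c ^ 2)) ∧ Sec Q (t * w) := by
  induction w with
  | zero =>
    intro ι _ _ μ χ _ _ _ _ _ D _
    exact ⟨⊥, .of_le bot_le, fun x hx => by
      rw [Subgroup.mem_bot.1 hx, OneMemClass.coe_one, map_one]; exact one_mem _,
      PUnit, inferInstance, 1, fun _ => ⟨1, rfl⟩, fun _ _ => rfl, fun _ => rfl, by simp⟩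
  | succ w ih =>
    intro ι _ _ μ χ hN hμ hev hW hl D hD
    obtain ⟨ψ, hψ, h0⟩ := Finset.exists_ne_zero_of_sum_ne_zero
      (show ∑ ψ ∈ μ.support, sz N (μ ψ).1 ≠ 0 by rw [← W_sum h2 hμ subset_rfl]; omega)
    have hr := hμ ψ hψ
    have hN0 : 0 < N := by
      have := sz_le_deg μ ψ
      have := hl.1
      omega
    obtain ⟨X, hX⟩ := exists_sz hN0 2
    obtain ⟨Z, hZ⟩ := exists_sz hN0 (sz N (μ ψ).1 - 2)
    have e : ∀ φ, sz N (μ φ).1 = sz N (μ.update ψ Z φ).1 + sz N (Finsupp.single ψ X φ).1 := by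
      intro φ
      by_cases h : φ = ψ
      · obtain ⟨r, hr⟩ := hev ψ
        rw [h, Finsupp.coe_update, Function.update_self, Finsupp.single_eq_same]
        omega
      · rw [Finsupp.single_eq_of_ne h, GLn.sz_zero, Finsupp.coe_update, Function.update_of_ne h,
          add_zero]
    have h₀ := hμ.update hr Z
    have h₁ := Basic.single hr X
    obtain ⟨e1, e2⟩ := add_of_sz h2 hμ h₀ h₁ e
    have e3 : W 2 (Finsupp.single ψ X : MP Φ N) = 2 := by
      rw [W_sum h2 h₁ Finsupp.support_single_subset, sum_singleton, Finsupp.single_eq_same, hX]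
    have hl1 := hl.1
    obtain ⟨E⟩ := exists_dec2 (Φ := Φ) (ι := ι) (e := 1) (n := deg (μ.update ψ Z))
      (j := deg (Finsupp.single ψ X : MP Φ N)) (stLang k) one_pos (by omega)
    obtain ⟨ξ, hξ, hξ2⟩ := exists_orderOf_eq (Φ := Φ) one_pos (two_dvd' h2)
    have hξ1 : 1 ≠ ξ := fun h => by rw [← h, orderOf_one] at hξ2; omega
    have hξ3 : ξ ^ 2 ^ 1 = 1 := by rw [pow_one, ← hξ2, pow_orderOf_eq_one]
    set x₁ : Φ.G (Fin (deg (Finsupp.single ψ X : MP Φ N))) := ⟨scal _ ξ, scal_mem_G_of_Mk hξ⟩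
      with hx₁
    obtain ⟨ν, hν, e4, hne⟩ := hMe Φ ι 2 Nat.prime_two h2 _ _ E 1 ξ ⟨0, one_pow _⟩ ⟨1, hξ3⟩
      (one_mem_Mk one_pos) hξ hξ1 N _ _ hN h₀ h₁ rfl rfl 1 x₁ (map_one _).symm rfl
    obtain ⟨χ', hχ'⟩ := exists_lab (ι := ι) hI ((add_of_sz h2 hν h₀ h₁ e4).1.trans (by omega))
    obtain ⟨θ₀, hθ₀⟩ := exists_lab (μ := μ.update ψ Z) hI (Fintype.card_fin _).symm
    obtain ⟨θ₁, hθ₁⟩ := exists_lab (μ := (Finsupp.single ψ X : MP Φ N)) hI (Fintype.card_fin _).symm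
    have hmem := hB.one Φ ι 2 h2 M hM (two_dvd h2) N μ ν χ χ' hN hl hχ'
      ((Basic.cd_eq_iff (two_dvd h2) hν hμ).2 fun φ => by rw [e4, e])
    obtain ⟨D₀, D₁, hD₀, hD₁, hle⟩ := GLn.peel_gen hM E.f2 E.f2_injective (u1 := 1) (u2 := x₁)
      (E.range_f2_eq (one_mem_Mk one_pos) (Nat.dvd_one.1 ((mem_Mk_per one_pos).1 hξ)) hξ1
        (map_one _).symm rfl)
      (by
        have h5 : E.f2 (1, x₁) ^ 2 ^ 1 = 1 := by
          rw [← map_pow, ← map_one E.f2]
          refine congrArg E.f2 (Prod.ext (one_pow _) (Subtype.ext ?_))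
          change scal _ ξ ^ 2 ^ 1 = 1
          rw [← map_pow, hξ3, map_one]
        obtain ⟨i, -, hi⟩ := (Nat.dvd_prime_pow Nat.prime_two).1 (orderOf_dvd_of_pow_eq_one h5)
        exact ⟨i, hi⟩)
      (isPBlock_blockOf χ) hmem θ₀ θ₁ (hχ'.pair3_ne hθ₀ hθ₁ hne) hD
    obtain ⟨Q₀, a1, a2, a3⟩ := ih _ _ θ₀ (by rw [Fintype.card_fin]; omega) h₀ (fun φ => by
      have h5 := hev φ
      rw [e φ, Nat.even_add] at h5
      refine h5.2 ?_
      by_cases h : φ = ψ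
      · rw [h, Finsupp.single_eq_same, hX]
        exact even_two
      · rw [Finsupp.single_eq_of_ne h, GLn.sz_zero]
        exact Even.zero) (by omega) hθ₀ D₀ hD₀
    obtain ⟨Q₁, b1, b2, b3⟩ := unitG h2 hQ hM hc hcc ht (by omega) hr hX hθ₁ hD₁
    refine ⟨(Q₀.prod Q₁).map E.f2, (GLn.isConjLE_prod_map _ a1 (.of_le b1)).trans hle, ?_,
      a3.prod E.f2_injective b3⟩
    rintro _ ⟨⟨x, y⟩, ⟨hx, hy⟩, rfl⟩
    rw [E.det_f2, prod_range_one, pow_zero, _root_.zpow_one]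
    exact mul_mem (a2 x hx) (b2 y hy)

end DG2

open DG2 in
theorem stDG2 (k : Type u) [Field k] [Big k] (hI : StIrr k) (hB : StBlk k) (hMe : StMerge k)
    (hQ : StQ8 k) : StDG2 k := by
  intro h2 Φ ι _ _ M hM N μ χ hN hl hev D hD s hs
  obtain ⟨ν, χ', h1, hν, hl'⟩ := hB.basic Φ ι 2 h2 M hM N χ hN
  have hcd := hB.cd_eq Φ ι 2 h2 M hM N μ ν χ χ' hN hl hl' h1
  rw [(isPBlock_blockOf χ).eq_blockOf hM h1] at hD
  have hev' : ∀ ψ, Even (sz N (ν ψ).1) := fun ψ => by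
    rw [← hν.nn_eq', nn_eq_of_cd hcd]
    exact hev ψ
  obtain ⟨w, hw⟩ : 2 ∣ W 2 ν := by
    rw [W_sum h2 hν subset_rfl]
    exact dvd_sum fun ψ _ => (hev' ψ).two_dvd
  have key : ∀ c ∈ Mk Φ 1, (c ^ 2 = 1 ∨ c ^ 2 = -1) → ∀ t, (t = 2 ∨ (t = 3 ∧ c ^ 2 ≠ 1)) →
      2 ^ (t * w) ≤ 2 ^ s * orderOf (c ^ 2) := by
    intro c hc hcc t ht
    obtain ⟨Q, a1, a2, a3⟩ := main h2 hI hB hMe hQ hM hc hcc ht w ι ν χ' hN hν hev' hw hl' D hD
    have := (Big.tors (c ^ 2)).finite_zpowers.to_subtype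
    rw [← Nat.card_zpowers]
    exact a3.le (GeneralLinearGroup.det.comp (Φ.G ι).subtype) a2 a1 hs
  rw [← W_eq_of_cd hcd, hw]
  refine ⟨?_, fun h4 => ?_⟩
  · have h := key 1 (one_mem_Mk one_pos) (Or.inl (one_pow _)) 2 (Or.inl rfl)
    rw [one_pow, orderOf_one, mul_one] at h
    exact (Nat.pow_le_pow_iff_right one_lt_two).1 h
  · obtain ⟨c, hc, ho⟩ := exists_orderOf_eq (Φ := Φ) (a := 4) one_pos
      (dvd_NN_iff.2 (by rw [pow_one]; exact h4))
    have h5 : orderOf (c ^ 2) = 2 := by rw [orderOf_pow' _ two_ne_zero, ho]; rfl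
    have h6 : c ^ 2 ≠ 1 := fun h => by rw [h, orderOf_one] at h5; omega
    have h7 := pow_orderOf_eq_one (c ^ 2)
    rw [h5, Units.ext_iff, Units.val_pow_eq_pow_val, Units.val_one,
      sq, mul_self_eq_one_iff] at h7
    have h := key c hc (h7.imp (fun h => Units.ext h) fun h => Units.ext h) 3 (Or.inr ⟨rfl, h6⟩)
    rw [h5, ← pow_succ] at h
    have := (Nat.pow_le_pow_iff_right one_lt_two).1 h
    omega

end Cfsg.GUn
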