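import Cfsg.Agent.GLn.Defs
import Cfsg.Agent.GLn.Sym

/-!
# S4537: frozen definitions, part 1 (character side; plan: `docs/GUn.md`)
-/

set_option autoImplicit false

namespace Cfsg.GUn

open Matrix Finset SymCh
open scoped Kronecker TensorProduct ComplexConjugate

universe u v

/-! ### partitions and Green polynomials -/

/-- `∑ λ'_i μ'_i` -/
def ipc (l m : Multiset ℕ) : ℕ := (l.map fun a => (m.map fun b => min a b).sum).sum

/-- the order of the automorphism group of the nilpotent module of type `l` -/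
def aa (Q : ℚ) (l : Multiset ℕ) : ℚ :=
  Q ^ ipc l l * ∏ i ∈ l.toFinset, ∏ j ∈ Icc 1 (l.count i), (1 - Q⁻¹ ^ j)

/-- the identities satisfied by the Green polynomials `g ρ l` -/
structure HL (Q : ℚ) (g : Multiset ℕ → Multiset ℕ → ℚ) : Prop where
  zero : g 0 0 = 1
  size : ∀ ρ l, g ρ l ≠ 0 → ρ.sum = l.sum
  zpart : ∀ ρ l, 0 ∈ ρ → g ρ l = 0
  alpha : ∀ n, ∀ l ∈ ptn n, ∑ ρ ∈ ptn n, g ρ l / zz ρ = 1
  beta : ∀ n, ∀ ρ ∈ ptn n, ∀ σ ∈ ptn n, ∑ l ∈ ptn n, g ρ l * g σ l / aa Q l =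
    if ρ = σ then zz ρ / (ρ.map fun r => Q ^ r - 1).prod else 0
  gamma : ∀ n m, ∀ l ∈ ptn n, ∀ ρ ∈ ptn m, ∑ μ ∈ ptn m, Q ^ ipc l μ * g ρ μ / aa Q μ =
    (ρ.antidiagonal.map fun x => (x.2.map fun r => (Q ^ r - 1)⁻¹).prod *
      if x.1.sum ≤ n then ∑ σ ∈ ptn (n - x.1.sum), g (x.1 + σ) l / zz σ else 0).sum
  delta : ∀ n, 0 < n → ∀ ρ ∈ ptn n, g ρ {n} = 1
  eps : ∀ n, ∀ l ∈ ptn n, ∑ ρ ∈ ptn n, (ρ.map fun r => (-1 : ℚ) ^ (r + 1)).prod * g ρ l / zz ρ =
    if l = Multiset.replicate n 1 then Q ^ n.choose 2 else 0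

/-- the Green polynomials -/
noncomputable def gr (Q : ℚ) : Multiset ℕ → Multiset ℕ → ℚ := Classical.epsilon (HL Q)

/-- the Jordan type of the nilpotent part of a matrix -/
noncomputable def jt {k : Type u} [Field k] {ι : Type v} [Fintype ι] [DecidableEq ι]
    (A : Matrix ι ι k) : Multiset ℕ :=
  ∑ i ∈ Icc 1 (Fintype.card ι),
    Multiset.replicate ((A ^ (i - 1)).rank + (A ^ (i + 1)).rank - 2 * (A ^ i).rank) i

/-! ### the groups -/

/-- algebraic closures of finite fields, with a faithful character of the units -/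
class Big (k : Type u) [Field k] extends IsAlgClosed k where
  tors : ∀ x : kˣ, IsOfFinOrder x
  prime : (ringChar k).Prime
  th : kˣ →* ℂˣ
  th_inj : Function.Injective th

/-- Frobenius data -/
structure Frob (k : Type u) [Field k] where
  neg : Bool
  q : ℕ
  σ : k →+* k
  hq : ∃ r, 0 < r ∧ q = ringChar k ^ r
  hσ : ∀ x, σ x = x ^ q

variable {k : Type u} [Field k]

/-- inverse transpose -/
def invT (k : Type u) [Field k] (ι : Type v) [Fintype ι] [DecidableEq ι] : GL ι k →* GL ι k where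
  toFun g := ⟨(g⁻¹).valᵀ, g.valᵀ, by rw [← transpose_mul, Units.mul_inv, transpose_one],
    by rw [← transpose_mul, Units.inv_mul, transpose_one]⟩
  map_one' := Units.ext (by simp)
  map_mul' a b := Units.ext (by simp only [_root_.mul_inv_rev, Units.val_mul, transpose_mul])

namespace Frob

variable (Φ : Frob k)

/-- `± q` -/
def Q : ℤ := if Φ.neg then -(Φ.q : ℤ) else Φ.q

/-- the `d`-th power (`0 < d`); `Φ.pow 1` is `Φ` by `rfl` -/
def pow : ℕ → Frob k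
  | 0 => Φ
  | 1 => Φ
  | d + 2 =>
    { neg := Φ.neg && d.bodd
      q := Φ.q ^ (d + 2)
      σ := Φ.σ ^ (d + 2)
      hq := by
        obtain ⟨r, h, e⟩ := Φ.hq
        exact ⟨r * (d + 2), by positivity, by rw [e, pow_mul]⟩
      hσ := fun x => by
        generalize d + 2 = n
        induction n with
        | zero => simp
        | succ n ih => rw [pow_succ', RingHom.mul_def, RingHom.comp_apply, ih, Φ.hσ, ← pow_mul,
            pow_succ] }

/-- the semilinear (anti-)automorphism of the matrix algebra -/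
def mat {ι : Type v} (M : Matrix ι ι k) : Matrix ι ι k :=
  if Φ.neg then (M.map Φ.σ)ᵀ else M.map Φ.σ

/-- the Frobenius map -/
def Fr (ι : Type v) [Fintype ι] [DecidableEq ι] : GL ι k →* GL ι k :=
  if Φ.neg then (invT k ι).comp (GeneralLinearGroup.map Φ.σ) else GeneralLinearGroup.map Φ.σ

/-- the general linear or unitary group -/
def G (ι : Type v) [Fintype ι] [DecidableEq ι] : Subgroup (GL ι k) :=
  (Φ.Fr ι).eqLocus (MonoidHom.id _)

section
variable {ι : Type v} [Fintype ι] [DecidableEq ι]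

theorem mem_G {g : GL ι k} : g ∈ Φ.G ι ↔ Φ.Fr ι g = g := Iff.rfl

theorem Fr_val (g : GL ι k) :
    (Φ.Fr ι g).val = Φ.mat (if Φ.neg then g⁻¹ else g).val := by
  unfold Fr mat
  split_ifs
  · change ((GeneralLinearGroup.map Φ.σ g)⁻¹).valᵀ = _
    rw [← map_inv]; rfl
  · rfl

theorem iterate_val (d : ℕ) (g : GL ι k) : ((Φ.Fr ι)^[d] g).val =
    if Φ.neg && d.bodd then ((g⁻¹).val.map ⇑(Φ.σ ^ d))ᵀ else g.val.map ⇑(Φ.σ ^ d) := by
  induction d generalizing g with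
  | zero => simp
  | succ d ih =>
    have h (M : Matrix ι ι k) : (M.map Φ.σ).map ⇑(Φ.σ ^ d) = M.map ⇑(Φ.σ ^ (d + 1)) := by
      rw [Matrix.map_map, pow_succ]; rfl
    rw [Function.iterate_succ_apply, ih, ← map_inv, Fr_val, Fr_val, mat, mat, Nat.bodd_succ]
    cases Φ.neg <;> cases d.bodd <;> simp [transpose_map, ← h, -map_inv]

theorem Fr_pow {d : ℕ} (hd : 0 < d) (g : GL ι k) : (Φ.pow d).Fr ι g = (Φ.Fr ι)^[d] g := by
  match d, hd with
  | 1, _ => rfl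
  | d + 2, _ =>
    refine Units.ext ?_
    rw [iterate_val, Fr_val, mat]
    by_cases h : (Φ.neg && d.bodd) = true <;> simp [pow, h]

end

theorem Q_pow {d : ℕ} (hd : 0 < d) : (Φ.pow d).Q = Φ.Q ^ d := by
  match d, hd with
  | 1, _ => exact (pow_one _).symm
  | d + 2, _ =>
    by_cases h0 : Φ.neg = true
    · cases h : d.bodd
      · have : Even (d + 2) := by
          rw [← Nat.not_odd_iff_even, Nat.odd_iff, Nat.mod_two_of_bodd]; simp [h]
        simp [Q, pow, h, h0, this.neg_pow]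
      · have : Odd (d + 2) := by rw [Nat.odd_iff, Nat.mod_two_of_bodd]; simp [h]
        simp [Q, pow, h, h0, this.neg_pow]
    · simp [Q, pow, h0]

variable [Big k]

theorem one_lt_q : 1 < Φ.q := by
  obtain ⟨r, h, e⟩ := Φ.hq
  exact e ▸ Nat.one_lt_pow h.ne' (Big.prime (k := k)).one_lt

instance (ι : Type v) [Fintype ι] [DecidableEq ι] : Finite (Φ.G ι) := by
  have h1 : 1 < Φ.q ^ 2 := Nat.one_lt_pow two_ne_zero Φ.one_lt_q
  have hf : {x : k | x ^ Φ.q ^ 2 = x}.Finite := by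
    refine (Polynomial.rootSet_finite (Polynomial.X ^ Φ.q ^ 2 - Polynomial.X : Polynomial k) k).subset
      fun x hx => ?_
    rw [Polynomial.mem_rootSet_of_ne (FiniteField.X_pow_card_sub_X_ne_zero k h1)]
    simpa [sub_eq_zero] using hx
  haveI := hf.to_subtype
  refine Finite.of_injective (fun (g : Φ.G ι) (i j : ι) => (⟨g.1.val i j, ?_⟩ :
    {x : k | x ^ Φ.q ^ 2 = x})) fun g h e => Subtype.ext (Units.ext ?_)
  · have := Φ.iterate_val 2 g.1
    rw [Function.iterate_fixed g.2] at this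
    have h2 := congrFun (congrFun this i) j
    simp only [Nat.bodd_two, Bool.and_false, Bool.false_eq_true, ↓reduceIte, map_apply] at h2
    exact ((Φ.pow 2).hσ _).symm.trans h2.symm
  · ext i j
    exact congrArg Subtype.val (congrFun (congrFun e i) j)

noncomputable instance (ι : Type v) [Fintype ι] [DecidableEq ι] : Fintype (Φ.G ι) :=
  Fintype.ofFinite _

end Frob

/-! ### Frobenius stable products of matrix algebras -/

/-- the simple factors -/
abbrev Om {J : Type v} (d : J → ℕ) : Type v := Σ j, Fin (d j)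

/-- the inverse of the Frobenius permutation of the simple factors -/
abbrev prev {J : Type v} {d : J → ℕ} (x : Om d) : Om d := ⟨x.1, (finRotate (d x.1)).symm x.2⟩

section Dec

variable {ι : Type} [Fintype ι] [DecidableEq ι] {J : Type v} [Fintype J] [DecidableEq J]
  {d m δ : J → ℕ}

/-- `1 ⊗ A` -/
def kr (r : ℕ) {n : ℕ} (A : Matrix (Fin n) (Fin n) k) : Matrix (Fin r × Fin n) (Fin r × Fin n) k :=
  (1 : Matrix (Fin r) (Fin r) k) ⊗ₖ A

theorem kr_one (r n : ℕ) : kr r (1 : Matrix (Fin n) (Fin n) k) = 1 := one_kronecker_one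
theorem kr_mul (r : ℕ) {n : ℕ} (A B : Matrix (Fin n) (Fin n) k) :
    kr r (A * B) = kr r A * kr r B := by rw [kr, kr, kr, ← mul_kronecker_mul, Matrix.mul_one]
theorem kr_add (r : ℕ) {n : ℕ} (A B : Matrix (Fin n) (Fin n) k) :
    kr r (A + B) = kr r A + kr r B := kronecker_add _ _ _
theorem kr_smul (r : ℕ) {n : ℕ} (c : k) (A : Matrix (Fin n) (Fin n) k) :
    kr r (c • A) = c • kr r A := kronecker_smul _ _ _

/-- block diagonal matrices with multiplicities -/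
def bdg (δ : J → ℕ) (a : Π x : Om d, Matrix (Fin (m x.1)) (Fin (m x.1)) k) :
    Matrix (Σ x : Om d, Fin (δ x.1) × Fin (m x.1)) (Σ x : Om d, Fin (δ x.1) × Fin (m x.1)) k :=
  blockDiagonal' fun x => kr (δ x.1) (a x)

omit [Fintype J] in
theorem bdg_add (a b : Π x : Om d, Matrix (Fin (m x.1)) (Fin (m x.1)) k) :
    bdg δ (a + b) = bdg δ a + bdg δ b := by
  rw [bdg, bdg, bdg, ← blockDiagonal'_add]; congr 1; funext x; exact kr_add _ _ _

omit [Fintype J] in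
theorem bdg_smul (c : k) (a : Π x : Om d, Matrix (Fin (m x.1)) (Fin (m x.1)) k) :
    bdg δ (c • a) = c • bdg δ a := by
  rw [bdg, bdg, ← blockDiagonal'_smul]; congr 1; funext x; exact kr_smul _ _ _

omit [Fintype J] in
theorem bdg_one : bdg δ (1 : Π x : Om d, Matrix (Fin (m x.1)) (Fin (m x.1)) k) = 1 := by
  rw [bdg, ← blockDiagonal'_one]; congr 1; funext x; exact kr_one _ _

theorem bdg_mul (a b : Π x : Om d, Matrix (Fin (m x.1)) (Fin (m x.1)) k) :
    bdg δ (a * b) = bdg δ a * bdg δ b := by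
  rw [bdg, bdg, bdg, ← blockDiagonal'_mul]; congr 1; funext x; exact kr_mul _ _ _

/-- the block diagonal embedding with multiplicities, in the basis `h` -/
noncomputable def emb (e : (Σ x : Om d, Fin (δ x.1) × Fin (m x.1)) ≃ ι) (h : GL ι k) :
    (Π x : Om d, Matrix (Fin (m x.1)) (Fin (m x.1)) k) →ₐ[k] Matrix ι ι k :=
  AlgHom.ofLinearMap
    { toFun a := h.val * reindex e e (bdg δ a) * (h⁻¹).val
      map_add' a b := by
        rw [bdg_add, ← Matrix.add_mul, ← Matrix.mul_add]; rfl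
      map_smul' c a := by
        rw [bdg_smul, RingHom.id_apply, ← Matrix.smul_mul, ← Matrix.mul_smul]; rfl }
    (by simp [bdg_one])
    fun a b => by
      simp only [LinearMap.coe_mk, AddHom.coe_mk, bdg_mul, reindex_apply, Matrix.mul_assoc,
        Units.inv_mul_cancel_left]
      rw [← Matrix.mul_assoc (submatrix _ _ _), submatrix_mul_equiv]

theorem emb_apply (e : (Σ x : Om d, Fin (δ x.1) × Fin (m x.1)) ≃ ι) (h : GL ι k)
    (a : Π x : Om d, Matrix (Fin (m x.1)) (Fin (m x.1)) k) : emb e h a =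
      h.val * reindex e e (bdg δ a) * (h⁻¹).val := rfl

variable (ι d m δ) in
/-- a Frobenius stable product of matrix algebras -/
structure Dec (Φ : Frob k) where
  e : (Σ x : Om d, Fin (δ x.1) × Fin (m x.1)) ≃ ι
  h : GL ι k
  pos : ∀ j, 0 < d j
  fr : ∀ a, Φ.mat (emb e h a) = emb e h fun x => Φ.mat (a (prev x))

variable {Φ : Frob k} (D : Dec ι d m δ Φ)

/-- the embedding of the units -/
noncomputable def Dec.U : (Π x : Om d, GL (Fin (m x.1)) k) →* GL ι k :=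
  (Units.map (emb D.e D.h).toMonoidHom).comp MulEquiv.piUnits.symm.toMonoidHom

theorem Dec.U_val (a : Π x : Om d, GL (Fin (m x.1)) k) :
    (D.U a).val = emb D.e D.h fun x => (a x).val := rfl

theorem Dec.Fr_U (a : Π x : Om d, GL (Fin (m x.1)) k) :
    Φ.Fr ι (D.U a) = D.U fun x => Φ.Fr _ (a (prev x)) := by
  refine Units.ext ?_
  rw [Φ.Fr_val, D.U_val]
  simp only [Φ.Fr_val]
  split_ifs
  · rw [← map_inv, D.U_val, D.fr]; rfl
  · rw [D.U_val, D.fr]

/-- the components of the embedding of the finite groups -/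
noncomputable def spread (Φ : Frob k) (d m : J → ℕ) :
    (Π j, (Φ.pow (d j)).G (Fin (m j))) →* Π x : Om d, GL (Fin (m x.1)) k :=
  { toFun y x := (Φ.Fr _)^[x.2] (y x.1).1
    map_one' := funext fun _ => iterate_map_one _ _
    map_mul' _ _ := funext fun _ => iterate_map_mul _ _ _ _ }

omit [Fintype J] [DecidableEq J] in
theorem spread_apply (y : Π j, (Φ.pow (d j)).G (Fin (m j))) (x : Om d) :
    spread Φ d m y x = (Φ.Fr _)^[x.2] (y x.1).1 := rfl

/-- the embedding of the finite groups -/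
noncomputable def Dec.Ψ : (Π j, (Φ.pow (d j)).G (Fin (m j))) →* Φ.G ι :=
  (D.U.comp (spread Φ d m)).codRestrict _ fun y => by
    rw [Φ.mem_G, MonoidHom.comp_apply, D.Fr_U]
    congr 1
    funext ⟨j, i⟩
    rw [spread_apply, spread_apply, ← Function.iterate_succ_apply' (Φ.Fr _)]
    obtain ⟨n, hn⟩ := Nat.exists_eq_succ_of_ne_zero (D.pos j).ne'
    have h0 : (Φ.Fr _)^[d j] (y j).1 = (y j).1 := (Φ.Fr_pow (D.pos j) _).symm.trans (y j).2
    have key : ∀ {n : ℕ} (i : Fin n), (finRotate n i : ℕ) = (i + 1) % n := fun {n} i => by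
      cases n with
      | zero => exact i.elim0
      | succ n => rw [finRotate_apply, Fin.val_add, Fin.val_one', Nat.add_mod_mod]
    have h1 := key ((finRotate (d j)).symm i)
    rw [Equiv.apply_symm_apply] at h1
    change (Φ.Fr _)^[((finRotate (d j)).symm i : ℕ) + 1] (y j).1 = (Φ.Fr _)^[i] (y j).1
    rw [h1, Function.IsPeriodicPt.iterate_mod_apply h0]

theorem Dec.Ψ_val (y : Π j, (Φ.pow (d j)).G (Fin (m j))) :
    (D.Ψ y).1.val = emb D.e D.h fun x => ((Φ.Fr _)^[x.2] (y x.1).1).val := rfl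

end Dec

/-- the special linear or special unitary group -/
def SG (Φ : Frob k) (ι : Type) [Fintype ι] [DecidableEq ι] : Subgroup (Φ.G ι) :=
  (GeneralLinearGroup.det.comp (Φ.G ι).subtype).ker

/-- scalar matrices -/
def scal (ι : Type v) [Fintype ι] [DecidableEq ι] : kˣ →* GL ι k :=
  Units.map (Matrix.scalar ι).toMonoidHom

/-- two factors: degrees -/
abbrev d2 (e : ℕ) : Bool → ℕ := fun b => cond b e 1

/-- two factors: sizes -/
abbrev m2 (n j : ℕ) : Bool → ℕ := fun b => cond b j n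

/-- the embedding of two factors -/
noncomputable def Dec.f2 {ι : Type} [Fintype ι] [DecidableEq ι] {Φ : Frob k} {e n j : ℕ}
    (D : Dec ι (d2 e) (m2 n j) (fun _ => 1) Φ) :
    Φ.G (Fin n) × (Φ.pow e).G (Fin j) →* Φ.G ι :=
  D.Ψ.comp
    { toFun y b := match b with
        | false => y.1
        | true => y.2
      map_one' := funext fun b => by cases b <;> rfl
      map_mul' _ _ := funext fun b => by cases b <;> rfl }

/-! ### arithmetic of the tori -/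

noncomputable scoped instance : DecidableEq kˣ := Classical.decEq _

variable (Φ : Frob k)

/-- the Frobenius map on the units -/
noncomputable def fr : kˣ → kˣ := fun x => x ^ Φ.Q

/-- the Frobenius orbits -/
abbrev I : Type u := GLn.Dyn.Orb (fr Φ)

noncomputable instance : DecidableEq (I Φ) := Classical.decEq _

/-- the orbit of an element -/
noncomputable abbrev io (x : kˣ) : I Φ := GLn.Dyn.omk (fr Φ) x

/-- the cyclic torus of order `|Q ^ m - 1|` (`0 < m`) -/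
noncomputable def Mk (m : ℕ) : Finset kˣ := by
  classical exact if h : {x : kˣ | x ^ Φ.Q ^ m = x}.Finite then h.toFinset else ∅

/-- `p`-part of `Q ^ m - 1` -/
def nl (p m : ℕ) : ℕ := p ^ (Φ.Q ^ m - 1).natAbs.factorization p

/-- the order of `Q` modulo `p` -/
noncomputable def e0 (p : ℕ) : ℕ := orderOf (Φ.Q : ZMod p)

variable {Φ}

/-- product of an orbit with an element of `Mk 1` -/
noncomputable def mulI (z : kˣ) (o : I Φ) : I Φ := io Φ (z * o.rep)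

/-- the `p'`-part of an orbit -/
noncomputable def rpI (p : ℕ) (o : I Φ) : I Φ := io Φ (pRegPart p o.rep)

/-- `p'`-orbits -/
def Reg (p : ℕ) (o : I Φ) : Prop := ¬ p ∣ orderOf o.rep

/-- the order of `Q ^ per o` modulo `p` -/
noncomputable def ee (p : ℕ) (o : I Φ) : ℕ := e0 Φ p / Nat.gcd o.per (e0 Φ p)

/-- a nonzero element as a unit -/
noncomputable def un (a : k) : kˣ := by
  classical exact if h : a = 0 then 1 else Units.mk0 a h

/-- the eigenvalues -/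
noncomputable def eig {ι : Type v} [Fintype ι] [DecidableEq ι] (g : GL ι k) : Multiset kˣ :=
  g.val.charpoly.roots.map un

variable (Φ) in
/-- the type of an element -/
noncomputable def typ {ι : Type v} [Fintype ι] [DecidableEq ι] (g : GL ι k) (o : I Φ) :
    Multiset ℕ := jt (g.val - (o.rep : k) • 1)

/-! ### multipartitions -/

open GLn (Bt sz rc ex pm S)

variable (Φ) in
/-- multipartitions -/
abbrev MP (N : ℕ) : Type u := I Φ →₀ Bt N

variable {N : ℕ}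

/-- a finitely supported function -/
noncomputable def fsp (f : I Φ → Bt N) : MP Φ N := by
  classical exact if h : (Function.support f).Finite then Finsupp.ofSupportFinite f h else 0

/-- the degree -/
noncomputable def deg (μ : MP Φ N) : ℕ := μ.sum fun o X => o.per * sz N X.1

/-- the action of `Mk 1` -/
noncomputable def act (z : kˣ) (μ : MP Φ N) : MP Φ N := fsp fun φ => μ (mulI z⁻¹ φ)

/-- supported on `p'`-orbits -/
def Basic (p : ℕ) (μ : MP Φ N) : Prop := ∀ o ∈ μ.support, Reg p o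

/-- the size of the part of `μ` over the `p'`-orbit `ψ` -/
noncomputable def nn (p : ℕ) (μ : MP Φ N) (ψ : I Φ) : ℕ :=
  μ.sum fun φ X => if rpI p φ = ψ then φ.per / ψ.per * sz N X.1 else 0

/-- the core data -/
noncomputable def cd (p : ℕ) (μ : MP Φ N) (ψ : I Φ) : ℕ × (ℕ → ℕ) := by
  classical exact if Reg p ψ then (nn p μ ψ, rc (ee p ψ) (μ ψ).1) else 0

/-- the local weight -/
noncomputable def ww (p : ℕ) (μ : MP Φ N) (ψ : I Φ) : ℕ := by
  classical exact if Reg p ψ then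
    (nn p μ ψ + tri N - base (clsF (ee p ψ) (μ ψ).1)) / ee p ψ else 0

/-- the weight -/
noncomputable def W (p : ℕ) (μ : MP Φ N) : ℕ := ∑ᶠ ψ, ww p μ ψ

/-- `Y` arises from `X` by moving a bead `r` steps down -/
def Mv (r : ℕ) (X Y : Bt N) : Prop :=
  ∃ x ∈ X.1, r ≤ x ∧ x - r ∉ X.1 ∧ Y.1 = insert (x - r) (X.1.erase x)

/-- monomials in several families of power sums -/
def pmon {R : Type*} [CommRing R] (p : I Φ → ℕ → R) (τ : Multiset (I Φ × ℕ)) : R :=
  (τ.map fun x => p x.1 x.2).prod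

/-- products of Schur functions -/
noncomputable def schur {R : Type*} [CommRing R] [Algebra ℂ R] (p : I Φ → ℕ → R) (μ : MP Φ N) :
    R := μ.prod fun o X => S (p o) N X.1

/-! ### the Ennola algebra -/

variable (Φ) in
/-- the Ennola algebra; `X (o, r)` is the `r`-th power sum of the orbit `o` (`X (o, 0)` is junk) -/
abbrev A : Type u := MvPolynomial (I Φ × ℕ) ℂ

variable (Φ) in
/-- the grading -/
noncomputable def wt (x : I Φ × ℕ) : ℕ := x.1.per * x.2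

/-- homogeneous elements -/
abbrev Hom (n : ℕ) (a : A Φ) : Prop := MvPolynomial.IsWeightedHomogeneous (wt Φ) a n

/-- the part of a monomial over an orbit -/
noncomputable def rho (s : I Φ × ℕ →₀ ℕ) (o : I Φ) : Multiset ℕ :=
  ((Finsupp.toMultiset s).filter fun x => x.1 = o).map Prod.snd

/-- the value on the elements of type `Λ` -/
noncomputable def ev (Λ : I Φ → Multiset ℕ) : A Φ →ₗ[ℂ] ℂ :=
  (MvPolynomial.basisMonomials (I Φ × ℕ) ℂ).constr ℂ fun s =>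
    ∏ᶠ o, ((gr ((Φ.Q : ℚ) ^ o.per) (rho s o) (Λ o) : ℚ) : ℂ)

/-- the characteristic map -/
noncomputable def ch (ι : Type) [Fintype ι] [DecidableEq ι] : A Φ →ₗ[ℂ] (Φ.G ι → ℂ) :=
  LinearMap.pi fun g => ev (typ Φ g.1)

/-- the norms of the variables -/
noncomputable def nu (x : I Φ × ℕ) : ℂ := (x.2 : ℂ) / ((Φ.Q ^ wt Φ x - 1).natAbs : ℂ)

/-- the inner product -/
noncomputable def ipA (a b : A Φ) : ℂ := ∑ s ∈ a.support,
  a.coeff s * conj (b.coeff s) * s.prod fun x i => nu x ^ i * (i.factorial : ℂ)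

/-- pointwise multiplication by a multiplicative function of the eigenvalues -/
noncomputable def mu (F : kˣ → ℂ) : A Φ →ₐ[ℂ] A Φ :=
  MvPolynomial.aeval fun x => ((∏ t ∈ x.1.pts, F t) ^ x.2) • MvPolynomial.X x

/-- `p`-regular truncation -/
noncomputable def dd (p : ℕ) : A Φ →ₐ[ℂ] A Φ := mu fun α => if p ∣ orderOf α then 0 else 1

/-- the adjoint of the multiplication by the trivial characters (up to signs) -/
noncomputable def Hp : A Φ →ₐ[ℂ] A Φ :=
  MvPolynomial.aeval fun x => MvPolynomial.X x + MvPolynomial.C (((Φ.Q : ℂ) ^ wt Φ x - 1)⁻¹)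

variable [Big k]

/-- discrete logarithm -/
noncomputable def lgN (M : ℤ) (ξ : kˣ) : ℤ := Classical.epsilon fun a : ℤ =>
  (Big.th ξ : ℂ) = Complex.exp (2 * Real.pi * Complex.I * a / M)

variable (Φ)

/-- the perfect symmetric pairing on `Mk m` -/
noncomputable def pr (m : ℕ) (ξ : kˣ) : kˣ →* ℂˣ := Big.th ^ lgN (Φ.Q ^ m - 1) ξ

/-- the linear characters (`z ∈ Mk 1`) -/
noncomputable def lin (ι : Type) [Fintype ι] [DecidableEq ι] (z : kˣ) : Φ.G ι →* ℂˣ :=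
  (pr Φ 1 z).comp (GeneralLinearGroup.det.comp (Φ.G ι).subtype)

/-- the Deligne-Lusztig characters of the cyclic tori (`ξ ∈ Mk m`) -/
noncomputable def P (m : ℕ) (ξ : kˣ) : A Φ :=
  ∑ t ∈ Mk Φ m, (pr Φ m ξ t : ℂ) • MvPolynomial.X (io Φ t, m / (io Φ t).per)

/-- the trivial characters -/
noncomputable def hh (n : ℕ) : A Φ := ex (fun m => P Φ m 1) n

/-- the integral form -/
noncomputable def ZZ : Subring (A Φ) :=
  Subring.closure {a | ∃ c, 0 < c ∧ ∃ ξ ∈ Mk Φ c, ∃ m, a = ex (fun r => P Φ (c * r) ξ) m}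

variable {Φ}

/-- the power sums -/
noncomputable def pp (o : I Φ) (r : ℕ) : A Φ := P Φ (o.per * r) o.rep

/-- the irreducible characters up to sign -/
noncomputable def chi (μ : MP Φ N) : A Φ := schur pp μ

/-- the irreducible characters up to sign -/
noncomputable def Ch (ι : Type) [Fintype ι] [DecidableEq ι] (μ : MP Φ N) : Φ.G ι → ℂ :=
  ch ι (chi μ)

/-- the Gram matrix of the `p`-regular truncations of the power sums -/
noncomputable def gram (p : ℕ) (o : I Φ) (m : ℕ) (o' : I Φ) (m' : ℕ) : ℂ :=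
  if o.per * m = o'.per * m' ∧ rpI p o = rpI p o' then
    ((o.per * m : ℕ) : ℂ) / (((rpI p o).per * nl Φ p (o.per * m) : ℕ) : ℂ) else 0

/-! ### the statements -/

def StHL : Prop := ∀ Q : ℚ, Q ≠ 0 → (∀ j, 0 < j → Q ^ j ≠ 1) → HL Q (gr Q)

variable (k)

def StLang : Prop := ∀ (Φ : Frob k) (ι : Type) [Fintype ι] [DecidableEq ι] (a : GL ι k),
  ∃ h, a = h⁻¹ * Φ.Fr ι h

def StEmb : Prop := ∀ (Φ : Frob k) (ι : Type) [Fintype ι] [DecidableEq ι] (J : Type) [Fintype J]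
  [DecidableEq J] (d m : J → ℕ), (∀ j, 0 < d j) → Fintype.card ι = ∑ j, d j * m j →
  Nonempty (Dec ι d m (fun _ => 1) Φ)

def StGCT : Prop := ∀ (Φ : Frob k) (ι : Type) [Fintype ι] [DecidableEq ι] (p : ℕ), p.Prime →
  p ≠ ringChar k → ∀ R : Subgroup (Φ.G ι), IsPGroup p R →
  ∃ (r : ℕ) (d m δ : Fin r → ℕ) (D : Dec ι d m δ Φ), (∀ j, 0 < m j) ∧ (∀ j, ∃ a, δ j = p ^ a) ∧
    (∀ M, M ∈ (emb D.e D.h).range ↔ ∀ x ∈ R, Commute M x.1.val) ∧
    ∀ j, (p : ℤ) ∣ Φ.Q ^ d j - 1 ∨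
      ∀ x ∈ R, ∀ i, emb D.e D.h (Pi.single ⟨j, i⟩ 1) * x.1.val = emb D.e D.h (Pi.single ⟨j, i⟩ 1)

def StUni : Prop := ∀ (Φ : Frob k) (ι : Type) [Fintype ι] [DecidableEq ι],
  ∀ l ∈ ptn (Fintype.card ι), (Nat.card {u : Φ.G ι // jt (u.1.val - 1) = l} : ℚ) * |aa Φ.Q l| =
    Nat.card (Φ.G ι)

def StMeas : Prop := ∀ (Φ : Frob k) (ι : Type) [Fintype ι] [DecidableEq ι]
  (Λ : I Φ →₀ Multiset ℕ), (∀ o, 0 ∉ Λ o) →
  (Λ.sum fun o l => o.per * l.sum) = Fintype.card ι →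
  (Nat.card {g : Φ.G ι // typ Φ g.1 = Λ} : ℚ) * (Λ.prod fun o l => |aa (Φ.Q ^ o.per) l|) =
    Nat.card (Φ.G ι)

def StIso : Prop := ∀ (Φ : Frob k) (ι : Type) [Fintype ι] [DecidableEq ι] (a b : A Φ),
  Hom (Fintype.card ι) a → classInner (ch ι a) (ch ι b) = ipA a b

def StWeil : Prop := ∀ (Φ : Frob k) (ι κ : Type) [Fintype ι] [DecidableEq ι] [Fintype κ]
  [DecidableEq κ] (ψ : Φ.G κ → ℂ), IsGeneralizedCharacter _ ψ →
  IsGeneralizedCharacter _ fun g : Φ.G ι => (Nat.card (Φ.G κ) : ℂ)⁻¹ * ∑ h : Φ.G κ,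
    (Φ.Q : ℂ) ^ (∑ᶠ o : I Φ, o.per * ipc (typ Φ g.1 o) (typ Φ h.1 o)) * ψ h

def StTheta : Prop := ∀ (Φ : Frob k) (ι κ : Type) [Fintype ι] [DecidableEq ι] [Fintype κ]
  [DecidableEq κ] (a : A Φ), Hom (Fintype.card κ) a → ∀ g : Φ.G ι,
  (Nat.card (Φ.G κ) : ℂ)⁻¹ * ∑ h : Φ.G κ,
    (Φ.Q : ℂ) ^ (∑ᶠ o : I Φ, o.per * ipc (typ Φ g.1 o) (typ Φ h.1 o)) * ch κ a h =
  (Φ.Q.sign : ℂ) ^ Fintype.card κ * ∑ j ∈ range (Fintype.card ι + 1), ch ι (hh Φ j * Hp a) g

/-- elementary properties of `ch` -/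
structure StCh : Prop where
  hom : ∀ (Φ : Frob k) (ι : Type) [Fintype ι] [DecidableEq ι] (n : ℕ) (a : A Φ), Hom n a →
    n ≠ Fintype.card ι → ch ι a = 0
  cls : ∀ (Φ : Frob k) (ι : Type) [Fintype ι] [DecidableEq ι] (a : A Φ), IsClassFunction _ (ch ι a)
  mul : ∀ (Φ : Frob k) (ι : Type) [Fintype ι] [DecidableEq ι] (F : kˣ → ℂ) (a : A Φ) (g : Φ.G ι),
    ch ι (mu F a) g = ((eig g.1).map F).prod * ch ι a g
  reg : ∀ (Φ : Frob k) (ι : Type) [Fintype ι] [DecidableEq ι] (p : ℕ), p.Prime → p ≠ ringChar k →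
    ∀ a : A Φ, ch ι (dd p a) = pRegularPart p (ch ι a)
  one : ∀ (Φ : Frob k) (ι : Type) [Fintype ι] [DecidableEq ι], ch ι (hh Φ (Fintype.card ι)) = 1
  prim : ∀ (Φ : Frob k) (ι : Type) [Fintype ι] [DecidableEq ι] (m : ℕ) (ξ : kˣ) (g : Φ.G ι), 0 < m →
    ch ι (P Φ m ξ) g ≠ 0 → ∃ t ∈ Mk Φ m, ∀ α ∈ eig g.1, io Φ α = io Φ t
  uni : ∀ (Φ : Frob k) (ι : Type) [Fintype ι] [DecidableEq ι] (ξ : kˣ) (u : Φ.G ι),
    0 < Fintype.card ι → jt (u.1.val - 1) = {Fintype.card ι} → ch ι (P Φ (Fintype.card ι) ξ) u = 1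

/-- inner products in the Ennola algebra -/
structure StFock : Prop where
  mon : ∀ (Φ : Frob k) (τ τ' : Multiset (I Φ × ℕ)), (∀ x ∈ τ, 0 < x.2) → (∀ x ∈ τ', 0 < x.2) →
    ipA (pmon pp τ) (pmon pp τ') =
      if τ = τ' then ∏ x ∈ τ.toFinset, (x.2 : ℂ) ^ τ.count x * (τ.count x).factorial else 0
  chi : ∀ (Φ : Frob k) (N : ℕ) (μ ν : MP Φ N), ipA (chi μ) (chi ν) = if μ = ν then 1 else 0
  gram : ∀ (Φ : Frob k) (p : ℕ), p.Prime → p ≠ ringChar k → ∀ (o o' : I Φ) (m m' : ℕ), 0 < m →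
    0 < m' → ipA (dd p (pp o m)) (pp o' m') = gram p o m o' m'

def StInt : Prop := ∀ (Φ : Frob k) (ι : Type) [Fintype ι] [DecidableEq ι], ∀ a ∈ ZZ Φ,
  IsGeneralizedCharacter _ (ch ι a)

/-- the character table -/
structure StIrr : Prop where
  irr : ∀ (Φ : Frob k) (ι : Type) [Fintype ι] [DecidableEq ι] (N : ℕ) (μ : MP Φ N),
    deg μ = Fintype.card ι → ∃ χ : IrrCharacter (Φ.G ι), Ch ι μ = χ.1 ∨ Ch ι μ = -χ.1
  all : ∀ (Φ : Frob k) (ι : Type) [Fintype ι] [DecidableEq ι] (N : ℕ), Fintype.card ι ≤ N →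
    ∀ χ : IrrCharacter (Φ.G ι), ∃ μ : MP Φ N, deg μ = Fintype.card ι ∧
      (Ch ι μ = χ.1 ∨ Ch ι μ = -χ.1)
  orth : ∀ (Φ : Frob k) (ι : Type) [Fintype ι] [DecidableEq ι] (N : ℕ) (μ ν : MP Φ N),
    deg μ = Fintype.card ι → classInner (Ch ι μ) (Ch ι ν) = if μ = ν then 1 else 0
  isConj : ∀ (Φ : Frob k) (ι : Type) [Fintype ι] [DecidableEq ι] (g h : Φ.G ι),
    typ Φ g.1 = typ Φ h.1 → IsConj g h
  tens : ∀ (Φ : Frob k) (ι : Type) [Fintype ι] [DecidableEq ι] (N : ℕ) (μ : MP Φ N),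
    ∀ z ∈ Mk Φ 1, Ch ι (act z μ) = fun g => lin Φ ι z g * Ch ι μ g

/-- the classes are unions of blocks, basic sets -/
structure StCls : Prop where
  cls : ∀ (Φ : Frob k) (ι : Type) [Fintype ι] [DecidableEq ι] (p : ℕ), p.Prime → p ≠ ringChar k →
    ∀ (N : ℕ) (μ ν : MP Φ N), Fintype.card ι ≤ N → deg μ = Fintype.card ι →
    deg ν = Fintype.card ι → classInner (pRegularPart p (Ch ι μ)) (Ch ι ν) ≠ 0 → cd p μ = cd p ν
  ind : ∀ (Φ : Frob k) (ι : Type) [Fintype ι] [DecidableEq ι] (p : ℕ), p.Prime → p ≠ ringChar k →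
    ∀ N : ℕ, LinearIndependent ℂ fun ν : {ν : MP Φ N // Basic p ν ∧ deg ν = Fintype.card ι} =>
      pRegularPart p (Ch ι ν.1)
  span : ∀ (Φ : Frob k) (ι : Type) [Fintype ι] [DecidableEq ι] (p : ℕ), p.Prime →
    p ≠ ringChar k → ∀ (N : ℕ) (μ : MP Φ N), Fintype.card ι ≤ N → deg μ = Fintype.card ι →
    pRegularPart p (Ch ι μ) ∈ Submodule.span ℂ {f | ∃ ν : MP Φ N, Basic p ν ∧
      deg ν = Fintype.card ι ∧ cd p ν = cd p μ ∧ f = pRegularPart p (Ch ι ν)}

/-- the character formula on `p`-sections -/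
def StRes : Prop := ∀ (Φ : Frob k) (ι : Type) [Fintype ι] [DecidableEq ι] (p : ℕ), p.Prime →
  p ≠ ringChar k → ∀ (e n j : ℕ) (D : Dec ι (d2 e) (m2 n j) (fun _ => 1) Φ) (ξ₀ ξ₁ : kˣ),
  (∃ a, ξ₀ ^ p ^ a = 1) → (∃ a, ξ₁ ^ p ^ a = 1) → ξ₀ ∈ Mk Φ 1 → (io Φ ξ₁).per = e → ξ₀ ≠ ξ₁ →
  ∃ R : A Φ →ₐ[ℂ] A Φ ⊗[ℂ] A (Φ.pow e),
    (∀ M, 0 < M → ∀ s ∈ Mk Φ M, ¬ p ∣ orderOf s → R (P Φ M s) = dd p (P Φ M s) ⊗ₜ 1 +
      if e ∣ M then ∑ i ∈ range e, 1 ⊗ₜ dd p (P (Φ.pow e) (M / e) (s ^ Φ.Q ^ i)) else 0) ∧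
    ∀ (a : A Φ) (x₀ y₀ : Φ.G (Fin n)) (x₁ y₁ : (Φ.pow e).G (Fin j)), x₀.1 = scal _ ξ₀ →
      x₁.1 = scal _ ξ₁ → ¬ p ∣ orderOf y₀ → ¬ p ∣ orderOf y₁ →
      ch ι a (D.f2 (x₀ * y₀, x₁ * y₁)) = LinearMap.mul' ℂ ℂ
        (TensorProduct.map (ev (typ Φ y₀.1)) (ev (typ (Φ.pow e) y₁.1)) (R a))

/-- removal of an `r`-hook -/
def StPeel : Prop := ∀ (Φ : Frob k) (ι : Type) [Fintype ι] [DecidableEq ι] (p : ℕ), p.Prime →
  p ≠ ringChar k → ∀ (e n j : ℕ) (D : Dec ι (d2 e) (m2 n j) (fun _ => 1) Φ) (ξ₁ : kˣ),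
  (∃ a, ξ₁ ^ p ^ a = 1) → (io Φ ξ₁).per = e → ξ₁ ≠ 1 →
  ∀ (N : ℕ) (μ : MP Φ N) (ψ : I Φ) (r : ℕ) (Y : Bt N), Fintype.card ι ≤ N → Basic p μ →
  deg μ = Fintype.card ι → 0 < r → Nat.lcm ψ.per e = ψ.per * r → e * j = ψ.per * r →
  Mv r (μ ψ) Y → ∀ x₁ : (Φ.pow e).G (Fin j), x₁.1 = scal _ ξ₁ →
  ∃ Z, Mv r (μ ψ) Z ∧ ∑ y₀, ∑ y₁, Ch ι μ (D.f2 (y₀, x₁ * y₁)) *
    conj (pRegularPart p (Ch (Fin n) (μ.update ψ Z)) y₀) *
    conj (pRegularPart p (ch (Fin j) (P (Φ.pow e) j ψ.rep)) y₁) ≠ 0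

/-- splitting of a single family -/
def StSplit : Prop := ∀ (Φ : Frob k) (ι : Type) [Fintype ι] [DecidableEq ι] (p : ℕ), p.Prime →
  p ≠ ringChar k → ∀ (n j : ℕ) (D : Dec ι (d2 1) (m2 n j) (fun _ => 1) Φ) (ξ₀ ξ₁ : kˣ),
  (∃ a, ξ₀ ^ p ^ a = 1) → (∃ a, ξ₁ ^ p ^ a = 1) → ξ₀ ∈ Mk Φ 1 → ξ₁ ∈ Mk Φ 1 → ξ₀ ≠ ξ₁ →
  ∀ (N : ℕ) (ψ : I Φ) (X : Bt N) (w₀ w₁ : ℕ), Fintype.card ι ≤ N → Reg p ψ →
  sz N X.1 = w₀ + w₁ → n = ψ.per * w₀ → j = ψ.per * w₁ →
  ∀ (x₀ : Φ.G (Fin n)) (x₁ : Φ.G (Fin j)), x₀.1 = scal _ ξ₀ → x₁.1 = scal _ ξ₁ →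
  ∃ X₀ X₁ : Bt N, sz N X₀.1 = w₀ ∧ sz N X₁.1 = w₁ ∧
    ∑ y₀ : Φ.G (Fin n), ∑ y₁ : Φ.G (Fin j),
      Ch ι (Finsupp.single ψ X) (D.f2 (x₀ * y₀, x₁ * y₁)) *
      conj (pRegularPart p (Ch (Fin n) (Finsupp.single ψ X₀)) y₀) *
      conj (pRegularPart p (Ch (Fin j) (Finsupp.single ψ X₁)) y₁) ≠ 0

/-- the main theorem -/
def StMain : Prop := ∀ (Φ : Frob k) (ι : Type) [Fintype ι] [DecidableEq ι] (p : ℕ) [Fact p.Prime],
  p ≠ ringChar k → ∀ M : Ideal AlgInt, IsPModular p M → ∀ B : Set (IrrCharacter (SG Φ ι)),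
  IsPBlock M B → ∀ D, IsDefectGroup p M B D → ∀ s, SectionalPRankLE p s D → blockRank p B ≤ p ^ s

noncomputable instance (F : Type u) [Field F] [Fintype F] : Big (AlgebraicClosure F) where
  tors x := by
    obtain ⟨N, h, e⟩ := GLn.BL.exists_pow_eq_one_of_isAlgebraic (F := F) x
    exact isOfFinOrder_iff_pow_eq_one.2 ⟨N, Nat.pos_of_ne_zero fun h0 => h (h0 ▸ dvd_zero _),
      Units.ext (by simpa using e)⟩
  prime := by
    rw [← Algebra.ringChar_eq F]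
    exact CharP.char_is_prime F _
  th := (GLn.BL.exists_injective_hom F (AlgebraicClosure F)).choose
  th_inj := (GLn.BL.exists_injective_hom F (AlgebraicClosure F)).choose_spec

omit [Big k] in
/-- the identification with the unitary groups of the statement -/
def StSU : Prop := ∀ (F : Type u) [Field F] [Fintype F] (q n : ℕ), Fintype.card F = q ^ 2 →
  ∃ Φ : Frob (AlgebraicClosure F), Nonempty (SU n F q ≃* SG Φ (Fin n))

end Cfsg.GUn
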