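import Cfsg.Agent.GUn.Fock
import Cfsg.Agent.GUn.Gen

/-! Evaluation of the Ennola algebra on types. -/

set_option autoImplicit false

namespace Cfsg.GUn

open Finset GLn MvPolynomial SymCh

universe u

variable {k : Type u} [Field k] {Φ : Frob k} {Λ : I Φ → Multiset ℕ}

/-- the variables of an orbit -/
noncomputable def xo (o : I Φ) (r : ℕ) : A Φ := X (o, r)

/-- the Green polynomials of an orbit -/
noncomputable abbrev go (o : I Φ) (ρ l : Multiset ℕ) : ℂ :=
  ((gr ((Φ.Q : ℚ) ^ o.per) ρ l : ℚ) : ℂ)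

/-- the part of a multiset of variables over an orbit -/
noncomputable def fb (τ : Multiset (I Φ × ℕ)) (o : I Φ) : Multiset ℕ :=
  (τ.filter fun x => x.1 = o).map Prod.snd

theorem rho_eq (s : I Φ × ℕ →₀ ℕ) (o : I Φ) : rho s o = fb (Finsupp.toMultiset s) o := rfl

theorem fb_add (τ σ : Multiset (I Φ × ℕ)) (o : I Φ) : fb (τ + σ) o = fb τ o + fb σ o := by
  simp [fb]

theorem fb_map (o o' : I Φ) (ρ : Multiset ℕ) :
    fb (ρ.map fun r => (o, r)) o' = if o = o' then ρ else 0 := by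
  rw [fb, Multiset.filter_map]
  split_ifs with h <;> simp [h]

theorem fb_eq_zero {τ : Multiset (I Φ × ℕ)} {o : I Φ} (h : ∀ x ∈ τ, x.1 ≠ o) : fb τ o = 0 := by
  rw [fb, Multiset.filter_eq_nil.2 h, Multiset.map_zero]

theorem fb_sum (T : Finset (I Φ)) (ρ : I Φ → Multiset ℕ) (o : I Φ) :
    fb (∑ o ∈ T, (ρ o).map fun r => (o, r)) o = if o ∈ T then ρ o else 0 := by
  have := map_sum (⟨⟨(fb · o), rfl⟩, fun τ σ => fb_add τ σ o⟩ : Multiset (I Φ × ℕ) →+ Multiset ℕ)
    (fun o => (ρ o).map fun r => (o, r)) T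
  exact this.trans ((sum_congr rfl fun o' _ => fb_map o' o _).trans (sum_ite_eq' _ _ _))

theorem ev_monomial (s : I Φ × ℕ →₀ ℕ) (c : ℂ) :
    ev Λ (monomial s c) = c * ∏ᶠ o, go o (rho s o) (Λ o) := by
  have : (monomial s c : A Φ) = c • basisMonomials _ ℂ s := by simp [smul_monomial]
  rw [this, map_smul, ev, Module.Basis.constr_basis, smul_eq_mul]

theorem pmon_xo (τ : Multiset (I Φ × ℕ)) : pmon xo τ = (monomial τ.toFinsupp 1 : A Φ) := by
  induction τ using Multiset.induction_on with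
  | empty => simp [pmon]
  | cons x τ ih =>
    rw [← Multiset.singleton_add, map_add, Multiset.toFinsupp_singleton, ← one_mul (1 : ℂ),
      ← monomial_mul, ← ih]
    simp [pmon, xo, X]

theorem monomial_eq_pmon (s : I Φ × ℕ →₀ ℕ) (c : ℂ) :
    (monomial s c : A Φ) = c • pmon xo (Finsupp.toMultiset s) := by
  rw [pmon_xo, Finsupp.toMultiset_toFinsupp, smul_monomial, smul_eq_mul, mul_one]

theorem ev_pmon (τ : Multiset (I Φ × ℕ)) : ev Λ (pmon xo τ) = ∏ᶠ o, go o (fb τ o) (Λ o) := by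
  simp only [pmon_xo, ev_monomial, one_mul, rho_eq, Multiset.toFinsupp_toMultiset]

theorem prod_pm_xo (T : Finset (I Φ)) (ρ : I Φ → Multiset ℕ) :
    ∏ o ∈ T, pm (xo o) (ρ o) = pmon xo (∑ o ∈ T, (ρ o).map fun r => (o, r)) := by
  induction T using Finset.induction_on with
  | empty => simp [pmon]
  | insert o T h ih => rw [prod_insert h, sum_insert h, ih]; simp [pmon, pm]

theorem prod_fb {M : Type*} [CommMonoid M] {τ : Multiset (I Φ × ℕ)} {T : Finset (I Φ)}
    (h : ∀ x ∈ τ, x.1 ∈ T) (f : I Φ → M) :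
    (τ.map fun x => f x.1 ^ x.2).prod = ∏ o ∈ T, f o ^ (fb τ o).sum := by
  induction τ using Multiset.induction_on with
  | empty => simp [fb]
  | cons x τ ih =>
    obtain ⟨o, r⟩ := x
    have h1 : ∀ o', fb ((o, r) ::ₘ τ) o' = (if o = o' then {r} else 0) + fb τ o' := fun o' => by
      rw [← fb_map, ← fb_add]; rfl
    simp only [Multiset.map_cons, Multiset.prod_cons, h1, Multiset.sum_add, pow_add,
      prod_mul_distrib, ih fun x hx => h x (Multiset.mem_cons_of_mem hx)]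
    congr 1
    rw [prod_eq_single_of_mem o (h _ (Multiset.mem_cons_self _ _)) fun o' _ e => by simp [e.symm]]
    simp

theorem weight_eq {s : I Φ × ℕ →₀ ℕ} {T : Finset (I Φ)} (h : ∀ x ∈ s.support, x.1 ∈ T) :
    Finsupp.weight (wt Φ) s = ∑ o ∈ T, o.per * (rho s o).sum := by
  have := sum_map_fiber (fun (o : I Φ) r => o.per * r) (Finsupp.toMultiset s) (T := T)
    (by simpa using h)
  rw [Finsupp.weight_apply, Finsupp.sum]
  refine Eq.trans ?_ (this.trans (sum_congr rfl fun o _ =>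
    Multiset.sum_map_mul_left.trans (by simp [rho])))
  rw [Finset.sum_multiset_map_count]
  simp [wt]

theorem mu_pmon (F : kˣ → ℂ) {τ : Multiset (I Φ × ℕ)} {T : Finset (I Φ)} (h : ∀ x ∈ τ, x.1 ∈ T) :
    mu F (pmon xo τ) = (∏ o ∈ T, (∏ t ∈ o.pts, F t) ^ (fb τ o).sum) • pmon xo τ := by
  rw [← prod_fb h, pmon, map_multiset_prod, Multiset.map_map, Algebra.smul_def,
    map_multiset_prod, Multiset.map_map, ← Multiset.prod_map_mul]
  exact congrArg _ (Multiset.map_congr rfl fun x _ => (mu_X F x).trans (Algebra.smul_def _ _))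

variable [Big k]

theorem hl (h : StHL) (o : I Φ) : HL ((Φ.Q : ℚ) ^ o.per) (gr ((Φ.Q : ℚ) ^ o.per)) :=
  h _ (pow_ne_zero _ (Int.cast_ne_zero.2 (Q_ne_zero Φ))) fun j hj => by
    rw [← pow_mul]
    exact_mod_cast Q_pow_ne_one (Φ := Φ) (Nat.mul_pos (per_pos o) hj)

variable (h : StHL)
include h

theorem go_zero (o : I Φ) : go o 0 0 = 1 := by rw [go, (hl h o).zero, Rat.cast_one]

theorem go_size {o : I Φ} {ρ l : Multiset ℕ} (e : go o ρ l ≠ 0) : ρ.sum = l.sum :=
  (hl h o).size _ _ (Rat.cast_ne_zero.1 e)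

theorem go_zero_left {o : I Φ} {l : Multiset ℕ} (h0 : 0 ∉ l) (e : go o 0 l ≠ 0) : l = 0 :=
  Multiset.eq_zero_of_forall_notMem fun a ha =>
    h0 (Multiset.sum_eq_zero_iff.1 (go_size h e).symm a ha ▸ ha)

theorem ev_pmon' {T : Finset (I Φ)} (hT : ∀ o ∉ T, Λ o = 0) {τ : Multiset (I Φ × ℕ)}
    (hτ : ∀ x ∈ τ, x.1 ∈ T) : ev Λ (pmon xo τ) = ∏ o ∈ T, go o (fb τ o) (Λ o) := by
  rw [ev_pmon]
  refine finprod_eq_prod_of_mulSupport_subset _ fun o ho => by_contra fun e => ho ?_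
  beta_reduce
  rw [hT o e, fb_eq_zero fun x hx e' => e (by rw [← e']; exact hτ x hx), go_zero h]

theorem ev_prod_pm {T : Finset (I Φ)} (hT : ∀ o ∉ T, Λ o = 0) (ρ : I Φ → Multiset ℕ) :
    ev Λ (∏ o ∈ T, pm (xo o) (ρ o)) = ∏ o ∈ T, go o (ρ o) (Λ o) := by
  rw [prod_pm_xo, ev_pmon' h hT]
  · exact prod_congr rfl fun o ho => by rw [fb_sum, if_pos ho]
  · intro x hx
    obtain ⟨o, ho, hx⟩ := Multiset.mem_sum.1 hx
    obtain ⟨r, -, rfl⟩ := Multiset.mem_map.1 hx
    exact ho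

theorem ev_prod_sum {T : Finset (I Φ)} (hT : ∀ o ∉ T, Λ o = 0) (s : I Φ → Finset (Multiset ℕ))
    (c : I Φ → Multiset ℕ → ℂ) : ev Λ (∏ o ∈ T, ∑ ρ ∈ s o, c o ρ • pm (xo o) ρ) =
      ∏ o ∈ T, ∑ ρ ∈ s o, c o ρ * go o ρ (Λ o) := by
  rw [prod_sum, prod_sum, map_sum]
  refine sum_congr rfl fun p _ => ?_
  let ρ : I Φ → Multiset ℕ := fun o => if h : o ∈ T then p o h else 0
  have h1 : ∀ x : T, p x.1 x.2 = ρ x := fun x => (dif_pos x.2).symm
  simp only [h1]
  rw [prod_attach T fun o => c o (ρ o) • pm (xo o) (ρ o),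
    prod_attach T fun o => c o (ρ o) * go o (ρ o) (Λ o), prod_smul, map_smul, ev_prod_pm h hT,
    prod_mul_distrib, smul_eq_mul]

theorem ev_sum_single {T : Finset (I Φ)} (hT : ∀ o ∉ T, Λ o = 0) (o : I Φ)
    (s : Finset (Multiset ℕ)) (c : Multiset ℕ → ℂ) : ev Λ (∑ ρ ∈ s, c ρ • pm (xo o) ρ) =
      (∑ ρ ∈ s, c ρ * go o ρ (Λ o)) * ∏ o' ∈ T.erase o, go o' 0 (Λ o') := by
  rw [map_sum, sum_mul]
  refine sum_congr rfl fun ρ _ => ?_
  have := ev_prod_pm h (T := insert o (T.erase o)) (Λ := Λ) (fun o' ho => hT o' fun e => ho (by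
    by_cases e' : o' = o <;> simp [e, e'])) (Pi.single o ρ)
  rw [prod_insert (notMem_erase _ _), prod_insert (notMem_erase _ _), Pi.single_eq_same,
    prod_eq_one fun o' ho => by rw [Pi.single_eq_of_ne (ne_of_mem_erase ho)]; rfl, mul_one,
    prod_congr rfl fun o' ho => by rw [Pi.single_eq_of_ne (ne_of_mem_erase ho)]] at this
  rw [map_smul, this, smul_eq_mul, mul_assoc]

theorem sum_go (o : I Φ) (j : ℕ) {l : Multiset ℕ} (hl0 : 0 ∉ l) :
    ∑ ρ ∈ ptn j, (zz ρ : ℂ)⁻¹ * go o ρ l = if l.sum = j then 1 else 0 := by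
  split_ifs with e
  · have := congrArg (Rat.cast : ℚ → ℂ) ((hl h o).alpha j l
      (mem_ptn.2 ⟨e, fun r hr => Nat.pos_of_ne_zero fun h0 => hl0 (h0 ▸ hr)⟩))
    simpa [div_eq_inv_mul] using this
  · exact sum_eq_zero fun ρ hρ => mul_eq_zero_of_right _ (by_contra fun e' =>
      e ((go_size h e').symm.trans (mem_ptn.1 hρ).1))

omit h in
/-- the trivial characters as sums of products over orbits -/
theorem hh_eq_sum (n : ℕ) {T : Finset (I Φ)} (hT : ∀ o : I Φ, o.per ≤ n → o ∈ T) :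
    hh Φ n = ∑ l ∈ finsuppAntidiag T n, ∏ o ∈ T,
      if o.per ∣ l o then ex (xo o) (l o / o.per) else 0 := by
  have := ex_sum T (fun o m => if o.per ∣ m then o.per • xo o (m / o.per) else 0) n
  rw [hh, ex_congr_le (fun m hm hmn => ?_) n le_rfl, this]
  · refine sum_congr rfl fun l _ => prod_congr rfl fun o _ => ?_
    rw [ex_stretch (per_pos o) fun m hm => if_neg hm]
    refine if_congr Iff.rfl ?_ rfl
    congr 1
    funext r
    rw [if_pos (dvd_mul_right _ _), Nat.mul_div_cancel_left _ (per_pos o),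
      ← Nat.cast_smul_eq_nsmul ℂ, inv_smul_smul₀ (Nat.cast_ne_zero.2 (per_pos o).ne')]
  · rw [P, sum_congr rfl fun t ht => by rw [pr_one ht, Units.val_one, one_smul],
      sum_Mk_io m fun o => (X (o, m / o.per) : A Φ), Finset.sum_apply, ← sum_filter]
    refine sum_congr (Finset.ext fun o => ?_) fun _ _ => rfl
    rw [mem_Ok hm, mem_filter]
    exact ⟨fun e => ⟨hT o ((Nat.le_of_dvd hm e).trans hmn), e⟩, fun e => e.2⟩

theorem ev_hh (n : ℕ) {T : Finset (I Φ)} (hT : ∀ o ∉ T, Λ o = 0) (h0 : ∀ o, 0 ∉ Λ o) :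
    ev Λ (hh Φ n) = if ∑ o ∈ T, o.per * (Λ o).sum = n then 1 else 0 := by
  set T' := T ∪ (finite_per_le (Φ := Φ) n).toFinset
  have h1 : ∀ o ∉ T', Λ o = 0 := fun o ho => hT o fun e => ho (mem_union_left _ e)
  have h2 : ∑ o ∈ T, o.per * (Λ o).sum = ∑ o ∈ T', o.per * (Λ o).sum :=
    sum_subset subset_union_left fun o _ ho => by simp [hT o ho]
  have h3 : ∀ l : I Φ →₀ ℕ, ev Λ (∏ o ∈ T', if o.per ∣ l o then ex (xo o) (l o / o.per) else 0) =
      if ∀ o ∈ T', l o = o.per * (Λ o).sum then 1 else 0 := fun l => by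
    have := ev_prod_sum h h1 (fun o => if o.per ∣ l o then ptn (l o / o.per) else ∅)
      fun _ ρ => (zz ρ : ℂ)⁻¹
    rw [← prod_boole]
    refine Eq.trans (congrArg _ (prod_congr rfl fun o _ => ?_)) (this.trans
      (prod_congr rfl fun o _ => ?_))
    · split_ifs
      exacts [ex_eq_sum _ _, sum_empty.symm]
    · by_cases e : o.per ∣ l o
      · rw [if_pos e, sum_go h _ _ (h0 o)]
        refine if_congr ⟨fun e' => ?_, fun e' => ?_⟩ rfl rfl
        · rw [e', Nat.mul_div_cancel' e]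
        · rw [e', Nat.mul_div_cancel_left _ (per_pos o)]
      · rw [if_neg e, sum_empty, if_neg fun e' => e ⟨_, e'⟩]
  rw [hh_eq_sum n (T := T') fun o ho => mem_union_right _ (by simpa using ho), map_sum, h2]
  simp only [h3]
  let l₀ : I Φ →₀ ℕ := Finsupp.onFinset T' (fun o => o.per * (Λ o).sum) fun o ho =>
    by_contra fun e => ho (by simp [h1 o e])
  rw [sum_eq_ite l₀]
  · refine if_ctx_congr ?_ (fun _ => if_pos fun _ _ => rfl) fun _ => rfl
    rw [mem_finsuppAntidiag]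
    exact ⟨fun e => e.1, fun e => ⟨e, Finsupp.support_onFinset_subset⟩⟩
  · refine fun l hl e => if_neg fun e' => e (Finsupp.ext fun o => ?_)
    by_cases ho : o ∈ T'
    · exact e' o ho
    · rw [Finsupp.notMem_support_iff.1 fun e => ho ((mem_finsuppAntidiag.1 hl).2 e)]
      simp [l₀, h1 o ho]

end Cfsg.GUn
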