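import Cfsg.Agent.GUn.Defs
import Cfsg.Agent.GLn.Cop
import Mathlib.LinearAlgebra.Eigenspace.Zero

/-!
# S4537: ranks and Jordan types of matrices
-/

set_option autoImplicit false

namespace Cfsg.GUn

open Matrix Finset Module
open Polynomial hiding funext
open GLn (piRoot piRoot_apply)

universe u v w

variable {k : Type u} [Field k]

/-! ### ranks -/

theorem finrank_range_piMap {σ : Type*} [Fintype σ] {V W : σ → Type*} [∀ i, AddCommGroup (V i)]
    [∀ i, Module k (V i)] [∀ i, AddCommGroup (W i)] [∀ i, Module k (W i)]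
    [∀ i, FiniteDimensional k (W i)] (f : ∀ i, V i →ₗ[k] W i) :
    finrank k (LinearMap.range (LinearMap.piMap f)) = ∑ i, finrank k (LinearMap.range (f i)) := by
  have : LinearMap.range (LinearMap.piMap f) =
      LinearMap.range (LinearMap.piMap fun i => (LinearMap.range (f i)).subtype) := by
    ext x
    refine ⟨fun ⟨y, h⟩ => ⟨fun i => ⟨f i (y i), y i, rfl⟩, h⟩, fun ⟨y, h⟩ => ?_⟩
    choose z hz using fun i => (y i).2
    exact ⟨z, h ▸ funext hz⟩
  rw [this, LinearMap.finrank_range_of_inj fun x y h => funext fun i => Subtype.ext (congrFun h i),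
    finrank_pi_fintype]

theorem finrank_range_of_equiv {V W V' W' : Type*} [AddCommGroup V] [Module k V] [AddCommGroup W]
    [Module k W] [AddCommGroup V'] [Module k V'] [AddCommGroup W'] [Module k W'] {f : V →ₗ[k] W}
    {g : V' →ₗ[k] W'} (a : V ≃ₗ[k] V') (b : W ≃ₗ[k] W') (h : ∀ x, b (f x) = g (a x)) :
    finrank k (LinearMap.range f) = finrank k (LinearMap.range g) := by
  rw [← LinearEquiv.finrank_map_eq b, ← LinearMap.range_comp,
    show (b : W →ₗ[k] W') ∘ₗ f = g ∘ₗ (a : V →ₗ[k] V') from LinearMap.ext h,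
    LinearMap.range_comp_of_range_eq_top _ a.range]

theorem rank_blockDiagonal' {σ : Type*} [Fintype σ] [DecidableEq σ] {m n : σ → Type*}
    [∀ i, Fintype (m i)] [∀ i, Fintype (n i)] (M : ∀ i, Matrix (m i) (n i) k) :
    (blockDiagonal' M).rank = ∑ i, (M i).rank := by
  refine .trans ?_ (finrank_range_piMap fun i => (M i).mulVecLin)
  refine finrank_range_of_equiv (LinearEquiv.piCurry k fun i (_ : n i) => k)
    (LinearEquiv.piCurry k fun i (_ : m i) => k) fun x => ?_
  ext i r
  change ∑ c, blockDiagonal' M ⟨i, r⟩ c * x c = ∑ c, M i r c * x ⟨i, c⟩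
  rw [Fintype.sum_sigma, Fintype.sum_eq_single i fun j hj => by
    simp [blockDiagonal'_apply_ne _ _ _ hj.symm]]
  simp

theorem rank_blockDiagonal {σ m n : Type*} [Fintype σ] [DecidableEq σ] [Fintype m] [Fintype n]
    (M : σ → Matrix m n k) : (blockDiagonal M).rank = ∑ i, (M i).rank := by
  rw [← rank_blockDiagonal', ← blockDiagonal'_submatrix_eq_blockDiagonal]
  exact rank_submatrix _ ((Equiv.prodComm _ _).trans (Equiv.sigmaEquivProd _ _).symm)
    ((Equiv.prodComm _ _).trans (Equiv.sigmaEquivProd _ _).symm)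

theorem rank_kr (r : ℕ) {n : ℕ} (A : Matrix (Fin n) (Fin n) k) : (kr r A).rank = r * A.rank := by
  rw [kr, one_kronecker, rank_reindex, rank_blockDiagonal]; simp

theorem rank_fromBlocks_diag {m m' n n' : Type*} [Fintype m] [Fintype m'] [Fintype n] [Fintype n']
    (A : Matrix m m' k) (B : Matrix n n' k) : (fromBlocks A 0 0 B).rank = A.rank + B.rank := by
  have := finrank_range_of_equiv (f := (fromBlocks A 0 0 B).mulVecLin)
    (g := A.mulVecLin.prodMap B.mulVecLin) (LinearEquiv.sumArrowLequivProdArrow m' n' k k)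
    (LinearEquiv.sumArrowLequivProdArrow m n k k) fun x => by
      ext i <;> simp [mulVec, dotProduct]
  have e : LinearMap.range (A.mulVecLin.prodMap B.mulVecLin) = LinearMap.range
      ((LinearMap.range A.mulVecLin).subtype.prodMap (LinearMap.range B.mulVecLin).subtype) := by
    simp only [LinearMap.range_prodMap, Submodule.range_subtype]
  rw [rank, this, e, LinearMap.finrank_range_of_inj
    (Subtype.val_injective.prodMap Subtype.val_injective), finrank_prod]
  rfl

variable {ι : Type v} [Fintype ι] [DecidableEq ι] {κ : Type w} [Fintype κ] [DecidableEq κ]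

theorem rank_map {k' : Type*} [Field k'] (σ : k →+* k') (A : Matrix ι ι k) :
    (A.map σ).rank = A.rank := by
  obtain ⟨V, U, e, hV, hU, h⟩ := exists_rank_normal_form A
  have h2 := congrArg (fun M => (σ.mapMatrix M).rank) h
  simp only [map_mul] at h2
  rw [rank_mul_eq_left_of_isUnit_det _ _ ((isUnit_iff_isUnit_det _).1 (hU.map _)),
    rank_mul_eq_right_of_isUnit_det _ _ ((isUnit_iff_isUnit_det _).1 (hV.map _))] at h2
  refine h2.trans ?_
  rw [RingHom.mapMatrix_apply, ← submatrix_map, fromBlocks_map, rank_submatrix]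
  simp [rank_fromBlocks_diag]

theorem rank_conj (P : GL ι k) (A : Matrix ι ι k) : (P.val * A * (P⁻¹).val).rank = A.rank := by
  rw [rank_mul_eq_left_of_isUnit_det _ _ ((isUnit_iff_isUnit_det _).1 (Units.isUnit _)),
    rank_mul_eq_right_of_isUnit_det _ _ ((isUnit_iff_isUnit_det _).1 (Units.isUnit _))]

/-! ### module models -/

/-- `T` is a model of the matrix `A` -/
def MM (A : Matrix ι ι k) (V : Type*) [AddCommGroup V] [Module k V] (T : End k V) : Prop :=
  ∃ φ : (ι → k) ≃ₗ[k] V, ∀ x, φ (A *ᵥ x) = T (φ x)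

section MM
variable {V V' : Type*} [AddCommGroup V] [Module k V] [AddCommGroup V'] [Module k V']
  {A B : Matrix ι ι k} {T : End k V} {T' : End k V'}

theorem aeval_intertwine (φ : V →ₗ[k] V') (h : ∀ x, φ (T x) = T' (φ x)) (p : k[X]) (x : V) :
    φ (aeval T p x) = aeval T' p (φ x) := by
  induction p using Polynomial.induction_on' with
  | add p q hp hq => simp [hp, hq]
  | monomial n c =>
    simp only [aeval_monomial, End.mul_apply, algebraMap_end_apply, map_smul]
    congr 1
    induction n with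
    | zero => rfl
    | succ n ih => rw [pow_succ', pow_succ', End.mul_apply, End.mul_apply, h, ih]

theorem aeval_mulVec (A : Matrix ι ι k) (p : k[X]) (x : ι → k) :
    aeval A p *ᵥ x = aeval (toLin' A) p x := by
  exact (LinearMap.congr_fun (aeval_algHom_apply (toLinAlgEquiv' (R := k)) A p) x).symm

theorem MM.aeval (h : MM A V T) (p : k[X]) : MM (aeval A p) V (aeval T p) :=
  let ⟨φ, hφ⟩ := h
  ⟨φ, fun x => by rw [aeval_mulVec]; exact aeval_intertwine (T := toLin' A) (φ : _ →ₗ[k] V) hφ p x⟩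

omit [DecidableEq ι] in
theorem MM.rank (h : MM A V T) : A.rank = finrank k (LinearMap.range T) :=
  let ⟨φ, hφ⟩ := h; finrank_range_of_equiv φ φ hφ

omit [DecidableEq ι] in
theorem MM.finrank (h : MM A V T) : finrank k V = Fintype.card ι :=
  let ⟨φ, _⟩ := h; φ.finrank_eq.symm.trans (finrank_pi k)

omit [DecidableEq ι] in
theorem MM.equiv (h : MM A V T) (e : V ≃ₗ[k] V') (he : ∀ x, e (T x) = T' (e x)) : MM A V' T' :=
  let ⟨φ, hφ⟩ := h; ⟨φ.trans e, fun x => by simp [hφ, he]⟩

theorem MM.conj (h : MM A V T) (h' : MM B V T) : ∃ P : GL ι k, P.val * A * (P⁻¹).val = B := by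
  obtain ⟨φ, hφ⟩ := h
  obtain ⟨ψ, hψ⟩ := h'
  obtain ⟨P, hP⟩ := GLn.exists_gl_of_equiv (φ.trans ψ.symm)
  refine ⟨P, ?_⟩
  rw [Units.mul_inv_eq_iff_eq_mul]
  refine toLin'.injective (LinearMap.ext fun x => ψ.injective ?_)
  simp [toLin'_mul, hP, hφ, hψ]

theorem exists_MM (A : Matrix ι ι k) : ∃ (m : ℕ) (f : Fin m → k[X]) (e : Fin m → ℕ),
    (∀ i, Irreducible (f i) ∧ (f i).Monic ∧ 0 < e i) ∧ MM A _ (piRoot fun i => f i ^ e i) := by
  obtain ⟨m, f, e, h, φ, hφ⟩ := GLn.Cls.exists_equiv (toLin' A)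
  exact ⟨m, f, e, h, φ, fun x => funext (hφ x)⟩

theorem aeval_piRoot {σ : Type*} (h : σ → k[X]) (p : k[X]) :
    aeval (piRoot h) p = LinearMap.piMap fun i => LinearMap.mulLeft k (AdjoinRoot.mk (h i) p) := by
  refine LinearMap.ext fun x => funext fun i => ?_
  have := aeval_intertwine (T := piRoot h) (T' := LinearMap.mulLeft k (AdjoinRoot.root (h i)))
    (LinearMap.proj i) (fun _ => rfl) p x
  refine this.trans ?_
  simp only [← AdjoinRoot.aeval_eq]
  exact LinearMap.congr_fun (aeval_algHom_apply (Algebra.lmul k (AdjoinRoot (h i))) _ p) (x i)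

theorem finrank_adjoinRoot {h : k[X]} (h0 : h ≠ 0) : finrank k (AdjoinRoot h) = h.natDegree :=
  (AdjoinRoot.powerBasis h0).finrank

theorem finrank_range_mulLeft {h p g a b : k[X]} (h0 : h ≠ 0) (h1 : g ∣ h) (h2 : g ∣ p)
    (h3 : g = a * p + b * h) :
    finrank k (LinearMap.range (LinearMap.mulLeft k (AdjoinRoot.mk h p))) =
      h.natDegree - g.natDegree := by
  haveI := (AdjoinRoot.powerBasis h0).finite
  let ψ := AdjoinRoot.algHomOfDvd k h g h1
  have hψ : ∀ u, ψ (AdjoinRoot.mk h u) = AdjoinRoot.mk g u := fun u => by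
    rw [← AdjoinRoot.aeval_eq, ← aeval_algHom_apply, AdjoinRoot.algHomOfDvd_root,
      AdjoinRoot.aeval_eq]
  have e : LinearMap.ker ψ.toLinearMap = LinearMap.range (LinearMap.mulLeft k (AdjoinRoot.mk h p)) := by
    ext x
    obtain ⟨u, rfl⟩ := AdjoinRoot.mk_surjective x
    rw [LinearMap.mem_ker, AlgHom.toLinearMap_apply, hψ, AdjoinRoot.mk_eq_zero]
    constructor
    · rintro ⟨v, rfl⟩
      refine ⟨AdjoinRoot.mk h (a * v), ?_⟩
      rw [LinearMap.mulLeft_apply, ← map_mul, AdjoinRoot.mk_eq_mk, h3]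
      exact ⟨-(b * v), by ring⟩
    · rintro ⟨y, hy⟩
      obtain ⟨v, rfl⟩ := AdjoinRoot.mk_surjective y
      rw [LinearMap.mulLeft_apply, ← map_mul, AdjoinRoot.mk_eq_mk] at hy
      simpa using dvd_sub (h2.mul_right v) (h1.trans hy)
  have := LinearMap.finrank_range_add_finrank_ker ψ.toLinearMap
  rw [LinearMap.range_eq_top.2 fun y => by
    obtain ⟨u, rfl⟩ := AdjoinRoot.mk_surjective y; exact ⟨AdjoinRoot.mk h u, hψ u⟩, finrank_top, e,
    finrank_adjoinRoot h0, finrank_adjoinRoot (ne_zero_of_dvd_ne_zero h0 h1)] at this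
  omega

theorem finrank_range_pow {f f' : k[X]} (hf : Irreducible f) (hm : f.Monic) (hf' : Irreducible f')
    (hm' : f'.Monic) [Decidable (f = f')] (e j : ℕ) :
    finrank k (LinearMap.range (LinearMap.mulLeft k (AdjoinRoot.mk (f ^ e) (f' ^ j)))) =
      (if f = f' then e - j else e) * f.natDegree := by
  have h0 := pow_ne_zero e hf.ne_zero
  split_ifs with h
  · subst h
    rcases le_total e j with h | h
    · rw [finrank_range_mulLeft (a := 0) (b := 1) h0 dvd_rfl (pow_dvd_pow _ h) (by simp),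
        Nat.sub_eq_zero_of_le h]; simp
    · rw [finrank_range_mulLeft (a := 1) (b := 0) h0 (pow_dvd_pow _ h) dvd_rfl (by simp),
        natDegree_pow, natDegree_pow, Nat.sub_mul]
  · obtain ⟨a, b, hab⟩ : IsCoprime (f' ^ j) (f ^ e) :=
      (hf'.coprime_iff_not_dvd.2 fun hd => h (eq_of_monic_of_associated hm' hm
        (hf'.associated_of_dvd hf hd)).symm).pow
    rw [finrank_range_mulLeft h0 (one_dvd _) (one_dvd _) hab.symm, natDegree_pow]; simp

theorem MM.rank_aeval_pow {σ : Type*} [Fintype σ] {f : σ → k[X]} {e : σ → ℕ}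
    (hf : ∀ i, Irreducible (f i) ∧ (f i).Monic) (h : MM A _ (piRoot fun i => f i ^ e i))
    {f' : k[X]} (hf' : Irreducible f') (hm' : f'.Monic) [∀ i, Decidable (f i = f')] (j : ℕ) :
    (Polynomial.aeval A f' ^ j).rank =
      ∑ i, (if f i = f' then e i - j else e i) * (f i).natDegree := by
  haveI := fun i => (AdjoinRoot.powerBasis (pow_ne_zero (e i) (hf i).1.ne_zero)).finite
  rw [← map_pow, (h.aeval _).rank, aeval_piRoot, finrank_range_piMap]
  exact sum_congr rfl fun i _ => finrank_range_pow (hf i).1 (hf i).2 hf' hm' _ _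

theorem MM.dvd_of_aeval {σ : Type*} {h : σ → k[X]} (hA : MM A _ (piRoot h)) {p : k[X]}
    (hp : Polynomial.aeval A p = 0) (i : σ) : h i ∣ p := by
  classical
  obtain ⟨φ, hφ⟩ := hA.aeval p
  have := congrFun (hφ (φ.symm (Pi.single i 1))) i
  rw [hp, zero_mulVec, map_zero, φ.apply_symm_apply, aeval_piRoot] at this
  simpa [AdjoinRoot.mk_eq_zero] using this.symm

end MM

/-! ### Jordan types -/

theorem sum_sub_add_sum_sub (l : Multiset ℕ) {i : ℕ} (hi : 0 < i) :
    (l.map (· - (i - 1))).sum + (l.map (· - (i + 1))).sum =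
      2 * (l.map (· - i)).sum + l.count i := by
  induction l using Multiset.induction_on with
  | empty => simp
  | cons a l ih =>
    simp only [Multiset.map_cons, Multiset.sum_cons, Multiset.count_cons]
    split_ifs <;> omega

theorem jt_eq_of_rank {A : Matrix ι ι k} {l : Multiset ℕ} {c : ℕ} (h0 : 0 ∉ l)
    (h : ∀ j, (A ^ j).rank = c + (l.map (· - j)).sum) : jt A = l := by
  have h1 := h 0
  simp only [pow_zero, rank_one, Nat.sub_zero, Multiset.map_id'] at h1
  rw [← l.toFinset_sum_count_nsmul_eq, sum_subset (s₂ := Icc 1 (Fintype.card ι)) (fun a ha => ?_)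
    fun a _ ha => by rw [Multiset.count_eq_zero.2 (mt Multiset.mem_toFinset.2 ha), zero_nsmul]]
  · refine sum_congr rfl fun i hi => ?_
    have := sum_sub_add_sum_sub l (i := i) (mem_Icc.1 hi).1
    rw [Multiset.nsmul_singleton, h, h, h]
    congr 1
    omega
  · have h2 := Multiset.mem_toFinset.1 ha
    have := Multiset.single_le_sum (fun _ _ => Nat.zero_le _) a h2
    exact mem_Icc.2 ⟨Nat.pos_of_ne_zero fun e => h0 (e ▸ h2), by omega⟩

theorem aeval_X_sub_C' (A : Matrix ι ι k) (τ : k) : aeval A (X - C τ) = A - τ • 1 := by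
  rw [map_sub, aeval_X, aeval_C, Algebra.algebraMap_eq_smul_one]

open scoped Classical in
theorem MM.rank_sub_pow {σ : Type*} [Fintype σ] {f : σ → k[X]} {e : σ → ℕ} {A : Matrix ι ι k}
    (hf : ∀ i, Irreducible (f i) ∧ (f i).Monic) (h : MM A _ (piRoot fun i => f i ^ e i)) (τ : k)
    (j : ℕ) : ((A - τ • 1) ^ j).rank = ∑ i with f i ≠ X - C τ, e i * (f i).natDegree +
      ((({i | f i = X - C τ} : Finset σ).val.map e).map (· - j)).sum := by
  rw [← aeval_X_sub_C', h.rank_aeval_pow hf (irreducible_X_sub_C τ) (monic_X_sub_C τ),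
    ← sum_filter_not_add_sum_filter _ fun i => f i = X - C τ, Multiset.map_map]
  congr 1
  · exact sum_congr rfl fun i hi => by rw [if_neg (mem_filter.1 hi).2]
  · exact sum_congr rfl fun i hi => by
      rw [if_pos (mem_filter.1 hi).2, (mem_filter.1 hi).2, natDegree_X_sub_C, mul_one]; rfl

open scoped Classical in
theorem MM.jt_sub {σ : Type*} [Fintype σ] {f : σ → k[X]} {e : σ → ℕ} {A : Matrix ι ι k}
    (hf : ∀ i, Irreducible (f i) ∧ (f i).Monic ∧ 0 < e i)
    (h : MM A _ (piRoot fun i => f i ^ e i)) (τ : k) :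
    jt (A - τ • 1) = ({i | f i = X - C τ} : Finset σ).val.map e :=
  jt_eq_of_rank (fun h0 => let ⟨i, _, h⟩ := Multiset.mem_map.1 h0; (hf i).2.2.ne' h)
    (h.rank_sub_pow (fun i => ⟨(hf i).1, (hf i).2.1⟩) τ)

theorem exists_rank_pow (A : Matrix ι ι k) :
    0 ∉ jt A ∧ ∃ c, ∀ j, (A ^ j).rank = c + ((jt A).map (· - j)).sum := by
  obtain ⟨m, f, e, hf, h⟩ := exists_MM A
  have h1 := h.jt_sub hf 0
  have h2 := h.rank_sub_pow (fun i => ⟨(hf i).1, (hf i).2.1⟩) 0
  rw [← h1] at h2
  simp only [zero_smul, sub_zero] at h1 h2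
  exact ⟨fun h0 => let ⟨i, _, h⟩ := Multiset.mem_map.1 (h1 ▸ h0); (hf i).2.2.ne' h, _, h2⟩

theorem zero_notMem_jt (A : Matrix ι ι k) : 0 ∉ jt A := (exists_rank_pow A).1

theorem pos_of_mem_jt {A : Matrix ι ι k} {a : ℕ} (h : a ∈ jt A) : 0 < a :=
  Nat.pos_of_ne_zero fun e => zero_notMem_jt A (e ▸ h)

theorem rank_pow_add_sum (A : Matrix ι ι k) (j : ℕ) :
    (A ^ j).rank + (jt A).sum = Fintype.card ι + ((jt A).map (· - j)).sum := by
  obtain ⟨c, h⟩ := (exists_rank_pow A).2
  have h1 := h 0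
  simp only [pow_zero, rank_one, Nat.sub_zero, Multiset.map_id'] at h1
  rw [h]; omega

/-- the dimension of the kernel of `A ^ j` -/
theorem rank_pow_add_sum_min (A : Matrix ι ι k) (j : ℕ) :
    (A ^ j).rank + ((jt A).map (min · j)).sum = Fintype.card ι := by
  have h := rank_pow_add_sum A j
  have : (jt A).sum = ((jt A).map (min · j)).sum + ((jt A).map (· - j)).sum := by
    rw [← Multiset.sum_map_add, Multiset.map_congr rfl fun a _ =>
      (show min a j + (a - j) = a by omega), Multiset.map_id']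
  omega

theorem sum_jt_le (A : Matrix ι ι k) : (jt A).sum ≤ Fintype.card ι := by
  obtain ⟨c, h⟩ := (exists_rank_pow A).2
  have h1 := h 0
  simp only [pow_zero, rank_one, Nat.sub_zero, Multiset.map_id'] at h1
  omega

theorem le_card_of_mem_jt {A : Matrix ι ι k} {a : ℕ} (h : a ∈ jt A) : a ≤ Fintype.card ι :=
  (Multiset.single_le_sum (fun _ _ => Nat.zero_le _) a h).trans (sum_jt_le A)

theorem rank_pow_card_add (A : Matrix ι ι k) {j : ℕ} (hj : Fintype.card ι ≤ j) :
    (A ^ j).rank + (jt A).sum = Fintype.card ι := by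
  rw [← rank_pow_add_sum_min A j, Multiset.map_congr rfl fun a ha =>
    min_eq_left ((le_card_of_mem_jt ha).trans hj), Multiset.map_id']

theorem rank_add_card_jt (A : Matrix ι ι k) : A.rank + (jt A).card = Fintype.card ι := by
  have := rank_pow_add_sum_min A 1
  rw [pow_one, Multiset.map_congr rfl fun a ha => min_eq_right (pos_of_mem_jt ha)] at this
  simpa using this

theorem count_jt (A : Matrix ι ι k) {i : ℕ} (hi : 0 < i) :
    (A ^ (i - 1)).rank + (A ^ (i + 1)).rank = 2 * (A ^ i).rank + (jt A).count i := by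
  obtain ⟨c, h⟩ := (exists_rank_pow A).2
  have := sum_sub_add_sum_sub (jt A) hi
  rw [h, h, h]; omega

theorem jt_eq_sum_of_rank {k' : Type*} [Field k'] {σ : Type*} {s : Finset σ} {n : σ → Type*}
    [∀ i, Fintype (n i)] [∀ i, DecidableEq (n i)] {A : Matrix ι ι k} {B : ∀ i, Matrix (n i) (n i) k'}
    {w : σ → ℕ} (h : ∀ j, (A ^ j).rank = ∑ i ∈ s, w i * (B i ^ j).rank) :
    jt A = ∑ i ∈ s, w i • jt (B i) := by
  choose c hc using fun i => (exists_rank_pow (B i)).2
  refine jt_eq_of_rank (c := ∑ i ∈ s, w i * c i) (fun h0 => ?_) fun j => ?_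
  · obtain ⟨i, -, h0⟩ := Multiset.mem_sum.1 h0
    exact zero_notMem_jt _ (Multiset.mem_of_mem_nsmul h0)
  · have := map_sum ((Multiset.sumAddMonoidHom (M := ℕ)).comp (Multiset.mapAddMonoidHom (· - j)))
      (fun i => w i • jt (B i)) s
    simp only [map_nsmul] at this
    simp only [h, hc, mul_add, sum_add_distrib]
    exact congrArg _ this.symm

theorem jt_congr {k' : Type*} [Field k'] {A : Matrix ι ι k} {B : Matrix κ κ k'}
    (h : ∀ j, (A ^ j).rank = (B ^ j).rank) : jt A = jt B :=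
  let ⟨_, hc⟩ := (exists_rank_pow B).2
  jt_eq_of_rank (zero_notMem_jt B) fun j => (h j).trans (hc j)

theorem jt_conj (P : GL ι k) (A : Matrix ι ι k) : jt (P.val * A * (P⁻¹).val) = jt A :=
  jt_congr fun j => by rw [Units.conj_pow, rank_conj]

theorem jt_conj_sub (P : GL ι k) (A : Matrix ι ι k) (τ : k) :
    jt (P.val * A * (P⁻¹).val - τ • 1) = jt (A - τ • 1) := by
  rw [← jt_conj P (A - τ • 1), Matrix.mul_sub, Matrix.sub_mul]; simp

theorem jt_reindex (e : ι ≃ κ) (A : Matrix ι ι k) : jt (reindex e e A) = jt A :=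
  jt_congr fun j => by rw [← coe_reindexAlgEquiv k k, ← map_pow, coe_reindexAlgEquiv, rank_reindex]

theorem jt_submatrix (e : κ ≃ ι) (A : Matrix ι ι k) : jt (A.submatrix e e) = jt A :=
  jt_reindex e.symm A

theorem jt_transpose (A : Matrix ι ι k) : jt Aᵀ = jt A :=
  jt_congr fun j => by rw [← transpose_pow, rank_transpose]

theorem jt_map {k' : Type*} [Field k'] (σ : k →+* k') (A : Matrix ι ι k) : jt (A.map σ) = jt A :=
  jt_congr fun j => by rw [← Matrix.map_pow, rank_map]

theorem jt_mul_unit {A U : Matrix ι ι k} (hU : IsUnit U) (h : Commute A U) : jt (A * U) = jt A :=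
  jt_congr fun j => by
    rw [h.mul_pow, rank_mul_eq_left_of_isUnit_det _ _ ((isUnit_iff_isUnit_det _).1 (hU.pow j))]

theorem jt_unit_mul {A U : Matrix ι ι k} (hU : IsUnit U) (h : Commute A U) : jt (U * A) = jt A := by
  rw [← h.eq, jt_mul_unit hU h]

theorem jt_smul {c : k} (hc : c ≠ 0) (A : Matrix ι ι k) : jt (c • A) = jt A :=
  jt_congr fun j => by
    rw [_root_.smul_pow, rank_smul_of_mem_nonZeroDivisors _ (mem_nonZeroDivisors_of_ne_zero (pow_ne_zero j hc))]

theorem jt_neg (A : Matrix ι ι k) : jt (-A) = jt A := by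
  rw [← neg_one_smul k, jt_smul (neg_ne_zero.2 one_ne_zero)]

theorem jt_blockDiagonal' {σ : Type v} [Fintype σ] [DecidableEq σ] {n : σ → Type w}
    [∀ i, Fintype (n i)] [∀ i, DecidableEq (n i)] (M : ∀ i, Matrix (n i) (n i) k) :
    jt (blockDiagonal' M) = ∑ i, jt (M i) :=
  (jt_eq_sum_of_rank (s := univ) (B := M) (w := fun _ => 1) fun j => by
    simp [← blockDiagonal'_pow, rank_blockDiagonal']).trans (by simp)

theorem jt_fromBlocks (A : Matrix ι ι k) (B : Matrix κ κ k) :
    jt (fromBlocks A 0 0 B) = jt A + jt B := by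
  obtain ⟨c, hc⟩ := (exists_rank_pow A).2
  obtain ⟨c', hc'⟩ := (exists_rank_pow B).2
  refine jt_eq_of_rank (c := c + c') (by simp [zero_notMem_jt]) fun j => ?_
  rw [fromBlocks_diagonal_pow, rank_fromBlocks_diag, hc, hc', Multiset.map_add, Multiset.sum_add]
  ring

theorem kr_pow (r : ℕ) {n : ℕ} (A : Matrix (Fin n) (Fin n) k) (j : ℕ) : kr r (A ^ j) = kr r A ^ j := by
  induction j with
  | zero => rw [pow_zero, pow_zero, kr_one]
  | succ j ih => rw [pow_succ, pow_succ, kr_mul, ih]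

theorem jt_kr (r : ℕ) {n : ℕ} (A : Matrix (Fin n) (Fin n) k) : jt (kr r A) = r • jt A :=
  (jt_eq_sum_of_rank (s := {()}) (B := fun _ => A) (w := fun _ => r) fun j => by
    simp [← kr_pow, rank_kr]).trans (by simp)

theorem jt_eq_zero_iff {A : Matrix ι ι k} : jt A = 0 ↔ IsUnit A := by
  refine ⟨fun h => ?_, fun h => jt_eq_of_rank (c := Fintype.card ι) (by simp) fun j => by
    simp [rank_of_isUnit _ (h.pow j)]⟩
  have := rank_add_card_jt A
  rw [h, Multiset.card_zero, add_zero] at this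
  rw [← isUnit_toLin'_iff, LinearMap.isUnit_iff_range_eq_top]
  exact Submodule.eq_top_of_finrank_eq (this.trans (finrank_pi k).symm)

theorem jt_zero : jt (0 : Matrix ι ι k) = Multiset.replicate (Fintype.card ι) 1 :=
  jt_eq_of_rank (c := 0) (by simp [Multiset.mem_replicate]) fun j => by cases j <;> simp

theorem jt_eq_replicate_iff {A : Matrix ι ι k} :
    jt A = Multiset.replicate (Fintype.card ι) 1 ↔ A = 0 := by
  refine ⟨fun h => ?_, fun h => h ▸ jt_zero⟩
  have := rank_add_card_jt A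
  rw [h, Multiset.card_replicate, Nat.add_eq_right, rank, Submodule.finrank_eq_zero,
    LinearMap.range_eq_bot] at this
  exact toLin'.injective (this.trans (map_zero _).symm)

theorem sum_jt_sub (A : Matrix ι ι k) (τ : k) :
    (jt (A - τ • 1)).sum = A.charpoly.rootMultiplicity τ := by
  have h1 := rank_pow_card_add (A - τ • 1) le_rfl
  have h2 := LinearMap.finrank_range_add_finrank_ker (toLin' ((A - τ • 1) ^ Fintype.card ι))
  rw [← charpoly_toLin', ← LinearMap.finrank_maxGenEigenspace_eq,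
    End.maxGenEigenspace_eq_genEigenspace_finrank, End.genEigenspace_nat, finrank_pi]
  rw [finrank_pi, toLin'_pow, map_sub, map_smul, toLin'_one] at h2
  rw [rank, ← toLin'_apply', toLin'_pow, map_sub, map_smul, toLin'_one] at h1
  exact Nat.add_left_cancel (h1.trans h2.symm)

theorem sum_jt_sub_eq_count [DecidableEq k] (A : Matrix ι ι k) (τ : k) :
    (jt (A - τ • 1)).sum = A.charpoly.roots.count τ := by rw [sum_jt_sub, count_roots]

theorem jt_sub_eq_zero_iff {A : Matrix ι ι k} {τ : k} :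
    jt (A - τ • 1) = 0 ↔ τ ∉ A.charpoly.roots := by
  classical
  rw [← Multiset.count_eq_zero, ← sum_jt_sub_eq_count, Multiset.sum_eq_zero_iff]
  exact ⟨fun h => by simp [h], fun h => Multiset.eq_zero_of_forall_notMem fun a ha =>
    (pos_of_mem_jt ha).ne' (h a ha)⟩

theorem isNilpotent_iff_sum_jt {A : Matrix ι ι k} : IsNilpotent A ↔ (jt A).sum = Fintype.card ι := by
  constructor
  · rintro ⟨n, h⟩
    have := rank_pow_card_add A (Nat.le_add_left _ n)
    rwa [pow_add, h, Matrix.zero_mul, rank_zero, zero_add] at this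
  · intro h
    have := rank_pow_card_add A le_rfl
    rw [h, Nat.add_eq_right, rank, Submodule.finrank_eq_zero, LinearMap.range_eq_bot] at this
    exact ⟨_, toLin'.injective (this.trans (map_zero _).symm)⟩

theorem jt_mem_ptn {A : Matrix ι ι k} (h : IsNilpotent A) : jt A ∈ SymCh.ptn (Fintype.card ι) :=
  SymCh.mem_ptn.2 ⟨isNilpotent_iff_sum_jt.1 h, fun _ => pos_of_mem_jt⟩

/-! ### Jordan normal form -/

theorem exists_jordan {A : Matrix ι ι k} (hs : A.charpoly.Splits) :
    ∃ (m : ℕ) (c : Fin m → k × ℕ), (∀ i, 0 < (c i).2) ∧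
      MM A _ (piRoot fun i => (X - C (c i).1) ^ (c i).2) := by
  obtain ⟨m, f, e, hf, h⟩ := exists_MM A
  have : ∀ i, ∃ τ, f i = X - C τ := fun i => by
    have h1 := (dvd_pow_self _ (hf i).2.2.ne').trans (h.dvd_of_aeval (aeval_self_charpoly A) i)
    have h2 := (hs.of_dvd (charpoly_monic A).ne_zero h1).degree_eq_one_of_irreducible (hf i).1
    exact ⟨-(f i).coeff 0, by
      rw [map_neg, sub_neg_eq_add]; exact (hf i).2.1.eq_X_add_C (natDegree_eq_of_degree_eq_some h2)⟩
  choose τ hτ using this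
  obtain rfl : f = fun i => X - C (τ i) := funext hτ
  exact ⟨m, fun i => (τ i, e i), fun i => (hf i).2.2, h⟩

open scoped Classical in
theorem MM.jt_jordan {σ : Type*} [Fintype σ] {c : σ → k × ℕ} {A : Matrix ι ι k}
    (hc : ∀ i, 0 < (c i).2) (h : MM A _ (piRoot fun i => (X - C (c i).1) ^ (c i).2)) (τ : k) :
    jt (A - τ • 1) = ({i | (c i).1 = τ} : Finset σ).val.map fun i => (c i).2 := by
  rw [h.jt_sub (fun i => ⟨irreducible_X_sub_C _, monic_X_sub_C _, hc i⟩) τ]
  simp

theorem exists_conj_of_jt {A B : Matrix ι ι k} (hA : A.charpoly.Splits) (hB : B.charpoly.Splits)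
    (h : ∀ τ : k, jt (A - τ • 1) = jt (B - τ • 1)) : ∃ P : GL ι k, P.val * A * (P⁻¹).val = B := by
  classical
  obtain ⟨m, c, hc, h1⟩ := exists_jordan hA
  obtain ⟨m', c', hc', h2⟩ := exists_jordan hB
  obtain ⟨σ⟩ : Nonempty (∀ x : k × ℕ, {i // c i = x} ≃ {i // c' i = x}) := by
    refine Classical.nonempty_pi.2 fun x => ⟨Fintype.equivOfCardEq ?_⟩
    have := congrArg (Multiset.count x.2) (h x.1)
    rw [h1.jt_jordan hc, h2.jt_jordan hc', Multiset.count_map, Multiset.count_map,
      ← Finset.filter_val, ← Finset.filter_val, card_val, card_val, filter_filter,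
      filter_filter] at this
    rw [Fintype.card_subtype, Fintype.card_subtype]
    simpa only [Prod.ext_iff, eq_comm (a := x.2)] using this
  have hσ := Equiv.ofFiberEquiv_map σ
  generalize Equiv.ofFiberEquiv σ = e at hσ
  obtain rfl : c = fun a => c' (e a) := funext fun a => (hσ a).symm
  refine MM.conj (h1.equiv (LinearEquiv.piCongrLeft k
    (fun i => AdjoinRoot ((X - C (c' i).1) ^ (c' i).2)) e) fun v => ?_) h2
  ext i
  obtain ⟨i, rfl⟩ := e.surjective i
  have e' := fun v => Equiv.piCongrLeft_apply_apply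
    (fun i => AdjoinRoot ((X - C (c' i).1) ^ (c' i).2)) e v i
  exact (e' _).trans (congrArg (AdjoinRoot.root _ * ·) (e' v).symm)

theorem exists_conj_of_jt' [IsAlgClosed k] {A B : Matrix ι ι k}
    (h : ∀ τ : k, jt (A - τ • 1) = jt (B - τ • 1)) : ∃ P : GL ι k, P.val * A * (P⁻¹).val = B :=
  exists_conj_of_jt (IsAlgClosed.splits _) (IsAlgClosed.splits _) h

theorem charpoly_of_isNilpotent {A : Matrix ι ι k} (h : IsNilpotent A) :
    A.charpoly = X ^ Fintype.card ι := by
  rw [← charpoly_toLin', ← finrank_pi k, ← LinearMap.isNilpotent_iff_charpoly]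
  exact h.map toLinAlgEquiv'

theorem jt_sub_of_isNilpotent {A : Matrix ι ι k} (h : IsNilpotent A) {τ : k} (hτ : τ ≠ 0) :
    jt (A - τ • 1) = 0 := by
  rw [jt_sub_eq_zero_iff, charpoly_of_isNilpotent h, roots_X_pow]
  exact fun h => hτ (Multiset.mem_singleton.1 (Multiset.mem_of_mem_nsmul h))

theorem exists_conj_of_isNilpotent {A B : Matrix ι ι k} (hA : IsNilpotent A) (hB : IsNilpotent B)
    (h : jt A = jt B) : ∃ P : GL ι k, P.val * A * (P⁻¹).val = B := by
  refine exists_conj_of_jt (charpoly_of_isNilpotent hA ▸ Splits.X.pow _)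
    (charpoly_of_isNilpotent hB ▸ Splits.X.pow _) fun τ => ?_
  by_cases hτ : τ = 0
  · simpa [hτ] using h
  · rw [jt_sub_of_isNilpotent hA hτ, jt_sub_of_isNilpotent hB hτ]

/-! ### intertwiners -/

theorem exists_lift_adjoinRoot {V : Type*} [AddCommGroup V] [Module k V] (T : End k V) {h : k[X]}
    {v : V} (hv : aeval T h v = 0) :
    ∃ L : AdjoinRoot h →ₗ[k] V, ∀ p, L (AdjoinRoot.mk h p) = aeval T p v := by
  let π : k[X] →ₗ[k] AdjoinRoot h := (AdjoinRoot.mkₐ h).toLinearMap
  let E : k[X] →ₗ[k] V := LinearMap.applyₗ v ∘ₗ (aeval T).toLinearMap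
  have hle : LinearMap.ker π ≤ LinearMap.ker E := fun p hp => by
    obtain ⟨u, rfl⟩ := AdjoinRoot.mk_eq_zero.1 hp
    change aeval T (h * u) v = 0
    rw [mul_comm, map_mul, End.mul_apply, hv, map_zero]
  refine ⟨(LinearMap.ker π).liftQ E hle ∘ₗ
    (π.quotKerEquivOfSurjective AdjoinRoot.mk_surjective).symm.toLinearMap, fun p => ?_⟩
  rw [LinearMap.comp_apply, LinearEquiv.coe_coe,
    show (π.quotKerEquivOfSurjective AdjoinRoot.mk_surjective).symm (AdjoinRoot.mk h p) =
      Submodule.Quotient.mk p from (LinearEquiv.symm_apply_eq _).2 rfl]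
  rfl

/-- the Sylvester map `X ↦ A X - X B` -/
def syl (A : Matrix ι ι k) (B : Matrix κ κ k) : Matrix ι κ k →ₗ[k] Matrix ι κ k where
  toFun Y := A * Y - Y * B
  map_add' Y Z := by rw [Matrix.mul_add, Matrix.add_mul]; abel
  map_smul' c Y := by simp [smul_sub]

omit [DecidableEq ι] [DecidableEq κ] in
theorem mem_ker_syl {A : Matrix ι ι k} {B : Matrix κ κ k} {Y : Matrix ι κ k} :
    Y ∈ LinearMap.ker (syl A B) ↔ A * Y = Y * B := sub_eq_zero

theorem MM.finrank_ker_syl {σ : Type*} [Fintype σ] {h : σ → k[X]} (A : Matrix ι ι k)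
    {B : Matrix κ κ k} (hB : MM B _ (piRoot h)) : Module.finrank k (LinearMap.ker (syl A B)) =
      ∑ i, (Fintype.card ι - (Polynomial.aeval A (h i)).rank) := by
  classical
  obtain ⟨φ, hφ⟩ := hB
  have h1 : ∀ Y ∈ LinearMap.ker (syl A B), ∀ i p, Y *ᵥ φ.symm (Pi.single i (AdjoinRoot.mk (h i) p)) =
      Polynomial.aeval (toLin' A) p (Y *ᵥ φ.symm (Pi.single i 1)) := fun Y hY i p => by
    have := aeval_intertwine (T := piRoot h) (T' := toLin' A) (toLin' Y ∘ₗ φ.symm.toLinearMap)
      (fun x => by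
        obtain ⟨x, rfl⟩ := φ.surjective x
        simp [← hφ, mem_ker_syl.1 hY]) p (Pi.single i 1)
    refine .trans ?_ this
    rw [aeval_piRoot]
    refine congrArg (fun x => Y *ᵥ φ.symm x) (funext fun j => ?_)
    by_cases e : j = i
    · subst e; simp
    · simp [e]
  let E : LinearMap.ker (syl A B) →ₗ[k] ∀ i, LinearMap.ker (toLin' (Polynomial.aeval A (h i))) :=
    { toFun Y i := ⟨Y.1 *ᵥ φ.symm (Pi.single i 1), by
        rw [LinearMap.mem_ker, toLin'_apply, aeval_mulVec, ← h1 Y.1 Y.2]; simp⟩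
      map_add' Y Z := funext fun i => Subtype.ext (add_mulVec _ _ _)
      map_smul' c Y := funext fun i => Subtype.ext (smul_mulVec _ _ _) }
  have hE : Function.Bijective E := by
    refine ⟨(injective_iff_map_eq_zero E).2 fun Y hY => Subtype.ext (toLin'.injective
      (LinearMap.ext fun x => ?_)), fun v => ?_⟩
    · obtain ⟨x, rfl⟩ := φ.symm.surjective x
      rw [← univ_sum_single x, map_sum, map_sum, map_sum]
      refine sum_congr rfl fun i _ => ?_
      obtain ⟨p, hp⟩ := AdjoinRoot.mk_surjective (x i)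
      rw [← hp, toLin'_apply, h1 Y.1 Y.2, show Y.1 *ᵥ φ.symm (Pi.single i 1) = 0 from
        congrArg Subtype.val (congrFun hY i)]
      simp
    · choose L hL using fun i => exists_lift_adjoinRoot (toLin' A) (h := h i) (v := (v i).1)
        ((aeval_mulVec _ _ _).symm.trans (v i).2)
      let Y := LinearMap.toMatrix' ((∑ i, L i ∘ₗ LinearMap.proj i) ∘ₗ φ.toLinearMap)
      have hY : ∀ x, Y *ᵥ x = ∑ i, L i (φ x i) := fun x => by simp [Y]
      refine ⟨⟨Y, mem_ker_syl.2 (toLin'.injective (LinearMap.ext fun x => ?_))⟩,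
        funext fun i => Subtype.ext ?_⟩
      · rw [toLin'_apply, toLin'_apply, ← mulVec_mulVec, ← mulVec_mulVec, hY, hY, hφ, mulVec_sum]
        refine sum_congr rfl fun i _ => ?_
        obtain ⟨p, hp⟩ := AdjoinRoot.mk_surjective (φ x i)
        rw [piRoot_apply, ← hp, ← AdjoinRoot.mk_X, ← map_mul, hL, hL, map_mul, aeval_X]
        rfl
      · change Y *ᵥ _ = _
        rw [hY, φ.apply_symm_apply, Fintype.sum_eq_single i fun j hj => by simp [hj],
          Pi.single_eq_same, ← map_one (AdjoinRoot.mk (h i)), hL, map_one, End.one_apply]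
  rw [(LinearEquiv.ofBijective E hE).finrank_eq, finrank_pi_fintype]
  refine sum_congr rfl fun i _ => ?_
  have := LinearMap.finrank_range_add_finrank_ker (toLin' (Polynomial.aeval A (h i)))
  rw [finrank_pi] at this
  exact Nat.eq_sub_of_add_eq' this

theorem ipc_comm (l m : Multiset ℕ) : ipc l m = ipc m l := by
  rw [ipc, ipc, Multiset.sum_map_sum_map]
  simp only [min_comm]

theorem finrank_ker_syl (A : Matrix ι ι k) {B : Matrix κ κ k} (hB : B.charpoly.Splits)
    {s : Finset k} (hs : ∀ τ ∈ B.charpoly.roots, τ ∈ s) :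
    finrank k (LinearMap.ker (syl A B)) = ∑ τ ∈ s, ipc (jt (A - τ • 1)) (jt (B - τ • 1)) := by
  classical
  obtain ⟨m, c, hc, h⟩ := exists_jordan hB
  rw [h.finrank_ker_syl, ← sum_fiberwise_of_maps_to (t := s) (g := fun i => (c i).1)
    fun i _ => hs _ (not_not.1 (mt jt_sub_eq_zero_iff.2 (by
      rw [h.jt_jordan hc, Multiset.map_eq_zero, val_eq_zero]
      exact ne_empty_of_mem (mem_filter.2 ⟨mem_univ i, rfl⟩))))]
  refine sum_congr rfl fun τ _ => ?_
  rw [ipc_comm, h.jt_jordan hc, ipc, Multiset.map_map]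
  refine sum_congr rfl fun i hi => ?_
  rw [map_pow, (mem_filter.1 hi).2, aeval_X_sub_C', ← rank_pow_add_sum_min (A - τ • 1) (c i).2]
  simp [min_comm]

end Cfsg.GUn
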