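import Cfsg.Agent.GUn.Lang
import Cfsg.Agent.GUn.Jt
import Cfsg.Agent.Uni.Defs

/-! The finite field of definition; the identification with the unitary groups. -/

set_option autoImplicit false

namespace Cfsg.GUn

open Matrix
open scoped Kronecker

universe u

variable {k : Type u} [Field k] {ι κ : Type} [Fintype ι] [DecidableEq ι] [Fintype κ]
  [DecidableEq κ]

theorem finrank_ker_syl_add (A : Matrix ι ι k) (B : Matrix κ κ k) :
    Module.finrank k (LinearMap.ker (syl A B)) +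
      (A ⊗ₖ (1 : Matrix κ κ k) - (1 : Matrix ι ι k) ⊗ₖ Bᵀ).rank = Fintype.card ι * Fintype.card κ := by
  let e : Matrix ι κ k ≃ₗ[k] (ι × κ → k) := (LinearEquiv.curry k k ι κ).symm
  rw [rank, ← finrank_range_of_equiv (f := syl A B) e e fun x => ?_, add_comm,
    LinearMap.finrank_range_add_finrank_ker, Module.finrank_matrix, Module.finrank_self, mul_one]
  funext ⟨i, j⟩
  have he : ∀ x i j, e x (i, j) = x i j := fun _ _ _ => rfl
  simp [he, syl, mulVec, dotProduct, Fintype.sum_prod_type, one_apply, mul_apply, mul_comm]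

theorem finrank_ker_syl_map {k' : Type*} [Field k'] (f : k →+* k') (A : Matrix ι ι k)
    (B : Matrix κ κ k) : Module.finrank k' (LinearMap.ker (syl (A.map f) (B.map f))) =
      Module.finrank k (LinearMap.ker (syl A B)) := by
  refine add_right_cancel ((finrank_ker_syl_add _ _).trans ((finrank_ker_syl_add A B).symm.trans ?_))
  rw [← rank_map f]
  congr 2
  ext ⟨i, j⟩ ⟨i', j'⟩
  simp [one_apply, apply_ite f]

namespace Frob

variable (Φ : Frob k)

theorem mem_G_pos (h : Φ.neg = false) {g : GL ι k} : g ∈ Φ.G ι ↔ g.val.map Φ.σ = g.val := by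
  rw [mem_G, Units.ext_iff, Fr_val, mat, h]; rfl

theorem mem_G_neg (h : Φ.neg = true) {g : GL ι k} :
    g ∈ Φ.G ι ↔ (g.val.map Φ.σ)ᵀ * g.val = 1 := by
  have : (g.val.map Φ.σ)ᵀ = (Φ.Fr ι g)⁻¹.val := by rw [← map_inv, Fr_val, mat, h]; rfl
  rw [mem_G, this, ← Units.val_mul, Units.val_eq_one, inv_mul_eq_one]

/-- the field of definition -/
def FF : Subfield k := Φ.Fx (if Φ.neg then 2 else 1)

instance : StarRing Φ.FF where
  star x := ⟨Φ.σ x, σ_mem x.2⟩
  star_involutive x := Subtype.ext (Fx_mono (n := 2) (by split_ifs <;> simp) x.2)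
  star_mul x y := Subtype.ext ((map_mul Φ.σ _ _).trans (mul_comm _ _))
  star_add _ _ := Subtype.ext (map_add Φ.σ _ _)

theorem coe_star (x : Φ.FF) : ((star x : Φ.FF) : k) = Φ.σ x := rfl

omit [Fintype ι] [DecidableEq ι] [Fintype κ] [DecidableEq κ] in
theorem map_conjTranspose (A : Matrix ι κ Φ.FF) :
    Aᴴ.map Φ.FF.subtype = ((A.map Φ.FF.subtype).map Φ.σ)ᵀ := rfl

variable {Φ} in
theorem entry_mem (g : Φ.G ι) (i j : ι) : g.1.val i j ∈ Φ.FF := by
  have := Φ.iterate_val (if Φ.neg then 2 else 1) g.1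
  rw [Function.iterate_fixed g.2, if_neg (by cases Φ.neg <;> simp)] at this
  exact (congrFun (congrFun this i) j).symm

variable (ι) in
/-- the matrices over the field of definition -/
def toFF : Φ.G ι →* Matrix ι ι Φ.FF where
  toFun g := of fun i j => ⟨_, entry_mem g i j⟩
  map_one' := map_injective Φ.FF.subtype.injective (Matrix.map_one _ (map_zero _) (map_one _)).symm
  map_mul' a b := map_injective Φ.FF.subtype.injective (Matrix.map_mul (f := Φ.FF.subtype)
    (L := of fun i j => ⟨_, entry_mem a i j⟩) (M := of fun i j => ⟨_, entry_mem b i j⟩)).symm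

variable {Φ}

theorem map_toFF (g : Φ.G ι) : (Φ.toFF ι g).map Φ.FF.subtype = g.1.val := rfl

theorem toFF_injective : Function.Injective (Φ.toFF ι) := fun _ _ h =>
  Subtype.ext (Units.ext (congrArg (Matrix.map · Φ.FF.subtype) h))

theorem toFF_unitary (h : Φ.neg = true) (g : Φ.G ι) : (Φ.toFF ι g)ᴴ * Φ.toFF ι g = 1 :=
  map_injective Φ.FF.subtype.injective (by
    simp only [Matrix.map_mul, Matrix.map_one _ (map_zero Φ.FF.subtype) (map_one _)]
    exact (Φ.mem_G_neg h).1 g.2)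

theorem exists_toFF_pos (h : Φ.neg = false) (A : GL ι Φ.FF) : ∃ g, Φ.toFF ι g = A.val :=
  ⟨⟨GeneralLinearGroup.map Φ.FF.subtype A, (Φ.mem_G_pos h).2 (Matrix.ext fun i j => by
    have : (A.val i j).1 ∈ Φ.Fx (if Φ.neg then 2 else 1) := (A.val i j).2
    rw [h] at this
    exact this)⟩, rfl⟩

theorem exists_toFF_neg (h : Φ.neg = true) {A : Matrix ι ι Φ.FF} (hA : Aᴴ * A = 1) :
    ∃ g, Φ.toFF ι g = A :=
  ⟨⟨GeneralLinearGroup.map Φ.FF.subtype ⟨A, Aᴴ, mul_eq_one_comm.1 hA, hA⟩, (Φ.mem_G_neg h).2 (by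
    have := congrArg (Matrix.map · Φ.FF.subtype) hA
    simp only [Matrix.map_mul, Matrix.map_one _ (map_zero Φ.FF.subtype) (map_one _)] at this
    exact this)⟩, rfl⟩

variable (Φ) [Big k]

instance : Finite Φ.FF := Φ.finite_Fx (by split_ifs <;> simp)

noncomputable instance : Fintype Φ.FF := Fintype.ofFinite _

theorem card_FF : Fintype.card Φ.FF = Φ.q ^ (if Φ.neg then 2 else 1) := by
  rw [← Nat.card_eq_fintype_card]; exact Φ.card_Fx (by split_ifs <;> simp)

theorem uf (h : Φ.neg = true) : Uni.UF Φ.FF Φ.q :=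
  ⟨by rw [card_FF, if_pos h], fun x => Subtype.ext (Φ.hσ x)⟩

end Frob

theorem herm_iff {F : Type*} [Field F] (Φ : Frob k) (f : F →+* k) {n : ℕ}
    (A : Matrix (Fin n) (Fin n) F) : (∀ u v, hermForm n F Φ.q (A *ᵥ u) (A *ᵥ v) =
      hermForm n F Φ.q u v) ↔ (A.map f)ᵀ * (A.map f).map Φ.σ = 1 := by
  have h2 : ∀ u v : Fin n → F, f (hermForm n F Φ.q u v) = (f ∘ u) ⬝ᵥ (Φ.σ ∘ f ∘ v) := fun u v => by
    simp [hermForm, dotProduct, Φ.hσ]
  have h3 : ∀ u v : Fin n → F, f (hermForm n F Φ.q (A *ᵥ u) (A *ᵥ v)) =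
      (f ∘ u) ⬝ᵥ ((A.map f)ᵀ * (A.map f).map Φ.σ) *ᵥ (Φ.σ ∘ f ∘ v) := fun u v => by
    rw [h2, ← mulVec_mulVec, dotProduct_mulVec, vecMul_transpose]
    congr 1 <;> funext i <;> simp [RingHom.map_mulVec]
  have h4 : ∀ (g : F →+* k) (i : Fin n), g ∘ Pi.single i 1 = Pi.single i 1 := fun g i =>
    funext fun j => by simp [Pi.single_apply]
  refine ⟨fun h => Matrix.ext fun i j => ?_, fun h u v => f.injective ?_⟩
  · have := (h3 _ _).symm.trans ((congrArg f (h (Pi.single i 1) (Pi.single j 1))).trans (h2 _ _))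
    rw [h4, h4, show Φ.σ ∘ Pi.single j 1 = Pi.single j 1 from
      funext fun j => by simp [Pi.single_apply], single_one_dotProduct, single_one_dotProduct,
      mulVec_single_one, Pi.single_apply] at this
    rw [one_apply]; exact this
  · rw [h3, h, one_mulVec, h2]

theorem stSU : StSU.{u} := fun F _ _ q n hq => by
  have hp : (ringChar (AlgebraicClosure F)).Prime := Big.prime
  obtain ⟨m, -, hm⟩ := FiniteField.card F (ringChar F)
  rw [Algebra.ringChar_eq F (AlgebraicClosure F), hq] at hm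
  obtain ⟨r, -, rfl⟩ := (Nat.dvd_prime_pow hp).1 (hm ▸ dvd_pow_self q two_ne_zero)
  have := Fact.mk hp
  let Φ : Frob (AlgebraicClosure F) := ⟨true, _, iterateFrobenius _ (ringChar _) r,
    ⟨r, Nat.pos_of_ne_zero fun h => by
      rw [h, pow_zero, one_pow] at hq; exact Fintype.one_lt_card.ne' hq, rfl⟩, fun _ => rfl⟩
  let f := algebraMap F (AlgebraicClosure F)
  have h1 : ∀ A : SpecialLinearGroup (Fin n) F, A ∈ SU n F Φ.q ↔
      GeneralLinearGroup.map f (SpecialLinearGroup.toGL A) ∈ Φ.G (Fin n) := fun A => by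
    rw [Φ.mem_G_neg rfl, ← transpose_inj, transpose_mul, transpose_transpose, transpose_one]
    exact herm_iff Φ f A.1
  have h4 : ∀ x ∈ Φ.Fx 2, ∃ y, f y = x := fun x hx => by
    have := Φ.finite_Fx two_pos
    obtain ⟨y, hy⟩ := ((f.codRestrict (Φ.Fx 2) fun y => Frob.mem_Fx.2 (by
      rw [← map_pow, ← hq, FiniteField.pow_card])).injective.bijective_of_nat_card_le
        (by rw [Φ.card_Fx two_pos, Nat.card_eq_fintype_card, hq])).2 ⟨x, hx⟩
    exact ⟨y, congrArg Subtype.val hy⟩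
  refine ⟨Φ, ⟨MulEquiv.ofBijective ((((GeneralLinearGroup.map f).comp (SpecialLinearGroup.toGL.comp
    (SU n F Φ.q).subtype)).codRestrict _ fun A => (h1 _).1 A.2).codRestrict (SG Φ (Fin n))
      fun A => Units.ext ?_) ⟨fun A B h => Subtype.ext (Subtype.ext (map_injective f.injective
        (congrArg (·.1.1.val) h))), fun g => ?_⟩⟩⟩
  · exact (f.map_det A.1.1).symm.trans (by rw [A.1.2, map_one]; rfl)
  · choose A hA using fun i j => h4 _ (Frob.entry_mem g.1 i j)
    have h5 : (of A).map f = g.1.1.val := Matrix.ext hA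
    have h6 : GeneralLinearGroup.map f (SpecialLinearGroup.toGL ⟨of A, f.injective (by
      rw [f.map_det, map_one]
      exact (congrArg det h5).trans (congrArg Units.val g.2))⟩) = g.1.1 := Units.ext h5
    exact ⟨⟨_, (h1 _).2 (by rw [h6]; exact g.1.2)⟩, Subtype.ext (Subtype.ext h6)⟩

end Cfsg.GUn
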