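import Cfsg.Agent.GUn.Gen
import Cfsg.Agent.GUn.ArB

/-! The piece `StFock`. -/

set_option autoImplicit false
set_option linter.unusedSectionVars false

namespace Cfsg.GUn

open Finset SymCh ComplexConjugate MvPolynomial Gen
open GLn (Bt sz rc ex pm S mnorm S_mem_adjoin_b mem_bs_sz)

universe u

variable {k : Type u} [Field k] [Big k] {Φ : Frob k} {N : ℕ}

namespace Fock

theorem sum_range_pts {m : ℕ} {η : kˣ} (hη : η ∈ Mk Φ m) (f : kˣ → ℂ) :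
    ∑ j ∈ range m, f (η ^ Φ.Q ^ j) = ((m / (io Φ η).per : ℕ) : ℂ) * ∑ y ∈ (io Φ η).pts, f y := by
  have h4 := (allPer Φ).per_omk η
  have h5 := GLn.Dyn.sum_range_of_dvd (T := fr Φ) η f (k := m)
    (h4 ▸ (mem_Mk_per (pos_of_mem_Mk hη)).1 hη)
  rw [← (allPer Φ).sum_pts_omk η f, ← h4] at h5
  simp only [fr_iterate] at h5
  rw [h5, nsmul_eq_mul]

theorem sum_ite_pow {m : ℕ} {η : kˣ} (hη : η ∈ Mk Φ m) (ξ : kˣ) :
    ∑ j ∈ range m, (if ξ = η ^ Φ.Q ^ j then (1 : ℂ) else 0) =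
      if io Φ ξ = io Φ η then ((m / (io Φ η).per : ℕ) : ℂ) else 0 := by
  rw [sum_range_pts hη fun y => if ξ = y then (1 : ℂ) else 0, sum_ite_eq]
  simp [mem_pts]

theorem sum_reg_pr {p : ℕ} [Fact p.Prime] {m : ℕ} {ζ : kˣ} (hζ : ζ ∈ Mk Φ m) :
    ∑ α ∈ Mk Φ m, (if p ∣ orderOf α then 0 else 1) * (pr Φ m ζ α : ℂ) =
      (if pRegPart p ζ = 1 then (NN Φ m : ℂ) else 0) / nl Φ p m := by
  have hk := pos_of_mem_Mk hζ
  have hs := pRegPart_mem_Mk (p := p) hζ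
  have hu := pPart_mem_Mk (p := p) hζ
  rw [eq_div_iff (Nat.cast_ne_zero.2 (nl_pos m).ne'), ← sum_pr hs, sum_Mk_split (p := p) m
    fun x => (pr Φ m (pRegPart p ζ) x : ℂ), sum_mul, ← sum_subset (s₁ := Rk Φ p m)
    (fun x hx => (mem_Rk.1 hx).1) fun x hx hx' => by
      rw [if_pos (by_contra fun h => hx' (mem_Rk.2 ⟨hx, h⟩)), zero_mul, zero_mul]]
  refine sum_congr rfl fun s hs' => ?_
  obtain ⟨h1, h2⟩ := mem_Rk.1 hs'
  rw [if_neg h2, one_mul, sum_congr rfl fun u hu => by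
    rw [map_mul, pr_eq_one hs (mem_Lk.1 hu).1 (coprime_orderOf_of (not_dvd_orderOf_pRegPartK ζ)
      (mem_Lk.1 hu).2), mul_one], sum_const, card_Lk hk, nsmul_eq_mul, mul_comm]
  congr 2
  conv_lhs => rw [← pPart_mul_pRegPart p ζ, pr_mul hu hs h1]
  rw [pr_eq_one hu h1 (coprime_orderOf_of h2 (exists_orderOf_pPartK ζ)).symm, one_mul]

end Fock

open Fock

variable (Φ) in
/-- the linear form attached to a function on the torus `Mk m` -/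
noncomputable def Pf (m : ℕ) (φ : kˣ → ℂ) : A Φ :=
  ∑ t ∈ Mk Φ m, φ t • X (io Φ t, m / (io Φ t).per)

theorem P_eq_Pf (m : ℕ) (ξ : kˣ) : P Φ m ξ = Pf Φ m fun α => (pr Φ m ξ α : ℂ) := rfl

theorem lin_Pf (m : ℕ) (φ : kˣ → ℂ) : Lin (Pf Φ m φ) := Lin.sum fun _ _ => (lin_X _).smul _

theorem per_mul_div {m : ℕ} {t : kˣ} (ht : t ∈ Mk Φ m) : (io Φ t).per * (m / (io Φ t).per) = m :=
  Nat.mul_div_cancel' ((mem_Mk_per (pos_of_mem_Mk ht)).1 ht)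

theorem hom_Pf (m : ℕ) (φ : kˣ → ℂ) : Hom m (Pf Φ m φ) :=
  IsWeightedHomogeneous.sum _ _ _ fun t ht => Hom.smul (by
    have := hom_X (io Φ t) (m / (io Φ t).per)
    rwa [per_mul_div ht] at this) _

theorem Pf_congr {m : ℕ} {φ ψ : kˣ → ℂ} (h : ∀ α ∈ Mk Φ m, φ α = ψ α) : Pf Φ m φ = Pf Φ m ψ :=
  sum_congr rfl fun t ht => by rw [h t ht]

theorem Pf_comp_pow (m n : ℕ) (φ : kˣ → ℂ) : Pf Φ m (fun α => φ (α ^ Φ.Q ^ n)) = Pf Φ m φ := by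
  rw [Pf, Pf, ← sum_Mk_pow_q n fun t => φ t • (X (io Φ t, m / (io Φ t).per) : A Φ)]
  simp only [io_pow_q]

theorem mu_Pf (m : ℕ) (F φ : kˣ → ℂ) :
    mu F (Pf Φ m φ) = Pf Φ m fun α => (∏ j ∈ range m, F (α ^ Φ.Q ^ j)) * φ α := by
  simp only [Pf, map_sum, map_smul, mu_X, smul_smul]
  refine sum_congr rfl fun t ht => ?_
  have h4 := (allPer Φ).per_omk t
  have h5 := GLn.Dyn.sum_range_of_dvd (A := Additive ℂ) (T := fr Φ) t F (k := m)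
    (h4 ▸ (mem_Mk_per (pos_of_mem_Mk ht)).1 ht)
  rw [← (allPer Φ).sum_pts_omk (A := Additive ℂ) t F, ← h4] at h5
  simp only [fr_iterate] at h5
  rw [mul_comm]
  exact congrArg (fun z : ℂ => (z * φ t) • _) h5.symm

theorem dd_Pf (p : ℕ) {m : ℕ} (φ : kˣ → ℂ) :
    dd p (Pf Φ m φ) = Pf Φ m fun α => (if p ∣ orderOf α then 0 else 1) * φ α := by
  rw [dd, mu_Pf]
  refine Pf_congr fun α hα => ?_
  simp only [orderOf_pow_q, prod_const, card_range]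
  split_ifs <;> simp [(pos_of_mem_Mk hα).ne']

theorem ip_Pf_Pf (m : ℕ) (φ ψ : kˣ → ℂ) : ipA (Pf Φ m φ) (Pf Φ m ψ) =
    (∑ j ∈ range m, ∑ α ∈ Mk Φ m, φ α * conj (ψ (α ^ Φ.Q ^ j))) / (NN Φ m : ℂ) := by
  rw [sum_comm, sum_div, Pf, ip_sum_left]
  refine sum_congr rfl fun α hα => ?_
  rw [← mul_sum, sum_range_pts hα fun y => conj (ψ y), ip_smul_left, mul_div_assoc]
  congr 1
  rw [Pf, ip_sum_right, mul_sum, sum_div, ← sum_subset (s₁ := (io Φ α).pts) (fun β hβ => by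
      rw [mem_Mk_per (pos_of_mem_Mk hα), mem_pts.1 hβ]
      exact (mem_Mk_per (pos_of_mem_Mk hα)).1 hα) fun β _ hβ => by
      rw [ip_smul_right, ip_X_X, if_neg fun h => hβ (mem_pts.2 (Prod.ext_iff.1 h).1.symm),
        mul_zero]]
  refine sum_congr rfl fun β hβ => ?_
  rw [ip_smul_right, ip_X_X, mem_pts.1 hβ, if_pos rfl, nu, wt, per_mul_div hα, NN]
  ring

theorem ip_P_P' {m : ℕ} {ξ η : kˣ} (hη : η ∈ Mk Φ m) (hξ : ξ ∈ Mk Φ m) :
    ipA (P Φ m ξ) (P Φ m η) = ∑ j ∈ range m, if ξ = η ^ Φ.Q ^ j then (1 : ℂ) else 0 := by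
  have ht : (NN Φ m : ℂ) ≠ 0 := Nat.cast_ne_zero.2 (NN_pos (pos_of_mem_Mk hξ)).ne'
  rw [P_eq_Pf, P_eq_Pf, ip_Pf_Pf, sum_div]
  refine sum_congr rfl fun j _ => ?_
  rw [sum_congr rfl fun α hα => by rw [← pr_zpow' hη hα], sum_pr_conj hξ (zpow_mem_Mk hη _)]
  split_ifs
  · exact div_self ht
  · exact zero_div _

theorem ip_P_P {m : ℕ} {ξ η : kˣ} (hξ : ξ ∈ Mk Φ m) (hη : η ∈ Mk Φ m) :
    ipA (P Φ m ξ) (P Φ m η) = if io Φ ξ = io Φ η then ((m / (io Φ η).per : ℕ) : ℂ) else 0 := by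
  rw [ip_P_P' hη hξ, sum_ite_pow hη]

theorem P_pow_q {m : ℕ} {ξ : kˣ} (hξ : ξ ∈ Mk Φ m) (n : ℕ) : P Φ m (ξ ^ Φ.Q ^ n) = P Φ m ξ := by
  rw [P_eq_Pf, P_eq_Pf, ← Pf_comp_pow m n fun α => (pr Φ m ξ α : ℂ)]
  exact Pf_congr fun α hα => by rw [pr_zpow' hξ hα]

theorem P_rep_io {m : ℕ} {ξ : kˣ} (hξ : ξ ∈ Mk Φ m) : P Φ m (io Φ ξ).rep = P Φ m ξ := by
  obtain ⟨n, hn⟩ := exists_rep_io (Φ := Φ) ξ
  rw [hn, P_pow_q hξ]

theorem lin_P (m : ℕ) (ξ : kˣ) : Lin (P Φ m ξ) := lin_Pf _ _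

theorem hom_P (m : ℕ) (ξ : kˣ) : Hom m (P Φ m ξ) := hom_Pf _ _

theorem lin_pp (o : I Φ) (m : ℕ) : Lin (pp o m) := lin_P _ _

theorem hom_pp (o : I Φ) (m : ℕ) : Hom (o.per * m) (pp o m) := hom_P _ _

theorem hom_chi (μ : MP Φ N) : Hom (deg μ) (chi μ) := hom_schur (fun o r _ => hom_pp o r) μ

theorem ip_pp_pp (o : I Φ) {m : ℕ} (o' : I Φ) {m' : ℕ} (hm : 0 < m) (hm' : 0 < m') :
    ipA (pp o m) (pp o' m') = if o = o' ∧ m = m' then (m : ℂ) else 0 := by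
  by_cases h : o.per * m = o'.per * m'
  · rw [pp, pp, ← h, ip_P_P (rep_mem_Mk_mul o hm) (h ▸ rep_mem_Mk_mul o' hm'), io_rep, io_rep]
    by_cases e : o = o'
    · subst e
      obtain rfl := Nat.eq_of_mul_eq_mul_left (per_pos o) h
      simp [Nat.mul_div_cancel_left _ (per_pos o)]
    · simp [e]
  · rw [(hom_pp o m).ip_eq_zero (hom_pp o' m') h, if_neg]
    rintro ⟨rfl, rfl⟩; exact h rfl

theorem ip_dd_P {p : ℕ} [Fact p.Prime] {m : ℕ} {ξ η : kˣ} (hξ : ξ ∈ Mk Φ m) (hη : η ∈ Mk Φ m) :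
    ipA (dd p (P Φ m ξ)) (P Φ m η) = if rpI p (io Φ ξ) = rpI p (io Φ η) then
      (m : ℂ) / (((rpI p (io Φ ξ)).per * nl Φ p m : ℕ) : ℂ) else 0 := by
  have hk := pos_of_mem_Mk hξ
  have ht : (NN Φ m : ℂ) ≠ 0 := Nat.cast_ne_zero.2 (NN_pos hk).ne'
  have hr := pRegPart_mem_Mk (p := p) hη
  have h1 : ipA (dd p (P Φ m ξ)) (P Φ m η) = (∑ j ∈ range m,
      if pRegPart p ξ = pRegPart p η ^ Φ.Q ^ j then (1 : ℂ) else 0) / nl Φ p m := by
    rw [P_eq_Pf, P_eq_Pf, dd_Pf, ip_Pf_Pf, sum_div, sum_div]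
    refine sum_congr rfl fun j _ => ?_
    have hj := zpow_mem_Mk hη (Φ.Q ^ j)
    rw [sum_congr rfl fun α hα => by rw [← pr_zpow' hη hα, conj_pr, map_inv, ← pr_inv hj hα,
      mul_assoc, ← Units.val_mul, ← pr_mul hξ (inv_mem_Mk hj) hα],
      sum_reg_pr (mul_mem_Mk hξ (inv_mem_Mk hj))]
    have : pRegPart p (ξ * (η ^ Φ.Q ^ j)⁻¹) = 1 ↔ pRegPart p ξ = pRegPart p η ^ Φ.Q ^ j := by
      rw [pRegPartK_mul, ← zpow_neg, pRegPartK_zpow, zpow_neg, mul_inv_eq_one]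
    simp only [this]
    split_ifs
    · field_simp
    · simp
  rw [h1, sum_ite_pow hr, rpI_io, rpI_io]
  split_ifs with h
  · rw [Nat.cast_div ((mem_Mk_per hk).1 hr) (Nat.cast_ne_zero.2 (per_pos _).ne'), h, div_div,
      Nat.cast_mul]
  · exact zero_div _

theorem gr_pp {p : ℕ} [Fact p.Prime] (o o' : I Φ) {m m' : ℕ} (hm : 0 < m) (hm' : 0 < m') :
    ipA (dd p (pp o m)) (pp o' m') = gram p o m o' m' := by
  rw [gram]
  by_cases h : o.per * m = o'.per * m'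
  · rw [pp, pp, ← h, ip_dd_P (rep_mem_Mk_mul o hm) (h ▸ rep_mem_Mk_mul o' hm'), io_rep, io_rep]
    simp only [true_and]
  · rw [((hom_pp o m).dd p).ip_eq_zero (hom_pp o' m') h, if_neg fun e => h e.1]

theorem ip_chi_chi (μ ν : MP Φ N) : ipA (chi μ) (chi ν) = if μ = ν then 1 else 0 := by
  rw [chi, chi, schur_eq_prod pp μ (subset_union_left (s₂ := ν.support)),
    schur_eq_prod pp ν (subset_union_right (s₁ := μ.support)),
    ip_prod_prod_adjoin (fun o => pp o '' {m | 0 < m}) _ _ _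
      (fun o _ => S_mem_adjoin_b (fun m hm => by exact ⟨m, hm, rfl⟩) _)
      fun o _ => S_mem_adjoin_b (fun m hm => by exact ⟨m, hm, rfl⟩) _,
    prod_congr rfl fun o _ => ip_S_one (fun r _ => lin_pp o r) (fun r s hr hs => by
      simpa using ip_pp_pp o o hr hs) (mem_bs_sz (μ o).2) (mem_bs_sz (ν o).2), prod_boole]
  · congr 1
    refine propext ⟨fun h => Finsupp.ext fun o => ?_, fun h => by simp [h]⟩
    by_contra h0
    refine h0 (Subtype.ext (h o ?_))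
    by_contra h1
    rw [mem_union, not_or, Finsupp.notMem_support_iff, Finsupp.notMem_support_iff] at h1
    exact h0 (h1.1.trans h1.2.symm)
  · rintro o _ ⟨m, -, rfl⟩
    exact lin_pp o m
  · rintro o o' h _ ⟨m, hm, rfl⟩ _ ⟨m', hm', rfl⟩
    rw [ip_pp_pp o o' hm hm', if_neg fun e => h e.1]

variable (k) in
theorem stFock : StFock k where
  mon Φ τ τ' h h' := by
    rw [pmon, pmon, ip_multiset (s := {x : I Φ × ℕ | 0 < x.2}) (a := fun x => pp x.1 x.2)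
      (fun x _ => lin_pp _ _) (fun x hx y hy hxy => by
        rw [ip_pp_pp _ _ hx hy, if_neg fun e => hxy (Prod.ext e.1 e.2)]) h h']
    split_ifs
    · refine prod_congr rfl fun x hx => ?_
      have := h x (Multiset.mem_toFinset.1 hx)
      simp only [ip_pp_pp _ _ this this, and_self, if_true, mul_comm]
    · rfl
  chi _ _ := ip_chi_chi
  gram _ _ hp _ o o' _ _ hm hm' := haveI := Fact.mk hp; gr_pp o o' hm hm'

end Cfsg.GUn
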