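import Cfsg.Agent.GUn.GCTa
import Cfsg.Agent.GUn.JtB

/-! The commutant of a `p`-subgroup is a Frobenius stable product of matrix algebras. -/

set_option autoImplicit false
set_option linter.unusedSectionVars false
set_option linter.unusedVariables false

namespace Cfsg.GUn.GCT

open Matrix Finset

universe u v

variable {k : Type u} [Field k] {ι : Type} [Fintype ι] [DecidableEq ι]

/-- products of matrix algebras -/
abbrev PM (k : Type u) {I : Type v} (m : I → ℕ) : Type (max u v) :=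
  Π i, Matrix (Fin (m i)) (Fin (m i)) k

theorem scalar_of_comm {n : Type} [Fintype n] [DecidableEq n] {A : Matrix n n k}
    (h : ∀ B, B * A = A * B) : ∃ c : k, A = c • 1 := by
  obtain ⟨c, hc⟩ := mem_range_scalar_iff_commute_single'.2 fun i j => h _
  exact ⟨c, by rw [← hc, scalar_apply, smul_one_eq_diagonal]⟩

theorem idem_of_comm {n : Type} [Fintype n] [DecidableEq n] {A : Matrix n n k}
    (h : ∀ B, B * A = A * B) (h1 : A * A = A) (h0 : A ≠ 0) : A = 1 := by
  obtain ⟨c, rfl⟩ := scalar_of_comm h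
  have h2 : c ≠ 0 := by rintro rfl; exact h0 (zero_smul _ _)
  rw [smul_mul_assoc, one_mul] at h1
  exact smul_right_injective _ h2 h1

theorem inner {n : Type} [Fintype n] [DecidableEq n] [Nonempty n]
    (θ : Matrix n n k →ₐ[k] Matrix n n k) : ∃ c : GL n k, ∀ a, θ a = c.val * a * (c⁻¹).val := by
  have h1 : Function.Injective θ := θ.toRingHom.injective
  obtain ⟨T, hT⟩ := (toLinAlgEquiv'.symm.trans ((AlgEquiv.ofBijective θ
    ⟨h1, LinearMap.injective_iff_surjective (f := θ.toLinearMap).1 h1⟩).trans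
      toLinAlgEquiv')).eq_linearEquivConjAlgEquiv
  refine ⟨⟨LinearMap.toMatrix' T.toLinearMap, LinearMap.toMatrix' T.symm.toLinearMap, ?_, ?_⟩,
    fun a => ?_⟩
  · rw [← LinearMap.toMatrix'_comp]; simp
  · rw [← LinearMap.toMatrix'_comp]; simp
  · have := AlgEquiv.congr_fun hT (toLinAlgEquiv' a)
    rw [AlgEquiv.trans_apply, AlgEquiv.symm_apply_apply, LinearEquiv.conjAlgEquiv_apply] at this
    refine toLin'.injective ?_
    change _ = toLin' (LinearMap.toMatrix' _ * a * LinearMap.toMatrix' _)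
    rw [toLin'_mul, toLin'_mul, toLin'_toMatrix', toLin'_toMatrix']
    exact this

section pi

variable {I : Type v} [Fintype I] [DecidableEq I] {m : I → ℕ}

section
variable {M : I → Type*} [∀ i, Semiring (M i)]

theorem single_mul (i : I) (b : M i) (a : Π i, M i) : Pi.single i b * a = Pi.single i (b * a i) :=
  (Pi.single_mul_left b).symm

theorem mul_single (i : I) (b : M i) (a : Π i, M i) : a * Pi.single i b = Pi.single i (a i * b) :=
  (Pi.single_mul_right b).symm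

theorem single_comm (i : I) (a : Π i, M i) : a * Pi.single i 1 = Pi.single i 1 * a := by
  rw [single_mul, mul_single, one_mul, mul_one]

theorem comm_apply {a : Π i, M i} (h : ∀ b, b * a = a * b) (i : I) (B : M i) :
    B * a i = a i * B := by
  simpa using congrFun (h (Pi.single i B)) i

theorem map_single (f : Π i, M i → M i) (h0 : ∀ i, f i 0 = 0) (h1 : ∀ i, f i 1 = 1) (i : I) :
    (fun j => f j ((Pi.single i 1 : Π i, M i) j)) = Pi.single i 1 := by
  funext j
  by_cases h : j = i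
  · subst h; simp [h1]
  · simp [h, h0]

end

/-- the component of a homomorphism -/
def comp (θ : PM k m →ₐ[k] PM k m) {i j : I} (h : θ (Pi.single i 1) = Pi.single j 1) :
    Matrix (Fin (m i)) (Fin (m i)) k →ₐ[k] Matrix (Fin (m j)) (Fin (m j)) k :=
  AlgHom.ofLinearMap
    { toFun a := θ (Pi.single i a) j
      map_add' a b := by rw [Pi.single_add, map_add, Pi.add_apply]
      map_smul' c a := by rw [Pi.single_smul, map_smul, Pi.smul_apply, RingHom.id_apply] }
    (by simp [h])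
    fun a b => by
      simp only [LinearMap.coe_mk, AddHom.coe_mk]
      rw [Pi.single_mul, map_mul, Pi.mul_apply]

theorem comp_apply (θ : PM k m →ₐ[k] PM k m) {i j : I} (h : θ (Pi.single i 1) = Pi.single j 1)
    (a : PM k m) : θ a j = comp θ h (a i) := by
  change _ = θ (Pi.single i (a i)) j
  rw [← mul_one (a i), ← mul_single, map_mul, h, Pi.mul_apply, Pi.single_eq_same, mul_one]

theorem exists_perm (hm : ∀ i, 0 < m i) (θ : PM k m ≃ₐ[k] PM k m) :
    ∃ π : Equiv.Perm I, ∀ i, θ (Pi.single i 1) = Pi.single (π i) 1 ∧ m (π i) = m i := by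
  have hn : ∀ i, Nonempty (Fin (m i)) := fun i => ⟨⟨0, hm i⟩⟩
  have key : ∀ (θ : PM k m ≃ₐ[k] PM k m) i j, θ (Pi.single i 1) j ≠ 0 →
      θ (Pi.single i 1) j = 1 := fun θ i j h => idem_of_comm (comm_apply (fun b => by
        obtain ⟨b, rfl⟩ := θ.surjective b
        rw [← map_mul, single_comm, map_mul]) j)
      (by rw [← Pi.mul_apply, ← map_mul, ← Pi.single_mul, one_mul]) h
  have h1 : ∀ i, ∃ j, θ (Pi.single i 1) = Pi.single j 1 := fun i => by
    obtain ⟨j, hj⟩ : ∃ j, θ (Pi.single i 1) j ≠ 0 := Function.ne_iff.1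
      (show θ (Pi.single i 1) ≠ 0 by simp)
    have h2 : θ.symm (Pi.single j 1) = Pi.single i (θ.symm (Pi.single j 1) i) := by
      refine θ.injective ?_
      rw [← mul_one (θ.symm _ i), ← mul_single, map_mul, θ.apply_symm_apply, single_mul,
        key θ i j hj, one_mul]
    refine ⟨j, ?_⟩
    rw [key θ.symm j i fun h => by simp [h] at h2] at h2
    rw [← h2, θ.apply_symm_apply]
  choose π hπ using h1
  have h2 : Function.Injective π := fun i j h => by
    have := congrFun (θ.injective ((hπ i).trans (h ▸ (hπ j).symm))) i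
    by_contra h3
    simp [h3] at this
  have h3 : ∀ i, m i ≤ m (π i) := fun i => by
    have := LinearMap.finrank_le_finrank_of_injective (f := (comp θ.toAlgHom (hπ i)).toLinearMap)
      (comp θ.toAlgHom (hπ i)).toRingHom.injective
    simpa [Module.finrank_matrix, Nat.mul_self_le_mul_self_iff] using this
  let π' := Equiv.ofBijective π (Finite.injective_iff_bijective.1 h2)
  exact ⟨π', fun i => ⟨hπ i, ((sum_eq_sum_iff_of_le fun i _ => h3 i).1
    (Equiv.sum_comp π' m).symm i (mem_univ i)).symm⟩⟩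

variable [Big k] (Φ : Frob k)

theorem σ_surj : Function.Surjective Φ.σ := fun y => by
  obtain ⟨x, hx⟩ := IsAlgClosed.exists_pow_nat_eq y (zero_lt_one.trans Φ.one_lt_q)
  exact ⟨x, by rw [Φ.hσ, hx]⟩

theorem mat_surj : Function.Surjective (Φ.mat : Matrix ι ι k → _) := fun M => by
  choose f hf using σ_surj Φ
  refine ⟨if Φ.neg then (M.map f)ᵀ else M.map f, ?_⟩
  unfold Frob.mat
  split_ifs <;> ext i j <;> simp [hf]

theorem mat_mul' (A B : Matrix ι ι k) :
    Φ.mat A * Φ.mat B = Φ.mat (if Φ.neg then B * A else A * B) := by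
  split_ifs with h <;> rw [mat_mul] <;> simp [h]

theorem exists_aut (ρ : PM k m →ₐ[k] Matrix ι ι k) (hρ : Function.Injective ρ)
    (h : ∀ a, Φ.mat (ρ a) ∈ ρ.range) :
    ∃ θ : PM k m ≃ₐ[k] PM k m, ∀ a, Φ.mat (ρ a) = ρ (θ fun i => Φ.mat (a i)) := by
  let μ : PM k m ≃ PM k m := Equiv.piCongrRight fun i =>
    Equiv.ofBijective Φ.mat ⟨mat_injective, mat_surj Φ⟩
  have hμ : ∀ a i, μ a i = Φ.mat (a i) := fun _ _ => rfl
  let ρ' : PM k m →ₐ[k] Matrix ι ι k := AlgHom.ofLinearMap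
    { toFun a := Φ.mat (ρ (μ.symm a))
      map_add' a b := by
        obtain ⟨a, rfl⟩ := μ.surjective a
        obtain ⟨b, rfl⟩ := μ.surjective b
        rw [show μ a + μ b = μ (a + b) from funext fun i => (mat_add _ _).symm]
        simp only [Equiv.symm_apply_apply, map_add, mat_add]
      map_smul' c a := by
        obtain ⟨a, rfl⟩ := μ.surjective a
        obtain ⟨c, rfl⟩ := σ_surj Φ c
        rw [show Φ.σ c • μ a = μ (c • a) from funext fun i => (mat_smul _ _).symm]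
        simp only [Equiv.symm_apply_apply, map_smul, mat_smul, RingHom.id_apply] }
    (by
      rw [show (1 : PM k m) = μ 1 from funext fun i => mat_one.symm]
      simp [mat_one])
    fun a b => by
      obtain ⟨a, rfl⟩ := μ.surjective a
      obtain ⟨b, rfl⟩ := μ.surjective b
      rw [show μ a * μ b = μ (if Φ.neg then b * a else a * b) from funext fun i => by
        rw [Pi.mul_apply, hμ, hμ, hμ, mat_mul']; split_ifs <;> rfl]
      simp only [LinearMap.coe_mk, AddHom.coe_mk, Equiv.symm_apply_apply, mat_mul']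
      split_ifs <;> rw [map_mul]
  let θ := (AlgEquiv.ofInjective ρ hρ).symm.toAlgHom.comp (ρ'.codRestrict ρ.range fun a => h _)
  have hθ : ∀ a, ρ (θ a) = Φ.mat (ρ (μ.symm a)) := fun a =>
    congrArg Subtype.val ((AlgEquiv.ofInjective ρ hρ).apply_symm_apply _)
  have h1 : Function.Injective θ := fun a b e =>
    μ.symm.injective (hρ (mat_injective (by rw [← hθ, ← hθ, e])))
  refine ⟨AlgEquiv.ofBijective θ ⟨h1, LinearMap.injective_iff_surjective (f := θ.toLinearMap).1 h1⟩,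
    fun a => ?_⟩
  exact ((hθ (μ a)).trans (by rw [μ.symm_apply_apply])).symm

theorem mat_single (i : I) :
    (fun j => Φ.mat ((Pi.single i 1 : PM k m) j)) = (Pi.single i 1 : PM k m) :=
  map_single (M := fun i => Matrix (Fin (m i)) (Fin (m i)) k) (fun _ => Φ.mat)
    (fun _ => mat_zero) (fun _ => mat_one) i

end pi

theorem val_prev {n : ℕ} (i : Fin n) : (i : ℕ) = ((finRotate n).symm i + 1) % n := by
  conv_lhs => rw [← (finRotate n).apply_symm_apply i]
  generalize (finRotate n).symm i = j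
  cases n with
  | zero => exact j.elim0
  | succ n => rw [finRotate_apply, Fin.val_add, Fin.val_one', Nat.add_mod_mod]

theorem const_of_prev {α : Type*} {n : ℕ} (g : Fin n → α) (h : ∀ i, g ((finRotate n).symm i) = g i)
    (i j : Fin n) : g i = g j := by
  cases n with
  | zero => exact i.elim0
  | succ n =>
    have : ∀ i, g i = g 0 := fun i => by
      induction i using Fin.induction with
      | zero => rfl
      | succ i ih => rw [← h, ← ih, ← Fin.coeSucc_eq_succ, ← finRotate_apply, Equiv.symm_apply_apply]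
    rw [this, this j]

theorem iterate_prev {n : ℕ} (i : Fin n) : (finRotate n).symm^[n] i = i := by
  have : ∀ t (i : Fin n), (i : ℕ) = ((finRotate n).symm^[t] i + t) % n := fun t => by
    induction t with
    | zero => exact fun i => (Nat.mod_eq_of_lt i.2).symm
    | succ t ih =>
      intro i
      rw [Function.iterate_succ_apply', ih i, val_prev (_^[t] i), Nat.mod_add_mod, add_assoc,
        add_comm 1]
  refine Fin.ext ?_
  rw [this n i, Nat.add_mod_right, Nat.mod_eq_of_lt (Fin.is_lt _)]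

theorem exists_orbits {Ω : Type} [Finite Ω] (π : Equiv.Perm Ω) :
    ∃ (r : ℕ) (d : Fin r → ℕ) (E : Om d ≃ Ω), (∀ j, 0 < d j) ∧ ∀ x, π (E (prev x)) = E x := by
  classical
  have h : GLn.Dyn.AllPer π := fun x => π.injective.mem_periodicPts x
  have : Finite (GLn.Dyn.Orb π) := Finite.of_surjective _ GLn.Dyn.omk_surj
  let e := (Finite.equivFin (GLn.Dyn.Orb π)).symm
  refine ⟨_, fun j => (e j).per, Equiv.ofBijective (fun x => π^[x.2] (e x.1).rep) ⟨?_, ?_⟩,
    fun j => h.per_pos _, fun x => ?_⟩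
  · rintro ⟨j, i⟩ ⟨j', i'⟩ h1
    have h2 := congrArg (GLn.Dyn.omk π) h1
    simp only [GLn.Dyn.omk_iterate, GLn.Dyn.omk_rep] at h2
    obtain rfl := e.injective h2
    exact congrArg _ (Fin.ext ((e j).injOn (by simp) (by simp) h1))
  · intro x
    obtain ⟨j, hj⟩ := e.surjective (GLn.Dyn.omk π x)
    obtain ⟨i, hi, h1⟩ := Finset.mem_image.1 (h.mem_pts.2 hj.symm)
    exact ⟨⟨j, i, mem_range.1 hi⟩, h1⟩
  · change π (π^[((finRotate _).symm x.2 : ℕ)] (e x.1).rep) = π^[x.2] (e x.1).rep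
    rw [← Function.iterate_succ_apply' π, val_prev x.2]
    exact (Function.iterate_mod_minimalPeriod_eq).symm

variable {J : Type v} [Fintype J] [DecidableEq J] {d m δ : J → ℕ}

theorem prev_injective : Function.Injective (prev : Om d → Om d) := by
  rintro ⟨j, i⟩ ⟨j', i'⟩ h
  obtain ⟨rfl, h1⟩ := Sigma.mk.inj_iff.1 h
  exact congrArg _ ((finRotate _).symm.injective (eq_of_heq h1))

theorem single_prev (f : Π x : Om d, Matrix (Fin (m x.1)) (Fin (m x.1)) k →
      Matrix (Fin (m x.1)) (Fin (m x.1)) k) (hf : ∀ x, f x 0 = 0) (x : Om d)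
    (b : Matrix (Fin (m x.1)) (Fin (m x.1)) k) :
    (fun y => f y ((Pi.single (prev x) b : PM k fun x : Om d => m x.1) (prev y))) =
      (Pi.single x (f x b) : PM k fun x : Om d => m x.1) := by
  funext y
  by_cases h : y = x
  · subst h; simp
  · rw [Pi.single_eq_of_ne h, Pi.single_eq_of_ne (prev_injective.ne h), hf]

theorem exists_emb (ρ : PM k (fun x : Om d => m x.1) →ₐ[k] Matrix ι ι k) (o : ∀ j, Fin (m j))
    (h : ∀ x, (ρ (Pi.single x (single (o x.1) (o x.1) 1))).rank = δ x.1) :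
    ∃ e g, emb (δ := δ) e g = ρ := by
  let u := fun (x : Om d) (s t : Fin (m x.1)) => ρ (Pi.single x (single s t 1))
  have k1 : ∀ a x s t s' t', u x s t * ρ a * u x s' t' = a x t s' • u x s t' := by
    intro a x s t s' t'
    simp only [u, ← map_mul, ← map_smul, single_mul, Pi.single_eq_same, single_mul_mul_single,
      ← Pi.single_smul, smul_single]
    simp
  have k2 : ∀ a x y s t s' t', x ≠ y → u x s t * ρ a * u y s' t' = 0 := by
    intro a x y s t s' t' hxy
    simp only [u, ← map_mul, single_mul, Pi.single_eq_of_ne hxy, Matrix.mul_zero, Pi.single_zero,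
      map_zero]
  have k3 : ∀ x s t t', u x s t * u x t t' = u x s t' := fun x s t t' => by
    simpa using k1 1 x s t t t'
  choose A B hAB hBA using fun x => exists_fact (k3 x (o x.1) (o x.1) (o x.1)) (h x)
  let H : Matrix ι (Σ x : Om d, Fin (δ x.1) × Fin (m x.1)) k :=
    of fun i z => (u z.1 z.2.2 (o _) * A z.1) i z.2.1
  let H' : Matrix (Σ x : Om d, Fin (δ x.1) × Fin (m x.1)) ι k :=
    of fun z i => (B z.1 * u z.1 (o _) z.2.2) z.2.1 i
  have h1 : ∀ a, H' * ρ a * H = bdg δ a := fun a => by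
    ext ⟨x, s, t⟩ ⟨y, s', t'⟩
    change (B x * u x (o _) t * ρ a * (u y t' (o _) * A y)) s s' = _
    rw [Matrix.mul_assoc (B x), Matrix.mul_assoc (B x), ← Matrix.mul_assoc (_ * ρ a)]
    by_cases hxy : x = y
    · subst hxy
      rw [k1, ← hAB, Matrix.smul_mul, Matrix.mul_smul, Matrix.mul_assoc, hBA, Matrix.mul_one, hBA,
        bdg, blockDiagonal'_apply_eq, kr, kronecker_apply, Matrix.smul_apply, smul_eq_mul, mul_comm]
    · rw [k2 _ _ _ _ _ _ _ hxy, bdg, blockDiagonal'_apply_ne _ _ _ hxy]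
      simp
  have h2 : H * H' = 1 := by
    have h3 : ∑ x, ∑ t, u x t t = 1 := by
      simp only [u, ← map_sum]
      rw [← map_one ρ, ← univ_sum_single (1 : PM k fun x : Om d => m x.1)]
      congr 1
      refine sum_congr rfl fun x _ => ?_
      rw [Pi.one_apply, ← sum_single_one]
      exact (map_sum (AddMonoidHom.single (fun x : Om d => Matrix (Fin (m x.1)) (Fin (m x.1)) k) x)
        _ _).symm
    rw [← h3]
    ext i j
    rw [mul_apply, Fintype.sum_sigma, Matrix.sum_apply]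
    refine sum_congr rfl fun x _ => ?_
    rw [Fintype.sum_prod_type_right, Matrix.sum_apply]
    refine sum_congr rfl fun t _ => ?_
    change (u x t (o _) * A x * (B x * u x (o _) t)) i j = _
    rw [Matrix.mul_assoc, ← Matrix.mul_assoc (A x), hAB, k3, k3]
  have h3 : H' * H = 1 := by simpa [bdg_one] using h1 1
  let e := (Fintype.equivOfCardEq (square_of_invertible H H' h2 h3)).symm
  refine ⟨e, ⟨H.submatrix id e.symm, H'.submatrix e.symm id, ?_, ?_⟩, AlgHom.ext fun a => ?_⟩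
  · rw [submatrix_mul_equiv, h2, submatrix_id_id]
  · rw [← submatrix_mul _ _ _ _ _ Function.bijective_id, h3, submatrix_one_equiv]
  · rw [emb_apply, reindex_apply]
    change H.submatrix id e.symm * _ * H'.submatrix e.symm id = _
    rw [submatrix_mul_equiv, submatrix_mul_equiv, submatrix_id_id, ← h1, ← Matrix.mul_assoc,
      ← Matrix.mul_assoc, h2, Matrix.one_mul, Matrix.mul_assoc, h2, Matrix.mul_one]

variable [Big k] {Φ : Frob k}

theorem lang_pi (hL : StLang k) (hd : ∀ j, 0 < d j) (c : Π x : Om d, GL (Fin (m x.1)) k) :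
    ∃ g : Π x : Om d, GL (Fin (m x.1)) k, ∀ x, g x = c x * Φ.Fr _ (g (prev x)) := by
  let u : Π j, ℕ → GL (Fin (m j)) k := fun j =>
    Nat.rec 1 fun i y => c ⟨j, (i + 1) % d j, Nat.mod_lt _ (hd j)⟩ * Φ.Fr _ y
  choose h hh using fun j => hL (Φ.pow (d j)) (Fin (m j)) (u j (d j))
  let G : Π j, ℕ → GL (Fin (m j)) k := fun j i => u j i * (Φ.Fr _)^[i] (h j)⁻¹
  have h1 : ∀ j i, G j (i + 1) = c ⟨j, (i + 1) % d j, Nat.mod_lt _ (hd j)⟩ * Φ.Fr _ (G j i) :=
    fun j i => by
      simp only [G, map_mul, Function.iterate_succ_apply', ← mul_assoc]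
      rfl
  have h2 : ∀ j, G j (d j) = G j 0 := fun j => by
    simp only [G, hh j, ← Φ.Fr_pow (hd j), map_inv, mul_inv_cancel_right]
    exact (one_mul _).symm
  refine ⟨fun x => G x.1 x.2, fun ⟨j, i⟩ => ?_⟩
  have h3 := val_prev i
  have h4 : G j i = G j ((finRotate _).symm i + 1) := by
    rcases (Nat.succ_le_of_lt ((finRotate _).symm i).2).lt_or_eq with h | h
    · rw [h3, Nat.mod_eq_of_lt h]
    · rw [h3, show ((finRotate _).symm i : ℕ) + 1 = d j from h, Nat.mod_self, h2]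
  change G j i = c ⟨j, i⟩ * Φ.Fr _ (G j ((finRotate _).symm i))
  rw [h4, h1]
  congr 3
  exact Fin.ext h3.symm

theorem normalize (hL : StLang k) (hd : ∀ j, 0 < d j) (hm : ∀ j, 0 < m j)
    (θ : PM k (fun x : Om d => m x.1) →ₐ[k] PM k (fun x : Om d => m x.1))
    (h : ∀ x, θ (Pi.single (prev x) 1) = Pi.single x 1) :
    ∃ κ : PM k (fun x : Om d => m x.1) ≃ₐ[k] PM k (fun x : Om d => m x.1),
      ∀ a, θ (fun x => Φ.mat (κ a x)) = κ fun x => Φ.mat (a (prev x)) := by
  have : ∀ j, Nonempty (Fin (m j)) := fun j => ⟨⟨0, hm j⟩⟩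
  choose c hc using fun x : Om d => inner (n := Fin (m x.1)) (comp θ (h x) :)
  obtain ⟨g, hg⟩ := lang_pi (Φ := Φ) hL hd c
  let κ : PM k (fun x : Om d => m x.1) ≃ₐ[k] PM k (fun x : Om d => m x.1) :=
    AlgEquiv.piCongrRight fun x => MulSemiringAction.toAlgEquiv k _ (ConjAct.toConjAct (g x))
  have hκ : ∀ a x, κ a x = (g x).val * a x * ((g x)⁻¹).val := fun _ _ => rfl
  refine ⟨κ, fun a => funext fun x => ?_⟩
  rw [hκ, hg x, comp_apply θ (h x), hc, hκ, mat_conj]
  simp only [_root_.mul_inv_rev, Units.val_mul, mul_assoc]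

/-- normal form of a Frobenius stable semisimple subalgebra -/
theorem exists_normal (hL : StLang k) (C : Subalgebra k (Matrix ι ι k)) [IsSemisimpleRing C]
    (hC : ∀ M ∈ C, Φ.mat M ∈ C) : ∃ (r : ℕ) (d m : Fin r → ℕ)
    (ρ : PM k (fun x : Om d => m x.1) →ₐ[k] Matrix ι ι k), (∀ j, 0 < d j) ∧ (∀ j, 0 < m j) ∧
      Function.Injective ρ ∧ ρ.range = C ∧ ∀ a, Φ.mat (ρ a) = ρ fun x => Φ.mat (a (prev x)) := by
  obtain ⟨n, m₀, hm₀, ⟨ψ⟩⟩ := IsSemisimpleRing.exists_algEquiv_pi_matrix_of_isAlgClosed k C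
  have hm : ∀ i, 0 < m₀ i := fun i => (hm₀ i).pos
  have good : ∀ {B : Type u} [Ring B] [Algebra k B] (κ : B ≃ₐ[k] C),
      Function.Injective (C.val.comp κ.toAlgHom) ∧ (C.val.comp κ.toAlgHom).range = C :=
    fun κ => ⟨Subtype.val_injective.comp κ.injective, by
      rw [AlgHom.range_comp, (AlgHom.range_eq_top _).2 κ.surjective, Algebra.map_top,
        Subalgebra.range_val]⟩
  have stab : ∀ {B : Type u} [Ring B] [Algebra k B] (κ : B ≃ₐ[k] C) (a : B),
      Φ.mat (C.val.comp κ.toAlgHom a) ∈ (C.val.comp κ.toAlgHom).range :=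
    fun κ a => (good κ).2.symm ▸ hC _ (κ a).2
  obtain ⟨θ₀, h0⟩ := exists_aut Φ _ (good ψ.symm).1 (stab ψ.symm)
  obtain ⟨π, hπ⟩ := exists_perm hm θ₀
  obtain ⟨r, d, E, hd, hE⟩ := exists_orbits π
  obtain ⟨m, h1⟩ : ∃ m : Fin r → ℕ, ∀ x : Om d, m x.1 = m₀ (E x) :=
    ⟨fun j => m₀ (E ⟨j, 0, hd j⟩), fun x => const_of_prev (fun i => m₀ (E ⟨x.1, i⟩))
      (fun i => by rw [← hE ⟨x.1, i⟩, (hπ _).2]) _ _⟩
  have hm' : ∀ j, 0 < m j := fun j => (h1 ⟨j, 0, hd j⟩).symm ▸ hm _
  obtain ⟨κ, hκ⟩ : ∃ κ : PM k (fun x : Om d => m x.1) ≃ₐ[k] PM k m₀,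
      ∀ x, κ (Pi.single x 1) = Pi.single (E x) 1 := by
    refine ⟨(AlgEquiv.piCongrRight fun x => reindexAlgEquiv k k (finCongr (h1 x))).trans
      (AlgEquiv.piCongrLeft k (fun i => Matrix (Fin (m₀ i)) (Fin (m₀ i)) k) E), fun x => ?_⟩
    funext i
    obtain ⟨y, rfl⟩ := E.surjective i
    change Equiv.piCongrLeft (fun i => Matrix (Fin (m₀ i)) (Fin (m₀ i)) k) E _ (E y) = _
    rw [Equiv.piCongrLeft_apply_apply]
    change reindexAlgEquiv k k (finCongr (h1 y))
      ((Pi.single x 1 : PM k fun x : Om d => m x.1) y) = _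
    by_cases h : y = x
    · subst h; simp
    · rw [Pi.single_eq_of_ne h, Pi.single_eq_of_ne (E.injective.ne h), map_zero]
  obtain ⟨θ, h2⟩ := exists_aut Φ _ (good (κ.trans ψ.symm)).1 (stab (κ.trans ψ.symm))
  have h3 : ∀ x, θ.toAlgHom (Pi.single (prev x) 1) = Pi.single x 1 := fun x => by
    refine (good (κ.trans ψ.symm)).1 ?_
    have h4 := (h2 _).trans (congrArg (fun a => C.val.comp (κ.trans ψ.symm).toAlgHom (θ a))
      (mat_single Φ (m := fun x : Om d => m x.1) (prev x)))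
    have h5 := h0 (Pi.single (E (prev x)) 1)
    rw [mat_single] at h5
    rw [(hπ _).1, hE, ← hκ, ← hκ] at h5
    exact h4.symm.trans h5
  obtain ⟨κ', h4⟩ := normalize (Φ := Φ) hL hd hm' θ.toAlgHom h3
  exact ⟨r, d, m, _, hd, hm', (good (κ'.trans (κ.trans ψ.symm))).1,
    (good (κ'.trans (κ.trans ψ.symm))).2, fun a => (h2 (κ' a)).trans
      (congrArg (C.val.comp (κ.trans ψ.symm).toAlgHom) (h4 a))⟩

theorem dvd_of_nontrivial (D : Dec ι d m δ Φ) {p : ℕ} (hp : p.Prime) {R : Subgroup (Φ.G ι)}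
    (hR : IsPGroup p R) (hi : Function.Injective (emb D.e D.h)) (hm : ∀ j, 0 < m j)
    (hc : ∀ M, M ∈ (emb D.e D.h).range ↔ ∀ x ∈ R, Commute M x.1.val) {j : J} {i : Fin (d j)}
    {x : Φ.G ι} (hx : x ∈ R)
    (h : emb D.e D.h (Pi.single ⟨j, i⟩ 1) * x.1.val ≠ emb D.e D.h (Pi.single ⟨j, i⟩ 1)) :
    (p : ℤ) ∣ Φ.Q ^ d j - 1 := by
  have := Fact.mk hp
  have : Nonempty (Fin (m j)) := ⟨⟨0, hm j⟩⟩
  obtain ⟨ρ, hρ⟩ : ∃ ρ, ρ = emb D.e D.h := ⟨_, rfl⟩
  have hfr := D.fr
  rw [← hρ] at hi hc h hfr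
  let e := fun y : Om d => ρ (Pi.single y 1)
  have c1 : ∀ a, ∀ x ∈ R, ρ a * x.1.val = x.1.val * ρ a := fun a => (hc _).1 ⟨a, rfl⟩
  let K : Subgroup R :=
    { carrier := {r | e ⟨j, i⟩ * r.1.1.val = e ⟨j, i⟩}
      mul_mem' := fun {a b} ha hb => by
        change _ * (a.1.1.val * b.1.1.val) = _
        rw [← mul_assoc, ha, hb]
      one_mem' := mul_one _
      inv_mem' := fun {a} ha => by
        change _ * (a.1.1⁻¹).val = _
        rw [← show _ = e ⟨j, i⟩ from ha, mul_assoc, Units.mul_inv, mul_one]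
        exact ha.symm }
  have : K.Normal := ⟨fun a ha g => by
    change _ * (g.1.1.val * a.1.1.val * (g.1.1⁻¹).val) = _
    rw [← mul_assoc, ← mul_assoc, c1 _ _ g.2, mul_assoc g.1.1.val, ha, ← c1 _ _ g.2, mul_assoc,
      Units.mul_inv, mul_one]⟩
  have : Nontrivial (R ⧸ K) := ⟨⟨(⟨x, hx⟩ : R), 1, fun h1 => h ((QuotientGroup.eq_one_iff _).1 h1)⟩⟩
  obtain ⟨⟨z, hz⟩, h1⟩ := @exists_ne _ (hR.to_quotient K).center_nontrivial 1
  obtain ⟨z, rfl⟩ := QuotientGroup.mk_surjective z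
  obtain ⟨a, ha⟩ := (hc (e ⟨j, i⟩ * z.1.1.val)).2 fun y hy => by
    have h2 : e ⟨j, i⟩ * (((y.1 * z.1.1)⁻¹).val * (z.1.1.val * y.1.val)) = e ⟨j, i⟩ :=
      QuotientGroup.eq.1 (Subgroup.mem_center_iff.1 hz (⟨y, hy⟩ : R))
    have h3 := congrArg ((y.1 * z.1.1).val * ·) h2
    have h4 : e ⟨j, i⟩ * (y.1 * z.1.1).val = (y.1 * z.1.1).val * e ⟨j, i⟩ :=
      c1 _ (y * z.1) (R.mul_mem hy z.2)
    simp only [← mul_assoc] at h3
    rw [← h4, mul_assoc (e _), Units.mul_inv, mul_one, Units.val_mul, ← mul_assoc,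
      c1 _ _ hy, mul_assoc y.1.val] at h3
    exact h3
  replace ha : ρ a = _ := ha
  obtain ⟨c, h2⟩ := scalar_of_comm (comm_apply (a := a) (fun b => hi (by
    rw [map_mul, map_mul, ha, ← mul_assoc, ← map_mul, single_comm, map_mul, mul_assoc, mul_assoc,
      c1 _ _ z.2])) ⟨j, i⟩)
  have h3 : e ⟨j, i⟩ * z.1.1.val = c • e ⟨j, i⟩ := by
    have : e ⟨j, i⟩ * e ⟨j, i⟩ = e ⟨j, i⟩ := by rw [← map_mul, ← Pi.single_mul, one_mul]
    rw [← this, mul_assoc, ← ha, this, ← map_mul, single_mul, one_mul, h2, Pi.single_smul,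
      map_smul]
  have h0 : e ⟨j, i⟩ ≠ 0 := fun h => by simpa using hi (h.trans (map_zero ρ).symm)
  obtain ⟨N, hN⟩ := hR z
  have h4 : ∀ n : ℕ, e ⟨j, i⟩ * (z ^ n).1.1.val = c ^ n • e ⟨j, i⟩ := fun n => by
    induction n with
    | zero => simp
    | succ n ih =>
      rw [pow_succ]
      change _ * ((z ^ n).1.1.val * z.1.1.val) = _
      rw [← mul_assoc, ih, smul_mul_assoc, h3, smul_smul, pow_succ]
  have h5 : c ^ p ^ N = 1 := smul_left_injective k h0 (by
    beta_reduce; rw [← h4, hN, one_smul]; exact mul_one _)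
  obtain ⟨ζ, rfl⟩ : ∃ ζ : kˣ, ζ.val = c := ⟨Units.ofPowEqOne c _ h5 (pow_ne_zero _ hp.ne_zero), rfl⟩
  have h6 : ∀ (ξ : kˣ) y, e (prev y) * z.1.1.val = ξ.val • e (prev y) →
      e y * z.1.1.val = (ξ ^ Φ.Q).val • e y := fun ξ y h6 => by
    have h7 : Φ.mat (e (prev y)) = e y := by
      rw [hfr, single_prev (fun _ => Φ.mat) fun _ => mat_zero, mat_one]
    have h8 := Φ.Fr_val z.1.1
    rw [show Φ.Fr ι z.1.1 = z.1.1 from z.1.2] at h8
    rw [h8, ← h7, mat_mul', ← σ_val, ← mat_smul]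
    congr 1
    split_ifs
    · rw [Units.inv_mul_eq_iff_eq_mul, mul_smul_comm, ← c1 _ _ z.2, h6, smul_smul, Units.inv_mul,
        one_smul]
    · exact h6
  have h7 : ∀ (n : ℕ) (i' : Fin (d j)), e ⟨j, (finRotate _).symm^[n] i'⟩ * z.1.1.val =
      ζ.val • e ⟨j, (finRotate _).symm^[n] i'⟩ →
      e ⟨j, i'⟩ * z.1.1.val = (ζ ^ Φ.Q ^ n).val • e ⟨j, i'⟩ := fun n => by
    induction n with
    | zero => simp
    | succ n ih =>
      intro i' h7
      rw [pow_succ, _root_.zpow_mul]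
      exact h6 _ ⟨j, i'⟩ (ih _ h7)
  have h8 := h7 (d j) i (by rwa [iterate_prev])
  have h9 : ζ ^ (Φ.Q ^ d j - 1) = 1 := by
    rw [_root_.zpow_sub_one, ← Units.ext (smul_left_injective k h0 (h3.symm.trans h8)),
      mul_inv_cancel]
  refine (Int.natCast_dvd_natCast.2 ?_).trans (orderOf_dvd_iff_zpow_eq_one.2 h9)
  obtain ⟨b, -, hb⟩ := (Nat.dvd_prime_pow hp).1
    (orderOf_dvd_of_pow_eq_one (x := ζ) (n := p ^ N) (Units.ext h5))
  rcases b with _ | b
  · rw [pow_zero, orderOf_eq_one_iff] at hb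
    subst hb
    exact absurd (Subtype.ext ((QuotientGroup.eq_one_iff _).2 (h3.trans (one_smul _ _)))) h1
  · rw [hb]; exact dvd_pow_self p b.succ_ne_zero

end GCT

open GCT Matrix in
/-- piece `GCT` -/
theorem stGCT {k : Type*} [Field k] [Big k] (hL : StLang k) : StGCT k := by
  intro Φ ι _ _ p hp h0 R hR
  have := Fact.mk hp
  have hk : (p : k) ≠ 0 := fun h =>
    h0 ((Nat.prime_dvd_prime_iff_eq Big.prime hp).1 ((ringChar.spec k p).1 h)).symm
  let ρR : R →* Matrix ι ι k := (Units.coeHom _).comp ((Φ.G ι).subtype.comp R.subtype)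
  have := semisimple (ρ := ρR) (by
    obtain ⟨a, ha⟩ := hR.exists_card_eq
    rw [ha, Nat.cast_pow]
    exact pow_ne_zero _ hk)
  obtain ⟨r, d, m, ρ, hd, hm, h1, h2, h3⟩ := exists_normal (Φ := Φ) hL (Cm ρR) fun M hM =>
    mem_Cm.2 fun r => by
      have h1 := mat_conj (Φ := Φ) r.1.1 M
      rw [show Φ.Fr ι r.1.1 = r.1.1 from r.1.2, 
        show r.1.1.val * M * (r.1.1⁻¹).val = M from mem_Cm.1 hM r] at h1
      exact h1.symm
  let o : ∀ j, Fin (m j) := fun j => ⟨0, hm j⟩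
  let f := fun x : Om d => (ρ (Pi.single x (single (o x.1) (o x.1) 1))).rank
  have hf : ∀ x : Om d, f x = f ⟨x.1, 0, hd _⟩ := fun x => const_of_prev (fun i => f ⟨x.1, i⟩)
    (fun i => by
      have := congrArg rank (h3 (Pi.single (prev ⟨x.1, i⟩) (single (o x.1) (o x.1) 1)))
      rw [rank_mat, single_prev (fun _ => Φ.mat) fun _ => mat_zero] at this
      refine this.trans ?_
      congr 3
      unfold Frob.mat
      split_ifs <;> simp) _ _
  obtain ⟨δ, hδ⟩ : ∃ δ : Fin r → ℕ, ∀ x : Om d,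
      (ρ (Pi.single x (single (o x.1) (o x.1) 1))).rank = δ x.1 :=
    ⟨fun j => f ⟨j, 0, hd j⟩, hf⟩
  clear hf f
  obtain ⟨e, g, rfl⟩ := exists_emb ρ o hδ
  have hc : ∀ M, M ∈ (emb e g).range ↔ ∀ x ∈ R, Commute M x.1.val := fun M => by
    rw [h2, mem_Cm]
    exact ⟨fun h x hx => cj_eq_iff.1 (h ⟨x, hx⟩), fun h r => cj_eq_iff.2 (h r r.2)⟩
  refine ⟨r, d, m, _, ⟨e, g, hd, h3⟩, hm, fun j => ?_, hc, fun j => ?_⟩
  · obtain ⟨P, hP⟩ : ∃ P, P = emb e g (Pi.single ⟨j, 0, hd j⟩ (single (o j) (o j) 1)) := ⟨_, rfl⟩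
    replace hδ : P.rank = δ j := hP ▸ hδ ⟨j, 0, hd j⟩
    generalize δ j = δ at hδ
    obtain ⟨A, B, h4, h5⟩ := exists_fact (P := P) (by
      rw [hP, ← map_mul, ← Pi.single_mul, single_mul_single_same, mul_one]) hδ
    obtain ⟨ρ', h6⟩ := exists_compress (ρ := ρR) h5
      (by rw [h4, hP]; exact mem_Cm.1 (h2 ▸ ⟨_, rfl⟩)) fun X hX h6 => by
        obtain ⟨a, rfl⟩ : X ∈ (emb e g).range := h2 ▸ mem_Cm.2 hX
        refine ⟨a ⟨j, 0, hd j⟩ (o j) (o j), h6.symm.trans ?_⟩
        change A * B * emb e g a * (A * B) = _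
        simp only [h4, hP, ← map_mul, ← map_smul, GCT.single_mul, Pi.single_eq_same,
          single_mul_mul_single, ← Pi.single_smul, smul_single]
        simp
    have : Nonempty (Fin δ) := by
      rcases δ with _ | δ
      · have h7 := h1 (hP.symm.trans (h4.symm.trans ((show A * B = 0 by ext; simp [mul_apply]).trans
          (map_zero (emb e g)).symm)))
        simpa using congrFun (congrFun (congrFun h7 ⟨j, 0, hd j⟩) (o j)) (o j)
      · infer_instance
    obtain ⟨a, ha⟩ := dim_pow hp hk _ R rfl hR _ ρ' h6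
    exact ⟨a, by rw [← ha, Fintype.card_fin]⟩
  · by_contra h4
    push Not at h4
    obtain ⟨h4, x, hx, i, h5⟩ := h4
    exact h4 (dvd_of_nontrivial ⟨e, g, hd, h3⟩ hp hR h1 hm hc hx h5)

end Cfsg.GUn
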