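import Mathlib
import Cfsg.Agent.Grp.Basic

/-! Commutants of finite matrix groups in coprime characteristic. -/

set_option autoImplicit false
set_option linter.unusedSectionVars false
set_option linter.unusedVariables false

namespace Cfsg.GUn.GCT

open Matrix Finset

universe u v

variable {k : Type u} [Field k] {ι : Type} [Fintype ι] [DecidableEq ι]

/-- rank factorisation of an idempotent -/
theorem exists_fact {P : Matrix ι ι k} (h : P * P = P) {n : ℕ} (hn : P.rank = n) :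
    ∃ (A : Matrix ι (Fin n) k) (B : Matrix (Fin n) ι k), A * B = P ∧ B * A = 1 := by
  let b := Module.finBasisOfFinrankEq k (LinearMap.range (toLin' P)) hn
  refine ⟨LinearMap.toMatrix b (Pi.basisFun k ι) (Submodule.subtype _),
    LinearMap.toMatrix (Pi.basisFun k ι) b (toLin' P).rangeRestrict, ?_, ?_⟩
  · rw [← LinearMap.toMatrix_comp, LinearMap.rangeRestrict, LinearMap.subtype_comp_codRestrict,
      LinearMap.toMatrix_eq_toMatrix', LinearMap.toMatrix'_toLin']
  · rw [← LinearMap.toMatrix_comp, ← LinearMap.toMatrix_id b]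
    congr 1
    ext ⟨_, v, rfl⟩ : 2
    simp [h]

theorem exists_ginv (x : Matrix ι ι k) : ∃ b : Matrix ι ι k, x * b * x = x := by
  obtain ⟨g, hg⟩ := (toLin' x).rangeRestrict.exists_rightInverse_of_surjective
    (LinearMap.range_rangeRestrict _)
  obtain ⟨f, hf⟩ := (LinearMap.range (toLin' x)).subtype.exists_leftInverse_of_injective
    (Submodule.ker_subtype _)
  refine ⟨LinearMap.toMatrix' (g ∘ₗ f), toLin'.injective (LinearMap.ext fun v => ?_)⟩
  have h1 := LinearMap.congr_fun hf ((toLin' x).rangeRestrict v)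
  have h2 := congrArg Subtype.val (LinearMap.congr_fun hg ((toLin' x).rangeRestrict v))
  rw [toLin'_mul, toLin'_mul, toLin'_toMatrix']
  change toLin' x (g (f (toLin' x v))) = _
  rw [show f (toLin' x v) = _ from h1]
  exact h2

variable {R : Type v} [Group R] (ρ : R →* Matrix ι ι k)

theorem mul_inv (r : R) : ρ r * ρ r⁻¹ = 1 := by rw [← map_mul, mul_inv_cancel, map_one]
theorem inv_mul (r : R) : ρ r⁻¹ * ρ r = 1 := by rw [← map_mul, inv_mul_cancel, map_one]

/-- conjugation -/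
def cj (r : R) : Matrix ι ι k →ₐ[k] Matrix ι ι k :=
  AlgHom.ofLinearMap
    { toFun M := ρ r * M * ρ r⁻¹
      map_add' a b := by rw [mul_add, add_mul]
      map_smul' c a := by simp }
    (by simp [mul_inv])
    fun a b => by
      simp only [LinearMap.coe_mk, AddHom.coe_mk, mul_assoc]
      rw [← mul_assoc (ρ r⁻¹) (ρ r), inv_mul, one_mul]

theorem cj_apply (r : R) (M : Matrix ι ι k) : cj ρ r M = ρ r * M * ρ r⁻¹ := rfl

theorem cj_mul (r s : R) (M : Matrix ι ι k) : cj ρ (r * s) M = cj ρ r (cj ρ s M) := by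
  rw [cj_apply, cj_apply, cj_apply, _root_.mul_inv_rev, map_mul, map_mul]
  simp only [mul_assoc]

theorem cj_one (M : Matrix ι ι k) : cj ρ 1 M = M := by simp [cj_apply]

theorem cj_mul_self (r : R) (M : Matrix ι ι k) : cj ρ r M * ρ r = ρ r * M := by
  rw [cj_apply, mul_assoc, inv_mul, mul_one]

variable {ρ}

theorem cj_eq_iff {r : R} {M : Matrix ι ι k} : cj ρ r M = M ↔ M * ρ r = ρ r * M :=
  ⟨fun h => by rw [← cj_mul_self, h], fun h => by rw [cj_apply, ← h, mul_assoc, mul_inv, mul_one]⟩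

theorem cj_sum [Fintype R] (s : R) (M : Matrix ι ι k) :
    cj ρ s (∑ r, cj ρ r M) = ∑ r, cj ρ r M := by
  simp only [map_sum, ← cj_mul]
  exact Equiv.sum_comp (Equiv.mulLeft s) fun r => cj ρ r M

variable (ρ) in
/-- the commutant -/
def Cm : Subalgebra k (Matrix ι ι k) := Subalgebra.centralizer k (Set.range ρ)

theorem mem_Cm {M : Matrix ι ι k} : M ∈ Cm ρ ↔ ∀ r, cj ρ r M = M := by
  simp only [Cm, Subalgebra.mem_centralizer_iff, Set.forall_mem_range, cj_eq_iff]
  exact forall_congr' fun _ => eq_comm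

theorem eq_zero_of_jacobson {S : Type*} [Ring S] {x y : S} (hx : x ∈ (⊥ : Ideal S).jacobson)
    (h : x * y * x = x) : x = 0 := by
  obtain ⟨z, hz⟩ := Ideal.mem_jacobson_iff.1 hx (-y)
  have h3 : (z * -y * x + z - 1) * (y * x) = -(z * y * (x * y * x)) + z * y * x - y * x := by
    noncomm_ring
  rw [Ideal.mem_bot.1 hz, zero_mul, h, neg_add_cancel, zero_sub, eq_comm, neg_eq_zero] at h3
  rw [← h, mul_assoc, h3, mul_zero]

theorem semisimple [Finite R] (h : (Nat.card R : k) ≠ 0) : IsSemisimpleRing (Cm ρ) := by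
  have := Fintype.ofFinite R
  have := IsArtinianRing.of_finite k (Cm ρ)
  rw [IsArtinianRing.isSemisimpleRing_iff_jacobson, ← Ideal.jacobson_bot, eq_bot_iff]
  intro x hx
  obtain ⟨b, hb⟩ := exists_ginv x.1
  let y : Cm ρ := (Nat.card R : k)⁻¹ • ⟨∑ r, cj ρ r b, mem_Cm.2 fun s => cj_sum s b⟩
  have h1 : x * y * x = x := Subtype.ext (by
    change x.1 * ((Nat.card R : k)⁻¹ • ∑ r, cj ρ r b) * x.1 = x.1
    have : ∀ r, x.1 * cj ρ r b * x.1 = x.1 := fun r => by
      have := congrArg (cj ρ r) hb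
      rwa [map_mul, map_mul, mem_Cm.1 x.2] at this
    rw [mul_smul_comm, smul_mul_assoc, mul_sum, sum_mul]
    simp only [this, sum_const, card_univ, ← Nat.card_eq_fintype_card,
      ← Nat.cast_smul_eq_nsmul k, smul_smul, inv_mul_cancel₀ h, one_smul])
  exact eq_zero_of_jacobson hx h1

/-- compression to an invariant idempotent -/
theorem exists_compress {n : ℕ} {A : Matrix ι (Fin n) k} {B : Matrix (Fin n) ι k}
    (h : B * A = 1) (h1 : ∀ r, cj ρ r (A * B) = A * B)
    (h2 : ∀ X, (∀ r, cj ρ r X = X) → A * B * X * (A * B) = X → ∃ c : k, X = c • (A * B)) :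
    ∃ ρ' : R →* Matrix (Fin n) (Fin n) k, ∀ T, (∀ r, cj ρ' r T = T) → ∃ c : k, T = c • 1 := by
  have hA : ∀ r, A * (B * (ρ r * A)) = ρ r * A := fun r => by
    rw [← Matrix.mul_assoc, ← Matrix.mul_assoc, cj_eq_iff.1 (h1 r), Matrix.mul_assoc,
      Matrix.mul_assoc, h, Matrix.mul_one]
  have hB : ∀ r, B * ρ r * A * B = B * ρ r := fun r => by
    rw [Matrix.mul_assoc, Matrix.mul_assoc, ← cj_eq_iff.1 (h1 r), ← Matrix.mul_assoc,
      ← Matrix.mul_assoc, h, Matrix.one_mul]
  refine ⟨⟨⟨fun r => B * ρ r * A, by simp [h]⟩, fun r s => ?_⟩, fun T hT => ?_⟩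
  · simp only [map_mul, Matrix.mul_assoc, hA]
  · obtain ⟨c, hc⟩ := h2 (A * T * B) (fun r => cj_eq_iff.2 (by
      have h3 : T * (B * ρ r * A) = B * ρ r * A * T := cj_eq_iff.1 (hT r)
      rw [Matrix.mul_assoc, ← hB, Matrix.mul_assoc, ← Matrix.mul_assoc T, h3]
      simp only [← Matrix.mul_assoc]
      rw [Matrix.mul_assoc A, Matrix.mul_assoc A, Matrix.mul_assoc B, hA])) (by
      simp only [Matrix.mul_assoc]
      rw [← Matrix.mul_assoc B A, ← Matrix.mul_assoc B A, h, Matrix.one_mul, Matrix.one_mul])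
    refine ⟨c, ?_⟩
    have := congrArg (fun X => B * X * A) hc
    simp only [Matrix.mul_assoc, Matrix.mul_smul, Matrix.smul_mul, h, Matrix.mul_one] at this
    rwa [← Matrix.mul_assoc, h, Matrix.one_mul] at this

theorem card_eq_of_units {T κ : Type} [Fintype T] [DecidableEq T] [Fintype κ] [DecidableEq κ]
    (A : T → Matrix ι κ k) (B : T → Matrix κ ι k) (h1 : ∑ t, A t * B t = 1)
    (h2 : ∀ s t, B s * A t = if s = t then 1 else 0) :
    Fintype.card ι = Fintype.card T * Fintype.card κ := by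
  rw [← Fintype.card_prod]
  refine square_of_invertible (R := k) (of fun i x => A x.1 i x.2) (of fun x i => B x.1 x.2 i)
    ?_ ?_
  · rw [← h1]
    ext i j
    simp [mul_apply, Fintype.sum_prod_type, Matrix.sum_apply]
  · ext ⟨s, i⟩ ⟨t, j⟩
    have := congrFun (congrFun (h2 s t) i) j
    rw [mul_apply] at this ⊢
    simp only [of_apply, this]
    split_ifs with h <;> simp [h, one_apply]

/-- an eigenvector of the conjugation -/
theorem exists_eigen [IsAlgClosed k] {p : ℕ} (hp : p.Prime) (hk : (p : k) ≠ 0) {N : Subgroup R}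
    [hN : N.Normal] {g : R} (hg : g ^ p ∈ N) {S₀ : Matrix ι ι k} (h0 : ∀ r ∈ N, cj ρ r S₀ = S₀)
    (h1 : cj ρ g S₀ ≠ S₀) : ∃ (T : Matrix ι ι k) (ζ : k), T ≠ 0 ∧ IsPrimitiveRoot ζ p ∧
      (∀ r ∈ N, cj ρ r T = T) ∧ cj ρ g T = ζ • T := by
  have := Fact.mk hp
  let C : Submodule k (Matrix ι ι k) :=
    { carrier := {T | ∀ r ∈ N, cj ρ r T = T}
      add_mem' := fun ha hb r hr => by rw [map_add, ha r hr, hb r hr]
      zero_mem' := fun r _ => map_zero _
      smul_mem' := fun c a ha r hr => by rw [map_smul, ha r hr] }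
  have hC : ∀ T ∈ C, cj ρ g T ∈ C := fun T hT r hr => by
    rw [← cj_mul, show r * g = g * (g⁻¹ * r * g⁻¹⁻¹) by group, cj_mul, hT _ (hN.conj_mem r hr _)]
  let U := C.map ((cj ρ g).toLinearMap - LinearMap.id)
  have hU : ∀ T ∈ U, (cj ρ g).toLinearMap T ∈ U := by
    rintro _ ⟨S, hS, rfl⟩
    exact ⟨_, hC S hS, by simp⟩
  have : Nontrivial U := ⟨⟨⟨_, S₀, h0, rfl⟩, 0, fun h => h1 (sub_eq_zero.1 (congrArg Subtype.val h))⟩⟩
  obtain ⟨ζ, hζ⟩ := Module.End.exists_eigenvalue ((cj ρ g).toLinearMap.restrict hU)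
  obtain ⟨⟨_, S, hS, rfl⟩, h2⟩ := hζ.exists_hasEigenvector
  have h3 : cj ρ g (cj ρ g S - S) = ζ • (cj ρ g S - S) := congrArg Subtype.val h2.apply_eq_smul
  have h4 : cj ρ g S - S ≠ 0 := fun h => h2.2 (Subtype.ext h)
  have h5 : cj ρ g S - S ∈ C := C.sub_mem (hC S hS) hS
  generalize hT : cj ρ g S - S = T at h3 h4 h5
  refine ⟨T, ζ, h4, ?_, h5, h3⟩
  have h6 : ∀ i : ℕ, cj ρ (g ^ i) T = ζ ^ i • T := fun i => by
    induction i with
    | zero => simp [cj_one]
    | succ i ih => rw [pow_succ', cj_mul, ih, map_smul, h3, smul_smul, pow_succ]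
  have h7 : ζ ^ p = 1 := smul_left_injective k h4 (by
    beta_reduce; rw [← h6, h5 _ hg, one_smul])
  have h8 : ζ ≠ 1 := by
    rintro rfl
    have h9 : ∀ i : ℕ, cj ρ (g ^ i) S = S + (i : k) • T := fun i => by
      induction i with
      | zero => simp [cj_one]
      | succ i ih =>
        rw [pow_succ', cj_mul, ih, map_add, map_smul, h3, sub_eq_iff_eq_add.1 hT, Nat.cast_succ]
        module
    have := h9 p
    rw [hS _ hg, left_eq_add, smul_eq_zero] at this
    tauto
  exact orderOf_eq_prime h7 h8 ▸ IsPrimitiveRoot.orderOf ζ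

/-- the degree of an irreducible representation of a `p`-group -/
theorem dim_pow [IsAlgClosed k] {p : ℕ} (hp : p.Prime) (hk : (p : k) ≠ 0) (n : ℕ) :
    ∀ (R : Type v) [Group R] [Finite R], Nat.card R = n → IsPGroup p R →
    ∀ (ι : Type) [Fintype ι] [DecidableEq ι] [Nonempty ι] (ρ : R →* Matrix ι ι k),
    (∀ T, (∀ r, cj ρ r T = T) → ∃ c : k, T = c • 1) → ∃ a, Fintype.card ι = p ^ a := by
  have := Fact.mk hp
  induction n using Nat.strong_induction_on with
  | _ n ih =>
  intro R _ _ hn hR ι _ _ _ ρ h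
  have := Fintype.ofFinite R
  rcases subsingleton_or_nontrivial R with h0 | h0
  · refine ⟨0, Fintype.card_eq_one_iff_nonempty_unique.2 ⟨@uniqueOfSubsingleton _ ⟨fun i j => ?_⟩
      (Classical.arbitrary ι)⟩⟩
    obtain ⟨c, hc⟩ := h (single i j 1) fun r => by rw [Subsingleton.elim r 1, cj_one]
    by_contra h1
    simpa [h1] using congrFun (congrFun hc i) j
  have := hR.isNilpotent
  obtain ⟨N, hN, h1⟩ := exists_normal_prime_index (G := R) inferInstance
  obtain ⟨j, hj⟩ := hR.index N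
  have h2 : N.index = p :=
    (Nat.prime_dvd_prime_iff_eq h1 hp).1 (h1.dvd_of_dvd_pow hj.dvd)
  have hlt : Nat.card N < n := by
    rw [← hn, ← N.index_mul_card, h2]
    exact lt_mul_of_one_lt_left Nat.card_pos hp.one_lt
  obtain ⟨g, hg⟩ : ∃ g, g ∉ N := by
    by_contra hc
    push Not at hc
    rw [(Subgroup.eq_top_iff' N).2 hc, Subgroup.index_top] at h2
    exact hp.ne_one h2.symm
  have hgp : g ^ p ∈ N := h2 ▸ N.pow_index_mem g
  have hgen : ∀ P : R → Prop, (∀ r ∈ N, P r) → P g → (∀ a b, P a → P b → P (a * b)) →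
      ∀ r, P r := fun P h3 h4 h5 r => by
    obtain ⟨i, hi⟩ := mem_powers_of_prime_card (G := R ⧸ N) (g := g) (g' := r) h2
      (by rwa [Ne, QuotientGroup.eq_one_iff])
    have h6 : ∀ i : ℕ, P (g ^ i) := fun i => by
      induction i with
      | zero => exact h3 _ (by simp)
      | succ i ih => rw [pow_succ]; exact h5 _ _ ih h4
    have := h5 _ _ (h6 i) (h3 _ (QuotientGroup.eq.1 hi))
    rwa [mul_inv_cancel_left] at this
  have hfix : ∀ X, (∀ r ∈ N, cj ρ r X = X) → cj ρ g X = X → ∃ c : k, X = c • 1 :=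
    fun X h3 h4 => h X (hgen _ h3 h4 fun a b ha hb => by rw [cj_mul, hb, ha])
  by_cases h3 : ∀ S, (∀ r ∈ N, cj ρ r S = S) → cj ρ g S = S
  · exact ih _ hlt N rfl (hR.to_subgroup N) ι (ρ.comp N.subtype) fun T hT =>
      hfix T (fun r hr => hT ⟨r, hr⟩) (h3 T fun r hr => hT ⟨r, hr⟩)
  push Not at h3
  obtain ⟨S₀, h3, h4⟩ := h3
  obtain ⟨T₀, ζ, hT0, hζ, hT1, hT2⟩ := exists_eigen hp hk hgp h3 h4
  have hζ0 := hζ.ne_zero hp.ne_zero
  -- `T₀` is regular
  have hreg : ∀ X, T₀ * X = 0 → X = 0 := fun X hX => by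
    have h5 : ∀ r, ∃ c : k, c ≠ 0 ∧ cj ρ r T₀ = c • T₀ := hgen _
      (fun r hr => ⟨1, one_ne_zero, by rw [hT1 r hr, one_smul]⟩) ⟨ζ, hζ0, hT2⟩
      (by
        rintro a b ⟨c, h5, h6⟩ ⟨c', h7, h8⟩
        exact ⟨c' * c, mul_ne_zero h7 h5, by rw [cj_mul, h8, map_smul, h6, smul_smul]⟩)
    obtain ⟨b, hb⟩ := exists_ginv T₀
    obtain ⟨c, hc⟩ := h _ fun s => cj_sum s (b * T₀)
    have h6 : ∀ r, T₀ * cj ρ r (b * T₀) = T₀ := fun r => by
      obtain ⟨c, h7, h8⟩ := h5 r
      have := congrArg (cj ρ r) hb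
      rw [mul_assoc, map_mul, h8, smul_mul_assoc] at this
      exact smul_right_injective _ h7 this
    have h7 := congrArg (T₀ * ·) hc
    simp only [mul_sum, h6, sum_const, card_univ, ← Nat.cast_smul_eq_nsmul k, mul_smul_comm,
      mul_one] at h7
    obtain rfl := smul_left_injective k hT0 h7
    have h8 := congrArg (· * X) hc
    simp only [sum_mul, smul_mul_assoc, one_mul] at h8
    rw [sum_eq_zero fun r _ => by
      obtain ⟨c, -, h9⟩ := h5 r
      rw [map_mul, h9, mul_assoc, smul_mul_assoc, hX, smul_zero, mul_zero]] at h8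
    refine (smul_eq_zero.1 h8.symm).resolve_left ?_
    obtain ⟨a, ha⟩ := hR.exists_card_eq
    rw [← Nat.card_eq_fintype_card, ha, Nat.cast_pow]
    exact pow_ne_zero _ hk
  obtain ⟨c, hc⟩ := hfix (T₀ ^ p) (fun r hr => by rw [map_pow, hT1 r hr])
    (by rw [map_pow, hT2, smul_pow, hζ.pow_eq_one, one_smul])
  have hc0 : c ≠ 0 := by
    have : ∀ i, T₀ ^ i ≠ 0 := fun i => by
      induction i with
      | zero => simp
      | succ i ih => rw [pow_succ']; exact fun h5 => ih (hreg _ h5)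
    rintro rfl
    exact this p (by rw [hc, zero_smul])
  obtain ⟨l, hl⟩ := IsAlgClosed.exists_pow_nat_eq c⁻¹ hp.pos
  obtain ⟨T, hT⟩ : ∃ T, T = l • T₀ := ⟨_, rfl⟩
  have t1 : ∀ r ∈ N, cj ρ r T = T := fun r hr => by rw [hT, map_smul, hT1 r hr]
  have t2 : cj ρ g T = ζ • T := by rw [hT, map_smul, hT2, smul_comm]
  have t3 : T ^ p = 1 := by rw [hT, smul_pow, hl, hc, smul_smul, inv_mul_cancel₀ hc0, one_smul]
  have t4 : ∀ i : ℤ, cj ρ (g ^ i) T = ζ ^ i • T := fun i => by
    induction i using Int.induction_on with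
    | zero => simp [cj_one]
    | succ i ih => rw [_root_.zpow_add_one, cj_mul, t2, map_smul, ih, smul_smul, zpow_add_one₀ hζ0,
        mul_comm]
    | pred i ih =>
      refine smul_right_injective _ hζ0 ?_
      beta_reduce
      rw [← map_smul, ← t2, ← cj_mul, ← _root_.zpow_add_one, sub_add_cancel, ih, smul_smul,
        zpow_sub_one₀ hζ0, mul_comm ζ, inv_mul_cancel_right₀ hζ0]
  obtain ⟨e, he⟩ : ∃ e, e = (p : k)⁻¹ • ∑ i ∈ range p, T ^ i := ⟨_, rfl⟩
  have e1 : T * e = e := by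
    have := mul_geom_sum T p
    rw [t3, sub_self, sub_mul, one_mul, sub_eq_zero] at this
    rw [he, mul_smul_comm, this]
  have e2 : e * T = e := by
    have := geom_sum_mul T p
    rw [t3, sub_self, mul_sub, mul_one, sub_eq_zero] at this
    rw [he, smul_mul_assoc, this]
  have e3 : e * e = e := by
    have : ∀ i, e * T ^ i = e := fun i => by
      induction i with
      | zero => simp
      | succ i ih => rw [pow_succ, ← mul_assoc, ih, e2]
    nth_rewrite 2 [he]
    simp only [mul_smul_comm, mul_sum, this, sum_const, card_range, ← Nat.cast_smul_eq_nsmul k,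
      smul_smul, inv_mul_cancel₀ hk, one_smul]
  have e4 : ∀ r ∈ N, cj ρ r e = e := fun r hr => by
    simp only [he, map_smul, map_sum, map_pow, t1 r hr]
  have e5 : ∀ i : ℤ, ¬ (p : ℤ) ∣ i → e * ρ (g ^ i) * e = 0 := fun i hi => by
    have h5 : e * ρ (g ^ i) * e = ζ ^ i • (e * ρ (g ^ i) * e) := by
      nth_rewrite 2 [← e1]
      rw [← mul_assoc, mul_assoc e, ← cj_mul_self, t4, smul_mul_assoc, mul_smul_comm,
        ← mul_assoc, e2, smul_mul_assoc]
    rw [← sub_eq_zero, ← one_smul k (e * ρ (g ^ i) * e), smul_smul, mul_one, ← sub_smul,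
      smul_eq_zero, sub_eq_zero, eq_comm, hζ.zpow_eq_one_iff_dvd] at h5
    exact h5.resolve_left hi
  have e6 : ∑ j ∈ range p, cj ρ (g ^ j) e = 1 := by
    have : ∀ j : ℕ, cj ρ (g ^ j) T = ζ ^ j • T := fun j => by simpa using t4 j
    simp only [he, map_smul, map_sum, map_pow, this, smul_pow, ← smul_sum]
    rw [sum_comm, sum_eq_single 0]
    · simp [← Nat.cast_smul_eq_nsmul k, smul_smul, inv_mul_cancel₀ hk]
    · intro i hi h5
      simp only [← sum_smul, pow_right_comm ζ _ i]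
      rw [(hζ.pow_of_coprime i (Nat.coprime_of_lt_prime h5 (mem_range.1 hi) hp).symm).geom_sum_eq_zero hp.one_lt,
        zero_smul]
    · exact fun h5 => absurd (mem_range.2 hp.pos) h5
  obtain ⟨δ, hδ⟩ : ∃ δ, e.rank = δ := ⟨_, rfl⟩
  obtain ⟨A, B, h5, h6⟩ := exists_fact e3 hδ
  have hBe : B * e = B := by rw [← h5, ← Matrix.mul_assoc, h6, Matrix.one_mul]
  have heA : e * A = A := by rw [← h5, Matrix.mul_assoc, h6, Matrix.mul_one]
  have hcard := card_eq_of_units (fun j : Fin p => ρ (g ^ j.1) * A) (fun j => B * ρ (g ^ j.1)⁻¹)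
    (by
      rw [← e6, Finset.sum_range]
      refine sum_congr rfl fun j _ => ?_
      rw [cj_apply, ← h5]
      simp only [Matrix.mul_assoc])
    (fun s t => by
      rw [Matrix.mul_assoc, ← Matrix.mul_assoc (ρ _), ← map_mul]
      split_ifs with h7
      · rw [h7, inv_mul_cancel, map_one, Matrix.one_mul, h6]
      · rw [← hBe, ← heA, Matrix.mul_assoc, ← Matrix.mul_assoc (ρ _), ← Matrix.mul_assoc e,
          ← mul_assoc, ← zpow_natCast, ← zpow_natCast, ← _root_.zpow_neg, ← _root_.zpow_add, e5,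
          Matrix.zero_mul, Matrix.mul_zero]
        intro h8
        have := Int.eq_zero_of_abs_lt_dvd h8 (by rw [abs_lt]; omega)
        exact h7 (Fin.ext (by omega)))
  obtain ⟨ρ', h7⟩ := exists_compress (ρ := ρ.comp N.subtype) h6 (fun r => by rw [h5]; exact e4 r r.2)
    fun X h7 h8 => by
      rw [h5] at h8 ⊢
      have h9 : ∀ r ∈ N, cj ρ r X = X := fun r hr => h7 ⟨r, hr⟩
      obtain ⟨c, hc⟩ := hfix (∑ j ∈ range p, cj ρ (g ^ j) X) (fun r hr => by
        rw [map_sum]
        refine sum_congr rfl fun j _ => ?_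
        rw [← cj_mul, show r * g ^ j = g ^ j * ((g ^ j)⁻¹ * r * (g ^ j)⁻¹⁻¹) by group, cj_mul,
          h9 _ (hN.conj_mem r hr _)]) (by
        have h10 := (sum_range_succ' (fun j => cj ρ (g ^ j) X) p).symm.trans
          (sum_range_succ (fun j => cj ρ (g ^ j) X) p)
        rw [h9 _ hgp, pow_zero, cj_one, add_left_inj] at h10
        simp only [map_sum, ← cj_mul, ← pow_succ', h10])
      refine ⟨c, ?_⟩
      have h10 := congrArg (fun Y => e * Y * e) hc
      simp only [mul_smul_comm, smul_mul_assoc, mul_one, e3, mul_sum, sum_mul] at h10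
      rw [← h10, sum_eq_single 0]
      · rw [pow_zero, cj_one, h8]
      · intro i hi h11
        rw [← h8, cj_apply, ← zpow_natCast]
        simp only [← mul_assoc]
        rw [e5 i fun h12 => h11 (Nat.eq_zero_of_dvd_of_lt (Int.natCast_dvd_natCast.1 h12)
          (mem_range.1 hi))]
        simp
      · exact fun h5 => absurd (mem_range.2 hp.pos) h5
  rw [Fintype.card_fin] at hcard
  have : Nonempty (Fin δ) := Fintype.card_pos_iff.1
    (Nat.pos_of_mul_pos_left (hcard ▸ Fintype.card_pos))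
  obtain ⟨a, ha⟩ := ih _ hlt N rfl (hR.to_subgroup N) _ ρ' h7
  exact ⟨a + 1, by rw [hcard, ha, pow_succ']⟩

end Cfsg.GUn.GCT
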