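import Cfsg.Agent.GUn.HLd

/-!
# S4537, piece A: the Green polynomials
-/

set_option autoImplicit false

namespace Cfsg.GUn

namespace HLp

open Finset SymCh GLn

variable {Q : ℂ} [h : Fact (OK Q)]

theorem sum_gv (c : ℕ → ℂ) (n : ℕ) (l : Par) : ∑ ρ ∈ ptn n, (ρ.map c).prod * gv Q ρ l / zz ρ =
    (ex (fun k => c k • pw Q k) n).1 dl l := by
  simp only [ex_eq_sum, AddSubmonoidClass.coe_finsetSum, LinearMap.sum_apply, Finset.sum_apply]
  refine sum_congr rfl fun ρ _ => ?_
  have : pm (fun k => c k • pw Q k) ρ = (ρ.map c).prod • pm (pw Q) ρ := by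
    simp only [pm, Algebra.smul_def, Multiset.prod_map_mul, map_multiset_prod, Multiset.map_map]
    rfl
  rw [this, div_eq_inv_mul]
  rfl

theorem alpha' (l : Par) : ∑ ρ ∈ ptn l.1.sum, gv Q ρ l / zz ρ = 1 := by
  simpa [alpha] using sum_gv (Q := Q) (fun _ => 1) l.1.sum l

theorem eps (l : Par) : ∑ ρ ∈ ptn l.1.sum, (ρ.map fun r => (-1 : ℂ) ^ (r + 1)).prod * gv Q ρ l / zz ρ =
    if l.1 = Multiset.replicate l.1.sum 1 then Q ^ l.1.sum.choose 2 else 0 := by
  have : (fun k => (-1 : ℂ) ^ (k + 1) • pw Q k) = lg (el Q) := funext fun k => by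
    rw [← neg_pl, Algebra.smul_def]; simp [pw]
  rw [sum_gv, this, ex_lg el_zero]
  have k : ∀ β ∈ (Iic l.1).filter (·.card = l.1.sum), β = l.1 := fun β hβ =>
    Multiset.eq_of_le_of_card_le (mem_Iic.1 (mem_filter.1 hβ).1)
      ((card_le_sum l.2).trans (mem_filter.1 hβ).2.ge)
  refine (E_apply _ _ _ _).trans ?_
  split_ifs with e
  · have e1 : l.1.card = l.1.sum := by rw [e]; simp
    have := sum_dn (le_refl l.1)
    rw [sum_eq_single l.1 (fun β hβ e => absurd (k β hβ) e) fun e => absurd (by simp [e1]) e,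
      eq_e0 (l := dn l l.1) (by omega), dl, Pi.single_eq_same, mul_one,
      ep_eq l le_rfl (L := 1) fun a ha => (Multiset.eq_of_mem_replicate (e ▸ ha)).le, prod_range_one,
      col_eq_zero fun a ha => (Multiset.eq_of_mem_replicate (e ▸ ha)).le]
    have : l.1.count (0 + 1) = l.1.sum := by conv_lhs => rw [e, Multiset.count_replicate_self]
    simp [this]
  · refine sum_eq_zero fun β hβ => absurd ?_ e
    have e1 := sum_lw l.2
    have e2 := (mem_filter.1 hβ).2
    have e3 := card_le_sum (zero_notMem_lw l.1)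
    have e4 := rs_lw l.2
    rw [k β hβ] at e2
    rw [Multiset.card_eq_zero.1 (by omega : (lw l.1).card = 0), rs, Multiset.map_zero,
      zero_add] at e4
    rw [← e2, ← e4]; simp

theorem Th_gv (ρ : Multiset ℕ) (hρ : 0 ∉ ρ) : Th Q ρ.sum (gv Q ρ) =
    ((ρ.map fun r => pw Q r + nu Q r • 1).prod).1 1 := by
  have : ∀ m : ℤ, Th Q (m + ρ.sum) * (pm (pw Q) ρ).1 =
      ((ρ.map fun r => pw Q r + nu Q r • 1).prod).1 * Th Q m := by
    induction ρ using Multiset.induction_on with
    | empty => intro m; simp [pm]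
    | cons k ρ ih =>
      intro m
      rw [pm_cons, Multiset.map_cons, Multiset.prod_cons, Multiset.sum_cons, Subalgebra.coe_mul,
        Subalgebra.coe_mul, ← mul_assoc, show m + (k + ρ.sum : ℕ) = m + ρ.sum + k by push_cast; ring,
        Th_pw _ (Nat.pos_of_ne_zero fun e => hρ (e ▸ Multiset.mem_cons_self _ _)), mul_assoc,
        ih fun e => hρ (Multiset.mem_cons_of_mem e), mul_assoc]
      rfl
  have e := LinearMap.congr_fun (this 0) dl
  rwa [zero_add, Module.End.mul_apply, Module.End.mul_apply, Th_dl] at e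

theorem gamma (ρ : Multiset ℕ) (hρ : 0 ∉ ρ) (l : Par) : Th Q ρ.sum (gv Q ρ) l =
    (ρ.antidiagonal.map fun x => (x.2.map (nu Q)).prod * if x.1.sum ≤ l.1.sum then
      ∑ σ ∈ ptn (l.1.sum - x.1.sum), gv Q (x.1 + σ) l / zz σ else 0).sum := by
  let F : Al Q →+ ℂ := ⟨⟨fun a => a.1 1 l, rfl⟩, fun _ _ => rfl⟩
  rw [Th_gv ρ hρ, Multiset.prod_map_add]
  refine (map_multiset_sum F _).trans ?_
  rw [Multiset.map_map]
  refine congrArg _ (Multiset.map_congr rfl fun x _ => ?_)
  have : (x.2.map fun r => nu Q r • (1 : Al Q)).prod = (x.2.map (nu Q)).prod • 1 := by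
    simp only [← Algebra.algebraMap_eq_smul_one, map_multiset_prod, Multiset.map_map]
    rfl
  rw [Function.comp_apply, this, mul_smul_comm, mul_one]
  refine congrArg ((x.2.map (nu Q)).prod * ·) ?_
  split_ifs with e
  · refine (Rai.congr (g := (ex (pw Q) (l.1.sum - x.1.sum)).1 dl) (pm_rai x.1) fun μ e => ?_).trans ?_
    · rw [← e, add_tsub_cancel_right, alpha, Pi.one_apply]
    · simp only [ex_eq_sum, AddSubmonoidClass.coe_finsetSum, LinearMap.sum_apply, Finset.sum_apply,
        map_sum, gv, pm_add, div_eq_inv_mul]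
      simp
  · exact pm_rai x.1 _ l fun μ e1 => absurd (by omega) e

/-- partitions with at most one part -/
def on (n : ℕ) : Par := ⟨if n = 0 then 0 else {n}, by split_ifs with e <;> simp [eq_comm, *]⟩

theorem delta (ρ : Multiset ℕ) (hρ : 0 ∉ ρ) : gv Q ρ (on ρ.sum) = 1 := by
  let S : ℕ → AddSubgroup (Al Q × ℂ) := fun d =>
    { carrier := {x | ∀ (f : Par → ℂ) (n : ℕ), x.1.1 f (on (n + d)) = x.2 * f (on n)}
      add_mem' := fun ha hb f n => by simp [add_mul, ha f n, hb f n]
      zero_mem' := fun f n => by simp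
      neg_mem' := fun ha f n => by simp [ha f n] }
  let c : ℕ → ℂ := ex fun k => -(-1) ^ k
  have hc : ∀ r, c r = PowerSeries.coeff r (1 + PowerSeries.X) := fun r => by
    simpa using congrArg (PowerSeries.coeff r) (mk_ex_neg_geom (-1 : ℂ))
  have := pm_mem S (fun i j a b ha hb f n => by
    change a.1.1 (b.1.1 f) _ = a.2 * b.2 * _
    rw [add_comm i, ← add_assoc, ha, hb, mul_assoc]) (fun f n => (one_mul _).symm)
    (x := fun r => (el Q r, c r)) (fun r f n => ?_) ρ dl 0
  · have e1 := map_pm (RingHom.fst _ _) (pl fun r => (el Q r, c r)) ρ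
    have e2 := map_pm (RingHom.snd _ _) (pl fun r => (el Q r, c r)) ρ
    simp only [map_pl] at e1 e2
    simp only [RingHom.coe_fst, RingHom.coe_snd] at e1 e2
    rw [e1, e2, zero_add] at this
    refine this.trans ?_
    rw [pm, Multiset.map_congr rfl (g := fun _ => 1) fun k hk => by
      rw [pl, lg_ex _ (Nat.pos_of_ne_zero fun e => hρ (e ▸ hk)), pow_succ, mul_neg_one, neg_mul_neg,
        ← mul_pow]
      simp]
    simp [dl, on, e0]
  · change E Q r f _ = c r * _
    rw [hc]
    match r with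
    | 0 => simp [E_zero]
    | 1 =>
      have e : (on (n + 1)).1 = {n + 1} := rfl
      rw [E_apply, sum_eq_single {n + 1} (fun β hβ e => by
        rw [mem_filter, mem_Iic] at hβ
        exact absurd (Multiset.eq_of_le_of_card_le hβ.1 hβ.2.ge) e) fun e1 => absurd (by simp [e]) e1,
        show dn (on (n + 1)) {n + 1} = on n from Subtype.ext (by
          cases n <;> simp [dn, lw, on, Multiset.filter_singleton])]
      simp [e, ep, col, ← Multiset.cons_zero, PowerSeries.coeff_one]
    | r + 2 =>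
      rw [E_apply, sum_eq_zero fun β hβ => ?_]
      · simp [PowerSeries.coeff_one, PowerSeries.coeff_X]
      · have e1 := Multiset.card_le_card (mem_Iic.1 (mem_filter.1 hβ).1)
        have e : (on (n + (r + 2))).1 = {n + (r + 2)} := rfl
        rw [(mem_filter.1 hβ).2, e] at e1
        simp at e1

theorem rat (R : Subring ℂ) (hQ : Q ∈ R) (ρ : Multiset ℕ) (l : Par) : gv Q ρ l ∈ R := by
  let S : AddSubgroup (Al Q) :=
    { carrier := {a | ∀ f : Par → ℂ, (∀ l, f l ∈ R) → ∀ l, a.1 f l ∈ R}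
      add_mem' := fun ha hb f e l => add_mem (ha f e l) (hb f e l)
      zero_mem' := fun _ _ _ => zero_mem _
      neg_mem' := fun ha f e l => neg_mem (ha f e l) }
  have hq : ∀ m b, qb Q m b ∈ R := fun m => by
    induction m with
    | zero => intro b; cases b <;> simp [qb]
    | succ m ih =>
      intro b
      cases b with
      | zero => exact one_mem _
      | succ b => exact add_mem (ih _) (mul_mem (pow_mem hQ _) (ih _))
  refine pm_mem (fun _ => S) (fun _ _ a b ha hb f e => ha _ (hb f e)) (fun _ e => e)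
    (fun r f e l => sum_mem fun β _ => mul_mem (prod_mem fun i _ => mul_mem (pow_mem hQ _) (hq _ _))
      (e _)) ρ dl (fun l => ?_) l
  rw [dl, Pi.single_apply]
  split_ifs <;> simp

end HLp

open HLp Finset SymCh in
theorem stHL : StHL := fun q h0 h1 => by
  haveI : Fact (OK (q : ℂ)) := ⟨by exact_mod_cast h0, fun j hj => by exact_mod_cast h1 j hj⟩
  choose g hg using fun ρ l => rat (Q := q) (Rat.castHom ℂ).range ⟨q, rfl⟩ ρ l
  let G : Multiset ℕ → Multiset ℕ → ℚ := fun ρ l =>
    if h : 0 ∉ ρ ∧ 0 ∉ l then g ρ ⟨l, h.2⟩ else 0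
  have hG : ∀ ρ, 0 ∉ ρ → ∀ l : Par, (G ρ l.1 : ℂ) = gv q ρ l := fun ρ e l => by
    simp only [G, dif_pos (And.intro e l.2)]; exact hg ρ l
  have hp : ∀ {n ρ}, ρ ∈ ptn n → 0 ∉ ρ := fun h e => ((mem_ptn.1 h).2 0 e).false
  have ha : ∀ l, (aa q l : ℂ) = au q l := fun l => by simp [aa, au, HLp.ph]
  refine Classical.epsilon_spec (p := HL q) ⟨G, ?_, fun ρ l e => ?_, fun ρ l e => dif_neg (·.1 e),
    fun n l hl => ?_, fun n ρ hρ σ hσ => ?_, fun n m l hl ρ hρ => ?_, fun n hn ρ hρ => ?_,
    fun n l hl => ?_⟩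
  · refine Rat.cast_injective (α := ℂ) ((hG 0 (by simp) HLp.e0).trans ?_)
    simp [gv_zero, dl]
  · by_contra e1
    by_cases e2 : 0 ∉ ρ ∧ 0 ∉ l
    · exact e (Rat.cast_injective (α := ℂ) ((hG ρ e2.1 ⟨l, e2.2⟩).trans (by simp [gv_size (l := ⟨l, e2.2⟩) e1])))
    · exact e (dif_neg e2)
  all_goals refine Rat.cast_injective (α := ℂ) ?_
  · lift l to Par using hp hl
    obtain rfl := (mem_ptn.1 hl).1
    push_cast
    rw [← alpha' (Q := q) l]
    exact sum_congr rfl fun ρ e => by rw [hG ρ (hp e)]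
  · obtain rfl := (mem_ptn.1 hρ).1
    have := HLp.beta (Q := q) (hp hρ) (hp hσ)
    rw [B_apply, pz_nat] at this
    rw [← sum_pt]
    push_cast
    simp only [hG ρ (hp hρ), hG σ (hp hσ), ha, this]
    split_ifs
    · simp only [div_eq_mul_inv, ← Multiset.prod_map_inv, Rat.cast_mul, Rat.cast_multiset_prod,
        Multiset.map_map]
      exact congrArg₂ _ (by simp) (congrArg _ (Multiset.map_congr rfl fun r _ => by simp [HLp.nu]))
    · simp
  · lift l to Par using hp hl
    obtain rfl := (mem_ptn.1 hl).1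
    obtain rfl := (mem_ptn.1 hρ).1
    have := gamma (Q := q) ρ (hp hρ) l
    rw [Th_apply, pz_nat] at this
    rw [← sum_pt]
    push_cast
    simp only [hG ρ (hp hρ), ha, this, Multiset.map_map]
    refine congrArg _ (Multiset.map_congr rfl fun x hx => ?_)
    have e : 0 ∉ x.1 := fun e => hp hρ (Multiset.mem_antidiagonal.1 hx ▸ Multiset.mem_add.2 (.inl e))
    split_ifs
    · simp only [Function.comp, *, ↓reduceIte]
      push_cast
      congr 1
      · rw [Multiset.map_map]
        exact congrArg _ (Multiset.map_congr rfl fun r _ => by simp [HLp.nu])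
      · exact sum_congr rfl fun σ hσ => by rw [hG (x.1 + σ) (by simp [e, hp hσ])]
    · simp [*]
  · obtain rfl := (mem_ptn.1 hρ).1
    have := hG ρ (hp hρ) (on ρ.sum)
    rw [delta ρ (hp hρ)] at this
    simpa [on, hn.ne'] using this
  · lift l to Par using hp hl
    obtain rfl := (mem_ptn.1 hl).1
    rw [apply_ite (Rat.cast : ℚ → ℂ)]
    push_cast
    rw [← eps (Q := q) l]
    exact sum_congr rfl fun ρ e => by simp [hG ρ (hp e)]

end Cfsg.GUn
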