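import Cfsg.Agent.GUn.Defs

/-!
# S4537, piece A (1): Gaussian binomials, columns of partitions, vertical strips
-/

set_option autoImplicit false

namespace Cfsg.GUn.HLp

open Finset SymCh

/-- Gaussian binomials -/
def qb (Q : ℂ) : ℕ → ℕ → ℂ
  | _, 0 => 1
  | 0, _ + 1 => 0
  | m + 1, b + 1 => qb Q m b + Q ^ (b + 1) * qb Q m (b + 1)

/-- `∏ (Q ^ j - 1)` -/
def fac (Q : ℂ) (m : ℕ) : ℂ := ∏ j ∈ range m, (Q ^ (j + 1) - 1)

variable {Q : ℂ}

@[simp] theorem qb_zero (m : ℕ) : qb Q m 0 = 1 := by cases m <;> rfl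

theorem qb_of_lt : ∀ {m b : ℕ}, m < b → qb Q m b = 0
  | 0, _ + 1, _ => rfl
  | m + 1, b + 1, h => by
    rw [qb, qb_of_lt (by omega : m < b), qb_of_lt (by omega : m < b + 1)]; simp

@[simp] theorem qb_self : ∀ m : ℕ, qb Q m m = 1
  | 0 => rfl
  | m + 1 => by rw [qb, qb_self m, qb_of_lt m.lt_succ_self]; simp

theorem fac_succ (m : ℕ) : fac Q (m + 1) = fac Q m * (Q ^ (m + 1) - 1) := prod_range_succ _ _

@[simp] theorem fac_zero : fac Q 0 = 1 := rfl

theorem qb_mul_fac : ∀ b x : ℕ, qb Q (b + x) b * fac Q b * fac Q x = fac Q (b + x)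
  | 0, x => by simp
  | b + 1, 0 => by simp
  | b + 1, x + 1 => by
    have h1 := qb_mul_fac b (x + 1)
    have h2 := qb_mul_fac (b + 1) x
    rw [show b + 1 + (x + 1) = (b + (x + 1)) + 1 by ring, qb, fac_succ (b + (x + 1)), fac_succ b]
    rw [show b + 1 + x = b + (x + 1) by ring, fac_succ b] at h2
    rw [fac_succ x] at h1 ⊢
    linear_combination (Q ^ (b + 1) - 1) * h1 + Q ^ (b + 1) * (Q ^ (x + 1) - 1) * h2

theorem qbinom {R : Type*} [CommRing R] [Algebra ℂ R] (m : ℕ) (x : R) :
    ∑ b ∈ range (m + 1), (Q ^ b.choose 2 * qb Q m b) • x ^ b = ∏ s ∈ range m, (1 + Q ^ s • x) := by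
  induction m generalizing x with
  | zero => simp
  | succ m ih =>
    have h := ih (Q • x)
    rw [prod_range_succ', sum_range_succ']
    simp only [pow_succ Q, mul_smul, ← h, pow_zero, one_smul]
    have e1 : ∑ b ∈ range (m + 1), Q ^ b.choose 2 • qb Q m b • (Q • x) ^ b =
        ∑ b ∈ range (m + 1), Q ^ (b + 1).choose 2 • qb Q m (b + 1) • (Q • x) ^ (b + 1) + 1 := by
      rw [sum_range_succ', sum_range_succ _ m, qb_of_lt m.lt_succ_self]; simp
    rw [mul_add, mul_one, sum_mul]
    conv_rhs => rw [e1]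
    rw [add_right_comm, ← sum_add_distrib]
    simp only [Nat.choose_zero_succ, pow_zero, qb_zero, one_smul]
    congr 1
    refine sum_congr rfl fun b _ => ?_
    rw [qb, Nat.choose_succ_succ' b 1, Nat.choose_one_right]
    simp only [smul_pow, Algebra.smul_def, map_pow, map_add, map_mul]
    ring

/-- partitions -/
abbrev Par : Type := {l : Multiset ℕ // 0 ∉ l}

/-- the partitions of `n` -/
def pt (n : ℕ) : Finset Par := (ptn n).subtype _

theorem mem_pt {n : ℕ} {l : Par} : l ∈ pt n ↔ l.1.sum = n := by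
  rw [pt, mem_subtype, mem_ptn]
  exact and_iff_left fun r hr => Nat.pos_of_ne_zero fun h => l.2 (h ▸ hr)

theorem sum_pt {A : Type*} [AddCommMonoid A] (n : ℕ) (F : Multiset ℕ → A) :
    ∑ l ∈ pt n, F l.1 = ∑ l ∈ ptn n, F l :=
  sum_subtype_of_mem F fun _ h h0 => (((mem_ptn.1 h).2 0 h0)).false

/-- column lengths -/
def col (l : Multiset ℕ) (i : ℕ) : ℕ := l.countP (i ≤ ·)

theorem col_add (l m : Multiset ℕ) (i : ℕ) : col (l + m) i = col l i + col m i :=
  Multiset.countP_add _ _ _

theorem col_eq (l : Multiset ℕ) (i : ℕ) : col l i = l.count i + col l (i + 1) := by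
  induction l using Multiset.induction_on with
  | empty => rfl
  | cons a l ih =>
    simp only [col, Multiset.countP_cons, Multiset.count_cons] at ih ⊢
    rw [ih]; split_ifs <;> omega

theorem col_eq_zero {l : Multiset ℕ} {L : ℕ} (h : ∀ a ∈ l, a ≤ L) : col l (L + 1) = 0 :=
  Multiset.countP_eq_zero.2 fun a ha h' => absurd (h a ha) (by omega)

theorem sum_min (l : Multiset ℕ) (b L : ℕ) (hb : b ≤ L) :
    (l.map fun a => min b a).sum = ∑ i ∈ range L, if i + 1 ≤ b then col l (i + 1) else 0 := by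
  induction l using Multiset.induction_on with
  | empty => simp [col]
  | cons a l ih =>
    have : min b a = ∑ i ∈ range L, if i + 1 ≤ min b a then 1 else 0 := by
      rw [← card_filter, show filter (fun i => i + 1 ≤ min b a) (range L) = range (min b a) from
        ext fun i => by simp only [mem_filter, mem_range]; omega, card_range]
    rw [Multiset.map_cons, Multiset.sum_cons, ih, this, ← sum_add_distrib]
    refine sum_congr rfl fun i _ => ?_
    simp only [col, Multiset.countP_cons]
    split_ifs <;> omega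

theorem ipc_eq (l m : Multiset ℕ) {L : ℕ} (h : ∀ a ∈ l, a ≤ L) :
    ipc l m = ∑ i ∈ range L, col l (i + 1) * col m (i + 1) := by
  induction l using Multiset.induction_on with
  | empty => simp [ipc, col]
  | cons a l ih =>
    have := ih fun b hb => h b (Multiset.mem_cons_of_mem hb)
    rw [ipc] at this ⊢
    rw [Multiset.map_cons, Multiset.sum_cons, this,
      sum_min m a L (h a (Multiset.mem_cons_self _ _)), ← sum_add_distrib]
    refine sum_congr rfl fun i _ => ?_
    simp only [col, Multiset.countP_cons]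
    split_ifs <;> ring

theorem ipc_comm (l m : Multiset ℕ) : ipc l m = ipc m l := by
  rw [ipc_eq l m (L := l.sum + m.sum) fun a h => (Multiset.le_sum_of_mem h).trans le_self_add,
    ipc_eq m l (L := l.sum + m.sum) fun a h => (Multiset.le_sum_of_mem h).trans le_add_self]
  simp only [mul_comm]

theorem card_eq_sum {l : Multiset ℕ} (h0 : 0 ∉ l) {L : ℕ} (h : ∀ a ∈ l, a ≤ L) :
    l.card = ∑ i ∈ range L, l.count (i + 1) := by
  induction l using Multiset.induction_on with
  | empty => simp
  | cons a l ih =>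
    have ha : a ≠ 0 := fun e => h0 (e ▸ Multiset.mem_cons_self _ _)
    have hL := h a (Multiset.mem_cons_self _ _)
    rw [Multiset.card_cons, ih (fun e => h0 (Multiset.mem_cons_of_mem e))
      fun b hb => h b (Multiset.mem_cons_of_mem hb)]
    simp only [Multiset.count_cons, sum_add_distrib]
    rw [sum_eq_single (a - 1) (fun i _ hi => if_neg (by omega))
      fun hi => absurd (mem_range.2 (by omega)) hi, if_pos (by omega)]

theorem prod_toFinset {R : Type*} [CommMonoid R] {l : Multiset ℕ} (h0 : 0 ∉ l) {L : ℕ}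
    (h : ∀ a ∈ l, a ≤ L) (F : ℕ → R) (hF : ∀ i, l.count i = 0 → F i = 1) :
    ∏ i ∈ l.toFinset, F i = ∏ i ∈ range L, F (i + 1) := by
  rw [← prod_image (s := range L) (g := (· + 1)) (f := F) fun _ _ _ _ e => Nat.succ_injective e]
  refine prod_subset (fun a ha => ?_) fun i _ hi => hF i (by simpa using hi)
  rw [Multiset.mem_toFinset] at ha
  have : a ≠ 0 := fun e => h0 (e ▸ ha)
  exact mem_image.2 ⟨a - 1, mem_range.2 (by have := h a ha; omega), by omega⟩

theorem sum_Iic_prod {R : Type*} [CommSemiring R] {l : Multiset ℕ} (h0 : 0 ∉ l) {L : ℕ}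
    (h : ∀ a ∈ l, a ≤ L) (φ : ℕ → ℕ → R) :
    ∑ β ∈ Iic l, ∏ i ∈ range L, φ i (β.count (i + 1)) =
      ∏ i ∈ range L, ∑ b ∈ range (l.count (i + 1) + 1), φ i b := by
  rw [prod_sum]
  refine sum_bij' (fun β _ i _ => β.count (i + 1))
    (fun p _ => ∑ i ∈ (range L).attach, Multiset.replicate (p i.1 i.2) (i.1 + 1))
    (fun β hβ => mem_pi.2 fun i _ => mem_range.2 (Nat.lt_succ_of_le
      (Multiset.count_le_of_le _ (mem_Iic.1 hβ)))) ?_ ?_ ?_ ?_
  all_goals
    have key : ∀ (p : ∀ i ∈ range L, ℕ) (a : ℕ), Multiset.count a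
        (∑ i ∈ (range L).attach, Multiset.replicate (p i.1 i.2) (i.1 + 1)) =
        if h : a - 1 ∈ range L ∧ a ≠ 0 then p _ h.1 else 0 := fun p a => by
      rw [Multiset.count_sum']
      simp only [Multiset.count_replicate]
      split_ifs with h
      · rw [sum_eq_single ⟨a - 1, h.1⟩ (fun i _ hi => if_neg fun e => hi (Subtype.ext (by
          simp only; omega))) (fun hi => absurd (mem_attach _ _) hi), if_pos (by simp only; omega)]
      · exact sum_eq_zero fun i _ => if_neg fun e => h ⟨by simpa [← e] using i.2, by omega⟩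
  · intro p hp
    refine mem_Iic.2 (Multiset.le_iff_count.2 fun a => ?_)
    rw [key]
    split_ifs with ha
    · have := mem_range.1 (mem_pi.1 hp _ ha.1)
      rw [show a - 1 + 1 = a by omega] at this
      omega
    · exact Nat.zero_le _
  · intro β hβ
    refine Multiset.ext.2 fun a => ?_
    refine (key (fun i _ => β.count (i + 1)) a).trans ?_
    split_ifs with ha
    · rw [show a - 1 + 1 = a by omega]
    · refine (Multiset.count_eq_zero.2 fun hm => ha ?_).symm
      have hl := Multiset.mem_of_le (mem_Iic.1 hβ) hm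
      have : a ≠ 0 := fun e => h0 (e ▸ hl)
      exact ⟨mem_range.2 (by have := h a hl; omega), this⟩
  · intro p _
    funext i hi
    rw [key, dif_pos ⟨by simpa using hi, by omega⟩]
    rfl
  · intro β _
    exact (prod_attach _ fun i => φ i (β.count (i + 1))).symm

/-- lower all parts by one -/
def lw (β : Multiset ℕ) : Multiset ℕ := (β.filter (1 < ·)).map (· - 1)

theorem zero_notMem_lw (β : Multiset ℕ) : 0 ∉ lw β := fun h => by
  obtain ⟨a, ha, e⟩ := Multiset.mem_map.1 h
  have := (Multiset.mem_filter.1 ha).2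
  omega

theorem count_lw (β : Multiset ℕ) (i : ℕ) : (lw β).count (i + 1) = β.count (i + 2) := by
  induction β using Multiset.induction_on with
  | empty => rfl
  | cons a β ih =>
    simp only [lw, Multiset.filter_cons, Multiset.map_add, Multiset.count_add,
      Multiset.count_cons] at ih ⊢
    rw [ih]
    split_ifs <;> simp [Multiset.count_singleton] <;> (try split_ifs) <;> omega

theorem col_lw (β : Multiset ℕ) (i : ℕ) : col (lw β) (i + 1) = col β (i + 2) := by
  induction β using Multiset.induction_on with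
  | empty => rfl
  | cons a β ih =>
    simp only [lw, col, Multiset.filter_cons, Multiset.map_add, Multiset.countP_add,
      Multiset.countP_cons] at ih ⊢
    rw [ih]
    split_ifs <;> simp [← Multiset.cons_zero, Multiset.countP_cons] <;> (try split_ifs) <;> omega

theorem sum_lw {β : Multiset ℕ} (h : 0 ∉ β) : (lw β).sum + β.card = β.sum := by
  induction β using Multiset.induction_on with
  | empty => rfl
  | cons a β ih =>
    have := ih fun e => h (Multiset.mem_cons_of_mem e)
    have ha : a ≠ 0 := fun e => h (e ▸ Multiset.mem_cons_self _ _)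
    simp only [lw, Multiset.filter_cons, Multiset.map_add, Multiset.sum_add, Multiset.sum_cons,
      Multiset.card_cons] at this ⊢
    split_ifs <;> simp <;> omega

/-- remove a vertical strip -/
def dn (l : Par) (β : Multiset ℕ) : Par :=
  ⟨l.1 - β + lw β, fun h => (Multiset.mem_add.1 h).elim
    (fun h => l.2 (Multiset.mem_of_le (Multiset.sub_le_self _ _) h)) (zero_notMem_lw β)⟩

/-- raise all parts by one and add `b` parts `1` -/
def rs (γ : Multiset ℕ) (b : ℕ) : Multiset ℕ := γ.map (· + 1) + Multiset.replicate b 1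

/-- add a vertical strip -/
def up (μ : Par) (γ : Multiset ℕ) (b : ℕ) : Par :=
  ⟨μ.1 - γ + rs γ b, fun h => (Multiset.mem_add.1 h).elim
    (fun h => μ.2 (Multiset.mem_of_le (Multiset.sub_le_self _ _) h)) fun h => by
      simp [rs, Multiset.mem_replicate] at h⟩

theorem col_dn {l : Par} {β : Multiset ℕ} (h : β ≤ l.1) (i : ℕ) :
    col (dn l β).1 (i + 1) + β.count (i + 1) = col l.1 (i + 1) := by
  conv_rhs => rw [← Multiset.sub_add_cancel h]
  rw [dn, col_add, col_add, col_lw, col_eq β (i + 1)]; ring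

theorem sum_dn {l : Par} {β : Multiset ℕ} (h : β ≤ l.1) : (dn l β).1.sum + β.card = l.1.sum := by
  conv_rhs => rw [← Multiset.sub_add_cancel h]
  rw [dn, Multiset.sum_add, Multiset.sum_add, add_assoc,
    sum_lw fun e => l.2 (Multiset.mem_of_le h e)]

theorem lw_rs {γ : Multiset ℕ} (h : 0 ∉ γ) (b : ℕ) : lw (rs γ b) = γ := by
  rw [lw, rs, Multiset.filter_add, Multiset.filter_eq_self.2, Multiset.filter_eq_nil.2]
  · simp
  · simp +contextual [Multiset.mem_replicate]
  · intro a ha
    obtain ⟨c, hc, rfl⟩ := Multiset.mem_map.1 ha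
    exact Nat.succ_lt_succ (Nat.pos_of_ne_zero fun e => h (e ▸ hc))

theorem rs_lw {β : Multiset ℕ} (h : 0 ∉ β) : rs (lw β) (β.count 1) = β := by
  rw [rs, lw, Multiset.map_map, Multiset.map_congr rfl (g := id) fun a ha => by
    have := (Multiset.mem_filter.1 ha).2; simp only [Function.comp, id]; omega, Multiset.map_id,
    ← Multiset.filter_eq']
  conv_rhs => rw [← Multiset.filter_add_not (1 < ·) β]
  congr 1
  exact Multiset.filter_congr fun a ha => by
    have : a ≠ 0 := fun e => h (e ▸ ha)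
    omega

theorem card_rs (γ : Multiset ℕ) (b : ℕ) : (rs γ b).card = γ.card + b := by simp [rs]

theorem rs_le_up (μ : Par) (γ : Multiset ℕ) (b : ℕ) : rs γ b ≤ (up μ γ b).1 :=
  Multiset.le_add_left _ _

theorem dn_up {μ : Par} {γ : Multiset ℕ} (h : γ ≤ μ.1) (b : ℕ) : dn (up μ γ b) (rs γ b) = μ :=
  Subtype.ext (by
    change μ.1 - γ + rs γ b - rs γ b + lw (rs γ b) = μ.1
    rw [lw_rs fun e => μ.2 (Multiset.mem_of_le h e), add_tsub_cancel_right,
      Multiset.sub_add_cancel h])

/-- reindexing of the vertical strips -/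
theorem sum_strip {A : Type*} [AddCommMonoid A] (m r : ℕ) (F : Par → Multiset ℕ → A) :
    ∑ l ∈ pt (m + r), ∑ β ∈ Iic l.1 with β.card = r, F l β =
      ∑ μ ∈ pt m, ∑ γ ∈ Iic μ.1 with γ.card ≤ r,
        F (up μ γ (r - γ.card)) (rs γ (r - γ.card)) := by
  rw [sum_sigma', sum_sigma']
  refine sum_bij' (fun x _ => ⟨dn x.1 x.2, lw x.2⟩)
    (fun y _ => ⟨up y.1 y.2 (r - y.2.card), rs y.2 (r - y.2.card)⟩) ?_ ?_ ?_ ?_ ?_
  all_goals simp only [mem_sigma, mem_filter, mem_Iic, mem_pt]
  all_goals
    have key : ∀ (l : Par) (β : Multiset ℕ), β ≤ l.1 → β.card = r →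
        r - (lw β).card = β.count 1 ∧ (lw β).card ≤ r := fun l β h hr => by
      have := congrArg Multiset.card (rs_lw fun e => l.2 (Multiset.mem_of_le h e))
      rw [card_rs] at this
      omega
  · rintro ⟨l, β⟩ ⟨h1, h2, h3⟩
    have := sum_dn h2
    exact ⟨by simp only at *; omega, Multiset.le_add_left _ _, (key l β h2 h3).2⟩
  · rintro ⟨μ, γ⟩ ⟨h1, h2, h3⟩
    have := sum_dn (rs_le_up μ γ (r - γ.card))
    rw [dn_up h2, card_rs] at this
    exact ⟨by simp only at *; omega, rs_le_up _ _ _, by rw [card_rs]; simp only at *; omega⟩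
  · rintro ⟨l, β⟩ ⟨-, h2, h3⟩
    have e := rs_lw fun e => l.2 (Multiset.mem_of_le h2 e)
    simp only [(key l β h2 h3).1, e, up, dn, add_tsub_cancel_right, Multiset.sub_add_cancel h2]
  · rintro ⟨μ, γ⟩ ⟨-, h2, -⟩
    simp only [dn_up h2, lw_rs fun e => μ.2 (Multiset.mem_of_le h2 e)]
  · rintro ⟨l, β⟩ ⟨-, h2, h3⟩
    have e := rs_lw fun e => l.2 (Multiset.mem_of_le h2 e)
    simp only [(key l β h2 h3).1, e, up, dn, add_tsub_cancel_right, Multiset.sub_add_cancel h2]

end Cfsg.GUn.HLp
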