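import Cfsg.Agent.GUn.HLa

/-!
# S4537, piece A (2): the vertical strip operators and the theta kernel
-/

set_option autoImplicit false

namespace Cfsg.GUn.HLp

open Finset SymCh PowerSeries

variable (Q : ℂ)

/-- Hall structure constants -/
noncomputable def ep (l β : Multiset ℕ) : ℂ := ∏ i ∈ l.toFinset,
  Q ^ ((β.count i).choose 2 + β.count i * col l (i + 1)) * qb Q (l.count i) (β.count i)

/-- multiplication by the elementary symmetric functions -/
noncomputable def E (r : ℕ) : Module.End ℂ (Par → ℂ) where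
  toFun f l := ∑ β ∈ Iic l.1 with β.card = r, ep Q l.1 β * f (dn l β)
  map_add' f g := funext fun l => by simp [mul_add, sum_add_distrib]
  map_smul' c f := funext fun l => by simp [mul_sum, mul_left_comm]

theorem E_apply (r : ℕ) (f : Par → ℂ) (l : Par) :
    E Q r f l = ∑ β ∈ Iic l.1 with β.card = r, ep Q l.1 β * f (dn l β) := rfl

/-- `∏ (1 - Q⁻¹ ^ j)` -/
noncomputable def ph (m : ℕ) : ℂ := ∏ j ∈ Icc 1 m, (1 - Q⁻¹ ^ j)

/-- orders of the automorphism groups -/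
noncomputable def au (l : Multiset ℕ) : ℂ := Q ^ ipc l l * ∏ i ∈ l.toFinset, ph Q (l.count i)

/-- the series `∑ y ^ b / fac b` -/
noncomputable def Cz (y : ℂ) : ℂ⟦X⟧ := mk fun b => y ^ b / fac Q b

/-- the admissible parameters -/
structure OK : Prop where
  ne : Q ≠ 0
  pow : ∀ j, 0 < j → Q ^ j ≠ 1

variable {Q}

theorem OK.sub (h : OK Q) (j : ℕ) : Q ^ (j + 1) - 1 ≠ 0 := sub_ne_zero.2 (h.pow _ j.succ_pos)

theorem OK.fac (h : OK Q) (m : ℕ) : fac Q m ≠ 0 := prod_ne_zero_iff.2 fun j _ => h.sub j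

theorem OK.ph_eq (h : OK Q) (m : ℕ) : ph Q m = HLp.fac Q m / Q ^ (m + 1).choose 2 := by
  induction m with
  | zero => simp [ph]
  | succ m ih =>
    have := h.ne
    rw [ph, prod_Icc_succ_top (by omega), ← ph, ih, fac_succ, Nat.choose_succ_succ' (m + 1) 1,
      Nat.choose_one_right, inv_pow]
    field_simp
    ring

theorem OK.au (h : OK Q) (l : Multiset ℕ) : au Q l ≠ 0 :=
  mul_ne_zero (pow_ne_zero _ h.ne) (prod_ne_zero_iff.2 fun _ _ => by
    rw [h.ph_eq]; exact div_ne_zero (h.fac _) (pow_ne_zero _ h.ne))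

theorem OK.qb_eq (h : OK Q) (x b : ℕ) :
    qb Q (x + b) b = HLp.fac Q (x + b) / (HLp.fac Q b * HLp.fac Q x) := by
  rw [eq_div_iff (mul_ne_zero (h.fac _) (h.fac _)), ← mul_assoc, add_comm, qb_mul_fac]

theorem OK.Cz_mul (h : OK Q) (y : ℂ) : Cz Q (Q * y) = (1 + y • X) * Cz Q y := by
  ext b
  cases b with
  | zero => simp [Cz]
  | succ b =>
    have h1 := h.fac b
    have h2 := h.sub b
    rw [add_mul, one_mul, smul_mul_assoc, map_add, map_smul, coeff_succ_X_mul]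
    simp only [Cz, coeff_mk, fac_succ, smul_eq_mul]
    field_simp
    ring

theorem OK.Cz_pow (h : OK Q) (y : ℂ) (m : ℕ) :
    Cz Q (Q ^ m * y) = (∏ s ∈ range m, (1 + Q ^ s • y • X)) * Cz Q y := by
  induction m with
  | zero => simp
  | succ m ih => rw [pow_succ', mul_assoc, h.Cz_mul, ih, prod_range_succ, mul_smul]; ring

theorem Cz_ne (y : ℂ) : Cz Q y ≠ 0 := fun e => by
  simpa [Cz] using congrArg (coeff 0) e

/-- the local form of the detailed balance -/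
theorem OK.loc (h : OK Q) (x b b' c' a a' : ℕ) :
    Q ^ (b.choose 2 + b * (c' + b')) * qb Q (x + b) b * Q ^ (a * (x + b' + c' + b)) /
      (Q ^ ((x + b' + c' + b) * (x + b' + c' + b)) * ph Q (x + b)) *
      ((Q ^ a' / Q ^ c') ^ b' / HLp.fac Q b') =
    Q ^ (a * (x + b' + c')) / (Q ^ ((x + b' + c') * (x + b' + c')) * ph Q (x + b')) *
      (Q ^ b'.choose 2 * qb Q (x + b') b' * (Q ^ a' / Q ^ (x + b' + c')) ^ b') *
      ((Q ^ a / Q ^ (x + b' + c')) ^ b / HLp.fac Q b) := by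
  have h0 := h.ne
  have h1 := h.fac
  have key : ∀ e1 e2 e3 e4 : ℕ, e1 + e4 = e3 + e2 → Q ^ e1 / Q ^ e2 = Q ^ e3 / Q ^ e4 :=
    fun e1 e2 e3 e4 e => by
      rw [div_eq_div_iff (pow_ne_zero _ h0) (pow_ne_zero _ h0), ← pow_add, ← pow_add, e]
  have t : ∀ n : ℕ, 2 * (n + 1).choose 2 = (n + 1) * n ∧ 2 * n.choose 2 + n = n * n := fun n => by
    induction n with
    | zero => simp
    | succ n ih =>
      rw [Nat.choose_succ_succ' (n + 1) 1, Nat.choose_one_right]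
      constructor <;> nlinarith [ih.1]
  have := key (b.choose 2 + b * (c' + b') + a * (x + b' + c' + b) + (x + b + 1).choose 2 + a' * b')
    ((x + b' + c' + b) * (x + b' + c' + b) + c' * b')
    (a * (x + b' + c') + (x + b' + 1).choose 2 + b'.choose 2 + a' * b' + a * b)
    ((x + b' + c') * (x + b' + c') + (x + b' + c') * b' + (x + b' + c') * b)
    (by nlinarith [(t (x + b)).1, (t (x + b')).1, (t b).2, (t b').2])
  rw [h.qb_eq, h.qb_eq, h.ph_eq, h.ph_eq]
  simp only [div_pow, ← pow_mul]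
  simp only [pow_add Q] at this ⊢
  have e := h1 (x + b)
  have e' := h1 (x + b')
  have e1 := h1 x
  have e2 := h1 b
  have e3 := h1 b'
  field_simp at this ⊢
  linear_combination this

theorem gen {R : Type*} [CommRing R] [Algebra ℂ R] (l : Par) {L : ℕ} (h : ∀ a ∈ l.1, a ≤ L)
    (z : ℕ → ℂ) (x : R) :
    ∑ β ∈ Iic l.1, (∏ i ∈ range L, Q ^ (β.count (i + 1)).choose 2 *
      qb Q (l.1.count (i + 1)) (β.count (i + 1)) * z i ^ β.count (i + 1)) • x ^ β.card =
      ∏ i ∈ range L, ∏ s ∈ range (l.1.count (i + 1)), (1 + Q ^ s • z i • x) := by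
  simp only [← qbinom]
  rw [← sum_Iic_prod l.2 h]
  refine sum_congr rfl fun β hβ => ?_
  have hb := mem_Iic.1 hβ
  rw [card_eq_sum (fun e => l.2 (Multiset.mem_of_le hb e)) fun a ha => h a (Multiset.mem_of_le hb ha),
    ← prod_pow_eq_pow_sum, ← prod_smul]
  simp only [smul_pow, mul_smul]

theorem ep_eq (l : Par) {β : Multiset ℕ} (hb : β ≤ l.1) {L : ℕ} (h : ∀ a ∈ l.1, a ≤ L) :
    ep Q l.1 β = ∏ i ∈ range L, Q ^ ((β.count (i + 1)).choose 2 + β.count (i + 1) *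
      col l.1 (i + 2)) * qb Q (l.1.count (i + 1)) (β.count (i + 1)) :=
  prod_toFinset l.2 h _ fun i hi => by
    have := Multiset.count_le_of_le i hb
    rw [show β.count i = 0 by omega]; simp

theorem au_eq (l : Par) {L : ℕ} (h : ∀ a ∈ l.1, a ≤ L) :
    au Q l.1 = ∏ i ∈ range L, Q ^ (col l.1 (i + 1) * col l.1 (i + 1)) * ph Q (l.1.count (i + 1)) := by
  rw [au, ipc_eq _ _ h, prod_mul_distrib, prod_pow_eq_pow_sum,
    prod_toFinset l.2 h _ fun i hi => by rw [hi]; rfl]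

theorem OK.ep_ker (h : OK Q) (ν μ : Par) {β : Multiset ℕ} (hb : β ≤ ν.1) {L : ℕ}
    (hL : ∀ a ∈ ν.1, a ≤ L) (hM : ∀ a ∈ μ.1, a ≤ L) :
    ep Q ν.1 β * Q ^ ipc (dn ν β).1 μ.1 = Q ^ ipc ν.1 μ.1 * ∏ i ∈ range L,
      Q ^ (β.count (i + 1)).choose 2 * qb Q (ν.1.count (i + 1)) (β.count (i + 1)) *
        (Q ^ col ν.1 (i + 2) / Q ^ col μ.1 (i + 1)) ^ β.count (i + 1) := by
  rw [ep_eq ν hb hL, ipc_comm, ipc_eq _ _ hM, ipc_comm, ipc_eq _ _ hM, ← prod_pow_eq_pow_sum,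
    ← prod_pow_eq_pow_sum, ← prod_mul_distrib, ← prod_mul_distrib]
  refine prod_congr rfl fun i _ => ?_
  have := h.ne
  rw [← col_dn hb i, div_pow]
  field_simp
  ring

theorem OK.bal (h : OK Q) (ν μ : Par) {γ : Multiset ℕ} (hγ : γ ≤ μ.1) (b : ℕ) {L : ℕ}
    (hL : ∀ a ∈ ν.1, a ≤ L) (hM : ∀ a ∈ μ.1, a ≤ L) :
    ep Q (up μ γ b).1 (rs γ b) * Q ^ ipc ν.1 (up μ γ b).1 / HLp.au Q (up μ γ b).1 =
      Q ^ ipc ν.1 μ.1 / HLp.au Q μ.1 * (∏ i ∈ range (L + 1), Q ^ (γ.count (i + 1)).choose 2 *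
        qb Q (μ.1.count (i + 1)) (γ.count (i + 1)) *
        (Q ^ col ν.1 (i + 2) / Q ^ col μ.1 (i + 1)) ^ γ.count (i + 1)) *
      ((Q ^ col ν.1 1 / Q ^ col μ.1 1) ^ b / HLp.fac Q b) := by
  have h0 : 0 ∉ γ := fun e => μ.2 (Multiset.mem_of_le hγ e)
  have hc : ∀ i, (rs γ b).count (i + 2) = γ.count (i + 1) := fun i => by
    rw [← count_lw, lw_rs h0]
  have hb : (rs γ b).count 1 = b := by
    have := congrArg Multiset.card (rs_lw (β := rs γ b) (by simp [rs, Multiset.mem_replicate]))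
    rw [lw_rs h0, card_rs, card_rs] at this
    omega
  have hU : ∀ a ∈ (up μ γ b).1, a ≤ L + 1 := fun a ha => by
    rcases Multiset.mem_add.1 ha with ha | ha
    · exact (hM a (Multiset.mem_of_le (Multiset.sub_le_self _ _) ha)).trans L.le_succ
    · rcases Multiset.mem_add.1 ha with ha | ha
      · obtain ⟨c, hc, rfl⟩ := Multiset.mem_map.1 ha
        exact Nat.succ_le_succ (hM c (Multiset.mem_of_le hγ hc))
      · rw [Multiset.eq_of_mem_replicate ha]; omega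
  have hL' : ∀ a ∈ ν.1, a ≤ L + 1 := fun a ha => (hL a ha).trans L.le_succ
  have hM' : ∀ a ∈ μ.1, a ≤ L + 1 := fun a ha => (hM a ha).trans L.le_succ
  have hcol : ∀ i, col (up μ γ b).1 (i + 1) = col μ.1 (i + 1) + (rs γ b).count (i + 1) := fun i => by
    rw [← col_dn (rs_le_up μ γ b), dn_up hγ]
  set G : ℕ → ℂ := fun i => (Q ^ col ν.1 (i + 1) / Q ^ col μ.1 (i + 1)) ^ (rs γ b).count (i + 1) /
    HLp.fac Q ((rs γ b).count (i + 1)) with hG
  have hG0 : ∀ i, G i ≠ 0 := fun i => div_ne_zero (pow_ne_zero _ (div_ne_zero (pow_ne_zero _ h.ne)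
    (pow_ne_zero _ h.ne))) (h.fac _)
  have hGL : G (L + 1) = 1 := by
    have : (rs γ b).count (L + 2) = 0 := by
      rw [hc, Multiset.count_eq_zero]
      exact fun e => absurd (hM _ (Multiset.mem_of_le hγ e)) (by omega)
    simp only [hG, this]; simp
  have e1 : ∏ i ∈ range (L + 1), G i = (∏ i ∈ range (L + 1), G (i + 1)) * G 0 := by
    rw [← prod_range_succ', prod_range_succ _ (L + 1), hGL, mul_one]
  refine mul_right_cancel₀ (prod_ne_zero_iff.2 fun i (_ : i ∈ range (L + 1)) => hG0 (i + 1)) ?_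
  have e2 : (Q ^ col ν.1 1 / Q ^ col μ.1 1) ^ b / HLp.fac Q b = G 0 := by simp only [hG, hb]
  rw [e2, mul_assoc _ (G 0), mul_comm (G 0), ← e1, ep_eq _ (rs_le_up μ γ b) hU, au_eq _ hU,
    au_eq _ hM', ipc_eq _ _ hL', ipc_eq _ _ hL', ← prod_pow_eq_pow_sum, ← prod_pow_eq_pow_sum]
  simp only [← prod_mul_distrib, ← prod_div_distrib]
  refine prod_congr rfl fun i _ => ?_
  obtain ⟨x, hx⟩ := Nat.exists_eq_add_of_le' (Multiset.count_le_of_le (i + 1) hγ)
  have e3 : (up μ γ b).1.count (i + 1) = x + (rs γ b).count (i + 1) := by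
    rw [up, Multiset.count_add, Multiset.count_sub, hx, add_tsub_cancel_right]
  simp only [hG, hcol, e3, hc, col_eq μ.1 (i + 1), hx]
  exact h.loc _ _ _ _ _ _

theorem coeff_mul_sum (F : ℂ⟦X⟧) (s : Finset (Multiset ℕ)) (t : Multiset ℕ → ℂ) (r : ℕ) :
    coeff r (F * ∑ β ∈ s, t β • X ^ β.card) =
      ∑ β ∈ s with β.card ≤ r, t β * coeff (r - β.card) F := by
  rw [mul_sum, map_sum, sum_filter]
  refine sum_congr rfl fun β _ => ?_
  rw [mul_smul_comm, map_smul, coeff_mul_X_pow', smul_eq_mul, mul_ite, mul_zero]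

theorem OK.core (h : OK Q) (ν μ : Par) (r : ℕ) :
    ∑ γ ∈ Iic μ.1 with γ.card ≤ r, ep Q (up μ γ (r - γ.card)).1 (rs γ (r - γ.card)) *
      Q ^ ipc ν.1 (up μ γ (r - γ.card)).1 / HLp.au Q (up μ γ (r - γ.card)).1 =
    ∑ β ∈ Iic ν.1 with β.card ≤ r, (HLp.fac Q (r - β.card))⁻¹ *
      (ep Q ν.1 β * Q ^ ipc (dn ν β).1 μ.1 / HLp.au Q μ.1) := by
  set L := ν.1.sum + μ.1.sum
  have hL : ∀ a ∈ ν.1, a ≤ L := fun a h => (Multiset.le_sum_of_mem h).trans le_self_add
  have hM : ∀ a ∈ μ.1, a ≤ L := fun a h => (Multiset.le_sum_of_mem h).trans le_add_self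
  have hL' : ∀ a ∈ ν.1, a ≤ L + 1 := fun a ha => (hL a ha).trans L.le_succ
  have hM' : ∀ a ∈ μ.1, a ≤ L + 1 := fun a ha => (hM a ha).trans L.le_succ
  set z : ℕ → ℂ := fun i => Q ^ col ν.1 (i + 2) / Q ^ col μ.1 (i + 1) with hz
  set y : ℕ → ℂ := fun i => Q ^ col ν.1 (i + 1) / Q ^ col μ.1 (i + 1) with hy
  have e : Cz Q (y 0) * ∏ i ∈ range (L + 1), ∏ s ∈ range (μ.1.count (i + 1)), (1 + Q ^ s • z i • X) =
      Cz Q 1 * ∏ i ∈ range (L + 1), ∏ s ∈ range (ν.1.count (i + 1)), (1 + Q ^ s • z i • X) := by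
    refine mul_right_cancel₀ (prod_ne_zero_iff.2 fun i (_ : i ∈ range (L + 1)) =>
      Cz_ne (Q := Q) (z i)) ?_
    have h0 := h.ne
    have e1 : ∀ i, Q ^ μ.1.count (i + 1) * z i = y (i + 1) := fun i => by
      simp only [hz, hy, col_eq μ.1 (i + 1)]; field_simp; ring
    have e2 : ∀ i, Q ^ ν.1.count (i + 1) * z i = y i := fun i => by
      simp only [hz, hy, col_eq ν.1 (i + 1)]; field_simp; ring
    have e3 : y (L + 1) = 1 := by simp only [hy, col_eq_zero hL', col_eq_zero hM']; simp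
    simp only [mul_assoc, ← prod_mul_distrib, ← h.Cz_pow, e1, e2]
    rw [mul_comm, ← prod_range_succ' fun i => Cz Q (y i), prod_range_succ _ (L + 1), e3, mul_comm]
  rw [← gen μ hM', ← gen ν hL'] at e
  have e' := congrArg (fun F => Q ^ ipc ν.1 μ.1 / HLp.au Q μ.1 * coeff r F) e
  simp only [coeff_mul_sum] at e'
  simp only [mul_sum, Cz, coeff_mk] at e'
  convert e' using 1 <;> refine sum_congr rfl fun β hβ => ?_
  · rw [h.bal ν μ (mem_Iic.1 (mem_filter.1 hβ).1) _ hL hM, mul_assoc]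
  · rw [h.ep_ker ν μ (mem_Iic.1 (mem_filter.1 hβ).1) hL' hM']; ring

/-- the partitions of an integer -/
def pz (n : ℤ) : Finset Par := if 0 ≤ n then pt n.toNat else ∅

theorem mem_pz {n : ℤ} {l : Par} : l ∈ pz n ↔ (l.1.sum : ℤ) = n := by
  unfold pz
  split_ifs
  · rw [mem_pt]; omega
  · simp only [notMem_empty, false_iff]; omega

theorem pz_nat (n : ℕ) : pz n = pt n := if_pos n.cast_nonneg

variable (Q)

/-- the bilinear form -/
noncomputable def B (n : ℤ) : (Par → ℂ) →ₗ[ℂ] (Par → ℂ) →ₗ[ℂ] ℂ :=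
  LinearMap.mk₂ ℂ (fun f g => ∑ l ∈ pz n, f l * g l / au Q l.1)
    (fun _ _ _ => by simp [add_mul, add_div, sum_add_distrib])
    (fun _ _ _ => by simp [mul_sum, mul_assoc, mul_div_assoc])
    (fun _ _ _ => by simp [mul_add, add_div, sum_add_distrib])
    (fun _ _ _ => by simp [mul_sum, mul_left_comm, mul_div_assoc])

theorem B_apply (n : ℤ) (f g : Par → ℂ) : B Q n f g = ∑ l ∈ pz n, f l * g l / au Q l.1 := rfl

theorem B_comm (n : ℤ) (f g : Par → ℂ) : B Q n f g = B Q n g f := by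
  simp only [B_apply, mul_comm]

/-- the theta operators -/
noncomputable def Th (m : ℤ) : Module.End ℂ (Par → ℂ) :=
  LinearMap.pi fun ν => B Q m fun μ => Q ^ ipc ν.1 μ.1

theorem Th_apply (m : ℤ) (f : Par → ℂ) (ν : Par) :
    Th Q m f ν = ∑ μ ∈ pz m, Q ^ ipc ν.1 μ.1 * f μ / au Q μ.1 := rfl

theorem B_Th (m n : ℤ) (f g : Par → ℂ) : B Q m f (Th Q n g) = B Q n (Th Q m f) g := by
  simp only [B_apply, Th_apply, mul_sum, sum_mul, sum_div]
  rw [sum_comm]
  refine sum_congr rfl fun a _ => sum_congr rfl fun b _ => ?_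
  rw [ipc_comm]; ring

variable {Q}

theorem B_congr {n : ℤ} {g g' : Par → ℂ} (f : Par → ℂ) (h : ∀ l ∈ pz n, g l = g' l) :
    B Q n f g = B Q n f g' := sum_congr rfl fun l hl => by rw [h l hl]

theorem OK.eq_zero (h : OK Q) {f : Par → ℂ} {l : Par} (hf : B Q l.1.sum f (Pi.single l 1) = 0) :
    f l = 0 := by
  rw [B_apply, sum_eq_single l (fun b _ hb => by simp [hb]) fun e => absurd (mem_pz.2 rfl) e] at hf
  simpa [h.au] using hf

theorem E_eq_zero {r : ℕ} {f : Par → ℂ} {l : Par} (h : ∀ μ : Par, μ.1.sum + r = l.1.sum → f μ = 0) :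
    E Q r f l = 0 := sum_eq_zero fun β hβ => by
  rw [mem_filter, mem_Iic] at hβ
  rw [h _ (hβ.2 ▸ sum_dn hβ.1), mul_zero]

theorem OK.Th_E (h : OK Q) (m : ℤ) (r : ℕ) : Th Q (m + r) * E Q r =
    (∑ x ∈ antidiagonal r, (HLp.fac Q x.1)⁻¹ • E Q x.2) * Th Q m := by
  refine LinearMap.ext fun f => funext fun ν => ?_
  simp only [Module.End.mul_apply, LinearMap.sum_apply, Finset.sum_apply, LinearMap.smul_apply,
    Pi.smul_apply, smul_eq_mul]
  rcases lt_or_ge m 0 with hm | hm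
  · have : Th Q m f = 0 := funext fun ν => by simp [Th_apply, pz, hm.not_ge]
    simp only [this, map_zero, Pi.zero_apply, mul_zero, sum_const_zero, Th_apply]
    exact sum_eq_zero fun l hl => by
      rw [E_eq_zero fun μ e => absurd (mem_pz.1 hl) (by omega), mul_zero, zero_div]
  lift m to ℕ using hm
  have e1 : ∑ x ∈ antidiagonal r, (HLp.fac Q x.1)⁻¹ * E Q x.2 (Th Q m f) ν =
      ∑ β ∈ Iic ν.1 with β.card ≤ r, (HLp.fac Q (r - β.card))⁻¹ *
        (ep Q ν.1 β * Th Q m f (dn ν β)) := by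
    rw [Nat.sum_antidiagonal_eq_sum_range_succ_mk, ← sum_range_reflect,
      ← sum_fiberwise_of_maps_to (g := Multiset.card) (t := range (r + 1))
        fun β hβ => mem_range.2 (Nat.lt_succ_of_le (mem_filter.1 hβ).2)]
    refine sum_congr rfl fun j hj => ?_
    have := mem_range.1 hj
    rw [E_apply, mul_sum, filter_filter]
    refine sum_congr (filter_congr fun β _ => by omega) fun β hβ => ?_
    rw [(mem_filter.1 hβ).2.2]; rfl
  rw [e1, Th_apply, ← Nat.cast_add, pz_nat]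
  simp only [E_apply, mul_sum, sum_div, Th_apply, pz_nat]
  rw [sum_strip, sum_comm]
  refine sum_congr rfl fun μ _ => ?_
  have := congrArg (· * f μ) (h.core ν μ r)
  simp only [sum_mul] at this
  convert this using 1 <;> refine sum_congr rfl fun β hβ => ?_
  · rw [dn_up (mem_Iic.1 (mem_filter.1 hβ).1)]; ring
  · ring

end Cfsg.GUn.HLp
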