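import Cfsg.Agent.GUn.HLb

/-!
# S4537, piece A (3): density of the theta images, commutativity
-/

set_option autoImplicit false

namespace Cfsg.GUn.HLp

open Finset SymCh

variable {Q : ℂ}

/-- the empty partition -/
def e0 : Par := ⟨0, Multiset.notMem_zero 0⟩

/-- the unit of the Hall algebra -/
noncomputable def dl : Par → ℂ := Pi.single e0 1

theorem card_le_sum {l : Multiset ℕ} (h : 0 ∉ l) : l.card ≤ l.sum := by
  have := sum_lw h; omega

theorem eq_e0 {l : Par} (h : l.1.sum = 0) : l = e0 :=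
  Subtype.ext (Multiset.card_eq_zero.1 (by have := card_le_sum l.2; omega))

theorem pz_zero : pz 0 = {e0} := ext fun l => by
  rw [mem_pz, mem_singleton]
  exact ⟨fun h => eq_e0 (by omega), fun h => h ▸ rfl⟩

theorem ep_zero (l : Multiset ℕ) : ep Q l 0 = 1 := by simp [ep]

theorem dn_zero (l : Par) : dn l 0 = l := Subtype.ext (by simp [dn, lw])

theorem E_zero : E Q 0 = 1 := by
  refine LinearMap.ext fun f => funext fun l => ?_
  rw [E_apply, sum_eq_single 0 (fun β h h0 => absurd (Multiset.card_eq_zero.1 (mem_filter.1 h).2) h0)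
    fun h => absurd (by simp) h, ep_zero, dn_zero, one_mul]
  rfl

theorem B_zero (f g : Par → ℂ) : B Q 0 f g = f e0 * g e0 := by
  simp [B_apply, pz_zero, au, e0, ipc]

theorem Th_e0 (m : ℤ) (f : Par → ℂ) : Th Q m f e0 = B Q m f 1 := by
  simp [Th_apply, B_apply, e0, ipc]

theorem Th_zero (f : Par → ℂ) (l : Par) : Th Q 0 f l = f e0 := by
  simp [Th_apply, pz_zero, au, e0, ipc]

theorem Th_dl : Th Q 0 dl = 1 := funext fun l => by simp [Th_zero, dl]

theorem OK.alt (h : OK Q) (l : Par) {N : ℕ} (hN : l.1.sum ≤ N) :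
    ∑ r ∈ range (N + 1), (-1) ^ r * E Q r 1 l = dl l := by
  have hL : ∀ a ∈ l.1, a ≤ N := fun a h => (Multiset.le_sum_of_mem h).trans hN
  have e := gen (Q := Q) l hL (fun i => Q ^ col l.1 (i + 2)) (-1 : ℂ)
  have e1 : ∑ r ∈ range (N + 1), (-1) ^ r * E Q r 1 l =
      ∑ β ∈ Iic l.1, ep Q l.1 β * (-1) ^ β.card := by
    rw [← sum_fiberwise_of_maps_to (g := Multiset.card) (t := range (N + 1)) fun β hβ =>
      mem_range.2 (Nat.lt_succ_of_le ((Multiset.card_le_card (mem_Iic.1 hβ)).trans
        ((card_le_sum l.2).trans hN)))]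
    refine sum_congr rfl fun r _ => ?_
    rw [E_apply, mul_sum]
    exact sum_congr rfl fun β hβ => by rw [(mem_filter.1 hβ).2, Pi.one_apply]; ring
  rw [e1, sum_congr rfl fun β hβ => by rw [ep_eq l (mem_Iic.1 hβ) hL]]
  simp only [pow_add, Nat.mul_comm (Multiset.count _ _), pow_mul, mul_right_comm _ _ (qb _ _ _)]
  refine e.trans ?_
  by_cases h0 : l = e0
  · subst h0; rw [dl, Pi.single_eq_same]; simp [e0]
  · have hne : l.1.toFinset.Nonempty := Multiset.toFinset_nonempty.2 fun e => h0 (Subtype.ext e)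
    obtain ⟨a, ha, hm⟩ := l.1.toFinset.exists_max_image id hne
    rw [Multiset.mem_toFinset] at ha
    obtain ⟨i, rfl⟩ := Nat.exists_eq_succ_of_ne_zero (fun e : a = 0 => l.2 (e ▸ ha))
    rw [dl, Pi.single_eq_of_ne h0]
    refine prod_eq_zero (i := i) (mem_range.2 (hL _ ha)) (prod_eq_zero (i := 0)
      (mem_range.2 (Multiset.count_pos.2 ha)) ?_)
    rw [col_eq_zero (L := i + 1) fun b hb => hm b (Multiset.mem_toFinset.2 hb)]
    simp

theorem apply_eq_sum {N : ℤ} (φ : (Par → ℂ) →ₗ[ℂ] ℂ) (hφ : ∀ g, (∀ l ∈ pz N, g l = 0) → φ g = 0)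
    (g : Par → ℂ) : φ g = ∑ l ∈ pz N, g l * φ (Pi.single l 1) := by
  have := hφ (g - ∑ l ∈ pz N, g l • Pi.single l 1) fun l hl => by
    simp [Finset.sum_apply, Pi.single_apply, hl]
  rw [map_sub, map_sum, sub_eq_zero] at this
  simp only [this, map_smul, smul_eq_mul]

theorem OK.span (h : OK Q) {N : ℕ} (hN : 0 < N) (φ : (Par → ℂ) →ₗ[ℂ] ℂ)
    (hφ : ∀ g, (∀ l ∈ pz N, g l = 0) → φ g = 0) (hE : ∀ r, 0 < r → ∀ f, φ (E Q r f) = 0) :
    φ = 0 := by
  have key : ∀ c, ∀ l ∈ pz N, N - l.1.card = c → φ (Pi.single l 1) = 0 := fun c => by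
    induction c using Nat.strong_induction_on with
    | _ c ih =>
    intro l hl hc
    have h1 : l.1.card ≠ 0 := fun e => by
      have := mem_pz.1 hl
      rw [Multiset.card_eq_zero.1 e] at this
      simp at this; omega
    have := hE _ (Nat.pos_of_ne_zero h1) (Pi.single (dn l l.1) 1)
    rw [apply_eq_sum φ hφ, sum_eq_single l (fun b hb hbl => ?_) fun e => absurd hl e, E_apply,
      sum_eq_single l.1 (fun β hβ e => absurd (Multiset.eq_of_le_of_card_le
        (mem_Iic.1 (mem_filter.1 hβ).1) (mem_filter.1 hβ).2.ge) e) fun e => absurd (by simp) e] at this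
    · simpa [ep, prod_eq_zero_iff, h.ne] using this
    rcases lt_or_ge l.1.card b.1.card with h2 | h2
    · have := card_le_sum b.2
      have := mem_pz.1 hb
      rw [ih _ (by omega) b hb rfl, mul_zero]
    · rw [E_apply, sum_eq_zero fun β hβ => ?_, zero_mul]
      rw [mem_filter, mem_Iic] at hβ
      have e := Multiset.eq_of_le_of_card_le hβ.1 (hβ.2 ▸ h2)
      rw [Pi.single_eq_of_ne fun e' => hbl (Subtype.ext ?_), mul_zero]
      have e1 : lw b.1 = lw l.1 := by simpa [dn, e] using congrArg Subtype.val e'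
      have e2 := congrArg Multiset.card (rs_lw b.2)
      have e3 := congrArg Multiset.card (rs_lw l.2)
      rw [card_rs] at e2 e3
      rw [← rs_lw b.2, ← rs_lw l.2, e1, show b.1.count 1 = l.1.count 1 by
        rw [e1, ← e, hβ.2] at e2; rw [← e]; omega]
  exact LinearMap.ext fun g => (apply_eq_sum φ hφ g).trans
    (sum_eq_zero fun l hl => by rw [key _ l hl rfl, mul_zero])

theorem OK.dense (h : OK Q) (N : ℕ) (hN : 0 < N) (φ : (Par → ℂ) →ₗ[ℂ] ℂ)
    (hφ : ∀ g, (∀ l ∈ pz N, g l = 0) → φ g = 0) (hT : ∀ n < N, ∀ f, φ (Th Q n f) = 0) :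
    φ = 0 := by
  induction N using Nat.strong_induction_on generalizing φ with
  | _ N ih =>
  have hA : ∀ r n : ℕ, n + r < N → ∀ f, φ (E Q r (Th Q n f)) = 0 := fun r => by
    induction r using Nat.strong_induction_on with
    | _ r ih =>
    intro n hn f
    have := hT (n + r) hn (E Q r f)
    rw [Nat.cast_add, ← Module.End.mul_apply, h.Th_E, Module.End.mul_apply, LinearMap.sum_apply,
      map_sum, sum_eq_single (0, r) (fun x hx h0 => ?_) fun e => absurd (by simp) e] at this
    · simpa using this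
    · have h1 := mem_antidiagonal.1 hx
      have : x.2 < r := by
        by_contra h2
        exact h0 (Prod.ext (by simp only; omega) (by simp only; omega))
      rw [LinearMap.smul_apply, map_smul, ih _ this n (by omega), smul_zero]
  refine h.span hN φ hφ fun r hr f => ?_
  rcases lt_trichotomy r N with h1 | rfl | h1
  · exact LinearMap.congr_fun (ih (N - r) (by omega) (by omega) (φ ∘ₗ E Q r)
      (fun g hg => hφ _ fun l hl => E_eq_zero fun μ e => hg μ (mem_pz.2 (by
        have := mem_pz.1 hl; omega))) fun n hn f => hA r n (by omega) f) f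
  · have h2 := hφ (∑ j ∈ range (r + 1), (-1 : ℂ) ^ j • E Q j 1) fun l hl => by
      have := mem_pz.1 hl
      simp only [Finset.sum_apply, Pi.smul_apply, smul_eq_mul]
      rw [h.alt l (by omega), dl, Pi.single_eq_of_ne]
      rintro rfl
      simp [e0] at this; omega
    rw [map_sum, sum_range_succ, sum_eq_zero fun j hj => by
      rw [map_smul, ← Th_dl (Q := Q), ← Nat.cast_zero, hA j 0 (by simpa using hj), smul_zero],
      zero_add, map_smul, smul_eq_zero, or_iff_right (by simp)] at h2
    have h3 := hφ (E Q r (f - f e0 • 1)) fun l hl => E_eq_zero fun μ e => by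
      have := mem_pz.1 hl
      rw [eq_e0 (l := μ) (by omega)]; simp
    rwa [map_sub, map_smul, map_sub, map_smul, h2, smul_zero, sub_zero] at h3
  · exact hφ _ fun l hl => E_eq_zero fun μ e => absurd (mem_pz.1 hl) (by omega)

theorem OK.vanish (h : OK Q) {D : Module.End ℂ (Par → ℂ)} {d : ℤ}
    (hD : ∀ m, Th Q (m + d) * D = D * Th Q m) (h0 : ∀ f, D f e0 = 0) : D = 0 := by
  have key : ∀ (N : ℕ) (l : Par), l.1.sum = N → ∀ f, D f l = 0 := fun N => by
    induction N using Nat.strong_induction_on with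
    | _ N ih =>
    intro l hl f
    rcases N.eq_zero_or_pos with rfl | hN
    · rw [eq_e0 hl, h0]
    refine h.eq_zero (hl ▸ LinearMap.congr_fun (h.dense N hN (B Q N (D f))
      (fun g hg => (B_congr _ hg).trans (map_zero _)) fun n hn g => ?_) _)
    have := LinearMap.congr_fun (hD (N - d)) f
    rw [sub_add_cancel, Module.End.mul_apply, Module.End.mul_apply] at this
    rw [B_Th, this, B_comm]
    exact (B_congr _ fun μ hμ => ih n hn μ (by exact_mod_cast mem_pz.1 hμ) _).trans (map_zero _)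
  exact LinearMap.ext fun f => funext fun l => key _ l rfl f

theorem OK.comm (h : OK Q) (r s : ℕ) : E Q r * E Q s = E Q s * E Q r := by
  induction hn : r + s using Nat.strong_induction_on generalizing r s with
  | _ n ih =>
  subst hn
  rcases r.eq_zero_or_pos with rfl | hr
  · rw [E_zero, one_mul, mul_one]
  rcases s.eq_zero_or_pos with rfl | hs
  · rw [E_zero, one_mul, mul_one]
  refine sub_eq_zero.1 (h.vanish (d := r + s) (fun m => ?_) fun f => ?_)
  · have e : ∀ r s : ℕ, Th Q (m + (r + s)) * (E Q r * E Q s) = (∑ x ∈ antidiagonal r,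
        ∑ y ∈ antidiagonal s, (HLp.fac Q x.1)⁻¹ • E Q x.2 * (HLp.fac Q y.1)⁻¹ • E Q y.2) *
        Th Q m := fun r s => by
      rw [← mul_assoc, show m + (r + s : ℤ) = m + s + r by ring, h.Th_E, mul_assoc, h.Th_E,
        ← mul_assoc, sum_mul_sum]
    rw [mul_sub, e, add_comm (r : ℤ), e, sum_comm (s := antidiagonal s), ← sub_mul,
      ← sum_sub_distrib]
    congr 1
    have k : ∀ {a : ℕ} {x : ℕ × ℕ}, x ∈ antidiagonal a → x ≠ (0, a) → x.2 < a := fun hx h0 => by
      have h1 := mem_antidiagonal.1 hx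
      by_contra h2
      exact h0 (Prod.ext (by simp only; omega) (by simp only; omega))
    have k2 : ∀ {x y : ℕ × ℕ}, x.2 + y.2 < r + s → (HLp.fac Q x.1)⁻¹ • E Q x.2 *
        (HLp.fac Q y.1)⁻¹ • E Q y.2 - (HLp.fac Q y.1)⁻¹ • E Q y.2 * (HLp.fac Q x.1)⁻¹ • E Q x.2 = 0 :=
      fun h => by
        simp only [smul_mul_smul_comm]
        rw [ih _ h _ _ rfl, mul_comm, sub_self]
    simp only [← sum_sub_distrib]
    rw [sum_eq_single (0, r) (fun x hx h0 => sum_eq_zero fun y hy => k2 (by
        have := k hx h0; have := mem_antidiagonal.1 hy; omega)) fun e => absurd (by simp) e,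
      sum_eq_single (0, s) (fun y hy h0 => k2 (by have := k hy h0; simp only; omega))
        fun e => absurd (by simp) e]
    simp
  · rw [LinearMap.sub_apply, Pi.sub_apply, Module.End.mul_apply, Module.End.mul_apply,
      E_eq_zero fun μ e => absurd e (by simp [e0]; omega),
      E_eq_zero fun μ e => absurd e (by simp [e0]; omega), sub_self]

end Cfsg.GUn.HLp
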