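import Cfsg.Agent.GUn.HLc

/-!
# S4537, piece A (4): the Hall algebra, power sums and their adjoints
-/

set_option autoImplicit false

namespace Cfsg.GUn.HLp

open Finset SymCh GLn

section
variable {R : Type*} [CommRing R]

/-- power sums from elementary symmetric functions -/
noncomputable def pl (x : ℕ → R) (k : ℕ) : R := (-1) ^ (k + 1) * lg x k

theorem pl_mem (S : ℕ → AddSubgroup R) (hm : ∀ i j a b, a ∈ S i → b ∈ S j → a * b ∈ S (i + j))
    {x : ℕ → R} (hx : ∀ r, x r ∈ S r) (k : ℕ) : pl x k ∈ S k := by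
  have : lg x k ∈ S k := by
    induction k using Nat.strong_induction_on with
    | _ k ih =>
    cases k with
    | zero => rw [lg]; exact zero_mem _
    | succ n =>
      rw [lg, ← nsmul_eq_mul]
      refine sub_mem (nsmul_mem (hx _) _) (sum_mem fun i _ => ?_)
      have := hm _ _ _ _ (ih (i + 1) (by omega)) (hx (n - i))
      rwa [show i + 1 + (n - i) = n + 1 by omega] at this
  rcases neg_one_pow_eq_or R (k + 1) with e | e <;> simpa [pl, e] using this

theorem pm_mem (S : ℕ → AddSubgroup R) (hm : ∀ i j a b, a ∈ S i → b ∈ S j → a * b ∈ S (i + j))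
    (h1 : 1 ∈ S 0) {x : ℕ → R} (hx : ∀ r, x r ∈ S r) (ρ : Multiset ℕ) :
    pm (pl x) ρ ∈ S ρ.sum := by
  induction ρ using Multiset.induction_on with
  | empty => exact h1
  | cons a ρ ih =>
    rw [pm, Multiset.map_cons, Multiset.prod_cons, Multiset.sum_cons]
    exact hm _ _ _ _ (pl_mem S hm hx a) ih

theorem map_pl {R' : Type*} [CommRing R'] (f : R →+* R') (x : ℕ → R) (k : ℕ) :
    f (pl x k) = pl (fun r => f (x r)) k := by simp [pl, map_lg]

theorem neg_pl (x : ℕ → R) (k : ℕ) : (-1) ^ (k + 1) * pl x k = lg x k := by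
  rw [pl, ← mul_assoc, ← mul_pow]; simp

theorem alt_ex [Algebra ℂ R] {x : ℕ → R} (h0 : x 0 = 1) (n : ℕ) :
    ∑ y ∈ antidiagonal n, (-1) ^ y.1 * x y.1 * ex (pl x) y.2 = if n = 0 then 1 else 0 := by
  have e : (fun k => (-1) ^ k * lg x k) + pl x = 0 := funext fun k => by
    simp [pl, pow_succ]
  rw [← ex_zero_fun, ← e, ex_add]
  simp only [ex_pow_mul, ex_lg h0]

end

variable (Q : ℂ)

/-- the Hall algebra -/
abbrev Al : Subalgebra ℂ (Module.End ℂ (Par → ℂ)) := Algebra.adjoin ℂ (Set.range (E Q))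

/-- the norms of the power sums -/
noncomputable def nu (k : ℕ) : ℂ := (Q ^ k - 1)⁻¹

/-- elementary symmetric functions -/
noncomputable def el (r : ℕ) : Al Q := ⟨E Q r, Algebra.subset_adjoin ⟨r, rfl⟩⟩

/-- adjoint operators -/
noncomputable def Ad (a : Module.End ℂ (Par → ℂ)) (k : ℕ) : Module.End ℂ (Par → ℂ) :=
  LinearMap.pi fun μ => au Q μ.1 • B Q (μ.1.sum + k) (a (Pi.single μ 1))

/-- operators raising the degree -/
def Rai (d : ℕ) : Submodule ℂ (Al Q) where
  carrier := {a | ∀ (f : Par → ℂ) (l : Par), (∀ μ : Par, μ.1.sum + d = l.1.sum → f μ = 0) →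
    a.1 f l = 0}
  add_mem' ha hb f l e := by simp [ha f l e, hb f l e]
  zero_mem' _ _ _ := rfl
  smul_mem' c _ ha f l e := by simp [ha f l e]

variable [h : Fact (OK Q)]

noncomputable instance : CommRing (Al Q) :=
  { (inferInstance : Ring (Al Q)) with
    mul_comm := (Algebra.isMulCommutative_adjoin ℂ (by
      rintro _ ⟨r, rfl⟩ _ ⟨s, rfl⟩; exact h.1.comm r s)).is_comm.comm }

/-- power sums -/
noncomputable def pw : ℕ → Al Q := pl (el Q)

/-- Green functions -/
noncomputable def gv (ρ : Multiset ℕ) : Par → ℂ := (pm (pw Q) ρ).1 dl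

variable {Q}

omit h in
theorem el_zero : el Q 0 = 1 := Subtype.ext E_zero

theorem ex_nu (b : ℕ) : ex (fun k => (-1) ^ (k + 1) * nu Q k) b = (fac Q b)⁻¹ := by
  induction b with
  | zero => simp [ex_zero]
  | succ b ih =>
    have e := ex_pow_mul Q (fun k => (-1) ^ (k + 1) * nu Q k) (b + 1)
    rw [ex_congr (q := (fun k => -(-1) ^ k) + fun k => (-1) ^ (k + 1) * nu Q k) fun k hk => by
      have := sub_ne_zero.2 (h.1.pow k hk)
      simp only [Pi.add_apply, nu]; field_simp; ring] at e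
    have e2 := congrArg (PowerSeries.coeff (b + 1)) (mk_ex_add (fun k => -(-1 : ℂ) ^ k)
      fun k => (-1) ^ (k + 1) * nu Q k)
    rw [mk_ex_neg_geom, PowerSeries.coeff_mk, e, sub_mul, mul_assoc, map_sub,
      PowerSeries.coeff_C_mul, PowerSeries.coeff_succ_X_mul, one_mul, PowerSeries.coeff_mk,
      PowerSeries.coeff_mk, ih] at e2
    have h1 := h.1.fac b
    have h2 := h.1.sub b
    rw [fac_succ]
    field_simp at e2 ⊢
    linear_combination e2

theorem Th_pw (m : ℤ) {k : ℕ} (hk : 0 < k) :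
    Th Q (m + k) * (pw Q k).1 = ((pw Q k).1 + nu Q k • 1) * Th Q m := by
  let S : ℕ → AddSubgroup (Al Q × Al Q) := fun d =>
    { carrier := {x | ∀ m : ℤ, Th Q (m + d) * x.1.1 = x.2.1 * Th Q m}
      add_mem' := fun ha hb m => by simp [mul_add, add_mul, ha m, hb m]
      zero_mem' := fun m => by simp
      neg_mem' := fun {x} ha m => by
        exact LinearMap.ext fun f => by simpa using LinearMap.congr_fun (ha m) f }
  let q : ℕ → Al Q := fun k => algebraMap ℂ _ ((-1) ^ (k + 1) * nu Q k)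
  have := pl_mem S (fun i j a b ha hb m => by
    change _ * (a.1.1 * b.1.1) = a.2.1 * b.2.1 * _
    rw [← mul_assoc, show m + (i + j : ℕ) = m + j + i by push_cast; ring, ha, mul_assoc, hb,
      mul_assoc]) (x := fun r => (el Q r, ex (q + lg (el Q)) r)) (fun r m => by
    refine (h.1.Th_E m r).trans ?_
    simp only [ex_add, ex_lg (h := el Q) el_zero, q, ← map_ex, ex_nu, ← Algebra.smul_def]
    simp [el]) k m
  have e1 := map_pl (RingHom.fst _ _) (fun r => (el Q r, ex (q + lg (el Q)) r)) k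
  have e2 := map_pl (RingHom.snd _ _) (fun r => (el Q r, ex (q + lg (el Q)) r)) k
  simp only [RingHom.coe_fst, RingHom.coe_snd] at e1 e2
  have e3 : pl (ex (q + lg (el Q))) k = pw Q k + nu Q k • 1 := by
    rw [pl, lg_ex _ hk, Pi.add_apply, mul_add, add_comm, ← Algebra.algebraMap_eq_smul_one]
    simp only [q, map_mul, map_pow, map_neg, map_one, ← mul_assoc, ← mul_pow]
    simp [pw, pl]
  rw [e1, e2, e3] at this
  exact this

omit h in
theorem Rai_mul (i j : ℕ) (a b : Al Q) (ha : a ∈ Rai Q i) (hb : b ∈ Rai Q j) :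
    a * b ∈ Rai Q (i + j) :=
  fun f l e => ha _ l fun μ e1 => hb f μ fun ν e2 => e ν (by omega)

omit h in
theorem Rai.congr {d : ℕ} {a : Al Q} (ha : a ∈ Rai Q d) {f g : Par → ℂ} {l : Par}
    (e : ∀ μ : Par, μ.1.sum + d = l.1.sum → f μ = g μ) : a.1 f l = a.1 g l := by
  simpa [sub_eq_zero] using ha (f - g) l fun μ e1 => sub_eq_zero.2 (e μ e1)

omit h in
theorem el_mem (r : ℕ) : el Q r ∈ Rai Q r := fun _ _ => E_eq_zero

theorem pw_mem (k : ℕ) : pw Q k ∈ Rai Q k :=
  pl_mem (fun d => (Rai Q d).toAddSubgroup) Rai_mul el_mem k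

theorem pm_rai (ρ : Multiset ℕ) : pm (pw Q) ρ ∈ Rai Q ρ.sum :=
  pm_mem (fun d => (Rai Q d).toAddSubgroup) Rai_mul (fun _ l e => e l rfl) el_mem ρ

theorem ex_rai (n : ℕ) : ex (pw Q) n ∈ Rai Q n := by
  rw [ex_eq_sum]
  exact sum_mem fun ρ hρ => Submodule.smul_mem _ _ ((mem_ptn.1 hρ).1 ▸ pm_rai ρ)

theorem gv_size {ρ : Multiset ℕ} {l : Par} (e : ρ.sum ≠ l.1.sum) : gv Q ρ l = 0 :=
  pm_rai ρ _ l fun μ e1 => Pi.single_eq_of_ne (by rintro rfl; exact e (by simpa [e0] using e1)) _

theorem gv_cons (k : ℕ) (ρ : Multiset ℕ) : gv Q (k ::ₘ ρ) = (pw Q k).1 (gv Q ρ) := by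
  rw [gv, pm_cons]; rfl

theorem gv_zero : gv Q 0 = dl := rfl

theorem alpha (l : Par) : (ex (pw Q) l.1.sum).1 dl l = 1 := by
  induction hn : l.1.sum using Nat.strong_induction_on generalizing l with
  | _ n ih =>
  have e := congrArg (fun a : Al Q => a.1 dl l) (alt_ex (x := el Q) el_zero n)
  have e1 : (if n = 0 then 1 else 0 : Al Q).1 dl l = dl l := by
    split_ifs with h0
    · rfl
    · rw [dl, Pi.single_eq_of_ne (by rintro rfl; exact h0 hn.symm)]; rfl
  simp only [e1, ← h.1.alt l hn.le, Nat.sum_antidiagonal_eq_sum_range_succ_mk,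
    AddSubmonoidClass.coe_finsetSum, LinearMap.sum_apply, Finset.sum_apply] at e
  rw [sum_range_succ', sum_range_succ', sum_congr rfl (g := fun i => (-1) ^ (i + 1) *
    E Q (i + 1) 1 l) fun i hi => ?_] at e
  · simpa [el_zero, E_zero, pw] using e
  · have := mem_range.1 hi
    have e2 : ((-1) ^ (i + 1) : Al Q) = ((-1) ^ (i + 1) : ℂ) • 1 := by
      simp [← Algebra.algebraMap_eq_smul_one]
    rw [e2, smul_mul_assoc, smul_mul_assoc, one_mul]
    exact congrArg ((-1 : ℂ) ^ (i + 1) * ·) (Rai.congr (Q := Q) (l := l) (el_mem (i + 1)) fun μ e =>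
      ih (n - (i + 1)) (by omega) μ (by omega))

theorem B_Ad {a : Al Q} {k : ℕ} (ha : a ∈ Rai Q k) (m : ℤ) (f g : Par → ℂ) :
    B Q m f (Ad Q a.1 k g) = B Q (m + k) (a.1 f) g := by
  have := apply_eq_sum (N := m) ((B Q (m + k)).flip g ∘ₗ a.1) (fun f hf => by
    change B Q _ _ _ = 0
    rw [B_comm]
    exact (B_congr _ fun l hl => ha f l fun μ e => hf μ (mem_pz.2 (by
      have := mem_pz.1 hl; omega))).trans (map_zero _)) f
  refine Eq.trans (sum_congr rfl fun l hl => ?_) this.symm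
  have := h.1.au l.1
  simp only [Ad, LinearMap.pi_apply, mem_pz.1 hl, LinearMap.smul_apply, smul_eq_mul,
    LinearMap.comp_apply, LinearMap.flip_apply]
  field_simp

omit h in
theorem Ad_dl (a : Module.End ℂ (Par → ℂ)) {k : ℕ} (hk : 0 < k) : Ad Q a k dl = 0 :=
  funext fun μ => by
    simp only [Ad, LinearMap.pi_apply, LinearMap.smul_apply, smul_eq_mul]
    rw [B_congr (g' := 0) _ fun l hl => Pi.single_eq_of_ne (by
      rintro rfl; have := mem_pz.1 hl; change ((0 : ℕ) : ℤ) = _ at this; omega) _, map_zero,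
      mul_zero]
    rfl

theorem Th_Ad (m : ℤ) {k : ℕ} (hk : 0 < k) :
    Th Q (m - k) * Ad Q (pw Q k).1 k = (Ad Q (pw Q k).1 k - nu Q k • 1) * Th Q m := by
  refine LinearMap.ext fun g => funext fun μ => sub_eq_zero.1 ?_
  rw [← Pi.sub_apply]
  refine h.1.eq_zero ?_
  generalize (μ.1.sum : ℤ) = M
  generalize (Pi.single μ 1 : Par → ℂ) = f
  have := LinearMap.congr_fun (Th_pw (Q := Q) M hk) f
  simp only [Module.End.mul_apply, LinearMap.sub_apply, LinearMap.smul_apply, LinearMap.add_apply,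
    Module.End.one_apply] at this ⊢
  rw [B_comm, map_sub, map_sub, map_smul, B_Ad (pw_mem k), B_Th, B_Th, B_Th, this, B_Ad (pw_mem k),
    sub_add_cancel]
  simp

theorem comm_of {k j : ℕ} (hk : 0 < k) (hj : 0 < j)
    (e : ∀ f, B Q k (gv Q {k}) ((pw Q j).1 f) = (if k = j then k * nu Q k else 0) * f e0) :
    Ad Q (pw Q k).1 k * (pw Q j).1 = (pw Q j).1 * Ad Q (pw Q k).1 k +
      (if k = j then k * nu Q k else 0) • 1 := by
  rw [← sub_eq_zero]
  refine h.1.vanish (d := j - k) (fun m => ?_) fun f => ?_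
  · have e1 : Th Q (m + (j - k)) * (Ad Q (pw Q k).1 k * (pw Q j).1) =
        (Ad Q (pw Q k).1 k - nu Q k • 1) * ((pw Q j).1 + nu Q j • 1) * Th Q m := by
      rw [← mul_assoc, ← add_sub_assoc, Th_Ad _ hk, mul_assoc, Th_pw _ hj, mul_assoc]
    have e2 : Th Q (m + (j - k)) * ((pw Q j).1 * Ad Q (pw Q k).1 k) =
        ((pw Q j).1 + nu Q j • 1) * (Ad Q (pw Q k).1 k - nu Q k • 1) * Th Q m := by
      rw [← mul_assoc, show m + (j - k : ℤ) = m - k + j by ring, Th_pw _ hj, mul_assoc, Th_Ad _ hk,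
        mul_assoc]
    have e3 : Th Q (m + (j - k)) * (if k = j then k * nu Q k else 0) • 1 =
        (if k = j then k * nu Q k else 0) • 1 * Th Q m := by
      split_ifs with e <;> simp [e]
    rw [mul_sub, mul_add, e1, e2, e3, ← add_mul, ← sub_mul]
    congr 1
    simp only [mul_add, sub_mul, add_mul, mul_sub, smul_mul_assoc, mul_smul_comm, one_mul, mul_one]
    module
  · have : Ad Q (pw Q k).1 k ((pw Q j).1 f) e0 = B Q k (gv Q {k}) ((pw Q j).1 f) := by
      rw [← Multiset.cons_zero, gv_cons]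
      simp [Ad, au, ipc, e0, gv_zero, dl]
    simp only [Module.End.mul_apply, LinearMap.sub_apply, LinearMap.add_apply, Pi.sub_apply,
      Pi.add_apply, this, e, LinearMap.smul_apply, Pi.smul_apply, Module.End.one_apply]
    rw [pw_mem j _ e0 fun μ e => absurd e (by simp [e0]; omega)]
    simp

theorem B_lt {k j : ℕ} (hkj : k < j) (u f : Par → ℂ) : B Q k u ((pw Q j).1 f) = 0 :=
  (B_congr _ fun l hl => pw_mem j f l fun μ e => absurd (mem_pz.1 hl) (by omega)).trans (map_zero _)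

theorem B_gt {k j : ℕ} (hj : 0 < j) (hkj : j < k) (f : Par → ℂ) :
    B Q k (gv Q {k}) ((pw Q j).1 f) = 0 := by
  have := LinearMap.congr_fun (comm_of (Q := Q) hj (hj.trans hkj) fun f => by
    rw [B_lt hkj, if_neg hkj.ne, zero_mul]) dl
  rw [if_neg hkj.ne, zero_smul, add_zero, Module.End.mul_apply, Module.End.mul_apply, Ad_dl _ hj,
    map_zero] at this
  rw [B_comm, ← sub_add_cancel (k : ℤ) j, ← B_Ad (pw_mem j), ← Multiset.cons_zero, gv_cons, gv_zero,
    this, map_zero]

theorem B_eq {k : ℕ} (hk : 0 < k) (f : Par → ℂ) :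
    B Q k (gv Q {k}) ((pw Q k).1 f) = k * nu Q k * f e0 := by
  have e1 : B Q k (gv Q {k}) ((ex (pw Q) k).1 dl) = nu Q k := by
    have := congrFun (LinearMap.congr_fun (Th_pw (Q := Q) 0 hk) dl) e0
    simp only [Module.End.mul_apply, Th_dl, zero_add, Th_e0, LinearMap.add_apply, Pi.add_apply,
      pw_mem k _ e0 fun μ e => absurd e (by simp [e0]; omega)] at this
    rw [B_congr (g' := 1) _ fun l hl => by
      have : l.1.sum = k := by exact_mod_cast mem_pz.1 hl
      exact this ▸ alpha l, ← Multiset.cons_zero, gv_cons, gv_zero, this]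
    simp
  have e2 := congrArg (fun a : Al Q => B Q k (gv Q {k}) (a.1 dl)) (mul_ex (pw Q) k)
  simp only [← nsmul_eq_mul, AddSubmonoidClass.coe_finsetSum, LinearMap.sum_apply, map_sum,
    AddSubmonoidClass.coe_nsmul, LinearMap.smul_apply, map_nsmul, e1] at e2
  rw [sum_eq_single k (fun r hr e => by
    exact B_gt (mem_Icc.1 hr).1 ((mem_Icc.1 hr).2.lt_of_ne e) _)
    fun e => absurd (mem_Icc.2 ⟨hk, le_rfl⟩) e, Nat.sub_self, ex_zero, mul_one] at e2
  rw [B_congr (g' := (pw Q k).1 (f e0 • dl)) _ fun l hl => Rai.congr (pw_mem k) fun μ e => by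
    have := mem_pz.1 hl
    rw [eq_e0 (l := μ) (by omega)]; simp [dl], map_smul, map_smul, ← e2]
  simp [mul_comm]

theorem Ad_gv {k : ℕ} (hk : 0 < k) {σ : Multiset ℕ} (hσ : 0 ∉ σ) :
    Ad Q (pw Q k).1 k (gv Q σ) = (k * nu Q k * σ.count k) • gv Q (σ.erase k) := by
  induction σ using Multiset.induction_on with
  | empty => simp [gv_zero, Ad_dl _ hk]
  | cons j σ ih =>
    have hj : 0 < j := Nat.pos_of_ne_zero fun e => hσ (e ▸ Multiset.mem_cons_self _ _)
    have := LinearMap.congr_fun (comm_of (Q := Q) hk hj fun f => by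
      rcases lt_trichotomy k j with e | rfl | e
      · rw [B_lt e, if_neg e.ne, zero_mul]
      · rw [B_eq hk, if_pos rfl]
      · rw [B_gt hj e, if_neg e.ne', zero_mul]) (gv Q σ)
    simp only [Module.End.mul_apply, LinearMap.add_apply, LinearMap.smul_apply,
      Module.End.one_apply, ih fun e => hσ (Multiset.mem_cons_of_mem e), map_smul,
      ← gv_cons] at this
    rw [this]
    split_ifs with e
    · subst e
      rw [Multiset.erase_cons_head, Multiset.count_cons_self, Nat.cast_succ, mul_add, add_smul,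
        mul_one]
      by_cases e : k ∈ σ
      · rw [Multiset.cons_erase e]
      · simp [Multiset.count_eq_zero.2 e]
    · rw [Multiset.erase_cons_tail _ (Ne.symm e), Multiset.count_cons_of_ne e, zero_smul, add_zero]

theorem beta {ρ σ : Multiset ℕ} (hρ : 0 ∉ ρ) (hσ : 0 ∉ σ) : B Q ρ.sum (gv Q ρ) (gv Q σ) =
    if ρ = σ then zz ρ * (ρ.map (nu Q)).prod else 0 := by
  induction ρ using Multiset.induction_on generalizing σ with
  | empty =>
    split_ifs with e
    · simp [← e, B_zero, gv_zero, dl]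
    · have := card_le_sum hσ
      have := Multiset.card_pos.2 (Ne.symm e)
      rw [Multiset.sum_zero, Nat.cast_zero, B_zero, gv_size (ρ := σ) (by simp [e0]; omega), mul_zero]
  | cons k ρ ih =>
    have hk : 0 < k := Nat.pos_of_ne_zero fun e => hρ (e ▸ Multiset.mem_cons_self _ _)
    rw [gv_cons, Multiset.sum_cons, Nat.cast_add, add_comm, ← B_Ad (pw_mem k), Ad_gv hk hσ,
      map_smul, ih (fun e => hρ (Multiset.mem_cons_of_mem e))
        fun e => hσ (Multiset.mem_of_mem_erase e)]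
    by_cases e : k ::ₘ ρ = σ
    · subst e
      simp [zz_cons]; ring
    · rw [if_neg e]
      by_cases e1 : k ∈ σ
      · rw [if_neg fun e2 => e (by rw [e2, Multiset.cons_erase e1]), smul_zero]
      · simp [Multiset.count_eq_zero.2 e1]

end Cfsg.GUn.HLp
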