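import Cfsg.Agent.GUn.IntB

/-! The piece `Int`: the integral form consists of generalized characters. -/

set_option autoImplicit false

namespace Cfsg.GUn.IntB

open Finset GLn

universe u

variable {k : Type u} [Field k] [Big k] {Φ : Frob k} {ι : Type} [Fintype ι] [DecidableEq ι]

omit [Big k] in
theorem coe_un {x : k} (h : x ≠ 0) : (un x : k) = x := by simp [un, h]

/-- Green's theorem -/
theorem green (a : ℤ) (j : ℕ) : IsGeneralizedCharacter (Φ.G ι) fun g =>
    ((eig g.1).map fun α => (Big.th α : ℂ) ^ a).esymm j := by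
  classical
  have hp := Big.prime (k := k)
  have := Fact.mk hp
  obtain ⟨M, hM⟩ := exists_isPModular hp
  have := hM.charP
  let _ : Algebra (ZMod (ringChar k)) k := ZMod.algebra _ _
  let _ : Algebra (ZMod (ringChar k)) (resK M) := ZMod.algebra _ _
  have : Algebra.IsAlgebraic (ZMod (ringChar k)) k := ⟨fun x => by
    by_cases h : x = 0
    · exact h ▸ isAlgebraic_zero
    · refine IsAlgebraic.of_pow (orderOf_pos_K (Units.mk0 x h)) ?_
      have := congrArg Units.val (pow_orderOf_eq_one (Units.mk0 x h))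
      rw [Units.val_pow_eq_pow_val, Units.val_mk0, Units.val_one] at this
      exact this ▸ isAlgebraic_one⟩
  have h := BL.green_core hM (IsAlgClosed.lift : k →ₐ[ZMod (ringChar k)] resK M).toRingHom
    ((Units.coeHom _).comp (Φ.G ι).subtype) (fun _ => IsAlgClosed.splits _)
    (fun x => (Big.th (un x) : ℂ) ^ a) (by simp [un]) (fun x y hx hy => by
      rw [← mul_zpow, ← Units.val_mul, ← map_mul]
      congr 3
      exact Units.ext (by rw [Units.val_mul, coe_un hx, coe_un hy, coe_un (mul_ne_zero hx hy)])) j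
  simp only [eig, Multiset.map_map]
  exact h

theorem prod_eq_esymm (s : Multiset ℂ) (y : ℂ) :
    (s.map fun r => 1 + y * r).prod = ∑ j ∈ range (s.card + 1), s.esymm j * y ^ j := by
  have := congrArg (Polynomial.eval 1) (Multiset.prod_X_add_C_eq_sum_esymm (s.map (y • ·)))
  simp only [← Multiset.pow_smul_esymm] at this
  simpa [Polynomial.eval_multiset_prod, Polynomial.eval_finsetSum, mul_comm] using this

theorem coeff_eq {B : Type*} [CommRing B] [Algebra ℂ B] (φ : B →ₗ[ℂ] ℂ) (f : Polynomial B)
    (h : Polynomial ℂ) (e : ∀ y, φ (f.eval (algebraMap ℂ B y)) = h.eval y) (j : ℕ) :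
    φ (f.coeff j) = h.coeff j := by
  have : (∑ i ∈ f.support, Polynomial.monomial i (φ (f.coeff i))) = h := by
    refine Polynomial.funext fun y => ?_
    rw [← e, Polynomial.eval_finsetSum, Polynomial.eval_eq_sum, Polynomial.sum, map_sum]
    refine sum_congr rfl fun i _ => ?_
    rw [Polynomial.eval_monomial, ← map_pow, mul_comm (f.coeff i), ← Algebra.smul_def, map_smul,
      smul_eq_mul, mul_comm]
  rw [← this]
  simp only [Polynomial.finsetSum_coeff, Polynomial.coeff_monomial, sum_ite_eq']
  split_ifs with h3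
  · rfl
  · rw [Polynomial.notMem_support_iff.1 h3, map_zero]

variable (Φ ι) in
/-- the elements giving generalized characters -/
def VV : AddSubgroup (A Φ) where
  carrier := {a | IsGeneralizedCharacter _ (ch ι a)}
  add_mem' ha hb := by simpa only [Set.mem_ofPred_eq, map_add] using IsGeneralizedCharacter.add ha hb
  zero_mem' := by simpa only [Set.mem_ofPred_eq, map_zero] using IsGeneralizedCharacter.zero
  neg_mem' ha := by simpa only [Set.mem_ofPred_eq, map_neg] using IsGeneralizedCharacter.neg ha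

variable (hC : StCh k)
include hC

theorem coeff_mem_VV (a : ℤ) {b : A Φ} (hb : b ∈ VV Φ ι) (j : ℕ) : (muP a b).coeff j ∈ VV Φ ι := by
  have h := (green (Φ := Φ) (ι := ι) a j).mul hb
  change IsGeneralizedCharacter _ _
  convert h using 1
  funext g
  set s := (eig g.1).map fun α => (Big.th α : ℂ) ^ a with hs
  have := coeff_eq (LinearMap.proj g ∘ₗ ch ι) (muP a b) (∑ j ∈ range (s.card + 1),
    Polynomial.monomial j (s.esymm j * ch ι b g)) (fun y => by
      have := prod_eq_esymm s y
      rw [hs, Multiset.map_map] at this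
      simp only [LinearMap.comp_apply, LinearMap.proj_apply, eval_muP, hC.mul,
        Polynomial.eval_finsetSum, Polynomial.eval_monomial, mul_right_comm _ (ch ι b g), ← sum_mul]
      exact congrArg (· * _) this) j
  refine this.trans ?_
  simp only [Polynomial.finsetSum_coeff, Polynomial.coeff_monomial, sum_ite_eq', mem_range]
  split_ifs with h3
  · rfl
  · change 0 = s.esymm j * _
    rw [Multiset.esymm, Multiset.powersetCard_eq_empty _ (by omega)]
    simp

theorem ch_mul_cp {j : ℕ} {h : A Φ} (hh : Hom j h) (x : A Φ) :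
    ch ι (h * x) = if j ≤ Fintype.card ι then ch ι (h * cp (Fintype.card ι - j) x) else 0 := by
  induction x using hom_induction with
  | h1 n a ha =>
    rw [cp_of_hom ha]
    split_ifs
    · rfl
    · rw [mul_zero, map_zero, hC.hom _ _ _ _ (hh.mul ha) (by omega)]
    · exact hC.hom _ _ _ _ (hh.mul ha) (by omega)
  | h2 a b ha hb =>
    rw [mul_add, map_add, ha, hb, map_add, mul_add, map_add]
    split_ifs <;> simp

theorem one_mem_VV : (1 : A Φ) ∈ VV Φ ι := by
  change IsGeneralizedCharacter _ _
  by_cases h : 0 = Fintype.card ι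
  · have := hC.one Φ ι
    rw [← h, hh, ex_zero] at this
    rw [this]
    exact IsCharacter.one.isGeneralizedCharacter
  · rw [hC.hom _ _ 0 _ (MvPolynomial.isWeightedHomogeneous_one _ _) h]
    exact .zero

theorem step_one (hW : StWeil k) (hT : StTheta k)
    (ih : ∀ d < Fintype.card ι, ∀ a ∈ ZZ Φ, a ∈ VV Φ (Fin d)) {d : ℕ} (hd : d < Fintype.card ι)
    {a : A Φ} (ha : a ∈ ZZ Φ) (h : Hom d a) : hh Φ (Fintype.card ι - d) * a ∈ VV Φ ι := by
  induction d using Nat.strong_induction_on generalizing a with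
  | _ d ih' =>
  have h1 := (hW Φ ι (Fin d) _ (ih d hd a ha)).zsmul (Φ.Q.sign ^ d)
  have h2 : (Φ.Q.sign : ℂ) ^ d * (Φ.Q.sign : ℂ) ^ d = 1 := by
    rw [← mul_pow, ← Int.cast_mul, sign_sq, Int.cast_one, one_pow]
  simp only [hT Φ ι (Fin d) a (by rwa [Fintype.card_fin]), Fintype.card_fin, Int.cast_pow,
    ← mul_assoc, h2, one_mul] at h1
  have h3 : ∑ j ∈ range (Fintype.card ι + 1), hh Φ j * cp (Fintype.card ι - j) (Hp a) ∈ VV Φ ι := by
    change IsGeneralizedCharacter _ _
    convert h1 using 2 with g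
    rw [map_sum, Finset.sum_apply]
    exact sum_congr rfl fun j hj => by
      rw [ch_mul_cp hC (hom_hh j) (Hp a), if_pos (Nat.lt_succ_iff.1 (mem_range.1 hj))]
  rw [← add_sum_erase _ _ (a := Fintype.card ι - d) (mem_range.2 (by omega)),
    Nat.sub_sub_self hd.le, cp_Hp h le_rfl, if_pos rfl] at h3
  refine (AddSubgroup.add_mem_cancel_right _ (sum_mem fun j hj => ?_)).1 h3
  rw [mem_erase, mem_range] at hj
  by_cases h4 : Fintype.card ι - j < d
  · have := ih' _ h4 (by omega) (cp_mem (Hp_mem ha) _) (hom_cp _ _)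
    rwa [Nat.sub_sub_self (by omega)] at this
  · rw [cp_Hp h (by omega), if_neg (by omega), mul_zero]
    exact zero_mem _

theorem step_two (h : ∀ j, 0 < j → ∀ a ∈ ZZ Φ, hh Φ j * a ∈ VV Φ ι) {b : A Φ} (hb : b ∈ ZZ Φ) :
    b ∈ VV Φ ι := by
  let R : Subring (A Φ) :=
    { carrier := {x | x ∈ ZZ Φ ∧ ∃ z : ℤ, ∀ a ∈ ZZ Φ, (x - z) * a ∈ VV Φ ι}
      mul_mem' := by
        rintro x y ⟨hx, z, h1⟩ ⟨hy, w, h2⟩
        refine ⟨mul_mem hx hy, z * w, fun a ha => ?_⟩
        convert add_mem (h1 _ (mul_mem hy ha)) (h2 _ (mul_mem (intCast_mem _ z) ha)) using 1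
        push_cast; ring
      one_mem' := ⟨one_mem _, 1, fun a _ => by simp⟩
      add_mem' := by
        rintro x y ⟨hx, z, h1⟩ ⟨hy, w, h2⟩
        refine ⟨add_mem hx hy, z + w, fun a ha => ?_⟩
        convert add_mem (h1 _ ha) (h2 _ ha) using 1
        push_cast; ring
      zero_mem' := ⟨zero_mem _, 0, fun a _ => by simp⟩
      neg_mem' := by
        rintro x ⟨hx, z, h1⟩
        refine ⟨neg_mem hx, -z, fun a ha => ?_⟩
        convert neg_mem (h1 _ ha) using 1
        push_cast; ring }
  suffices b ∈ R by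
    obtain ⟨-, z, hz⟩ := this
    have := add_mem (hz 1 (one_mem _)) (zsmul_mem (one_mem_VV hC) z)
    simpa using this
  refine ZZ_le_of_muP (R := R) (fun a n j => ?_) hb
  rcases Nat.eq_zero_or_pos n with rfl | hn
  · rw [hh, ex_zero, map_one, Polynomial.coeff_one]
    split_ifs
    exacts [one_mem _, zero_mem _]
  refine ⟨coeff_muP_mem a (hh_mem n) j, 0, ?_⟩
  simp only [Int.cast_zero, sub_zero]
  induction j using Nat.strong_induction_on with
  | _ j ih =>
  intro x hx
  have h1 := coeff_mem_VV hC a (h n hn x hx) j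
  rw [map_mul, Polynomial.coeff_mul, ← add_sum_erase _ _ (a := (j, 0)) (by simp),
    coeff_muP_zero] at h1
  refine (AddSubgroup.add_mem_cancel_right _ (sum_mem fun y hy => ?_)).1 h1
  rw [mem_erase, HasAntidiagonal.mem_antidiagonal] at hy
  refine ih _ ?_ _ (coeff_muP_mem a hx _)
  by_contra h3
  exact hy.1 (Prod.ext (by simp only; omega) (by simp only; omega))

end Cfsg.GUn.IntB

namespace Cfsg.GUn

universe u

open IntB in
/-- piece `Int` -/
theorem stInt {k : Type u} [Field k] [Big k] (hC : StCh k) (hW : StWeil k) (hT : StTheta k) :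
    StInt k := by
  intro Φ ι _ _
  induction hn : Fintype.card ι using Nat.strong_induction_on generalizing ι with
  | _ n ih =>
  subst hn
  refine fun b hb => step_two hC (fun j hj a ha => ?_) hb
  change IsGeneralizedCharacter _ _
  rw [ch_mul_cp hC (hom_hh j)]
  split_ifs with h
  · rcases Nat.eq_zero_or_pos (Fintype.card ι) with h0 | h0
    · omega
    have := step_one hC hW hT (fun d hd a ha => ih d hd (Fin d) (Fintype.card_fin d) a ha)
      (d := Fintype.card ι - j) (by omega) (cp_mem ha _) (hom_cp _ _)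
    rwa [Nat.sub_sub_self h] at this
  · exact .zero

end Cfsg.GUn
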