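import Cfsg.Agent.GLn.IntA

/-! The necklace argument for integrality with integer exponents, both directions. -/

set_option autoImplicit false

namespace Cfsg.GUn.Nk

open Finset Polynomial Function GLn GLn.Dyn
open GLn.Neck (Wd sh sp wd allPer_sh fix_iff fix_mod fin_fix sum_fix_eq sum_sp card_sp_mul per_wd
  omk_eq_wd sp_wd)

section Gen

variable {W : Type} {T : W → W} {B : Type*} [CommRing B] [Algebra ℂ B] {f : ℕ → W → B}

/-- the family of an orbit -/
noncomputable def po (f : ℕ → W → B) (O : Orb T) (k : ℕ) : B :=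
  if O.per ∣ k then O.per • f k O.rep else 0

theorem ex_po (hT : AllPer T) (hf : ∀ k w, f k (T w) = f k w) (w : W) {c : ℕ}
    (hc : (omk T w).per = c) (n : ℕ) :
    ex (po f (omk T w)) n = if c ∣ n then ex (fun r => f (c * r) w) (n / c) else 0 := by
  have hp : 0 < c := hc ▸ hT.per_pos _
  rw [ex_stretch hp fun k hk => by rw [po, hc, if_neg hk]]
  refine if_congr Iff.rfl ?_ rfl
  congr 1
  funext m
  rw [po, hc, if_pos (dvd_mul_right _ _), hT.inv_rep (hf _),
    ← Nat.cast_smul_eq_nsmul ℂ, smul_smul, inv_mul_cancel₀ (by exact_mod_cast hp.ne'), one_smul]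

theorem ex_eq (hT : AllPer T) (hf : ∀ k w, f k (T w) = f k w)
    (fin : ∀ k, 0 < k → {w | T^[k] w = w}.Finite) {p : ℕ → B}
    (hp : ∀ k (hk : 0 < k), p k = ∑ w ∈ fixF T k (fin k hk), f k w) (n : ℕ) [DecidableEq (Orb T)] :
    ex p n = ∑ l ∈ finsuppAntidiag (orbF T n.factorial (fin _ n.factorial_pos)) n,
        ∏ O ∈ orbF T n.factorial (fin _ n.factorial_pos), ex (po f O) (l O) := by
  rw [← ex_sum]
  refine ex_congr_le (fun k hk hkn => ?_) n le_rfl
  rw [hp k hk, hT.sum_fix _ (hf k), Finset.sum_apply]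
  refine sum_subset_zero_on_sdiff (fun O hO => ?_) (fun O hO => ?_) fun O hO => ?_
  · rw [hT.mem_orbF] at hO ⊢
    exact hO.trans (Nat.dvd_factorial hk hkn)
  · rw [mem_sdiff, hT.mem_orbF, hT.mem_orbF] at hO
    rw [po, if_neg hO.2]
  · rw [po, if_pos (hT.mem_orbF.1 hO)]

end Gen

theorem sum_sp_mul {c : ℕ} {w : Wd} (h : sh^[c] w = w) (q : ℤ) (m : ℕ) :
    ∑ i ∈ sp (c * m) w, q ^ i = (∑ i ∈ sp c w, q ^ i) * ∑ j ∈ range m, q ^ (c * j) := by
  induction m with
  | zero => simp [sp]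
  | succ m ih =>
    rw [sum_range_succ, mul_add (∑ i ∈ sp c w, q ^ i), ← ih, sum_sp, sum_sp, sum_sp, mul_add,
      mul_one, sum_range_add, sum_mul]
    congr 1
    refine sum_congr rfl fun i _ => ?_
    rw [← fix_mod h (c * m + i), Nat.mul_add_mod, fix_mod h]
    split_ifs <;> ring

theorem sum_sp_sh {k : ℕ} {w : Wd} (h : sh^[k] w = w) (q : ℤ) :
    q * ∑ i ∈ sp k (sh w), q ^ i = ∑ i ∈ sp k w, q ^ i + (q ^ k - 1) * if w.1 0 then 1 else 0 := by
  have h0 : w.1 k = w.1 0 := by simpa using fix_iff.1 h 0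
  have e1 := sum_range_succ' (fun i => if w.1 i then q ^ i else 0) k
  have e2 := sum_range_succ (fun i => if w.1 i then q ^ i else 0) k
  have e3 : q * ∑ i ∈ sp k (sh w), q ^ i = ∑ i ∈ range k, if w.1 (i + 1) then q ^ (i + 1) else 0 := by
    rw [sum_sp, mul_sum]
    refine sum_congr rfl fun i _ => ?_
    change q * (if w.1 (i + 1) = true then q ^ i else 0) = _
    split_ifs <;> simp [pow_succ']
  rw [e3, sum_sp, ← sub_eq_iff_eq_add.2 e1, e2, h0]
  split_ifs <;> ring

theorem fix_iter {k : ℕ} (j : ℕ) {w : Wd} : sh^[k] (sh^[j] w) = sh^[j] w ↔ sh^[k] w = w := by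
  rw [← iterate_add_apply, add_comm, iterate_add_apply]
  exact (allPer_sh.injective.iterate j).eq_iff

theorem sum_sp_iter {k : ℕ} {w : Wd} (h : sh^[k] w = w) (q : ℤ) (j : ℕ) :
    q ^ j * ∑ i ∈ sp k (sh^[j] w), q ^ i ≡ ∑ i ∈ sp k w, q ^ i [ZMOD q ^ k - 1] := by
  induction j with
  | zero => simp
  | succ j ih =>
    rw [iterate_succ_apply', pow_succ, mul_assoc, sum_sp_sh ((fix_iter j).2 h), mul_add,
      mul_left_comm]
    exact Int.add_modulus_mul_modEq_iff.2 ih

theorem card_sp_iter {k : ℕ} {w : Wd} (h : sh^[k] w = w) (j : ℕ) :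
    #(sp k (sh^[j] w)) = #(sp k w) := by
  simpa using sum_sp_iter h 1 j

variable {A : Type*} [CommRing A] [Algebra ℂ A]

/-- the term of a subset -/
noncomputable def tm (q : ℤ) (φ : ℤ → A) (a : ℤ) (T : Finset ℕ) : A[X] :=
  X ^ #T * C (φ (a * ∑ i ∈ T, q ^ i))

open Classical in
/-- the invariant term of a word -/
noncomputable def tw (q : ℤ) (φ : ℤ → A) (a : ℤ) (N : ℕ) (w : Wd) : A[X] :=
  if sh^[N] w = w then tm q φ a (sp N w) else 0

/-- the data -/
structure Dat (q : ℤ) (c : ℕ) (Q : ℕ → ℤ → A) : Prop where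
  fr : ∀ k a, Q k (q ^ c * a) = Q k a
  per : ∀ k a b, a ≡ b [ZMOD q ^ (c * k) - 1] → Q k a = Q k b

variable {q : ℤ} {c : ℕ} {Q : ℕ → ℤ → A}

omit [Algebra ℂ A] in
theorem Dat.tw_sh (D : Dat q c Q) (a : ℤ) (k : ℕ) (w : Wd) :
    tw q (Q k) a (c * k) (sh^[c] w) = tw q (Q k) a (c * k) w := by
  unfold tw
  by_cases h : sh^[c * k] w = w
  · rw [if_pos h, if_pos ((fix_iter c).2 h), tm, tm, card_sp_iter h, ← D.fr, mul_left_comm,
      D.per _ _ _ ((sum_sp_iter h q c).mul_left a)]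
  · rw [if_neg h, if_neg (mt (fix_iter c).1 h)]

/-- the families to be exponentiated -/
def pf (q : ℤ) (c : ℕ) (Q : ℕ → ℤ → A) (d : ℕ) (b : ℤ) (m : ℕ) : A :=
  Q (d * m) (b * ∑ j ∈ range m, q ^ (c * d * j))

theorem ex_tw (a : ℤ) {d : ℕ} {w : Wd} (hw : sh^[c * d] w = w) (n : ℕ) :
    ex (fun r => tw q (Q (d * r)) a (c * (d * r)) w) n = X ^ (#(sp (c * d) w) * n) *
      C (ex (pf q c Q d (a * ∑ i ∈ sp (c * d) w, q ^ i)) n) := by
  rw [pow_mul, map_ex, ← ex_pow_mul]
  congr 1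
  funext m
  have hw' : sh^[c * d * m] w = w := by rw [iterate_mul]; exact iterate_fixed hw m
  rw [← mul_assoc, tw, if_pos hw', tm, card_sp_mul hw, sum_sp_mul hw, pow_mul, pf, mul_assoc a]

theorem allPer_iter (c : ℕ) : AllPer sh^[c] := fun w => by
  obtain ⟨k, hk, h⟩ := allPer_sh w
  refine ⟨k, hk, ?_⟩
  change (sh^[c])^[k] w = w
  rw [← iterate_mul, mul_comm, iterate_mul]; exact iterate_fixed h c

theorem fin_iter (hc : 0 < c) (k : ℕ) (hk : 0 < k) : {w | (sh^[c])^[k] w = w}.Finite := by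
  simp only [← iterate_mul]; exact fin_fix (Nat.mul_pos hc hk)

omit [Algebra ℂ A] in
theorem sum_tm (hc : 0 < c) (a : ℤ) (k : ℕ) (hk : 0 < k) :
    ∑ T ∈ (range (c * k)).powerset, tm q (Q k) a T =
      ∑ w ∈ fixF sh^[c] k (fin_iter hc k hk), tw q (Q k) a (c * k) w := by
  rw [sum_fix_eq (Nat.mul_pos hc hk)]
  refine sum_congr (Finset.ext fun w => by rw [mem_fixF, mem_fixF, iterate_mul]) fun w hw => ?_
  rw [tw, if_pos (by rw [iterate_mul]; exact mem_fixF.1 hw)]

/-- the easy direction -/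
theorem Dat.mem_lifts (D : Dat q c Q) (hc : 0 < c) (R : Subring A)
    (h : ∀ d, 0 < d → ∀ b m, ex (pf q c Q d b) m ∈ R) (a : ℤ) (n : ℕ) :
    ex (fun k => ∑ T ∈ (range (c * k)).powerset, tm q (Q k) a T) n ∈ liftsRing R.subtype := by
  classical
  have hT := allPer_iter c
  rw [ex_eq hT (D.tw_sh a) (fin_iter hc) (sum_tm hc a)]
  refine sum_mem fun l _ => prod_mem fun O _ => ?_
  rw [← omk_rep O, ex_po hT (D.tw_sh a) _ rfl, omk_rep]
  split_ifs
  · rw [ex_tw a (by rw [iterate_mul]; exact (hT.iterate_eq_iff _ _).2 (by rw [omk_rep]))]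
    exact mul_mem (X_pow_mem_lifts R.subtype _) (C_mem_lifts R.subtype ⟨_, h _ (hT.per_pos O) _ _⟩)
  · exact zero_mem _

/-- the terms for `c = 1` -/
noncomputable def tv (q : ℤ) (Q : ℕ → ℤ → A) (a : ℤ) (k : ℕ) : Wd → A[X] := tw q (Q k) a k

omit [Algebra ℂ A] in
theorem Dat.tv_sh (D : Dat q 1 Q) (a : ℤ) (k : ℕ) (w : Wd) : tv q Q a k (sh w) = tv q Q a k w := by
  simpa only [one_mul, iterate_one, tv] using D.tw_sh a k w

omit [Algebra ℂ A] in
theorem sum_tv (a : ℤ) (k : ℕ) (hk : 0 < k) : ∑ T ∈ (range k).powerset, tm q (Q k) a T =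
    ∑ w ∈ fixF sh k (fin_fix hk), tv q Q a k w := by
  simpa only [one_mul, iterate_one, tv] using sum_tm (q := q) (Q := Q) one_pos a k hk

theorem Dat.ex_po (D : Dat q 1 Q) (a : ℤ) (w : Wd) {c : ℕ} (hc : (omk sh w).per = c) (n : ℕ) :
    ex (po (tv q Q a) (omk sh w)) n = if c ∣ n then X ^ (#(sp c w) * (n / c)) *
      C (ex (pf q 1 Q c (a * ∑ i ∈ sp c w, q ^ i)) (n / c)) else 0 := by
  have hw : sh^[1 * c] w = w := (allPer_sh.iterate_eq_iff w _).2 (by rw [hc, one_mul])
  rw [Nk.ex_po allPer_sh (D.tv_sh a) w hc]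
  refine if_congr Iff.rfl ?_ rfl
  simpa only [one_mul, tv] using ex_tw (q := q) (Q := Q) a hw (n / c)

/-- the hard direction -/
theorem Dat.mem (D : Dat q 1 Q) (R : Subring A)
    (hG : ∀ a n j, (ex (fun k => ∑ T ∈ (range k).powerset, tm q (Q k) a T) n).coeff j ∈ R)
    {c : ℕ} (hc : 0 < c) (b : ℤ) (m : ℕ) : ex (pf q 1 Q c b) m ∈ R := by
  classical
  induction hn : c * m using Nat.strong_induction_on generalizing c b m with
  | _ n ih =>
  induction m using Nat.strong_induction_on generalizing c b with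
  | _ m ih' =>
  rcases Nat.eq_zero_or_pos m with rfl | hm
  · rw [ex_zero]; exact R.one_mem
  have hnp : 0 < n := hn ▸ Nat.mul_pos hc hm
  set S := orbF sh n.factorial (fin_fix n.factorial_pos) with hS
  have hO : omk sh (wd hc {0}) ∈ S := allPer_sh.mem_orbF.2 (by
    rw [per_wd]; exact Nat.dvd_factorial hc (hn ▸ Nat.le_mul_of_pos_right _ hm))
  have single : ∀ O ∈ S, ∏ O' ∈ S, ex (po (tv q Q b) O') (Finsupp.single O n O') =
      ex (po (tv q Q b) O) n := fun O hO => by
    rw [prod_eq_single_of_mem O hO fun O' _ h => by rw [Finsupp.single_eq_of_ne h, ex_zero],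
      Finsupp.single_eq_same]
  have h1 := hG b n m
  rw [ex_eq allPer_sh (D.tv_sh b) (fun _ => fin_fix) (sum_tv b), ← add_sum_erase _ _ (a := Finsupp.single (omk sh (wd hc {0})) n) (by
    simp [mem_finsuppAntidiag, Finsupp.single_apply, ← hS, hO, hnp.ne']), coeff_add, ← hS,
    single _ hO, D.ex_po b _ (per_wd hc), if_pos (hn ▸ dvd_mul_right _ _), sp_wd hc (by simpa),
    ← hn, Nat.mul_div_cancel_left _ hc, card_singleton, one_mul, sum_singleton, pow_zero, mul_one,
    mul_comm, coeff_C_mul, coeff_X_pow_self, mul_one, hn] at h1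
  refine (R.add_mem_cancel_right ?_).1 h1
  rw [finsetSum_coeff]
  refine R.sum_mem fun l hl => ?_
  obtain ⟨hl0, hl⟩ := mem_erase.1 hl
  rw [mem_finsuppAntidiag] at hl
  by_cases h : ∀ O ∈ S, l O < n
  · suffices ∏ O ∈ S, ex (po (tv q Q b) O) (l O) ∈ lifts R.subtype by
      obtain ⟨x, hx⟩ := (lifts_iff_coeff_lifts _).1 this m
      exact hx ▸ x.2
    refine prod_mem fun O hO => ?_
    rw [← omk_rep O, D.ex_po b _ rfl, omk_rep]
    split_ifs with hd
    · refine mul_mem (X_pow_mem_lifts _ _) ?_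
      exact C_mem_lifts R.subtype ⟨_, ih _ (h O hO) (allPer_sh.per_pos O) _ _
        (Nat.mul_div_cancel' hd)⟩
    · exact zero_mem _
  · push Not at h
    obtain ⟨O, hO', hle⟩ := h
    have hl2 : l = Finsupp.single O n := by
      have e := hl.1
      rw [← add_sum_erase _ _ hO'] at e
      ext O'
      by_cases h : O' = O
      · subst h; rw [Finsupp.single_eq_same]; omega
      · rw [Finsupp.single_eq_of_ne h]
        by_cases h2 : O' ∈ S
        · have := single_le_sum (f := l) (fun _ _ => Nat.zero_le _) (mem_erase.2 ⟨h, h2⟩)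
          omega
        · exact Finsupp.notMem_support_iff.1 fun h3 => h2 (hl.2 h3)
    subst hl2
    rw [single O hO', ← omk_rep O, D.ex_po b _ rfl, omk_rep]
    split_ifs with hd
    · rw [mul_comm, coeff_C_mul, coeff_X_pow]
      split_ifs with he
      · rw [mul_one]
        have hp := allPer_sh.per_pos O
        have hw : sh^[O.per] O.rep = O.rep :=
          (allPer_sh.iterate_eq_iff _ _).2 (by rw [omk_rep])
        refine ih' _ ?_ hp _ (Nat.mul_div_cancel' hd)
        by_contra hlt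
        have h2 : 0 < n / O.per := by omega
        have h3 : #(sp O.per O.rep) = 1 := by
          rcases Nat.lt_trichotomy #(sp O.per O.rep) 1 with h | h | h
          · rw [Nat.lt_one_iff.1 h] at he; omega
          · exact h
          · nlinarith
        rw [h3, one_mul] at he
        have h4 : O.per = c := by
          have := Nat.mul_div_cancel' hd
          rw [← he, ← hn] at this
          exact Nat.eq_of_mul_eq_mul_right hm this
        rw [h4] at hw h3
        exact hl0 (by rw [← omk_eq_wd hc hw h3, omk_rep])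
      · rw [mul_zero]; exact R.zero_mem
    · exact R.zero_mem

end Cfsg.GUn.Nk
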