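import Cfsg.Agent.GUn.Defs
import Cfsg.Agent.GLn.Fock

/-! The inner product of the Ennola algebra (port of `GLn/Fock`). -/

set_option autoImplicit false
set_option linter.unusedSectionVars false

namespace Cfsg.GUn

open Finset ComplexConjugate
open GLn (Bt sz rc ex pm S adjoin_induction_left mnorm mnorm_cons mnorm_ne_zero mnorm_mul_eq)

universe u

variable {k : Type u} [Field k] {Φ : Frob k}

section Basic

open MvPolynomial

/-- the norm of a monomial -/
noncomputable def wA (s : I Φ × ℕ →₀ ℕ) : ℂ := s.prod fun x i => nu x ^ i * (i.factorial : ℂ)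

theorem nu_eq (x : I Φ × ℕ) :
    nu x = (((x.2 : ℝ) / ((Φ.Q ^ wt Φ x - 1).natAbs : ℝ) : ℝ) : ℂ) := by
  simp only [nu, Complex.ofReal_div, Complex.ofReal_natCast]

theorem conj_nu (x : I Φ × ℕ) : conj (nu x) = nu x := by rw [nu_eq, Complex.conj_ofReal]

theorem exists_wA (s : I Φ × ℕ →₀ ℕ) : ∃ r : ℝ, 0 ≤ r ∧ wA s = r :=
  ⟨s.prod fun x i => ((x.2 : ℝ) / ((Φ.Q ^ wt Φ x - 1).natAbs : ℝ)) ^ i * (i.factorial : ℝ),
    prod_nonneg fun _ _ => by positivity, by simp [wA, Finsupp.prod, nu_eq]⟩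

theorem conj_wA (s : I Φ × ℕ →₀ ℕ) : conj (wA s) = wA s := by
  obtain ⟨r, -, h⟩ := exists_wA s
  rw [h, Complex.conj_ofReal]

theorem wA_zero : wA (0 : I Φ × ℕ →₀ ℕ) = 1 := Finsupp.prod_zero_index

theorem wA_add_single (s : I Φ × ℕ →₀ ℕ) (x : I Φ × ℕ) :
    wA (s + Finsupp.single x 1) = nu x * (s x + 1) * wA s := by
  have h : ∀ t : I Φ × ℕ →₀ ℕ, t.support ⊆ insert x s.support → wA t =
      ∏ y ∈ insert x s.support, nu y ^ t y * ((t y).factorial : ℂ) := fun t ht =>
    Finsupp.prod_of_support_subset _ ht _ fun _ _ => by simp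
  rw [h _ (Finsupp.support_add.trans (union_subset (subset_insert _ _)
      (Finsupp.support_single_subset.trans (by simp)))), h s (subset_insert _ _),
    ← mul_prod_erase _ _ (mem_insert_self x _), ← mul_prod_erase _ _ (mem_insert_self x _),
    prod_congr rfl fun y hy => by
      rw [Finsupp.add_apply, Finsupp.single_eq_of_ne (ne_of_mem_erase hy), add_zero]]
  simp only [Finsupp.add_apply, Finsupp.single_eq_same, Nat.factorial_succ]
  push_cast
  ring

theorem ip_eq_sum {a : A Φ} (b : A Φ) {T : Finset (I Φ × ℕ →₀ ℕ)} (h : a.support ⊆ T) :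
    ipA a b = ∑ s ∈ T, a.coeff s * conj (b.coeff s) * wA s :=
  sum_subset h fun s _ hs => by rw [notMem_support_iff.1 hs, zero_mul, zero_mul]

theorem ip_eq_sum' (a : A Φ) {b : A Φ} {T : Finset (I Φ × ℕ →₀ ℕ)} (h : b.support ⊆ T) :
    ipA a b = ∑ s ∈ T, a.coeff s * conj (b.coeff s) * wA s := by
  classical
  rw [ip_eq_sum b (subset_union_left (s₂ := T))]
  exact (sum_subset subset_union_right fun s _ hs => by
    rw [notMem_support_iff.1 fun h' => hs (h h'), map_zero, mul_zero, zero_mul]).symm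

theorem ip_conj (a b : A Φ) : conj (ipA a b) = ipA b a := by
  rw [ip_eq_sum b Subset.rfl, ip_eq_sum' b Subset.rfl, map_sum]
  exact sum_congr rfl fun s _ => by rw [map_mul, map_mul, conj_wA, Complex.conj_conj]; ring

theorem ip_cj (a b : A Φ) : ipA b a = conj (ipA a b) := (ip_conj a b).symm

/-- the form as a linear map in the first variable -/
noncomputable def ipL (b : A Φ) : A Φ →ₗ[ℂ] ℂ where
  toFun a := ipA a b
  map_add' a a' := by simp only [ip_eq_sum' _ Subset.rfl, coeff_add, add_mul, sum_add_distrib]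
  map_smul' c a := by
    simp only [ip_eq_sum' _ Subset.rfl, coeff_smul, smul_eq_mul, RingHom.id_apply, mul_sum,
      mul_assoc]

theorem ipL_apply (a b : A Φ) : ipL b a = ipA a b := rfl

theorem ip_add_left (a a' b : A Φ) : ipA (a + a') b = ipA a b + ipA a' b := map_add (ipL b) a a'
theorem ip_sub_left (a a' b : A Φ) : ipA (a - a') b = ipA a b - ipA a' b := map_sub (ipL b) a a'
theorem ip_neg_left (a b : A Φ) : ipA (-a) b = -ipA a b := map_neg (ipL b) a
theorem ip_smul_left (c : ℂ) (a b : A Φ) : ipA (c • a) b = c * ipA a b := map_smul (ipL b) c a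
@[simp] theorem ip_zero_left (b : A Φ) : ipA 0 b = 0 := map_zero (ipL b)
theorem ip_sum_left {ι : Type*} (s : Finset ι) (a : ι → A Φ) (b : A Φ) :
    ipA (∑ i ∈ s, a i) b = ∑ i ∈ s, ipA (a i) b := map_sum (ipL b) a s
theorem ip_add_right (a b b' : A Φ) : ipA a (b + b') = ipA a b + ipA a b' := by
  simp only [ip_cj _ a, ip_add_left, map_add]
theorem ip_sub_right (a b b' : A Φ) : ipA a (b - b') = ipA a b - ipA a b' := by
  simp only [ip_cj _ a, ip_sub_left, map_sub]
theorem ip_neg_right (a b : A Φ) : ipA a (-b) = -ipA a b := by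
  simp only [ip_cj _ a, ip_neg_left, map_neg]
theorem ip_smul_right (c : ℂ) (a b : A Φ) : ipA a (c • b) = conj c * ipA a b := by
  simp only [ip_cj _ a, ip_smul_left, map_mul]
@[simp] theorem ip_zero_right (a : A Φ) : ipA a 0 = 0 := by rw [ip_cj, ip_zero_left, map_zero]
theorem ip_sum_right {ι : Type*} (s : Finset ι) (a : A Φ) (b : ι → A Φ) :
    ipA a (∑ i ∈ s, b i) = ∑ i ∈ s, ipA a (b i) := by
  simp only [ip_cj _ a, ip_sum_left, map_sum]

theorem ip_monomial (s : I Φ × ℕ →₀ ℕ) (c : ℂ) (b : A Φ) :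
    ipA (monomial s c) b = c * conj (b.coeff s) * wA s := by
  classical
  rw [ip_eq_sum b support_monomial_subset, sum_singleton, coeff_monomial, if_pos rfl]

/-- the form is positive semidefinite -/
theorem ip_self_nonneg (a : A Φ) : ∃ r : ℝ, 0 ≤ r ∧ ipA a a = r := by
  choose w h1 h2 using exists_wA (Φ := Φ)
  refine ⟨∑ s ∈ a.support, Complex.normSq (a.coeff s) * w s, sum_nonneg fun s _ =>
    mul_nonneg (Complex.normSq_nonneg _) (h1 s), ?_⟩
  simp only [ip_eq_sum a Subset.rfl, h2, Complex.mul_conj, Complex.ofReal_sum, Complex.ofReal_mul]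

theorem ip_eq_zero_of_self {a : A Φ} (h : ipA a a = 0) (b : A Φ) : ipA a b = 0 := by
  choose w h1 h2 using exists_wA (Φ := Φ)
  simp only [ip_eq_sum a Subset.rfl, h2, Complex.mul_conj, ← Complex.ofReal_mul,
    ← Complex.ofReal_sum, Complex.ofReal_eq_zero] at h
  rw [sum_eq_zero_iff_of_nonneg fun s _ => mul_nonneg (Complex.normSq_nonneg _) (h1 s)] at h
  rw [ip_eq_sum b Subset.rfl]
  refine sum_eq_zero fun s hs => ?_
  rcases mul_eq_zero.1 (h s hs) with h3 | h3
  · rw [Complex.normSq_eq_zero.1 h3, zero_mul, zero_mul]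
  · rw [h2, h3, Complex.ofReal_zero, mul_zero]

theorem ip_one (a : A Φ) : ipA a 1 = constantCoeff a := by
  rw [ip_cj, ← C_1, C_apply, ip_monomial, wA_zero, constantCoeff_eq]
  simp

theorem ip_one_one : ipA (1 : A Φ) 1 = 1 := by rw [ip_one, map_one]

theorem ip_mul_one (a b : A Φ) : ipA (a * b) 1 = ipA a 1 * ipA b 1 := by
  simp only [ip_one, map_mul]

theorem ip_X_mul (x : I Φ × ℕ) (y a : A Φ) : ipA (X x * y) a = nu x * ipA y (pderiv x a) := by
  classical
  rw [ip_eq_sum a Subset.rfl, support_X_mul, sum_map, ip_eq_sum _ Subset.rfl, mul_sum]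
  refine sum_congr rfl fun s _ => ?_
  rw [addLeftEmbedding_apply, coeff_X_mul, coeff_pderiv, add_comm _ s, wA_add_single]
  simp only [map_mul, map_add, map_natCast, map_one]
  ring

theorem ip_X_X (x y : I Φ × ℕ) : ipA (X x : A Φ) (X y) = if x = y then nu x else 0 := by
  rw [← mul_one (X x), ip_X_mul, pderiv_X, Pi.single_apply]
  split_ifs with h1 h2 h2
  · rw [ip_one_one, mul_one]
  · exact (h2 h1.symm).elim
  · exact (h1 h2.symm).elim
  · rw [ip_zero_right, mul_zero]

theorem Hom.ip_eq_zero {m n : ℕ} {a b : A Φ} (ha : Hom m a) (hb : Hom n b) (h : m ≠ n) :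
    ipA a b = 0 := sum_eq_zero fun s hs => by
  rw [hb.coeff_eq_zero s fun e => h ((ha (mem_support_iff.1 hs)).symm.trans e), map_zero,
    mul_zero, zero_mul]

theorem Hom.smul {n : ℕ} {a : A Φ} (ha : Hom n a) (c : ℂ) : Hom n (c • a) :=
  (weightedHomogeneousSubmodule ℂ (wt Φ) n).smul_mem c ha

theorem hom_X (o : I Φ) (r : ℕ) : Hom (o.per * r) (X (o, r) : A Φ) := isWeightedHomogeneous_X _ _ _

/-- linear forms -/
def Lin (c : A Φ) : Prop := c ∈ Submodule.span ℂ (Set.range (X : I Φ × ℕ → A Φ))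

theorem lin_X (x : I Φ × ℕ) : Lin (X x : A Φ) := Submodule.subset_span ⟨x, rfl⟩
theorem lin_zero : Lin (0 : A Φ) := zero_mem _
theorem Lin.add {a b : A Φ} (ha : Lin a) (hb : Lin b) : Lin (a + b) := add_mem ha hb
theorem Lin.sub {a b : A Φ} (ha : Lin a) (hb : Lin b) : Lin (a - b) := sub_mem ha hb
theorem Lin.smul {a : A Φ} (ha : Lin a) (c : ℂ) : Lin (c • a) := Submodule.smul_mem _ c ha
theorem Lin.sum {ι : Type*} {s : Finset ι} {a : ι → A Φ} (h : ∀ i ∈ s, Lin (a i)) :
    Lin (∑ i ∈ s, a i) := Submodule.sum_mem _ h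

theorem Lin.induction {P : A Φ → Prop} {c : A Φ} (hc : Lin c) (h0 : P 0) (h1 : ∀ x, P (X x))
    (h2 : ∀ a b, P a → P b → P (a + b)) (h3 : ∀ (z : ℂ) a, P a → P (z • a)) : P c :=
  Submodule.span_induction (fun _ ⟨x, hx⟩ => hx ▸ h1 x) h0 (fun a b _ _ => h2 a b)
    (fun z a _ => h3 z a) hc

/-- the adjoint of the multiplication by a linear form -/
noncomputable def adj (c : A Φ) : Derivation ℂ (A Φ) (A Φ) :=
  mkDerivation ℂ fun x => C (ipA (X x) c)

theorem adj_X (c : A Φ) (x : I Φ × ℕ) : adj c (X x) = C (ipA (X x) c) := mkDerivation_X _ _ _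

theorem adj_one (c : A Φ) : adj c 1 = 0 := (adj c).map_one_eq_zero

theorem adj_mul (c a b : A Φ) : adj c (a * b) = adj c a * b + a * adj c b := by
  rw [Derivation.leibniz, smul_eq_mul, smul_eq_mul]; ring

theorem Lin.adj_lin {b : A Φ} (hb : Lin b) (c : A Φ) : adj c b = ipA b c • 1 :=
  hb.induction (P := fun b => adj c b = ipA b c • 1) (by simp)
    (fun x => by rw [adj_X, C_eq_smul_one]) (fun a b ha hb => by
      rw [map_add, ha, hb, ip_add_left, add_smul]) fun z a ha => by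
      rw [Derivation.map_smul, ha, ip_smul_left, mul_smul]

theorem Lin.ip_one {c : A Φ} (hc : Lin c) : ipA c 1 = 0 :=
  hc.induction (P := fun c => ipA c 1 = 0) (by simp) (fun x => by simp [GUn.ip_one])
    (fun a b ha hb => by rw [ip_add_left, ha, hb, add_zero]) fun z a ha => by
      rw [ip_smul_left, ha, mul_zero]

theorem Lin.one_ip {c : A Φ} (hc : Lin c) : ipA 1 c = 0 := by rw [ip_cj, hc.ip_one, map_zero]

theorem Lin.ip_mul_adj {c : A Φ} (hc : Lin c) (y a : A Φ) : ipA (c * y) a = ipA y (adj c a) := by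
  refine hc.induction (P := fun c => ipA (c * y) a = ipA y (adj c a)) ?_ (fun x => ?_)
    (fun c d hc hd => ?_) fun z c hc => ?_
  · rw [show adj (0 : A Φ) = 0 from derivation_ext fun x => by simp [adj_X]]
    simp
  · rw [show adj (X x : A Φ) = nu x • pderiv x from derivation_ext fun y => by
      rw [adj_X, ip_X_X, Derivation.smul_apply, pderiv_X, Pi.single_apply]
      split_ifs with h
      · rw [h, C_eq_smul_one]
      · simp, ip_X_mul, Derivation.smul_apply, ip_smul_right, conj_nu]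
  · rw [show adj (c + d) = adj c + adj d from derivation_ext fun x => by
      simp [adj_X, ip_add_right], add_mul, ip_add_left, hc, hd, Derivation.add_apply, ip_add_right]
  · rw [show adj (z • c) = conj z • adj c from derivation_ext fun x => by
      rw [Derivation.smul_apply, adj_X, adj_X, ip_smul_right, smul_eq_C_mul, map_mul], smul_mul_assoc, ip_smul_left, hc,
      Derivation.smul_apply, ip_smul_right, Complex.conj_conj]

theorem Lin.ip_adj_mul {c : A Φ} (hc : Lin c) (y a : A Φ) : ipA a (c * y) = ipA (adj c a) y := by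
  rw [ip_cj, hc.ip_mul_adj, ip_conj]

theorem Lin.ip_mul {c : A Φ} (hc : Lin c) (a b : A Φ) :
    ipA (a * b) c = ipA a c * ipA b 1 + ipA a 1 * ipA b c := by
  have h : ∀ a, ipA a c = ipA (adj c a) 1 := fun a => by rw [← hc.ip_adj_mul, mul_one]
  rw [h, h a, h b, adj_mul, ip_add_left, ip_mul_one, ip_mul_one]

/-! ### diagonal endomorphisms -/

theorem mu_X (F : kˣ → ℂ) (x : I Φ × ℕ) :
    mu F (X x : A Φ) = ((∏ t ∈ x.1.pts, F t) ^ x.2) • X x := aeval_X _ _

theorem mu_monomial (F : kˣ → ℂ) (s : I Φ × ℕ →₀ ℕ) (c : ℂ) : mu F (monomial s c : A Φ) =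
    (s.prod fun x i => ((∏ t ∈ x.1.pts, F t) ^ x.2) ^ i) • monomial s c := by
  rw [mu, aeval_monomial, monomial_eq]
  simp only [Finsupp.prod, smul_pow, prod_smul, algebraMap_eq, mul_smul_comm]

theorem coeff_mu (F : kˣ → ℂ) (a : A Φ) (s : I Φ × ℕ →₀ ℕ) : (mu F a).coeff s =
    (s.prod fun x i => ((∏ t ∈ x.1.pts, F t) ^ x.2) ^ i) * a.coeff s := by
  classical
  induction a using MvPolynomial.induction_on' with
  | monomial t c =>
    rw [mu_monomial, coeff_smul, coeff_monomial, smul_eq_mul]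
    split_ifs with h
    · rw [h]
    · rw [mul_zero, mul_zero]
  | add a b ha hb => rw [map_add, coeff_add, coeff_add, ha, hb, mul_add]

theorem Hom.mu {n : ℕ} {a : A Φ} (ha : Hom n a) (F : kˣ → ℂ) : Hom n (mu F a) := fun s hs =>
  ha (by rw [coeff_mu] at hs; exact right_ne_zero_of_mul hs)

theorem Lin.mu {a : A Φ} (ha : Lin a) (F : kˣ → ℂ) : Lin (mu F a) :=
  ha.induction (P := fun a => Lin (GUn.mu F a)) (by simpa using lin_zero)
    (fun x => by rw [mu_X]; exact (lin_X x).smul _)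
    (fun a b ha hb => by rw [map_add]; exact ha.add hb)
    fun z a ha => by rw [map_smul]; exact ha.smul z

theorem mu_mu (F G : kˣ → ℂ) (a : A Φ) : mu F (mu G a) = mu (fun t => F t * G t) a := by
  ext s
  simp only [coeff_mu, Finsupp.prod, prod_mul_distrib, mul_pow, mul_assoc]

theorem ip_mu (F : kˣ → ℂ) (a b : A Φ) :
    ipA (mu F a) b = ipA a (mu (fun t => conj (F t)) b) := by
  rw [ip_eq_sum' _ Subset.rfl, ip_eq_sum' (T := b.support) _ fun s hs => mem_support_iff.2 (by
    rw [mem_support_iff, coeff_mu] at hs; exact right_ne_zero_of_mul hs)]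
  refine sum_congr rfl fun s _ => ?_
  simp only [coeff_mu, Finsupp.prod, map_mul, map_prod, map_pow, Complex.conj_conj]
  ring

theorem Hom.dd {n : ℕ} {a : A Φ} (ha : Hom n a) (p : ℕ) : Hom n (dd p a) := ha.mu _

theorem Lin.dd {a : A Φ} (ha : Lin a) (p : ℕ) : Lin (dd p a) := ha.mu _

theorem dd_dd (p : ℕ) (a : A Φ) : dd p (dd p a) = dd p a := by
  rw [dd, mu_mu]
  congr 2
  funext t
  split_ifs <;> simp

theorem ip_dd (p : ℕ) (a b : A Φ) : ipA (dd p a) b = ipA a (dd p b) := by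
  simp only [dd, ip_mu, apply_ite conj, map_zero, map_one]

theorem ip_dd_dd (p : ℕ) (a b : A Φ) : ipA (dd p a) (dd p b) = ipA (dd p a) b := by
  rw [← ip_dd, dd_dd]

theorem hom_pm {q : ℕ → A Φ} {d : ℕ} (h : ∀ r, 0 < r → Hom (d * r) (q r)) {ρ : Multiset ℕ}
    (hρ : ∀ r ∈ ρ, 0 < r) : Hom (d * ρ.sum) (pm q ρ) := by
  induction ρ using Multiset.induction_on with
  | empty => exact isWeightedHomogeneous_one _ _
  | cons r ρ ih =>
    rw [GLn.pm_cons, Multiset.sum_cons, mul_add]
    exact (h r (hρ r (Multiset.mem_cons_self _ _))).mul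
      (ih fun j hj => hρ j (Multiset.mem_cons_of_mem hj))

theorem hom_S {q : ℕ → A Φ} {d : ℕ} (h : ∀ r, 0 < r → Hom (d * r) (q r)) (N : ℕ) (X : Finset ℕ) :
    Hom (d * sz N X) (S q N X) :=
  IsWeightedHomogeneous.sum _ _ _ fun _ hρ =>
    ((SymCh.mem_ptn.1 hρ).1 ▸ hom_pm h (SymCh.mem_ptn.1 hρ).2).smul _

theorem hom_schur {q : I Φ → ℕ → A Φ} (h : ∀ o r, 0 < r → Hom (o.per * r) (q o r)) {N : ℕ}
    (μ : MP Φ N) : Hom (deg μ) (schur q μ) :=
  IsWeightedHomogeneous.prod _ _ _ fun o _ => hom_S (h o) N _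

end Basic

section Poly

open MvPolynomial

variable {J : Type*}

theorem adj_aeval (c : A Φ) {a : J → A Φ} (ha : ∀ j, Lin (a j))
    (g : MvPolynomial J ℂ) :
    adj c (aeval a g) = aeval a (mkDerivation ℂ (fun j => C (ipA (a j) c)) g) := by
  induction g using MvPolynomial.induction_on with
  | C z => rw [aeval_C, Algebra.algebraMap_eq_smul_one, Derivation.map_smul, adj_one, smul_zero,
      derivation_C, map_zero]
  | add f g hf hg => simp only [map_add, hf, hg]
  | mul_X f j hf =>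
    rw [map_mul, adj_mul, hf, Derivation.leibniz, mkDerivation_X, aeval_X, (ha j).adj_lin]
    simp only [smul_eq_mul, map_add, map_mul, aeval_X, aeval_C, Algebra.algebraMap_eq_smul_one]
    ring

theorem ip_aeval_one {a : J → A Φ} (ha : ∀ j, Lin (a j)) (g : MvPolynomial J ℂ) :
    ipA (aeval a g) 1 = constantCoeff g := by
  induction g using MvPolynomial.induction_on with
  | C z => simp [ip_one]
  | add f g hf hg => simp only [map_add, ip_add_left, hf, hg]
  | mul_X f j hf => simp [ip_mul_one, (ha j).ip_one]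

/-- PERM: the form on polynomials in primitive elements only depends on the Gram matrix -/
theorem ip_aeval_eq {k' : Type u} [Field k'] {Φ' : Frob k'} {a : J → A Φ} {b : J → A Φ'} (ha : ∀ j, Lin (a j))
    (hb : ∀ j, Lin (b j)) (h : ∀ i j, ipA (a i) (a j) = ipA (b i) (b j))
    (f g : MvPolynomial J ℂ) : ipA (aeval a f) (aeval a g) = ipA (aeval b f) (aeval b g) := by
  induction f using MvPolynomial.induction_on generalizing g with
  | C z =>
    simp only [aeval_C, Algebra.algebraMap_eq_smul_one, ip_smul_left]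
    rw [ip_cj, ip_cj (aeval b g), ip_aeval_one ha, ip_aeval_one hb]
  | add f f' hf hf' => simp only [map_add, ip_add_left, hf, hf']
  | mul_X f j hf =>
    simp only [map_mul, aeval_X]
    rw [mul_comm _ (a j), mul_comm _ (b j), (ha j).ip_mul_adj, (hb j).ip_mul_adj,
      adj_aeval _ ha, adj_aeval _ hb, hf]
    simp only [h]

theorem adj_mem_adjoin (c : A Φ) {s : Set (A Φ)} (hs : ∀ x ∈ s, Lin x)
    {y : A Φ} (hy : y ∈ Algebra.adjoin ℂ s) : adj c y ∈ Algebra.adjoin ℂ s := by
  induction hy using Algebra.adjoin_induction with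
  | mem x hx => rw [(hs x hx).adj_lin]; exact Subalgebra.smul_mem _ (one_mem _) _
  | algebraMap z => rw [Algebra.algebraMap_eq_smul_one, Derivation.map_smul, adj_one, smul_zero]
                    exact zero_mem _
  | add x y _ _ hx hy => rw [map_add]; exact add_mem hx hy
  | mul x y hx hy hx' hy' => rw [adj_mul]; exact add_mem (mul_mem hx' hy) (mul_mem hx hy')

theorem adj_eq_zero {c : A Φ} {s : Set (A Φ)} (hs : ∀ x ∈ s, Lin x)
    (h : ∀ x ∈ s, ipA x c = 0) {y : A Φ} (hy : y ∈ Algebra.adjoin ℂ s) : adj c y = 0 := by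
  induction hy using Algebra.adjoin_induction with
  | mem x hx => rw [(hs x hx).adj_lin, h x hx, zero_smul]
  | algebraMap z => rw [Algebra.algebraMap_eq_smul_one, Derivation.map_smul, adj_one, smul_zero]
  | add x y _ _ hx hy => rw [map_add, hx, hy, add_zero]
  | mul x y _ _ hx hy => rw [adj_mul, hx, hy, zero_mul, mul_zero, add_zero]

/-- FACT: factorisation of the form for mutually orthogonal sets of primitive elements -/
theorem ip_mul_mul_adjoin {s t : Set (A Φ)} (hs : ∀ x ∈ s, Lin x) (ht : ∀ x ∈ t, Lin x)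
    (h : ∀ x ∈ s, ∀ y ∈ t, ipA x y = 0) {f₁ g₁ f₂ g₂ : A Φ} (hf₁ : f₁ ∈ Algebra.adjoin ℂ s)
    (hg₁ : g₁ ∈ Algebra.adjoin ℂ s) (hf₂ : f₂ ∈ Algebra.adjoin ℂ t)
    (hg₂ : g₂ ∈ Algebra.adjoin ℂ t) : ipA (f₁ * f₂) (g₁ * g₂) = ipA f₁ g₁ * ipA f₂ g₂ := by
  have h' : ∀ x ∈ s, ∀ y ∈ t, ipA y x = 0 := fun x hx y hy => by rw [ip_cj, h x hx y hy, map_zero]
  revert g₁
  refine adjoin_induction_left (P := fun f₁ => ∀ {g₁}, g₁ ∈ Algebra.adjoin ℂ s →
    ipA (f₁ * f₂) (g₁ * g₂) = ipA f₁ g₁ * ipA f₂ g₂) (fun z g₁ hg₁ => ?_)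
    (fun x y hx hy g₁ hg₁ => ?_) (fun x hx y _ hy g₁ hg₁ => ?_) hf₁
  · rw [smul_mul_assoc, one_mul, ip_smul_left, ip_smul_left, mul_assoc]
    congr 1
    refine adjoin_induction_left (P := fun g₁ => ipA f₂ (g₁ * g₂) = ipA 1 g₁ * ipA f₂ g₂)
      (fun w => ?_) (fun x y hx hy => ?_) (fun x hx y _ _ => ?_) hg₁
    · rw [smul_mul_assoc, one_mul, ip_smul_right, ip_smul_right, ip_one_one, mul_one]
    · rw [add_mul, ip_add_right, ip_add_right, hx, hy, add_mul]
    · rw [mul_assoc, (hs x hx).ip_adj_mul, (hs x hx).ip_adj_mul,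
        adj_eq_zero ht (h' x hx) hf₂, adj_one, ip_zero_left, ip_zero_left, zero_mul]
  · rw [add_mul, ip_add_left, ip_add_left, hx hg₁, hy hg₁, add_mul]
  · rw [mul_assoc, (hs x hx).ip_mul_adj, (hs x hx).ip_mul_adj, adj_mul,
      adj_eq_zero ht (h' x hx) hg₂, mul_zero, add_zero, hy (adj_mem_adjoin _ hs hg₁)]

/-- FACT for finitely many mutually orthogonal sets -/
theorem ip_prod_prod_adjoin {ι : Type*} (s : ι → Set (A Φ)) (hs : ∀ i, ∀ x ∈ s i, Lin x)
    (h : ∀ i j, i ≠ j → ∀ x ∈ s i, ∀ y ∈ s j, ipA x y = 0) (T : Finset ι) {f g : ι → A Φ}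
    (hf : ∀ i ∈ T, f i ∈ Algebra.adjoin ℂ (s i)) (hg : ∀ i ∈ T, g i ∈ Algebra.adjoin ℂ (s i)) :
    ipA (∏ i ∈ T, f i) (∏ i ∈ T, g i) = ∏ i ∈ T, ipA (f i) (g i) := by
  classical
  induction T using Finset.induction_on with
  | empty => simpa using ip_one_one
  | insert i T hi ih =>
    have key : ∀ {f : ι → A Φ}, (∀ j ∈ insert i T, f j ∈ Algebra.adjoin ℂ (s j)) →
        ∏ j ∈ T, f j ∈ Algebra.adjoin ℂ (⋃ j ∈ T, s j) := fun hf =>
      Subalgebra.prod_mem _ fun j hj => Algebra.adjoin_mono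
        (Set.subset_biUnion_of_mem (u := s) (mem_coe.2 hj)) (hf j (mem_insert_of_mem hj))
    rw [prod_insert hi, prod_insert hi, prod_insert hi,
      ← ih (fun j hj => hf j (mem_insert_of_mem hj)) fun j hj => hg j (mem_insert_of_mem hj)]
    refine ip_mul_mul_adjoin (hs i) (t := ⋃ j ∈ T, s j) ?_ ?_ (hf i (mem_insert_self _ _))
      (hg i (mem_insert_self _ _)) (key hf) (key hg)
    · intro x hx
      obtain ⟨j, -, hx⟩ := Set.mem_iUnion₂.1 hx
      exact hs j x hx
    · intro x hx y hy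
      obtain ⟨j, hj, hy⟩ := Set.mem_iUnion₂.1 hy
      exact h i j (by rintro rfl; exact hi hj) x hx y hy

end Poly

/-! ### Monomials in orthogonal primitive elements -/

section Orth

variable {J : Type*} [DecidableEq J] {a : J → A Φ}

theorem adj_multiset (c : A Φ) (σ : Multiset J) (ha : ∀ j ∈ σ, Lin (a j))
    (j : J) (h : ∀ i ∈ σ, i ≠ j → ipA (a i) c = 0) :
    adj c (σ.map a).prod = (σ.count j * ipA (a j) c) • ((σ.erase j).map a).prod := by
  induction σ using Multiset.induction_on with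
  | empty => simp
  | cons i σ ih =>
    rw [Multiset.map_cons, Multiset.prod_cons, adj_mul, (ha i (by simp)).adj_lin,
      ih (fun k hk => ha k (by simp [hk])) fun k hk => h k (by simp [hk])]
    by_cases hij : i = j
    · subst hij
      rw [Multiset.count_cons_self, Multiset.erase_cons_head]
      by_cases hi : i ∈ σ
      · conv_rhs => rw [← Multiset.cons_erase hi, Multiset.map_cons, Multiset.prod_cons]
        conv_lhs => congr; rw [← Multiset.cons_erase hi, Multiset.map_cons, Multiset.prod_cons]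
        rw [Multiset.cons_erase hi, smul_mul_assoc, one_mul, mul_smul_comm, ← add_smul]
        congr 1; push_cast; ring
      · simp [Multiset.count_eq_zero_of_notMem hi]
    · rw [h i (by simp) hij, Multiset.count_cons_of_ne (Ne.symm hij),
        Multiset.erase_cons_tail _ hij]
      simp

/-- ORTH -/
theorem ip_multiset {s : Set J} (ha : ∀ j ∈ s, Lin (a j))
    (h : ∀ i ∈ s, ∀ j ∈ s, i ≠ j → ipA (a i) (a j) = 0) {ρ σ : Multiset J} (hρ : ∀ j ∈ ρ, j ∈ s)
    (hσ : ∀ j ∈ σ, j ∈ s) : ipA (ρ.map a).prod (σ.map a).prod =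
      if ρ = σ then mnorm (fun j => ipA (a j) (a j)) ρ else 0 := by
  induction ρ using Multiset.induction_on generalizing σ with
  | empty =>
    induction σ using Multiset.induction_on with
    | empty => simpa [mnorm] using ip_one_one
    | cons j σ _ =>
      rw [Multiset.map_cons, Multiset.prod_cons, Multiset.map_zero, Multiset.prod_zero,
        (ha j (hσ j (by simp))).ip_adj_mul, adj_one, ip_zero_left, if_neg (by simp)]
  | cons j ρ ih =>
    have hj := hρ j (by simp)
    rw [Multiset.map_cons, Multiset.prod_cons, (ha j hj).ip_mul_adj,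
      adj_multiset _ σ (fun i hi => ha i (hσ i hi)) j
        (fun i hi hij => h i (hσ i hi) j hj hij), ip_smul_right,
      ih (fun i hi => hρ i (by simp [hi])) fun i hi => hσ i (Multiset.mem_of_mem_erase hi),
      map_mul, ip_conj, map_natCast]
    by_cases hjσ : j ∈ σ
    · obtain ⟨τ, rfl⟩ := Multiset.exists_cons_of_mem hjσ
      simp only [Multiset.erase_cons_head, Multiset.cons_inj_right, mnorm_cons,
        Multiset.count_cons_self]
      split_ifs with h1
      · subst h1; push_cast; ring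
      · exact mul_zero _
    · rw [Multiset.count_eq_zero_of_notMem hjσ, if_neg (c := j ::ₘ ρ = σ)
        (by rintro rfl; simp at hjσ)]
      simp

/-- monomials in non-zero orthogonal primitive elements are linearly independent -/
theorem linearIndependent_multiset {s : Set J} (ha : ∀ j ∈ s, Lin (a j))
    (h0 : ∀ j ∈ s, ipA (a j) (a j) ≠ 0) (h : ∀ i ∈ s, ∀ j ∈ s, i ≠ j → ipA (a i) (a j) = 0) :
    LinearIndependent ℂ fun ρ : {ρ : Multiset J // ∀ j ∈ ρ, j ∈ s} => (ρ.1.map a).prod := by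
  classical
  rw [linearIndependent_iff']
  intro T g hg ρ hρ
  have := congrArg (ipA · (ρ.1.map a).prod) hg
  simp only [ip_sum_left, ip_smul_left, ip_zero_left] at this
  rw [sum_eq_single ρ (fun σ _ hσ => by
    rw [ip_multiset ha h σ.2 ρ.2, if_neg (fun e => hσ (Subtype.ext e)), mul_zero])
    (fun h => (h hρ).elim), ip_multiset ha h ρ.2 ρ.2, if_pos rfl] at this
  exact (mul_eq_zero.1 this).resolve_right
    (mnorm_ne_zero fun j hj => h0 j (ρ.2 j hj))

/-- power sum monomials -/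
theorem ip_pm {p : ℕ → A Φ} (hp : ∀ r, 0 < r → Lin (p r)) {w : ℕ → ℂ}
    (h : ∀ k l, 0 < k → 0 < l → ipA (p k) (p l) = if k = l then k * w k else 0)
    {ρ σ : Multiset ℕ} (hρ : ∀ k ∈ ρ, 0 < k) (hσ : ∀ k ∈ σ, 0 < k) :
    ipA (pm p ρ) (pm p σ) = if ρ = σ then SymCh.zz ρ * (ρ.map w).prod else 0 := by
  rw [pm, pm, ip_multiset (s := {k | 0 < k}) hp (fun k hk l hl hkl => by
    rw [h k l hk hl, if_neg hkl]) hρ hσ, ← mnorm_mul_eq]
  congr 1
  exact prod_congr rfl fun k hk => by
    simp only []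
    rw [h k k (hρ k (Multiset.mem_toFinset.1 hk)) (hρ k (Multiset.mem_toFinset.1 hk)), if_pos rfl]

/-- Schur functions -/
theorem ip_S {p : ℕ → A Φ} (hp : ∀ r, 0 < r → Lin (p r)) {w : ℕ → ℂ}
    (h : ∀ k l, 0 < k → 0 < l → ipA (p k) (p l) = if k = l then k * w k else 0)
    (N : ℕ) (X Y : Finset ℕ) : ipA (S p N X) (S p N Y) = if sz N X = sz N Y then
      ∑ ρ ∈ SymCh.ptn (sz N X), ((SymCh.ph N X ρ * SymCh.ph N Y ρ / SymCh.zz ρ : ℚ) : ℂ) *
        (ρ.map w).prod else 0 := by
  simp only [S, ip_sum_left, ip_sum_right, ip_smul_left, ip_smul_right, map_ratCast]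
  split_ifs with hs
  · rw [← hs]
    refine sum_congr rfl fun ρ hρ => ?_
    have h0 := (SymCh.mem_ptn.1 hρ).2
    have hz : (SymCh.zz ρ : ℂ) ≠ 0 := Nat.cast_ne_zero.2 (SymCh.zz_pos h0).ne'
    rw [sum_eq_single ρ (fun σ hσ hne => by
      rw [ip_pm hp h (SymCh.mem_ptn.1 hσ).2 h0, if_neg hne, mul_zero]) (fun h => (h hρ).elim),
      ip_pm hp h h0 h0, if_pos rfl]
    push_cast; field_simp
  · refine sum_eq_zero fun ρ hρ => mul_eq_zero_of_right _ (sum_eq_zero fun σ hσ => ?_)
    rw [ip_pm hp h (SymCh.mem_ptn.1 hσ).2 (SymCh.mem_ptn.1 hρ).2, if_neg, mul_zero]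
    rintro rfl
    exact hs ((SymCh.mem_ptn.1 hσ).1.symm.trans (SymCh.mem_ptn.1 hρ).1)

/-- Schur functions are orthonormal -/
theorem ip_S_one {p : ℕ → A Φ} (hp : ∀ r, 0 < r → Lin (p r))
    (h : ∀ k l, 0 < k → 0 < l → ipA (p k) (p l) = if k = l then (k : ℂ) else 0)
    {N m m' : ℕ} {X Y : Finset ℕ} (hX : X ∈ SymCh.bs N m) (hY : Y ∈ SymCh.bs N m') :
    ipA (S p N X) (S p N Y) = if X = Y then 1 else 0 := by
  have e : ∀ {m X}, X ∈ SymCh.bs N m → sz N X = m := fun h => by
    rw [sz, (SymCh.mem_bs.1 h).2, Nat.add_sub_cancel]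
  rw [ip_S (w := fun _ => 1) hp (by simpa using h), e hX, e hY]
  split_ifs with h1 h2 h2
  · subst h1 h2
    have := SymCh.sum_ph_mul_ph hX hX
    rw [if_pos rfl] at this
    simpa using congrArg (Rat.cast : ℚ → ℂ) this
  · subst h1
    have := SymCh.sum_ph_mul_ph hX hY
    rw [if_neg h2] at this
    simpa using congrArg (Rat.cast : ℚ → ℂ) this
  · subst h2; exact (h1 ((e hX).symm.trans (e hY))).elim
  · rfl

end Orth

end Cfsg.GUn
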