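import Cfsg.Agent.GUn.IntA
import Cfsg.Agent.GUn.Ar
import Cfsg.Agent.GUn.Ip

/-! The integral form of the Ennola algebra. -/

set_option autoImplicit false

namespace Cfsg.GUn.IntB

open Finset GLn MvPolynomial

universe u

variable {k : Type u} [Field k] {Φ : Frob k}

/-- homogeneous components -/
noncomputable abbrev cp (n : ℕ) : A Φ →ₗ[ℂ] A Φ := weightedHomogeneousComponent (wt Φ) n

theorem hom_cp (n : ℕ) (a : A Φ) : Hom n (cp n a) :=
  weightedHomogeneousComponent_isWeightedHomogeneous _ _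

theorem cp_of_hom {n : ℕ} {a : A Φ} (h : Hom n a) (m : ℕ) : cp m a = if m = n then a else 0 :=
  weightedHomogeneousComponent_of_mem h

theorem hom_induction {P : A Φ → Prop} (h1 : ∀ n a, Hom n a → P a)
    (h2 : ∀ a b, P a → P b → P (a + b)) (a : A Φ) : P a :=
  MvPolynomial.induction_on' a (fun s c => h1 _ _ (isWeightedHomogeneous_monomial _ s c rfl)) h2

theorem hom_ex {p : ℕ → A Φ} {d : ℕ} (h : ∀ r, 0 < r → Hom (d * r) (p r)) (n : ℕ) :
    Hom (d * n) (ex p n) := by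
  rw [ex_eq_sum]
  refine IsWeightedHomogeneous.sum _ _ _ fun ρ hρ => Hom.smul ?_ _
  rw [SymCh.mem_ptn] at hρ
  exact hρ.1 ▸ hom_pm h hρ.2

/-- elements of degree less than `d` -/
noncomputable def Lt (d : ℕ) : Submodule ℂ (A Φ) := Submodule.span ℂ {a | ∃ e < d, Hom e a}

theorem cp_of_lt {d e : ℕ} {a : A Φ} (h : a ∈ Lt d) (he : d ≤ e) : cp e a = 0 := by
  induction h using Submodule.span_induction with
  | mem a h => obtain ⟨e', h1, h2⟩ := h; rw [cp_of_hom h2, if_neg (by omega)]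
  | zero => exact map_zero _
  | add a b _ _ ha hb => rw [map_add, ha, hb, add_zero]
  | smul c a _ ha => rw [map_smul, ha, smul_zero]

theorem mul_mem_lt {d e : ℕ} {a b : A Φ} (h : a ∈ Lt d) (hb : Hom e b) : a * b ∈ Lt (d + e) := by
  induction h using Submodule.span_induction with
  | mem a h => obtain ⟨e', h1, h2⟩ := h; exact Submodule.subset_span ⟨_, by omega, h2.mul hb⟩
  | zero => rw [zero_mul]; exact zero_mem _
  | add a b _ _ ha hb => rw [add_mul]; exact add_mem ha hb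
  | smul c a _ ha => rw [smul_mul_assoc]; exact Submodule.smul_mem _ _ ha

theorem lt_mono {d e : ℕ} (h : d ≤ e) : (Lt d : Submodule ℂ (A Φ)) ≤ Lt e :=
  Submodule.span_mono fun _ ⟨e', h1, h2⟩ => ⟨e', by omega, h2⟩

theorem Hp_sub_mem {d : ℕ} {a : A Φ} (h : Hom d a) : Hp a - a ∈ Lt d := by
  induction h using IsWeightedHomogeneous.induction_on with
  | zero => simp
  | add a b _ _ ha hb => rw [map_add, add_sub_add_comm]; exact add_mem ha hb
  | monomial s c hs =>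
    have key : ∃ e, Hom e (monomial s c : A Φ) ∧ Hp (monomial s c : A Φ) - monomial s c ∈ Lt e := by
      refine induction_on_monomial (motive := fun a : A Φ => ∃ e, Hom e a ∧ Hp a - a ∈ Lt e)
        (fun c => ⟨0, isWeightedHomogeneous_C _ _, by simp [Hp]⟩) ?_ s c
      rintro a x ⟨e, h1, h2⟩
      have hX : Hom (wt Φ x) (X x : A Φ) := isWeightedHomogeneous_X _ _ _
      refine ⟨e + wt Φ x, h1.mul hX, ?_⟩
      have : Hp (a * X x) - a * X x = (Hp a - a) * X x +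
          ((Φ.Q : ℂ) ^ wt Φ x - 1)⁻¹ • (a + (Hp a - a)) := by
        rw [map_mul, Hp, aeval_X, smul_eq_C_mul]; ring
      rw [this]
      refine add_mem (mul_mem_lt h2 hX) ?_
      rcases Nat.eq_zero_or_pos (wt Φ x) with h0 | h0
      · simp [h0]
      · exact Submodule.smul_mem _ _ (add_mem (Submodule.subset_span ⟨e, by omega, h1⟩)
          (lt_mono (by omega) h2))
    obtain ⟨e, h1, h2⟩ := key
    by_cases h0 : (monomial s c : A Φ) = 0
    · simp [h0]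
    · rwa [← h1.inj_right h0 (isWeightedHomogeneous_monomial _ s c hs)]

theorem cp_Hp {d e : ℕ} {a : A Φ} (h : Hom d a) (he : d ≤ e) :
    cp e (Hp a) = if e = d then a else 0 := by
  rw [← cp_of_hom h, ← sub_eq_zero, ← map_sub, cp_of_lt (Hp_sub_mem h) he]

variable [Big k]

theorem P_zero (ξ : kˣ) : P Φ 0 ξ = 0 := by rw [P, Mk_zero, sum_empty]

theorem wt_io {m : ℕ} {t : kˣ} (ht : t ∈ Mk Φ m) : wt Φ (io Φ t, m / (io Φ t).per) = m :=
  Nat.mul_div_cancel' ((mem_Mk_per (pos_of_mem_Mk ht)).1 ht)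

theorem hom_P (m : ℕ) (ξ : kˣ) : Hom m (P Φ m ξ) :=
  IsWeightedHomogeneous.sum _ _ _ fun t ht => Hom.smul (by
    have : Hom _ (X (io Φ t, m / (io Φ t).per) : A Φ) := isWeightedHomogeneous_X _ _ _
    rwa [wt_io ht] at this) _

theorem P_pow_q {m : ℕ} {ξ : kˣ} (hξ : ξ ∈ Mk Φ m) (n : ℕ) : P Φ m (ξ ^ Φ.Q ^ n) = P Φ m ξ := by
  rw [P, P, ← sum_Mk_pow_q n fun t => (pr Φ m ξ t : ℂ) • (X (io Φ t, m / (io Φ t).per) : A Φ)]
  exact sum_congr rfl fun t ht => by rw [pr_zpow' hξ ht, io_pow_q]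

theorem Hp_P {m : ℕ} {ξ : kˣ} (hξ : ξ ∈ Mk Φ m) :
    Hp (P Φ m ξ) = P Φ m ξ + if ξ = 1 then ((Φ.Q.sign : ℤ) : A Φ) ^ m else 0 := by
  have hm := pos_of_mem_Mk hξ
  rw [P, map_sum, sum_congr rfl fun t ht => by
    rw [map_smul, Hp, aeval_X, wt_io ht, smul_add, smul_eq_C_mul (C _), ← C_mul], sum_add_distrib,
    ← map_sum, ← sum_mul, sum_pr hξ]
  congr 1
  split_ifs
  · have := congrArg (Int.cast : ℤ → ℂ) (NN_eq (Φ := Φ) hm)
    push_cast at this
    rw [this, mul_inv_cancel_right₀ (Q_pow_sub_ne hm), map_pow, map_intCast]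
  · rw [zero_mul, map_zero]

theorem gen_mem_ZZ {c : ℕ} {ξ : kˣ} (hξ : ξ ∈ Mk Φ c) (m : ℕ) :
    ex (fun r => P Φ (c * r) ξ) m ∈ ZZ Φ :=
  Subring.subset_closure ⟨c, pos_of_mem_Mk hξ, ξ, hξ, m, rfl⟩

theorem hh_eq (n : ℕ) : hh Φ n = ex (fun r => P Φ (1 * r) 1) n := by simp only [one_mul, hh]

theorem hh_mem (n : ℕ) : hh Φ n ∈ ZZ Φ := hh_eq (Φ := Φ) n ▸ gen_mem_ZZ (one_mem_Mk one_pos) n

theorem hom_hh (n : ℕ) : Hom n (hh Φ n) := by
  have := hom_ex (fun r _ => hom_P (Φ := Φ) (1 * r) 1) n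
  rwa [← hh_eq, one_mul] at this

theorem ZZ_le {R : Subring (A Φ)}
    (h : ∀ c, ∀ ξ ∈ Mk Φ c, ∀ m, ex (fun r => P Φ (c * r) ξ) m ∈ R) : ZZ Φ ≤ R :=
  Subring.closure_le.2 fun _ ⟨c, _, ξ, hξ, m, e⟩ => e ▸ h c ξ hξ m

theorem cp_mem {a : A Φ} (ha : a ∈ ZZ Φ) (n : ℕ) : cp n a ∈ ZZ Φ := by
  have : a ∈ AddSubgroup.closure {a | a ∈ ZZ Φ ∧ ∃ n, Hom n a} := by
    induction ha using Subring.closure_induction with
    | mem a h =>
      obtain ⟨c, _, ξ, hξ, m, rfl⟩ := h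
      exact AddSubgroup.subset_closure ⟨gen_mem_ZZ hξ m, _, hom_ex (fun r _ => hom_P _ _) m⟩
    | zero => exact zero_mem _
    | one => exact AddSubgroup.subset_closure ⟨one_mem _, 0, isWeightedHomogeneous_one _ _⟩
    | add a b _ _ ha hb => exact add_mem ha hb
    | neg a _ ha => exact neg_mem ha
    | mul a b _ _ ha hb =>
      refine AddSubgroup.closure_induction₂ (p := fun a b _ _ => a * b ∈ _) ?_ ?_ ?_ ?_ ?_ ?_ ?_ ha hb
      · rintro a b ⟨h1, n, h2⟩ ⟨h3, m, h4⟩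
        exact AddSubgroup.subset_closure ⟨mul_mem h1 h3, _, h2.mul h4⟩
      · intro _ _; rw [zero_mul]; exact zero_mem _
      · intro _ _; rw [mul_zero]; exact zero_mem _
      · intro _ _ _ _ _ _ h1 h2; rw [add_mul]; exact add_mem h1 h2
      · intro _ _ _ _ _ _ h1 h2; rw [mul_add]; exact add_mem h1 h2
      · intro _ _ _ _ h; rw [neg_mul]; exact neg_mem h
      · intro _ _ _ _ h; rw [mul_neg]; exact neg_mem h
  clear ha
  induction this using AddSubgroup.closure_induction with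
  | mem a h =>
    obtain ⟨h1, m, h2⟩ := h
    rw [cp_of_hom h2]
    split_ifs
    exacts [h1, zero_mem _]
  | zero => rw [map_zero]; exact zero_mem _
  | add a b _ _ ha hb => rw [map_add]; exact add_mem ha hb
  | neg a _ ha => rw [map_neg]; exact neg_mem ha

theorem Hp_mem {a : A Φ} (ha : a ∈ ZZ Φ) : Hp a ∈ ZZ Φ := by
  refine ZZ_le (R := (ZZ Φ).comap (Hp : A Φ →ₐ[ℂ] A Φ).toRingHom) (fun c ξ hξ m => ?_) ha
  have hc := pos_of_mem_Mk hξ
  rw [Subring.mem_comap, map_ex, ex_congr (q := (fun r => P Φ (c * r) ξ) +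
    fun r => ((if ξ = 1 then ((Φ.Q.sign : ℤ) : A Φ) ^ c else 0)) ^ r) fun r hr => ?_, ex_add]
  · refine sum_mem fun x _ => mul_mem (gen_mem_ZZ hξ _) ?_
    rw [ex_geom]
    split_ifs
    exacts [pow_mem (pow_mem (intCast_mem _ _) _) _, pow_mem (zero_mem _) _]
  · refine (Hp_P (mem_Mk_of_dvd (Nat.mul_pos hc hr) (dvd_mul_right _ _) hξ)).trans ?_
    split_ifs <;> simp [pow_mul, hr.ne']

theorem prod_range_pow_q {m : ℕ} {t : kˣ} (ht : t ∈ Mk Φ m) (F : kˣ → ℂ) :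
    (∏ s ∈ (io Φ t).pts, F s) ^ (m / (io Φ t).per) = ∏ i ∈ range m, F (t ^ Φ.Q ^ i) := by
  have h1 := Dyn.sum_range_of_dvd (T := fr Φ) t (fun s => Additive.ofMul (F s)) (k := m)
    (by rw [← (allPer Φ).per_omk]; exact (mem_Mk_per (pos_of_mem_Mk ht)).1 ht)
  rw [← (allPer Φ).sum_pts_omk t fun s => Additive.ofMul (F s), ← (allPer Φ).per_omk] at h1
  simpa only [fr_iterate, ← ofMul_prod, ← ofMul_pow, EmbeddingLike.apply_eq_iff_eq] using h1.symm

theorem mu_P (F : kˣ → ℂ) (m : ℕ) (ξ : kˣ) : mu F (P Φ m ξ) = ∑ t ∈ Mk Φ m,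
    ((pr Φ m ξ t : ℂ) * ∏ i ∈ range m, F (t ^ Φ.Q ^ i)) • X (io Φ t, m / (io Φ t).per) := by
  rw [P, map_sum]
  exact sum_congr rfl fun t ht => by rw [map_smul, mu_X, prod_range_pow_q ht, smul_smul]

/-- the generating function of the multiplications by the Brauer lifts -/
noncomputable def muP (a : ℤ) : A Φ →ₐ[ℂ] Polynomial (A Φ) :=
  aeval fun x => (∏ t ∈ x.1.pts, (1 + Polynomial.X * Polynomial.C (C ((Big.th t : ℂ) ^ a)))) ^ x.2 *
    Polynomial.C (X x)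

theorem eval_muP (a : ℤ) (y : ℂ) (b : A Φ) : (muP a b).eval (algebraMap ℂ _ y) =
    mu (fun t => 1 + y * (Big.th t : ℂ) ^ a) b := by
  induction b using MvPolynomial.induction_on with
  | C c => simp [muP, mu]
  | add a b ha hb => rw [map_add, map_add, Polynomial.eval_add, ha, hb]
  | mul_X b x hb =>
    rw [map_mul, map_mul, Polynomial.eval_mul, hb, mu_X, muP, aeval_X, smul_eq_C_mul]
    simp [Polynomial.eval_prod, mul_comm (C y)]

/-- the twisted families -/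
noncomputable def Qx (c : ℕ) (ξ : kˣ) (r : ℕ) (b : ℤ) : A Φ :=
  P Φ (c * r) (ξ * gen Φ (c * r) ^ b)

theorem dat {c : ℕ} {ξ : kˣ} (hξ : ξ ∈ Mk Φ c) : Nk.Dat Φ.Q c (Qx (Φ := Φ) c ξ) where
  fr r b := by
    rcases Nat.eq_zero_or_pos (c * r) with h | h
    · rw [Qx, Qx, h, P_zero, P_zero]
    rw [Qx, Qx, ← P_pow_q (mul_mem_Mk (mem_Mk_of_dvd h (dvd_mul_right _ _) hξ)
      (zpow_mem_Mk (gen_mem h) b)) c, mul_zpow, pow_of_mem_Mk hξ, ← zpow_mul, mul_comm b]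
  per r a b e := by
    rcases Nat.eq_zero_or_pos (c * r) with h | h
    · rw [Qx, Qx, h, P_zero, P_zero]
    rw [Qx, Qx, zpow_eq_zpow_iff_modEq.2]
    rwa [orderOf_gen h, NN, Int.modEq_natAbs]

theorem pf_eq {c d : ℕ} (hd : 0 < c * d) (ξ : kˣ) (b : ℤ) : ex (Nk.pf Φ.Q c (Qx c ξ) d b) =
    ex fun r => P Φ (c * d * r) (ξ * gen Φ (c * d) ^ b) := ex_congr fun r hr => by
  rw [Nk.pf, Qx, ← mul_assoc, mul_comm b, zpow_mul, ← prod_pow_q, norm_gen hd hr]

theorem muP_P (a : ℤ) {m : ℕ} {ξ : kˣ} (hξ : ξ ∈ Mk Φ m) : muP a (P Φ m ξ) =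
    ∑ T ∈ (range m).powerset, Nk.tm Φ.Q (fun b => P Φ m (ξ * gen Φ m ^ b)) a T := by
  refine Neck.poly_ext fun y => ?_
  have hm := pos_of_mem_Mk hξ
  simp only [eval_muP, mu_P, Nk.tm, Polynomial.eval_finsetSum, Polynomial.eval_mul,
    Polynomial.eval_pow, Polynomial.eval_X, Polynomial.eval_C, ← map_pow, ← Algebra.smul_def]
  simp only [P, smul_sum, smul_smul]
  rw [sum_comm]
  refine sum_congr rfl fun t ht => ?_
  rw [← sum_smul, prod_one_add, mul_sum]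
  congr 1
  refine sum_congr rfl fun T _ => ?_
  rw [pr_mul hξ (zpow_mem_Mk (gen_mem hm) _) ht, pr_gen_zpow ht, mul_comm a, zpow_mul,
    ← prod_zpow_sum, prod_mul_distrib, prod_const, ← prod_zpow]
  simp only [Units.val_mul, Units.coe_prod, Units.val_zpow_eq_zpow_val, map_zpow]
  ring

theorem muP_ex (a : ℤ) {c : ℕ} {ξ : kˣ} (hξ : ξ ∈ Mk Φ c) (n : ℕ) :
    muP a (ex (fun r => P Φ (c * r) ξ) n) =
      ex (fun r => ∑ T ∈ (range (c * r)).powerset, Nk.tm Φ.Q (Qx c ξ r) a T) n := by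
  refine (map_ex (muP a : A Φ →ₐ[ℂ] _).toRingHom _ n).trans (congrFun (ex_congr fun r hr => ?_) n)
  exact muP_P a (mem_Mk_of_dvd (Nat.mul_pos (pos_of_mem_Mk hξ) hr) (dvd_mul_right _ _) hξ)

theorem coeff_muP_mem (a : ℤ) {b : A Φ} (hb : b ∈ ZZ Φ) (j : ℕ) : (muP a b).coeff j ∈ ZZ Φ := by
  have : muP a b ∈ Polynomial.liftsRing (ZZ Φ).subtype := by
    refine ZZ_le (Φ := Φ) (R := (Polynomial.liftsRing (ZZ Φ).subtype).comap
      (muP (Φ := Φ) a).toRingHom) (fun c ξ hξ m => ?_) hb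
    have hc := pos_of_mem_Mk hξ
    refine Subring.mem_comap.2 ((muP_ex a hξ m).symm ▸ (?_ : ex _ m ∈ _))
    refine (dat hξ).mem_lifts hc _ (fun d hd b m => ?_) a m
    have h := Nat.mul_pos hc hd
    rw [pf_eq h]
    exact gen_mem_ZZ (mul_mem_Mk (mem_Mk_of_dvd h (dvd_mul_right _ _) hξ)
      (zpow_mem_Mk (gen_mem h) b)) m
  obtain ⟨x, hx⟩ := (Polynomial.lifts_iff_coeff_lifts _).1 this j
  exact hx ▸ x.2

theorem coeff_muP_zero (a : ℤ) (b : A Φ) : (muP a b).coeff 0 = b := by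
  have := eval_muP a 0 b
  rw [map_zero, ← Polynomial.coeff_zero_eq_eval_zero] at this
  rw [this]
  ext s
  simp [coeff_mu]

/-- the integral form is generated by the Brauer lifts -/
theorem ZZ_le_of_muP {R : Subring (A Φ)} (h : ∀ a n j, (muP a (hh Φ n)).coeff j ∈ R) :
    ZZ Φ ≤ R := by
  refine ZZ_le fun c ξ hξ m => ?_
  have hc := pos_of_mem_Mk hξ
  have := (dat (one_mem_Mk (Φ := Φ) one_pos)).mem R (fun a n j => by
    have := h a n j
    rw [hh_eq, muP_ex a (one_mem_Mk one_pos)] at this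
    simpa only [one_mul] using this) hc (lgz Φ c ξ) m
  rw [pf_eq (by simpa using hc)] at this
  simpa only [one_mul, gen_pow_lgz hξ] using this

end Cfsg.GUn.IntB
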