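import Cfsg.Agent.GUn.Ch
import Cfsg.Agent.GUn.ArC
import Cfsg.Agent.GUn.IntB

/-! The piece `Irr`: the character table. -/

set_option autoImplicit false

namespace Cfsg.GUn

open Finset GLn MvPolynomial SymCh
open scoped ComplexConjugate

universe u

variable {k : Type u} [Field k] [Big k] {Φ : Frob k} {ι : Type} [Fintype ι] [DecidableEq ι] {N : ℕ}

theorem chi_mem_ZZ (μ : MP Φ N) : chi μ ∈ ZZ Φ :=
  (ZZ Φ).prod_mem fun o _ => S_mem_subring _ (μ o).2 (ZZ Φ) fun m _ =>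
    IntB.gen_mem_ZZ (rep_mem_Mk (per_pos o) dvd_rfl) m

theorem mu_pr_P {z : kˣ} (hz : z ∈ Mk Φ 1) {m : ℕ} {ξ : kˣ} (hξ : ξ ∈ Mk Φ m) :
    mu (fun t => (pr Φ 1 z t : ℂ)) (P Φ m ξ) = P Φ m (z * ξ) := by
  rw [P_eq_Pf, P_eq_Pf, mu_Pf]
  exact Pf_congr fun α hα => by
    rw [pr_mul (mem_Mk_of_dvd (pos_of_mem_Mk hξ) (one_dvd _) hz) hξ hα, Units.val_mul,
      pr_of_mem_one hz hα, map_prod, Units.coe_prod]

theorem mu_pr_pp {z : kˣ} (hz : z ∈ Mk Φ 1) (o : I Φ) {m : ℕ} (hm : 0 < m) :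
    mu (fun t => (pr Φ 1 z t : ℂ)) (pp o m) = pp (mulI z o) m := by
  have h := rep_mem_Mk_mul o hm
  rw [pp, pp, mu_pr_P hz h, per_mulI hz, mulI,
    P_rep_io (mul_mem_Mk (mem_Mk_of_dvd (pos_of_mem_Mk h) (one_dvd _) hz) h)]

theorem mu_pr_chi {z : kˣ} (hz : z ∈ Mk Φ 1) (μ : MP Φ N) :
    mu (fun t => (pr Φ 1 z t : ℂ)) (chi μ) = chi (act z μ) := by
  rw [chi, chi, Gen.map_schur, Gen.schur_congr fun o m hm => mu_pr_pp hz o hm, schur, schur,
    prod_act hz]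

/-- Fourier inversion -/
theorem X_eq_sum {m : ℕ} {t : kˣ} (ht : t ∈ Mk Φ m) : (X (io Φ t, m / (io Φ t).per) : A Φ) =
    (NN Φ m : ℂ)⁻¹ • ∑ ξ ∈ Mk Φ m, conj (pr Φ m t ξ : ℂ) • P Φ m ξ := by
  have hm := pos_of_mem_Mk ht
  simp only [P, smul_sum, smul_smul]
  rw [sum_comm, sum_eq_single_of_mem t ht fun s hs e => ?_]
  all_goals
    rw [← sum_smul, ← mul_sum, sum_congr rfl fun ξ hξ => by rw [mul_comm, pr_comm hξ ‹_›],
      sum_pr_conj ‹_› ht]
  · rw [if_pos rfl, inv_mul_cancel₀ (Nat.cast_ne_zero.2 (NN_pos hm).ne'), one_smul]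
  · rw [if_neg e, mul_zero, zero_smul]

theorem P_mem_spM {m : ℕ} {ξ : kˣ} (hξ : ξ ∈ Mk Φ m) :
    P Φ m ξ ∈ Gen.spM (pp (Φ := Φ)) (fun _ => True) m := by
  refine Submodule.subset_span ⟨{(io Φ ξ, m / (io Φ ξ).per)}, ⟨?_, by simp [per_mul_div hξ]⟩, ?_⟩
  · simpa using ⟨per_pos _, Nat.le_of_dvd (pos_of_mem_Mk hξ)
      ((mem_Mk_per (pos_of_mem_Mk hξ)).1 hξ)⟩
  · simp [pmon, pp, per_mul_div hξ, P_rep_io hξ]

theorem xo_mem_spM (o : I Φ) {r : ℕ} (hr : 0 < r) :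
    xo o r ∈ Gen.spM (pp (Φ := Φ)) (fun _ => True) (o.per * r) := by
  have := X_eq_sum (rep_mem_Mk_mul o hr)
  rw [io_rep, Nat.mul_div_cancel_left _ (per_pos o)] at this
  rw [xo, this]
  exact Submodule.smul_mem _ _ (Submodule.sum_mem _ fun ξ hξ =>
    Submodule.smul_mem _ _ (P_mem_spM hξ))

theorem pm_xo_mem_spM (o : I Φ) {ρ : Multiset ℕ} (h : ∀ r ∈ ρ, 0 < r) :
    pm (xo o) ρ ∈ Gen.spM (pp (Φ := Φ)) (fun _ => True) (o.per * ρ.sum) := by
  induction ρ using Multiset.induction_on with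
  | empty => exact Submodule.subset_span ⟨0, ⟨by simp, by simp⟩, rfl⟩
  | cons r ρ ih =>
    rw [pm, Multiset.map_cons, Multiset.prod_cons, Multiset.sum_cons, mul_add]
    exact Gen.mul_mem_spM (xo_mem_spM o (h r (Multiset.mem_cons_self _ _)))
      (ih fun r hr => h r (Multiset.mem_cons_of_mem hr))

variable (Φ) in
/-- a multiple of the regular character -/
noncomputable def regE (n : ℕ) : A Φ := ∑ ρ ∈ ptn n,
  (((ρ.map fun r => (-1 : ℚ) ^ (r + 1)).prod / zz ρ : ℚ) : ℂ) • pm (xo (io Φ 1)) ρ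

theorem regE_mem (n : ℕ) : regE Φ n ∈ Gen.spM (pp (Φ := Φ)) (fun _ => True) n :=
  Submodule.sum_mem _ fun ρ hρ => Submodule.smul_mem _ _ (by
    simpa [io_one_per, (mem_ptn.1 hρ).1] using pm_xo_mem_spM (io Φ 1) (mem_ptn.1 hρ).2)

open Classical in
theorem ch_regE (h : StHL) (g : Φ.G ι) : ch ι (regE Φ (Fintype.card ι)) g =
    if g = 1 then (Φ.Q : ℂ) ^ (Fintype.card ι).choose 2 else 0 := by
  have h1 : typ Φ g.1 (io Φ 1) = Multiset.replicate (Fintype.card ι) 1 ↔ g = 1 := by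
    rw [typ_one_apply, jt_eq_replicate_iff, sub_eq_zero, Subtype.ext_iff, Units.ext_iff]; rfl
  rw [ch_apply, regE, ev_sum_single h (typ_eq_zero_of_notMem subset_rfl)]
  by_cases e : (typ Φ g.1 (io Φ 1)).sum = Fintype.card ι
  · have := congrArg (Rat.cast : ℚ → ℂ) ((hl h (io Φ 1)).eps _ _ (mem_ptn.2 ⟨e, fun r hr =>
      Nat.pos_of_ne_zero fun h0 => zero_notMem_typ _ _ (h0 ▸ hr)⟩))
    rw [prod_eq_one fun o ho => by
      rw [typ_eq_zero_of_sum (S := {io Φ 1}) g.2 (by simp [e, io_one_per])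
        (by simpa using ne_of_mem_erase ho), go_zero h], mul_one]
    rw [Rat.cast_sum] at this
    refine (sum_congr rfl fun ρ _ => ?_).trans (this.trans ?_)
    · rw [go, ← Rat.cast_mul, div_mul_eq_mul_div]
    · simp only [h1, io_one_per]; split_ifs <;> simp
  · rw [if_neg fun e' => e (by simp [h1.2 e']), sum_eq_zero fun ρ hρ => mul_eq_zero_of_right _
      (by_contra fun e' => e ((go_size h e').symm.trans (mem_ptn.1 hρ).1)), zero_mul]

/-- piece `Irr` -/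
theorem stIrr (h : StHL) (hO : StIso k) (hI : StInt k) : StIrr k := by
  have orth : ∀ (Φ : Frob k) (ι : Type) [Fintype ι] [DecidableEq ι] (N : ℕ) (μ ν : MP Φ N),
      deg μ = Fintype.card ι → classInner (Ch ι μ) (Ch ι ν) = if μ = ν then 1 else 0 :=
    fun Φ ι _ _ N μ ν e => (hO Φ ι _ _ (e ▸ hom_chi μ)).trans (ip_chi_chi μ ν)
  have irr : ∀ (Φ : Frob k) (ι : Type) [Fintype ι] [DecidableEq ι] (N : ℕ) (μ : MP Φ N),
      deg μ = Fintype.card ι → ∃ χ : IrrCharacter (Φ.G ι), Ch ι μ = χ.1 ∨ Ch ι μ = -χ.1 :=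
    fun Φ ι _ _ N μ e => (hI Φ ι _ (chi_mem_ZZ μ)).exists_irr_of_classInner_self_eq_one
      ((orth Φ ι N μ μ e).trans (if_pos rfl))
  have all : ∀ (Φ : Frob k) (ι : Type) [Fintype ι] [DecidableEq ι] (N : ℕ), Fintype.card ι ≤ N →
      ∀ χ : IrrCharacter (Φ.G ι), ∃ μ : MP Φ N, deg μ = Fintype.card ι ∧
        (Ch ι μ = χ.1 ∨ Ch ι μ = -χ.1) := fun Φ ι _ _ N hN χ => by
    by_contra h0
    have h1 : ∀ a ∈ Submodule.span ℂ (schur pp '' {ν : MP Φ N | (∀ o ∈ ν.support, True) ∧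
        deg ν = Fintype.card ι}), classInner (ch ι a) χ.1 = 0 := fun a ha => by
      induction ha using Submodule.span_induction with
      | mem a ha =>
        obtain ⟨ν, ⟨-, hν⟩, rfl⟩ := ha
        obtain ⟨ψ, hψ⟩ := irr Φ ι N ν hν
        have := IrrCharacter.classInner_of_ne fun e : ψ = χ => h0 ⟨ν, hν, e ▸ hψ⟩
        change classInner (Ch ι ν) _ = 0
        rcases hψ with e | e
        · rw [e, this]
        · rw [e, classInner_neg_left, this, neg_zero]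
      | zero => simp
      | add a b _ _ ha hb => rw [map_add, classInner_add_left, ha, hb, add_zero]
      | smul c a _ ha => rw [map_smul, classInner_smul_left, ha, mul_zero]
    have h2 := h1 _ (Gen.spM_le_span _ _ hN (regE_mem _))
    simp only [classInner_def, ch_regE h, ite_mul, zero_mul, sum_ite_eq', mem_univ, if_true,
      mul_eq_zero, inv_eq_zero, Nat.cast_eq_zero, Nat.card_pos.ne', false_or, map_eq_zero,
      pow_eq_zero_iff', Int.cast_eq_zero, Q_ne_zero, false_and] at h2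
    exact χ.one_ne_zero h2
  refine ⟨irr, all, orth, fun Φ ι _ _ g g' e => isConj_iff_forall_irr.2 fun χ => ?_,
    fun Φ ι _ _ N μ z hz => funext fun g => ?_⟩
  · obtain ⟨μ, -, hμ⟩ := all Φ ι _ le_rfl χ
    have : Ch ι μ g = Ch ι μ g' := congrArg (ev · (chi μ)) e
    rcases hμ with e | e <;> simpa [e] using this
  · rw [Ch, ← mu_pr_chi hz, ch_mu h, lin, MonoidHom.comp_apply, MonoidHom.comp_apply,
      Subgroup.coe_subtype, ← prod_eig, map_multiset_prod, ← Units.coeHom_apply, map_multiset_prod,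
      Multiset.map_map]
    rfl

end Cfsg.GUn
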