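import Cfsg.Agent.GUn.HL
import Cfsg.Agent.GUn.JtB
import Cfsg.Agent.GUn.Ev

/-!
# S4537, piece C3: the isometry and the theta correspondence
-/

set_option autoImplicit false

namespace Cfsg.GUn

open Finset SymCh MvPolynomial
open GLn (pm ex)
open scoped ComplexConjugate

universe u

namespace Iso

theorem prod_sum_fs {ι α R : Type*} [DecidableEq ι] [Zero α] [CommSemiring R] (T : Finset ι)
    (t : ι → Finset α) (f : ι → α → R) :
    ∏ o ∈ T, ∑ a ∈ t o, f o a = ∑ p ∈ T.finsupp t, ∏ o ∈ T, f o (p o) := by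
  rw [prod_sum, Finset.finsupp, sum_map]
  refine sum_congr (by convert rfl) fun p _ => ?_
  rw [← prod_attach T]
  exact prod_congr rfl fun o _ => congrArg _ (Finsupp.indicator_of_mem o.2 p).symm

theorem sum_antidiag {ι R : Type*} [DecidableEq ι] [AddCommMonoid R] (T : Finset ι) (b : ι → ℕ)
    {n : ℕ} (hb : ∑ o ∈ T, b o ≤ n) (F : (ι →₀ ℕ) → R) (hF : ∀ d, F d ≠ 0 → ∀ o ∈ T, d o ≤ b o) :
    ∑ j ∈ range (n + 1), ∑ d ∈ finsuppAntidiag T j, F d =
      ∑ d ∈ T.finsupp fun o => range (b o + 1), F d := by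
  rw [← sum_fiberwise_of_maps_to (s := T.finsupp _) (t := range (n + 1)) (g := fun d => T.sum d)
    fun d hd => mem_range.2 (Nat.lt_succ_of_le ((sum_le_sum fun o ho => Nat.le_of_lt_succ
      (mem_range.1 ((mem_finsupp_iff.1 hd).2 o ho))).trans hb))]
  refine sum_congr rfl fun j _ => (sum_subset (fun d hd => ?_) fun d hd h => ?_).symm
  · rw [mem_filter, mem_finsupp_iff] at hd
    exact mem_finsuppAntidiag.2 ⟨hd.2, hd.1.1⟩
  · by_contra e
    rw [mem_finsuppAntidiag] at hd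
    exact h (mem_filter.2 ⟨mem_finsupp_iff.2 ⟨hd.2, fun o ho =>
      mem_range.2 (Nat.lt_succ_of_le (hF d e o ho))⟩, hd.1⟩)

theorem prod_X {σ : Type*} [DecidableEq σ] (τ : Multiset σ) :
    (τ.map X).prod = (monomial τ.toFinsupp 1 : MvPolynomial σ ℂ) := by
  induction τ using Multiset.induction_on with
  | empty => simp
  | cons a τ ih =>
    rw [Multiset.map_cons, Multiset.prod_cons, ih, ← Multiset.singleton_add, Multiset.toFinsupp_add,
      Multiset.toFinsupp_singleton, X, monomial_mul, one_mul]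

theorem ipc_self (l : Multiset ℕ) : ∃ c, ipc l l = l.sum + 2 * c := by
  induction l using Multiset.induction_on with
  | empty => exact ⟨0, rfl⟩
  | cons a l ih =>
    obtain ⟨c, hc⟩ := ih
    refine ⟨c + (l.map (min a)).sum, ?_⟩
    simp only [ipc, Multiset.map_cons, Multiset.sum_cons, Multiset.sum_map_add, min_self,
      min_comm _ a] at hc ⊢
    rw [hc]; ring

theorem abs_aa {Q : ℤ} (h : 1 < Q.natAbs) (d : ℕ) (l : Multiset ℕ) :
    |aa (Q ^ d) l| = (Q.sign : ℚ) ^ (d * l.sum) * aa (Q ^ d) l := by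
  have h1 : (1 : ℚ) < |(Q : ℚ)| := by rw [← Int.cast_abs, Int.abs_eq_natAbs]; exact_mod_cast h
  have h2 : (0 : ℚ) ≤ ∏ i ∈ l.toFinset, ∏ j ∈ Icc 1 (l.count i), (1 - ((Q : ℚ) ^ d)⁻¹ ^ j) :=
    prod_nonneg fun i _ => prod_nonneg fun j _ => sub_nonneg.2 ((le_abs_self _).trans (by
      rw [abs_pow, abs_inv, abs_pow]
      exact pow_le_one₀ (by positivity) (inv_le_one_of_one_le₀ (one_le_pow₀ h1.le))))
  have h3 : |(Q : ℚ)| = Q.sign * Q := by exact_mod_cast (Int.sign_mul_self_eq_abs Q).symm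
  have h4 : (Q.sign : ℚ) ^ 2 = 1 := by
    rcases lt_trichotomy Q 0 with e | rfl | e
    · simp [Int.sign_eq_neg_one_of_neg e]
    · simp at h
    · simp [Int.sign_eq_one_of_pos e]
  obtain ⟨c, hc⟩ := ipc_self l
  rw [aa, abs_mul, abs_of_nonneg h2, abs_pow, abs_pow, h3, mul_pow, mul_pow, ← mul_assoc, ← pow_mul,
    show d * ipc l l = d * l.sum + 2 * (d * c) by rw [hc]; ring, pow_add, pow_mul _ 2, h4, one_pow,
    mul_one]

/-- local evaluation -/
noncomputable def L (Q : ℚ) (l : Multiset ℕ) : MvPolynomial ℕ ℂ →ₗ[ℂ] ℂ :=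
  (basisMonomials ℕ ℂ).constr ℂ fun s => (gr Q (Finsupp.toMultiset s) l : ℂ)

theorem L_pm (Q : ℚ) (l ρ : Multiset ℕ) : L Q l (pm X ρ) = gr Q ρ l := by
  rw [pm, prod_X, L]
  refine ((basisMonomials ℕ ℂ).constr_basis ℂ _ ρ.toFinsupp).trans ?_
  rw [Multiset.toFinsupp_toMultiset]

variable {k : Type u} [Field k] {Φ : Frob k}

/-- the variables of an orbit -/
noncomputable abbrev lc (o : I Φ) : MvPolynomial ℕ ℂ →ₐ[ℂ] A Φ := rename fun r => (o, r)

theorem lc_pm (o : I Φ) (ρ : Multiset ℕ) : lc o (pm X ρ) = pm (fun r => X (o, r)) ρ := by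
  simp [pm, map_multiset_prod, Multiset.map_map]

theorem monomial_eq (s : I Φ × ℕ →₀ ℕ) {T : Finset (I Φ)} (h : ∀ x ∈ s.support, x.1 ∈ T) :
    (monomial s 1 : A Φ) = ∏ o ∈ T, pm (fun r => X (o, r)) (rho s o) := by
  classical
  conv_lhs => rw [← Finsupp.toMultiset_toFinsupp s, ← prod_X, prod_multiset_map_count]
  rw [← prod_fiberwise_of_maps_to (g := Prod.fst) (t := T) fun x hx => h x (by simpa using hx)]
  refine prod_congr rfl fun o _ => ?_
  rw [pm, rho, Multiset.map_map, Multiset.map_congr rfl (g := X) fun x hx => by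
    rw [← (Multiset.mem_filter.1 hx).2]; rfl, prod_multiset_map_count, Multiset.toFinset_filter]
  exact prod_congr rfl fun x hx => by
    rw [Multiset.count_filter_of_pos (p := fun x : I Φ × ℕ => x.1 = o) (mem_filter.1 hx).2]

theorem weight_eq (s : I Φ × ℕ →₀ ℕ) {T : Finset (I Φ)} (h : ∀ x ∈ s.support, x.1 ∈ T) :
    ∑ o ∈ T, o.per * (rho s o).sum = Finsupp.weight (wt Φ) s := by
  have : Hom (∑ o ∈ T, o.per * (rho s o).sum) (monomial s 1 : A Φ) := by
    rw [monomial_eq s h]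
    refine IsWeightedHomogeneous.prod _ _ _ fun o _ => ?_
    induction rho s o using Multiset.induction_on with
    | empty => exact isWeightedHomogeneous_one _ _
    | cons a ρ ih => rw [GLn.pm_cons, Multiset.sum_cons, mul_add]; exact (hom_X o a).mul ih
  exact (this (d := s) (by simp)).symm

variable [Big k]

theorem hl (o : I Φ) : HL ((Φ.Q : ℚ) ^ o.per) (gr ((Φ.Q : ℚ) ^ o.per)) :=
  stHL _ (pow_ne_zero _ (by exact_mod_cast Q_ne_zero Φ)) fun j hj => by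
    rw [← pow_mul]; exact_mod_cast Q_pow_ne_one (mul_pos (per_pos o) hj)

omit [Big k] in
theorem ev_mon (Λ : I Φ → Multiset ℕ) (T : Finset (I Φ)) (ρ : I Φ → Multiset ℕ) :
    ev Λ (∏ o ∈ T, pm (fun r => X (o, r)) (ρ o)) =
      ∏ᶠ o, (gr ((Φ.Q : ℚ) ^ o.per) (if o ∈ T then ρ o else 0) (Λ o) : ℂ) := by
  classical
  have : ∏ o ∈ T, pm (fun r => X (o, r)) (ρ o) =
      (monomial (∑ o ∈ T, (ρ o).map fun r => (o, r)).toFinsupp 1 : A Φ) := by
    rw [← prod_X, ← Multiset.coe_mapAddMonoidHom, map_sum, Multiset.prod_sum]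
    simp only [pm, Multiset.coe_mapAddMonoidHom, Multiset.map_map]; rfl
  rw [this]
  refine ((basisMonomials _ ℂ).constr_basis ℂ _ _).trans (finprod_congr fun o => ?_)
  let F : Multiset (I Φ × ℕ) →+ Multiset ℕ := ⟨⟨fun τ => (τ.filter (·.1 = o)).map Prod.snd, rfl⟩,
    fun _ _ => by simp⟩
  rw [rho, Multiset.toFinsupp_toMultiset, ← sum_ite_eq]
  congr 2
  refine (map_sum F _ _).trans (sum_congr rfl fun o' _ => ?_)
  change Multiset.map _ _ = _
  split_ifs with e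
  · subst e; rw [Multiset.filter_eq_self.2 (by simp)]; simp
  · rw [Multiset.filter_eq_nil.2 (by simp [Ne.symm e]), Multiset.map_zero]

theorem ev_mon' {Λ : I Φ → Multiset ℕ} {T : Finset (I Φ)} (h : ∀ o ∉ T, Λ o = 0)
    (ρ : I Φ → Multiset ℕ) : ev Λ (∏ o ∈ T, pm (fun r => X (o, r)) (ρ o)) =
      ∏ o ∈ T, (gr ((Φ.Q : ℚ) ^ o.per) (ρ o) (Λ o) : ℂ) := by
  rw [ev_mon, finprod_eq_prod_of_mulSupport_subset (s := T) _ fun o ho => by
    by_contra e
    exact ho (by simp only [if_neg (mt mem_coe.2 e), h o e, (hl o).zero, Rat.cast_one])]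
  exact prod_congr rfl fun o ho => by rw [if_pos ho]

theorem ev_prod {Λ : I Φ → Multiset ℕ} {T : Finset (I Φ)} (h : ∀ o ∉ T, Λ o = 0)
    (f : I Φ → MvPolynomial ℕ ℂ) : ev Λ (∏ o ∈ T, lc o (f o)) =
      ∏ o ∈ T, L ((Φ.Q : ℚ) ^ o.per) (Λ o) (f o) := by
  have e : ∀ o, f o = ∑ s ∈ (f o).support, (f o).coeff s • pm X (Finsupp.toMultiset s) := fun o => by
    simp only [pm, prod_X, Finsupp.toMultiset_toFinsupp, smul_monomial, smul_eq_mul, mul_one]
    exact (f o).as_sum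
  rw [prod_congr rfl fun o _ => congrArg _ (e o), prod_congr rfl fun o _ => congrArg _ (e o)]
  simp only [map_sum, map_smul, prod_sum_fs, lc_pm, L_pm, prod_smul, ev_mon' h, smul_eq_mul,
    prod_mul_distrib]

variable {ι : Type} [Fintype ι] [DecidableEq ι]

theorem ch_mon {T : Finset (I Φ)} {ρ : I Φ → Multiset ℕ}
    (h : ∑ o ∈ T, o.per * (ρ o).sum = Fintype.card ι) (g : Φ.G ι) :
    ch ι (∏ o ∈ T, pm (fun r => X (o, r)) (ρ o)) g =
      ∏ o ∈ T, (gr ((Φ.Q : ℚ) ^ o.per) (ρ o) (typ Φ g.1 o) : ℂ) := by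
  by_cases e : ∀ o ∉ T, typ Φ g.1 o = 0
  · exact ev_mon' e ρ
  have e1 : ∏ o ∈ T, (gr ((Φ.Q : ℚ) ^ o.per) (ρ o) (typ Φ g.1 o) : ℂ) = 0 := by
    by_contra e1
    refine e fun o => typ_eq_zero_of_sum g.2 (h ▸ sum_congr rfl fun o ho => ?_)
    rw [(hl o).size (ρ o) _ fun e2 => e1 (prod_eq_zero ho (by rw [e2, Rat.cast_zero]))]
  push Not at e
  obtain ⟨o, h1, h2⟩ := e
  refine (ev_mon _ _ _).trans (e1 ▸ finprod_eq_zero _ o ?_ ?_)
  · rw [if_neg h1, Rat.cast_eq_zero]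
    by_contra e2
    have := HLp.card_le_sum (zero_notMem_typ (Φ := Φ) g.1 o)
    rw [← (hl o).size _ _ e2] at this
    exact h2 (Multiset.card_eq_zero.1 (Nat.le_zero.1 this))
  · refine ((typ_finite (Φ := Φ) g.1).union T.finite_toSet).subset fun o ho => ?_
    by_contra e
    simp only [Set.mem_union, Function.mem_support, mem_coe, not_or, not_not] at e
    exact ho (by simp only [if_neg e.2, e.1, (hl o).zero, Rat.cast_one])

theorem fac (hM : StMeas k) {T : Finset (I Φ)} {n : I Φ → ℕ}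
    (h : ∑ o ∈ T, o.per * n o = Fintype.card ι) (ψ : I Φ → Multiset ℕ → ℂ)
    (hψ : ∀ o ∈ T, ∀ l, ψ o l ≠ 0 → l.sum = n o) :
    (Nat.card (Φ.G ι) : ℂ)⁻¹ * ∑ g : Φ.G ι, ∏ o ∈ T, ψ o (typ Φ g.1 o) =
      (Φ.Q.sign : ℂ) ^ Fintype.card ι *
        ∏ o ∈ T, ∑ l ∈ ptn (n o), ψ o l / aa ((Φ.Q : ℚ) ^ o.per) l := by
  classical
  have h0 : (Nat.card (Φ.G ι) : ℂ) ≠ 0 := Nat.cast_ne_zero.2 Nat.card_pos.ne'
  rw [← sum_filter_ne_zero, ← sum_fiberwise_of_maps_to (g := fun g => typF Φ g.1)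
    (t := T.finsupp fun o => ptn (n o)) fun g hg => ?_, prod_sum_fs, mul_sum, mul_sum]
  · refine sum_congr rfl fun Λ hΛ => ?_
    obtain ⟨h1, h2⟩ := mem_finsupp_iff.1 hΛ
    have h3 := hM Φ ι Λ (fun o e => by
      by_cases ho : o ∈ T
      · exact ((mem_ptn.1 (h2 o ho)).2 0 e).false
      · rw [Finsupp.notMem_support_iff.1 fun e => ho (h1 e)] at e; simp at e) (by
      rw [Finsupp.sum_of_support_subset _ h1 _ (by simp), ← h]
      exact sum_congr rfl fun o ho => by rw [(mem_ptn.1 (h2 o ho)).1])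
    rw [Finsupp.prod_of_support_subset _ h1 _ (by simp [aa, ipc]), prod_congr rfl fun o ho => by
      rw [abs_aa (natAbs_Q Φ ▸ Φ.one_lt_q), (mem_ptn.1 (h2 o ho)).1],
      prod_mul_distrib, prod_pow_eq_pow_sum, h] at h3
    have h4 : ((Φ.Q.sign : ℂ) ^ Fintype.card ι) * (Φ.Q.sign : ℂ) ^ Fintype.card ι = 1 := by
      rw [← mul_pow, ← Int.cast_mul, sign_sq, Int.cast_one, one_pow]
    have h5 := congrArg (Rat.cast : ℚ → ℂ) h3
    push_cast at h5
    have h6 : ∏ o ∈ T, (aa ((Φ.Q : ℚ) ^ o.per) (Λ o) : ℂ) ≠ 0 := fun e => h0 (by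
      rw [← h5, e, mul_zero, mul_zero])
    rw [filter_comm, sum_filter_ne_zero, sum_congr rfl (g := fun _ => ∏ o ∈ T, ψ o (Λ o))
      fun g hg => by rw [← (mem_filter.1 hg).2, typF_coe], sum_const, nsmul_eq_mul,
      prod_div_distrib, show #{g : Φ.G ι | typF Φ g.1 = Λ} = Nat.card {g : Φ.G ι // typ Φ g.1 = Λ} by
        rw [Nat.card_eq_fintype_card, Fintype.card_subtype]
        simp only [← typF_coe, DFunLike.coe_fn_eq]]
    field_simp
    linear_combination (Φ.Q.sign : ℂ) ^ Fintype.card ι * (∏ o ∈ T, ψ o (Λ o)) * h5 -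
      (Nat.card {g : Φ.G ι // typ Φ g.1 = Λ} : ℂ) * (∏ o ∈ T, ψ o (Λ o)) *
      (∏ o ∈ T, (aa ((Φ.Q : ℚ) ^ o.per) (Λ o) : ℂ)) * h4
  · have e : ∀ o ∈ T, (typ Φ g.1 o).sum = n o := fun o ho =>
      hψ o ho _ (prod_ne_zero_iff.1 (mem_filter.1 hg).2 o ho)
    refine mem_finsupp_iff.2 ⟨fun o ho => ?_, fun o ho => mem_ptn.2 ⟨e o ho, fun r hr =>
      Nat.pos_of_ne_zero fun e => zero_notMem_typ (Φ := Φ) g.1 o (e ▸ hr)⟩⟩
    by_contra e1
    exact Finsupp.mem_support_iff.1 ho (typ_eq_zero_of_sum g.2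
      (h ▸ sum_congr rfl fun o ho => by rw [e o ho]) e1)

theorem ip_loc (o : I Φ) (ρ σ : Multiset ℕ) :
    ipA (pm (fun r => (X (o, r) : A Φ)) ρ) (pm (fun r => X (o, r)) σ) =
      (Φ.Q.sign : ℂ) ^ (o.per * ρ.sum) * ∑ l ∈ ptn ρ.sum, (gr ((Φ.Q : ℚ) ^ o.per) ρ l : ℂ) *
        gr ((Φ.Q : ℚ) ^ o.per) σ l / aa ((Φ.Q : ℚ) ^ o.per) l := by
  have h0 : ∀ (ρ : Multiset ℕ) (b : A Φ), 0 ∈ ρ → ipA (pm (fun r => X (o, r)) ρ) b = 0 :=
    fun ρ b h => by rw [← Multiset.cons_erase h, GLn.pm_cons, ip_X_mul]; simp [nu]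
  by_cases hρ : 0 ∈ ρ
  · simp [h0 ρ _ hρ, (hl o).zpart _ _ hρ]
  by_cases hσ : 0 ∈ σ
  · rw [ip_cj]; simp [h0 σ _ hσ, (hl o).zpart _ _ hσ]
  have p : ∀ {ρ : Multiset ℕ}, 0 ∉ ρ → ∀ r ∈ ρ, 0 < r := fun h r hr =>
    Nat.pos_of_ne_zero fun e => h (e ▸ hr)
  rw [ip_pm (fun r _ => lin_X _) (w := fun r => (NN Φ (o.per * r) : ℂ)⁻¹) (fun r l _ _ => by
    simp [ip_X_X, nu, NN, wt, div_eq_mul_inv]) (p hρ) (p hσ)]
  by_cases e : σ.sum = ρ.sum
  · have := congrArg (Rat.cast : ℚ → ℂ)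
      ((hl o).beta _ ρ (mem_ptn.2 ⟨rfl, p hρ⟩) σ (mem_ptn.2 ⟨e, p hσ⟩))
    push_cast at this
    rw [this]
    split_ifs
    · rw [Multiset.map_congr rfl (g := fun r => (Φ.Q.sign : ℂ) ^ (o.per * r) *
        (((Φ.Q : ℂ) ^ o.per) ^ r - 1)⁻¹) fun r hr => by
        have h1 := congrArg (Int.cast : ℤ → ℂ) (NN_eq (Φ := Φ) (mul_pos (per_pos o) (p hρ r hr)))
        push_cast at h1
        rw [h1, mul_inv, pow_mul (Φ.Q : ℂ), ← inv_pow, inv_eq_of_mul_eq_one_right (by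
          rw [← Int.cast_mul, sign_sq, Int.cast_one])], Multiset.prod_map_mul, Multiset.prod_map_inv]
      have : ∀ ρ : Multiset ℕ, (ρ.map fun r => (Φ.Q.sign : ℂ) ^ (o.per * r)).prod =
          (Φ.Q.sign : ℂ) ^ (o.per * ρ.sum) := fun ρ => by
        induction ρ using Multiset.induction_on <;> simp [mul_add, pow_add, *]
      rw [this]
      simp [div_eq_mul_inv, Multiset.map_map, mul_left_comm]
    · simp
  · rw [if_neg fun e1 : ρ = σ => e (e1 ▸ rfl), sum_eq_zero fun l hl' => ?_, mul_zero]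
    rw [of_not_not fun e1 => e (((hl o).size σ l e1).trans (mem_ptn.1 hl').1)]
    simp

theorem L_loc {Q : ℚ} (h : HL Q (gr Q)) {l : Multiset ℕ} (ρ : Multiset ℕ) (j : ℕ) :
    L Q l (ex X j * (ρ.map fun r => X r + C (((Q : ℂ) ^ r - 1)⁻¹)).prod) =
      (ρ.antidiagonal.map fun x => (x.2.map fun r => ((Q : ℂ) ^ r - 1)⁻¹).prod *
        if x.1.sum + j = l.sum then ∑ σ ∈ ptn j, (gr Q (x.1 + σ) l : ℂ) / zz σ else 0).sum := by
  rw [Multiset.prod_map_add, ← Multiset.sum_map_mul_left, map_multiset_sum, Multiset.map_map]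
  refine congrArg _ (Multiset.map_congr rfl fun x _ => ?_)
  have : (x.2.map fun r => (C (((Q : ℂ) ^ r - 1)⁻¹) : MvPolynomial ℕ ℂ)).prod =
      C (x.2.map fun r => ((Q : ℂ) ^ r - 1)⁻¹).prod := by
    rw [map_multiset_prod, Multiset.map_map]; rfl
  rw [Function.comp_apply, this, ← mul_assoc, mul_comm _ (C _), C_mul', map_smul, smul_eq_mul,
    GLn.ex_eq_sum, sum_mul, map_sum]
  refine congrArg _ ?_
  have e : ∀ σ, L Q l ((zz σ : ℂ)⁻¹ • pm X σ * (x.1.map X).prod) = gr Q (x.1 + σ) l / zz σ :=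
    fun σ => by rw [smul_mul_assoc, map_smul, add_comm, ← L_pm, GLn.pm_add, div_eq_inv_mul]; rfl
  simp only [e]
  split_ifs with e1
  · rfl
  · refine sum_eq_zero fun σ hσ => ?_
    rw [of_not_not fun e2 : gr Q (x.1 + σ) l ≠ 0 => e1 (by
      rw [← h.size (x.1 + σ) l e2, Multiset.sum_add, (mem_ptn.1 hσ).1])]
    simp

theorem gam {Q : ℚ} (h : HL Q (gr Q)) {l : Multiset ℕ} (h0 : 0 ∉ l) (ρ : Multiset ℕ) :
    ∑ μ ∈ ptn ρ.sum, (Q : ℂ) ^ ipc l μ * gr Q ρ μ / aa Q μ = ∑ j ∈ range (l.sum + 1),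
      L Q l (ex X j * (ρ.map fun r => X r + C (((Q : ℂ) ^ r - 1)⁻¹)).prod) := by
  have p : ∀ {ρ : Multiset ℕ}, 0 ∉ ρ → ρ ∈ ptn ρ.sum := fun h => mem_ptn.2 ⟨rfl, fun r hr =>
    Nat.pos_of_ne_zero fun e => h (e ▸ hr)⟩
  simp only [L_loc h, ← Multiset.sum_map_sum, ← mul_sum]
  by_cases hρ : 0 ∈ ρ
  · simp only [h.zpart _ _ hρ, Rat.cast_zero, mul_zero, zero_div, sum_const_zero]
    refine (Multiset.sum_eq_zero fun a ha => ?_).symm
    obtain ⟨x, hx, rfl⟩ := Multiset.mem_map.1 ha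
    rcases Multiset.mem_add.1 ((Multiset.mem_antidiagonal.1 hx).symm ▸ hρ) with e | e
    · simp [h.zpart _ _ (Multiset.mem_add.2 (.inl e))]
    · rw [Multiset.prod_eq_zero (Multiset.mem_map.2 ⟨0, e, by simp⟩), zero_mul]
  have := congrArg (Rat.cast : ℚ → ℂ) (h.gamma _ _ l (p h0) ρ (p hρ))
  push_cast at this
  rw [this, Multiset.map_map]
  refine congrArg _ (Multiset.map_congr rfl fun x _ => ?_)
  simp only [Function.comp_apply, Rat.cast_mul, Rat.cast_multiset_prod, Multiset.map_map]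
  congr 1
  · exact congrArg _ (Multiset.map_congr rfl fun r _ => by simp)
  split_ifs with e
  · rw [sum_eq_single (l.sum - x.1.sum) (fun j _ e1 => if_neg (by omega))
      fun e1 => absurd (mem_range.2 (by omega)) e1, if_pos (by omega)]
    simp
  · rw [sum_eq_zero fun j _ => if_neg (by omega), Rat.cast_zero]

theorem sum_dvd {d : ℕ} (hd : 0 < d) (n : ℕ) (F : ℕ → ℂ) :
    ∑ i ∈ range (d * n + 1), (if d ∣ i then F (i / d) else 0) = ∑ j ∈ range (n + 1), F j := by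
  rw [← sum_filter]
  refine (sum_bij (fun j _ => d * j) (fun j hj => mem_filter.2 ⟨mem_range.2 (Nat.lt_succ_of_le
    (Nat.mul_le_mul_left _ (Nat.le_of_lt_succ (mem_range.1 hj)))), dvd_mul_right _ _⟩)
    (fun _ _ _ _ e => Nat.eq_of_mul_eq_mul_left hd e) (fun i hi => ?_)
    fun j _ => by rw [Nat.mul_div_cancel_left _ hd]).symm
  obtain ⟨h1, j, rfl⟩ := mem_filter.1 hi
  exact ⟨j, mem_range.2 (Nat.lt_succ_of_le (Nat.le_of_mul_le_mul_left
    (Nat.le_of_lt_succ (mem_range.1 h1)) hd)), rfl⟩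

end Iso

open Iso

variable {k : Type u} [Field k] [Big k]

theorem stIso (hM : StMeas k) : StIso k := fun Φ ι _ _ a b ha => by
  classical
  suffices h : ∀ s s', Finsupp.weight (wt Φ) s = Fintype.card ι →
      classInner (ch ι (monomial s 1)) (ch ι (monomial s' 1)) = ipA (monomial s 1) (monomial s' 1) by
    have e : ∀ a : A Φ, a = ∑ s ∈ a.support, a.coeff s • monomial s 1 := fun a => by
      simp only [smul_monomial, smul_eq_mul, mul_one]; exact a.as_sum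
    rw [e a, e b]
    simp only [ip_sum_left, ip_sum_right, ip_smul_left, ip_smul_right]
    rw [sum_congr rfl fun s' _ => congrArg _ (sum_congr rfl fun s hs => by
      rw [← h s s' (ha (mem_support_iff.1 hs))])]
    simp only [classInner, map_sum, map_smul, Finset.sum_apply, Pi.smul_apply, smul_eq_mul, map_mul,
      mul_sum, sum_mul]
    rw [sum_comm]
    refine sum_congr rfl fun s' _ => sum_comm.trans (sum_congr rfl fun s _ =>
      sum_congr rfl fun g _ => by ring)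
  intro s s' hs
  set T := (s.support ∪ s'.support).image Prod.fst
  have h1 : ∀ x ∈ s.support, x.1 ∈ T := fun x hx => mem_image_of_mem _ (mem_union_left _ hx)
  have h2 : ∀ x ∈ s'.support, x.1 ∈ T := fun x hx => mem_image_of_mem _ (mem_union_right _ hx)
  have h3 := (Iso.weight_eq s h1).trans hs
  have h4 : ∀ (o : I Φ) (ρ : Multiset ℕ), pm (fun r => (X (o, r) : A Φ)) ρ ∈
      Algebra.adjoin ℂ (Set.range fun r => (X (o, r) : A Φ)) := fun o ρ =>
    multiset_prod_mem _ fun a ha => by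
      obtain ⟨r, -, rfl⟩ := Multiset.mem_map.1 ha
      exact Algebra.subset_adjoin ⟨r, rfl⟩
  rw [monomial_eq s h1, monomial_eq s' h2, ip_prod_prod_adjoin (fun o => Set.range fun r => X (o, r))
    (by rintro o _ ⟨r, rfl⟩; exact lin_X _) (by
      rintro o o' e _ ⟨r, rfl⟩ _ ⟨r', rfl⟩; simp [ip_X_X, e]) T (fun o _ => h4 _ _) fun o _ => h4 _ _]
  simp only [ip_loc, prod_mul_distrib, prod_pow_eq_pow_sum, h3]
  rw [← fac hM h3 (fun o l => (gr ((Φ.Q : ℚ) ^ o.per) (rho s o) l : ℂ) *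
    gr ((Φ.Q : ℚ) ^ o.per) (rho s' o) l) fun o _ l e =>
      ((Iso.hl o).size _ _ fun e1 => e (by simp [e1])).symm, classInner]
  refine congrArg _ (sum_congr rfl fun g _ => ?_)
  rw [ch_mon h3, prod_mul_distrib]
  by_cases e : ∏ o ∈ T, (gr ((Φ.Q : ℚ) ^ o.per) (rho s o) (typ Φ g.1 o) : ℂ) = 0
  · rw [e, zero_mul, zero_mul]
  · rw [show ch ι _ g = _ from ev_mon' (fun o => typ_eq_zero_of_sum g.2 (h3 ▸ sum_congr rfl fun o ho => by
      rw [(Iso.hl o).size (rho s o) _ fun e2 => e (prod_eq_zero ho (by rw [e2, Rat.cast_zero]))]))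
      (rho s')]
    simp

theorem stTheta (hM : StMeas k) : StTheta k := fun Φ ι κ _ _ _ _ a ha g => by
  classical
  suffices h : ∀ s, Finsupp.weight (wt Φ) s = Fintype.card κ → (Nat.card (Φ.G κ) : ℂ)⁻¹ *
      ∑ h : Φ.G κ, (Φ.Q : ℂ) ^ (∑ᶠ o : I Φ, o.per * ipc (typ Φ g.1 o) (typ Φ h.1 o)) *
        ch κ (monomial s 1) h = (Φ.Q.sign : ℂ) ^ Fintype.card κ *
        ∑ j ∈ range (Fintype.card ι + 1), ch ι (hh Φ j * Hp (monomial s 1)) g by
    have e : a = ∑ s ∈ a.support, a.coeff s • monomial s 1 := by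
      simp only [smul_monomial, smul_eq_mul, mul_one]; exact a.as_sum
    have := sum_congr rfl fun s hs => congrArg (a.coeff s * ·) (h s (ha (mem_support_iff.1 hs)))
    rw [e]
    simp only [map_sum, map_smul, Finset.sum_apply, Pi.smul_apply, smul_eq_mul, mul_sum,
      mul_smul_comm] at this ⊢
    rw [sum_comm, sum_comm (s := range _)]
    simpa only [mul_left_comm] using this
  intro s hs
  set T := s.support.image Prod.fst ∪ (finite_per_le (Φ := Φ) (Fintype.card ι)).toFinset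
  have h1 : ∀ x ∈ s.support, x.1 ∈ T := fun x hx => mem_union_left _ (mem_image_of_mem _ hx)
  have h2 : ∀ o : I Φ, o.per ≤ Fintype.card ι → o ∈ T := fun o ho =>
    mem_union_right _ ((Set.Finite.mem_toFinset _).2 ho)
  have h3 := (Iso.weight_eq s h1).trans hs
  have h4 : ∀ o ∉ T, typ Φ g.1 o = 0 := fun o ho => by
    have e1 := sum_per_typ_le (Φ := Φ) g.2 {o}
    have e2 := HLp.card_le_sum (zero_notMem_typ (Φ := Φ) g.1 o)
    rw [sum_singleton] at e1
    by_contra e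
    exact ho (h2 o ((Nat.le_mul_of_pos_right _ ((Multiset.card_pos.2 e).trans_le e2)).trans e1))
  have h5 : ∀ h : Φ.G κ, (Φ.Q : ℂ) ^ (∑ᶠ o : I Φ, o.per * ipc (typ Φ g.1 o) (typ Φ h.1 o)) =
      ∏ o ∈ T, (((Φ.Q : ℚ) ^ o.per : ℚ) : ℂ) ^ ipc (typ Φ g.1 o) (typ Φ h.1 o) := fun h => by
    rw [finsum_eq_sum_of_support_subset (s := T) _ fun o ho => by
      by_contra e
      exact ho (by simp [h4 o e, ipc]), ← prod_pow_eq_pow_sum]
    simp [pow_mul]
  let F : I Φ → MvPolynomial ℕ ℂ := fun o =>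
    ((rho s o).map fun r => X r + C (((((Φ.Q : ℚ) ^ o.per : ℚ) : ℂ) ^ r - 1)⁻¹)).prod
  have h6 : Hp (monomial s 1 : A Φ) = ∏ o ∈ T, lc o (F o) := by
    rw [monomial_eq s h1, map_prod]
    refine prod_congr rfl fun o _ => ?_
    simp [F, pm, map_multiset_prod, Multiset.map_map, Hp, wt, pow_mul]
  have h7 : ∀ j ∈ range (Fintype.card ι + 1), ch ι (hh Φ j * Hp (monomial s 1)) g =
      ∑ d ∈ finsuppAntidiag T j, ∏ o ∈ T, if o.per ∣ d o then
        L ((Φ.Q : ℚ) ^ o.per) (typ Φ g.1 o) (ex X (d o / o.per) * F o) else 0 := fun j hj => by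
    rw [hh_eq_sum j fun o ho => h2 o (ho.trans (Nat.le_of_lt_succ (mem_range.1 hj))), h6,
      sum_mul, map_sum, Finset.sum_apply]
    refine sum_congr rfl fun d _ => ?_
    have := ev_prod h4 fun o => if o.per ∣ d o then ex X (d o / o.per) * F o else 0
    simp only [apply_ite (L _ _), map_zero] at this
    rw [← this, ← prod_mul_distrib]
    refine congrArg (ev _) (prod_congr rfl fun o _ => ?_)
    split_ifs
    · rw [map_mul]
      exact congrArg (· * _) ((GLn.map_ex (lc o).toRingHom _ _).trans (by simp; rfl)).symm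
    · simp
  rw [sum_congr rfl h7, sum_antidiag T (fun o => o.per * (typ Φ g.1 o).sum) (sum_per_typ_le g.2 T) _
    fun d hd o ho => ?_, ← prod_sum_fs T _ fun o i => if o.per ∣ i then
      L ((Φ.Q : ℚ) ^ o.per) (typ Φ g.1 o) (ex X (i / o.per) * F o) else 0]
  · rw [prod_congr rfl fun o _ => (sum_dvd (per_pos o) _ fun j =>
      L ((Φ.Q : ℚ) ^ o.per) (typ Φ g.1 o) (ex X j * F o)).trans
        (gam (Iso.hl o) (zero_notMem_typ _ _) _).symm,
      ← fac hM h3 (fun o l => (((Φ.Q : ℚ) ^ o.per : ℚ) : ℂ) ^ ipc (typ Φ g.1 o) l *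
        gr ((Φ.Q : ℚ) ^ o.per) (rho s o) l) fun o _ l e =>
      ((Iso.hl o).size _ _ fun e1 => e (by simp [e1])).symm]
    simp only [h5, monomial_eq s h1, ch_mon h3, prod_mul_distrib]
  · have := prod_ne_zero_iff.1 hd o ho
    split_ifs at this with e
    · obtain ⟨j, hj⟩ := e
      rw [hj, Nat.mul_div_cancel_left _ (per_pos o), L_loc (Iso.hl o)] at this
      rw [hj]
      by_contra e1
      refine this (Multiset.sum_eq_zero fun a ha => ?_)
      obtain ⟨x, -, rfl⟩ := Multiset.mem_map.1 ha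
      rw [if_neg fun e2 => e1 (Nat.mul_le_mul_left _ (by omega)), mul_zero]
    · exact absurd rfl this

end Cfsg.GUn
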