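import Cfsg.Agent.GUn.Up
import Cfsg.Agent.Blk.PairMisc
import Cfsg.Agent.Blk.PairReg
import Cfsg.Agent.Blk.SecContrib
import Cfsg.Agent.CT.SubChar

/-! # S4537, block side: pieces `LW0` and `LW` -/

set_option autoImplicit false

namespace Cfsg.GUn

open scoped MonoidAlgebra

universe u v

namespace LW

section blk

variable {G : Type u} [Group G] [Finite G] {p : ℕ} {M : Ideal AlgInt}

theorem can_unique (hM : IsPModular p M) {B : Set (IrrCharacter G)} (hB : IsPBlock M B)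
    {Z : Subgroup G} (hZ : IsDefectGroup p M B Z) (hp : IsPGroup p Z)
    (hc : Z ≤ Subgroup.center G) {χ ψ : IrrCharacter G} (hχ : χ ∈ B) (hψ : ψ ∈ B)
    (h1 : ∀ x ∈ Z, χ.1 x = χ.1 1) (h2 : ∀ x ∈ Z, ψ.1 x = ψ.1 1) : χ = ψ := by
  have := hM.fact_prime
  have : Z.Normal := ⟨fun n hn g => by
    rw [Subgroup.mem_center_iff.1 (hc hn) g, mul_inv_cancel_right]; exact hn⟩
  have hs := QuotientGroup.mk'_surjective Z
  have hk : IsPGroup p (QuotientGroup.mk' Z).ker := by rwa [QuotientGroup.ker_mk']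
  have hreg : ∀ g : G, ¬ p ∣ orderOf g →
      g ∈ Subgroup.centralizer ((QuotientGroup.mk' Z).ker : Set G) := by
    intro g _
    rw [QuotientGroup.ker_mk', Subgroup.mem_centralizer_iff]
    exact fun z hz => (Subgroup.mem_center_iff.1 (hc hz) g).symm
  have hb := hB.preimage_comap_of_regular hM _ hs hk hreg
  have h3 := ((hB.isDefectGroup_preimage_iff_of_regular hM _ hs hk hreg _).2
    ⟨Z, hZ, rfl⟩).card_eq hM hb
  rw [map_mk_eq_bot_iff.2 le_rfl, Subgroup.card_bot] at h3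
  have h4 := (Nat.pow_eq_one.1 h3.symm).resolve_left hM.prime.ne_one
  obtain ⟨χ', rfl⟩ := χ.exists_inflate_eq Z fun x hx => χ.mem_charKer.2 (h1 x hx)
  obtain ⟨ψ', rfl⟩ := ψ.exists_inflate_eq Z fun x hx => ψ.mem_charKer.2 (h2 x hx)
  have h5 := hb.eq_singleton_of_blockDefect_eq_zero hM h4 (χ := χ') hχ
  have h6 : ψ' ∈ IrrCharacter.comap _ hs ⁻¹' B := hψ
  rw [h5, Set.mem_singleton_iff] at h6
  rw [h6]

theorem isDefGrp_cenIn {k : Type v} [Field k] [Fact p.Prime] [CharP k p] {N H P : Subgroup G}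
    {c e : k[G]} (hNH : N ≤ H) (hH : H ≤ Subgroup.normalizer (N : Set G))
    (hc : IsPrimIdem (fixSuppGA k N H) c) (h : IsMaxPair p N H c P e) :
    IsDefGrp p (cenIn N P) e (P ⊓ cenIn N P) := by
  have hK : cenIn N P ⊔ P ≤ norIn H P :=
    sup_le (cenIn_le_norIn hNH P) (le_inf h.pairOf.le Subgroup.le_normalizer)
  have hD := h.isDefGrp_stab hNH hH hc.mem hc.idem le_sup_right hK
    (IsFixedGA.sup h.pairOf.pair.fixed_cenIn h.pairOf.pair.fixed_self)
  refine ⟨hD.pgrp.to_le inf_le_left, inf_le_right, brGA_ne_zero_of_le inf_le_left hD.br_ne,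
    fun Q hQ hQN hb => ⟨1, one_mem _, ?_⟩⟩
  obtain ⟨x, hx, hle⟩ := hD.max Q hQ (hQN.trans le_sup_left) hb
  rw [conjSub_eq_self_iff.2 (hK hx).2] at hle
  rw [conjSub_one]
  exact le_inf hle hQN

theorem twist_mem (hM : IsPModular p M) {B : Set (IrrCharacter G)} (hB : IsPBlock M B)
    {η : G →* ℂˣ} (hs : idemK M B ∈ suppGA (resK M) η.ker) {χ : IrrCharacter G} (hχ : χ ∈ B) :
    χ.twist η ∈ B := by
  have := Fintype.ofFinite (ConjClasses G)
  rw [(hB.isBlockUnion hM).mem_iff_lam_idemK hM] at hχ ⊢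
  rw [← hχ, lam_eq_sum, lam_eq_sum]
  refine Finset.sum_congr rfl fun K _ => ?_
  by_cases h : Quotient.out K ∈ η.ker
  · simp only [centralChar, IrrCharacter.twist_apply, MonoidHom.mem_ker.1 h, map_one,
      Units.val_one, one_mul]
  · rw [mem_suppGA.1 hs _ h, zero_mul, zero_mul]

variable {X : Type u} [Group X] [Finite X] {J : X →* G}

theorem isDefectGroup_comap (hM : IsPModular p M) (hJ : Function.Injective J)
    {b : Set (IrrCharacter X)} (hb : IsPBlock M b) {D : Subgroup G}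
    (h : IsDefGrp p J.range (gaPush (resK M) J (idemK M b)) (D ⊓ J.range)) :
    IsDefectGroup p M b (D.comap J) := by
  rw [hb.isDefectGroup_iff hM, ← isDefGrp_gaPush_iff hJ, Subgroup.map_comap_eq,
    ← MonoidHom.range_eq_map, inf_comm]
  exact h

omit [Finite G] [Finite X] in
theorem comap_le_center (hJ : Function.Injective J) {D : Subgroup G}
    (h : J.range ≤ Subgroup.centralizer (D : Set G)) : D.comap J ≤ Subgroup.center X := by
  intro x hx
  rw [Subgroup.mem_center_iff]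
  intro y
  apply hJ
  rw [map_mul, map_mul]
  exact (Subgroup.mem_centralizer_iff.1 (h ⟨y, rfl⟩) _ hx).symm

omit [Finite G] [Finite X] in
theorem exists_aut (hJ : Function.Injective J) {g : G}
    (hg : g ∈ Subgroup.normalizer (J.range : Set G)) :
    ∃ a : X ≃* X, ∀ x, J (a x) = g * J x * g⁻¹ := by
  refine ⟨(MonoidHom.ofInjective hJ).trans ((conjSubEquiv (conjSub_eq_self_iff.2 hg).symm).trans
    (MonoidHom.ofInjective hJ).symm), fun x => ?_⟩
  rw [MulEquiv.trans_apply, MulEquiv.trans_apply, MonoidHom.apply_ofInjective_symm,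
    coe_conjSubEquiv, MonoidHom.ofInjective_apply]

theorem can_fix (hM : IsPModular p M) (hJ : Function.Injective J) {b : Set (IrrCharacter X)}
    (hb : IsPBlock M b) {D : Subgroup G} (hp : IsPGroup p D)
    (hD : IsDefectGroup p M b (D.comap J)) (hc : J.range ≤ Subgroup.centralizer (D : Set G))
    {θ : IrrCharacter X} (hθ : θ ∈ b) (h1 : ∀ x, J x ∈ D → θ.1 x = θ.1 1) {g : G}
    (hg : g ∈ Subgroup.normalizer (J.range : Set G)) (hgD : g ∈ Subgroup.normalizer (D : Set G))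
    (hfix : gaConj (resK M) g (gaPush (resK M) J (idemK M b)) = gaPush (resK M) J (idemK M b))
    {x x' : X} (h : J x' = g * J x * g⁻¹) : θ.1 x' = θ.1 x := by
  obtain ⟨a, ha⟩ := exists_aut hJ hg
  have h2 : gaPush (resK M) a.toMonoidHom (idemK M b) = idemK M b := by
    apply gaPush_injective hJ
    rw [← hfix, gaConj_eq_gaPush, gaPush_gaPush, gaPush_gaPush]
    congr 2
    exact MonoidHom.ext ha
  rw [(hb.isBlockUnion hM).gaPush_idemK hM _ a.surjective] at h2
  have h3 := ((hb.isBlockUnion hM).preimage_comap hM _ a.surjective).eq_of_idemK_eq hM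
    (hb.isBlockUnion hM) h2
  have h4 : θ.comap a.toMonoidHom a.surjective ∈ b := by
    rw [← h3] at hθ
    exact hθ
  have h5 := can_unique hM hb hD (hp.comap_of_injective J hJ) (comap_le_center hJ hc) h4 hθ
    (fun y hy => by
      change θ.1 (a y) = θ.1 (a 1)
      rw [map_one]
      refine h1 _ ?_
      rw [ha]
      exact (Subgroup.mem_normalizer_iff.1 hgD _).1 hy) h1
  rw [hJ (h.trans (ha x).symm)]
  exact congrArg (fun χ : IrrCharacter X => χ.1 x) h5

end blk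

section chr

variable {C : Type u} [Group C] [Finite C] {L : Subgroup C} [L.Normal]

omit [Finite C] in
theorem comm_mem (hcyc : IsCyclic (C ⧸ L)) (x y : C) : x * y * x⁻¹ * y⁻¹ ∈ L := by
  rw [← QuotientGroup.eq_one_iff]
  have h : ((x : C ⧸ L) * y) = y * x := hcyc.commutative.is_comm.comm _ _
  simp only [QuotientGroup.mk_mul, QuotientGroup.mk_inv, h, mul_inv_cancel_right, mul_inv_cancel]

theorem inertia_le [Fintype L] (hcyc : IsCyclic (C ⧸ L)) {θ : IrrCharacter C} {φ : IrrCharacter L}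
    (h : classInner (fun n : L => θ.1 n) φ.1 ≠ 0) {l : C →* ℂˣ} (hl : ∀ x ∈ L, l x = 1)
    (ht : θ.twist l = θ) {y : C} (hy : y • φ = φ) : l y = 1 := by
  classical
  set θ' : IrrCharacter (⊤ : Subgroup C) := IrrCharacter.congr Subgroup.topEquiv.symm θ with hθ'
  have h1 : rmult θ' φ = 1 := by
    have h2 := cast_rmult' (le_top : L ≤ ⊤) θ' φ
    have h3 := classInner_res_eq_one_of_isCyclic hcyc θ h
    exact_mod_cast h2.trans h3
  set V := L ⊔ Subgroup.zpowers y with hV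
  have hyN : y ∈ Subgroup.normalizer (L : Set C) := le_normalizer_of_normal' ⊤ trivial
  obtain ⟨ψ₀, hψ₀⟩ := extTo_sup_zpowers (θ := φ) hyN
    (by rw [ezStab_eq_charInertia]; exact IrrCharacter.mem_charInertia_iff.2 hy)
  obtain ⟨ψ, h2, h3⟩ := exists_rmult_between (le_sup_left : L ≤ V) le_top (h1 ▸ one_ne_zero)
  have hab : ⁅V, V⁆ ≤ L := Subgroup.commutator_le.2 fun a _ b _ => comm_mem hcyc a b
  have h4 : ψ.Extends φ := extends_of_rmult_of_commutator_le le_sup_left hab hψ₀ h3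
  have hf : ∀ x : V, (x : C) ∈ L → (l.comp V.subtype) x = 1 := fun x hx => hl x hx
  have h5 := h4.twist le_sup_left hf
  have h6 : θ'.twist (l.comp (⊤ : Subgroup C).subtype) = θ' :=
    Subtype.ext (funext fun x => congrArg (fun χ : IrrCharacter C => χ.1 x) ht)
  have h7 := rmult_twist le_top θ' ψ (l.comp (⊤ : Subgroup C).subtype) (l.comp V.subtype)
    fun _ => rfl
  rw [h6] at h7
  have h8 : ψ.twist (l.comp V.subtype) = ψ := by
    by_contra hne
    have h9 := rmult_trans (le_sup_left : L ≤ V) le_top θ' φ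
    have h10 := Finset.sum_le_sum_of_subset (f := fun χ => rmult θ' χ * rmult χ φ)
      (Finset.subset_univ {ψ.twist (l.comp V.subtype), ψ})
    rw [Finset.sum_pair hne, ← h9, h1, h4.rmult_eq_one, h5.rmult_eq_one, h7] at h10
    omega
  have h9 := h4.eq_one_of_twist_eq le_sup_left (le_normalizer_of_normal' V) hf h8
  exact congrArg (fun f : V →* ℂˣ => f ⟨y, Subgroup.mem_sup_right (Subgroup.mem_zpowers y)⟩) h9

theorem smul_eq_of_sum (hcyc : IsCyclic (C ⧸ L)) {φ : IrrCharacter L} {f : IrrCharacter L → ℂ}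
    (hf : ∀ (M : Ideal AlgInt) ψ, f ψ ∈ valO M) {ε : ℂ} (hε : ε = 1 ∨ ε = -1)
    (hs : ∑ ψ ∈ irrFinset (MulAction.orbit C φ), f ψ = ε) {c : C}
    (hc : ∀ ψ ∈ MulAction.orbit C φ, f (c • ψ) = f ψ) : c • φ = φ := by
  classical
  by_contra hne
  have h1 : (MulAction.stabilizer C φ).relIndex (Subgroup.zpowers c) ≠ 1 := fun h =>
    hne (Subgroup.relIndex_eq_one.1 h (Subgroup.mem_zpowers c))
  obtain ⟨q, hq, hd⟩ := Nat.exists_prime_and_dvd h1
  have : Fact q.Prime := ⟨hq⟩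
  obtain ⟨g, hg, ⟨a, ha⟩, hgI⟩ : ∃ g ∈ Subgroup.zpowers c, (∃ a : ℕ, orderOf g = q ^ a) ∧
      g ∉ MulAction.stabilizer C φ := by
    by_contra h
    push Not at h
    exact not_dvd_relIndex_of_forall_pElement h hd
  have hP : IsPGroup q (Subgroup.zpowers g) := IsPGroup.of_card ((Nat.card_zpowers g).trans ha)
  have hpow : ∀ (n : ℕ), ∀ ψ ∈ MulAction.orbit C φ, f (c ^ n • ψ) = f ψ := by
    intro n
    induction n with
    | zero => intro ψ _; rw [pow_zero, one_smul]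
    | succ n ih =>
      intro ψ hψ
      rw [pow_succ, mul_smul, ih _ (MulAction.mem_orbit_of_mem_orbit c hψ), hc ψ hψ]
  obtain ⟨M, hM⟩ := exists_isPModular hq
  have := hM.charP
  have h2 := sum_eq_sum_fixed hP (A := resK M) (charP_nsmul_eq_zero (R := resK M) q)
    (irrFinset (MulAction.orbit C φ))
    (fun z ψ hψ => mem_irrFinset.2 (MulAction.mem_orbit_of_mem_orbit (z : C) (mem_irrFinset.1 hψ)))
    (fun ψ => red M (f ψ)) (fun z ψ hψ => by
      obtain ⟨n, hn⟩ := (mem_powers_iff_mem_zpowers.2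
        ((Subgroup.zpowers_le.2 hg) z.2) : (z : C) ∈ Submonoid.powers c)
      rw [Subgroup.smul_def, ← hn, hpow n ψ (mem_irrFinset.1 hψ)])
  rw [← red_sum _ fun ψ _ => hf M ψ, hs, Finset.filter_eq_empty_iff.2, Finset.sum_empty] at h2
  · rcases hε with rfl | rfl
    · exact one_ne_zero (red_one.symm.trans h2)
    · rw [red_neg, red_one] at h2
      exact one_ne_zero (neg_eq_zero.1 h2)
  · intro ψ hψ h
    obtain ⟨y, rfl⟩ := mem_irrFinset.1 hψ
    have h3 : g • y • φ = y • φ := h ⟨g, Subgroup.mem_zpowers g⟩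
    have h4 : y⁻¹ * g * y ∈ MulAction.stabilizer C φ := by
      rw [MulAction.mem_stabilizer_iff, mul_smul, mul_smul, h3, inv_smul_smul]
    have h5 : g * y⁻¹ * g⁻¹ * y⁻¹⁻¹ ∈ MulAction.stabilizer C φ := by
      rw [← IrrCharacter.charInertia_eq_stabilizer]
      exact φ.le_charInertia (comm_mem hcyc _ _)
    have h6 := mul_mem h5 h4
    refine hgI ?_
    have h7 : g * y⁻¹ * g⁻¹ * y⁻¹⁻¹ * (y⁻¹ * g * y) = g * (y⁻¹ * y) := by group
    rwa [h7, inv_mul_cancel, mul_one] at h6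

theorem core [Fintype L] (hcyc : IsCyclic (C ⧸ L)) {θ : IrrCharacter C} {φ : IrrCharacter L}
    (h : classInner (fun n : L => θ.1 n) φ.1 ≠ 0) {G₀ : Type u} [Group G₀] [Finite G₀] {u : C}
    (hu : u ∈ L) {i₀ : G₀ →* C} (hcyc' : IsCyclic (G₀ ⧸ L.comap i₀)) {θ₀ : IrrCharacter G₀} {ε : ℂ}
    (hcom : ∀ x, Commute u (i₀ x)) (hε : ε = 1 ∨ ε = -1) (hθ : ∀ x, θ.1 (u * i₀ x) = ε * θ₀.1 x)
    {c : C} (hc : ∀ (y : C) (x : G₀) (hx : i₀ x ∈ L), (c • y • φ).1 ⟨u * i₀ x, mul_mem hu hx⟩ =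
      (y • φ).1 ⟨u * i₀ x, mul_mem hu hx⟩) : c • φ = φ := by
  have := Fintype.ofFinite (L.comap i₀)
  obtain ⟨ξ, hξ⟩ := θ₀.exists_under (L.comap i₀)
  have h1 := classInner_res_eq_one_of_isCyclic hcyc' θ₀ hξ
  refine smul_eq_of_sum hcyc (f := fun ψ => classInner
    (fun x : L.comap i₀ => ψ.1 ⟨u * i₀ x, mul_mem hu x.2⟩) ξ.1) (fun M ψ => ?_) hε ?_ ?_
  · let F : L.comap i₀ →* Subgroup.centralizer ({⟨u, hu⟩} : Set L) :=
      { toFun := fun x => ⟨⟨i₀ x, x.2⟩, Subgroup.mem_centralizer_singleton_iff.2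
          (Subtype.ext (hcom x).symm.eq)⟩
        map_one' := Subtype.ext (Subtype.ext (map_one i₀))
        map_mul' := fun x y => Subtype.ext (Subtype.ext (map_mul i₀ _ _)) }
    exact ((inIrrSpan_secRes (M := M) rfl ψ.isCharacter.isGeneralizedCharacter).comp
      F).classInner_irr_mem ξ
  · rw [← classInner_sum_left, ← mul_one ε, ← h1, ← classInner_const_mul_left]
    congr 1
    funext x
    rw [Finset.sum_apply, ← hθ, clifford_res_eq θ h ⟨u * i₀ x, mul_mem hu x.2⟩,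
      classInner_res_eq_one_of_isCyclic hcyc θ h, one_mul]
  · rintro _ ⟨y, rfl⟩
    congr 1
    funext x
    exact hc y x x.2

end chr

theorem isCyclic_quot {X A : Type u} [Group X] [Group A] [IsCyclic A] (f : X →* A) :
    IsCyclic (X ⧸ f.ker) :=
  isCyclic_of_injective (QuotientGroup.kerLift f) (QuotientGroup.kerLift_injective f)

theorem eq_one_of_pow {X : Type u} [Group X] {p a m : ℕ} (hp : p.Prime) (hm : ¬ p ∣ m) {x : X}
    (h1 : x ^ p ^ a = 1) (h2 : x ^ m = 1) : x = 1 := by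
  have h3 := pow_gcd_eq_one.2 ⟨h1, h2⟩
  rwa [((hp.coprime_iff_not_dvd.2 hm).pow_left a : (p ^ a).gcd m = 1), pow_one] at h3

end LW

open LW in
theorem stLW0 : StLW0.{u} := by
  intro Γ C _ _ _ _ p M hM B hB D e hm η hη hs j hj hr
  have := hM.fact_prime
  have := hM.charP
  have hp := hm.pairOf.pair.pgrp
  have he : IsBlk (resK M) ((⊤ : Subgroup C).map j) e := by
    rw [← MonoidHom.range_eq_map, hr]
    exact (isPair_top_iff.1 hm.pairOf.pair).2
  obtain ⟨a, rfl⟩ := exists_gaPush_eq hj he.supp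
  obtain ⟨b, hb, rfl⟩ := ((isBlk_gaPush_iff hj).1 he).exists_idemK_eq hM
  have hD := isDefGrp_cenIn le_rfl top_le_normalizer_top (hB.isBlk_top hM) hm
  rw [cenIn_top, ← hr] at hD
  have hD' := isDefectGroup_comap hM hj hb hD
  have hc := comap_le_center hj hr.le
  have : (D.comap j).Normal := ⟨fun n hn g => by
    rw [Subgroup.mem_center_iff.1 (hc hn) g, mul_inv_cancel_right]; exact hn⟩
  obtain ⟨θ, hθ, hk⟩ := hb.exists_mem_le_charKer hM (hp.comap_of_injective j hj)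
  have h1 : ∀ x, j x ∈ D → θ.1 x = θ.1 1 := fun x hx => θ.mem_charKer.1 (hk hx)
  have h2 : idemK M b ∈ suppGA (resK M) (η.comp j).ker := mem_suppGA.2 fun x hx => by
    rw [← coeff_gaPush_of_injective hj]
    exact mem_suppGA.1 hs _ hx
  refine ⟨θ, by rw [← hb.eq_blockOf hM hθ], h1, can_unique hM hb hD' (hp.comap_of_injective j hj)
    hc (twist_mem hM hb h2 hθ) hθ (fun x hx => ?_) h1, by rwa [← hb.eq_blockOf hM hθ]⟩
  obtain ⟨n, hn⟩ := hp ⟨j x, hx⟩
  have h3 : η (j x) = 1 := by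
    refine eq_one_of_pow hM.prime hη (a := n) ?_ (Up.pow_orderOf_apply η _)
    rw [← map_pow, show j x ^ p ^ n = 1 from congrArg Subtype.val hn, map_one]
  rw [IrrCharacter.twist_apply, IrrCharacter.twist_apply, MonoidHom.comp_apply, h3, map_one,
    h1 x hx]

open LW in
theorem stLW : StLW.{u} := by
  intro Γ C G₀ A _ _ _ _ _ _ _ _ _ δ S _ _ hS p M hM B hB D j hj hr θ hm h1 η hη ht u i₀ θ₀ ε hu
    hcom hε hθ hN b hb hcov t ht'
  have := hM.fact_prime
  have := hM.charP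
  have hp := hm.pairOf.pair.pgrp
  obtain ⟨a, ha⟩ := IsPGroup.iff_card.1 hp
  set φ : Γ →* A := (powMonoidHom (p ^ a)).comp δ with hφ
  have hmem : ∀ x, x ∈ φ.ker ↔ δ x ^ p ^ a = 1 := fun x => Iff.rfl
  have hSN : S ≤ φ.ker := fun x hx => by
    rw [hS, MonoidHom.mem_ker] at hx
    rw [hmem, hx, one_pow]
  have hDN : D ≤ φ.ker := fun x hx => by
    have h := pow_card_eq_one' (x := (⟨x, hx⟩ : D))
    rw [ha] at h
    rw [hmem, ← map_pow, show x ^ p ^ a = 1 from congrArg Subtype.val h, map_one]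
  have hreg : ∀ x ∈ φ.ker, IsPRegular p x → x ∈ S := fun x hx hx' => by
    rw [hS, MonoidHom.mem_ker]
    exact eq_one_of_pow hM.prime hx' ((hmem x).1 hx) (by rw [← map_pow, pow_orderOf_eq_one, map_one])
  have hηN : ∀ x ∈ φ.ker, η (δ x) = 1 := fun x hx =>
    eq_one_of_pow hM.prime hη (a := a) (by rw [← map_pow, (hmem x).1 hx, map_one])
      (Up.pow_orderOf_apply η _)
  set L := (φ.comp j).ker with hL
  have := Fintype.ofFinite L
  have hcyc : IsCyclic (C ⧸ L) := isCyclic_quot _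
  have hcyc' : IsCyclic (G₀ ⧸ L.comap i₀) := isCyclic_quot ((φ.comp j).comp i₀)
  set J := j.comp L.subtype with hJ
  have hJi : Function.Injective J := hj.comp L.subtype_injective
  have hJr : J.range = cenIn φ.ker D := by
    rw [cenIn, ← hr]
    ext x
    exact ⟨fun ⟨y, hy⟩ => hy ▸ ⟨y.2, y.1, rfl⟩, fun ⟨hx, y, hy⟩ => ⟨⟨y, by
      rw [← hy] at hx; exact hx⟩, hy⟩⟩
  have hθB := isPBlock_blockOf (M := M) θ
  obtain ⟨β', hβ', hne⟩ := exists_isBlk_mul_ne_zero L (hθB.idemK_ne_zero hM)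
  obtain ⟨β₀, hβ₀, rfl⟩ := hβ'.exists_eq_subIdem hM
  obtain ⟨θ₁, hθ₁, hover⟩ := hθB.exists_under_of_covers hM hβ₀ ((hθB.covers_iff hM hβ₀).2 hne)
    (hM.mem_blockOf_self θ)
  set β := gaPush (resK M) J (idemK M β₀) with hβe
  set e := gaPush (resK M) j (idemK M (blockOf M θ.1)) with hee
  have heβ : e * β ≠ 0 := fun h0 => hne (gaPush_injective hj (by
    rw [map_mul, map_zero, subIdem, gaIncl_eq_gaPush, gaPush_gaPush]; exact h0))
  have hβ : IsPair p φ.ker D β :=
    ⟨hp, le_normalizer_of_normal' D, hJr ▸ hβ₀.isBlk_gaPush hM hJi⟩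
  obtain ⟨c, hc, hpo⟩ := hβ.exists_isPairOf le_rfl hDN
  have hec : idemK M B * c ≠ 0 := fun h0 => heβ (by
    have h2 := brGA_mul hp ((hB.isBlk_top hM).fixed.mono le_top) (hc.fixed.mono hDN)
    have h3 : Commute (brGA (resK M) D c) e := commute_of_mem_suppGA (brGA_mem_suppGA D c)
      (isPair_top_iff.1 hm.pairOf.pair).2.fixed
    rw [← hm.pairOf.br, ← hpo.br, mul_assoc, ← mul_assoc e, ← h3.eq, ← mul_assoc, ← mul_assoc,
      ← h2, h0, map_zero, zero_mul, zero_mul])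
  have hbS := hb.isBlk_subIdem hM
  have hb' := hbS.isBlk_orbSum_of_regular hM hSN (le_normalizer_of_normal' _) hreg
  have heb : idemK M B * orbSum φ.ker (subIdem M S b) ≠ 0 := fun h0 =>
    (hB.covers_iff hM hb).1 hcov (by
      rw [← hbS.orbSum_mul_self (le_normalizer_of_normal' φ.ker), ← mul_assoc, h0, zero_mul])
  obtain ⟨x, -, hx⟩ := IsBlk.exists_conj_of_cover le_top top_le_normalizer_of_normal
    (hB.isBlk_top hM) hb' hc heb hec
  have htc : gaConj (resK M) (x * t * x⁻¹) c = c := by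
    rw [← hx, ← gaConj_mul, inv_mul_cancel_right, gaConj_mul, gaConj_orbSum,
      (hb.mem_blockStab_iff_gaConj hM).1 ht', ← conjSub_normal]
  have hDc : IsDefGrp p φ.ker c D := by
    obtain ⟨g, -, hg⟩ := IsBlk.exists_isDefGrp_inf le_top top_le_normalizer_of_normal
      (hB.isBlk_top hM) hc hec (hm.isDefGrp le_rfl top_le_normalizer_top (hB.isBlk_top hM))
    have h2 := hg.conj g⁻¹
    rw [← conjSub_normal, gaConj_inv_gaConj, inf_eq_left.2 hDN] at h2
    exact h2.of_card_le hc.fixed hp hDN hpo.br_ne_zero (card_conjSub _ _).le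
  have hmax := hpo.isMaxPair_of_isDefGrp hDc
  have hmax' := hmax.conj (x * t * x⁻¹)
  rw [← conjSub_normal, htc] at hmax'
  obtain ⟨y, hy, hyD, hyβ⟩ := hmax.exists_conj le_rfl Subgroup.le_normalizer hc hmax'
  rw [← conjSub_mul, conjSub_eq_self_iff] at hyD
  rw [← gaConj_mul] at hyβ
  obtain ⟨g, hg⟩ : ∃ g, g = y * (x * t * x⁻¹) := ⟨_, rfl⟩
  rw [← hg] at hyD hyβ
  have hD := isDefGrp_cenIn le_rfl Subgroup.le_normalizer hc hmax
  rw [← hJr] at hD
  have hgJ : g ∈ Subgroup.normalizer (J.range : Set Γ) := by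
    rw [hJr]
    exact norIn_le_normalizer_cenIn top_le_normalizer_of_normal D ⟨trivial, hyD⟩
  have hk : ∀ z, J z ∈ D → θ₁.1 z = θ₁.1 1 := fun z hz => θ₁.mem_charKer.1
    ((θ.isCharacter.comp L.subtype).charKer_le_of_constituent θ₁ hover
      ((θ.isCharacter.comp L.subtype).mem_charKer.2 (h1 z hz)))
  have hfix : ∀ n n' : L, j n' = g * j n * g⁻¹ → θ₁.1 n' = θ₁.1 n := fun n n' h =>
    can_fix hM hJi hβ₀ hp (isDefectGroup_comap hM hJi hβ₀ hD) (hJr.le.trans inf_le_right) hθ₁ hk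
      hgJ hyD hyβ h
  obtain ⟨c₀, hc1, hc2, hc3⟩ := hN g hyD
  have huL : u ∈ L := by
    change δ (j u) ^ p ^ a = 1
    rw [hu, one_pow]
  have hgj : g ∈ Subgroup.normalizer (j.range : Set Γ) := by
    rw [hr]
    exact normalizer_le_normalizer_centralizer D hyD
  have hc₀ : c₀ • θ₁ = θ₁ := by
    refine core hcyc hover huL hcyc' hcom hε hθ fun z w hw => ?_
    obtain ⟨z', hz'⟩ := (Subgroup.mem_normalizer_iff.1 hgj (j z)).1 ⟨z, rfl⟩
    have hl : z⁻¹ * z' ∈ L := by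
      change φ (j (z⁻¹ * z')) = 1
      rw [map_mul, hz']
      simp only [map_mul, map_inv, mul_inv_cancel_comm, inv_mul_cancel]
    have h2 : j c₀ * g * j (u * i₀ w) = j (u * i₀ w) * (j c₀ * g) := by
      rw [map_mul]
      exact (hc1.mul_right (hc2 w)).eq
    rw [IrrCharacter.smul_apply, IrrCharacter.smul_apply, IrrCharacter.smul_apply,
      ← θ₁.isClassFunction _ ⟨_, inv_mem hl⟩]
    refine hfix _ _ ?_
    have h3 : g * j (u * i₀ w) = (j c₀)⁻¹ * j (u * i₀ w) * j c₀ * g := by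
      rw [mul_assoc _ _ g, mul_assoc (j c₀)⁻¹, ← h2]; group
    have h4 : g * j z = j z' * g := by rw [hz']; group
    have h5 : g * (j z)⁻¹ = (j z')⁻¹ * g := by rw [hz']; group
    simp only [Subgroup.coe_mul, InvMemClass.coe_inv]
    generalize u * i₀ w = v at h3 ⊢
    simp only [map_mul, map_inv]
    rw [← mul_assoc g, ← mul_assoc g, h5, mul_assoc _ g, h3, mul_assoc (j z')⁻¹, mul_assoc _ g, h4]
    group
  have h6 := inertia_le hcyc hover (l := (η.comp δ).comp j) (fun z hz => hηN _ hz) ht hc₀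
  change η (δ (j c₀)) = 1 at h6
  change η (δ t) = 1
  simpa only [hg, map_mul, map_inv, h6, hηN y hy, one_mul, mul_inv_cancel_comm] using hc3

end Cfsg.GUn
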