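import Cfsg.Agent.GUn.Defs2
import Cfsg.Agent.GUn.ArC
import Cfsg.Agent.GUn.Gen
import Cfsg.Agent.Blk.Over

/-! Labels of characters, bead moves. -/

set_option autoImplicit false
set_option linter.unusedSectionVars false

namespace Cfsg.GUn

open Finset ComplexConjugate
open GLn (Bt sz rc S par Bt.sz_add_tri Bt.sz_eq_zero_iff sz_zero)

universe u

variable {N r : ℕ} {X Y : Bt N}

/-! ### bead moves -/

theorem Mv.sz_add (h : Mv r X Y) : sz N Y.1 + r = sz N X.1 := by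
  obtain ⟨x, h1, h2, h3, h4⟩ := h
  have h5 := Bt.sz_add_tri Y
  rw [h4, sum_insert fun h => h3 (mem_of_mem_erase h), ← h4] at h5
  have h6 := (Bt.sz_add_tri X).trans (add_sum_erase _ (fun x => x) h1).symm
  omega

theorem Mv.rc_eq (h : Mv r X Y) : rc r Y.1 = rc r X.1 := by
  obtain ⟨x, h1, h2, h3, h4⟩ := h
  funext j
  rw [rc, rc, h4, filter_insert, filter_erase, ← Nat.mod_eq_sub_mod h2]
  split_ifs with h
  · rw [card_insert_of_notMem fun h => h3 (mem_of_mem_filter _ (mem_of_mem_erase h)),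
      card_erase_add_one (mem_filter.2 ⟨h1, h⟩)]
  · rw [erase_eq_of_notMem (a := x) fun h' => h (mem_filter.1 h').2]

theorem Mv.wt_add (h : Mv r X Y) (hr : 0 < r) : SymCh.wt r Y.1 + 1 = SymCh.wt r X.1 := by
  have h1 := SymCh.sum_eq_base_add hr X.1
  have h2 := SymCh.sum_eq_base_add hr Y.1
  rw [GLn.clsF_eq_of_rc h.rc_eq, ← Bt.sz_add_tri] at h2
  rw [← Bt.sz_add_tri, ← h.sz_add] at h1
  exact Nat.eq_of_mul_eq_mul_left hr (by rw [mul_add]; omega)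

theorem exists_Mv (h : SymCh.wt r X.1 ≠ 0) : ∃ Y, Mv r X Y := by
  by_contra! h0
  refine h (sum_eq_zero fun j _ => Nat.sub_eq_zero_of_le ?_)
  rw [← SymCh.card_run]
  refine sum_le_sum_of_subset fun y hy => mem_range.2 ?_
  rw [← Nat.succ_le_iff, ← card_range (Nat.succ y)]
  refine card_le_card fun z hz => ?_
  refine Nat.decreasingInduction' (P := (· ∈ SymCh.run r X.1 j)) (fun z _ _ h => ?_)
    (Nat.le_of_lt_succ (mem_range.1 hz)) hy
  rw [SymCh.mem_run] at h ⊢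
  by_contra h1
  have h2 : r * (z + 1) + j - r = r * z + j := by rw [mul_add]; omega
  exact h0 ⟨insert (r * z + j) (X.1.erase (r * (z + 1) + j)), by
    rw [card_insert_of_notMem fun h => h1 (mem_of_mem_erase h), card_erase_add_one h, X.2]⟩
    ⟨_, h, by rw [mul_add]; omega, h2 ▸ h1, by rw [h2]⟩

theorem wt_one (X : Bt N) : SymCh.wt 1 X.1 = sz N X.1 := by
  have h1 := SymCh.sum_eq_base_add one_pos X.1
  have h2 := SymCh.sum_clsF one_pos X.1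
  rw [← Bt.sz_add_tri, SymCh.base] at h1
  simp only [univ_unique, sum_singleton, Fin.default_eq_zero, Fin.val_zero, X.2] at h1 h2
  rw [h2] at h1
  omega

theorem exists_Mv_one (h : X ≠ 0) : ∃ Y, Mv 1 X Y :=
  exists_Mv (by rwa [wt_one, Ne, Bt.sz_eq_zero_iff])

theorem exists_sz (hN : 0 < N) (m : ℕ) : ∃ X : Bt N, sz N X.1 = m := by
  obtain ⟨n, rfl⟩ := Nat.exists_eq_succ_of_ne_zero hN.ne'
  exact ⟨⟨insert (n + m) (range n), by simp⟩, by simp [sz, SymCh.tri, sum_range_succ]; omega⟩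

theorem par_of_sz_one (h : sz N X.1 = 1) (i : Fin N) : par N X.1 i = if i + 1 = N then 1 else 0 := by
  have h1 := GLn.sum_par X.2
  have h2 := GLn.par_monotone X.2
  obtain ⟨n, rfl⟩ := Nat.exists_eq_add_one_of_ne_zero i.pos.ne'
  rw [h, Fin.sum_univ_castSucc] at h1
  have h3 : par _ X.1 (Fin.last n) ≠ 0 := fun e => by
    rw [sum_eq_zero fun j _ => Nat.le_zero.1 (e ▸ h2 (Fin.le_last _)), e] at h1
    exact zero_ne_one h1
  refine Fin.lastCases (by simp; omega) (fun j => ?_) i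
  rw [if_neg (by simp; omega)]
  exact sum_eq_zero_iff.1 (show ∑ i : Fin n, par _ X.1 i.castSucc = 0 by omega) j (mem_univ _)

theorem eq_of_sz_one (h : sz N X.1 = 1) (h' : sz N Y.1 = 1) : X = Y :=
  Subtype.ext (GLn.par_inj X.2 Y.2 (funext fun i => by rw [par_of_sz_one h, par_of_sz_one h']))

theorem S_of_sz_one {A : Type*} [CommRing A] [Algebra ℂ A] (p : ℕ → A) (h : sz N X.1 = 1) :
    S p N X.1 = p 1 := by
  have h1 := GLn.prod_ex_eq p (par N X.1)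
  rw [GLn.sum_par X.2, sum_eq_single_of_mem X.1 (GLn.mem_bs_sz X.2) fun Y hY e => (e (congrArg
    Subtype.val (eq_of_sz_one (X := ⟨Y, (SymCh.mem_bs.1 hY).1⟩) (h ▸ GLn.sz_of_mem hY) h))).elim,
    GLn.kos_par X.2, one_smul] at h1
  rcases N with _ | n
  · exact absurd (h ▸ GLn.sum_par X.2) (by simp)
  rw [← h1, Fin.prod_univ_castSucc, prod_eq_one fun j _ => by
    rw [par_of_sz_one h, if_neg (by simp; omega), GLn.ex_zero], par_of_sz_one h, if_pos (by simp),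
    GLn.ex_one, one_mul]

/-! ### multipartitions -/

variable {k : Type u} [Field k] [Big k] {Φ : Frob k} {p : ℕ} {μ ν : MP Φ N}

theorem chi_single_one (o : I Φ) (h : sz N X.1 = 1) :
    chi (Finsupp.single o X) = P Φ o.per o.rep := by
  rw [chi, schur, Finsupp.prod_single_index (GLn.S_range_b _), S_of_sz_one _ h, pp, mul_one]

theorem deg_update_add (μ : MP Φ N) (ψ : I Φ) (X : Bt N) :
    deg (μ.update ψ X) + ψ.per * sz N (μ ψ).1 = deg μ + ψ.per * sz N X.1 := by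
  rw [deg_eq_sum _ (Finsupp.support_update_subset μ ψ), deg_eq_sum μ (subset_insert ψ _),
    ← add_sum_erase _ _ (mem_insert_self ψ _), ← add_sum_erase _ _ (mem_insert_self ψ _),
    sum_congr rfl fun φ hφ => by rw [Finsupp.update_apply, if_neg (ne_of_mem_erase hφ)],
    Finsupp.update_apply, if_pos rfl]
  ring

theorem Basic.update (h : Basic p μ) {ψ : I Φ} (hψ : Reg p ψ) (X : Bt N) :
    Basic p (μ.update ψ X) := fun φ hφ =>
  (mem_insert.1 (Finsupp.support_update_subset μ ψ hφ)).elim (· ▸ hψ) (h φ)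

theorem Basic.single {ψ : I Φ} (hψ : Reg p ψ) (X : Bt N) : Basic p (Finsupp.single ψ X) :=
  fun _ hφ => mem_singleton.1 (Finsupp.support_single_subset hφ) ▸ hψ

theorem Basic.nn_eq' [Fact p.Prime] (h : Basic p μ) (ψ : I Φ) : nn p μ ψ = sz N (μ ψ).1 := by
  by_cases hψ : Reg p ψ
  · exact h.nn_eq hψ
  · rw [nn_of_not_reg _ hψ, Finsupp.notMem_support_iff.1 (mt (h ψ) hψ), sz_zero]

/-- if `p ∣ Q - 1` the class of a basic label is given by the sizes -/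
theorem Basic.cd_eq_iff [Fact p.Prime] (hQ : (p : ℤ) ∣ Φ.Q - 1) (h : Basic p μ) (h' : Basic p ν) :
    cd p μ = cd p ν ↔ ∀ ψ, sz N (μ ψ).1 = sz N (ν ψ).1 := by
  refine ⟨fun e ψ => by rw [← h.nn_eq', ← h'.nn_eq', nn_eq_of_cd e], fun e => GUn.cd_eq_iff.2 fun ψ _ =>
    ⟨by rw [h.nn_eq', h'.nn_eq', e], funext fun j => ?_⟩⟩
  rw [ee_eq_one (dvd_NN_iff.2 (by rwa [pow_one])), GLn.rc_one, GLn.rc_one]

theorem exists_orderOf_eq {m a : ℕ} (hm : 0 < m) (h : a ∣ NN Φ m) :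
    ∃ ξ ∈ Mk Φ m, orderOf ξ = a :=
  ⟨_, pow_mem_Mk (gen_mem hm) (NN Φ m / a), by
    rw [← orderOf_gen hm] at h ⊢; exact orderOf_pow_orderOf_div (orderOf_pos_K _).ne' h⟩

/-! ### labels -/

variable {ι : Type} [Fintype ι] [DecidableEq ι] {χ χ' : IrrCharacter (Φ.G ι)}

theorem exists_lab (hI : StIrr k) (h : deg μ = Fintype.card ι) :
    ∃ χ : IrrCharacter (Φ.G ι), Lab μ χ :=
  (hI.irr Φ ι N μ h).imp fun _ h' => ⟨h, h'⟩

theorem exists_lab' (hI : StIrr k) (hN : Fintype.card ι ≤ N) (χ : IrrCharacter (Φ.G ι)) :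
    ∃ μ : MP Φ N, Lab μ χ := hI.all Φ ι N hN χ

theorem Lab.sgn (h : Lab μ χ) : ∃ ε : ℂ, ε * ε = 1 ∧ Ch ι μ = ε • χ.1 ∧ χ.1 = ε • Ch ι μ :=
  h.2.elim (fun e => ⟨1, by simp, by simp [e], by simp [e]⟩) fun e =>
    ⟨-1, by simp, by simp [e], by simp [e]⟩

theorem Lab.unique (hI : StIrr k) (h : Lab μ χ) (h' : Lab ν χ) : μ = ν := by
  by_contra h0
  have := hI.orth Φ ι N μ ν h.1
  rcases h.2 with e | e <;> rcases h'.2 with e' | e' <;>
    simp [e, e', h0, classInner_neg_left, classInner_neg_right, χ.classInner_self] at this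

theorem Lab.unique' (h : Lab μ χ) (h' : Lab μ χ') : χ = χ' := by
  by_contra h0
  obtain ⟨a, -, -, h1⟩ := h.sgn
  obtain ⟨b, -, h2, -⟩ := h'.sgn
  have := χ.classInner_self
  rw [congrArg (classInner χ.1) h1, h2, classInner_smul_right, classInner_smul_right,
    IrrCharacter.classInner_of_ne h0, mul_zero, mul_zero] at this
  exact zero_ne_one this

theorem Lab.twist (hI : StIrr k) (h : Lab μ χ) {z : kˣ} (hz : z ∈ Mk Φ 1) :
    Lab (act z μ) (χ.twist (lin Φ ι z)) :=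
  ⟨(deg_act hz μ).trans h.1, h.2.imp (fun e => by rw [hI.tens _ _ _ _ z hz, e]; rfl) fun e => by
    rw [hI.tens _ _ _ _ z hz, e]; exact funext fun g => mul_neg _ _⟩

theorem Lab.apply_ne (h : Lab μ χ) {g : Φ.G ι} : Ch ι μ g ≠ 0 ↔ χ.1 g ≠ 0 := by
  rcases h.2 with e | e <;> simp [e]

theorem Lab.inner_ne (h : Lab μ χ) (h' : Lab ν χ') :
    classInner (pRegularPart p (Ch ι μ)) (Ch ι ν) ≠ 0 ↔
      classInner (pRegularPart p χ.1) χ'.1 ≠ 0 := by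
  obtain ⟨a, ha, h1, -⟩ := h.sgn
  obtain ⟨b, hb, h2, -⟩ := h'.sgn
  simp [h1, h2, pRegularPart_smul, classInner_smul_left, classInner_smul_right,
    left_ne_zero_of_mul_eq_one ha, left_ne_zero_of_mul_eq_one hb]

theorem pair3_smul {Γ G₀ G₁ : Type u} [Group Γ] [Group G₀] [Group G₁] [Fintype G₀] [Fintype G₁]
    (f : G₀ × G₁ →* Γ) (u₀ : G₀) (u₁ : G₁) (χ : Γ → ℂ) (θ₀ : G₀ → ℂ) (θ₁ : G₁ → ℂ) (a b c : ℂ) :
    pair3 p f u₀ u₁ (a • χ) (b • θ₀) (c • θ₁) = a * conj b * conj c * pair3 p f u₀ u₁ χ θ₀ θ₁ := by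
  simp only [pair3, pRegularPart_smul, Pi.smul_apply, smul_eq_mul, map_mul, mul_sum]
  exact sum_congr rfl fun _ _ => sum_congr rfl fun _ _ => by ring

theorem Lab.pair3_ne {ι₀ ι₁ : Type} [Fintype ι₀] [DecidableEq ι₀] [Fintype ι₁] [DecidableEq ι₁]
    {Φ₀ Φ₁ : Frob k} {N₀ N₁ : ℕ} {μ₀ : MP Φ₀ N₀} {μ₁ : MP Φ₁ N₁} {θ₀ : IrrCharacter (Φ₀.G ι₀)}
    {θ₁ : IrrCharacter (Φ₁.G ι₁)} (h : Lab μ χ) (h₀ : Lab μ₀ θ₀) (h₁ : Lab μ₁ θ₁)
    {f : Φ₀.G ι₀ × Φ₁.G ι₁ →* Φ.G ι} {u₀ : Φ₀.G ι₀} {u₁ : Φ₁.G ι₁}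
    (e : pair3 p f u₀ u₁ (Ch ι μ) (Ch ι₀ μ₀) (Ch ι₁ μ₁) ≠ 0) :
    pair3 p f u₀ u₁ χ.1 θ₀.1 θ₁.1 ≠ 0 := by
  obtain ⟨a, -, h1, -⟩ := h.sgn
  obtain ⟨b, -, h2, -⟩ := h₀.sgn
  obtain ⟨c, -, h3, -⟩ := h₁.sgn
  rw [h1, h2, h3, pair3_smul] at e
  exact right_ne_zero_of_mul e

end Cfsg.GUn
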