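import Cfsg.Agent.GUn.Lab
import Cfsg.Agent.GUn.Cnt
import Cfsg.Agent.GUn.Dec
import Cfsg.Agent.GUn.Fock
import Cfsg.Agent.GLn.DGb

/-! # S4537: the pieces `MC` and `DG1` (peeling one hook at a time) -/

set_option autoImplicit false
set_option linter.unusedSectionVars false

namespace Cfsg.GUn

open Matrix Finset
open scoped ComplexConjugate
open GLn (Bt sz)

universe u

namespace MCp

variable {k : Type u} [Field k] [Big k] {Φ : Frob k} {N p : ℕ} [hp : Fact p.Prime]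
  {μ ν : MP Φ N} {ψ φ : I Φ} {z : kˣ}

theorem ww_basic (hc : p ≠ ringChar k) (h : Basic p μ) (hψ : Reg p ψ) :
    ww p μ ψ = SymCh.wt (ee p ψ) (μ ψ).1 := by
  rw [ww_eq hc μ hψ, Finset.sum_eq_zero, add_zero]
  intro φ hφ
  rw [mem_filter, mem_erase] at hφ
  exact absurd ((h φ hφ.1.2).rpI_eq.symm.trans hφ.2) hφ.1.1

theorem cd_congr (h : Basic p μ) (h' : Basic p ν) (e : μ φ = ν φ) : cd p μ φ = cd p ν φ := by
  by_cases hφ : Reg p φ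
  · rw [cd_of_reg _ hφ, cd_of_reg _ hφ, h.nn_eq', h'.nn_eq', e]
  · rw [cd_of_not_reg _ hφ, cd_of_not_reg _ hφ]

theorem ww_congr (h : Basic p μ) (h' : Basic p ν) (e : μ φ = ν φ) : ww p μ φ = ww p ν φ := by
  by_cases hφ : Reg p φ
  · rw [ww_of_reg _ hφ, ww_of_reg _ hφ, h.nn_eq', h'.nn_eq', e]
  · rw [ww_of_not_reg _ hφ, ww_of_not_reg _ hφ]

theorem update_ne (Z : Bt N) (h : φ ≠ ψ) : μ.update ψ Z φ = μ φ := by
  rw [Finsupp.update_apply, if_neg h]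

theorem update_eq (Z : Bt N) : μ.update ψ Z ψ = Z := by
  rw [Finsupp.update_apply, if_pos rfl]

theorem W_update (hc : p ≠ ringChar k) (h : Basic p μ) (hψ : Reg p ψ) {Z : Bt N}
    (hZ : Mv (ee p ψ) (μ ψ) Z) : W p (μ.update ψ Z) + 1 = W p μ := by
  have h' := h.update hψ Z
  have h1 : ww p (μ.update ψ Z) ψ + 1 = ww p μ ψ := by
    rw [ww_basic hc h hψ, ww_basic hc h' hψ, update_eq, hZ.wt_add (ee_pos hc ψ)]
  obtain ⟨t, ht⟩ : ∃ t : Finset (I Φ), ∀ φ, 0 < ww p μ φ → φ ∈ t :=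
    ⟨(finite_support_ww (p := p) μ).toFinset, fun φ hφ => by simpa using hφ.ne'⟩
  have hm : ψ ∈ t := ht ψ (by omega)
  rw [W_eq_sum μ ht, W_eq_sum (t := t) _ fun φ hφ => ?_, ← add_sum_erase _ _ hm,
    ← add_sum_erase _ _ hm, ← h1, add_right_comm]
  · congr 1
    exact sum_congr rfl fun φ hφ => ww_congr h' h (update_ne Z (ne_of_mem_erase hφ))
  · by_cases e : φ = ψ
    · exact e ▸ hm
    · exact ht φ (ww_congr h' h (update_ne Z e) ▸ hφ)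

theorem ww_eq_zero (h : W p μ = 0) (φ : I Φ) : ww p μ φ = 0 := by
  by_contra h0
  have h1 : φ ∈ (finite_support_ww (p := p) μ).toFinset := by simpa using h0
  rw [W_eq_sum (t := (finite_support_ww (p := p) μ).toFinset) μ fun φ hφ => by simpa using hφ.ne',
    sum_eq_zero_iff] at h
  exact h0 (h φ h1)

theorem exists_ww_pos (h : W p μ ≠ 0) : ∃ φ, 0 < ww p μ φ := by
  by_contra h0
  exact h (W_eq_sum (t := ∅) μ fun φ hφ => (h0 ⟨φ, hφ⟩).elim)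

theorem Y1_of_cd (h : cd p ν = cd p μ) (hz : Y1 p μ z) : Y1 p ν z :=
  ⟨hz.1, hz.2.1, (cd_act_congr hz.1 h).trans (hz.2.2.1.trans h.symm),
    ww_eq_of_cd h ▸ hz.2.2.2⟩

theorem Y1_update (h : Basic p μ) (hψ : 0 < ww p μ ψ) (Z : Bt N) (hz : Y1 p μ z) :
    Y1 p (μ.update ψ Z) z := by
  have h' := h.update (reg_of_ww_pos hψ) Z
  obtain ⟨h1, h2, h3, h4⟩ := hz
  have h5 : mulI z ψ = ψ := mulI_eq_iff.2 ((h4 ψ hψ).elim fun i hi => ⟨_, hi⟩)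
  refine ⟨h1, h2, funext fun φ => ?_, fun φ hφ => h4 φ ?_⟩
  · have h6 := congrFun h3 φ
    rw [cd_act h1, pRegPartK_eq_self_iff.2 h2] at h6 ⊢
    by_cases e : φ = ψ
    · rw [e, ← h5, mulI_inv_mulI h1, h5]
    · rw [cd_congr h' h (update_ne Z e), ← h6]
      refine cd_congr h' h (update_ne Z fun e' => e ?_)
      rw [← h5, ← e', mulI_mulI_inv h1]
  · by_cases e : φ = ψ
    · exact e ▸ hψ
    · exact ww_congr h' h (update_ne Z e) ▸ hφ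

/-- the labels in the class of a cuspidal label -/
theorem eq_single {X : Bt N} (hψ : Reg p ψ) (hX : sz N X.1 = 1)
    (h : cd p ν = cd p (Finsupp.single ψ X)) :
    ∃ φ Y, φ.per = ψ.per ∧ sz N Y.1 = 1 ∧ ν = Finsupp.single φ Y := by
  have h1 : nn p ν ψ ≠ 0 := by
    rw [nn_eq_of_cd h, (Basic.single hψ X).nn_eq', Finsupp.single_eq_same, hX]; exact one_ne_zero
  have h2 : deg ν = ψ.per := by rw [deg_eq_of_cd h, deg_single, hX, mul_one]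
  rw [Ne, nn_eq_zero_iff, not_forall] at h1
  obtain ⟨φ, h1⟩ := h1
  rw [Classical.not_imp] at h1
  have h3 := per_mul_sz_le_deg ν φ
  have h4 := Nat.le_of_dvd (per_pos φ) (h1.1 ▸ per_rpI_dvd (p := p) φ)
  have h5 : 0 < sz N (ν φ).1 := Nat.pos_of_ne_zero fun h0 => h1.2 (GLn.Bt.sz_eq_zero_iff.1 h0)
  have h6 := deg_update_add ν φ 0
  have h7 := per_pos ψ
  have h8 : sz N (ν φ).1 = 1 := by nlinarith
  rw [h8, GLn.sz_zero] at h6
  rw [h8] at h3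
  refine ⟨φ, ν φ, by omega, h8, Finsupp.ext fun o => ?_⟩
  by_cases e : o = φ
  · rw [e, Finsupp.single_eq_same]
  · rw [Finsupp.single_eq_of_ne e, ← update_ne 0 e, deg_eq_zero_iff.1 (by omega : deg (ν.update φ 0) = 0)]
    rfl

variable {ι : Type} [Fintype ι] [DecidableEq ι] {χ : IrrCharacter (Φ.G ι)} {M : Ideal AlgInt}

theorem mc_of (hPl : StPl.{u}) (hI : StIrr k) (hM : IsPModular p M) (hL : Lab μ χ)
    (hz : z ∈ Mk Φ 1) (ha : act z μ = μ) (hc : ∀ χ' ∈ blockOf M χ.1, ∀ g, χ'.1 g ≠ 0 →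
      pPart p g ∈ Subgroup.center (Φ.G ι)) : MC p M (blockOf M χ.1) (lin Φ ι z).ker := by
  obtain ⟨D, hD⟩ := (isPBlock_blockOf χ).exists_isDefectGroup hM
  refine hPl.mc0 _ p M hM χ D hD (hPl.cen _ p M hM _ (isPBlock_blockOf χ) hc D hD) _
    fun g hg => ?_
  by_contra h0
  have h1 := congrFun (hI.tens Φ ι N μ z hz) g
  rw [ha] at h1
  exact hg (Units.ext ((mul_eq_right₀ (hL.apply_ne.2 h0)).1 h1.symm))

theorem pPart_central (hc : p ≠ ringChar k) {g : Φ.G ι} {τ : kˣ} (hτ : τ ∈ Mk Φ 1)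
    (h1 : ∃ a, orderOf τ = p ^ a) (h : ∀ α ∈ eig g.1, pPart p α = τ) :
    pPart p g ∈ Subgroup.center (Φ.G ι) := by
  obtain ⟨x, hx⟩ : ∃ x : Φ.G ι, x.1 = scal ι τ := ⟨⟨_, scal_mem_G_of_Mk hτ⟩, rfl⟩
  have h2 : x ∈ Subgroup.center (Φ.G ι) := Subgroup.mem_center_iff.2 fun y => Subtype.ext (by
    rw [Subgroup.coe_mul, Subgroup.coe_mul, hx, scal_comm])
  have h3 : pPart p (x * (x⁻¹ * g)) = x := by
    refine pPart_mul_of_commute (Subgroup.mem_center_iff.1 h2 _).symm ?_ ?_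
    · obtain ⟨a, ha⟩ := h1
      exact ((Nat.dvd_prime_pow hp.out).1 (ha ▸ Subgroup.orderOf_coe x ▸ hx ▸
        orderOf_map_dvd (scal ι) τ : orderOf x ∣ p ^ a)).imp fun _ h => h.2
    · rw [← Subgroup.orderOf_coe, dvd_orderOf_iff_eig hp.out hc, Subgroup.coe_mul, Subgroup.coe_inv,
        hx, ← map_inv, eig_scal_mul]
      rintro ⟨_, hα, h4⟩
      obtain ⟨α, h5, rfl⟩ := Multiset.mem_map.1 hα
      rw [← h α h5] at h4
      exact not_dvd_orderOf_pRegPartK α h4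
  rw [mul_inv_cancel_left] at h3
  exact h3 ▸ h2

/-- the blocks of the cuspidal characters -/
theorem cen_single (hB : StBlk k) (hC : StCh k) (hI : StIrr k) (hc : p ≠ ringChar k)
    (hM : IsPModular p M) (hN : Fintype.card ι ≤ N) {X : Bt N} (hψ : Reg p ψ) (hX : sz N X.1 = 1)
    (hL : Lab (Finsupp.single ψ X) χ) (h : ∀ τ ∈ Lk Φ p ψ.per, τ ∈ Mk Φ 1) :
    ∀ χ' ∈ blockOf M χ.1, ∀ g, χ'.1 g ≠ 0 → pPart p g ∈ Subgroup.center (Φ.G ι) := by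
  intro χ' hχ' g hg
  obtain ⟨ν, hν⟩ := exists_lab' hI hN χ'
  obtain ⟨φ, Y, h1, h2, rfl⟩ := eq_single hψ hX (hB.cd_eq Φ ι p hc M hM N _ _ _ _ hN hL hν hχ')
  have h3 := hν.apply_ne.2 hg
  rw [Ch, chi_single_one φ h2, h1] at h3
  obtain ⟨t, ht, h4⟩ := hC.prim Φ ι _ _ g (per_pos ψ) h3
  have h5 := h _ (mem_Lk.2 ⟨pPart_mem_Mk ht, exists_orderOf_pPartK t⟩)
  refine pPart_central hc h5 (exists_orderOf_pPartK t) fun α hα => ?_
  obtain ⟨i, rfl⟩ := io_eq_iff.1 (h4 α hα).symm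
  rw [pPartK_zpow, pow_q_of_mem_one h5]

theorem lin_inl {e n j : ℕ} (D : Dec ι (d2 e) (m2 n j) (fun _ => 1) Φ) (z : kˣ) :
    (lin Φ ι z).comp (D.f2.comp (MonoidHom.inl _ _)) = lin Φ (Fin n) z := by
  refine MonoidHom.ext fun y => ?_
  change pr Φ 1 z (GeneralLinearGroup.det (D.f2 (y, 1)).1) = pr Φ 1 z (GeneralLinearGroup.det y.1)
  rw [D.det_f2]
  simp

theorem lin_inr {e n j : ℕ} (D : Dec ι (d2 e) (m2 n j) (fun _ => 1) Φ) (hz : z ∈ Mk Φ 1) :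
    (lin Φ ι z).comp (D.f2.comp (MonoidHom.inr _ _)) = lin (Φ.pow e) (Fin j) z := by
  refine MonoidHom.ext fun y => ?_
  change pr Φ 1 z (GeneralLinearGroup.det (D.f2 (1, y)).1) =
    pr (Φ.pow e) 1 z (GeneralLinearGroup.det y.1)
  have h := det_mem_Mk y.2
  rw [Mk_pow D.pos2, mul_one] at h
  rw [D.det_f2, pr_pow_frob D.pos2, mul_one, pr_of_mem_one hz h]
  simp

theorem pow_mul_eq (hz : z ∈ Mk Φ 1) {s : kˣ} {c : ℕ} (h : z * s = s ^ Φ.Q ^ c) (a : ℕ) :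
    z ^ a * s = s ^ Φ.Q ^ (c * a) := by
  induction a with
  | zero => simp
  | succ a ih =>
    rw [mul_add, mul_one, ← Cnt.pow_pow_q, ← ih, mul_zpow, pow_q_of_mem_one (pow_mem_Mk hz a), ← h,
      pow_succ, mul_assoc]

theorem act_single {e b : ℕ} (he : e = e0 Φ p * p ^ b) (h0 : 0 < e) (hz : z ∈ Mk Φ 1)
    (h1 : ¬ p ∣ orderOf z) {s : kˣ} {i : ℕ} (h : z * s = s ^ Φ.Q ^ (e0 Φ p * i)) (X : Bt N) :
    z ∈ Mk (Φ.pow e) 1 ∧
      act z (Finsupp.single (io (Φ.pow e) s) X) = Finsupp.single (io (Φ.pow e) s) X := by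
  have h2 : z ∈ Mk (Φ.pow e) 1 := by
    rw [Mk_pow h0, mul_one]; exact mem_Mk_of_dvd h0 (one_dvd e) hz
  obtain ⟨m, hm⟩ := exists_pow_eq_self_of_coprime (x := z) (n := p ^ b)
    (Nat.Coprime.pow_left b ((Nat.Prime.coprime_iff_not_dvd hp.out).2 h1))
  have h3 : mulI z (io (Φ.pow e) s) = io (Φ.pow e) s := by
    rw [mulI_io h2, eq_comm, io_pow_eq_iff h0]
    refine ⟨i * m, ?_⟩
    rw [← hm, ← pow_mul, pow_mul_eq hz h, he]
    congr 2; ring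
  refine ⟨h2, (act_eq_self_iff h2).2 fun φ => ?_⟩
  by_cases e : φ = io (Φ.pow e) s
  · rw [e, h3]
  · rw [Finsupp.single_eq_of_ne e, Finsupp.single_eq_of_ne fun e' => e
      (mulI_injective h2 (e'.trans h3.symm))]

/-- removal of a hook -/
theorem step (hPe : StPeel k) (hE : StEmb k) (hI : StIrr k) (hc : p ≠ ringChar k)
    (hN : Fintype.card ι ≤ N) (hb : Basic p μ) (hL : Lab μ χ) (hψ : 0 < ww p μ ψ) :
    ∃ (e n j b : ℕ) (D : Dec ι (d2 e) (m2 n j) (fun _ => 1) Φ) (x : (Φ.pow e).G (Fin j))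
      (Z X : Bt N) (θ₀ : IrrCharacter (Φ.G (Fin n))) (θ₁ : IrrCharacter ((Φ.pow e).G (Fin j))),
      n < Fintype.card ι ∧ j ≤ Fintype.card ι ∧ e = e0 Φ p * p ^ b ∧ x ≠ 1 ∧ Cen p D.f2 1 x ∧
      (∀ τ ∈ Lk (Φ.pow e) p (io (Φ.pow e) ψ.rep).per, τ ∈ Mk (Φ.pow e) 1) ∧
      Mv (ee p ψ) (μ ψ) Z ∧ sz N X.1 = 1 ∧ Lab (μ.update ψ Z) θ₀ ∧
      Lab (Finsupp.single (io (Φ.pow e) ψ.rep) X) θ₁ ∧ pair3 p D.f2 1 x χ.1 θ₀.1 θ₁.1 ≠ 0 := by
  have hr := reg_of_ww_pos hψ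
  rw [ww_basic hc hb hr] at hψ
  obtain ⟨Y, hY⟩ := exists_Mv hψ.ne'
  have r0 := ee_pos hc ψ
  have m0 := Nat.mul_pos (per_pos ψ) r0
  have hm : ψ.per * ee p ψ ≤ Fintype.card ι :=
    (Nat.mul_le_mul_left _ (hY.sz_add ▸ Nat.le_add_left _ _)).trans
      (hL.1 ▸ per_mul_sz_le_deg μ ψ)
  obtain ⟨ξ, hξ, ho⟩ := exists_orderOf_eq (Φ := Φ) m0 (nl_dvd (p := p) _)
  have h1 : ξ ≠ 1 := fun h => ((one_lt_nl_iff m0).2 ((e0_dvd_per_mul_iff ψ _).2 dvd_rfl)).ne' (by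
    rw [← ho, h, orderOf_one])
  have h2 : ∃ a, orderOf ξ = p ^ a := ⟨_, ho⟩
  obtain ⟨b, hb'⟩ := per_io_of_pElt (Φ := Φ) hc h2 h1
  obtain ⟨e, he⟩ : ∃ e, (io Φ ξ).per = e := ⟨_, rfl⟩
  have e0' : 0 < e := he ▸ per_pos (io Φ ξ)
  have hξe : ξ ∈ Mk Φ e := he ▸ mem_Mk_self ξ
  obtain ⟨j, hj⟩ : e ∣ ψ.per * ee p ψ := he ▸ (mem_Mk_per m0).1 hξ
  have hl : Nat.lcm ψ.per e = ψ.per * ee p ψ :=
    Nat.dvd_antisymm (Nat.lcm_dvd (dvd_mul_right _ _) ⟨j, hj⟩) (by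
      rw [per_mul_ee]
      exact Nat.lcm_dvd (Nat.dvd_lcm_left _ _)
        ((he ▸ hb' ▸ dvd_mul_right _ _ : e0 Φ p ∣ e).trans (Nat.dvd_lcm_right _ _)))
  obtain ⟨n, hn⟩ := Nat.exists_eq_add_of_le' hm
  obtain ⟨D⟩ := hE Φ ι Bool (d2 e) (m2 n j) (fun b => by cases b <;> [exact one_pos; exact e0'])
    (by rw [hn, hj, Fintype.sum_bool]; simp [add_comm])
  obtain ⟨x, hx⟩ : ∃ x : (Φ.pow e).G (Fin j), x.1 = scal _ ξ := ⟨⟨_, scal_mem_G_of_Mk hξe⟩, rfl⟩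
  obtain ⟨Z, hZ, hs⟩ := hPe Φ ι p hp.out hc e n j D ξ (pElt_iff.1 h2) he h1 N μ ψ _ Y hN hb hL.1
    r0 hl hj.symm hY x hx
  obtain ⟨X, hX⟩ := exists_sz (N := N) (by omega) 1
  have hp' : (io (Φ.pow e) ψ.rep).per = j := Nat.eq_of_mul_eq_mul_left e0' (by
    rw [mul_per_io_pow e0', io_rep, hl, hj])
  have j0 : 0 < j := hp' ▸ per_pos (io (Φ.pow e) ψ.rep)
  obtain ⟨θ₀, h₀⟩ := exists_lab (ι := Fin n) (μ := μ.update ψ Z) hI (by
    have := deg_update_add μ ψ Z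
    rw [← hZ.sz_add, hL.1, hn, mul_add] at this
    rw [Fintype.card_fin]; omega)
  obtain ⟨θ₁, h₁⟩ := exists_lab (ι := Fin j) (μ := Finsupp.single (io (Φ.pow e) ψ.rep) X) hI (by
    rw [deg_single, hp', hX, mul_one, Fintype.card_fin])
  have : Nonempty (Fin j) := ⟨⟨0, j0⟩⟩
  have h3 : orderOf x = orderOf ξ := by
    rw [← Subgroup.orderOf_coe, hx, orderOf_injective _ scal_injective]
  refine ⟨e, n, j, b, D, x, Z, X, θ₀, θ₁, by omega, by nlinarith, he ▸ hb', fun h => h1 ?_,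
    ⟨D.f2_injective, D.range_f2_eq (one_mem_Mk one_pos) he h1.symm (map_one _).symm hx, ?_⟩,
    fun τ hτ => ?_, hZ, hX, h₀, h₁, hL.pair3_ne h₀ h₁ ?_⟩
  · rw [← orderOf_eq_one_iff, ← h3, h, orderOf_one]
  · rw [orderOf_injective _ D.f2_injective, Prod.orderOf_mk, orderOf_one, Nat.lcm_one_left, h3]
    exact h2
  · rw [hp', Lk_pow e0', ← hj, mem_Lk' m0, ← ho, ← orderOf_dvd_iff_pow_eq_one] at hτ
    rw [Mk_pow e0', mul_one, mem_Mk_orderOf e0']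
    exact hτ.trans ((mem_Mk_orderOf e0').1 hξe)
  · rw [pair3, Ch.eq_1 (Fin j), chi_single_one _ hX, hp', P_rep_io (hp' ▸ mem_Mk_self _)]
    simpa only [one_mul] using hs

theorem mc (hB : StBlk k) (hPe : StPeel k) (hE : StEmb k) (hPl : StPl.{u}) (hC : StCh k)
    (hI : StIrr k) (hc : p ≠ ringChar k) (hM : IsPModular p M) (n : ℕ) :
    ∀ (ι : Type) [Fintype ι] [DecidableEq ι] (μ : MP Φ N) (χ : IrrCharacter (Φ.G ι)),
    Fintype.card ι = n → n ≤ N → Lab μ χ → Y1 p μ z → MC p M (blockOf M χ.1) (lin Φ ι z).ker := by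
  induction n using Nat.strong_induction_on with
  | _ n ih =>
  rintro ι _ _ μ χ rfl hN hL hz
  obtain ⟨ν, χ', h1, h2, h3⟩ := hB.basic Φ ι p hc M hM N χ hN
  replace hz := Y1_of_cd (hB.cd_eq Φ ι p hc M hM N μ ν χ χ' hN hL h3 h1) hz
  rw [(isPBlock_blockOf χ).eq_blockOf hM h1]
  by_cases h0 : W p ν = 0
  · have h4 (ν' : MP Φ N) (h : cd p ν' = cd p ν) : ν' = ν :=
      Finsupp.ext fun φ => (Cnt.eq_of_inactive hc h.symm (ww_eq_zero h0 _)).symm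
    have h5 (θ) (hθ : θ ∈ blockOf M χ'.1) : θ = χ' := by
      obtain ⟨ν', h⟩ := exists_lab' hI hN θ
      exact (h4 ν' (hB.cd_eq Φ ι p hc M hM N ν ν' χ' θ hN h3 h hθ) ▸ h).unique' h3
    refine mc_of hPl hI hM h3 hz.1 (h4 _ hz.2.2.1) fun θ hθ g hg => ?_
    rw [pPart_eq_one_iff.2 fun h => ?_]
    · exact one_mem _
    have h6 := ((isPBlock_blockOf χ').isBlockUnion hM).sum_one_mul_eq_zero hM h
    rw [sum_eq_single_of_mem θ (mem_irrFinset.2 hθ) fun θ' h7 h8 =>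
      (h8 ((h5 θ' (mem_irrFinset.1 h7)).trans (h5 θ hθ).symm)).elim] at h6
    exact mul_ne_zero θ.one_ne_zero hg h6
  obtain ⟨ψ, hψ⟩ := exists_ww_pos h0
  obtain ⟨e, n, j, b, D, x, Z, X, θ₀, θ₁, s1, s2, s3, -, s4, s5, -, s7, s8, s9, s10⟩ :=
    step hPe hE hI hc hN h2 h3 hψ
  refine hPl.mc _ _ _ p M hM D.f2 1 x s4 χ' θ₀ θ₁ s10 _ ?_ ?_
  · rw [MonoidHom.comap_ker, lin_inl]
    exact ih n s1 _ _ θ₀ (Fintype.card_fin n) (s1.le.trans hN) s8 (Y1_update h2 hψ Z hz)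
  · rw [MonoidHom.comap_ker, lin_inr D hz.1]
    obtain ⟨i, hi⟩ := hz.2.2.2 ψ hψ
    obtain ⟨t1, t2⟩ := act_single s3 D.pos2 hz.1 hz.2.1 hi X
    exact mc_of hPl hI hM s9 t1 t2 (cen_single hB hC hI hc hM
      ((Fintype.card_fin j).le.trans (s2.trans hN)) (reg_io.2 (reg_of_ww_pos hψ)) s7 s9 s5)

theorem dg1 (hB : StBlk k) (hPe : StPeel k) (hE : StEmb k) (hI : StIrr k) (hc : p ≠ ringChar k)
    (hM : IsPModular p M) (n : ℕ) :
    ∀ (ι : Type) [Fintype ι] [DecidableEq ι] (μ : MP Φ N) (χ : IrrCharacter (Φ.G ι)),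
    Fintype.card ι = n → n ≤ N → Lab μ χ → ∀ D, IsDefectGroup p M (blockOf M χ.1) D →
    ∃ E : Subgroup (Φ.G ι), Nat.card E = p ^ W p μ ∧ (∀ a ∈ E, ∀ b ∈ E, a * b = b * a) ∧
      (∀ a ∈ E, a ^ p = 1) ∧ IsConjLE E D := by
  induction n using Nat.strong_induction_on with
  | _ n ih =>
  rintro ι _ _ μ χ rfl hN hL R hR
  obtain ⟨ν, χ', h1, h2, h3⟩ := hB.basic Φ ι p hc M hM N χ hN
  rw [← W_eq_of_cd (hB.cd_eq Φ ι p hc M hM N μ ν χ χ' hN hL h3 h1)]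
  by_cases h0 : W p ν = 0
  · exact ⟨⊥, by simp [h0], by simp, by simp, .of_le bot_le⟩
  obtain ⟨ψ, hψ⟩ := exists_ww_pos h0
  obtain ⟨e, n, j, b, D, x, Z, X, θ₀, θ₁, s1, -, -, s3, s4, -, s6, -, s8, -, s10⟩ :=
    step hPe hE hI hc hN h2 h3 hψ
  have h4 : ∃ a, orderOf x = p ^ a := by
    have := s4.pelt
    rwa [orderOf_injective _ s4.inj, Prod.orderOf_mk, orderOf_one, Nat.lcm_one_left] at this
  obtain ⟨D1, D2, t1, -, t2, t3⟩ := GLn.peel hM D.f2 s4.inj s4.range h4 (isPBlock_blockOf χ) h1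
    θ₀ θ₁ (by simpa only [pair3, one_mul] using s10) hR
  obtain ⟨E, t4, t5, t6, t7⟩ := ih n s1 _ _ θ₀ (Fintype.card_fin n) (s1.le.trans hN) s8 D1 t1
  obtain ⟨a, ha⟩ := h4
  have h5 : p ∣ orderOf x := ha ▸ dvd_pow_self p fun h => s3 (by
    rwa [h, pow_zero, orderOf_eq_one_iff] at ha)
  obtain ⟨t8, t9, t10⟩ := GLn.DG.ext_elem D.f2 s4.inj t4 t5 t6
    (orderOf_pow_orderOf_div (orderOf_pos x).ne' h5)
  exact ⟨_, W_update hc h2 (reg_of_ww_pos hψ) s6 ▸ t8, t9, t10, (GLn.isConjLE_prod_map D.f2 t7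
    (.of_le ((Subgroup.zpowers_le).2 (pow_mem t2 _)))).trans t3⟩

end MCp

variable (k : Type u) [Field k] [Big k]

/-- piece `MC` -/
theorem stMC (hB : StBlk k) (hPe : StPeel k) (hE : StEmb k) (hPl : StPl.{u}) (hC : StCh k)
    (hI : StIrr k) : StMC k := fun _ ι _ _ _ hc _ hM _ μ χ hN hL _ hz =>
  have := Fact.mk hM.prime
  MCp.mc hB hPe hE hPl hC hI hc hM _ ι μ χ rfl hN hL hz

/-- piece `DG1` -/
theorem stDG1 (hB : StBlk k) (hPe : StPeel k) (hE : StEmb k) (hI : StIrr k) : StDG1 k :=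
  fun _ ι _ _ _ hc _ hM _ μ χ hN hL =>
  have := Fact.mk hM.prime
  MCp.dg1 hB hPe hE hI hc hM _ ι μ χ rfl hN hL

end Cfsg.GUn
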