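import Cfsg.Agent.GUn.Lab
import Cfsg.Agent.GUn.JtB
import Cfsg.Agent.GLn.Two
import Cfsg.Agent.Blk.Quotient

/-! S4537: assembly of the main theorem from the pieces. -/

set_option autoImplicit false
set_option linter.unusedSectionVars false

namespace Cfsg.GUn

open Matrix Finset

universe u v

namespace Main

theorem transport_iso {G : Type u} {H : Type v} [Group G] [Group H] [Finite G] (e : H ≃* G)
    {p s : ℕ} {M : Ideal AlgInt} (hM : IsPModular p M)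
    (h : ∀ (b : Set (IrrCharacter H)) (Q : Subgroup H), IsPBlock M b → IsDefectGroup p M b Q →
      SectionalPRankLE p s Q → blockRank p b ≤ p ^ s)
    {B : Set (IrrCharacter G)} (hB : IsPBlock M B) {D : Subgroup G} (hD : IsDefectGroup p M B D)
    (hs : SectionalPRankLE p s D) : blockRank p B ≤ p ^ s := by
  have : Finite H := Finite.of_equiv _ e.symm.toEquiv
  have := Fintype.ofFinite H
  have hb := hB.image_comap_of_not_dvd hM e.toMonoidHom e.surjective (by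
    rw [(MonoidHom.ker_eq_bot_iff _).2 e.injective, Subgroup.card_bot, Nat.dvd_one]
    exact hM.prime.ne_one)
  obtain ⟨χ, hχ⟩ := hB.nonempty hM
  refine (blockRank_image_congr hM.prime e.symm B).symm.trans_le (h _ _ hb
    (GLn.isDefectGroup_comap_of_cover hM e.toMonoidHom e.injective (by
      rw [MonoidHom.range_eq_top.2 e.surjective, top_sup_eq]) hB hb
      ⟨χ, hχ, _, ⟨χ, hχ, rfl⟩, ?_⟩ hD) (hs.of_injective (e.toMonoidHom.subgroupComap D) ?_))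
  · exact ((IrrCharacter.comap e.toMonoidHom e.surjective χ).classInner_self).trans_ne one_ne_zero
  · exact fun x y h => Subtype.ext (e.injective (congrArg Subtype.val h))

variable {k : Type u} [Field k] [Big k] (Φ : Frob k) (ι : Type) [Fintype ι] [DecidableEq ι]

scoped instance : Finite (MG Φ 1) := finite_MG one_pos

scoped instance : (SG Φ ι).Normal := MonoidHom.normal_ker _

/-- the determinant -/
noncomputable def dl : Φ.G ι →* MG Φ 1 :=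
  (GeneralLinearGroup.det.comp (Φ.G ι).subtype).codRestrict _ fun g =>
    (mem_MG one_pos).2 (det_mem_Mk g.2)

theorem ker_dl : SG Φ ι = (dl Φ ι).ker := (MonoidHom.ker_codRestrict _ _ _).symm

/-- diagonal matrices -/
noncomputable def dg : (ι → kˣ) →* GL ι k :=
  (Units.map (Matrix.diagonalRingHom ι k).toMonoidHom).comp MulEquiv.piUnits.symm.toMonoidHom

theorem dg_val (f : ι → kˣ) : (dg ι f).val = diagonal fun i => (f i : k) := rfl

theorem Fr_dg (f : ι → kˣ) : Φ.Fr ι (dg ι f) = dg ι fun i => f i ^ Φ.Q := by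
  refine Units.ext ?_
  have : (if Φ.neg then (dg ι f)⁻¹ else dg ι f) = dg ι fun i => if Φ.neg then (f i)⁻¹ else f i := by
    split_ifs
    · exact (map_inv _ _).symm
    · rfl
  rw [Φ.Fr_val, this, dg_val, dg_val, Frob.mat, diagonal_map (map_zero _), diagonal_transpose,
    ite_self]
  exact congrArg diagonal (funext fun i => σ_val _)

theorem dl_surjective [Nonempty ι] : Function.Surjective (dl Φ ι) := fun z => by
  obtain ⟨i⟩ := ‹Nonempty ι›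
  have hz := pow_of_mem_Mk ((mem_MG one_pos).1 z.2)
  rw [pow_one] at hz
  refine ⟨⟨dg ι (Pi.mulSingle i z.1), (Fr_dg Φ ι _).trans (congrArg _ (funext fun j => ?_))⟩,
    Subtype.ext (Units.ext ?_)⟩
  · rw [Pi.mulSingle_apply]; split_ifs
    · exact hz
    · exact one_zpow _
  · change (dg ι (Pi.mulSingle i z.1)).val.det = _
    rw [dg_val, det_diagonal, ← Units.coe_prod, Finset.prod_pi_mulSingle', if_pos (mem_univ _)]

/-- the characters of the determinant group -/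
noncomputable def cc (z : kˣ) : MG Φ 1 →* ℂˣ := (pr Φ 1 z).comp (MG Φ 1).subtype

theorem cc_comp (z : kˣ) : (cc Φ z).comp (dl Φ ι) = lin Φ ι z := rfl

theorem cc_inj {z w : kˣ} (hz : z ∈ Mk Φ 1) (hw : w ∈ Mk Φ 1) (h : cc Φ z = cc Φ w) : z = w :=
  eq_of_pr_eq hz hw fun x hx => DFunLike.congr_fun h ⟨x, (mem_MG one_pos).2 hx⟩

theorem cc_surj (l : MG Φ 1 →* ℂˣ) : ∃ z ∈ Mk Φ 1, cc Φ z = l ∧ orderOf z = orderOf l := by
  have hm : ∀ z : MG Φ 1, z.1 ∈ Mk Φ 1 := fun z => (mem_MG one_pos).1 z.2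
  let c : MG Φ 1 →* (MG Φ 1 →* ℂˣ) := MonoidHom.mk' (fun z => cc Φ z.1) fun a b =>
    MonoidHom.ext fun x => pr_mul (hm a) (hm b) (hm x)
  have hc : Function.Injective c := fun a b h => Subtype.ext (cc_inj Φ (hm a) (hm b) h)
  have : NeZero (Monoid.exponent (MG Φ 1)) := ⟨Monoid.exponent_ne_zero_of_finite⟩
  have h1 := CommGroup.card_monoidHom_of_hasEnoughRootsOfUnity (MG Φ 1) ℂ
  have : Finite (MG Φ 1 →* ℂˣ) := Nat.finite_of_card_ne_zero (by rw [h1]; exact Nat.card_pos.ne')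
  obtain ⟨z, rfl⟩ := (hc.bijective_of_nat_card_le h1.le).2 l
  exact ⟨z.1, hm z, rfl, (Subgroup.orderOf_coe z).trans (orderOf_injective c hc z).symm⟩

variable {Φ ι} {p N : ℕ} [hp : Fact p.Prime] {M : Ideal AlgInt} {μ : MP Φ N}
  {χ : IrrCharacter (Φ.G ι)}

theorem tens (hI : StIrr k) {z : kˣ} (hz : z ∈ Mk Φ 1) (ν : MP Φ N) :
    (fun g => (cc Φ z (dl Φ ι g) : ℂ) * pRegularPart p (Ch ι ν) g) =
      pRegularPart p (Ch ι (act z ν)) := by
  rw [hI.tens Φ ι N ν z hz]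
  exact (pRegularPart_mul_right (fun g => (lin Φ ι z g : ℂ)) (Ch ι ν)).symm

theorem count (hI : StIrr k) (hCl : StCls k) (hB : StBlk k) (hCC : StCC.{u}) (hW : StW k)
    (hK : StCnt k) (hc : p ≠ ringChar k) (hM : IsPModular p M) [Nonempty ι]
    (hN : Fintype.card ι ≤ N) (hμ : Lab μ χ) [Fintype (SG Φ ι)] {b : Set (IrrCharacter (SG Φ ι))}
    (hb : IsPBlock M b) {θ : IrrCharacter (SG Φ ι)} (hθ : θ ∈ b)
    (hχ : classInner (fun n : SG Φ ι => χ.1 n) θ.1 ≠ 0) (hX : (XS p μ).Finite) {Y : Finset kˣ}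
    (hY : ∀ z ∈ Y, Y1 p μ z) {a : ℕ}
    (ha : ∀ c, p ^ c ∣ NN Φ 1 → (∀ ψ, p ^ c ∣ nn p μ ψ) → c ≤ a) :
    #Y * blockRank p b ≤ p ^ a * fxs p μ := by
  classical
  have hind : LinearIndependent ℂ fun i : hX.toFinset => pRegularPart p (Ch ι i.1) :=
    (hCl.ind Φ ι p hp.out hc N).comp (fun i : hX.toFinset =>
      ⟨i.1, (hX.mem_toFinset.1 i.2).1, (hX.mem_toFinset.1 i.2).2.1.trans hμ.1⟩)
      fun i j h => Subtype.ext (Subtype.mk.inj h)
  have hact : ∀ z ∈ TT p μ, ∀ ν ∈ XS p μ, act z ν ∈ XS p μ := fun z hz ν hν => by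
    obtain ⟨h1, h2, h3⟩ := mem_filter.1 hz
    refine ⟨fun o ho => ?_, (deg_act h1 ν).trans hν.2.1, (cd_act_congr h1 hν.2.2).trans h3⟩
    exact (reg_mulI_iff (inv_mem_Mk h1) (by rwa [orderOf_inv])).1
      (hν.1 _ ((mem_support_act h1).1 ho))
  refine (hCC (Φ.G ι) (MG Φ 1) (dl Φ ι) (dl_surjective Φ ι) (SG Φ ι) (ker_dl Φ ι) p M hM (UU ι p μ)
    (hB.union Φ ι p hc M hM N μ hN) (p ^ a) (pow_pos hp.out.pos a) ?_ (MP Φ N) hX.toFinset
    (fun ν => pRegularPart p (Ch ι ν)) hind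
    (by rw [hX.coe_toFinset]; exact hB.span Φ ι p hp.out hc N μ hN hμ.1) kˣ (cc Φ) (TT p μ) ?_ ?_
    b hb ⟨χ, ⟨μ, hμ, rfl⟩, θ, hθ, hχ⟩ Y (fun z hz w hw => cc_inj Φ (hY z hz).1 (hY w hw).1)
    fun z hz => hW Φ ι p hc M hM N μ χ hN hμ z (hY z hz) b hb
      ⟨χ, hM.mem_blockOf_self _, θ, hθ, hχ⟩).trans_eq (congrArg _ (sum_congr rfl fun z hz => ?_))
  · rintro χ' ⟨ν, hν, e⟩ l ⟨c, hl⟩ ht
    obtain ⟨z, hz, rfl, ho⟩ := cc_surj Φ l
    have h1 : orderOf (cc Φ z) ∣ p ^ c := orderOf_dvd_of_pow_eq_one hl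
    have h2 : act z ν = ν := (ht ▸ hν.twist hI hz : Lab (act z ν) χ').unique hI hν
    have h3 := hK.kap Φ p hp.out hc N ν z hz ⟨c, orderOf_dvd_iff_pow_eq_one.1 (ho ▸ h1)⟩ h2
    obtain ⟨d, -, hd⟩ := (Nat.dvd_prime_pow hp.out).1 h1
    rw [ho, hd, nn_eq_of_cd e] at h3
    refine (orderOf_dvd_iff_pow_eq_one (x := cc Φ z)).1 (hd ▸ ?_)
    exact pow_dvd_pow p (ha d (hd ▸ ho ▸ (mem_Mk_orderOf one_pos).1 hz) h3)
  · rintro l hl ⟨χ', ⟨ν, hν, e⟩, ν', hν', e'⟩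
    obtain ⟨z, hz, rfl, ho⟩ := cc_surj Φ l
    refine ⟨z, mem_filter.2 ⟨hz, ho ▸ hl, ?_⟩, rfl⟩
    rw [← cd_act_congr hz e, (hν.twist hI hz).unique hI hν', e']
  · exact fun z hz i hi => ⟨act z i, hX.mem_toFinset.2 (hact z hz i (hX.mem_toFinset.1 hi)),
      tens hI (mem_filter.1 hz).1 i⟩
  · rw [← Set.ncard_coe_finset]
    congr 1
    ext ν
    rw [coe_filter, Set.mem_ofPred, Set.mem_ofPred, hX.mem_toFinset, tens hI (mem_filter.1 hz).1]
    refine and_congr_right fun hν => ⟨fun h => ?_, fun h => by rw [h]⟩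
    exact congrArg Subtype.val (hind.injective (a₁ := ⟨_, hX.mem_toFinset.2 (hact z hz ν hν)⟩)
      (a₂ := ⟨_, hX.mem_toFinset.2 hν⟩) h)

theorem weight (h1 : StDG1 k) (hc : p ≠ ringChar k) (hM : IsPModular p M)
    (hN : Fintype.card ι ≤ N) (hμ : Lab μ χ) {D : Subgroup (Φ.G ι)}
    (hD : IsDefectGroup p M (blockOf M χ.1) D) {s : ℕ}
    (hs : SectionalPRankLE p s (D ⊓ SG Φ ι : Subgroup (Φ.G ι))) :
    W p μ ≤ s + 1 ∧ (¬ p ∣ NN Φ 1 → W p μ ≤ s) := by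
  obtain ⟨E, e1, e2, e3, x, hx⟩ := h1 Φ ι p hc M hM N μ χ hN hμ D hD
  have h3 : Nat.card (E ⊓ SG Φ ι : Subgroup (Φ.G ι)) ≤ p ^ s := by
    refine hs.card_le_of_isConjLE ⟨x, ?_⟩ (fun a ha b hb => e2 a ha.1 b hb.1) fun a ha => e3 a ha.1
    rintro _ ⟨a, ha, rfl⟩
    exact ⟨hx ⟨a, ha.1, rfl⟩, (MonoidHom.normal_ker _).conj_mem a ha.2 x⟩
  refine ⟨?_, fun h => ?_⟩
  · have := (card_le_mul_card_inf_ker (dl Φ ι) e3).trans (Nat.mul_le_mul_left p (ker_dl Φ ι ▸ h3))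
    rwa [e1, ← pow_succ', Nat.pow_le_pow_iff_right hp.out.one_lt] at this
  · suffices E ≤ SG Φ ι by
      rwa [inf_eq_left.2 this, e1, Nat.pow_le_pow_iff_right hp.out.one_lt] at h3
    intro a ha
    have h4 : orderOf (GeneralLinearGroup.det a.1) ∣ p := orderOf_dvd_of_pow_eq_one (by
      rw [← map_pow, ← Subgroup.coe_pow, e3 a ha, Subgroup.coe_one, map_one])
    rcases (Nat.dvd_prime hp.out).1 h4 with h5 | h5
    · exact orderOf_eq_one_iff.1 h5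
    · exact absurd (h5 ▸ (mem_Mk_orderOf one_pos).1 (det_mem_Mk a.2)) h

theorem pow_le_W (h : p ∣ NN Φ 1) (h0 : 0 < deg μ) {a : ℕ} (ha : ∀ ψ, p ^ a ∣ nn p μ ψ) :
    p ^ a ≤ W p μ := by
  classical
  obtain ⟨φ, hφ⟩ := Finsupp.support_nonempty_iff.2 (mt deg_eq_zero_iff.2 h0.ne')
  have h1 : nn p μ (rpI p φ) ≠ 0 := fun e =>
    Finsupp.mem_support_iff.1 hφ (nn_eq_zero_iff.1 e φ rfl)
  refine (Nat.le_of_dvd (Nat.pos_of_ne_zero h1) (ha _)).trans ?_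
  rw [← ww_eq_nn h] at h1 ⊢
  rw [W_eq_sum μ (t := (finite_support_ww μ).toFinset) fun ψ e => by simpa using e.ne']
  exact single_le_sum (fun _ _ => Nat.zero_le _) (by simpa using h1)

theorem arith {a w s : ℕ} (h1 : 2 ≤ a) (h2 : 2 ^ a ≤ w) (h3 : 3 * w ≤ 2 * s + 2) :
    a + w ≤ s + 1 := by
  have : 2 * a ≤ 2 ^ a := by
    obtain ⟨c, rfl⟩ := Nat.exists_eq_add_of_le' (one_le_two.trans h1)
    rw [pow_succ']
    exact Nat.mul_le_mul_left 2 Nat.lt_two_pow_self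
  omega

end Main

open Main

theorem stMain (k : Type u) [Field k] [Big k] (hI : StIrr k) (hCl : StCls k) (hB : StBlk k)
    (hCC : StCC.{u}) (hW : StW k) (h1 : StDG1 k) (h2 : StDG2 k) (hK : StCnt k) : StMain k := by
  intro Φ ι _ _ p hp hc M hM b hb Q hQ s hs
  classical
  rcases isEmpty_or_nonempty ι with h0 | h0
  · refine (Submodule.finrank_le _).trans ((Module.finrank_fintype_fun_eq_card ℂ).trans_le ?_)
    exact (Fintype.card_le_one_iff_subsingleton.2 inferInstance).trans (Nat.one_le_pow _ _ hp.out.pos)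
  obtain ⟨N, hN'⟩ : ∃ N, (p + 1) * Fintype.card ι ≤ N := ⟨_, le_rfl⟩
  have hN : Fintype.card ι ≤ N := (Nat.le_mul_of_pos_left _ (Nat.succ_pos _)).trans hN'
  obtain ⟨θ, hθ⟩ := hb.nonempty hM
  obtain ⟨χ, hχ⟩ := irrOver_nonempty θ
  obtain ⟨μ, hμ⟩ := exists_lab' hI hN χ
  obtain ⟨D, hD, hDQ⟩ := (isPBlock_blockOf (M := M) χ).exists_isDefectGroup_inf_eq hM hb
    ⟨_, hM.mem_blockOf_self _, θ, hθ, hχ⟩ (Q := Q.map (SG Φ ι).subtype)
    (Subgroup.map_subtype_le _) (by rwa [Subgroup.subgroupOf,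
      Subgroup.comap_map_eq_self_of_injective (Subgroup.subtype_injective _)])
  have hs' : SectionalPRankLE p s (D ⊓ SG Φ ι : Subgroup (Φ.G ι)) := hDQ ▸ hs.of_injective
    (Q.equivMapOfInjective _ (Subgroup.subtype_injective _)).symm.toMonoidHom
    (MulEquiv.injective _)
  have hd : 0 < deg μ := hμ.1 ▸ Fintype.card_pos
  obtain ⟨w1, w2⟩ := weight h1 hc hM hN hμ hD hs'
  obtain ⟨hX, Y, hY0, hY, c1, c2⟩ := hK.cnt Φ p hp.out hc N μ (hμ.1 ▸ hN') hd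
  obtain ⟨a, ⟨a1, a2⟩, ha⟩ : ∃ a, (p ^ a ∣ NN Φ 1 ∧ ∀ ψ, p ^ a ∣ nn p μ ψ) ∧
      ∀ c, p ^ c ∣ NN Φ 1 → (∀ ψ, p ^ c ∣ nn p μ ψ) → c ≤ a :=
    ⟨Nat.findGreatest (fun a => p ^ a ∣ NN Φ 1 ∧ ∀ ψ, p ^ a ∣ nn p μ ψ) (NN Φ 1),
      Nat.findGreatest_spec (P := fun a => p ^ a ∣ NN Φ 1 ∧ ∀ ψ, p ^ a ∣ nn p μ ψ) (Nat.zero_le _)
        (by simp), fun c h h' => Nat.le_findGreatest
          ((Nat.lt_pow_self hp.out.one_lt).le.trans (Nat.le_of_dvd (NN_pos one_pos) h)) ⟨h, h'⟩⟩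
  have key := count hI hCl hB hCC hW hK hc hM hN hμ hb hθ hχ hX hY ha
  have fin : ∀ {t}, t ≤ s → p ^ a * fxs p μ ≤ #Y * p ^ t → blockRank p b ≤ p ^ s := fun h h' =>
    (Nat.le_of_mul_le_mul_left (key.trans h') hY0.card_pos).trans
      (Nat.pow_le_pow_right hp.out.pos h)
  have hq : p ∣ NN Φ 1 ↔ (p : ℤ) ∣ Φ.Q - 1 := by rw [dvd_NN_iff, pow_one]
  by_cases h : p ∣ NN Φ 1
  · obtain ⟨c3, c4⟩ := c2 (hq.1 h)
    by_cases h2p : p = 2
    · subst h2p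
      have : a + W 2 μ ≤ s + 1 := by
        rcases Nat.lt_or_ge a 1 with h3 | h3
        · omega
        have h4 := h2 hc Φ ι M hM N μ χ hN hμ
          (fun ψ => even_iff_two_dvd.2 ((dvd_pow_self 2 (by omega)).trans (a2 ψ))) D hD s hs'
        rcases Nat.lt_or_ge a 2 with h5 | h5
        · omega
        refine arith h5 (pow_le_W h hd a2) (h4.2 ?_)
        simpa using dvd_NN_iff.1 ((pow_dvd_pow 2 h5).trans a1)
      refine fin le_rfl (Nat.le_of_mul_le_mul_left ?_ two_pos)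
      calc 2 * (2 ^ a * fxs 2 μ) = 2 ^ a * (2 * fxs 2 μ) := by ring
        _ ≤ 2 ^ a * (#Y * 2 ^ W 2 μ) := Nat.mul_le_mul_left _ c3
        _ = #Y * 2 ^ (a + W 2 μ) := by ring
        _ ≤ #Y * 2 ^ (s + 1) := Nat.mul_le_mul_left _ (Nat.pow_le_pow_right two_pos this)
        _ = _ := by ring
    · exact fin (by omega) (c4 h2p a a2)
  · obtain rfl : a = 0 := by_contra fun e => h ((dvd_pow_self p e).trans a1)
    exact fin (w2 h) (by simpa using c1 (mt hq.2 h))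

end Cfsg.GUn
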