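import Cfsg.Agent.GUn.Dec

/-!
# S4537: the number of elements of a given type
-/

set_option autoImplicit false

namespace Cfsg.GUn

open Matrix Finset

universe u

theorem card_conj_fiber {G L : Type*} [Group G] [Group L] {Ψ : L →* G}
    (inj : Function.Injective Ψ) {T : G → Prop} {Y : L → Prop}
    (hY : ∀ w y, Y y → Y (w⁻¹ * y * w)) (h1 : ∀ t, T t → ∃ x y, Y y ∧ t = x * Ψ y * x⁻¹)
    (h2 : ∀ x y, Y y → T (x * Ψ y * x⁻¹))
    (h3 : ∀ y y' z, Y y → Y y' → Ψ y' * z = z * Ψ y → z ∈ Ψ.range) :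
    Nat.card {t // T t} * Nat.card L = Nat.card G * Nat.card {y // Y y} := by
  choose! x y hy hxy using h1
  rw [← Nat.card_prod, ← Nat.card_prod]
  refine Nat.card_eq_of_bijective (fun p => (x p.1 * Ψ p.2, ⟨_, hY p.2 _ (hy _ p.1.2)⟩))
    ⟨fun ⟨⟨t, ht⟩, w⟩ ⟨⟨t', ht'⟩, w'⟩ e => ?_, fun ⟨a, b, hb⟩ => ?_⟩
  · have e1 : x t * Ψ w = x t' * Ψ w' := congrArg Prod.fst e
    have e2 : w⁻¹ * y t * w = w'⁻¹ * y t' * w' := congrArg (fun p => p.2.1) e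
    have (t : G) (w : L) : x t * Ψ (y t) * (x t)⁻¹ = x t * Ψ w * Ψ (w⁻¹ * y t * w) * (x t * Ψ w)⁻¹ := by
      simp [mul_assoc]
    obtain rfl : t = t' := (hxy t ht).trans (by rw [this t w, e1, e2, ← this, ← hxy t' ht'])
    rw [inj (mul_left_cancel e1)]
  · obtain ⟨t, ht⟩ : ∃ t, t = a * Ψ b * a⁻¹ := ⟨_, rfl⟩
    have h5 := ht ▸ h2 a b hb
    have h6 : Ψ (y t) * ((x t)⁻¹ * a) = (x t)⁻¹ * a * Ψ b := by
      rw [mul_assoc _ a, mul_inv_eq_iff_eq_mul.1 (ht.symm.trans (hxy t h5))]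
      group
    obtain ⟨w, hw⟩ := h3 _ _ _ hb (hy t h5) h6
    exact ⟨(⟨t, h5⟩, w), Prod.ext (by simp [hw]) (Subtype.ext (inj (by
      simp only [map_mul, map_inv, hw, mul_assoc _ (Ψ _), h6, inv_mul_cancel_left])))⟩

variable {k : Type u} [Field k] [Big k] {Φ : Frob k}

theorem card_jt_scal {ι : Type} [Fintype ι] [DecidableEq ι] {ξ : kˣ} (hξ : scal ι ξ ∈ Φ.G ι)
    (l : Multiset ℕ) : Nat.card {u : Φ.G ι // jt (u.1.val - (ξ : k) • 1) = l} =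
      Nat.card {u : Φ.G ι // jt (u.1.val - 1) = l} := by
  refine (Nat.card_congr ((Equiv.mulLeft (⟨_, hξ⟩ : Φ.G ι)).subtypeEquiv fun u => ?_)).symm
  have := jt_scal_mul ξ 1 u.1
  rw [mul_one, Units.val_one, one_smul] at this
  rw [← this]
  rfl

theorem Dec.card_typ {ι J : Type} [Fintype ι] [DecidableEq ι] [Fintype J] [DecidableEq J]
    {d m : J → ℕ} (D : Dec ι d m (fun _ => 1) Φ) (hL : StLang k) {ξ : J → kˣ} (H : Sep Φ d ξ)
    {Λ : I Φ → Multiset ℕ} (hm : ∀ j, (Λ (io Φ (ξ j))).sum = m j)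
    (h0 : ∀ o, (∀ j, o ≠ io Φ (ξ j)) → Λ o = 0) :
    Nat.card {g : Φ.G ι // typ Φ g.1 = Λ} * Nat.card (Π j, (Φ.pow (d j)).G (Fin (m j))) =
      Nat.card (Φ.G ι) * Nat.card {y : Π j, (Φ.pow (d j)).G (Fin (m j)) //
        ∀ j, jt ((y j).1.val - (ξ j : k) • 1) = Λ (io Φ (ξ j))} := by
  have hY {y : Π j, (Φ.pow (d j)).G (Fin (m j))}
      (hy : ∀ j, jt ((y j).1.val - (ξ j : k) • 1) = Λ (io Φ (ξ j))) (j) :
      ∀ α ∈ eig (y j).1, α = ξ j :=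
    isNilpotent_sub_iff.1 (isNilpotent_iff_sum_jt.2 (by rw [hy, hm, Fintype.card_fin]))
  refine card_conj_fiber (D.Ψ_injective fun _ => one_pos)
    (fun w y hy j => (jt_conj_val (w j).1⁻¹ (y j).1 _).trans (hy j)) (fun g hg => ?_)
    (fun x y hy => (typ_conj x.1 _).trans (funext fun q => ?_))
    fun _ _ _ hy hy' => D.mem_range_Ψ_of H (hY hy) (hY hy')
  · obtain ⟨x, y, rfl, hy⟩ := D.exists_conj hL H (g := g) fun j => by
      rw [count_eig_io g.2, hg, hm]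
    refine ⟨x, y, fun j => ?_, rfl⟩
    rw [← hg, ← one_smul ℕ (jt _), ← D.typ_Ψ H hy]
    exact (congrFun (typ_conj x.1 _) _).symm
  · by_cases hq : ∀ j, q ≠ io Φ (ξ j)
    · rw [D.typ_Ψ_eq_zero (hY hy) hq, h0 q hq]
    · push Not at hq
      obtain ⟨j, rfl⟩ := hq
      rw [D.typ_Ψ H (hY hy), hy, one_smul]

theorem stMeas (hL : StLang k) (hU : StUni k) : StMeas k := fun Φ ι _ _ Λ h0 hc => by
  obtain ⟨r, o, ho, hS⟩ := exists_enum Λ.support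
  rw [Finsupp.sum, ← hS, sum_image ho.injOn] at hc
  obtain ⟨D⟩ := stEmb hL Φ ι (Fin r) _ _ (fun _ => per_pos _) hc.symm
  have H := sep_rep ho
  have h2 := D.card_typ hL H (Λ := Λ) (by simp) fun q hq =>
    Finsupp.notMem_support_iff.1 (by simpa [← hS, eq_comm] using hq)
  rw [Nat.card_congr (Equiv.subtypePiEquivPi (p := fun j (u : (Φ.pow (o j).per).G (Fin _)) =>
    jt (u.1.val - ((o j).rep : k) • 1) = Λ (io Φ (o j).rep))), Nat.card_pi, Nat.card_pi] at h2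
  rw [Finsupp.prod, ← hS, prod_image ho.injOn]
  refine mul_right_cancel₀ (Nat.cast_ne_zero.2 (prod_pos fun j _ =>
    Nat.card_pos (α := (Φ.pow (o j).per).G (Fin (Λ (o j)).sum)) : 0 < ∏ j, _).ne') ?_
  rw [mul_right_comm, ← Nat.cast_mul, h2, Nat.cast_mul, mul_assoc, Nat.cast_prod, Nat.cast_prod,
    ← prod_mul_distrib]
  refine congrArg _ (prod_congr rfl fun j _ => ?_)
  rw [← hU _ _ (Λ (o j)) (SymCh.mem_ptn.2 ⟨by simp, fun a ha => Nat.pos_of_ne_zero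
    fun e => h0 _ (e ▸ ha)⟩), Φ.Q_pow (per_pos _), Int.cast_pow, io_rep,
    card_jt_scal (scal_mem_G_of_Mk (H.mem_Mk j))]

end Cfsg.GUn
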