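import Cfsg.Agent.GUn.NrmB

/-! The piece `Nrm`: the normalizer of a `p`-subgroup. -/

set_option autoImplicit false

namespace Cfsg.GUn.Nrm

open Matrix Finset

universe u

variable {k : Type u} [Field k] {ι : Type} [Fintype ι] [DecidableEq ι] {Φ : Frob k} {r : ℕ}
  {d m δ : Fin r → ℕ} {D : Dec ι d m δ Φ} {R : Subgroup (Φ.G ι)}

/-- the components of `Ψ y - 1` -/
noncomputable def nn1 (y : Π j, (Φ.pow (d j)).G (Fin (m j))) (x : Om d) :
    Matrix (Fin (m x.1)) (Fin (m x.1)) k := ((Φ.Fr _)^[x.2] (y x.1).1).val - 1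

theorem emb_nn1 (y : Π j, (Φ.pow (d j)).G (Fin (m j))) :
    emb D.e D.h (nn1 y) = (D.Ψ y).1.val - 1 := by
  rw [D.Ψ_val, ← map_one (emb D.e D.h), ← map_sub]; rfl

theorem nn1_of_eq {y : Π j, (Φ.pow (d j)).G (Fin (m j))} {x : Om d} (h : y x.1 = 1) :
    nn1 y x = 0 := by
  rw [nn1, h, OneMemClass.coe_one, iterate_map_one, Units.val_one, sub_self]

theorem Psi_mul_ee {y : Π j, (Φ.pow (d j)).G (Fin (m j))} (h : ∀ j, Triv D R j → y j = 1) :
    (D.Ψ y).1.val * ee D R = ee D R := by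
  have := emb_mul_ee_zero (D := D) (R := R) fun x hx => nn1_of_eq (h x.1 hx)
  rwa [emb_nn1, sub_mul, one_mul, sub_eq_zero] at this

theorem ee_comm_Psi (y : Π j, (Φ.pow (d j)).G (Fin (m j))) : Commute (ee D R) (D.Ψ y).1.val :=
  ee_comm D R _

theorem conj_mem {g x : Φ.G ι} (hg : g ∈ Subgroup.normalizer (R : Set (Φ.G ι))) (hx : x ∈ R) :
    ∃ y ∈ R, g.1.val * x.1.val = y.1.val * g.1.val :=
  ⟨_, (Subgroup.mem_normalizer_iff.1 hg x).1 hx,
    congrArg (fun a : Φ.G ι => a.1.val) (inv_mul_cancel_right (g * x) g).symm⟩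

variable (hδ : ∀ j, 0 < δ j) (hc : ∀ M, M ∈ (emb D.e D.h).range ↔ ∀ x ∈ R, Commute M x.1.val)
include hδ hc

theorem exists_cut {g : Φ.G ι} (hg : g ∈ Subgroup.normalizer (R : Set (Φ.G ι)))
    (h : Commute g.1.val (ee D R)) : ∃ c, (D.Ψ c * g).1.val * ee D R = ee D R ∧
      Commute (D.Ψ c * g).1.val (ee D R) := by
  set e := ee D R
  have h1 : e * e = e := ee_mul_self D R
  have h2 : Commute (g.1⁻¹).val e := h.units_inv_left
  have key : ∀ a b : Matrix ι ι k, Commute a e → a * b = 1 →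
      (e * a + (1 - e)) * (e * b + (1 - e)) = 1 := fun a b ha hab => by
    have : a * (e * b) = e := by rw [← mul_assoc, ha.eq, mul_assoc, hab, mul_one]
    simp only [add_mul, mul_add, mul_sub, sub_mul, mul_assoc, this, h1, mul_one, one_mul, ha.eq,
      ← mul_assoc e e]
    abel
  let g₀ : GL ι k := ⟨e * (g.1⁻¹).val + (1 - e), e * g.1.val + (1 - e), key _ _ h2 g.1.inv_mul,
    key _ _ h g.1.mul_inv⟩
  have h3 : g₀ ∈ Φ.G ι := Units.ext (by
    have h4 := congrArg Units.val (g⁻¹).2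
    rw [Φ.Fr_val] at h4 ⊢
    split_ifs at h4 ⊢ with hn
    · change Φ.mat (e * g.1.val + (1 - e)) = _
      rw [mat_add, mat_sub, mat_mul, if_pos hn, mat_one, mat_ee]
      exact congrArg (· + _) ((congrArg (· * e) h4).trans h2.eq)
    · change Φ.mat (e * (g.1⁻¹).val + (1 - e)) = _
      rw [mat_add, mat_sub, mat_mul, if_neg hn, mat_one, mat_ee]
      exact congrArg (e * · + _) h4)
  obtain ⟨c, hc'⟩ := (D.mem_range_Ψ hδ (g := ⟨g₀, h3⟩)).2 ((hc _).2 fun x hx => by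
    obtain ⟨y, hy, e1⟩ := conj_mem (inv_mem hg) hx
    have e2 : x.1.val * e = e := ((hc _).1 ⟨_, rfl⟩ x hx).eq.symm.trans (ee_mul hx)
    change (e * (g⁻¹).1.val + (1 - e)) * _ = _ * (e * (g⁻¹).1.val + (1 - e))
    simp only [add_mul, mul_add, mul_sub, sub_mul, mul_assoc e, e1, ← mul_assoc _ e, e2,
      ← mul_assoc e, ee_mul hy, ee_mul hx, mul_one, one_mul, e])
  have h5 : (D.Ψ c * g).1.val = e + (1 - e) * g.1.val := by
    rw [hc']
    change (e * (g.1⁻¹).val + (1 - e)) * g.1.val = _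
    rw [add_mul, mul_assoc, Units.inv_mul, mul_one]
  refine ⟨c, ?_, ?_⟩
  · rw [h5, add_mul, mul_assoc, h.eq, ← mul_assoc, sub_mul, h1, one_mul, sub_self, zero_mul,
      add_zero]
  · rw [h5]
    exact (Commute.refl e).add_left (((Commute.one_left e).sub_left (Commute.refl e)).mul_left h)

omit hδ in
theorem Psi_mem_normalizer (c : Π j, (Φ.pow (d j)).G (Fin (m j))) :
    D.Ψ c ∈ Subgroup.normalizer (R : Set (Φ.G ι)) :=
  Subgroup.centralizer_le_normalizer _ fun x hx =>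
    Subtype.ext (Units.ext ((hc _).1 ⟨_, rfl⟩ x hx).eq.symm)

variable [Big k]

omit hδ hc in
theorem jt_nn1 (y : Π j, (Φ.pow (d j)).G (Fin (m j))) (x : Om d) :
    jt (nn1 y x) = jt ((y x.1).1.val - 1) := by
  simpa [nn1] using jt_Fr_iterate (Φ := Φ) x.2 (y x.1).1 1

variable {u : Π j, (Φ.pow (d j)).G (Fin (m j))} (hu0 : ∀ j, Triv D R j → u j = 1)
  (hu1 : ∀ j, ¬ Triv D R j → jt ((u j).1.val - 1) = {m j})
include hu0 hu1

omit hδ hc in
theorem nil_nn1 : IsNilpotent (nn1 u) := by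
  have h : ∀ x, IsNilpotent (nn1 u x) := fun x => by
    by_cases e : Triv D R x.1
    · rw [nn1_of_eq (hu0 _ e)]; exact .zero
    · rw [isNilpotent_iff_sum_jt, jt_nn1, hu1 _ e]; simp
  choose N hN using h
  exact ⟨∑ x, N x, funext fun x => pow_eq_zero_of_le
    (single_le_sum (f := N) (fun _ _ => Nat.zero_le _) (mem_univ x)) (hN x)⟩

theorem exists_fix (hI : StIrr k) (hm : ∀ j, 0 < m j) {g : Φ.G ι}
    (hg : g ∈ Subgroup.normalizer (R : Set (Φ.G ι))) (h : Commute g.1.val (ee D R)) :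
    ∃ c, (∀ j, Triv D R j → c j = 1) ∧ Commute (D.Ψ c * g) (D.Ψ u) := by
  classical
  have hi := emb_injective D.e D.h hδ
  obtain ⟨v, hv⟩ := (D.mem_range_Ψ hδ (g := g * D.Ψ u * g⁻¹)).2 ((hc _).2 fun x hx => by
    have h1 := (Subgroup.mem_normalizer_iff.1 (inv_mem hg) x).1 hx
    have h2 : D.Ψ u * (g⁻¹ * x * g⁻¹⁻¹) = g⁻¹ * x * g⁻¹⁻¹ * D.Ψ u :=
      Subtype.ext (Units.ext ((hc _).1 ⟨_, rfl⟩ _ h1).eq)
    have h3 : g * D.Ψ u * g⁻¹ * x = x * (g * D.Ψ u * g⁻¹) := by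
      simpa [mul_assoc] using congrArg (g * · * g⁻¹) h2
    exact congrArg (fun a : Φ.G ι => a.1.val) h3)
  have h1 : emb D.e D.h (nn1 v) = g.1.val * emb D.e D.h (nn1 u) * (g.1⁻¹).val := by
    rw [emb_nn1, emb_nn1, hv, mul_sub, sub_mul, mul_one, Units.mul_inv]; rfl
  have h2 : ∀ x, Triv D R x.1 → nn1 v x = 0 := fun x hx => by
    have : emb D.e D.h (nn1 v) * ee D R = emb D.e D.h 0 := by
      rw [h1, mul_assoc, h.units_inv_left.eq, ← mul_assoc, mul_assoc g.1.val,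
        emb_mul_ee_zero fun x hx => nn1_of_eq (hu0 _ hx), mul_zero, zero_mul, map_zero]
    rw [ee, ← map_mul] at this
    simpa [hx] using congrFun (hi this) x
  have h3 : ∀ x, (jt (nn1 v x)).sum = m x.1 := fun x => by
    obtain ⟨N, hN⟩ := nil_nn1 hu0 hu1
    have : emb D.e D.h (nn1 v ^ N) = emb D.e D.h 0 := by
      rw [map_pow, h1, Units.conj_pow, ← map_pow, hN, map_zero, mul_zero, zero_mul]
    simpa using isNilpotent_iff_sum_jt.1 ⟨N, congrFun (hi this) x⟩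
  have h4 : ∀ x, (nn1 v x).rank ≤ (nn1 u x).rank := fun x => by
    by_cases e : Triv D R x.1
    · simp [h2 x e]
    have e1 := rank_add_card_jt (nn1 v x)
    have e2 := rank_add_card_jt (nn1 u x)
    rw [jt_nn1, hu1 _ e, Multiset.card_singleton] at e2
    have e3 : 0 < (jt (nn1 v x)).card := Multiset.card_pos.2 fun e => by
      have := h3 x
      rw [e] at this
      exact (hm _).ne this
    omega
  have h5 : ∀ j, ¬ Triv D R j → jt ((v j).1.val - 1) = {m j} := fun j e => by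
    have e0 := congrArg Matrix.rank h1
    rw [rank_conj, rank_emb, rank_emb, sum_eq_sum_iff_of_le
      fun x _ => Nat.mul_le_mul_left _ (h4 x)] at e0
    let x : Om d := ⟨j, 0, D.pos j⟩
    have e1 := rank_add_card_jt (nn1 v x)
    have e2 := rank_add_card_jt (nn1 u x)
    rw [jt_nn1, hu1 _ e, Multiset.card_singleton,
      ← Nat.eq_of_mul_eq_mul_left (hδ _) (e0 x (mem_univ _))] at e2
    obtain ⟨a, ha⟩ := Multiset.card_eq_one.1 (show (jt (nn1 v x)).card = 1 by omega)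
    have := h3 x
    rw [ha, Multiset.sum_singleton] at this
    rw [← jt_nn1 v x, ha, this]
  have h6 : ∀ j, ∃ c, (Triv D R j → c = 1) ∧ c * v j * c⁻¹ = u j := fun j => by
    by_cases e : Triv D R j
    · refine ⟨1, fun _ => rfl, ?_⟩
      rw [hu0 j e, one_mul, inv_one, mul_one]
      exact Subtype.ext (Units.ext (sub_eq_zero.1 (h2 ⟨j, 0, D.pos j⟩ e)))
    have key : ∀ w : (Φ.pow (d j)).G (Fin (m j)), jt (w.1.val - 1) = {m j} → ∀ o,
        typ (Φ.pow (d j)) w.1 o = if o = io _ 1 then {m j} else 0 := fun w hw o => by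
      split_ifs with e
      · rw [e, typ_one_apply, hw]
      · exact typ_eq_zero_of_sum (S := {io _ 1}) w.2 (by simp [typ_one_apply, hw, io_one_per])
          (by simpa using e)
    obtain ⟨c, hc⟩ := isConj_iff.1 (hI.isConj _ _ (v j) (u j) (funext fun o => by
      rw [key _ (h5 j e), key _ (hu1 j e)]))
    exact ⟨c, fun e' => absurd e' e, hc⟩
  choose c h7 h8 using h6
  refine ⟨c, h7, ?_⟩
  have := congrArg D.Ψ (funext h8 : c * v * c⁻¹ = u)
  rw [map_mul, map_mul, map_inv, hv] at this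
  change _ * _ = _
  conv_rhs => rw [← this]
  group

omit hδ hc in
theorem lin_eq_one {g : Φ.G ι} (h1 : g.1.val * ee D R = ee D R) (h2 : Commute g.1.val (ee D R))
    (h3 : Commute g (D.Ψ u)) {z : kˣ} (hz : z ∈ Mk Φ 1)
    (ho : ∀ j, ¬ Triv D R j → orderOf z ∣ m j) : lin Φ ι z g = 1 := by
  classical
  have h4 : Commute g.1.val (emb D.e D.h (nn1 u)) := by
    rw [emb_nn1]
    exact Commute.sub_right (congrArg (fun a : Φ.G ι => a.1.val) h3.eq) (Commute.one_right _)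
  have h5 : emb D.e D.h (nn1 u) * ee D R = 0 := emb_mul_ee_zero fun x hx => nn1_of_eq (hu0 _ hx)
  have h6 : ∀ α : k, α ≠ 1 → orderOf z ∣ (jt (g.1.val - α • 1)).sum := fun α hα => by
    obtain ⟨N, hN⟩ := nil_nn1 hu0 hu1
    refine dvd_sum_jt (h4.add_right h2) (fun a ha => ?_) (n := N) ?_ hα
    · rw [ee, ← map_add, jt_emb, Multiset.mem_sum] at ha
      obtain ⟨x, -, ha⟩ := ha
      replace ha := Multiset.mem_of_mem_nsmul ha
      by_cases e : Triv D R x.1
      · simp [e, nn1_of_eq (hu0 _ e), jt_eq_zero_iff.2 isUnit_one] at ha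
      · simp only [Pi.add_apply, e, if_false, add_zero, jt_nn1, hu1 _ e,
          Multiset.mem_singleton] at ha
        exact ha ▸ ho _ e
    · have := pow_mul_idem (P := 1 - ee D R) (by simp [mul_sub, sub_mul, ee_mul_self])
        ((Commute.one_right _).sub_right (ee_comm D R (nn1 u)).symm) N
      rw [mul_sub, h5, mul_one, sub_zero, sub_sub_cancel, ← map_pow, hN, map_zero, zero_mul,
        zero_add] at this
      rw [this, sub_mul, h1, one_mul, sub_self]
  rw [lin, MonoidHom.comp_apply, MonoidHom.comp_apply, Subgroup.coe_subtype, ← prod_eig,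
    map_multiset_prod, prod_map_eig g.2 (S := (typF Φ g.1).support)
      fun o ho => Finsupp.mem_support_iff.2 ho]
  refine prod_eq_one fun o _ => ?_
  have h7 : ∏ t ∈ o.pts, t ∈ Mk Φ 1 := by
    simpa [o.prod_pts fun t => t, fr_iterate] using
      norm_mem_Mk (one_dvd _) (rep_mem_Mk (per_pos o) dvd_rfl)
  rw [← map_prod]
  by_cases e : o.rep = 1
  · rw [prod_eq_one fun t ht => io_eq_one_iff.1 (by rw [mem_pts.1 ht, ← e, io_rep]), map_one,
      one_pow]
  · obtain ⟨a, ha⟩ := h6 o.rep fun e' => e (Units.ext e')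
    rw [typ, ha, pow_mul, ← pr_pow hz h7, pow_orderOf_eq_one, pr_one h7, one_pow]

end Cfsg.GUn.Nrm

namespace Cfsg.GUn

universe u

open Nrm in
/-- piece `Nrm` -/
theorem stNrm (k : Type u) [Field k] [Big k] (hI : StIrr k) : StNrm k := by
  intro Φ ι _ _ p hp h0 R hR r d m δ D hm hδ hc u hu0 hu1 g hg
  have := Fintype.ofFinite R
  have h1 : Commute g.1.val (Nrm.ee D R) := by
    rw [ee_eq hp h0 hR hm hδ hc]
    refine Commute.smul_right ?_ _
    rw [Commute, SemiconjBy, Finset.mul_sum, Finset.sum_mul,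
      ← Equiv.sum_comp (R.normalizerMonoidHom ⟨g, hg⟩).toEquiv fun x => x.1.1.val * g.1.val]
    exact Finset.sum_congr rfl fun x _ =>
      congrArg (fun a : Φ.G ι => a.1.val) (inv_mul_cancel_right (g * x) g).symm
  obtain ⟨c₀, h2, h3⟩ := exists_cut hδ hc hg h1
  obtain ⟨c₁, h4, h5⟩ := exists_fix hδ hc hu0 hu1 hI hm (mul_mem (Psi_mem_normalizer hc c₀) hg) h3
  have h6 : (D.Ψ c₁ * (D.Ψ c₀ * g)).1.val * Nrm.ee D R = Nrm.ee D R :=
    (mul_assoc _ _ _).trans ((congrArg (_ * ·) h2).trans (Psi_mul_ee h4))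
  have h7 : Commute (D.Ψ c₁ * (D.Ψ c₀ * g)).1.val (Nrm.ee D R) := (ee_comm_Psi c₁).symm.mul_left h3
  refine ⟨c₁ * c₀, ?_⟩
  rw [map_mul, mul_assoc]
  refine ⟨h5, fun y hy => Subtype.ext (Units.ext ?_), fun z hz ho =>
    lin_eq_one hu0 hu1 h6 h7 h5 hz ho⟩
  have h8 : emb D.e D.h (nn1 y) * Nrm.ee D R = _ := emb_mul_ee fun x hx => nn1_of_eq (hy _ hx)
  have h9 : Commute (D.Ψ c₁ * (D.Ψ c₀ * g)).1.val (emb D.e D.h (nn1 y)) := by
    rw [Commute, SemiconjBy, ← h8, mul_assoc, ← h7.eq, h6, ← (ee_comm D R _).eq, ← mul_assoc, h6]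
  rw [emb_nn1] at h9
  simpa using (h9.add_right (Commute.one_right _)).eq

end Cfsg.GUn
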