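import Cfsg.Agent.GUn.JtB

/-! Fitting projectors and Jordan types. -/

set_option autoImplicit false

namespace Cfsg.GUn.Nrm

open Matrix Polynomial

universe u

variable {k : Type u} [Field k] {ι : Type} [Fintype ι] [DecidableEq ι] {A B P : Matrix ι ι k}

theorem rank_split (hP : P * P = P) (h : Commute A P) :
    A.rank = (A * P).rank + (A * (1 - P)).rank := by
  have h1 : LinearMap.range (A * P).mulVecLin ⊔ LinearMap.range (A * (1 - P)).mulVecLin =
      LinearMap.range A.mulVecLin := by
    refine le_antisymm (sup_le ?_ ?_) ?_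
    · rw [mulVecLin_mul]; exact LinearMap.range_comp_le_range _ _
    · rw [mulVecLin_mul]; exact LinearMap.range_comp_le_range _ _
    · rintro _ ⟨v, rfl⟩
      refine Submodule.mem_sup.2 ⟨_, ⟨v, rfl⟩, _, ⟨v, rfl⟩, ?_⟩
      simp only [mulVecLin_apply, ← add_mulVec, ← mul_add, add_sub_cancel, mul_one]
  have h2 : LinearMap.range (A * P).mulVecLin ⊓ LinearMap.range (A * (1 - P)).mulVecLin = ⊥ := by
    rw [eq_bot_iff]
    rintro x ⟨⟨v, hv⟩, w, hw⟩
    have e1 : P *ᵥ x = x := by
      rw [← hv, mulVecLin_apply, mulVec_mulVec, ← mul_assoc, ← h.eq, mul_assoc, hP]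
    rw [Submodule.mem_bot, ← e1, ← hw, mulVecLin_apply, mulVec_mulVec, ← mul_assoc, ← h.eq,
      mul_assoc, mul_sub, hP, mul_one, sub_self, mul_zero, zero_mulVec]
  have := Submodule.finrank_sup_add_finrank_inf_eq (LinearMap.range (A * P).mulVecLin)
    (LinearMap.range (A * (1 - P)).mulVecLin)
  rw [h1, h2, finrank_bot, add_zero] at this
  exact this

theorem pow_mul_idem (hP : P * P = P) (h : Commute A P) (j : ℕ) :
    (A * P + (1 - P)) ^ j = A ^ j * P + (1 - P) := by
  induction j with
  | zero => simp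
  | succ j ih =>
    rw [pow_succ, ih, pow_succ]
    have h1 : P * (A * P) = A * P := by rw [← mul_assoc, ← h.eq, mul_assoc, hP]
    simp only [add_mul, mul_add, mul_sub, sub_mul, mul_assoc, h1, hP, mul_one, one_mul]
    abel

theorem rank_idem (hP : P * P = P) : P.rank + (1 - P).rank = Fintype.card ι := by
  simpa using (rank_split hP (Commute.one_left P)).symm

theorem rank_pow_idem (hP : P * P = P) (h : Commute A P) (j : ℕ) :
    ((A * P + (1 - P)) ^ j).rank = (A ^ j * P).rank + (1 - P).rank := by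
  have h1 : Commute (A ^ j * P + (1 - P)) P :=
    ((h.pow_left j).mul_left (Commute.refl P)).add_left
      ((Commute.one_left P).sub_left (Commute.refl P))
  rw [pow_mul_idem hP h, rank_split hP h1]
  simp only [add_mul, mul_sub, sub_mul, mul_assoc, hP, mul_one, one_mul, sub_self, add_zero,
    add_sub_cancel_left]

theorem jt_split (hP : P * P = P) (h : Commute A P) :
    jt A = jt (A * P + (1 - P)) + jt (A * (1 - P) + P) := by
  have hQ : (1 - P) * (1 - P) = 1 - P := by simp [mul_sub, sub_mul, hP]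
  have key : ∀ j, (A ^ j).rank + Fintype.card ι =
      ((A * P + (1 - P)) ^ j).rank + ((A * (1 - P) + P) ^ j).rank := fun j => by
    have := rank_pow_idem hQ ((Commute.one_right A).sub_right h) j
    rw [sub_sub_cancel] at this
    rw [rank_pow_idem hP h, this, rank_split hP (h.pow_left j), ← rank_idem hP]
    omega
  ext i
  rcases Nat.eq_zero_or_pos i with rfl | hi
  · simp [Multiset.count_eq_zero_of_notMem (zero_notMem_jt _)]
  have h1 := count_jt A hi
  have h2 := count_jt (A * P + (1 - P)) hi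
  have h3 := count_jt (A * (1 - P) + P) hi
  have h4 := key (i - 1)
  have h5 := key i
  have h6 := key (i + 1)
  rw [Multiset.count_add]
  omega

theorem sum_jt_idem (hP : P * P = P) (h : Commute A P) {n : ℕ} (hn : A ^ n * P = 0) :
    (jt (A * P + (1 - P))).sum = P.rank := by
  have h1 := rank_pow_card_add (A * P + (1 - P)) (j := Fintype.card ι + n) (by omega)
  rw [rank_pow_idem hP h, pow_add, mul_assoc, hn, mul_zero, rank_zero] at h1
  have := rank_idem hP
  omega

/-- the Fitting projector -/
theorem exists_fitting (B : Matrix ι ι k) : ∃ P : Matrix ι ι k, P * P = P ∧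
    (∀ M, Commute B M → Commute M P) ∧ (∃ n, B ^ n * P = 0) ∧ IsUnit (B * (1 - P) + P) := by
  obtain ⟨h, e, hd⟩ := exists_eq_pow_rootMultiplicity_mul_and_not_dvd B.charpoly
    B.charpoly_monic.ne_zero 0
  rw [C_0, sub_zero] at e hd
  set s := rootMultiplicity 0 B.charpoly
  obtain ⟨a, b, hab⟩ : IsCoprime (X ^ (s + 1)) h :=
    ((irreducible_X.coprime_iff_not_dvd).2 hd).pow_left
  have h0 : aeval B (X ^ s * h) = 0 := e ▸ B.aeval_self_charpoly
  have h1 : ∀ f g : k[X], f - g ∈ Ideal.span {X ^ s * h} → aeval B f = aeval B g := fun f g e => by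
    obtain ⟨c, hc⟩ := Ideal.mem_span_singleton'.1 e
    rw [← sub_eq_zero, ← map_sub, ← hc, map_mul, h0, mul_zero]
  refine ⟨aeval B (b * h), ?_, fun M hM => ?_, ⟨s, ?_⟩, ?_⟩
  · rw [← map_mul]
    exact h1 _ _ (Ideal.mem_span_singleton'.2 ⟨-a * b * X, by linear_combination (-b * h) * hab⟩)
  · induction b * h using Polynomial.induction_on' with
    | add f g hf hg => rw [map_add]; exact hf.add_right hg
    | monomial n c =>
      rw [aeval_monomial]
      exact Commute.mul_right (Algebra.commutes c M).symm (hM.symm.pow_right n)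
  · have := h1 (X ^ s * (b * h)) 0 (Ideal.mem_span_singleton'.2 ⟨b, by ring⟩)
    simpa using this
  · have := h1 ((X * (1 - b * h) + b * h) * (a * X ^ s * (1 - b * h) + b * h)) 1
      (Ideal.mem_span_singleton'.2 ⟨a * b * X * (b * h - 3 + X + a * X ^ s), by
        linear_combination (b * h * (b * h - 3 + X + a * X ^ s) - (1 - b * h) ^ 2) * hab⟩)
    rw [map_mul, map_one] at this
    simpa using (Matrix.isUnit_iff_isUnit_det _).2 (isUnit_det_of_right_inverse this)

/-- the multiplicities of the eigenvalues -/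
theorem dvd_sum_jt {g : Matrix ι ι k} (h : Commute g A) {o : ℕ} (ho : ∀ a ∈ jt A, o ∣ a) {n : ℕ}
    (hn : (g - 1) * A ^ n = 0) {α : k} (hα : α ≠ 1) : o ∣ (jt (g - α • 1)).sum := by
  obtain ⟨P, hP, h1, ⟨s, h2⟩, h3⟩ := exists_fitting (g - α • 1)
  have hB := h1 _ (Commute.refl _)
  have hA := h1 A (h.sub_left ((Commute.one_left A).smul_left α))
  have h4 : A ^ n * P = 0 := by
    have e1 : (g - α • 1) * (A ^ n * P) = (1 - α) • (A ^ n * P) := by
      have : g - α • 1 = (g - 1) + (1 - α) • 1 := by simp [sub_smul]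
      rw [this, add_mul, ← mul_assoc, hn, zero_mul, zero_add, smul_mul_assoc, one_mul]
    have e2 : ∀ j, (g - α • 1) ^ j * (A ^ n * P) = (1 - α) ^ j • (A ^ n * P) := fun j => by
      induction j with
      | zero => simp
      | succ j ih => rw [pow_succ, mul_assoc, e1, mul_smul_comm, ih, smul_smul, pow_succ']
    have e3 := e2 s
    rw [(hA.pow_left n).eq, ← mul_assoc, h2, zero_mul] at e3
    rw [(hA.pow_left n).eq]
    exact (smul_eq_zero.1 e3.symm).resolve_left (pow_ne_zero _ (sub_ne_zero.2 hα.symm))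
  rw [jt_split hP hB, jt_eq_zero_iff.2 h3, add_zero, sum_jt_idem hP hB h2, ← sum_jt_idem hP hA h4]
  exact Multiset.dvd_sum fun a ha => ho a (jt_split hP hA ▸ Multiset.mem_add.2 (.inl ha))

end Cfsg.GUn.Nrm
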