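import Cfsg.Agent.GUn.NrmA
import Cfsg.Agent.GUn.GCT
import Cfsg.Agent.GUn.Defs2
import Cfsg.Agent.GUn.Ch
import Cfsg.Agent.GUn.Dec

/-! The trivial part of the centralizer of a `p`-subgroup. -/

set_option autoImplicit false

namespace Cfsg.GUn.Nrm

open Matrix Finset

universe u

variable {k : Type u} [Field k] {ι : Type} [Fintype ι] [DecidableEq ι] {Φ : Frob k} {r : ℕ}
  {d m δ : Fin r → ℕ} (D : Dec ι d m δ Φ)

variable (R : Subgroup (Φ.G ι))

open Classical in
/-- the projection to the fixed space -/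
noncomputable def ee : Matrix ι ι k := emb D.e D.h fun x => if Triv D R x.1 then 1 else 0

theorem ee_mul_self : ee D R * ee D R = ee D R := by
  rw [ee, ← map_mul]; congr 1; funext x; simp only [Pi.mul_apply]; split_ifs <;> simp

theorem mat_ee : Φ.mat (ee D R) = ee D R := by
  rw [ee, D.fr]; congr 1; funext x; split_ifs; exacts [mat_one, mat_zero]

theorem ee_comm (a : Π x : Om d, Matrix (Fin (m x.1)) (Fin (m x.1)) k) :
    Commute (ee D R) (emb D.e D.h a) := by
  refine Commute.map (funext fun x => ?_) _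
  simp only [Pi.mul_apply]; split_ifs <;> simp

variable {D R}

theorem emb_mul_ee {a : Π x : Om d, Matrix (Fin (m x.1)) (Fin (m x.1)) k}
    (h : ∀ x, ¬ Triv D R x.1 → a x = 0) : emb D.e D.h a * ee D R = emb D.e D.h a := by
  rw [ee, ← map_mul]; congr 1; funext x; simp only [Pi.mul_apply]
  split_ifs with e
  exacts [mul_one _, by rw [mul_zero, h x e]]

theorem emb_mul_ee_zero {a : Π x : Om d, Matrix (Fin (m x.1)) (Fin (m x.1)) k}
    (h : ∀ x, Triv D R x.1 → a x = 0) : emb D.e D.h a * ee D R = 0 := by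
  rw [ee, ← map_mul, ← map_zero (emb D.e D.h)]; congr 1; funext x; simp only [Pi.mul_apply]
  split_ifs with e
  exacts [by rw [mul_one, h x e]; rfl, mul_zero _]

theorem ee_mul {x : Φ.G ι} (hx : x ∈ R) : ee D R * x.1.val = ee D R := by
  classical
  rw [ee, ← univ_sum_single fun x : Om d => (if Triv D R x.1 then 1 else 0 : Matrix _ _ k), map_sum,
    sum_mul]
  refine sum_congr rfl fun y _ => ?_
  split_ifs with e
  · exact e x hx y.2
  · simp

theorem triv_prev (hc : ∀ M, M ∈ (emb D.e D.h).range ↔ ∀ x ∈ R, Commute M x.1.val) {y : Om d}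
    (h : ∀ x ∈ R, emb D.e D.h (Pi.single (prev y) 1) * x.1.val = emb D.e D.h (Pi.single (prev y) 1)) :
    ∀ x ∈ R, emb D.e D.h (Pi.single y 1) * x.1.val = emb D.e D.h (Pi.single y 1) := by
  have h1 : Φ.mat (emb D.e D.h (Pi.single (prev y) 1)) = emb D.e D.h (Pi.single y 1) := by
    rw [D.fr, GCT.single_prev (fun _ => Φ.mat) fun _ => mat_zero, mat_one]
  intro x hx
  have h2 := congrArg Units.val x.2
  rw [Φ.Fr_val] at h2
  rw [← h1]
  refine Eq.trans ?_ (congrArg Φ.mat (h (if Φ.neg then x⁻¹ else x) (by split_ifs <;> simpa)))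
  rw [mat_mul]
  split_ifs at h2 ⊢
  · rw [h1]
    exact ((hc _).1 ⟨_, rfl⟩ x hx).eq.trans (congrArg (· * _) h2.symm)
  · exact congrArg (_ * ·) h2.symm

variable [Big k]

theorem ee_eq {p : ℕ} (hp : p.Prime) (h0 : p ≠ ringChar k) (hR : IsPGroup p R) [Fintype R]
    (hm : ∀ j, 0 < m j) (hδ : ∀ j, 0 < δ j)
    (hc : ∀ M, M ∈ (emb D.e D.h).range ↔ ∀ x ∈ R, Commute M x.1.val) :
    ee D R = (Fintype.card R : k)⁻¹ • ∑ x : R, x.1.1.val := by
  have := Fact.mk hp
  have hi := emb_injective D.e D.h hδ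
  have hk : (Fintype.card R : k) ≠ 0 := by
    obtain ⟨n, hn⟩ := hR.exists_card_eq
    rw [← Nat.card_eq_fintype_card, hn, Nat.cast_pow]
    exact pow_ne_zero _ fun e => h0 ((Nat.prime_dvd_prime_iff_eq Big.prime hp).1
      ((ringChar.spec k p).1 e)).symm
  set a : Matrix ι ι k := (Fintype.card R : k)⁻¹ • ∑ x : R, x.1.1.val with ha
  have h1 : ∀ y ∈ R, a * y.1.val = a := fun y hy => by
    rw [ha, smul_mul_assoc, sum_mul, ← Equiv.sum_comp (Equiv.mulRight (⟨y, hy⟩ : R))
      fun x => x.1.1.val]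
    rfl
  have h2 : ∀ y ∈ R, y.1.val * a = a := fun y hy => by
    rw [ha, mul_smul_comm, mul_sum, ← Equiv.sum_comp (Equiv.mulLeft (⟨y, hy⟩ : R))
      fun x => x.1.1.val]
    rfl
  have h3 : ∀ M : Matrix ι ι k, (∀ y ∈ R, M * y.1.val = M) → M * a = M := fun M h => by
    rw [ha, mul_smul_comm, mul_sum, sum_congr rfl fun (x : R) _ => h x.1 x.2, sum_const, card_univ,
      ← Nat.cast_smul_eq_nsmul k, inv_smul_smul₀ hk]
  obtain ⟨b, hb⟩ := (hc a).2 fun y hy => (h1 y hy).trans (h2 y hy).symm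
  replace hb : emb D.e D.h b = a := hb
  have h4 : ∀ c, c * b = b * c := fun c => hi (by
    rw [map_mul, map_mul, hb, ha]
    exact (Commute.sum_right _ _ _ fun (x : R) _ => (hc _).1 ⟨c, rfl⟩ x.1 x.2).smul_right _)
  have h5 : b * b = b := hi (by rw [map_mul, hb, h3 a h1])
  have h6 : ∀ y : Om d, b y ≠ 0 ↔ ∀ x ∈ R,
      emb D.e D.h (Pi.single y 1) * x.1.val = emb D.e D.h (Pi.single y 1) := fun y => by
    refine ⟨fun e x hx => ?_, fun e e' => ?_⟩
    · have : emb D.e D.h (Pi.single y 1) * a = emb D.e D.h (Pi.single y 1) := by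
        rw [← hb, ← map_mul, GCT.single_mul, one_mul,
          GCT.idem_of_comm (GCT.comm_apply h4 y) (congrFun h5 y) e]
      rw [← this, mul_assoc, h1 x hx]
    · have := h3 _ e
      rw [← hb, ← map_mul, GCT.single_mul, e', mul_zero] at this
      have _ : Nonempty (Fin (m y.1)) := ⟨⟨0, hm _⟩⟩
      simpa using congrFun (hi this) y
  rw [← hb, ee]
  congr 1
  funext y
  split_ifs with e
  · exact (GCT.idem_of_comm (GCT.comm_apply h4 y) (congrFun h5 y)
      ((h6 y).2 fun x hx => e x hx y.2)).symm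
  · refine by_contra fun e' => e fun x hx i => (h6 ⟨y.1, i⟩).1 ?_ x hx
    have key : ∀ (n : ℕ) (i : Fin (d y.1)), b ⟨y.1, (finRotate _).symm^[n] i⟩ ≠ 0 → b ⟨y.1, i⟩ ≠ 0 :=
      fun n => by
      induction n with
      | zero => exact fun _ => id
      | succ n ih => exact fun i h => (h6 _).2 (triv_prev hc ((h6 _).1 (ih _ h)))
    have := GCT.const_of_prev (fun i => b ⟨y.1, i⟩ ≠ 0) (fun i => propext ⟨key 1 i, fun h => ?_⟩) y.2 i
    · exact this ▸ Ne.symm e'
    · obtain ⟨n, hn⟩ := Nat.exists_eq_succ_of_ne_zero (D.pos y.1).ne'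
      refine key n _ ?_
      rwa [← Function.iterate_succ_apply, ← hn, GCT.iterate_prev]

end Cfsg.GUn.Nrm
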