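import Cfsg.Agent.GUn.Res
import Cfsg.Agent.GUn.Cls
import Cfsg.Agent.GUn.Lab

/-! The pieces `StPeel` and `StMerge`. -/

set_option autoImplicit false
set_option linter.unusedSectionVars false

namespace Cfsg.GUn

open Finset SymCh ComplexConjugate Cls
open scoped TensorProduct
open GLn (Bt sz pm S chm S_eq_chm chm_sum chm_congr S_mem_adjoin_b S_range_b pm_eq_sum_S
  sz_of_mem pm_add)

universe u

variable {k : Type u} [Field k] [Big k] {Φ Φ' : Frob k} {N p r : ℕ}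

namespace Peel

/-- the Murnaghan-Nakayama rule -/
theorem mn {X Y : Bt N} (hr : 0 < r) (h : Mv r X Y) :
    ∃ (s : Finset (Fin N)) (Z : Fin N → Bt N) (c : Fin N → ℚ), s.Nonempty ∧ Set.InjOn Z s ∧
      (∀ i ∈ s, c i ≠ 0 ∧ Mv r X (Z i)) ∧
      ∀ ρ, ph N X.1 (r ::ₘ ρ) = ∑ i ∈ s, c i * ph N (Z i).1 ρ := by
  let x : Fin N ↪o ℕ := X.1.orderEmbOfFin X.2
  have hx : ∀ i, lab N X.1 i = x i := lab_eq X.2
  have hm : ∀ i, x i ∈ X.1 := orderEmbOfFin_mem _ _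
  have hs : ∀ y ∈ X.1, ∃ i, x i = y := fun y hy => by
    obtain ⟨i, hi⟩ := (mem_iff_lab X.2).1 hy
    exact ⟨i, by exact_mod_cast (hx i).symm.trans hi⟩
  let β : Fin N → Fin N → ℤ := fun i => lab N X.1 - Pi.single i (r : ℤ)
  have b1 : ∀ i, β i i = x i - r := fun i => by simp [β, hx]
  have b2 : ∀ i j, j ≠ i → β i j = x j := fun i j h => by simp [β, hx, h]
  have key : ∀ i, ∃ (Z : Bt N) (c : ℚ), r ≤ x i ∧ x i - r ∉ X.1 → c ≠ 0 ∧
      Z.1 = insert (x i - r) (X.1.erase (x i)) ∧ ∀ ρ, phi (β i) ρ = c * ph N Z.1 ρ := fun i => by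
    by_cases hi : r ≤ x i ∧ x i - r ∉ X.1
    swap
    · exact ⟨0, 0, fun h => (hi h).elim⟩
    have h1 : ∀ j, j ≠ i → β i j ≠ β i i := fun j hj e => hi.2 (by
      rw [b1, b2 i j hj] at e
      rw [show x i - r = x j by omega]; exact hm j)
    obtain ⟨Z, hZ, w, hw⟩ := exists_lab_comp (β := β i) (fun j l e => by
      by_cases hj : j = i <;> by_cases hl : l = i
      · rw [hj, hl]
      · exact (h1 l hl (hj ▸ e.symm)).elim
      · exact (h1 j hj (hl ▸ e)).elim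
      · rw [b2 i j hj, b2 i l hl] at e
        exact x.injective (by exact_mod_cast e)) fun j => by
      by_cases hj : j = i
      · rw [hj, b1]; omega
      · rw [b2 i j hj]; omega
    refine ⟨⟨Z, hZ⟩, sg w, fun _ => ⟨left_ne_zero_of_mul_eq_one (sg_mul_self w),
      (eq_of_subset_of_card_le (fun y hy => (mem_iff_lab hZ).2 ?_) ?_).symm, fun ρ => by
        rw [hw, phi_comp]; rfl⟩⟩
    · rcases mem_insert.1 hy with rfl | hy
      · exact ⟨w i, (congrFun hw i).symm.trans (by rw [b1]; omega)⟩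
      · obtain ⟨j, rfl⟩ := hs y (mem_of_mem_erase hy)
        exact ⟨w j, (congrFun hw j).symm.trans (b2 i j fun e => ne_of_mem_erase hy (by rw [e]))⟩
    · rw [card_insert_of_notMem fun h => hi.2 (mem_of_mem_erase h), card_erase_add_one (hm i), hZ,
        X.2]
  choose Z c hZ using key
  refine ⟨univ.filter fun i => r ≤ x i ∧ x i - r ∉ X.1, Z, c, ?_, fun i hi j hj e => by_contra fun hij => ?_,
    fun i hi => ?_, fun ρ => ?_⟩
  · obtain ⟨y, h1, h2, h3, -⟩ := h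
    obtain ⟨i, rfl⟩ := hs y h1
    exact ⟨i, mem_filter.2 ⟨mem_univ _, h2, h3⟩⟩
  · have h1 := (mem_filter.1 hi).2
    have h2 : x i ∈ (Z j).1 := (hZ j (mem_filter.1 hj).2).2.1 ▸
      mem_insert_of_mem (mem_erase.2 ⟨x.injective.ne hij, hm i⟩)
    rw [← e, (hZ i h1).2.1, mem_insert, mem_erase] at h2
    omega
  · have h1 := (mem_filter.1 hi).2
    exact ⟨(hZ i h1).1, x i, hm i, h1.1, h1.2, (hZ i h1).2.1⟩
  · rw [ph, phi_cons, sum_filter]
    refine sum_congr rfl fun i _ => ?_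
    split_ifs with hi
    · exact (hZ i hi).2.2 ρ
    · by_cases h1 : r ≤ x i
      · obtain ⟨j, hj⟩ := hs _ (not_not.1 (not_and.1 hi h1))
        have h2 : j ≠ i := by rintro rfl; omega
        exact phi_eq_zero_of_not_injective (β := β i) (fun e => h2 (e (by
          rw [b1, b2 i j h2]; omega))) ρ
      · exact phi_eq_zero_of_neg (β := β i) (i := i) (by rw [b1]; omega) ρ

theorem adj_S {q : ℕ → A Φ} (hq : ∀ m, 0 < m → Lin (q m)) {c : A Φ} (hr : 0 < r)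
    (h : ∀ m, 0 < m → ipA (q m) c = if m = r then (r : ℂ) else 0) {X : Finset ℕ}
    (hX : r ≤ sz N X) : adj c (S q N X) = chm q (sz N X - r) fun ρ => ph N X (r ::ₘ ρ) := by
  rw [S, map_sum, ← sum_subset (filter_subset (r ∈ ·) _) fun ρ hρ hρ' => ?_,
    sum_congr rfl fun ρ hρ => ?_, sum_ptn_filter_mem hr hX fun ρ =>
      ((ph N X ρ / zz ρ : ℚ) : ℂ) • (ρ.count r * r : ℂ) • pm q (ρ.erase r), chm]
  · refine sum_congr rfl fun ρ hρ => ?_
    have : (zz ρ : ℂ) ≠ 0 := Nat.cast_ne_zero.2 (zz_pos (mem_ptn.1 hρ).2).ne'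
    have : (r : ℂ) ≠ 0 := Nat.cast_ne_zero.2 hr.ne'
    have : (ρ.count r + 1 : ℂ) ≠ 0 := Nat.cast_add_one_ne_zero _
    rw [Multiset.erase_cons_head, smul_smul, zz_cons, Multiset.count_cons_self]
    congr 1
    push_cast
    field_simp
  · have h0 := (mem_ptn.1 (mem_filter.1 hρ).1).2
    rw [Derivation.map_smul, pm, adj_multiset c ρ (fun m hm => hq m (h0 m hm)) r fun m hm e => by
      rw [h m (h0 m hm), if_neg e], h r hr, if_pos rfl, pm]
  · have h0 := (mem_ptn.1 hρ).2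
    rw [Derivation.map_smul, pm, adj_multiset c ρ (fun m hm => hq m (h0 m hm)) r fun m hm e => by
      rw [h m (h0 m hm), if_neg e], Multiset.count_eq_zero_of_notMem fun e =>
        hρ' (mem_filter.2 ⟨hρ, e⟩)]
    simp

theorem chi_update (μ : MP Φ N) (ψ : I Φ) (Z : Bt N) :
    chi (μ.update ψ Z) = S (pp ψ) N Z.1 * chi (μ.erase ψ) := by
  have : (μ.update ψ Z).erase ψ = μ.erase ψ := by
    ext1 o
    by_cases h : o = ψ <;> simp [h]
  rw [chi, schur, ← Finsupp.mul_prod_erase' _ ψ _ fun _ => S_range_b _, Finsupp.update_apply,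
    if_pos rfl, this, chi, schur]

theorem adj_chi {μ : MP Φ N} {ψ : I Φ} {Y : Bt N} (hr : 0 < r) (h : Mv r (μ ψ) Y) :
    ∃ (s : Finset (Fin N)) (Z : Fin N → Bt N) (c : Fin N → ℂ), (∀ i ∈ s, Mv r (μ ψ) (Z i)) ∧
      adj (pp ψ r) (chi μ) = ∑ i ∈ s, c i • chi (μ.update ψ (Z i)) ∧ adj (pp ψ r) (chi μ) ≠ 0 := by
  obtain ⟨s, Z, c, ⟨i, hi⟩, h1, h2, h3⟩ := mn hr h
  have h4 : adj (pp ψ r) (chi μ) = ∑ i ∈ s, (c i : ℂ) • chi (μ.update ψ (Z i)) := by
    rw [← Finsupp.update_self μ ψ, chi_update, adj_mul, adj_eq_zero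
      (s := {a | ∃ φ m, φ ≠ ψ ∧ 0 < m ∧ a = pp φ m}) (y := chi (μ.erase ψ)), mul_zero, add_zero,
      adj_S (fun m _ => lin_pp ψ m) hr (fun m hm => by
        rw [ip_pp_pp _ _ hm hr]; split_ifs <;> simp_all) (h.sz_add ▸ Nat.le_add_left _ _)]
    · simp only [h3, chm_sum, sum_mul, Finsupp.update_self]
      refine sum_congr rfl fun i hi => ?_
      rw [chi_update, S_eq_chm, ← (h2 i hi).2.sz_add, Nat.add_sub_cancel, smul_mul_assoc]
    · rintro _ ⟨φ, m, -, -, rfl⟩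
      exact lin_pp φ m
    · rintro _ ⟨φ, m, h1, h2, rfl⟩
      rw [ip_pp_pp _ _ h2 hr, if_neg fun e => h1 e.1]
    · exact Subalgebra.prod_mem _ fun φ hφ => S_mem_adjoin_b (fun m hm => by
        exact ⟨φ, m, by rintro rfl; simp at hφ, hm, rfl⟩) _
  refine ⟨s, Z, _, fun i hi => (h2 i hi).2, h4, fun h0 => (h2 i hi).1 ?_⟩
  have h5 := congrArg (ipA · (chi (μ.update ψ (Z i)))) (h4.symm.trans h0)
  simp only [ip_sum_left, ip_smul_left, ip_chi_chi, ip_zero_left] at h5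
  rw [sum_eq_single_of_mem i hi fun j hj e => by
    rw [if_neg fun e' => e (h1 hj hi (by simpa using DFunLike.congr_fun e' ψ)), mul_zero]] at h5
  simpa using h5

/-- the pairing on the tensor product -/
noncomputable def LL (b : A Φ) (c : A Φ') : A Φ ⊗[ℂ] A Φ' →ₗ[ℂ] ℂ :=
  LinearMap.mul' ℂ ℂ ∘ₗ TensorProduct.map (ipL b) (ipL c)

variable {b x : A Φ} {c y : A Φ'}

theorem LL_tmul (a : A Φ) (a' : A Φ') : LL b c (a ⊗ₜ a') = ipA a b * ipA a' c := rfl

theorem LL_left (hx : Lin x) (t : A Φ ⊗[ℂ] A Φ') : LL b c ((x ⊗ₜ 1) * t) = LL (adj x b) c t := by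
  induction t with
  | zero => simp
  | tmul a a' => rw [Algebra.TensorProduct.tmul_mul_tmul, LL_tmul, LL_tmul, hx.ip_mul_adj, one_mul]
  | add s t hs ht => rw [mul_add, map_add, map_add, hs, ht]

theorem LL_right (hy : Lin y) (t : A Φ ⊗[ℂ] A Φ') : LL b c ((1 ⊗ₜ y) * t) = LL b (adj y c) t := by
  induction t with
  | zero => simp
  | tmul a a' => rw [Algebra.TensorProduct.tmul_mul_tmul, LL_tmul, LL_tmul, hy.ip_mul_adj, one_mul]
  | add s t hs ht => rw [mul_add, map_add, map_add, hs, ht]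

theorem LL_smul (z : ℂ) (t : A Φ ⊗[ℂ] A Φ') : LL b (z • c) t = conj z * LL b c t := by
  induction t with
  | zero => simp
  | tmul a a' => rw [LL_tmul, LL_tmul, ip_smul_right, mul_left_comm]
  | add s t hs ht => rw [map_add, map_add, hs, ht, mul_add]

theorem sum_ne (hC : StCh k) (hI : StIso k) (hp : p.Prime) (hc : p ≠ ringChar k) {n j : ℕ}
    (hb : Hom n b) (hc' : Hom j c) {t : A Φ ⊗[ℂ] A Φ'} {F : Φ.G (Fin n) → Φ'.G (Fin j) → ℂ}
    (hF : ∀ y₀ y₁, ¬ p ∣ orderOf y₀ → ¬ p ∣ orderOf y₁ → F y₀ y₁ =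
      LinearMap.mul' ℂ ℂ (TensorProduct.map (ev (typ Φ y₀.1)) (ev (typ Φ' y₁.1)) t))
    (h : LL (dd p b) (dd p c) t ≠ 0) : ∑ y₀, ∑ y₁, F y₀ y₁ *
      conj (pRegularPart p (ch (Fin n) b) y₀) * conj (pRegularPart p (ch (Fin j) c) y₁) ≠ 0 := by
  have h1 : ∀ {Φ : Frob k} {n : ℕ} {b : A Φ}, Hom n b → ∀ a, ∑ y : Φ.G (Fin n), ev (typ Φ y.1) a *
      conj (pRegularPart p (ch (Fin n) b) y) = Nat.card (Φ.G (Fin n)) * ipA a (dd p b) :=
    fun {Φ n b} hb a => by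
      rw [ip_cj, ← hI Φ (Fin n) _ a (by simpa using hb.dd p), conj_classInner, hC.reg _ _ p hp hc,
        classInner_def, mul_inv_cancel_left₀ (Nat.cast_ne_zero.2 Nat.card_pos.ne')]
      rfl
  have h2 : ∀ t : A Φ ⊗[ℂ] A Φ', ∑ y₀ : Φ.G (Fin n), ∑ y₁ : Φ'.G (Fin j),
      LinearMap.mul' ℂ ℂ (TensorProduct.map (ev (typ Φ y₀.1)) (ev (typ Φ' y₁.1)) t) *
      conj (pRegularPart p (ch (Fin n) b) y₀) * conj (pRegularPart p (ch (Fin j) c) y₁) =
      Nat.card (Φ.G (Fin n)) * Nat.card (Φ'.G (Fin j)) * LL (dd p b) (dd p c) t := fun t => by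
    induction t with
    | zero => simp
    | tmul a a' =>
      rw [LL_tmul, mul_mul_mul_comm, ← h1 hb, ← h1 hc', sum_mul_sum]
      exact sum_congr rfl fun _ _ => sum_congr rfl fun _ _ => by
        rw [TensorProduct.map_tmul, LinearMap.mul'_apply]; ring
    | add s t hs ht => simp only [map_add, add_mul, sum_add_distrib, hs, ht, mul_add]
  refine ne_of_eq_of_ne (Eq.trans (sum_congr rfl fun y₀ _ => sum_congr rfl fun y₁ _ => ?_) (h2 t))
    (mul_ne_zero (mul_ne_zero (Nat.cast_ne_zero.2 Nat.card_pos.ne')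
      (Nat.cast_ne_zero.2 Nat.card_pos.ne')) h)
  by_cases h0 : p ∣ orderOf y₀
  · simp [pRegularPart, IsPRegular, h0]
  by_cases h1 : p ∣ orderOf y₁
  · simp [pRegularPart, IsPRegular, h1]
  rw [hF _ _ h0 h1]

theorem BA_induction {P : A Φ → Prop} (h1 : P 1) (h0 : P 0) (ha : ∀ a b, P a → P b → P (a + b))
    (hs : ∀ (z : ℂ) a, P a → P (z • a))
    (hm : ∀ ψ m a, Reg p ψ → 0 < m → P a → P (pp ψ m * a)) {a : A Φ} (h : a ∈ BA Φ p) : P a := by
  rw [BA, ← Subalgebra.mem_toSubmodule, Algebra.adjoin_eq_span] at h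
  refine Submodule.span_induction (fun x hx => ?_) h0 (fun _ _ _ _ => ha _ _) (fun _ _ _ => hs _ _) h
  induction hx using Submonoid.closure_induction_left with
  | one => exact h1
  | mul_left x hx y _ ih =>
    obtain ⟨ψ, m, h1, h2, rfl⟩ := hx
    exact hm ψ m y h1 h2 ih

variable {R : A Φ →ₐ[ℂ] A Φ ⊗[ℂ] A Φ'} {g : I Φ → ℕ → A Φ'} (hg : ∀ ψ m, Lin (g ψ m))
  (hR : ∀ ψ m, Reg p ψ → 0 < m → R (pp ψ m) = dd p (pp ψ m) ⊗ₜ 1 + 1 ⊗ₜ g ψ m)

include hg hR in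
theorem LL_one {a : A Φ} (ha : a ∈ BA Φ p) : ∀ b, LL b 1 (R a) = ipA (dd p a) b := by
  refine BA_induction (P := fun a => ∀ b, LL b 1 (R a) = ipA (dd p a) b) (fun b => ?_) (by simp)
    (fun a a' h h' b => by simp only [map_add, h, h', ip_add_left])
    (fun z a h b => by simp only [map_smul, h, ip_smul_left, smul_eq_mul])
    (fun ψ m a h1 h2 h b => ?_) ha
  · rw [map_one R, map_one (dd p), Algebra.TensorProduct.one_def, LL_tmul, ip_one_one, mul_one]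
  · rw [map_mul, hR ψ m h1 h2, add_mul, map_add, LL_left ((lin_pp ψ m).dd p), LL_right (hg ψ m),
      adj_one, ← zero_smul ℂ (1 : A Φ'), LL_smul, h, map_mul, ((lin_pp ψ m).dd p).ip_mul_adj]
    simp

include hg hR in
theorem LL_lin (hc : Lin c) {κ : ℂ}
    (h : ∀ ψ m, Reg p ψ → 0 < m → ipA (g ψ m) c = κ * ipA (pp ψ m) x) {a : A Φ}
    (ha : a ∈ BA Φ p) : ∀ b, LL b c (R a) = κ * ipA (dd p (adj x a)) b := by
  refine (BA_induction (P := fun a => (∀ b, LL b 1 (R a) = ipA (dd p a) b) ∧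
    ∀ b, LL b c (R a) = κ * ipA (dd p (adj x a)) b) ⟨LL_one hg hR (one_mem _), fun b => ?_⟩
    (by simp) (fun a a' h h' => by simp only [map_add, h, h', ip_add_left, mul_add]; simp)
    (fun z a h => by
      simp only [map_smul, Derivation.map_smul, h, ip_smul_left, smul_eq_mul, mul_left_comm z]
      simp)
    (fun ψ m a h1 h2 h0 => ⟨fun b => ?_, fun b => ?_⟩) ha).2
  · rw [map_one, Algebra.TensorProduct.one_def, LL_tmul, hc.one_ip, adj_one]
    simp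
  · rw [map_mul, hR ψ m h1 h2, add_mul, map_add, LL_left ((lin_pp ψ m).dd p), LL_right (hg ψ m),
      adj_one, ← zero_smul ℂ (1 : A Φ'), LL_smul, h0.1, map_mul, ((lin_pp ψ m).dd p).ip_mul_adj]
    simp
  · rw [map_mul, hR ψ m h1 h2, add_mul, map_add, LL_left ((lin_pp ψ m).dd p), LL_right (hg ψ m),
      hc.adj_lin, LL_smul, h0.1, h0.2, ip_conj, h ψ m h1 h2, adj_mul, (lin_pp ψ m).adj_lin,
      map_add, map_mul, map_mul, ip_add_left, ((lin_pp ψ m).dd p).ip_mul_adj, map_smul, map_one,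
      smul_mul_assoc, one_mul, ip_smul_left]
    ring

theorem LL_mul {R : A Φ →ₐ[ℂ] A Φ ⊗[ℂ] A Φ}
    (hR : ∀ ψ m, Reg p ψ → 0 < m → R (pp ψ m) = dd p (pp ψ m) ⊗ₜ 1 + 1 ⊗ₜ dd p (pp ψ m)) {a : A Φ}
    (ha : a ∈ BA Φ p) : ∀ b c, LL b c (R a) = ipA (dd p a) (b * c) := by
  refine BA_induction (P := fun a => ∀ b c, LL b c (R a) = ipA (dd p a) (b * c)) (fun b c => ?_)
    (by simp) (fun a a' h h' b c => by simp only [map_add, h, h', ip_add_left])
    (fun z a h b c => by simp only [map_smul, h, ip_smul_left, smul_eq_mul])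
    (fun ψ m a h1 h2 h b c => ?_) ha
  · rw [map_one R, map_one (dd p), Algebra.TensorProduct.one_def, LL_tmul, ip_cj (b * c), ip_mul_one,
      map_mul, ip_conj, ip_conj]
  · have := (lin_pp ψ m).dd p
    rw [map_mul, hR ψ m h1 h2, add_mul, map_add, LL_left this, LL_right this, h, h, map_mul,
      this.ip_mul_adj, adj_mul, ip_add_right]

section span

variable {B : Type*} [CommRing B] [Algebra ℂ B]

theorem S_mul_S_mem (q : ℕ → B) {X Y : Finset ℕ} (h : sz N X + sz N Y ≤ N) :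
    S q N X * S q N Y ∈
      Submodule.span ℂ ((fun Z : Bt N => S q N Z.1) '' {Z | sz N Z.1 = sz N X + sz N Y}) := by
  rw [S, S, sum_mul_sum]
  refine Submodule.sum_mem _ fun ρ hρ => Submodule.sum_mem _ fun σ hσ => ?_
  rw [mem_ptn] at hρ hσ
  rw [smul_mul_smul_comm, ← pm_add, pm_eq_sum_S q h (mem_ptn.2 ⟨by
    rw [Multiset.sum_add, hρ.1, hσ.1], fun r hr => (Multiset.mem_add.1 hr).elim (hρ.2 r) (hσ.2 r)⟩)]
  exact Submodule.smul_mem _ _ (Submodule.sum_mem _ fun Z hZ => Submodule.smul_mem _ _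
    (Submodule.subset_span ⟨⟨Z, (mem_bs.1 hZ).1⟩, sz_of_mem hZ, rfl⟩))

theorem prod_mem_span (q : I Φ → ℕ → B) (T : Finset (I Φ)) (f : I Φ → B) (w : I Φ → ℕ)
    (hf : ∀ o ∈ T, f o ∈ Submodule.span ℂ ((fun Z : Bt N => S (q o) N Z.1) '' {Z | sz N Z.1 = w o})) :
    ∏ o ∈ T, f o ∈ Submodule.span ℂ (schur q ''
      {ν : MP Φ N | ν.support ⊆ T ∧ ∀ o ∈ T, sz N (ν o).1 = w o}) := by
  induction T using Finset.induction_on with
  | empty => exact Submodule.subset_span ⟨0, ⟨by simp, by simp⟩, by simp [schur]⟩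
  | insert o T ho ih =>
    have := Submodule.mul_mem_mul (hf o (mem_insert_self _ _))
      (ih fun o' ho' => hf o' (mem_insert_of_mem ho'))
    rw [Submodule.span_mul_span] at this
    rw [prod_insert ho]
    refine Submodule.span_mono ?_ this
    rintro _ ⟨_, ⟨X, hX, rfl⟩, _, ⟨ν, ⟨h1, h2⟩, rfl⟩, rfl⟩
    have h3 : (ν.update o X).support ⊆ insert o T :=
      (Finsupp.support_update_subset _ _).trans (insert_subset_insert _ h1)
    have h4 : ∀ o' ∈ T, ν.update o X o' = ν o' := fun o' ho' => by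
      rw [Finsupp.update_apply, if_neg (ne_of_mem_of_not_mem ho' ho)]
    refine ⟨_, ⟨h3, fun o' ho' => ?_⟩, ?_⟩
    · rcases mem_insert.1 ho' with rfl | ho'
      · rwa [Finsupp.update_apply, if_pos rfl]
      · rw [h4 o' ho', h2 o' ho']
    · rw [Gen.schur_eq_prod _ _ h3, prod_insert ho, Gen.schur_eq_prod _ _ h1, Finsupp.update_apply,
        if_pos rfl, prod_congr rfl fun o' ho' => by rw [h4 o' ho']]

end span

theorem chi_ne_zero (μ : MP Φ N) : chi μ ≠ 0 := fun h => by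
  simpa [h] using ip_chi_chi μ μ

end Peel

open Peel

variable (k) in
theorem stMerge (hC : StCh k) (hI : StIso k) : StMerge k := by
  intro Φ ι _ _ p hp hc n j D ξ₀ ξ₁ h₀ h₁ m₀ m₁ hne N μ₀ μ₁ hN b₀ b₁ d₀ d₁ x₀ x₁ hx₀ hx₁
  have := Fact.mk hp
  obtain ⟨R, hR, hR'⟩ := stRes k Φ ι p hp hc 1 n j D ξ₀ ξ₁ h₀ h₁ m₀
    (Nat.dvd_one.1 ((mem_Mk_per one_pos).1 m₁)) hne
  have h1 := eq_zero_of_BA (mul_mem (chi_mem_BA b₀) (chi_mem_BA b₁))
  have h2 : chi μ₀ * chi μ₁ ∈ Submodule.span ℂ (schur pp '' {ν : MP Φ N |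
      ν.support ⊆ μ₀.support ∪ μ₁.support ∧ ∀ o ∈ μ₀.support ∪ μ₁.support,
        sz N (ν o).1 = sz N (μ₀ o).1 + sz N (μ₁ o).1}) := by
    rw [chi, chi, Gen.schur_eq_prod pp μ₀ (subset_union_left (s₂ := μ₁.support)),
      Gen.schur_eq_prod pp μ₁ (subset_union_right (s₁ := μ₀.support)), ← prod_mul_distrib]
    refine prod_mem_span (N := N) pp _ _ (fun o => sz N (μ₀ o).1 + sz N (μ₁ o).1) fun o _ =>
      S_mul_S_mem _ (le_trans ?_ hN)
    rw [Res.card_eq D, one_mul, ← d₀, ← d₁]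
    exact add_le_add (sz_le_deg _ _) (sz_le_deg _ _)
  by_contra! h3
  refine mul_ne_zero (chi_ne_zero μ₀) (chi_ne_zero μ₁) (h1 ?_)
  refine Submodule.span_induction (p := fun a _ => ipA (dd p a) (chi μ₀ * chi μ₁) = 0) ?_ (by simp)
    (fun a b _ _ h h' => by simp [ip_add_left, h, h']) (fun z a _ h => by simp [ip_smul_left, h]) h2
  rintro _ ⟨μ, ⟨h4, h5⟩, rfl⟩
  have h6 : Basic p μ := fun o ho => (mem_union.1 (h4 ho)).elim (b₀ o) (b₁ o)
  by_contra h7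
  refine sum_ne (Φ' := Φ) hC hI hp hc (d₀ ▸ hom_chi μ₀) (d₁ ▸ hom_chi μ₁)
    (fun y₀ y₁ => hR' (chi μ) x₀ y₀ x₁ y₁ hx₀ hx₁) ?_ (h3 μ h6 fun o => ?_)
  · refine ne_of_eq_of_ne (LL_mul (R := R) (fun ψ m hψ hm => ?_) (chi_mem_BA h6) _ _) ?_
    · refine (hR _ (Nat.mul_pos (per_pos ψ) hm) _ (rep_mem_Mk_mul ψ hm) hψ).trans ?_
      rw [if_pos (one_dvd _), sum_range_one, pow_zero, zpow_one, Nat.div_one]
      rfl
    · rwa [← map_mul, ip_dd_dd]
  · by_cases ho : o ∈ μ₀.support ∪ μ₁.support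
    · exact h5 o ho
    · rw [Finsupp.notMem_support_iff.1 fun e => ho (h4 e),
        Finsupp.notMem_support_iff.1 fun e => ho (mem_union_left _ e),
        Finsupp.notMem_support_iff.1 fun e => ho (mem_union_right _ e), GLn.sz_zero]

variable (k) in
theorem stPeel (hC : StCh k) (hI : StIso k) : StPeel k := by
  intro Φ ι _ _ p hp hc e n j D ξ₁ h₁ he hne N μ ψ r Y hN hb hd hr _ hj hY x₁ hx₁
  have := Fact.mk hp
  classical
  obtain ⟨R, hR, hR'⟩ := stRes k Φ ι p hp hc e n j D 1 ξ₁ ⟨0, one_pow _⟩ h₁ (one_mem_Mk one_pos) he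
    hne.symm
  have e0 : 0 < e := he ▸ per_pos _
  have hψ : Reg p ψ := hb ψ (Finsupp.mem_support_iff.2 fun h => by
    have := hY.sz_add
    rw [h, GLn.sz_zero] at this
    omega)
  have j0 : 0 < j := Nat.pos_of_mul_pos_left (hj ▸ Nat.mul_pos (per_pos ψ) hr)
  have ht : ψ.rep ∈ Mk (Φ.pow e) j := by rw [Mk_pow e0, hj]; exact rep_mem_Mk_mul ψ hr
  let s := {i ∈ range e | io (Φ.pow e) (ψ.rep ^ Φ.Q ^ i) = io (Φ.pow e) ψ.rep}
  let κ : ℂ := #s * (j / ((io (Φ.pow e) ψ.rep).per * nl (Φ.pow e) p j : ℕ)) / r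
  have hκ : κ ≠ 0 := div_ne_zero (mul_ne_zero (Nat.cast_ne_zero.2 (card_ne_zero.2
    ⟨0, by simp [s, e0]⟩)) (div_ne_zero (Nat.cast_ne_zero.2 j0.ne') (Nat.cast_ne_zero.2
      (Nat.mul_pos (per_pos _) (nl_pos _)).ne'))) (Nat.cast_ne_zero.2 hr.ne')
  have key := LL_lin (x := pp ψ r) (κ := κ) (g := fun φ m => if e ∣ φ.per * m then
      ∑ i ∈ range e, dd p (P (Φ.pow e) (φ.per * m / e) (φ.rep ^ Φ.Q ^ i)) else 0)
    (fun φ m => by
      split_ifs
      exacts [Lin.sum fun _ _ => (lin_P _ _).dd p, lin_zero])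
    (fun φ m hφ hm => by
      rw [pp, hR _ (Nat.mul_pos (per_pos φ) hm) _ (rep_mem_Mk_mul φ hm) hφ]
      split_ifs
      · rw [TensorProduct.tmul_sum]
      · rw [TensorProduct.tmul_zero])
    ((lin_P j ψ.rep).dd p) (fun φ m hφ hm => ?_) (chi_mem_BA hb)
  · obtain ⟨T, Z, c, h1, h2, h3⟩ := adj_chi hr hY
    by_contra! h4
    refine h3 (eq_zero_of_BA (p := p) (adj_mem_adjoin _ ?_ (chi_mem_BA hb)) ?_)
    · rintro _ ⟨φ, m, -, -, rfl⟩
      exact lin_pp φ m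
    conv_lhs => right; rw [h2]
    rw [ip_sum_right]
    refine sum_eq_zero fun i hi => ?_
    rw [ip_smul_right]
    refine mul_eq_zero_of_right _ (by_contra fun h5 => ?_)
    have h6 := deg_update_add μ ψ (Z i)
    rw [← (h1 i hi).sz_add, hd, Res.card_eq D, hj] at h6
    refine sum_ne (t := R (chi μ)) hC hI hp hc ((show deg (μ.update ψ (Z i)) = n by
      rw [mul_add] at h6; omega) ▸ hom_chi _) (hom_P j ψ.rep) (fun y₀ y₁ h₀ h₁ => ?_) ?_
      (h4 (Z i) (h1 i hi))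
    · exact (congrArg (fun y => Ch ι μ (D.f2 (y, x₁ * y₁))) (one_mul y₀).symm).trans
        (hR' (chi μ) 1 y₀ x₁ y₁ (map_one _).symm hx₁ h₀ h₁)
    · rw [key, ip_dd_dd]
      exact mul_ne_zero hκ h5
  · rw [ip_pp_pp _ _ hm hr]
    by_cases h0 : e ∣ φ.per * m ∧ φ.per * m / e = j
    · have h1 : φ.per * m = ψ.per * r := by rw [← hj, ← h0.2, Nat.mul_div_cancel' h0.1]
      have hs : φ.rep ∈ Mk (Φ.pow e) j := by rw [Mk_pow e0, hj, ← h1]; exact rep_mem_Mk_mul φ hm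
      rw [if_pos h0.1, h0.2, ip_sum_left, sum_congr rfl fun i _ => by
        rw [ip_dd_dd, ip_dd_P (zpow_mem_Mk hs _) ht, (reg_io.2 hψ).rpI_eq,
          (reg_io.2 (by rwa [orderOf_pow_q])).rpI_eq]]
      split_ifs with h2
      · obtain ⟨rfl, rfl⟩ := h2
        rw [div_mul_cancel₀ _ (Nat.cast_ne_zero.2 hm.ne'), ← sum_filter, ← nsmul_eq_mul, ← sum_const]
        exact sum_congr rfl fun i hi => by rw [(mem_filter.1 hi).2]
      · rw [mul_zero]
        refine sum_eq_zero fun i _ => if_neg fun h3 => h2 ?_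
        obtain rfl : φ = ψ := by simpa using io_eq_of_io_pow e0 h3
        exact ⟨rfl, Nat.eq_of_mul_eq_mul_left (per_pos _) h1⟩
    · rw [if_neg (c := φ = ψ ∧ m = r), mul_zero]
      · split_ifs with h1
        · rw [ip_sum_left]
          exact sum_eq_zero fun i _ => ((hom_P _ _).dd p).ip_eq_zero ((hom_P _ _).dd p)
            fun h2 => h0 ⟨h1, h2⟩
        · exact ip_zero_left _
      · rintro ⟨rfl, rfl⟩
        exact h0 (by rw [← hj, Nat.mul_div_cancel_left _ e0]; exact ⟨dvd_mul_right _ _, rfl⟩)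

end Cfsg.GUn
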