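import Cfsg.Agent.GUn.PlA
import Cfsg.Agent.Blk.KnRob
import Cfsg.Agent.Blk.NormalDef
import Cfsg.Agent.Blk.Subsec

/-! The piece `StPl`. -/

set_option autoImplicit false

namespace Cfsg.GUn.Pl

open scoped MonoidAlgebra ComplexConjugate

universe u

variable {Γ G₀ G₁ : Type u} [Group Γ] [Finite Γ] [Group G₀] [Group G₁] [Fintype G₀] [Fintype G₁]
  {p : ℕ} {M : Ideal AlgInt} {f : G₀ × G₁ →* Γ} {u₀ : G₀} {u₁ : G₁}

/-- the block idempotent of the centralizer -/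
noncomputable def EE (M : Ideal AlgInt) (f : G₀ × G₁ →* Γ) (θ₀ : IrrCharacter G₀)
    (θ₁ : IrrCharacter G₁) : (resK M)[Γ] :=
  gaPush (resK M) f (tn (idemK M (blockOf M θ₀.1)) (idemK M (blockOf M θ₁.1)))

theorem EE_congr (hM : IsPModular p M) {θ₀ θ₀' : IrrCharacter G₀} {θ₁ θ₁' : IrrCharacter G₁}
    (h₀ : θ₀' ∈ blockOf M θ₀.1) (h₁ : θ₁' ∈ blockOf M θ₁.1) : EE M f θ₀' θ₁' = EE M f θ₀ θ₁ := by
  rw [EE, EE, ← (isPBlock_blockOf θ₀).eq_blockOf hM h₀, ← (isPBlock_blockOf θ₁).eq_blockOf hM h₁]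

theorem isBlk_EE (hM : IsPModular p M) (hf : Function.Injective f) (θ₀ : IrrCharacter G₀)
    (θ₁ : IrrCharacter G₁) : IsBlk (resK M) f.range (EE M f θ₀ θ₁) := by
  obtain ⟨ψ, hψ⟩ := exists_ov' θ₀ θ₁
  rw [EE, ← hψ.idemK_eq hM]
  exact (isPBlock_blockOf ψ).isBlk_gaPush hM hf

theorem exists_EE (hM : IsPModular p M) (hf : Function.Injective f) {g : (resK M)[Γ]}
    (hg : IsBlk (resK M) f.range g) : ∃ θ₀ θ₁, g = EE M f θ₀ θ₁ := by
  rw [MonoidHom.range_eq_map] at hg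
  obtain ⟨a, rfl⟩ := exists_gaPush_eq hf hg.supp
  obtain ⟨_, ⟨ψ, rfl⟩, rfl⟩ := IsBlk.exists_idemK_eq hM ((isBlk_gaPush_iff hf).1 hg)
  obtain ⟨θ₀, θ₁, h⟩ := exists_ov ψ
  exact ⟨θ₀, θ₁, by rw [h.idemK_eq hM]; rfl⟩

omit [Finite Γ] [Fintype G₀] [Fintype G₁] in
theorem cen_zp (hc : Cen p f u₀ u₁) :
    Subgroup.centralizer (Subgroup.zpowers (f (u₀, u₁)) : Set Γ) = f.range := by
  rw [centralizer_zpowers_eq_singleton, hc.range]

/-- the key lemma -/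
theorem ind (hM : IsPModular p M) (hc : Cen p f u₀ u₁) {χ : IrrCharacter Γ}
    {θ₀ : IrrCharacter G₀} {θ₁ : IrrCharacter G₁} (h : pair3 p f u₀ u₁ χ.1 θ₀.1 θ₁.1 ≠ 0) :
    brGA (resK M) (Subgroup.zpowers (f (u₀, u₁))) (idemK M (blockOf M χ.1)) * EE M f θ₀ θ₁ =
      EE M f θ₀ θ₁ := by
  classical
  have := Fintype.ofFinite f.range
  have hB := isPBlock_blockOf (M := M) χ
  have hχ := hM.mem_blockOf_self χ
  set V := inducingChars M f.range (blockOf M χ.1)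
  set a : IrrCharacter f.range → ℂ := fun ψ =>
    classInner (fun c : f.range => χ.1 (f (u₀, u₁) * c)) ψ.1
  have key : pair3 p f u₀ u₁ χ.1 θ₀.1 θ₁.1 = ∑ ψ ∈ irrFinset V, a ψ * ∑ s1 : G₀, ∑ s2 : G₁,
        ψ.1 (f.rangeRestrict (s1, s2)) * conj (pRegularPart p θ₀.1 s1) *
          conj (pRegularPart p θ₁.1 s2) := by
    simp only [Finset.mul_sum, pair3]
    refine Eq.trans ?_ Finset.sum_comm
    refine Finset.sum_congr rfl fun s1 _ => ?_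
    refine Eq.trans ?_ Finset.sum_comm
    refine Finset.sum_congr rfl fun s2 _ => ?_
    by_cases h1 : p ∣ orderOf s1
    · simp [pRegularPart, IsPRegular, h1]
    by_cases h2 : p ∣ orderOf s2
    · simp [pRegularPart, IsPRegular, h2]
    have h3 : ¬ p ∣ orderOf (f.rangeRestrict (s1, s2)) := by
      rw [orderOf_injective f.rangeRestrict
        (fun a b hab => hc.inj (congrArg Subtype.val hab)) (s1, s2)]
      exact GLn.not_dvd_orderOf_prod hM.1 h1 h2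
    have h4 := hB.apply_section hM hc.pelt hc.range hχ h3
    have h5 : f (u₀ * s1, u₁ * s2) = f (u₀, u₁) * (f.rangeRestrict (s1, s2) : Γ) := by
      rw [MonoidHom.coe_rangeRestrict, ← map_mul]; rfl
    rw [h5, h4, blockPart_eq_sum_smul, Finset.sum_apply, Finset.sum_mul, Finset.sum_mul]
    refine Finset.sum_congr rfl fun ψ _ => ?_
    simp only [Pi.smul_apply, smul_eq_mul, a]
    ring
  rw [key] at h
  obtain ⟨ψ, hψ, h⟩ := Finset.exists_ne_zero_of_sum_ne_zero h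
  have hind := hM.mem_inducingChars_iff.1 (mem_irrFinset.1 hψ)
  replace h := right_ne_zero_of_mul h
  set e := f.rangeRestrict
  have he : Function.Surjective e := f.rangeRestrict_surjective
  have h0 : ∑ s1 : G₀, ∑ s2 : G₁, ψ.1 (e (s1, s2)) * conj (pRegularPart p θ₀.1 s1) *
      conj (pRegularPart p θ₁.1 s2) =
      (∑ s1 : G₀, ψ.1 (e (s1, 1)) * conj (pRegularPart p θ₀.1 s1)) *
        (∑ s2 : G₁, ψ.1 (e (1, s2)) * conj (pRegularPart p θ₁.1 s2)) / ψ.1 1 := by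
    rw [Finset.sum_mul_sum, Finset.sum_div]
    refine Finset.sum_congr rfl fun s1 _ => ?_
    rw [Finset.sum_div]
    refine Finset.sum_congr rfl fun s2 _ => ?_
    rw [GLn.irr_prod_apply e he]
    ring
  rw [h0] at h
  obtain ⟨η₀, hη₀, hη₀'⟩ := GLn.exists_mem_blockOf_of_regular hM
    (ψ.isClassFunction.comp (e.comp (MonoidHom.inl G₀ G₁))) θ₀
    (left_ne_zero_of_mul (div_ne_zero_iff.1 h).1)
  obtain ⟨η₁, hη₁, hη₁'⟩ := GLn.exists_mem_blockOf_of_regular hM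
    (ψ.isClassFunction.comp (e.comp (MonoidHom.inr G₀ G₁))) θ₁
    (right_ne_zero_of_mul (div_ne_zero_iff.1 h).1)
  have hov : Ov (ψ.comap e he) η₀ η₁ := ⟨hη₀', hη₁'⟩
  have hE : EE M f θ₀ θ₁ = subIdem M f.range (blockOf M ψ.1) := by
    rw [← EE_congr hM hη₀ hη₁, EE, ← hov.idemK_eq hM, subIdem,
      ← hM.gaPush_idemK_blockOf (MonoidHom.ofInjective hc.inj) ψ (ψ.comap e he) (fun _ => rfl),
      gaIncl_eq_gaPush, gaPush_gaPush]
    rfl
  rw [hE]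
  refine (hM.isInducedBlock_iff_of_normal hind.1 hB (isPGroup_zpowers_of_orderOf hM.1 hc.pelt)
    (Subgroup.zpowers_le.2 ⟨_, rfl⟩) (cen_zp hc).le ?_).1 hind
  rw [← cen_zp hc]
  exact centralizer_le_normalizer' _

theorem mem_of_br (hM : IsPModular p M) {Q : Subgroup Γ} (hQ : IsPGroup p Q) {χ χ' : IrrCharacter Γ}
    {g : (resK M)[Γ]} (hg : g ≠ 0) (h : brGA (resK M) Q (idemK M (blockOf M χ.1)) * g = g)
    (h' : brGA (resK M) Q (idemK M (blockOf M χ'.1)) * g = g) : χ' ∈ blockOf M χ.1 := by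
  have := hM.fact_prime
  have := hM.charP
  rw [(isPBlock_blockOf χ).eq_of_idemK_eq hM (isPBlock_blockOf χ')
    (IsPrimIdem.eq_of_brGA_mul_eq le_rfl ((isPBlock_blockOf χ).isBlk_top hM)
      ((isPBlock_blockOf χ').isBlk_top hM) hQ le_top hg h h')]
  exact hM.mem_blockOf_self χ'

theorem br_eq (hM : IsPModular p M) (hc : Cen p f u₀ u₁) {χ : IrrCharacter Γ}
    {θ₀ : IrrCharacter G₀} {θ₁ : IrrCharacter G₁} (h : pair3 p f u₀ u₁ χ.1 θ₀.1 θ₁.1 ≠ 0)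
    (H : ∀ (φ₀ : IrrCharacter G₀) (φ₁ : IrrCharacter G₁), ∃ φ₀' ∈ blockOf M φ₀.1,
      ∃ φ₁' ∈ blockOf M φ₁.1, ∃ χ' : IrrCharacter Γ, pair3 p f u₀ u₁ χ'.1 φ₀'.1 φ₁'.1 ≠ 0 ∧
        (χ' ∈ blockOf M χ.1 → φ₀' ∈ blockOf M θ₀.1 ∧ φ₁' ∈ blockOf M θ₁.1)) :
    brGA (resK M) (Subgroup.zpowers (f (u₀, u₁))) (idemK M (blockOf M χ.1)) = EE M f θ₀ θ₁ := by
  have := hM.fact_prime
  have := hM.charP
  have hQ := isPGroup_zpowers_of_orderOf hM.1 hc.pelt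
  have hB := (isPBlock_blockOf (M := M) χ).isBlk_top hM
  have hE := isBlk_EE hM hc.inj θ₀ θ₁
  have h1 := ind hM hc h
  set c := brGA (resK M) (Subgroup.zpowers (f (u₀, u₁))) (idemK M (blockOf M χ.1)) with hcdef
  set E := EE M f θ₀ θ₁ with hEdef
  have hcm : c ∈ fixSuppGA (resK M) f.range f.range := by
    rw [← cen_zp hc]
    exact brGA_mem_fixSuppGA_of_isFixed _ (hB.fixed.mono le_top) (centralizer_le_normalizer' _)
  have hcc : IsIdempotentElem c := isIdempotentElem_brGA hQ (hB.fixed.mono le_top) hB.idem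
  have h2 : E * c = E := (commute_of_mem_fixSuppGA le_rfl hE.mem hcm).eq.trans h1
  by_contra hne
  have ha : IsIdempotentElem (c - E) := by
    rw [IsIdempotentElem, sub_mul, mul_sub, mul_sub, hcc.eq, h1, h2, hE.idem.eq, sub_self, sub_zero]
  obtain ⟨g, hg, hag⟩ := exists_isBlk_mul_eq (sub_mem hcm hE.mem) ha (sub_ne_zero.2 hne)
  obtain ⟨φ₀, φ₁, rfl⟩ := exists_EE hM hc.inj hg
  obtain ⟨φ₀', h₀, φ₁', h₁, χ', hχ', H⟩ := H φ₀ φ₁
  have h3 := ind hM hc hχ'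
  rw [EE_congr hM h₀ h₁] at h3
  have h4 : c * EE M f φ₀ φ₁ = EE M f φ₀ φ₁ := by
    rw [← hag, ← mul_assoc, mul_sub, hcc.eq, h1]
  obtain ⟨k₀, k₁⟩ := H (mem_of_br hM hQ hg.ne_zero h4 h3)
  rw [← EE_congr hM h₀ h₁, EE_congr hM k₀ k₁, ← hEdef, sub_mul, h1, hE.idem.eq, sub_self] at hag
  exact hE.ne_zero hag.symm

theorem cen (hM : IsPModular p M) {B : Set (IrrCharacter Γ)} (hB : IsPBlock M B)
    (h : ∀ χ ∈ B, ∀ g, χ.1 g ≠ 0 → pPart p g ∈ Subgroup.center Γ) {D : Subgroup Γ}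
    (hD : IsDefectGroup p M B D) : D ≤ Subgroup.center Γ := by
  classical
  have := hM.fact_prime
  have := Fintype.ofFinite Γ
  intro u hu
  have hp : ∃ a : ℕ, orderOf u = p ^ a := by
    obtain ⟨a, ha⟩ := IsPGroup.iff_orderOf.1 ((hB.isDefectGroup_iff hM).1 hD).pgrp ⟨u, hu⟩
    exact ⟨a, by rw [← ha, Subgroup.orderOf_mk]⟩
  obtain ⟨ξ, hξ⟩ := (hD.inducingChars_nonempty_iff hM hB (isPGroup_zpowers_of_orderOf hM.1 hp)
    (centralizer_zpowers_eq_singleton u).symm).2 (IsConjLE.of_le (Subgroup.zpowers_le.2 hu))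
  have h1 := congrFun (hB.blockPart_secInd hM hp rfl ξ.isClassFunction) (u * (1 : Subgroup.centralizer {u}))
  rw [blockPart_irr_of_mem hξ, secInd_mul_regular hp rfl ξ.isClassFunction
    (by rw [orderOf_one, Nat.dvd_one]; exact hM.1.ne_one), blockPart_eq_sum_smul,
    Finset.sum_apply] at h1
  obtain ⟨χ, hχ, h2⟩ := Finset.exists_ne_zero_of_sum_ne_zero (h1.trans_ne ξ.one_ne_zero)
  have h3 := h χ (mem_irrFinset.1 hχ) _ (right_ne_zero_of_mul h2)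
  rwa [OneMemClass.coe_one, mul_one, pPart_eq_self_iff.2 hp] at h3

theorem reg (hM : IsPModular p M) {B : Set (IrrCharacter Γ)} (hB : IsPBlock M B) {D : Subgroup Γ}
    (hD : IsDefectGroup p M B D) (hZ : D ≤ Subgroup.center Γ) {χ ψ : IrrCharacter Γ} (hχ : χ ∈ B)
    (hψ : ψ ∈ B) : pRegularPart p χ.1 = pRegularPart p ψ.1 ∧
      ((∀ x ∈ D, χ.1 x = χ.1 1) → (∀ x ∈ D, ψ.1 x = ψ.1 1) → χ = ψ) := by
  have := hM.fact_prime
  have := hM.charP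
  have hC : ∀ x, x ∈ Subgroup.centralizer (D : Set Γ) := fun x d hd =>
    (Subgroup.mem_center_iff.1 (hZ hd) x).symm
  have : D.Normal := ⟨fun d hd g => by rw [← hC g d hd, mul_inv_cancel_right]; exact hd⟩
  obtain ⟨e, he⟩ := ((hB.isDefectGroup_iff hM).1 hD).exists_isMaxPair le_rfl top_le_normalizer_top
    (hB.isBlk_top hM).mem (hB.isBlk_top hM).idem
  have hn := (hB.isNilpotentBlock_iff hM).2
    (he.isNilpGA_of_normal (hB.isBlk_top hM) fun x _ _ => hC x)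
  obtain ⟨φ, -, hφ⟩ := hn.exists_isBasicSet_of_comm hM hD fun x _ => hC x
  have h1 : pRegularPart p χ.1 = pRegularPart p ψ.1 := by rw [hφ χ hχ, hφ ψ hψ]
  refine ⟨h1, fun h2 h3 => Subtype.ext (funext fun g => ?_)⟩
  by_cases hg : pPart p g ∈ D
  · have h4 := congrFun h1 (pRegPart p g)
    have h5 : IsPRegular p (pRegPart p g) := pPart_eq_one_iff.1 (pPart_pRegPart g)
    rw [pRegularPart, pRegularPart, if_pos h5, if_pos h5] at h4
    rw [← pPart_mul_pRegPart p g, apply_mul_of_mem_charKer (χ.mem_charKer.2 (h2 _ hg)),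
      apply_mul_of_mem_charKer (ψ.mem_charKer.2 (h3 _ hg)), h4]
  · have h4 : ∀ x : Γ, x * pPart p g * x⁻¹ ∉ D := fun x hx => hg (by
      simpa [mul_assoc] using this.conj_mem _ hx x⁻¹)
    rw [hD.irr_eq_zero hM hB h4 hχ, hD.irr_eq_zero hM hB h4 hψ]

theorem mc0 (hM : IsPModular p M) (χ : IrrCharacter Γ) {D : Subgroup Γ}
    (hD : IsDefectGroup p M (blockOf M χ.1) D) (hZ : D ≤ Subgroup.center Γ) (K : Subgroup Γ)
    (hK : ∀ g ∉ K, χ.1 g = 0) : MC p M (blockOf M χ.1) K := by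
  have hB := isPBlock_blockOf (M := M) χ
  have hC : Subgroup.centralizer (D : Set Γ) = ⊤ := eq_top_iff.2 fun x _ d hd =>
    (Subgroup.mem_center_iff.1 (hZ hd) x).symm
  have hD' := (hB.isDefectGroup_iff hM).1 hD
  refine ⟨D, _, ⟨isPair_top_iff.2 ⟨hD'.pgrp, hC ▸ hB.isBlk_top hM⟩, le_top, ?_⟩,
    fun S hS _ h => ?_, mem_suppGA.2 fun g hg => ?_⟩
  · rw [brGA_eq_self (hC ▸ mem_suppGA_top _), (hB.isBlk_top hM).idem.eq]
  · obtain ⟨x, -, hx⟩ := hD'.max S hS le_top h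
    rwa [conjSub_eq_self_iff.2 (centralizer_le_normalizer' D (hC ▸ Subgroup.mem_top x))] at hx
  · by_contra h0
    have hr := hM.isPRegular_of_coeff_ne_zero (hB.isBlk_top hM).mem (hB.isBlk_top hM).idem h0
    refine h0 ?_
    rw [coeff_idemK, blockCoeff, finsum_mem_of_eqOn_zero, mul_zero, red_zero]
    intro ψ hψ
    have h4 := congrFun (reg hM hB hD hZ hψ (hM.mem_blockOf_self χ)).1 g
    rw [pRegularPart, pRegularPart, if_pos hr, if_pos hr, hK g hg] at h4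
    simp [h4]

theorem mc (hM : IsPModular p M) (hc : Cen p f u₀ u₁) {χ : IrrCharacter Γ}
    {θ₀ : IrrCharacter G₀} {θ₁ : IrrCharacter G₁} (h : pair3 p f u₀ u₁ χ.1 θ₀.1 θ₁.1 ≠ 0)
    (K : Subgroup Γ) (h₀ : MC p M (blockOf M θ₀.1) (K.comap (f.comp (MonoidHom.inl G₀ G₁))))
    (h₁ : MC p M (blockOf M θ₁.1) (K.comap (f.comp (MonoidHom.inr G₀ G₁)))) :
    MC p M (blockOf M χ.1) K := by
  have := hM.fact_prime
  have := hM.charP
  obtain ⟨A₀, f₀, a₀, c₀, s₀⟩ := h₀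
  obtain ⟨A₁, f₁, a₁, c₁, s₁⟩ := h₁
  obtain ⟨a, ha⟩ := hc.pelt
  have hu : (u₀, u₁) ^ p ^ a = 1 := hc.inj (by rw [map_pow, ← ha, pow_orderOf_eq_one, map_one])
  have hz : ∀ x : G₀ × G₁, x * (u₀, u₁) = (u₀, u₁) * x := fun x => hc.inj (by
    rw [map_mul, map_mul]
    exact Subgroup.mem_centralizer_singleton_iff.1 (hc.range ▸ ⟨x, rfl⟩))
  have key : ∀ {G : Type u} [Group G] [Finite G] (u : G) (A : Subgroup G) (g : (resK M)[G]),
      g ≠ 0 → u ^ p ^ a = 1 → (∀ x, x * u = u * x) → (∀ S : Subgroup G, IsPGroup p S →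
      S ≤ Subgroup.centralizer (A : Set G) → brGA (resK M) S g ≠ 0 → S ≤ A) → u ∈ A := by
    intro G _ _ u A g hg h1 h2 h3
    obtain ⟨b, -, hb⟩ := (Nat.dvd_prime_pow hM.1).1 (orderOf_dvd_of_pow_eq_one h1)
    refine Subgroup.zpowers_le.1 (h3 _ (isPGroup_zpowers_of_orderOf hM.1 ⟨b, hb⟩)
      (Subgroup.zpowers_le.2 fun x _ => h2 x) ?_)
    rwa [brGA_eq_self]
    rw [centralizer_zpowers_eq_singleton, (eq_top_iff (a := Subgroup.centralizer {u})).2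
      fun x _ => Subgroup.mem_centralizer_singleton_iff.2 (h2 x)]
    exact mem_suppGA_top _
  have m₀ := key u₀ A₀ f₀ a₀.pair.ne_zero (congrArg Prod.fst hu)
    (fun x => congrArg Prod.fst (hz (x, 1))) c₀
  have m₁ := key u₁ A₁ f₁ a₁.pair.ne_zero (congrArg Prod.snd hu)
    (fun x => congrArg Prod.snd (hz (1, x))) c₁
  have hv : Subgroup.zpowers (f (u₀, u₁)) ≤ (A₀.prod A₁).map f :=
    Subgroup.zpowers_le.2 ⟨_, ⟨m₀, m₁⟩, rfl⟩
  have hCle : Subgroup.centralizer ((A₀.prod A₁).map f : Set Γ) ≤ f.range :=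
    cen_zp hc ▸ Subgroup.centralizer_le hv
  have hC : Subgroup.centralizer ((A₀.prod A₁).map f : Set Γ) =
      ((Subgroup.centralizer (A₀ : Set G₀)).prod (Subgroup.centralizer (A₁ : Set G₁))).map f := by
    rw [← centralizer_prod, ← cenIn_top (A₀.prod A₁), map_cenIn hc.inj, ← MonoidHom.range_eq_map,
      cenIn, inf_eq_right.2 hCle]
  have hA : IsPGroup p ((A₀.prod A₁).map f) := by
    refine IsPGroup.map (H := A₀.prod A₁) ?_ f
    rintro ⟨⟨x, y⟩, hx, hy⟩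
    obtain ⟨i, hi⟩ := a₀.pair.pgrp ⟨x, hx⟩
    obtain ⟨j, hj⟩ := a₁.pair.pgrp ⟨y, hy⟩
    refine ⟨i + j, Subtype.ext (Prod.ext ?_ ?_)⟩
    · have : x ^ p ^ i = 1 := congrArg Subtype.val hi
      change x ^ p ^ (i + j) = 1
      rw [pow_add, pow_mul, this, one_pow]
    · have : y ^ p ^ j = 1 := congrArg Subtype.val hj
      change y ^ p ^ (i + j) = 1
      rw [pow_add, mul_comm, pow_mul, this, one_pow]
  have hAr : (A₀.prod A₁).map f ≤ f.range := Subgroup.map_le_range _ _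
  refine ⟨(A₀.prod A₁).map f, gaPush (resK M) f (tn f₀ f₁), ⟨isPair_top_iff.2 ⟨hA, ?_⟩, le_top, ?_⟩,
    fun S hS hSC hbr => ?_, ?_⟩
  · rw [hC]
    exact (isBlk_gaPush_iff hc.inj).2
      (isBlk_tn hM (isPair_top_iff.1 a₀.pair).2 (isPair_top_iff.1 a₁.pair).2)
  · have hB := (isPBlock_blockOf (M := M) χ).isBlk_top hM
    have h1 := congrArg (brGA (resK M) ((A₀.prod A₁).map f)) (ind hM hc h)
    rw [brGA_mul hA ((hB.fixed.mono le_top).brGA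
      (hAr.trans (cen_zp hc ▸ centralizer_le_normalizer' _)))
      ((isBlk_EE hM hc.inj θ₀ θ₁).fixed.mono hAr), brGA_brGA_of_le hv] at h1
    have h2 : brGA (resK M) ((A₀.prod A₁).map f) (EE M f θ₀ θ₁) * gaPush (resK M) f (tn f₀ f₁) =
        gaPush (resK M) f (tn f₀ f₁) := by
      rw [EE, brGA_gaPush hc.inj, brGA_tn, ← map_mul, tn_mul, a₀.br, a₁.br]
    rw [← h2, ← mul_assoc, h1]
  · obtain ⟨S, rfl⟩ := exists_map_eq_of_le_map (K := ⊤)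
      (hSC.trans (hCle.trans (MonoidHom.range_eq_map f).le))
    rw [isPGroup_map_iff hc.inj] at hS
    rw [hC, Subgroup.map_le_map_iff_of_injective hc.inj] at hSC
    obtain ⟨⟨x, y⟩, hxy, h0⟩ := brGA_ne_zero_iff.1 ((brGA_gaPush_ne_zero_iff hc.inj).1 hbr)
    rw [coeff_tn] at h0
    have k₀ := c₀ (S.map (MonoidHom.fst G₀ G₁)) (hS.map _) (fun _ ⟨z, hz, e⟩ => e ▸ (hSC hz).1)
      (brGA_ne_zero_iff.2 ⟨x, fun _ ⟨z, hz, e⟩ => e ▸ congrArg Prod.fst (hxy z hz),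
        left_ne_zero_of_mul h0⟩)
    have k₁ := c₁ (S.map (MonoidHom.snd G₀ G₁)) (hS.map _) (fun _ ⟨z, hz, e⟩ => e ▸ (hSC hz).2)
      (brGA_ne_zero_iff.2 ⟨y, fun _ ⟨z, hz, e⟩ => e ▸ congrArg Prod.snd (hxy z hz),
        right_ne_zero_of_mul h0⟩)
    exact Subgroup.map_mono fun z hz => ⟨k₀ ⟨z, hz, rfl⟩, k₁ ⟨z, hz, rfl⟩⟩
  · refine suppGA_mono ?_ ((gaPush_mem_suppGA_iff hc.inj).2 (tn_mem_supp s₀ s₁))
    rintro _ ⟨⟨x, y⟩, ⟨hx, hy⟩, rfl⟩
    have : f (x, y) = f (x, 1) * f (1, y) := by rw [← map_mul]; simp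
    rw [this]
    exact K.mul_mem hx hy

end Cfsg.GUn.Pl

namespace Cfsg.GUn

theorem stPl : StPl where
  same _ _ _ _ _ _ _ _ _ _ _ hM _ _ _ hc _ _ θ₀ _ θ₁ _ h h' h₀ h₁ :=
    Pl.mem_of_br hM (isPGroup_zpowers_of_orderOf hM.1 hc.pelt)
      (Pl.isBlk_EE hM hc.inj θ₀ θ₁).ne_zero (Pl.ind hM hc h)
      (by simpa only [Pl.EE_congr hM h₀ h₁] using Pl.ind hM hc h')
  coeff _ _ _ _ _ _ _ _ _ _ _ hM f _ _ hc _ _ _ h H x y := by
    rw [← Pl.coeff_tn, ← coeff_gaPush_of_injective hc.inj, ← Pl.EE, ← Pl.br_eq hM hc h H,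
      coeff_brGA_of_mem]
    rw [Pl.cen_zp hc]
    exact ⟨_, rfl⟩
  cen _ _ _ _ _ hM _ hB h _ hD := Pl.cen hM hB h hD
  reg _ _ _ _ _ hM _ hB _ hD hZ _ hχ _ hψ := Pl.reg hM hB hD hZ hχ hψ
  mc0 _ _ _ _ _ hM χ _ hD hZ K hK := Pl.mc0 hM χ hD hZ K hK
  mc _ _ _ _ _ _ _ _ _ _ _ hM _ _ _ hc _ _ _ h K h₀ h₁ := Pl.mc hM hc h K h₀ h₁

end Cfsg.GUn
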