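import Cfsg.Agent.GUn.Defs2
import Cfsg.Agent.Blk.Transport

/-! Tensor products of block idempotents. -/

set_option autoImplicit false

namespace Cfsg.GUn.Pl

open scoped MonoidAlgebra ComplexConjugate

universe u v w

variable {G₀ : Type u} {G₁ : Type v} [Group G₀] [Group G₁]

section ring

variable {R : Type w} [CommRing R]

/-- `a ⊗ b` -/
noncomputable def tn (a : R[G₀]) (b : R[G₁]) : R[G₀ × G₁] :=
  gaPush R (MonoidHom.inl G₀ G₁) a * gaPush R (MonoidHom.inr G₀ G₁) b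

theorem tn_single (x : G₀) (y : G₁) (r s : R) :
    tn (MonoidAlgebra.single x r) (MonoidAlgebra.single y s) = MonoidAlgebra.single (x, y) (r * s) := by
  simp [tn, gaPush_single, MonoidAlgebra.single_mul_single]

theorem tn_add_left (a a' : R[G₀]) (b : R[G₁]) : tn (a + a') b = tn a b + tn a' b := by
  simp [tn, add_mul]

theorem tn_add_right (a : R[G₀]) (b b' : R[G₁]) : tn a (b + b') = tn a b + tn a b' := by
  simp [tn, mul_add]

theorem coeff_tn (a : R[G₀]) (b : R[G₁]) (x : G₀) (y : G₁) :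
    (tn a b).coeff (x, y) = a.coeff x * b.coeff y := by
  classical
  induction a using MonoidAlgebra.induction_linear with
  | zero => simp [tn]
  | add a a' h h' => simp [tn_add_left, h, h', add_mul]
  | single g r =>
    induction b using MonoidAlgebra.induction_linear with
    | zero => simp [tn]
    | add b b' h h' => simp only [tn_add_right, MonoidAlgebra.coeff_add, Finsupp.add_apply, h, h', mul_add]
    | single h s =>
      simp only [tn_single, MonoidAlgebra.coeff_single, Finsupp.single_apply, Prod.mk.injEq]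
      by_cases h1 : g = x <;> by_cases h2 : h = y <;> simp [h1, h2]

theorem commute_push (a : R[G₀]) (b : R[G₁]) :
    Commute (gaPush R (MonoidHom.inl G₀ G₁) a) (gaPush R (MonoidHom.inr G₀ G₁) b) := by
  induction a using MonoidAlgebra.induction_linear with
  | zero => simp
  | add a a' h h' => rw [map_add]; exact h.add_left h'
  | single g r =>
    induction b using MonoidAlgebra.induction_linear with
    | zero => simp
    | add b b' h h' => rw [map_add]; exact h.add_right h'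
    | single h s =>
      simp [Commute, SemiconjBy, gaPush_single, MonoidAlgebra.single_mul_single, mul_comm]

theorem tn_mul (a a' : R[G₀]) (b b' : R[G₁]) : tn a b * tn a' b' = tn (a * a') (b * b') := by
  simp only [tn, map_mul, mul_assoc]
  rw [← mul_assoc (gaPush R _ b), ← (commute_push a' b).eq, mul_assoc]

theorem tn_push {H₀ H₁ : Type*} [Group H₀] [Group H₁] (φ₀ : G₀ →* H₀) (φ₁ : G₁ →* H₁)
    (a : R[G₀]) (b : R[G₁]) :
    gaPush R (φ₀.prodMap φ₁) (tn a b) = tn (gaPush R φ₀ a) (gaPush R φ₁ b) := by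
  simp only [tn, map_mul, gaPush_gaPush]
  congr 3 <;> ext <;> simp

theorem tn_mem_supp {H₀ : Subgroup G₀} {H₁ : Subgroup G₁} {a : R[G₀]} {b : R[G₁]}
    (ha : a ∈ suppGA R H₀) (hb : b ∈ suppGA R H₁) : tn a b ∈ suppGA R (H₀.prod H₁) := by
  rw [mem_suppGA] at *
  rintro ⟨x, y⟩ h
  rw [coeff_tn]
  by_cases hx : x ∈ H₀
  · rw [hb y fun hy => h ⟨hx, hy⟩, mul_zero]
  · rw [ha x hx, zero_mul]

theorem tn_mem_center {a : R[G₀]} {b : R[G₁]} (ha : a ∈ Subalgebra.center R R[G₀])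
    (hb : b ∈ Subalgebra.center R R[G₁]) : tn a b ∈ Subalgebra.center R R[G₀ × G₁] := by
  rw [mem_center_iff_coeff] at *
  rintro ⟨x, y⟩ ⟨g, h⟩
  change (tn a b).coeff (g * x * g⁻¹, h * y * h⁻¹) = _
  rw [coeff_tn, coeff_tn, ha, hb]

theorem centralizer_prod (A₀ : Subgroup G₀) (A₁ : Subgroup G₁) :
    Subgroup.centralizer (A₀.prod A₁ : Set (G₀ × G₁)) =
      (Subgroup.centralizer (A₀ : Set G₀)).prod (Subgroup.centralizer (A₁ : Set G₁)) := by
  ext ⟨x, y⟩
  simp only [Subgroup.mem_centralizer_iff, Subgroup.mem_prod]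
  refine ⟨fun h => ⟨fun a ha => ?_, fun b hb => ?_⟩, fun h z hz => Prod.ext (h.1 _ hz.1) (h.2 _ hz.2)⟩
  · exact congrArg Prod.fst (h (a, 1) ⟨ha, A₁.one_mem⟩)
  · exact congrArg Prod.snd (h (1, b) ⟨A₀.one_mem, hb⟩)

theorem brGA_tn (A₀ : Subgroup G₀) (A₁ : Subgroup G₁) (a : R[G₀]) (b : R[G₁]) :
    brGA R (A₀.prod A₁) (tn a b) = tn (brGA R A₀ a) (brGA R A₁ b) := by
  refine ga_ext fun ⟨x, y⟩ => ?_
  rw [coeff_tn]
  by_cases hx : x ∈ Subgroup.centralizer (A₀ : Set G₀)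
  · by_cases hy : y ∈ Subgroup.centralizer (A₁ : Set G₁)
    · rw [coeff_brGA_of_mem _ hx, coeff_brGA_of_mem _ hy, coeff_brGA_of_mem, coeff_tn]
      rw [centralizer_prod]; exact ⟨hx, hy⟩
    · rw [coeff_brGA_of_notMem _ hy, mul_zero, coeff_brGA_of_notMem]
      rw [centralizer_prod]; exact fun h => hy h.2
  · rw [coeff_brGA_of_notMem _ hx, zero_mul, coeff_brGA_of_notMem]
    rw [centralizer_prod]; exact fun h => hx h.1

theorem tn_classSum [Finite G₀] [Finite G₁] (x : G₀) (y : G₁) :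
    tn (classSum R x) (classSum R y) = classSum R (x, y) := by
  classical
  refine ga_ext fun ⟨a, b⟩ => ?_
  have : IsConj (x, y) (a, b) ↔ IsConj x a ∧ IsConj y b := by
    simp only [isConj_iff, Prod.ext_iff, Prod.exists]
    exact ⟨fun ⟨c, d, h1, h2⟩ => ⟨⟨c, h1⟩, ⟨d, h2⟩⟩, fun ⟨⟨c, h1⟩, ⟨d, h2⟩⟩ => ⟨c, d, h1, h2⟩⟩
  rw [coeff_tn, coeff_classSum, coeff_classSum, coeff_classSum]
  by_cases h1 : IsConj x a <;> by_cases h2 : IsConj y b <;> simp [this, h1, h2, -isConj_iff]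

end ring

variable {p : ℕ} {M : Ideal AlgInt} [Fintype G₀] [Fintype G₁]

/-- `ψ` lies over `θ₀` and `θ₁` -/
def Ov (ψ : IrrCharacter (G₀ × G₁)) (θ₀ : IrrCharacter G₀) (θ₁ : IrrCharacter G₁) : Prop :=
  classInner (fun x => ψ.1 (MonoidHom.inl G₀ G₁ x)) θ₀.1 ≠ 0 ∧
    classInner (fun x => ψ.1 (MonoidHom.inr G₀ G₁ x)) θ₁.1 ≠ 0

theorem exists_ov (ψ : IrrCharacter (G₀ × G₁)) : ∃ θ₀ θ₁, Ov ψ θ₀ θ₁ := by
  obtain ⟨θ₀, h₀⟩ := (ψ.isCharacter.comp (MonoidHom.inl G₀ G₁)).exists_irr_constituent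
    (fun h => ψ.one_ne_zero (by have := congrFun h 1; rwa [map_one] at this))
  obtain ⟨θ₁, h₁⟩ := (ψ.isCharacter.comp (MonoidHom.inr G₀ G₁)).exists_irr_constituent
    (fun h => ψ.one_ne_zero (by have := congrFun h 1; rwa [map_one] at this))
  exact ⟨θ₀, θ₁, h₀, h₁⟩

theorem Ov.lam_tn {ψ : IrrCharacter (G₀ × G₁)} {θ₀ : IrrCharacter G₀} {θ₁ : IrrCharacter G₁}
    (h : Ov ψ θ₀ θ₁) {a : (resK M)[G₀]} {b : (resK M)[G₁]}
    (ha : a ∈ Subalgebra.center (resK M) (resK M)[G₀])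
    (hb : b ∈ Subalgebra.center (resK M) (resK M)[G₁]) :
    lam M ψ.1 (tn a b) = lam M θ₀.1 a * lam M θ₁.1 b := by
  have h1 : gaPush (resK M) (MonoidHom.inl G₀ G₁) a ∈
      Subalgebra.center (resK M) (resK M)[G₀ × G₁] := by
    simpa [tn] using tn_mem_center ha (one_mem (Subalgebra.center (resK M) (resK M)[G₁]))
  have h2 : gaPush (resK M) (MonoidHom.inr G₀ G₁) b ∈
      Subalgebra.center (resK M) (resK M)[G₀ × G₁] := by
    simpa [tn] using tn_mem_center (one_mem (Subalgebra.center (resK M) (resK M)[G₀])) hb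
  rw [tn, lam_mul ψ h1 h2, lam_gaPush_of_over (fun x y e => by simpa using e) h.1 ha h1,
    lam_gaPush_of_over (fun x y e => by simpa using e) h.2 hb h2]

/-- the block of `ψ` is the product of the blocks it covers -/
theorem Ov.idemK_eq (hM : IsPModular p M) {ψ : IrrCharacter (G₀ × G₁)} {θ₀ : IrrCharacter G₀}
    {θ₁ : IrrCharacter G₁} (h : Ov ψ θ₀ θ₁) :
    idemK M (blockOf M ψ.1) = tn (idemK M (blockOf M θ₀.1)) (idemK M (blockOf M θ₁.1)) := by
  classical
  have b0 := (isPBlock_blockOf (M := M) θ₀).isBlockUnion hM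
  have b1 := (isPBlock_blockOf (M := M) θ₁).isBlockUnion hM
  have bψ := (isPBlock_blockOf (M := M) ψ).isBlockUnion hM
  refine hM.idem_eq_of_lam_eq (idemK_mem_center _) (bψ.isIdempotentElem_idemK hM)
    (tn_mem_center (idemK_mem_center _) (idemK_mem_center _)) ?_ fun ξ => ?_
  · rw [IsIdempotentElem, tn_mul, (b0.isIdempotentElem_idemK hM).eq,
      (b1.isIdempotentElem_idemK hM).eq]
  obtain ⟨η₀, η₁, hξ⟩ := exists_ov ξ
  rw [hξ.lam_tn (idemK_mem_center _) (idemK_mem_center _)]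
  by_cases hm : ξ ∈ blockOf M ψ.1
  · rw [← hξ.lam_tn (idemK_mem_center _) (idemK_mem_center _), bψ.lam_idemK_of_mem hM hm,
      ← (isPBlock_blockOf ψ).lam_eq hM (hM.mem_blockOf_self ψ) hm,
      h.lam_tn (idemK_mem_center _) (idemK_mem_center _),
      b0.lam_idemK_of_mem hM (hM.mem_blockOf_self _), b1.lam_idemK_of_mem hM (hM.mem_blockOf_self _),
      mul_one]
  · rw [bψ.lam_idemK_of_notMem hM hm, b0.lam_idemK hM, b1.lam_idemK hM]
    split_ifs with h0 h1 h1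
    · refine absurd ((hM.sameBlock_iff_red ψ ξ).2 fun ⟨x, y⟩ => ?_) hm
      rw [← lam_classSum, ← lam_classSum, ← tn_classSum,
        h.lam_tn (classSum_mem_center _) (classSum_mem_center _),
        hξ.lam_tn (classSum_mem_center _) (classSum_mem_center _),
        (hM.sameBlock_iff_lam _ _).1 h0, (hM.sameBlock_iff_lam _ _).1 h1]
    all_goals simp

theorem exists_ov' (θ₀ : IrrCharacter G₀) (θ₁ : IrrCharacter G₁) : ∃ ψ, Ov ψ θ₀ θ₁ := by
  classical
  have hc : IsCharacter (G₀ × G₁) fun x => θ₀.1 x.1 * θ₁.1 x.2 :=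
    (θ₀.isCharacter.comp (MonoidHom.fst G₀ G₁)).mul (θ₁.isCharacter.comp (MonoidHom.snd G₀ G₁))
  obtain ⟨ψ, hψ⟩ := hc.exists_irr_constituent
    (fun h => mul_ne_zero θ₀.one_ne_zero θ₁.one_ne_zero (congrFun h 1))
  have e : ∀ x : G₀ × G₁, ψ.1 x = ψ.1 (x.1, 1) * ψ.1 (1, x.2) / ψ.1 1 := fun x =>
    GLn.irr_prod_apply (MonoidHom.id _) Function.surjective_id ψ x.1 x.2
  rw [classInner_def, Fintype.sum_prod_type] at hψ
  have h2 : ∑ x : G₀, ∑ y : G₁, θ₀.1 x * θ₁.1 y * conj (ψ.1 (x, y)) =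
      (∑ x : G₀, θ₀.1 x * conj (ψ.1 (x, 1))) * (∑ y : G₁, θ₁.1 y * conj (ψ.1 (1, y))) /
        conj (ψ.1 1) := by
    rw [Finset.sum_mul_sum, Finset.sum_div]
    refine Finset.sum_congr rfl fun x _ => ?_
    rw [Finset.sum_div]
    refine Finset.sum_congr rfl fun y _ => ?_
    rw [e (x, y), map_div₀, map_mul]; ring
  rw [h2] at hψ
  have h3 := (div_ne_zero_iff.1 (right_ne_zero_of_mul hψ)).1
  refine ⟨ψ, ?_, ?_⟩
  · rw [← conj_classInner, map_ne_zero, classInner_def]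
    exact mul_ne_zero (inv_ne_zero (Nat.cast_ne_zero.2 Nat.card_pos.ne')) (left_ne_zero_of_mul h3)
  · rw [← conj_classInner, map_ne_zero, classInner_def]
    exact mul_ne_zero (inv_ne_zero (Nat.cast_ne_zero.2 Nat.card_pos.ne')) (right_ne_zero_of_mul h3)

omit [Fintype G₀] [Fintype G₁] in
/-- the product of two blocks is a block -/
theorem isBlk_tn [Finite G₀] [Finite G₁] (hM : IsPModular p M) {H₀ : Subgroup G₀} {H₁ : Subgroup G₁}
    {a : (resK M)[G₀]} {b : (resK M)[G₁]} (ha : IsBlk (resK M) H₀ a) (hb : IsBlk (resK M) H₁ b) :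
    IsBlk (resK M) (H₀.prod H₁) (tn a b) := by
  have := Fintype.ofFinite H₀
  have := Fintype.ofFinite H₁
  obtain ⟨_, ⟨θ₀, rfl⟩, rfl⟩ := ha.exists_eq_subIdem hM
  obtain ⟨_, ⟨θ₁, rfl⟩, rfl⟩ := hb.exists_eq_subIdem hM
  obtain ⟨ψ, hψ⟩ := exists_ov' θ₀ θ₁
  have h1 := (isPBlock_blockOf (M := M) ψ).isBlk_gaPush hM
    (f := H₀.subtype.prodMap H₁.subtype) (H₀.subtype_injective.prodMap H₁.subtype_injective)
  rw [hψ.idemK_eq hM, tn_push, MonoidHom.range_prodMap, Subgroup.range_subtype,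
    Subgroup.range_subtype] at h1
  simpa only [subIdem, gaIncl_eq_gaPush] using h1

end Cfsg.GUn.Pl
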