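import Cfsg.Agent.GUn.Q8a

/-! S4537, piece `Q8`: a quaternion group in the defect groups of a family of weight two. -/

set_option autoImplicit false

namespace Cfsg.GUn

open Subgroup Q8
open GLn (Bt sz)

universe u

theorem stQ8 (k : Type u) [Field k] [Big k] (hB : StBlk k) (hMe : StMerge k) (hE : StEmb k)
    (hP : StPl.{u}) (hI : StIrr k) : StQ8 k := by
  intro h2 Φ ι _ _ M hM N ψ X χ hN hψ hX hχ D hD
  have : Fact (Nat.Prime 2) := Nat.fact_prime_two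
  have hQ := two_dvd h2 Φ
  have hd := per_pos ψ
  have hc : Fintype.card ι = ψ.per + ψ.per := by rw [← hχ.1, deg_single, hX, mul_two]
  have hN' : Fintype.card (Fin ψ.per) ≤ N := by rw [Fintype.card_fin]; omega
  obtain ⟨X₁, h1⟩ := exists_sz (N := N) (by omega) 1
  obtain ⟨θ, hθ⟩ := exists_lab (μ := Finsupp.single ψ X₁) (ι := Fin ψ.per) hI
    (by rw [deg_single, h1, mul_one, Fintype.card_fin])
  obtain ⟨D₀⟩ := Q8.exists_dec (Φ := Φ) hE hc
  have b₁ := Basic.single hψ X₁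
  have hs (φ) : sz N (Finsupp.single ψ X φ).1 =
      sz N (Finsupp.single ψ X₁ φ).1 + sz N (Finsupp.single ψ X₁ φ).1 := by
    by_cases h : φ = ψ
    · rw [h, Finsupp.single_eq_same, Finsupp.single_eq_same, hX, h1]
    · rw [Finsupp.single_eq_of_ne h, Finsupp.single_eq_of_ne h, GLn.sz_zero]
  obtain ⟨μ, χ', h3, h4, h5, h6⟩ := merge D₀ hMe hI h2 hN b₁ b₁ hθ hθ
  have h7 : blockOf M χ.1 = blockOf M χ'.1 := (isPBlock_blockOf χ).eq_blockOf hM
    (hB.one Φ ι 2 h2 M hM hQ N _ μ χ χ' hN hχ h4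
      ((h3.cd_eq_iff hQ (Basic.single hψ X)).2 fun φ => (h5 φ).trans (hs φ).symm))
  have key : ∀ {ν ν' : MP Φ N} {φ : IrrCharacter (Φ.G (Fin ψ.per))}, Basic 2 ν → Lab ν φ →
      (∀ o, sz N (ν o).1 + sz N (ν' o).1 = sz N (μ o).1) → φ ∈ blockOf M θ.1 := by
    intro ν ν' φ b l h
    refine hB.one Φ _ 2 h2 M hM hQ N _ ν θ φ hN' hθ l ((b.cd_eq_iff hQ b₁).2 ?_)
    have h0 (o) (ho : o ≠ ψ) : ν o = 0 := by
      have := h o
      rw [h5, Finsupp.single_eq_of_ne ho, GLn.sz_zero] at this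
      exact GLn.Bt.sz_eq_zero_iff.1 (by omega)
    have e : ν = Finsupp.single ψ (ν ψ) := Finsupp.ext fun o => by
      by_cases ho : o = ψ
      · rw [ho, Finsupp.single_eq_same]
      · rw [h0 o ho, Finsupp.single_eq_of_ne ho]
    have h8 := l.1
    rw [e, deg_single, Fintype.card_fin, Nat.mul_eq_left hd.ne'] at h8
    rw [e, eq_of_sz_one h8 h1]
    exact fun _ => rfl
  have h8 := hP.coeff _ _ _ 2 M hM _ _ _ (cen D₀ h2) χ' θ θ h6 fun φ₀ φ₁ => by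
    obtain ⟨ν₀, φ₀', m₀, c₀, l₀⟩ := hB.basic Φ _ 2 h2 M hM N φ₀ hN'
    obtain ⟨ν₁, φ₁', m₁, c₁, l₁⟩ := hB.basic Φ _ 2 h2 M hM N φ₁ hN'
    obtain ⟨ν, χ'', a1, a2, a3, a4⟩ := merge D₀ hMe hI h2 hN c₀ c₁ l₀ l₁
    refine ⟨φ₀', m₀, φ₁', m₁, χ'', a4, fun h => ?_⟩
    have a5 := (a1.cd_eq_iff hQ h3).1 (hB.cd_eq Φ ι 2 h2 M hM N μ ν χ' χ'' hN h4 a2 h)
    exact ⟨key (ν' := ν₁) c₀ l₀ fun o => (a3 o).symm.trans (a5 o),
      key (ν' := ν₀) c₁ l₁ fun o => (add_comm _ _).trans ((a3 o).symm.trans (a5 o))⟩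
  obtain ⟨g, hg⟩ : ∃ g, (idemK M (blockOf M θ.1)).coeff g ≠ 0 := by
    by_contra! h
    exact (isPBlock_blockOf θ).idemK_ne_zero hM (ga_ext h)
  obtain ⟨g', a, b, e1, e2, e3, e4, e5, e6, e7, e8⟩ := geo h2 (hc.trans (two_mul _).symm) g
  obtain ⟨x, hx⟩ := isConj_iff.1 (hI.isConj Φ ι (f1 D₀ (g, g)) g' (funext fun o =>
    (D₀.jt_f2 (g, g) _).trans (by rw [typ, e1, two_smul]; simp)))
  have h9 : (idemK M (blockOf M χ.1)).coeff g' ≠ 0 := by
    rw [← hx, mem_center_iff_coeff.1 (idemK_mem_center _), h7, h8]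
    exact mul_ne_zero hg hg
  have : Nonempty ι := Fintype.card_pos_iff.1 (by omega)
  have hz := scal_mem_center (c := ng h2 Φ ι) rfl
  have z2 : ng h2 Φ ι ^ 2 = 1 := Subtype.ext (by simp [ng_val])
  have h10 := (unit hz (one_mem _) (fun h => neg_ne h2 (scal_injective (ι := ι)
    ((congrArg Subtype.val h).trans (map_one _).symm))) (a := a) (b := b)
    (Subtype.ext (e6.trans (ng_val h2).symm)) (Subtype.ext (e7.trans (ng_val h2).symm))
    (Subtype.ext (by simp [e8, ng_val])) (by simp)).1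
  obtain ⟨y, hy⟩ := hD.isConjLE_of_coeff_ne_zero hM (isPBlock_blockOf χ) h9
    (Q := closure {a, b, 1}) (fun x => ⟨2, Subtype.ext (by
      obtain ⟨n, hn⟩ := mem_zpowers_iff.1 (h10 _ x.2)
      rw [coe_pow, sq, pow_mul, ← hn, ← zpow_natCast, ← zpow_mul, mul_comm, zpow_mul, zpow_natCast,
        z2, one_zpow, coe_one])⟩) ((closure_le _).2 (by
      rintro x (rfl | rfl | rfl)
      exacts [mem_centralizer_singleton_iff.2 e2, mem_centralizer_singleton_iff.2 e3, one_mem _]))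
  refine ⟨y * a * y⁻¹, hy ⟨a, subset_closure (by simp), rfl⟩, y * b * y⁻¹,
    hy ⟨b, subset_closure (by simp), rfl⟩, (MonoidHom.normal_ker _).conj_mem a e4 y,
    (MonoidHom.normal_ker _).conj_mem b e5 y, ?_, ?_, ?_⟩ <;>
    simp only [coe_mul, coe_inv, conj_mul, e6, e7, e8] <;> simp

end Cfsg.GUn
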