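import Cfsg.Agent.GUn.ArB
import Cfsg.Agent.GUn.Jt
import Cfsg.Agent.Uni.Weil
import Cfsg.Agent.CT.PermChar
import Mathlib.LinearAlgebra.Matrix.Vec

/-! The piece `StWeil` of S4537. -/

set_option autoImplicit false

namespace Cfsg.GUn

open Matrix Finset Module
open scoped Kronecker ComplexConjugate

universe u

variable {k : Type u} [Field k]

namespace Weil

theorem avg {G K : Type*} [Group G] [Group K] [Fintype G] [Fintype K] {θ : G × K → ℂ}
    (h : IsGeneralizedCharacter _ θ) :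
    IsGeneralizedCharacter G fun g => (Nat.card K : ℂ)⁻¹ * ∑ x, θ (g, x) := by
  refine isGeneralizedCharacter_of_classInner (fun g z => ?_) fun χ => ?_
  · congr 1
    exact sum_congr rfl fun x _ => by simpa using h.isClassFunction (g, x) (z, 1)
  · obtain ⟨n, hn⟩ := h.exists_classInner_eq_int
      (χ.isCharacter.comp (MonoidHom.fst G K)).isGeneralizedCharacter
    refine ⟨n, hn ▸ ?_⟩
    simp only [classInner_def, Fintype.sum_prod_type, Nat.card_prod, Nat.cast_mul, mul_inv,
      mul_sum, sum_mul, mul_assoc, MonoidHom.coe_fst]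

/-- the fixed field -/
def FF (Φ : Frob k) : Subfield k := Φ.σ.eqLocusField (RingHom.id k)

theorem card_FF [Big k] (Φ : Frob k) : Nat.card (FF Φ) = Φ.q := by
  obtain ⟨r, hr, hq⟩ := Φ.hq
  have h := Polynomial.card_rootSet_eq_natDegree (K := k)
    (galois_poly_separable (K := k) (ringChar k) Φ.q (ringChar_dvd_q Φ)) (IsAlgClosed.splits _)
  rw [FiniteField.X_pow_card_sub_X_natDegree_eq k Φ.one_lt_q, ← Nat.card_eq_fintype_card] at h
  refine (Nat.card_congr (Equiv.subtypeEquivRight fun x => ?_)).trans h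
  rw [Polynomial.mem_rootSet_of_ne (FiniteField.X_pow_card_sub_X_ne_zero k Φ.one_lt_q)]
  simp [FF, Φ.hσ, sub_eq_zero]

variable {ι κ : Type} [Fintype ι] [DecidableEq ι] [Fintype κ] [DecidableEq κ]

/-- descent of a matrix representation to a subfield -/
def dn (E : Subfield k) {Γ : Type*} [Group Γ] (φ : Γ →* GL ι k) (h : ∀ x i j, (φ x).val i j ∈ E) :
    Γ →* Matrix ι ι E where
  toFun x := of fun i j => ⟨_, h x i j⟩
  map_one' := map_injective E.subtype.injective <| by
    beta_reduce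
    rw [Matrix.map_one _ (map_zero _) (map_one _)]
    exact congrArg Units.val φ.map_one
  map_mul' x y := map_injective E.subtype.injective <| by
    beta_reduce
    rw [Matrix.map_mul]
    exact congrArg Units.val (φ.map_mul x y)

theorem finrank_ker_map {E : Type*} [Field E] (f : E →+* k) (A : Matrix ι ι E) :
    finrank k (LinearMap.ker (toLin' (A.map f - 1))) = finrank E (LinearMap.ker (toLin' (A - 1))) := by
  have h1 := LinearMap.finrank_range_add_finrank_ker (toLin' (A.map f - 1))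
  have h2 := LinearMap.finrank_range_add_finrank_ker (toLin' (A - 1))
  have h3 := rank_map f (A - 1)
  rw [Matrix.map_sub _ (map_sub f), Matrix.map_one _ (map_zero _) (map_one _)] at h3
  rw [finrank_fintype_fun_eq_card] at h1 h2
  change (A.map f - 1).rank + _ = _ at h1
  change (A - 1).rank + _ = _ at h2
  omega

theorem weil1 [Big k] (Φ : Frob k) (ι : Type) [Fintype ι] [DecidableEq ι] :
    IsGeneralizedCharacter (Φ.G ι)
      fun g => (Φ.Q : ℂ) ^ finrank k (LinearMap.ker (toLin' (g.1.val - 1))) := by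
  classical
  cases hn : Φ.neg
  · have h1 : ∀ (x : Φ.G ι) i j, ((Φ.G ι).subtype x).val i j ∈ FF Φ := fun x i j => by
      have := Φ.Fr_val x.1
      rw [Φ.mem_G.1 x.2, Frob.mat, hn] at this
      exact (congrFun (congrFun this i) j).symm
    haveI : Finite (FF Φ) := Nat.finite_of_card_ne_zero (card_FF Φ ▸ Φ.one_lt_q.ne_bot)
    letI : MulAction (Φ.G ι) (ι → FF Φ) :=
      MulAction.compHom _ (toLinAlgEquiv'.toMonoidHom.comp (dn _ _ h1))
    convert (isCharacter_permChar (G := Φ.G ι) (α := ι → FF Φ)).isGeneralizedCharacter with g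
    rw [permChar, Nat.card_congr (Equiv.subtypeEquivRight (q := (· ∈ LinearMap.ker
      (toLin' (dn _ _ h1 g - 1)))) fun x => ?_), Module.natCard_eq_pow_finrank (K := FF Φ), card_FF,
      ← finrank_ker_map (FF Φ).subtype, Frob.Q, hn]
    · simp only [Bool.false_eq_true, if_false, Int.cast_natCast, Nat.cast_pow]
      rfl
    · rw [LinearMap.mem_ker, map_sub, toLin'_one, LinearMap.sub_apply, sub_eq_zero]
      rfl
  · have h1 : ∀ (x : Φ.G ι) i j, ((Φ.G ι).subtype x).val i j ∈ FF (Φ.pow 2) := fun x i j => by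
      have := Φ.iterate_val 2 x.1
      rw [Function.iterate_fixed x.2] at this
      have h2 := congrFun (congrFun this i) j
      simp only [Nat.bodd_two, Bool.and_false, Bool.false_eq_true, ↓reduceIte, map_apply] at h2
      exact h2.symm
    have h2 : ∀ x : FF (Φ.pow 2), Φ.σ (Φ.σ x) = x := fun x => x.2
    haveI : Finite (FF (Φ.pow 2)) :=
      Nat.finite_of_card_ne_zero (card_FF (Φ.pow 2) ▸ (Φ.pow 2).one_lt_q.ne_bot)
    letI := Fintype.ofFinite (FF (Φ.pow 2))
    letI : StarRing (FF (Φ.pow 2)) :=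
      { star x := ⟨Φ.σ x, congrArg Φ.σ (h2 x)⟩
        star_involutive x := Subtype.ext (h2 x)
        star_mul x y := Subtype.ext ((map_mul Φ.σ _ _).trans (mul_comm _ _))
        star_add x y := Subtype.ext (map_add Φ.σ _ _) }
    haveI : Uni.UF (FF (Φ.pow 2)) Φ.q :=
      ⟨Nat.card_eq_fintype_card.symm.trans (card_FF _), fun x => Subtype.ext (Φ.hσ _)⟩
    let H : Uni.HS (FF (Φ.pow 2)) (ι → FF (Φ.pow 2)) :=
      { h x y := x ⬝ᵥ star y
        add_left x y z := add_dotProduct _ _ _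
        smul_left c x y := smul_dotProduct _ _ _
        symm x y := by simp [dotProduct, mul_comm]
        nd x hx := funext fun i => by simpa using hx (Pi.single i 1) }
    have h3 : ∀ x : Φ.G ι, (dn _ _ h1 x)ᴴ * dn _ _ h1 x = 1 := fun x =>
      map_injective (FF (Φ.pow 2)).subtype.injective <| by
        have := Φ.Fr_val x.1⁻¹
        rw [map_inv, Φ.mem_G.1 x.2, Frob.mat, hn, if_pos rfl, if_pos rfl, inv_inv] at this
        beta_reduce
        rw [Matrix.map_mul, Matrix.map_one _ (map_zero _) (map_one _)]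
        exact (congrArg (· * x.1.val) this).symm.trans x.1.inv_mul
    have h4 := ((Uni.stWeil (FF (Φ.pow 2)) Φ.q _ H).comp (H.lift
      (toLinAlgEquiv'.toMonoidHom.comp (dn _ _ h1)) fun g x y => by
        change (dn _ _ h1 g *ᵥ x) ⬝ᵥ star (dn _ _ h1 g *ᵥ y) = x ⬝ᵥ star y
        rw [star_mulVec, dotProduct_comm, dotProduct_mulVec, vecMul_vecMul, h3, vecMul_one,
          dotProduct_comm])).isGeneralizedCharacter.zsmul ((-1) ^ finrank (FF (Φ.pow 2))
            (ι → FF (Φ.pow 2)))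
    convert h4 using 2 with g
    rw [Uni.HS.omega, ← mul_assoc, Int.cast_pow, Int.cast_neg, Int.cast_one, ← mul_pow,
      neg_mul_neg, one_mul, one_pow, one_mul, Frob.Q, hn, if_pos rfl, Int.cast_neg,
      Int.cast_natCast]
    congr 1
    refine (finrank_ker_map (FF (Φ.pow 2)).subtype (dn _ _ h1 g)).trans
      (congrArg (fun W : Submodule _ _ => finrank _ W) (Submodule.ext fun x => ?_))
    rw [LinearMap.mem_ker, map_sub, toLin'_one, LinearMap.sub_apply, sub_eq_zero]
    rfl

theorem mat_kron (Φ : Frob k) (A : Matrix ι ι k) (B : Matrix κ κ k) :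
    Φ.mat (A ⊗ₖ B) = Φ.mat A ⊗ₖ Φ.mat B := by
  unfold Frob.mat
  split_ifs <;> ext <;> simp

theorem mat_transpose (Φ : Frob k) (A : Matrix ι ι k) : Φ.mat Aᵀ = (Φ.mat A)ᵀ := by
  unfold Frob.mat
  split_ifs <;> rfl

/-- the tensor product -/
noncomputable def tau (Φ : Frob k) : Φ.G ι × Φ.G κ →* Φ.G (κ × ι) where
  toFun x := ⟨GeneralLinearGroup.kronecker (invT k κ x.2.1) x.1.1, Units.ext <| by
    have h1 := (Φ.Fr_val x.1.1).symm.trans (congrArg Units.val x.1.2)
    have h2 := (Φ.Fr_val x.2.1⁻¹).symm.trans (congrArg Units.val x.2⁻¹.2)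
    rw [Φ.Fr_val]
    split_ifs at h1 h2 ⊢
    · exact (mat_kron Φ _ _).trans (congrArg₂ _ ((mat_transpose Φ _).trans (congrArg _ h2)) h1)
    · exact (mat_kron Φ _ _).trans (congrArg₂ _ ((mat_transpose Φ _).trans (congrArg _ h2)) h1)⟩
  map_one' := Subtype.ext (Units.ext (by simp [GeneralLinearGroup.kronecker]))
  map_mul' x y := Subtype.ext (Units.ext (by
    simp only [Prod.snd_mul, Prod.fst_mul, Subgroup.coe_mul, map_mul, Units.val_mul,
      GeneralLinearGroup.kronecker, mul_kronecker_mul]))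

theorem finrank_tau (Φ : Frob k) (g : Φ.G ι) (h : Φ.G κ) :
    finrank k (LinearMap.ker (toLin' ((tau Φ (g, h)).1.val - 1))) =
      finrank k (LinearMap.ker (syl g.1.val h.1.val)) := by
  let e : Matrix ι κ k ≃ₗ[k] (κ × ι → k) :=
    LinearEquiv.ofBijective ⟨⟨vec, vec_add⟩, vec_smul⟩ vec_bijective
  rw [← e.finrank_map_eq]
  refine congrArg (fun W : Submodule k _ => finrank k W) (Submodule.ext fun y => ?_)
  obtain ⟨X, rfl⟩ := e.surjective y
  rw [Submodule.mem_map_equiv, e.symm_apply_apply, mem_ker_syl, LinearMap.mem_ker, map_sub,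
    toLin'_one, LinearMap.sub_apply, sub_eq_zero]
  change ((h.1⁻¹).valᵀ ⊗ₖ g.1.val) *ᵥ vec X = vec X ↔ _
  rw [kronecker_mulVec_vec, vec_inj, transpose_transpose]
  constructor
  · intro h1
    rw [← h1, Matrix.mul_assoc _ _ h.1.val, Units.inv_mul, Matrix.mul_one, h1]
  · intro h1
    rw [h1, Matrix.mul_assoc, Units.mul_inv, Matrix.mul_one]

variable {Φ : Frob k}

theorem jt_fr (g : Φ.G ι) (τ : kˣ) :
    jt (g.1.val - ((τ ^ Φ.Q : kˣ) : k) • 1) = jt (g.1.val - (τ : k) • 1) := by
  have h1 := (Φ.Fr_val g.1).symm.trans (congrArg Units.val g.2)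
  have h2 : ∀ (A : Matrix ι ι k) (c : k), Φ.mat (A - c • 1) = Φ.mat A - c ^ Φ.q • 1 := by
    intro A c
    unfold Frob.mat
    split_ifs <;> ext i j <;> by_cases h : i = j <;> simp [h, ← Φ.hσ, eq_comm, one_apply]
  have h3 : ∀ A : Matrix ι ι k, jt (Φ.mat A) = jt A := fun A => by
    unfold Frob.mat
    split_ifs <;> simp only [jt_transpose, jt_map]
  rw [Frob.Q]
  split_ifs at h1 ⊢
  · rw [← jt_neg (_ - (τ : k) • _), ← jt_smul (inv_ne_zero τ.ne_zero) (-_),
      ← jt_unit_mul (g.1⁻¹).isUnit (A := _ • _), ← h3 (_ * _)]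
    · congr 1
      rw [Matrix.mul_smul, Matrix.mul_neg, Matrix.mul_sub, Units.inv_mul, neg_sub, smul_sub,
        Matrix.mul_smul, smul_smul, inv_mul_cancel₀ τ.ne_zero, one_smul, Matrix.mul_one, h2, h1]
      simp
    · exact (((Commute.refl g.1.val).sub_left ((Commute.one_left _).smul_left _)).neg_left.smul_left
        _).units_inv_right
  · rw [← h3 (_ - (τ : k) • _), h2, h1]
    simp

variable [Big k]

theorem jt_pts (g : Φ.G ι) {o : I Φ} {τ : kˣ} (h : τ ∈ o.pts) :
    jt (g.1.val - (τ : k) • 1) = typ Φ g.1 o :=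
  (allPer Φ).inv_of_omk_eq (f := fun τ : kˣ => jt (g.1.val - (τ : k) • 1)) (jt_fr g)
    ((mem_pts.1 h).trans (io_rep o).symm)

theorem finrank_syl (g : Φ.G ι) (h : Φ.G κ) : finrank k (LinearMap.ker (syl g.1.val h.1.val)) =
    ∑ᶠ o : I Φ, o.per * ipc (typ Φ g.1 o) (typ Φ h.1 o) := by
  classical
  let R : Finset (I Φ) := (eig h.1).toFinset.image (io Φ)
  have h0 : ∀ τ ∈ h.1.val.charpoly.roots, ∃ σ : kˣ, τ = σ ∧ io Φ σ ∈ R := fun τ hτ => by
    have : τ ≠ 0 := by
      rintro rfl
      rw [← not_not (a := _ ∈ _), ← jt_sub_eq_zero_iff, zero_smul, sub_zero, jt_eq_zero_iff] at hτ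
      exact hτ h.1.isUnit
    exact ⟨un τ, by simp [un, this], mem_image_of_mem _ (Multiset.mem_toFinset.2
      (Multiset.mem_map_of_mem _ hτ))⟩
  have hS : ∀ x, x ∈ R.biUnion (·.pts) ↔ io Φ x ∈ R := fun x => by simp [mem_pts]
  rw [finrank_ker_syl _ (IsAlgClosed.splits _)
    (s := (R.biUnion (·.pts)).map ⟨Units.val, Units.val_injective⟩) fun τ hτ => by
      obtain ⟨σ, rfl, h1⟩ := h0 τ hτ
      exact mem_map_of_mem _ ((hS σ).2 h1), sum_map, (allPer Φ).sum_orbits _ R hS,
    finsum_eq_sum_of_support_subset _ (s := R) fun o ho => by_contra fun h1 => ho ?_]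
  · refine sum_congr rfl fun o _ => ?_
    rw [← o.card_pts, ← smul_eq_mul, ← sum_const]
    exact sum_congr rfl fun τ hτ => by rw [← jt_pts g hτ, ← jt_pts h hτ]; rfl
  · have : typ Φ h.1 o = 0 := jt_sub_eq_zero_iff.2 fun h2 => by
      obtain ⟨σ, h3, h4⟩ := h0 _ h2
      rw [← Units.val_injective h3, io_rep] at h4
      exact h1 h4
    simp [this, ipc]

end Weil

variable (k) in
theorem stWeil [Big k] : StWeil k := fun Φ ι κ _ _ _ _ ψ hψ => by
  have := Weil.avg (((Weil.weil1 Φ (κ × ι)).comp (Weil.tau Φ)).mul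
    (hψ.comp (MonoidHom.snd (Φ.G ι) (Φ.G κ))))
  simpa only [Pi.mul_apply, Weil.finrank_tau, Weil.finrank_syl, MonoidHom.coe_snd] using this

end Cfsg.GUn
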