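import Cfsg.Agent.GUn.Lab
import Cfsg.Agent.GUn.Dec
import Cfsg.Agent.GUn.FF
import Cfsg.Agent.GUn.Weil
import Cfsg.Agent.GLn.Two

/-! S4537: quaternion subgroups (group theory and matrices for the pieces `Q8` and `DG2`). -/

set_option autoImplicit false

namespace Cfsg.GUn.Q8

open Matrix Subgroup
open scoped Kronecker
open GLn (Bt sz)

universe u

section group

variable {G : Type*} [Group G]

theorem sq_mem {Z : Subgroup G} [Z.Normal] {S : Set G} (h1 : ∀ x ∈ S, x ^ 2 ∈ Z)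
    (h2 : ∀ x ∈ S, ∀ y ∈ S, Commute (x : G ⧸ Z) y) : ∀ x ∈ closure S, x ^ 2 ∈ Z := by
  have h3 : ∀ x ∈ closure S, ∀ y ∈ closure S, Commute (x : G ⧸ Z) y := fun x hx y hy => by
    induction hx, hy using closure_induction₂ with
    | mem x y hx hy => exact h2 x hx y hy
    | one_left => exact Commute.one_left _
    | one_right => exact Commute.one_right _
    | mul_left _ _ _ _ _ _ a b => exact a.mul_left b
    | mul_right _ _ _ _ _ _ a b => exact a.mul_right b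
    | inv_left _ _ _ _ a => exact a.inv_left
    | inv_right _ _ _ _ a => exact a.inv_right
  intro x hx
  rw [← QuotientGroup.eq_one_iff, QuotientGroup.mk_pow]
  induction hx using closure_induction with
  | mem x hx => rw [← QuotientGroup.mk_pow, QuotientGroup.eq_one_iff]; exact h1 x hx
  | one => exact one_pow _
  | mul x y hx hy a b => rw [QuotientGroup.mk_mul, (h3 x hx y hy).mul_pow, a, b, one_mul]
  | inv x _ a => rw [QuotientGroup.mk_inv, inv_pow, a, inv_one]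

theorem two_mul_le [Finite G] {H K : Subgroup G} (h : H ≤ K) {x : G} (hx : x ∈ K) (hx' : x ∉ H) :
    2 * Nat.card H ≤ Nat.card K := by
  obtain ⟨c, hc⟩ := card_dvd_of_le h
  have h1 : c ≠ 1 := fun h1 => hx' (eq_of_le_of_card_ge h (by rw [hc, h1, mul_one]) ▸ hx)
  have h0 : c ≠ 0 := fun h0 => (Nat.card_pos (α := K)).ne' (by rw [hc, h0, mul_zero])
  rw [hc, mul_comm]
  exact Nat.mul_le_mul_left _ (by omega)

theorem normal_zpowers {z : G} (hz : z ∈ center G) : (zpowers z).Normal :=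
  ⟨fun n hn g => by
    rwa [mem_center_iff.1 ((zpowers_le.2 hz) hn) g, mul_inv_cancel_right]⟩

theorem unit [Finite G] {z a b c : G} (hz : z ∈ center G) (hc : c ∈ center G) (h1 : z ≠ 1)
    (ha : a * a = z) (hb : b * b = z) (hab : a * b = z * (b * a)) (hcc : c ^ 2 ∈ zpowers z) :
    (∀ x ∈ closure {a, b, c}, x ^ 2 ∈ zpowers z) ∧ 4 * orderOf c ≤ Nat.card (closure {a, b, c}) := by
  have := normal_zpowers hz
  have h2 : ¬ Commute a b := fun h => h1 (by rwa [h.eq, right_eq_mul] at hab)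
  have ma : a ∈ closure {a, b, c} := subset_closure (by simp)
  have mb : b ∈ closure {a, b, c} := subset_closure (by simp)
  have mc : c ∈ closure {a, b, c} := subset_closure (by simp)
  refine ⟨sq_mem ?_ ?_, ?_⟩
  · rintro x (rfl | rfl | rfl)
    exacts [by rw [sq, ha]; exact mem_zpowers z, by rw [sq, hb]; exact mem_zpowers z, hcc]
  · have h3 : Commute (a : G ⧸ zpowers z) b := by
      rw [Commute, SemiconjBy, ← QuotientGroup.mk_mul, hab, QuotientGroup.mk_mul,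
        (QuotientGroup.eq_one_iff z).2 (mem_zpowers z), one_mul, QuotientGroup.mk_mul]
    have h4 (x : G) : Commute (x : G ⧸ zpowers z) c :=
      (show Commute x c from mem_center_iff.1 hc x).map (QuotientGroup.mk' _)
    rintro x (rfl | rfl | rfl) y (rfl | rfl | rfl)
    exacts [.refl _, h3, h4 _, h3.symm, .refl _, h4 _, (h4 _).symm, (h4 _).symm, .refl _]
  · have h3 := two_mul_le (H := closure {a, b, c} ⊓ centralizer {b}) inf_le_left ma
      fun h => h2 (mem_centralizer_singleton_iff.1 h.2)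
    have h4 := two_mul_le (H := zpowers c) (K := closure {a, b, c} ⊓ centralizer {b}) (x := b)
      (zpowers_le.2 ⟨mc, center_le_centralizer _ hc⟩) ⟨mb, mem_centralizer_singleton_iff.2 rfl⟩
      fun h => h2 (mem_center_iff.1 ((zpowers_le.2 hc) h) a)
    rw [Nat.card_zpowers] at h4
    omega

theorem card_le {s : ℕ} {E K : Subgroup G} [Finite G] (h : SectionalPRankLE 2 s E)
    (hK : ∀ x ∈ E, x ^ 2 ∈ K) : Nat.card E ≤ 2 ^ s * Nat.card K := by
  have h1 : ∀ x y : E, x * y * x⁻¹ * y⁻¹ ∈ K.subgroupOf E := fun x y => by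
    rw [show x * y * x⁻¹ * y⁻¹ = x ^ 2 * (x⁻¹ * y) ^ 2 * y⁻¹ ^ 2 by simp [sq, mul_assoc]]
    exact mul_mem (mul_mem (hK _ x.2) (hK _ (x⁻¹ * y).2)) (hK _ (y⁻¹).2)
  have : (K.subgroupOf E).Normal := ⟨fun n hn g => by simpa using mul_mem (h1 g n) hn⟩
  rw [card_eq_card_quotient_mul_card_subgroup (K.subgroupOf E)]
  refine Nat.mul_le_mul (h.card_le_of_section (MonoidHom.id _) (QuotientGroup.mk' _)
    (QuotientGroup.mk'_surjective _) (by simp) (fun a b => ?_) fun a => ?_) ?_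
  · obtain ⟨a, rfl⟩ := QuotientGroup.mk_surjective a
    obtain ⟨b, rfl⟩ := QuotientGroup.mk_surjective b
    simp only [← QuotientGroup.mk_mul, QuotientGroup.eq]
    simpa [mul_assoc] using h1 b⁻¹ a⁻¹
  · obtain ⟨a, rfl⟩ := QuotientGroup.mk_surjective a
    rw [← QuotientGroup.mk_pow, QuotientGroup.eq_one_iff]
    exact hK _ a.2
  · exact Nat.card_le_card_of_injective (fun x => (⟨x.1.1, x.2⟩ : K))
      fun x y e => Subtype.ext (Subtype.ext (Subtype.mk.inj e))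

theorem card_le_ker {A : Type*} [Group A] [Finite G] (δ : G →* A) {E : Subgroup G} {y : A}
    (hy : IsOfFinOrder y) (h : E ≤ (zpowers y).comap δ) :
    Nat.card E ≤ orderOf y * Nat.card (E ⊓ δ.ker : Subgroup G) := by
  have := hy.finite_zpowers.to_subtype
  rw [card_eq_card_quotient_mul_card_subgroup (δ.comp E.subtype).ker,
    Nat.card_congr (QuotientGroup.quotientKerEquivRange _).toEquiv, ← Nat.card_zpowers]
  refine Nat.mul_le_mul (card_le_of_le ?_) ?_
  · rintro _ ⟨x, rfl⟩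
    exact h x.2
  · exact Nat.card_le_card_of_injective (fun x => (⟨x.1.1, x.1.2, x.2⟩ : (E ⊓ δ.ker : Subgroup G)))
      fun x y e => Subtype.ext (Subtype.ext (Subtype.mk.inj e))

end group

variable {k : Type u} [Field k] [Big k] {Φ : Frob k} {ι : Type} [Fintype ι] [DecidableEq ι]

theorem two_ne (h2 : 2 ≠ ringChar k) : (2 : k) ≠ 0 := fun h =>
  h2 ((Nat.prime_dvd_prime_iff_eq Big.prime Nat.prime_two).1
    ((ringChar.spec k 2).1 (by exact_mod_cast h))).symm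

theorem neg_ne (h2 : 2 ≠ ringChar k) : (-1 : kˣ) ≠ 1 := fun h => two_ne h2 <| by
  have := congrArg Units.val h
  simp only [Units.val_neg, Units.val_one] at this
  linear_combination -this

theorem two_dvd (h2 : 2 ≠ ringChar k) (Φ : Frob k) : ((2 : ℕ) : ℤ) ∣ Φ.Q - 1 := by
  have h : Odd Φ.Q := by
    rw [← Int.natAbs_odd, natAbs_Q]
    exact Nat.coprime_two_right.1 (coprime_q_prime Nat.prime_two h2)
  exact even_iff_two_dvd.1 (h.sub_odd odd_one)

theorem neg_mem (h2 : 2 ≠ ringChar k) (Φ : Frob k) : (-1 : kˣ) ∈ Mk Φ 1 := by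
  obtain ⟨c, hc⟩ := two_dvd h2 Φ
  rw [mem_Mk'' one_pos, pow_one, hc, _root_.zpow_mul, _root_.zpow_natCast, neg_one_sq, _root_.one_zpow]

theorem exists_xy (h2 : 2 ≠ ringChar k) (Φ : Frob k) : ∃ x y : k, x ^ 2 + y ^ 2 = -1 ∧
    Φ.σ (if Φ.neg then -x else x) = x ∧ Φ.σ (if Φ.neg then -y else y) = y := by
  split_ifs
  · obtain ⟨i, hi⟩ := IsAlgClosed.exists_pow_nat_eq (-1 : k) two_pos
    have h1 : Φ.σ i ^ 2 = i ^ 2 := by rw [← map_pow, hi, map_neg, map_one]
    rcases sq_eq_sq_iff_eq_or_eq_neg.1 h1 with h | h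
    · obtain ⟨δ, hδ⟩ := IsAlgClosed.exists_pow_nat_eq (-1 : k) (Nat.sub_pos_of_lt Φ.one_lt_q)
      have h0 : δ ≠ 0 := by
        rintro rfl
        rw [zero_pow (Nat.sub_pos_of_lt Φ.one_lt_q).ne'] at hδ
        simp at hδ
      have h3 : Φ.σ δ = -δ := by
        rw [Φ.hσ, ← Nat.sub_add_cancel Φ.one_lt_q.le, pow_succ, hδ, neg_one_mul]
      have := two_ne h2
      refine ⟨(δ - δ⁻¹) / 2, (δ + δ⁻¹) / 2 * i, ?_, ?_, ?_⟩
      · rw [mul_pow, hi]; field_simp; ring
      · simp only [map_neg, map_div₀, map_sub, map_inv₀, h3, map_ofNat]; ring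
      · simp only [map_neg, map_mul, map_div₀, map_add, map_inv₀, h3, h, map_ofNat]; ring
    · exact ⟨i, 0, by simp [hi], by simp [h], by simp⟩
  · have : NeZero (ringChar k) := ⟨Big.prime.ne_zero⟩
    obtain ⟨a, b, h⟩ := CharP.sq_add_sq k (ringChar k) (-1)
    exact ⟨a, b, by simpa using h, by simp, by simp⟩

omit [Big k] in
theorem exists_G {A B : Matrix ι ι k} (h : A * B = 1)
    (hm : Φ.mat (if Φ.neg then B else A) = A) : ∃ g : Φ.G ι, g.1.val = A :=
  ⟨⟨⟨A, B, h, mul_eq_one_comm.1 h⟩, Units.ext (by rw [Φ.Fr_val]; split_ifs at hm ⊢ <;> exact hm)⟩,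
    rfl⟩

theorem geo (h2 : 2 ≠ ringChar k) {d : ℕ} (hc : Fintype.card ι = 2 * d) (g : Φ.G (Fin d)) :
    ∃ g' a b : Φ.G ι, (∀ τ : k, jt (g'.1.val - τ • 1) = 2 • jt (g.1.val - τ • 1)) ∧
      Commute a g' ∧ Commute b g' ∧ a ∈ SG Φ ι ∧ b ∈ SG Φ ι ∧ a.1 * a.1 = -1 ∧ b.1 * b.1 = -1 ∧
      a.1 * b.1 = -(b.1 * a.1) := by
  obtain ⟨e⟩ : Nonempty (Fin 2 × Fin d ≃ ι) := Fintype.card_eq.1 (by simp [hc])
  obtain ⟨x, y, h, hx, hy⟩ := exists_xy h2 Φ
  let T (A : Matrix (Fin 2) (Fin 2) k) (B : Matrix (Fin d) (Fin d) k) := reindex e e (A ⊗ₖ B)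
  have hT (A A' : Matrix (Fin 2) (Fin 2) k) (B B' : Matrix (Fin d) (Fin d) k) :
      T A B * T A' B' = T (A * A') (B * B') := by
    simp only [T, reindex_apply, submatrix_mul_equiv, mul_kronecker_mul]
  have h1 : T 1 1 = 1 := by simp [T]
  have hn (A B) : T (-A) B = -T A B := by ext; simp [T]
  have hm (A B) : Φ.mat (T A B) = T (Φ.mat A) (Φ.mat B) := by
    simp only [T, mat_reindex, Weil.mat_kron]
  have key (A) (e1 : A * A = -1) (e2 : Φ.mat (if Φ.neg then -A else A) = A) (e3 : A.det = 1) :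
      ∃ a ∈ SG Φ ι, a.1.val = T A 1 := by
    obtain ⟨a, ha⟩ := exists_G (Φ := Φ) (A := T A 1) (B := T (-A) 1)
      (by rw [hT, mul_neg, e1, neg_neg, one_mul, h1])
      (by split_ifs at e2 ⊢ <;> rw [hm, e2, mat_one])
    refine ⟨a, Units.ext ?_, ha⟩
    change a.1.val.det = 1
    rw [ha, det_reindex_self, det_kronecker, e3, det_one, one_pow, one_pow, one_mul]
  obtain ⟨g', hg⟩ := exists_G (Φ := Φ) (A := T 1 g.1.val) (B := T 1 (g.1⁻¹).val)
    (by rw [hT, one_mul, Units.mul_inv, h1])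
    (by
      have := (Φ.Fr_val g.1).symm.trans (congrArg Units.val g.2)
      split_ifs at this ⊢ <;> rw [hm, this, mat_one] <;> rfl)
  have e1 : (!![0, 1; -1, 0] * !![0, 1; -1, 0] : Matrix (Fin 2) (Fin 2) k) = -1 := by
    ext i j; fin_cases i <;> fin_cases j <;> simp
  have e2 : (!![x, y; y, -x] * !![x, y; y, -x] : Matrix (Fin 2) (Fin 2) k) = -1 := by
    ext i j; fin_cases i <;> fin_cases j <;> simp [← h] <;> ring
  obtain ⟨a, h3, ha⟩ := key _ e1 (by
    unfold Frob.mat; split_ifs <;> ext i j <;> fin_cases i <;> fin_cases j <;> simp) (by simp)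
  obtain ⟨b, h4, hb⟩ := key _ e2 (by
    unfold Frob.mat
    split_ifs at hx hy ⊢ <;> ext i j <;> fin_cases i <;> fin_cases j <;>
      simp_all [neg_eq_iff_eq_neg]) (by rw [det_fin_two_of]; linear_combination -h)
  refine ⟨g', a, b, fun τ => ?_, Subtype.ext (Units.ext ?_), Subtype.ext (Units.ext ?_), h3, h4,
    Units.ext ?_, Units.ext ?_, Units.ext ?_⟩
  · rw [← jt_kr, ← jt_reindex e, hg]
    congr 1
    rw [← h1]
    ext i j
    simp only [T, kr, reindex_apply, submatrix_apply, Matrix.sub_apply, Matrix.smul_apply,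
      kroneckerMap_apply, smul_eq_mul]
    ring
  · simp only [coe_mul, Units.val_mul, ha, hg, hT]
    rw [one_mul, one_mul, mul_one, mul_one]
  · simp only [coe_mul, Units.val_mul, hb, hg, hT]
    rw [one_mul, one_mul, mul_one, mul_one]
  · rw [Units.val_mul, ha, hT, e1, one_mul, hn, h1]; rfl
  · rw [Units.val_mul, hb, hT, e2, one_mul, hn, h1]; rfl
  · rw [Units.val_neg, Units.val_mul, Units.val_mul, ha, hb, hT, hT, ← hn]
    congr 1
    ext i j; fin_cases i <;> fin_cases j <;> simp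

/-- the element `-1` -/
def ng (h2 : 2 ≠ ringChar k) (Φ : Frob k) (ι : Type) [Fintype ι] [DecidableEq ι] : Φ.G ι :=
  ⟨scal ι (-1), scal_mem_G_of_Mk (neg_mem h2 Φ)⟩

theorem ng_val (h2 : 2 ≠ ringChar k) : (ng h2 Φ ι).1 = -1 := Units.ext (by simp [ng])

omit [Big k] in
theorem scal_mem_center {c : Φ.G ι} {ξ : kˣ} (h : c.1 = scal ι ξ) : c ∈ center (Φ.G ι) :=
  mem_center_iff.2 fun g => Subtype.ext (by rw [coe_mul, coe_mul, h, scal_comm])

variable {n j N : ℕ} (D : Dec ι (d2 1) (m2 n j) (fun _ => 1) Φ)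

/-- the embedding of a Levi subgroup with two factors -/
noncomputable def f1 : Φ.G (Fin n) × Φ.G (Fin j) →* Φ.G ι := D.f2

theorem det_f1 (x : Φ.G (Fin n)) (y : Φ.G (Fin j)) : GeneralLinearGroup.det (f1 D (x, y)).1 =
    GeneralLinearGroup.det x.1 * GeneralLinearGroup.det y.1 := by
  exact (D.det_f2 (x, y)).trans (by simp)

theorem cen (h2 : 2 ≠ ringChar k) : Cen 2 (f1 D) 1 (ng h2 Φ _) where
  inj := D.f2_injective
  range := D.range_f2_eq (one_mem_Mk one_pos)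
    (Nat.dvd_one.1 ((mem_Mk_per one_pos).1 (neg_mem h2 Φ))) (neg_ne h2).symm (map_one _).symm rfl
  pelt := by
    obtain ⟨a, -, h⟩ := (Nat.dvd_prime_pow Nat.prime_two (m := 1)).1
      (orderOf_dvd_of_pow_eq_one (x := f1 D (1, ng h2 Φ _)) (by
        rw [← map_pow, ← (f1 D).map_one]
        exact congrArg _ (Prod.ext (one_pow _) (Subtype.ext (by simp [ng_val])))))
    exact ⟨a, h⟩

theorem merge (hMe : StMerge k) (hI : StIrr k) (h2 : 2 ≠ ringChar k) (hN : Fintype.card ι ≤ N)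
    {μ₀ μ₁ : MP Φ N} (b₀ : Basic 2 μ₀) (b₁ : Basic 2 μ₁) {θ₀ : IrrCharacter (Φ.G (Fin n))}
    {θ₁ : IrrCharacter (Φ.G (Fin j))} (l₀ : Lab μ₀ θ₀) (l₁ : Lab μ₁ θ₁) :
    ∃ (μ : MP Φ N) (χ : IrrCharacter (Φ.G ι)), Basic 2 μ ∧ Lab μ χ ∧
      (∀ φ, sz N (μ φ).1 = sz N (μ₀ φ).1 + sz N (μ₁ φ).1) ∧
      pair3 2 (f1 D) 1 (ng h2 Φ _) χ.1 θ₀.1 θ₁.1 ≠ 0 := by
  have d₀ := l₀.1.trans (Fintype.card_fin n)
  have d₁ := l₁.1.trans (Fintype.card_fin j)
  obtain ⟨μ, h3, h4, h5⟩ := hMe Φ ι 2 Nat.prime_two h2 n j D 1 (-1) ⟨0, by simp⟩ ⟨1, by simp⟩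
    (one_mem_Mk one_pos) (neg_mem h2 Φ) (neg_ne h2).symm N μ₀ μ₁ hN b₀ b₁ d₀ d₁ 1 (ng h2 Φ _)
    (map_one _).symm rfl
  obtain ⟨χ, h6⟩ := exists_lab (μ := μ) (ι := ι) hI (by
    rw [D.card2, one_mul, ← d₀, ← d₁,
      deg_eq_sum μ (s := μ.support ∪ (μ₀.support ∪ μ₁.support)) Finset.subset_union_left,
      deg_eq_sum μ₀ (Finset.subset_union_left.trans Finset.subset_union_right),
      deg_eq_sum μ₁ (Finset.subset_union_right.trans Finset.subset_union_right),
      ← Finset.sum_add_distrib]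
    exact Finset.sum_congr rfl fun φ _ => by rw [h4, mul_add])
  exact ⟨μ, χ, h3, h6, h4, h6.pair3_ne l₀ l₁ h5⟩

theorem exists_dec (hE : StEmb k) (h : Fintype.card ι = n + j) :
    Nonempty (Dec ι (d2 1) (m2 n j) (fun _ => 1) Φ) :=
  hE Φ ι Bool _ _ (by rintro (_ | _) <;> exact one_pos) (by simp [h, add_comm])

end Cfsg.GUn.Q8
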