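import Cfsg.Agent.GUn.Ev
import Cfsg.Agent.GUn.JtB
import Cfsg.Agent.GUn.HL

/-! The piece `StRes`. -/

set_option autoImplicit false
set_option linter.unusedSectionVars false

namespace Cfsg.GUn

open Finset MvPolynomial
open scoped TensorProduct

universe u

variable {k : Type u} [Field k] [Big k] {Φ : Frob k} {p e : ℕ} {ξ₀ ξ₁ : kˣ}

namespace Res

section mat

variable {ι : Type} [Fintype ι] [DecidableEq ι]

theorem jt_emb {J : Type} [Fintype J] [DecidableEq J] {d m δ : J → ℕ}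
    (ε : (Σ x : Om d, Fin (δ x.1) × Fin (m x.1)) ≃ ι) (h : GL ι k)
    (a : Π x : Om d, Matrix (Fin (m x.1)) (Fin (m x.1)) k) (τ : k) :
    jt (emb ε h a - τ • 1) = ∑ x, δ x.1 • jt (a x - τ • 1) := by
  rw [← map_one (emb ε h), ← map_smul, ← map_sub, emb_apply, jt_conj, jt_reindex, bdg,
    jt_blockDiagonal']
  exact sum_congr rfl fun x _ => jt_kr _ _

theorem jt_f2 {n j : ℕ} (D : Dec ι (d2 e) (m2 n j) (fun _ => 1) Φ) (a : Φ.G (Fin n))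
    (b : (Φ.pow e).G (Fin j)) (τ : k) : jt ((D.f2 (a, b)).1.val - τ • 1) =
      jt (a.1.val - τ • 1) + ∑ i ∈ range e, jt (((Φ.Fr _)^[i] b.1).val - τ • 1) := by
  rw [Dec.f2, MonoidHom.comp_apply, Dec.Ψ_val, jt_emb, Fintype.sum_sigma, Fintype.sum_bool,
    add_comm, ← Fin.sum_univ_eq_sum_range]
  simp only [one_smul]
  congr 1
  exact Fin.sum_univ_one _

theorem card_eq {n j : ℕ} (D : Dec ι (d2 e) (m2 n j) (fun _ => 1) Φ) :
    Fintype.card ι = n + e * j := by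
  rw [← Fintype.card_congr D.e, Fintype.card_sigma, Fintype.sum_sigma, Fintype.sum_bool, add_comm]
  simp

variable [hp : Fact p.Prime] (hc : p ≠ ringChar k)
include hc

theorem reg_of_eig {y : GL ι k} (hy : ¬ p ∣ orderOf y) {s : kˣ} (hs : s ∈ eig y) :
    ¬ p ∣ orderOf s := fun h => hy ((dvd_orderOf_iff_eig hp.out hc y).2 ⟨s, hs, h⟩)

theorem eig_Fr_scal {y : GL ι k} (hy : ¬ p ∣ orderOf y) (ξ τ : kˣ) (i : ℕ)
    (h : jt (((Φ.Fr ι)^[i] (scal ι ξ * y)).val - (τ : k) • 1) ≠ 0) :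
    ∃ s, ¬ p ∣ orderOf s ∧ (ξ * s) ^ Φ.Q ^ i = τ := by
  rw [← mem_eig_iff, eig_Fr_iterate, eig_scal_mul, Multiset.map_map] at h
  obtain ⟨s, hs, rfl⟩ := Multiset.mem_map.1 h
  exact ⟨s, reg_of_eig hc hy hs, rfl⟩

end mat

theorem fb_map_of {Φ' : Frob k} (j : I Φ' → I Φ) {τ : Multiset (I Φ' × ℕ)} {o : I Φ'}
    (h : ∀ x ∈ τ, j x.1 = j o → x.1 = o) : fb (τ.map (Prod.map j id)) (j o) = fb τ o := by
  rw [fb, fb, Multiset.filter_map, Multiset.map_map]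
  exact congrArg _ (Multiset.filter_congr fun x hx => ⟨h x hx, congrArg j⟩)

theorem go_zero_right (h : StHL) {o : I Φ} {ρ : Multiset ℕ} {r : ℕ} (hr : r ∈ ρ) :
    go o ρ 0 = 0 := by
  by_contra h0
  obtain rfl := Multiset.sum_eq_zero_iff.1 (go_size h h0) r hr
  exact h0 (by rw [go, (hl h o).zpart _ _ hr, Rat.cast_zero])

theorem sum_Rk_pow_q (m n : ℕ) {B : Type*} [AddCommMonoid B] (f : kˣ → B) :
    ∑ x ∈ Rk Φ p m, f (x ^ Φ.Q ^ n) = ∑ x ∈ Rk Φ p m, f x := by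
  rw [Rk, sum_filter, sum_filter, ← sum_Mk_pow_q n fun x => if ¬ p ∣ orderOf x then f x else 0]
  simp only [orderOf_pow_q]

theorem dd_P_eq (m : ℕ) (ξ : kˣ) : dd p (P Φ m ξ) =
    ∑ t ∈ Rk Φ p m, (pr Φ m ξ t : ℂ) • X (io Φ t, m / (io Φ t).per) := by
  rw [P_eq_Pf, dd_Pf, Pf, Rk, sum_filter]
  exact sum_congr rfl fun t _ => by split_ifs <;> simp

variable [Fact p.Prime]

theorem parts {u u' s s' : kˣ} (hu : ∃ a, orderOf u = p ^ a) (hu' : ∃ a, orderOf u' = p ^ a)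
    (hs : ¬ p ∣ orderOf s) (hs' : ¬ p ∣ orderOf s') {n : ℤ} (h : (u * s) ^ n = u' * s') :
    u ^ n = u' ∧ s ^ n = s' := by
  have h1 := congrArg (pPart p) h
  have h2 := congrArg (pRegPart p) h
  rw [mul_comm u, mul_comm u'] at h1 h2
  rw [pPartK_zpow, pPartK_mul_of hs hu, pPartK_mul_of hs' hu'] at h1
  rw [pRegPartK_zpow, pRegPartK_mul_of hs hu, pRegPartK_mul_of hs' hu'] at h2
  exact ⟨h1, h2⟩

variable (Φ p e ξ₀ ξ₁) in
/-- the data of a section -/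
structure Dat : Prop where
  p₀ : ∃ a, orderOf ξ₀ = p ^ a
  p₁ : ∃ a, orderOf ξ₁ = p ^ a
  mem : ξ₀ ∈ Mk Φ 1
  per : (io Φ ξ₁).per = e
  ne : ξ₀ ≠ ξ₁

namespace Dat

variable (H : Dat Φ p e ξ₀ ξ₁) {s s' : kˣ}
include H

theorem pos : 0 < e := H.per ▸ per_pos _

theorem io₀ : io Φ (ξ₀ * s) = io Φ (ξ₀ * s') ↔ io Φ s = io Φ s' := by
  rw [← mulI_io H.mem, ← mulI_io H.mem, (mulI_injective H.mem).eq_iff]

theorem pow_eq {n : ℕ} : ξ₁ ^ Φ.Q ^ n = ξ₁ ↔ e ∣ n := by rw [← per_io_dvd_iff, H.per]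

theorem io₁ (hs : ¬ p ∣ orderOf s) (hs' : ¬ p ∣ orderOf s') :
    io Φ (ξ₁ * s) = io Φ (ξ₁ * s') ↔ io (Φ.pow e) s = io (Φ.pow e) s' := by
  rw [io_eq_iff, io_pow_eq_iff H.pos]
  constructor
  · rintro ⟨n, hn⟩
    obtain ⟨h1, h2⟩ := parts H.p₁ H.p₁ hs hs' hn
    obtain ⟨n, rfl⟩ := H.pow_eq.1 h1
    exact ⟨n, h2⟩
  · rintro ⟨n, rfl⟩
    exact ⟨e * n, by rw [mul_zpow, H.pow_eq.2 (dvd_mul_right _ _)]⟩

theorem ne₀₁ (hs : ¬ p ∣ orderOf s) (hs' : ¬ p ∣ orderOf s') :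
    io Φ (ξ₀ * s) ≠ io Φ (ξ₁ * s') := fun h => by
  obtain ⟨n, hn⟩ := io_eq_iff.1 h
  exact H.ne ((pow_q_of_mem_one H.mem n).symm.trans (parts H.p₀ H.p₁ hs hs' hn).1)

theorem per₀ : (io Φ (ξ₀ * s)).per = (io Φ s).per := by rw [← mulI_io H.mem, per_mulI H.mem]

theorem per₁ (hs : ¬ p ∣ orderOf s) : (io Φ (ξ₁ * s)).per = e * (io (Φ.pow e) s).per := by
  rw [mul_comm, per_io_mul (coprime_orderOf_of hs H.p₁), H.per, mul_per_io_pow H.pos]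

end Dat

variable (p ξ₀ ξ₁) in
/-- the values of the restriction map on the variables -/
structure IsR (R : A Φ →ₐ[ℂ] A Φ ⊗[ℂ] A (Φ.pow e)) : Prop where
  v₀ : ∀ s r, ¬ p ∣ orderOf s → R (X (io Φ (ξ₀ * s), r)) = X (io Φ s, r) ⊗ₜ 1
  v₁ : ∀ s r, ¬ p ∣ orderOf s → R (X (io Φ (ξ₁ * s), r)) = 1 ⊗ₜ X (io (Φ.pow e) s, r)
  v₂ : ∀ o r, (∀ s, ¬ p ∣ orderOf s → o ≠ io Φ (ξ₀ * s) ∧ o ≠ io Φ (ξ₁ * s)) → R (X (o, r)) = 0

variable (H : Dat Φ p e ξ₀ ξ₁)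
include H

theorem exists_R : ∃ R : A Φ →ₐ[ℂ] A Φ ⊗[ℂ] A (Φ.pow e), IsR p ξ₀ ξ₁ R := by
  let f : {s : kˣ // ¬ p ∣ orderOf s} ⊕ {s : kˣ // ¬ p ∣ orderOf s} → I Φ :=
    Sum.elim (fun s => io Φ (ξ₀ * s)) fun s => io Φ (ξ₁ * s)
  let g : {s : kˣ // ¬ p ∣ orderOf s} ⊕ {s : kˣ // ¬ p ∣ orderOf s} → ℕ → A Φ ⊗[ℂ] A (Φ.pow e) :=
    Sum.elim (fun s r => X (io Φ s, r) ⊗ₜ 1) fun s r => 1 ⊗ₜ X (io (Φ.pow e) s, r)
  have hg : g.FactorsThrough f := by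
    rintro (s | s) (s' | s') h
    · simp only [g, Sum.elim_inl, H.io₀.1 h]
    · exact (H.ne₀₁ s.2 s'.2 h).elim
    · exact (H.ne₀₁ s'.2 s.2 h.symm).elim
    · simp only [g, Sum.elim_inr, (H.io₁ s.2 s'.2).1 h]
  refine ⟨aeval fun x => Function.extend f g 0 x.1 x.2, fun s r hs => ?_, fun s r hs => ?_,
    fun o r h => ?_⟩ <;> rw [aeval_X]
  · exact congrFun (hg.extend_apply 0 (Sum.inl ⟨s, hs⟩)) r
  · exact congrFun (hg.extend_apply 0 (Sum.inr ⟨s, hs⟩)) r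
  · rw [Function.extend_apply']
    · rfl
    · rintro ⟨s | s, hs⟩
      exacts [(h s s.2).1 hs.symm, (h s s.2).2 hs.symm]

variable {R : A Φ →ₐ[ℂ] A Φ ⊗[ℂ] A (Φ.pow e)} (hR : IsR p ξ₀ ξ₁ R)
include hR

theorem R_P {M : ℕ} (hM : 0 < M) {s : kˣ} (hs : s ∈ Mk Φ M) (h : ¬ p ∣ orderOf s) :
    R (P Φ M s) = dd p (P Φ M s) ⊗ₜ 1 +
      if e ∣ M then ∑ i ∈ range e, 1 ⊗ₜ dd p (P (Φ.pow e) (M / e) (s ^ Φ.Q ^ i)) else 0 := by
  let G : kˣ → A Φ ⊗[ℂ] A (Φ.pow e) := fun u =>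
    ∑ t ∈ Rk Φ p M, (pr Φ M s t : ℂ) • R (X (io Φ (u * t), M / (io Φ (u * t)).per))
  have h1 : R (P Φ M s) = ∑ u ∈ Lk Φ p M, G u := by
    rw [P, sum_Mk_split (p := p), sum_comm, map_sum]
    refine sum_congr rfl fun u hu => (map_sum _ _ _).trans (sum_congr rfl fun t _ => ?_)
    rw [map_smul, map_mul, pr_eq_one hs (mem_Lk.1 hu).1 (coprime_orderOf_of h (mem_Lk.1 hu).2),
      mul_one, mul_comm]
  have h2 : ∀ u ∈ Lk Φ p M, u ≠ ξ₀ → io Φ u ≠ io Φ ξ₁ → G u = 0 := fun u hu h0 h1 =>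
    sum_eq_zero fun t ht => by
      rw [hR.v₂ _ _ fun s' hs' => ⟨fun e => ?_, fun e => ?_⟩, smul_zero] <;>
        obtain ⟨n, hn⟩ := io_eq_iff.1 e.symm
      · exact h0 ((parts H.p₀ (mem_Lk.1 hu).2 hs' (mem_Rk.1 ht).2 hn).1.symm.trans
          (pow_q_of_mem_one H.mem n))
      · exact h1 (by rw [← (parts H.p₁ (mem_Lk.1 hu).2 hs' (mem_Rk.1 ht).2 hn).1, io_pow_q])
  have h3 : ξ₀ ∈ Lk Φ p M := mem_Lk.2 ⟨mem_Mk_of_dvd hM (one_dvd _) H.mem, H.p₀⟩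
  rw [h1, ← add_sum_erase _ _ h3]
  congr 1
  · rw [dd_P_eq, TensorProduct.sum_tmul]
    exact sum_congr rfl fun t ht => by
      rw [hR.v₀ _ _ (mem_Rk.1 ht).2, H.per₀, TensorProduct.smul_tmul']
  split_ifs with hd
  · obtain ⟨M, rfl⟩ := hd
    rw [← sum_subset (s₁ := (io Φ ξ₁).pts) (fun u hu => ?_) fun u hu hu' =>
      h2 u (mem_of_mem_erase hu) (ne_of_mem_erase hu) (mt mem_pts.2 hu'), sum_pts_io, H.per,
      Nat.mul_div_cancel_left _ H.pos]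
    · refine sum_congr rfl fun i _ => ?_
      rw [dd_P_eq, TensorProduct.tmul_sum, Rk_pow H.pos, pr_pow_frob H.pos]
      refine (sum_Rk_pow_q _ i _).symm.trans (sum_congr rfl fun t ht => ?_)
      rw [← mul_zpow, io_pow_q, hR.v₁ _ _ (mem_Rk.1 ht).2, H.per₁ (mem_Rk.1 ht).2,
        Nat.mul_div_mul_left _ _ H.pos, TensorProduct.tmul_smul, pr_zpow' hs (mem_Rk.1 ht).1]
    · obtain ⟨n, rfl⟩ := io_eq_iff.1 (mem_pts.1 hu).symm
      refine mem_erase.2 ⟨fun e' => H.ne (pow_q_injective (Φ := Φ) n ?_), mem_Lk.2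
        ⟨zpow_mem_Mk ((mem_Mk_per hM).2 (H.per ▸ dvd_mul_right _ _)) _, ?_⟩⟩
      · exact (pow_q_of_mem_one H.mem n).trans e'.symm
      · rw [orderOf_pow_q]; exact H.p₁
  · exact sum_eq_zero fun u hu => h2 u (mem_of_mem_erase hu) (ne_of_mem_erase hu) fun e' =>
      hd (H.per ▸ e' ▸ (mem_Mk_per hM).1 (mem_Lk.1 (mem_of_mem_erase hu)).1)

theorem ev_R (h : StHL) {Λ Λ₀ : I Φ → Multiset ℕ} {Λ₁ : I (Φ.pow e) → Multiset ℕ}
    (f : (Function.support Λ).Finite) (f₀ : (Function.support Λ₀).Finite)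
    (f₁ : (Function.support Λ₁).Finite) (r₀ : ∀ o, Λ₀ o ≠ 0 → Reg p o)
    (r₁ : ∀ o, Λ₁ o ≠ 0 → Reg p o)
    (e₀ : ∀ s, ¬ p ∣ orderOf s → Λ (io Φ (ξ₀ * s)) = Λ₀ (io Φ s))
    (e₁ : ∀ s, ¬ p ∣ orderOf s → Λ (io Φ (ξ₁ * s)) = Λ₁ (io (Φ.pow e) s))
    (e₂ : ∀ o, Λ o ≠ 0 → ∃ s, ¬ p ∣ orderOf s ∧ (o = io Φ (ξ₀ * s) ∨ o = io Φ (ξ₁ * s)))
    (a : A Φ) : ev Λ a = LinearMap.mul' ℂ ℂ (TensorProduct.map (ev Λ₀) (ev Λ₁) (R a)) := by
  classical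
  let j₀ : I Φ → I Φ := fun o => io Φ (ξ₀ * o.rep)
  let j₁ : I (Φ.pow e) → I Φ := fun o => io Φ (ξ₁ * o.rep)
  have a₀ : ∀ s, j₀ (io Φ s) = io Φ (ξ₀ * s) := fun s => H.io₀.2 (io_rep _)
  have a₁ : ∀ s, ¬ p ∣ orderOf s → j₁ (io _ s) = io Φ (ξ₁ * s) := fun s hs =>
    (H.io₁ (reg_io.2 hs) hs).2 (io_rep _)
  have i₀ : ∀ o o', j₀ o = j₀ o' → o = o' := fun o o' e => by simpa using H.io₀.1 e
  have i₁ : ∀ o o', Reg p o → Reg p o' → j₁ o = j₁ o' → o = o' := fun o o' ho ho' e => by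
    simpa using (H.io₁ ho ho').1 e
  induction a using MvPolynomial.induction_on' with
  | add a b ha hb => simp only [map_add, ha, hb]
  | monomial s c =>
  rw [monomial_eq_pmon]
  simp only [map_smul]
  congr 1
  generalize Finsupp.toMultiset s = τ
  by_cases hτ : ∀ x ∈ τ, ∃ s, ¬ p ∣ orderOf s ∧ (x.1 = io Φ (ξ₀ * s) ∨ x.1 = io Φ (ξ₁ * s))
  · obtain ⟨τ₀, τ₁, h₀, h₁, rfl⟩ : ∃ (τ₀ : Multiset (I Φ × ℕ)) (τ₁ : Multiset (I (Φ.pow e) × ℕ)),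
        (∀ x ∈ τ₀, Reg p x.1) ∧ (∀ x ∈ τ₁, Reg p x.1) ∧
        τ = τ₀.map (Prod.map j₀ id) + τ₁.map (Prod.map j₁ id) := by
      induction τ using Multiset.induction_on with
      | empty => exact ⟨0, 0, by simp, by simp, by simp⟩
      | cons x τ ih =>
        obtain ⟨τ₀, τ₁, h₀, h₁, rfl⟩ := ih fun y hy => hτ y (Multiset.mem_cons_of_mem hy)
        obtain ⟨s, hs, h2 | h2⟩ := hτ x (Multiset.mem_cons_self _ _)
        · refine ⟨(io Φ s, x.2) ::ₘ τ₀, τ₁, by simpa [reg_io, hs] using h₀, h₁, ?_⟩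
          rw [Multiset.map_cons, Multiset.cons_add, Prod.map_apply, a₀, ← h2]; rfl
        · refine ⟨τ₀, (io _ s, x.2) ::ₘ τ₁, h₀, by simpa [reg_io, hs] using h₁, ?_⟩
          rw [Multiset.map_cons, Multiset.add_cons, Prod.map_apply, a₁ s hs, ← h2]; rfl
    have hR' : R (pmon xo (τ₀.map (Prod.map j₀ id) + τ₁.map (Prod.map j₁ id))) =
        pmon xo τ₀ ⊗ₜ pmon xo τ₁ := by
      rw [Gen.pmon_add, map_mul, ← one_mul (pmon xo τ₁), ← mul_one (pmon xo τ₀),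
        ← Algebra.TensorProduct.tmul_mul_tmul, ← Algebra.TensorProduct.includeLeft_apply (S := ℂ),
        ← Algebra.TensorProduct.includeRight_apply, Gen.map_pmon, Gen.map_pmon, Gen.map_pmon,
        Gen.map_pmon]
      simp only [pmon, Multiset.map_map]
      congr 2 <;> refine Multiset.map_congr rfl fun x hx => ?_
      · exact (hR.v₀ _ x.2 (h₀ x hx)).trans (by rw [io_rep]; rfl)
      · exact (hR.v₁ _ x.2 (h₁ x hx)).trans (by rw [io_rep]; rfl)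
    let T₀ := f₀.toFinset ∪ (τ₀.map Prod.fst).toFinset
    let T₁ := f₁.toFinset ∪ (τ₁.map Prod.fst).toFinset
    have t₀ : ∀ o ∈ T₀, Reg p o := fun o ho => (mem_union.1 ho).elim
      (fun h => r₀ o (f₀.mem_toFinset.1 h)) fun h => by
        obtain ⟨x, hx, rfl⟩ := Multiset.mem_map.1 (Multiset.mem_toFinset.1 h)
        exact h₀ x hx
    have t₁ : ∀ o ∈ T₁, Reg p o := fun o ho => (mem_union.1 ho).elim
      (fun h => r₁ o (f₁.mem_toFinset.1 h)) fun h => by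
        obtain ⟨x, hx, rfl⟩ := Multiset.mem_map.1 (Multiset.mem_toFinset.1 h)
        exact h₁ x hx
    have u₀ : ∀ o ∉ T₀, Λ₀ o = 0 := fun o ho => by_contra fun e =>
      ho (mem_union_left _ (f₀.mem_toFinset.2 e))
    have u₁ : ∀ o ∉ T₁, Λ₁ o = 0 := fun o ho => by_contra fun e =>
      ho (mem_union_left _ (f₁.mem_toFinset.2 e))
    have w₀ : ∀ x ∈ τ₀, x.1 ∈ T₀ := fun x hx =>
      mem_union_right _ (Multiset.mem_toFinset.2 (Multiset.mem_map_of_mem _ hx))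
    have w₁ : ∀ x ∈ τ₁, x.1 ∈ T₁ := fun x hx =>
      mem_union_right _ (Multiset.mem_toFinset.2 (Multiset.mem_map_of_mem _ hx))
    rw [hR', TensorProduct.map_tmul, LinearMap.mul'_apply, ev_pmon' h u₀ w₀, ev_pmon' h u₁ w₁,
      ev_pmon' h (T := T₀.image j₀ ∪ T₁.image j₁), prod_union, prod_image fun o _ o' _ => i₀ o o',
      prod_image fun o ho o' ho' => i₁ o o' (t₁ o ho) (t₁ o' ho')]
    · congr 1 <;> refine prod_congr rfl fun o ho => ?_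
      · rw [fb_add, fb_map_of j₀ fun x _ => i₀ _ _, fb_eq_zero (τ := τ₁.map _) fun x hx => ?_,
          add_zero, go, go,
          e₀ _ (t₀ o ho), H.per₀, io_rep]
        obtain ⟨y, hy, rfl⟩ := Multiset.mem_map.1 hx
        exact (H.ne₀₁ (t₀ o ho) (h₁ y hy)).symm
      · rw [fb_add, fb_map_of j₁ fun x hx => i₁ _ _ (h₁ x hx) (t₁ o ho),
          fb_eq_zero (τ := τ₀.map _) fun x hx => ?_, zero_add, go, go, e₁ _ (t₁ o ho), H.per₁ (t₁ o ho), io_rep, ← Int.cast_pow,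
          ← Int.cast_pow, Q_pow_pow H.pos]
        obtain ⟨y, hy, rfl⟩ := Multiset.mem_map.1 hx
        exact H.ne₀₁ (h₀ y hy) (t₁ o ho)
    · refine disjoint_left.2 fun o h1 h2 => ?_
      obtain ⟨o₀, h3, rfl⟩ := mem_image.1 h1
      obtain ⟨o₁, h4, h5⟩ := mem_image.1 h2
      exact H.ne₀₁ (t₀ _ h3) (t₁ _ h4) h5.symm
    · refine fun o ho => by_contra fun e => ho ?_
      obtain ⟨s, hs, rfl | rfl⟩ := e₂ o e
      · exact mem_union_left _ (mem_image.2 ⟨_, by_contra fun e' =>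
          e ((e₀ s hs).trans (u₀ _ e')), a₀ s⟩)
      · exact mem_union_right _ (mem_image.2 ⟨_, by_contra fun e' =>
          e ((e₁ s hs).trans (u₁ _ e')), a₁ s hs⟩)
    · intro x hx
      rcases Multiset.mem_add.1 hx with hx | hx <;> obtain ⟨y, hy, rfl⟩ := Multiset.mem_map.1 hx
      exacts [mem_union_left _ (mem_image_of_mem _ (w₀ y hy)),
        mem_union_right _ (mem_image_of_mem _ (w₁ y hy))]
  · push Not at hτ
    obtain ⟨x, hx, h1⟩ := hτ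
    rw [show R (pmon xo τ) = 0 from (Gen.map_pmon _ _ _).trans
      (Multiset.prod_eq_zero (Multiset.mem_map.2 ⟨x, hx, hR.v₂ _ _ h1⟩)), map_zero, map_zero, ev_pmon' h (T := f.toFinset ∪ (τ.map Prod.fst).toFinset)
        (fun o ho => by_contra fun e => ho (mem_union_left _ (f.mem_toFinset.2 e))) fun y hy =>
        mem_union_right _ (Multiset.mem_toFinset.2 (Multiset.mem_map_of_mem _ hy))]
    refine prod_eq_zero (mem_union_right _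
      (Multiset.mem_toFinset.2 (Multiset.mem_map_of_mem _ hx))) ?_
    have h2 : Λ x.1 = 0 := by_contra fun e => by
      obtain ⟨s, hs, h3⟩ := e₂ _ e
      exact h3.elim (h1 s hs).1 (h1 s hs).2
    rw [h2]
    exact go_zero_right h (Multiset.mem_map.2 ⟨x, Multiset.mem_filter.2 ⟨hx, rfl⟩, rfl⟩)

end Res

open Res

variable (k) in
theorem stRes : StRes k := by
  intro Φ ι _ _ p hp hc e n j D ξ₀ ξ₁ h₀ h₁ hm he hne
  have := Fact.mk hp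
  have H : Dat Φ p e ξ₀ ξ₁ := ⟨pElt_iff.2 h₀, pElt_iff.2 h₁, hm, he, hne⟩
  obtain ⟨R, hR⟩ := exists_R H
  refine ⟨R, fun M hM s hs h => R_P H hR hM hs h, fun a x₀ y₀ x₁ y₁ hx₀ hx₁ hy₀ hy₁ => ?_⟩
  rw [← Subgroup.orderOf_coe] at hy₀ hy₁
  have key : ∀ τ : kˣ, typ Φ (D.f2 (x₀ * y₀, x₁ * y₁)).1 (io Φ τ) =
      jt ((scal _ ξ₀ * y₀.1).val - (τ : k) • 1) +
        ∑ i ∈ range e, jt (((Φ.Fr _)^[i] (scal _ ξ₁ * y₁.1)).val - (τ : k) • 1) := fun τ => by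
    rw [typ_io (Subtype.prop _), jt_f2, ← hx₀, ← hx₁]; rfl
  refine ev_R H hR stHL (typ_finite _) (typ_finite _) (typ_finite _)
    (fun o ho => reg_of_eig hc hy₀ (not_not.1 (mt typ_eq_zero_iff.2 ho)))
    (fun o ho => reg_of_eig hc hy₁ (not_not.1 (mt typ_eq_zero_iff.2 ho)))
    (fun s hs => ?_) (fun s hs => ?_) (fun o ho => ?_) a
  · rw [key, jt_scal_mul, typ_io y₀.2, sum_eq_zero fun i _ => by_contra fun h => ?_, add_zero]
    obtain ⟨t, ht, h⟩ := eig_Fr_scal hc hy₁ _ _ _ h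
    exact H.ne₀₁ hs ht (by rw [← h, io_pow_q])
  · rw [key, sum_eq_single_of_mem 0 (mem_range.2 H.pos) fun i hi h0 => by_contra fun h => ?_,
      Function.iterate_zero_apply, jt_scal_mul, typ_io y₁.2, add_eq_right]
    · by_contra h
      obtain ⟨t, ht, h⟩ := eig_Fr_scal (Φ := Φ) hc hy₀ _ _ 0 h
      exact H.ne₀₁ ht hs (by rw [← h, io_pow_q])
    · obtain ⟨t, ht, h⟩ := eig_Fr_scal hc hy₁ _ _ _ h
      exact h0 (Nat.eq_zero_of_dvd_of_lt (H.pow_eq.1 (parts H.p₁ H.p₁ ht hs h).1) (mem_range.1 hi))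
  · rw [← io_rep o, key] at ho
    by_cases h : jt ((scal _ ξ₀ * y₀.1).val - (o.rep : k) • 1) = 0
    · rw [h, zero_add] at ho
      obtain ⟨i, -, hi⟩ := exists_ne_zero_of_sum_ne_zero ho
      obtain ⟨t, ht, h⟩ := eig_Fr_scal hc hy₁ _ _ _ hi
      exact ⟨t, ht, Or.inr (by rw [← io_rep o, ← h, io_pow_q])⟩
    · obtain ⟨t, ht, h⟩ := eig_Fr_scal (Φ := Φ) hc hy₀ _ _ 0 h
      exact ⟨t, ht, Or.inl (by rw [← io_rep o, ← h, io_pow_q])⟩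

end Cfsg.GUn
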