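import Cfsg.Agent.GUn.Defs
import Cfsg.Agent.Uni.Field

/-! Counting nilpotent matrices: rank lemmas and factorisations. -/

set_option autoImplicit false

namespace Cfsg.GUn.Un

open Matrix Finset Module Submodule

universe u

variable {K : Type u} [Field K] {ι κ : Type} [Fintype ι] [Fintype κ]

/-- the row space -/
abbrev rs (A : Matrix κ ι K) : Submodule K (ι → K) := span K (Set.range A.row)

omit [Fintype ι] in
theorem mem_rs {A : Matrix κ ι K} {v : ι → K} : v ∈ rs A ↔ ∃ x, x ᵥ* A = v := by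
  simp only [mem_span_range_iff_exists_fun, vecMul_eq_sum]; rfl

/-- adding a row -/
def ar (v : ι → K) (A : Matrix κ ι K) : Matrix (Option κ) ι K := of fun i => i.elim v A

open Classical in
theorem rank_ar (v : ι → K) (A : Matrix κ ι K) :
    (ar v A).rank = A.rank + if v ∈ rs A then 0 else 1 := by
  have : Set.range (ar v A).row = insert v (Set.range A.row) := Option.range_eq _
  rw [rank_eq_finrank_span_row, rank_eq_finrank_span_row, this, span_insert, sup_comm]
  split_ifs with h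
  · rw [sup_eq_left.2 ((span_singleton_le_iff_mem _ _).2 h), add_zero]
  · exact finrank_sup_span_singleton h

/-- bordering -/
def bord (Y : Matrix κ κ K) (w v : κ → K) (z : K) : Matrix (Option κ) (Option κ) K :=
  ar (fun j => j.elim z v) (ar w Yᵀ)ᵀ

omit [Field K] [Fintype κ] in
theorem bord_transpose (Y : Matrix κ κ K) (w v : κ → K) (z : K) :
    (bord Y w v z)ᵀ = bord Yᵀ v w z := by
  ext (_ | i) (_ | j) <;> rfl

omit [Field K] [Fintype κ] in
theorem bord_inj {Y Y' : Matrix κ κ K} {w v w' v' : κ → K} {z z' : K} :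
    bord Y w v z = bord Y' w' v' z' ↔ Y = Y' ∧ w = w' ∧ v = v' ∧ z = z' := by
  refine ⟨fun h => ⟨?_, ?_, ?_, congrFun (congrFun h none) none⟩, by rintro ⟨rfl, rfl, rfl, rfl⟩; rfl⟩
  · ext i j; exact congrFun (congrFun h (some i)) (some j)
  · ext i; exact congrFun (congrFun h (some i)) none
  · ext j; exact congrFun (congrFun h none) (some j)

omit [Fintype κ] in
theorem ar_mul (p ρ : ι → K) (A B : Matrix κ ι K) :
    ar ρ B * (ar p A)ᵀ = bord (B * Aᵀ) (B *ᵥ p) (A *ᵥ ρ) (ρ ⬝ᵥ p) := by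
  ext (_ | i) (_ | j)
  exacts [rfl, dotProduct_comm _ _, rfl, rfl]

theorem mem_rs_bord {Y : Matrix κ κ K} {w v : κ → K} {z : K} :
    (fun j : Option κ => j.elim z v) ∈ rs (ar w Yᵀ)ᵀ ↔ ∃ x, x ᵥ* Y = v ∧ x ⬝ᵥ w = z := by
  rw [mem_rs]
  refine exists_congr fun x => ⟨fun h => ⟨funext fun j => congrFun h (some j), congrFun h none⟩, ?_⟩
  rintro ⟨rfl, rfl⟩
  ext (_ | j) <;> rfl

open Classical in
theorem rank_bord_out {Y : Matrix κ κ K} (w : κ → K) {v : κ → K} (z : K) (h : v ∉ rs Y) :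
    (bord Y w v z).rank = Y.rank + (if w ∈ rs Yᵀ then 0 else 1) + 1 := by
  rw [bord, rank_ar, rank_transpose, rank_ar, rank_transpose,
    if_neg fun e => h (mem_rs.2 ((mem_rs_bord.1 e).imp fun _ => And.left))]

open Classical in
theorem rank_bord_in {Y : Matrix κ κ K} (x y : κ → K) (z : K) :
    (bord Y (Y *ᵥ y) (x ᵥ* Y) z).rank = Y.rank + if z = x ⬝ᵥ Y *ᵥ y then 0 else 1 := by
  rw [bord, rank_ar, rank_transpose, rank_ar, rank_transpose,
    if_pos (mem_rs.2 ⟨y, vecMul_transpose _ _⟩), add_zero, mem_rs_bord]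
  congr 2
  refine propext ⟨?_, fun h => ⟨x, rfl, h.symm⟩⟩
  rintro ⟨x', h, rfl⟩
  rw [dotProduct_mulVec, dotProduct_mulVec, h]

theorem exists_rinv [DecidableEq κ] {A : Matrix κ ι K} (h : A.rank = Fintype.card κ) :
    ∃ S : Matrix ι κ K, A * S = 1 :=
  mulVec_surjective_iff_exists_right_inverse.1 ((LinearMap.range_eq_top (f := A.mulVecLin)).1
    (eq_top_of_finrank_eq (h.trans (finrank_fintype_fun_eq_card K).symm)))

theorem rank_mul_mul {A B : Matrix κ ι K} (hA : A.rank = Fintype.card κ)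
    (hB : B.rank = Fintype.card κ) (M : Matrix κ κ K) : (Aᵀ * M * B).rank = M.rank := by
  classical
  obtain ⟨S, hS⟩ := exists_rinv hA
  obtain ⟨T, hT⟩ := exists_rinv hB
  refine ((rank_mul_le_left _ _).trans (rank_mul_le_right _ _)).antisymm ?_
  have : M = Sᵀ * (Aᵀ * M * B) * T := by
    rw [Matrix.mul_assoc Sᵀ, Matrix.mul_assoc _ B, hT, Matrix.mul_one, ← Matrix.mul_assoc,
      ← transpose_mul, hS, transpose_one, Matrix.one_mul]
  conv_lhs => rw [this]
  exact (rank_mul_le_left _ _).trans (rank_mul_le_right _ _)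

theorem rank_of_mul {A B : Matrix κ ι K} (h : (Aᵀ * B).rank = Fintype.card κ) :
    A.rank = Fintype.card κ ∧ B.rank = Fintype.card κ :=
  ⟨(rank_le_card_height A).antisymm (h ▸ (rank_mul_le_left _ _).trans (rank_transpose A).le),
    (rank_le_card_height B).antisymm (h ▸ rank_mul_le_right _ _)⟩

theorem pow_succ_mul [DecidableEq ι] [DecidableEq κ] (A B : Matrix κ ι K) (j : ℕ) :
    (Aᵀ * B) ^ (j + 1) = Aᵀ * (B * Aᵀ) ^ j * B := by
  induction j with
  | zero => simp
  | succ j ih => rw [pow_succ, ih, pow_succ]; simp only [Matrix.mul_assoc]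

theorem rank_sub_lt {M : Matrix ι ι K} {x y : ι → K} (h : y ⬝ᵥ M *ᵥ x = 1) :
    (M - vecMulVec (M *ᵥ x) (y ᵥ* M)).rank < M.rank := by
  have h1 : ∀ v, (M - vecMulVec (M *ᵥ x) (y ᵥ* M)) *ᵥ v = M *ᵥ v - (y ⬝ᵥ M *ᵥ v) • M *ᵥ x :=
    fun v => by rw [sub_mulVec, vecMulVec_mulVec, dotProduct_mulVec]; simp
  have h2 : LinearMap.ker M.mulVecLin <
      LinearMap.ker (M - vecMulVec (M *ᵥ x) (y ᵥ* M)).mulVecLin := by
    refine SetLike.lt_iff_le_and_exists.2 ⟨fun v (hv : M *ᵥ v = 0) => ?_, x, ?_,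
      fun hx : M *ᵥ x = 0 => by simp [hx] at h⟩
    · exact (h1 v).trans (by simp [hv])
    · exact (h1 x).trans (by simp [h])
  have h3 := finrank_lt_finrank_of_lt h2
  have h4 := M.mulVecLin.finrank_range_add_finrank_ker
  have h5 := (M - vecMulVec (M *ᵥ x) (y ᵥ* M)).mulVecLin.finrank_range_add_finrank_ker
  simp only [Matrix.rank]
  omega

variable [StarRing K] [Fintype K] {b : Bool} {q : ℕ}

variable (K b q) in
/-- the finite field -/
def HK : Prop := if b then Uni.UF K q else Fintype.card K = q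

omit [Fintype K] in
theorem star_form {M : Matrix ι ι K} (h : M = Mᵀ.map star) (x : ι → K) :
    star x ᵥ* M = star (M *ᵥ x) := by
  ext j
  conv_lhs => rw [h]
  simp [vecMul, mulVec, dotProduct, mul_comm]

theorem exists_vec (hK : HK K b q) {M : Matrix ι ι K} (h : b → M = Mᵀ.map star) (h0 : M ≠ 0) :
    ∃ x y : ι → K, (b → y = star x) ∧ y ⬝ᵥ M *ᵥ x = 1 := by
  classical
  obtain ⟨i, j, hij⟩ : ∃ i j, M i j ≠ 0 := by
    by_contra! e
    exact h0 (Matrix.ext e)
  cases b
  · exact ⟨Pi.single j (M i j)⁻¹, Pi.single i 1, by simp, by simp [hij]⟩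
  haveI : Uni.UF K q := hK
  obtain ⟨x, hx⟩ : ∃ x : ι → K, star x ⬝ᵥ M *ᵥ x ≠ 0 := by
    by_contra! e
    obtain ⟨c, hc⟩ := Uni.exists_star_ne K q
    have h1 := e (Pi.single i 1)
    have h2 := e (Pi.single j 1)
    have h3 := e (Pi.single i 1 + Pi.single j 1)
    have h4 := e (Pi.single i c + Pi.single j 1)
    simp [mulVec_add, Pi.star_single] at h1 h2 h3 h4
    exact mul_ne_zero (sub_ne_zero.2 hc) hij
      (by linear_combination h4 - c * h3 - (star c * c - c) * h1 - (1 - c) * h2)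
  obtain ⟨d, hd⟩ := Uni.exists_norm q (s := (star x ⬝ᵥ M *ᵥ x)⁻¹) (by
    rw [star_inv₀, ← star_dotProduct_star, star_star, ← star_form (h rfl), ← dotProduct_mulVec])
  refine ⟨d • x, _, fun _ => rfl, ?_⟩
  rw [star_smul, mulVec_smul, smul_dotProduct, dotProduct_smul, smul_smul, mul_comm, hd]
  exact inv_mul_cancel₀ hx

theorem exists_fac_fin (hK : HK K b q) (r : ℕ) (M : Matrix ι ι K) (h : b → M = Mᵀ.map star)
    (hr : M.rank ≤ r) : ∃ A B : Matrix (Fin r) ι K, (b → B = A.map star) ∧ Aᵀ * B = M := by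
  induction r generalizing M with
  | zero =>
    refine ⟨0, 0, by simp, by_contra fun e => ?_⟩
    obtain ⟨x, y, -, h1⟩ := exists_vec hK h fun h0 => e (by simp [h0])
    have := rank_sub_lt h1
    omega
  | succ r ih =>
    by_cases h0 : M = 0
    · exact ⟨0, 0, by simp, by simp [h0]⟩
    obtain ⟨x, y, h1, h2⟩ := exists_vec hK h h0
    have h3 : b → y ᵥ* M = star (M *ᵥ x) := fun e => by rw [h1 e, star_form (h e)]
    obtain ⟨A, B, h4, h5⟩ := ih _ (fun e => by
      rw [h3 e]; ext i j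
      simp [vecMulVec_apply, mul_comm, congrFun (congrFun (h e) i) j]) (Nat.le_of_lt_succ ((rank_sub_lt h2).trans_le hr))
    refine ⟨of (vecCons (M *ᵥ x) A), of (vecCons (y ᵥ* M) B), fun e => ?_, ?_⟩
    · rw [h3 e, h4 e]
      ext i j
      exact Fin.cases rfl (fun _ => rfl) i
    · refine Eq.trans ?_ (eq_sub_iff_add_eq'.1 h5)
      ext i j
      exact Fin.sum_univ_succ _

theorem exists_fac (hK : HK K b q) {M : Matrix ι ι K} (h : b → M = Mᵀ.map star)
    (hr : M.rank = Fintype.card κ) : ∃ A B : Matrix κ ι K, (b → B = A.map star) ∧ Aᵀ * B = M := by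
  obtain ⟨A, B, h1, h2⟩ := exists_fac_fin hK _ M h hr.le
  exact ⟨A.submatrix (Fintype.equivFin κ) id, B.submatrix (Fintype.equivFin κ) id,
    fun e => by rw [h1 e]; rfl, by rw [transpose_submatrix, submatrix_mul_equiv, h2]; rfl⟩

end Cfsg.GUn.Un
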