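import Cfsg.Agent.GUn.UniA

/-! Counting nilpotent matrices: the recursion. -/

set_option autoImplicit false

namespace Cfsg.GUn.Un

open Matrix Finset Module Submodule Classical

universe u

variable {K : Type u} [Field K] [Fintype K] {ι κ : Type} [Fintype ι] [Fintype κ]
  [DecidableEq ι] [DecidableEq κ]

theorem sum_mem (U : Submodule K (ι → K)) (x y : ℚ) : ∑ w, (if w ∈ U then x else y) =
    (Fintype.card K : ℚ) ^ finrank K U * x +
      ((Fintype.card K : ℚ) ^ Fintype.card ι - (Fintype.card K : ℚ) ^ finrank K U) * y := by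
  have h1 : (#{w | w ∈ U} : ℚ) = (Fintype.card K : ℚ) ^ finrank K U := by
    rw [← Fintype.card_subtype, Module.card_eq_pow_finrank (K := K), Nat.cast_pow]
  have h2 := congrArg (Nat.cast : ℕ → ℚ) (card_filter_add_card_filter_not (s := univ) (· ∈ U))
  rw [card_univ, Fintype.card_fun, Nat.cast_add, h1, Nat.cast_pow] at h2
  rw [sum_ite, sum_const, sum_const, nsmul_eq_mul, nsmul_eq_mul, h1, ← h2, add_sub_cancel_left]

/-- the number of admissible pairs of vectors outside two subspaces -/
def ex (b : Bool) (q n s : ℕ) : ℚ := if b then q ^ (2 * n) - q ^ (2 * s) else (q ^ n - q ^ s) ^ 2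

/-- the number of mixed pairs -/
def mx (b : Bool) (q n s : ℕ) : ℚ := if b then 0 else 2 * q ^ s * (q ^ n - q ^ s)

variable [StarRing K] {b : Bool} {q : ℕ}

theorem sum_adm (hK : HK K b q) {U U' : Submodule K (ι → K)} {s : ℕ} (hU : finrank K U = s)
    (hU' : finrank K U' = s) (h : b → ∀ w, star w ∈ U' ↔ w ∈ U) (x y z : ℚ) :
    ∑ w, ∑ v, (if (b → v = star w) then if w ∈ U then if v ∈ U' then x else y
      else if v ∈ U' then y else z else 0) =
    q ^ (2 * s) * x + mx b q (Fintype.card ι) s * y + ex b q (Fintype.card ι) s * z := by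
  cases b
  · have : Fintype.card K = q := hK
    simp only [Bool.false_eq_true, false_imp_iff, if_true, sum_ite_irrel, sum_mem, hU, hU', this,
      mx, ex, if_false]
    ring
  · have : Uni.UF K q := hK
    simp only [forall_const, sum_ite_eq', mem_univ, if_true, h rfl, mx, ex]
    rw [sum_congr rfl (g := fun w => if w ∈ U then x else z) fun w _ => by split_ifs <;> rfl,
      sum_mem, hU, this.card]
    push_cast; ring

theorem sum_fix (hK : HK K b q) (y : ℚ) :
    ∑ z : K, (if (b → z = star z) then y else 0) = q * y := by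
  rw [← sum_filter, sum_const, nsmul_eq_mul]
  congr 2
  cases b
  · simpa [HK] using hK
  · have : Uni.UF K q := hK
    rw [← Uni.card_fixed K q, Nat.card_eq_fintype_card, Fintype.card_subtype]
    simp [eq_comm]

theorem sum_fix' (hK : HK K b q) {z₀ : K} (h : b → z₀ = star z₀) (x y : ℚ) :
    ∑ z : K, (if (b → z = star z) then if z = z₀ then x else y else 0) = x + (q - 1) * y := by
  rw [sub_mul, ← sum_fix hK y, ← add_sub_assoc, add_comm x, add_sub_assoc, one_mul,
    ← (sum_ite_eq' univ z₀ fun _ => x - y).trans (if_pos (mem_univ _)), ← sum_add_distrib]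
  refine sum_congr rfl fun z _ => ?_
  by_cases e : z = z₀
  · simp [e, if_pos h]
  · simp [e]

variable (b ι) in
/-- pairs of frames with given Gram matrix -/
noncomputable def cc (Y : Matrix κ κ K) : ℚ := ∑ x : Matrix κ ι K × Matrix κ ι K,
  if (b → x.2 = x.1.map star) ∧ x.1.rank = Fintype.card κ ∧ x.2.rank = Fintype.card κ ∧
    x.2 * x.1ᵀ = Y then 1 else 0

omit [Field K] [StarRing K] in
theorem sum_ar (f : Matrix (Option κ) ι K × Matrix (Option κ) ι K → ℚ) : ∑ x, f x =
    ∑ x : Matrix κ ι K × Matrix κ ι K, ∑ p : ι → K, ∑ ρ : ι → K, f (ar p x.1, ar ρ x.2) := by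
  simp_rw [← Fintype.sum_prod_type']
  exact Fintype.sum_equiv (((Equiv.piOptionEquivProd (β := fun _ => ι → K)).prodCongr
    (Equiv.piOptionEquivProd (β := fun _ => ι → K))).trans ((Equiv.prodProdProdComm ..).trans
    (Equiv.prodComm _ _))) _ _ fun A => congrArg f (by ext (_ | i) j <;> rfl)

omit [Fintype K] [Fintype ι] [Fintype κ] [DecidableEq ι] [DecidableEq κ] in
theorem ar_adm {p ρ : ι → K} {A B : Matrix κ ι K} :
    ar ρ B = (ar p A).map star ↔ ρ = star p ∧ B = A.map star := by
  refine ⟨fun h => ⟨congrFun h none, funext fun i => congrFun h (some i)⟩, ?_⟩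
  rintro ⟨rfl, rfl⟩
  ext (_ | i) j <;> rfl

omit [Fintype K] [StarRing K] [DecidableEq ι] [DecidableEq κ] in
theorem rank_ar_iff {p : ι → K} {A : Matrix κ ι K} : (ar p A).rank = Fintype.card (Option κ) ↔
    A.rank = Fintype.card κ ∧ p ∉ rs A := by
  have := rank_le_card_height A
  rw [rank_ar, Fintype.card_option]
  split_ifs with h <;> simp [h]
  omega

omit [Fintype K] [Fintype ι] [DecidableEq ι] [DecidableEq κ] in
theorem star_mem_rs {A : Matrix κ ι K} {w : ι → K} : star w ∈ rs (A.map star) ↔ w ∈ rs A := by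
  have : ∀ x : κ → K, star x ᵥ* A.map star = star (x ᵥ* A) := fun x => by
    ext j; simp [vecMul, dotProduct]
  rw [mem_rs, mem_rs]
  exact ⟨fun ⟨x, h⟩ => ⟨star x, star_injective (by rw [← this, star_star, h])⟩,
    fun ⟨x, h⟩ => ⟨star x, by rw [this, h]⟩⟩

omit [Fintype K] [Fintype κ] [DecidableEq ι] [DecidableEq κ] in
theorem adm_mul {A B : Matrix κ ι K} (h : B = A.map star) : B * Aᵀ = (B * Aᵀ)ᵀ.map star := by
  ext i j; simp [h, mul_apply, mul_comm]

theorem cc_eq_zero {Y : Matrix κ κ K} (h : ¬ (b → Y = Yᵀ.map star)) : cc ι b Y = 0 :=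
  sum_eq_zero fun _ _ => if_neg fun ⟨h1, _, _, h2⟩ => h fun e => h2 ▸ adm_mul (h1 e)

theorem cc_step (hK : HK K b q) (Y : Matrix κ κ K) :
    ∑ w, ∑ v, (if (b → v = star w) then ∑ z, if (b → z = star z) then cc ι b (bord Y w v z)
      else 0 else 0) = ex b q (Fintype.card ι) (Fintype.card κ) * cc ι b Y := by
  have h1 : ∀ w v, (if (b → v = star w) then ∑ z, if (b → z = star z) then cc ι b (bord Y w v z)
      else 0 else 0) = ∑ z, cc ι b (bord Y w v z) := fun w v => by
    split_ifs with h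
    · refine sum_congr rfl fun z _ => ite_eq_left_iff.2 fun h => (cc_eq_zero fun e => h fun hb =>
        congrFun (congrFun (e hb) none) none).symm
    · exact (sum_eq_zero fun z _ => cc_eq_zero fun e => h fun hb => funext fun j =>
        congrFun (congrFun (e hb) none) (some j)).symm
  simp only [h1]
  simp only [cc]
  refine ((sum_congr rfl fun a _ => (sum_congr rfl fun b _ => sum_comm).trans sum_comm).trans
    sum_comm).trans ?_
  rw [sum_ar, mul_sum]
  refine sum_congr rfl fun ⟨A, B⟩ _ => ?_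
  simp only [ar_mul, bord_inj, ar_adm, rank_ar_iff, imp_and, ← and_assoc, ite_and _ (_ = _),
    sum_ite_irrel, sum_ite_eq, mem_univ, if_true, sum_const_zero]
  simp only [← ite_and]
  split_ifs with h
  · have := sum_adm hK ((rank_eq_finrank_span_row A).symm.trans h.2.1)
      ((rank_eq_finrank_span_row B).symm.trans h.2.2.1) (fun e w => by rw [h.1 e, star_mem_rs])
      0 0 1
    simp only [mul_zero, zero_add] at this
    rw [← this]
    refine sum_congr rfl fun p _ => sum_congr rfl fun ρ _ => ?_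
    simp only [h.2.1, h.2.2.1, h.2.2.2, and_true, iff_true_intro h.1, ite_and, ite_not, ite_self]
  · rw [mul_zero]
    exact sum_eq_zero fun p _ => sum_eq_zero fun ρ _ => if_neg (by tauto)

variable (b κ) in
/-- factorisations -/
noncomputable def fc (X : Matrix ι ι K) : ℚ := ∑ x : Matrix κ ι K × Matrix κ ι K,
  if (b → x.2 = x.1.map star) ∧ x.1ᵀ * x.2 = X then 1 else 0

variable (K b κ) in
/-- the group order -/
noncomputable def gg : ℚ := fc κ b (1 : Matrix κ κ K)

theorem gg_pos : 0 < gg K κ b :=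
  sum_pos' (fun _ _ => by positivity) ⟨(1, 1), mem_univ _, by simp⟩

omit [Fintype K] [Fintype ι] [DecidableEq ι] [DecidableEq κ] in
theorem map_star_mul {μ : Type} (A : Matrix μ κ K) (B : Matrix κ ι K) :
    (A * B).map star = A.map star * B.map star := by
  ext i j; simp [mul_apply]

theorem fc_eq (hK : HK K b q) {X : Matrix ι ι K} (h : b → X = Xᵀ.map star)
    (hr : X.rank = Fintype.card κ) : fc κ b X = gg K κ b := by
  obtain ⟨A, B, h1, rfl⟩ := exists_fac hK h hr
  obtain ⟨S, hS⟩ := exists_rinv (rank_of_mul hr).1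
  obtain ⟨T, hT⟩ := exists_rinv (rank_of_mul hr).2
  have iA : ∀ {C D : Matrix κ κ K}, C * A = D * A → C = D := fun {C D} e => by
    simpa [Matrix.mul_assoc, hS] using congrArg (· * S) e
  have iB : ∀ {C D : Matrix κ κ K}, C * B = D * B → C = D := fun {C D} e => by
    simpa [Matrix.mul_assoc, hT] using congrArg (· * T) e
  simp only [gg, fc, sum_boole]
  congr 1
  refine (card_bij (fun x _ => (x.1 * A, x.2 * B)) (fun x hx => ?_) (fun x _ y _ e =>
    Prod.ext (iA (congrArg Prod.fst e)) (iB (congrArg Prod.snd e))) fun ⟨A', B'⟩ hx => ?_).symm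
  · simp only [mem_filter, mem_univ, true_and] at hx ⊢
    exact ⟨fun e => by rw [map_star_mul, hx.1 e, h1 e], by
      rw [transpose_mul, Matrix.mul_assoc, ← Matrix.mul_assoc x.1ᵀ, hx.2, Matrix.one_mul]⟩
  simp only [mem_filter, mem_univ, true_and] at hx ⊢
  obtain ⟨S', hS'⟩ := exists_rinv (rank_of_mul (hx.2 ▸ hr)).1
  obtain ⟨T', hT'⟩ := exists_rinv (rank_of_mul (hx.2 ▸ hr)).2
  have h2 : (B * T')ᵀ * A = A' := transpose_injective (by
    rw [transpose_mul, transpose_transpose, ← Matrix.mul_assoc, ← hx.2, Matrix.mul_assoc, hT',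
      Matrix.mul_one])
  have h3 : (A * S')ᵀ * B = B' := by
    rw [transpose_mul, Matrix.mul_assoc, ← hx.2, ← Matrix.mul_assoc, ← transpose_mul, hS',
      transpose_one, Matrix.one_mul]
  refine ⟨((B * T')ᵀ, (A * S')ᵀ), ⟨fun e => iB ?_, mul_eq_one_comm.1 (by
    rw [transpose_transpose, ← Matrix.mul_assoc, h3, hT'])⟩,
    Prod.ext h2 h3⟩
  rw [h3, hx.1 e, ← h2, map_star_mul, ← h1 e]

theorem cc_base (hK : HK K b q) {Y : Matrix κ κ K} (h : b → Y = Yᵀ.map star)
    (hc : Fintype.card κ = Fintype.card ι) :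
    cc ι b Y = if Y.rank = Fintype.card κ then gg K ι b else 0 := by
  split_ifs with hr
  · rw [← fc_eq hK h (hr.trans hc)]
    refine Fintype.sum_equiv ((Equiv.prodComm _ _).trans ((transposeAddEquiv κ ι K).toEquiv.prodCongr
      (transposeAddEquiv κ ι K).toEquiv)) _ _ fun ⟨A, B⟩ => if_congr ?_ rfl rfl
    have h1 : B = A.map star ↔ Aᵀ = Bᵀ.map star :=
      ⟨by rintro rfl; ext; simp, fun e => by ext i j; simp [show A i j = _ from congrFun (congrFun e j) i]⟩
    refine ⟨fun e => ⟨fun hb => h1.1 (e.1 hb), e.2.2.2⟩, fun e => ?_⟩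
    have h2 := rank_of_mul (A := Bᵀ) (B := Aᵀ) (e.2 ▸ hr.trans hc)
    rw [rank_transpose, rank_transpose, ← hc] at h2
    exact ⟨fun hb => h1.2 (e.1 hb), h2.2, h2.1, e.2⟩
  · refine sum_eq_zero fun ⟨A, B⟩ _ => if_neg fun ⟨_, h1, h2, h3⟩ => hr ?_
    have := rank_mul_mul (A := Bᵀ) (B := Aᵀ) ((rank_transpose B).trans (h2.trans hc))
      ((rank_transpose A).trans (h1.trans hc)) 1
    rwa [Matrix.mul_one, transpose_transpose, rank_one, h3, ← hc] at this

/-- the factors of the centraliser orders -/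
def ph (Q : ℚ) (m : ℕ) : ℚ := ∏ j ∈ Icc 1 m, (1 - Q⁻¹ ^ j)

/-- the inverse of `ph` -/
def ps (Q : ℚ) (m : ℤ) : ℚ := if 0 ≤ m then (ph Q m.toNat)⁻¹ else 0

theorem fac_pos {Q : ℚ} (h : 1 < |Q|) {j : ℕ} (hj : j ≠ 0) : 0 < 1 - Q⁻¹ ^ j :=
  sub_pos.2 ((le_abs_self _).trans_lt (by
    rw [abs_pow, abs_inv]; exact pow_lt_one₀ (by positivity) (inv_lt_one_of_one_lt₀ h) hj))

theorem ph_pos {Q : ℚ} (h : 1 < |Q|) (m : ℕ) : 0 < ph Q m :=
  prod_pos fun j hj => fac_pos h (by have := mem_Icc.1 hj; omega)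

theorem ps_pred {Q : ℚ} (h : 1 < |Q|) (m : ℤ) : ps Q (m - 1) = ps Q m * (1 - Q ^ (-m)) := by
  rcases lt_trichotomy m 0 with e | rfl | e
  · rw [ps, ps, if_neg (by omega), if_neg (by omega), zero_mul]
  · simp [ps]
  · obtain ⟨k, rfl⟩ : ∃ k : ℕ, m = (k + 1 : ℕ) := ⟨(m - 1).toNat, by omega⟩
    rw [ps, ps, if_pos (by omega), if_pos (by omega), show (((k + 1 : ℕ) : ℤ) - 1).toNat = k by omega,
      Int.toNat_natCast, ph, ph, prod_Icc_succ_top (by omega), _root_.zpow_neg, zpow_natCast,
      ← inv_pow, mul_inv, inv_mul_cancel_right₀ (fac_pos h k.succ_ne_zero).ne']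

/-- the signed parameter -/
def sq (b : Bool) (q : ℕ) : ℚ := if b then -q else q

theorem abs_sq (b : Bool) (q : ℕ) : |sq b q| = q := by
  cases b <;> simp [sq]

theorem HK.one_lt (hK : HK K b q) : 1 < q := by
  cases b
  · exact (show Fintype.card K = q from hK) ▸ Fintype.one_lt_card
  · exact @Uni.two_le_q K _ _ _ q hK

theorem ex_ne_zero (hq : 1 < q) {n r : ℕ} (h : r < n) : ex b q n r ≠ 0 := by
  have h1 : (1 : ℚ) < q := by exact_mod_cast hq
  cases b
  · exact pow_ne_zero _ (sub_pos.2 (pow_lt_pow_right₀ h1 h)).ne'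
  · exact (sub_pos.2 (pow_lt_pow_right₀ h1 (by omega))).ne'

theorem key (hq : 1 < q) {r a s : ℕ} {x : ℚ} (hx : x * sq b q ^ (r + a + 1) * sq b q ^ s =
    sq b q ^ (2 * r)) : q ^ (2 * a + 1) * (q ^ (2 * s) * ((1 - x) * (1 - sq b q * x) +
      (q - 1) * (1 - x)) + mx b q r s * (q * (1 - x)) + ex b q r s * q) = ex b q (r + a + 1) r := by
  have h0 : (q : ℚ) ≠ 0 := by positivity
  cases b
  · simp only [sq, mx, ex, Bool.false_eq_true, if_false] at hx ⊢
    obtain rfl := (eq_div_iff (by positivity)).2 ((mul_assoc _ _ _).symm.trans hx)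
    field_simp
    ring
  · simp only [sq, mx, ex, if_true] at hx ⊢
    have := congrArg (· ^ 2) hx
    simp only [mul_pow, pow_right_comm _ _ 2, neg_sq] at this
    refine mul_left_cancel₀ (pow_ne_zero (2 * r) h0) ?_
    linear_combination -this

theorem cc_eq (hK : HK K b q) (a : ℕ) : ∀ (κ : Type) [Fintype κ] [DecidableEq κ]
    (Y : Matrix κ κ K), (b → Y = Yᵀ.map star) → Fintype.card κ + a = Fintype.card ι →
    cc ι b Y * q ^ a ^ 2 =
      gg K ι b * ps (sq b q) (Fintype.card ι + Y.rank - 2 * Fintype.card κ) := by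
  have hq := hK.one_lt
  have hQ : 1 < |sq b q| := by rw [abs_sq]; exact_mod_cast hq
  induction a with
  | zero =>
    intro κ _ _ Y h hc
    have := rank_le_card_width Y
    rw [cc_base hK h hc, ← hc, ps]
    split_ifs with h1 h2 h2 <;> first | omega | simp [h1, two_mul, ph]
  | succ a ih =>
    intro κ _ _ Y h hc
    have h0 : (q : ℚ) ^ a ^ 2 ≠ 0 := by positivity
    obtain ⟨m, hm⟩ : ∃ m : ℤ, m = Fintype.card ι + Y.rank - 2 * Fintype.card κ := ⟨_, rfl⟩
    let c : ℤ → ℚ := fun i => gg K ι b * ps (sq b q) i / q ^ a ^ 2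
    have h1 : ∀ w v z, (b → v = star w) → (b → z = star z) → ∀ (i : ℕ) (j : ℤ),
        (bord Y w v z).rank = Y.rank + i → m + i = j + 2 → cc ι b (bord Y w v z) = c j :=
      fun w v z hv hz i j hi hj => by
        rw [eq_div_iff h0, ih _ _ (fun e => by
          ext (_ | i) (_ | j)
          exacts [hz e, congrFun (hv e) j, (star_star _).symm.trans (congrArg star (congrFun (hv e) i).symm),
            congrFun (congrFun (h e) i) j])
          (by rw [Fintype.card_option]; omega), hi, Fintype.card_option]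
        congr 2; push_cast; omega
    have h2 := cc_step (ι := ι) hK Y
    rw [sum_congr rfl fun w _ => sum_congr rfl fun v _ => if_ctx_congr Iff.rfl (fun hv => (?_ :
      _ = if w ∈ rs Yᵀ then if v ∈ rs Y then c (m - 1 - 1) + (q - 1) * c (m - 1)
        else q * c (m - 1) else if v ∈ rs Y then q * c (m - 1) else q * c m)) fun _ => rfl,
      sum_adm hK ((rank_eq_finrank_span_row _).symm.trans (rank_transpose Y))
        (rank_eq_finrank_span_row _).symm fun e w => by rw [← star_mem_rs (A := Yᵀ), ← h e]] at h2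
    · have hx : sq b q ^ (-m) * sq b q ^ (Fintype.card κ + a + 1) * sq b q ^ Y.rank =
          sq b q ^ (2 * Fintype.card κ) := by
        have : sq b q ≠ 0 := abs_pos.1 (by positivity)
        rw [← zpow_natCast, ← zpow_natCast, ← zpow_natCast, ← zpow_add₀ this, ← zpow_add₀ this]
        congr 1; push_cast; omega
      have h3 := key hq hx
      refine mul_left_cancel₀ (ex_ne_zero (b := b) hq (show Fintype.card κ < Fintype.card ι by omega)) ?_
      rw [← mul_assoc, ← h2, ← hm, ← hc, ← add_assoc, ← h3]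
      simp only [c, ps_pred hQ, neg_sub, sub_eq_add_neg 1 m, zpow_add₀ (abs_pos.1 (by positivity) :
        sq b q ≠ 0), zpow_one]
      field_simp
      ring
    by_cases hv' : v ∈ rs Y
    · by_cases hw' : w ∈ rs Yᵀ
      · obtain ⟨x, rfl⟩ := mem_rs.1 hv'
        obtain ⟨y, rfl⟩ := mem_rs.1 hw'
        rw [vecMul_transpose] at hv hw' ⊢
        rw [if_pos hw', if_pos hv', ← sum_fix' hK (z₀ := x ⬝ᵥ Y *ᵥ y) fun e => by
          rw [dotProduct_mulVec, hv e, ← star_form (h e), ← dotProduct_mulVec,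
            ← star_dotProduct_star, star_star, ← star_form (h e), ← dotProduct_mulVec]]
        refine sum_congr rfl fun z _ => if_ctx_congr Iff.rfl (fun hz => ?_) fun _ => rfl
        split_ifs with e
        · exact h1 _ _ _ hv hz 0 _ (by rw [rank_bord_in, if_pos e]) (by omega)
        · exact h1 _ _ _ hv hz 1 _ (by rw [rank_bord_in, if_neg e]) (by omega)
      · rw [if_neg hw', if_pos hv', ← sum_fix hK]
        exact sum_congr rfl fun z _ => if_ctx_congr Iff.rfl (fun hz => h1 _ _ _ hv hz 1 _ (by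
          rw [← rank_transpose, bord_transpose, rank_bord_out _ _ hw', rank_transpose,
            transpose_transpose, if_pos hv']) (by omega)) fun _ => rfl
    · rw [if_neg hv', if_neg hv']
      split_ifs with hw' <;> rw [← sum_fix hK]
      · exact sum_congr rfl fun z _ => if_ctx_congr Iff.rfl (fun hz => h1 _ _ _ hv hz 1 _ (by
          rw [rank_bord_out _ _ hv', if_pos hw']) (by omega)) fun _ => rfl
      · exact sum_congr rfl fun z _ => if_ctx_congr Iff.rfl (fun hz => h1 _ _ _ hv hz 2 _ (by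
          rw [rank_bord_out _ _ hv', if_neg hw']) (by omega)) fun _ => rfl

/-- the ranks of the powers -/
def HasT (X : Matrix ι ι K) (l : Multiset ℕ) : Prop := ∀ j, (X ^ j).rank = (l.map (· - j)).sum

variable (K ι b) in
/-- the number of admissible matrices of type `l` -/
noncomputable def nu (l : Multiset ℕ) : ℚ :=
  ∑ X : Matrix ι ι K, if (b → X = Xᵀ.map star) ∧ HasT X l then 1 else 0

theorem map_pred_sub (l : Multiset ℕ) (j : ℕ) : (l.map (· - 1)).map (· - j) = l.map (· - (j + 1)) := by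
  rw [Multiset.map_map]
  exact Multiset.map_congr rfl fun x _ => by simp only [Function.comp]; omega

theorem sum_fib {S T : Type*} [Fintype S] [Fintype T] (p : T → Prop) (c : S → Prop) (f : S → T)
    [DecidablePred p] [∀ x y, Decidable (c x ∧ f x = y)] [∀ x, Decidable (c x ∧ p (f x))] :
    ∑ y, (if p y then ∑ x, if c x ∧ f x = y then (1 : ℚ) else 0 else 0) =
      ∑ x, if c x ∧ p (f x) then 1 else 0 := by
  rw [sum_congr rfl (g := fun y => ∑ x, if f x = y then if c x ∧ p (f x) then (1 : ℚ) else 0 else 0)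
    fun y _ => by
      split_ifs with h
      · exact sum_congr rfl fun x _ => by by_cases e : f x = y <;> simp [e, h]
      · exact (sum_eq_zero fun x _ => by by_cases e : f x = y <;> simp [e, h]).symm, sum_comm]
  simp

theorem nu_mul (hK : HK K b q) {l : Multiset ℕ} (hι : Fintype.card ι = l.sum)
    (hκ : Fintype.card κ = (l.map (· - 1)).sum) : nu K ι b l * gg K κ b =
    ∑ Y : Matrix κ κ K, if (b → Y = Yᵀ.map star) ∧ HasT Y (l.map (· - 1)) then cc ι b Y else 0 := by
  rw [nu, sum_mul, sum_congr rfl (g := fun X => if (b → X = Xᵀ.map star) ∧ HasT X l then fc κ b X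
    else 0) fun X _ => by
      split_ifs with h
      · rw [one_mul, fc_eq hK h.1 (by rw [hκ, ← h.2 1, pow_one])]
      · exact zero_mul _]
  simp only [fc, cc, ← and_assoc]
  refine (sum_fib _ _ _).trans (Eq.trans ?_ (sum_fib _ _ _).symm)
  refine sum_congr rfl fun ⟨A, B⟩ _ => if_congr ⟨fun ⟨h1, _, h2⟩ => ?_, fun ⟨⟨⟨h1, h2⟩, h3⟩, _, h4⟩ =>
    ⟨h1, fun e => ?_, fun j => ?_⟩⟩ rfl rfl
  · have h3 := rank_of_mul (A := A) (B := B) (by rw [hκ, ← h2 1, pow_one])
    exact ⟨⟨⟨h1, h3.1⟩, h3.2⟩, fun e => adm_mul (h1 e), fun j => by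
      rw [map_pred_sub, ← h2, pow_succ_mul, rank_mul_mul h3.1 h3.2]⟩
  · exact adm_mul (A := Bᵀ) (B := Aᵀ) (by ext; simp [show B = _ from h1 e])
  · cases j with
    | zero => simpa using hι
    | succ j => rw [pow_succ_mul, rank_mul_mul h2 h3, h4, map_pred_sub]

theorem sum_two_diff (l : Multiset ℕ) (i : ℕ) : (l.map (· - i)).sum + (l.map (· - (i + 2))).sum =
    2 * (l.map (· - (i + 1))).sum + l.count (i + 1) := by
  induction l using Multiset.induction_on with
  | empty => simp
  | cons x l ih =>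
    simp only [Multiset.map_cons, Multiset.sum_cons, Multiset.count_cons]
    split_ifs <;> omega

theorem sum_pred (l : Multiset ℕ) : (l.map (· - 1)).sum + (l.map (min · 1)).sum = l.sum := by
  rw [← Multiset.sum_map_add, Multiset.map_congr rfl (g := id) fun x _ => by simp only [id]; omega,
    Multiset.map_id]

theorem ipc_pred (l : Multiset ℕ) :
    ipc l l = (l.map (min · 1)).sum ^ 2 + ipc (l.map (· - 1)) (l.map (· - 1)) := by
  simp only [ipc, _root_.sq, Multiset.map_map, Function.comp_def, ← Multiset.sum_map_mul_right,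
    ← Multiset.sum_map_mul_left, ← Multiset.sum_map_add]
  refine congrArg _ (Multiset.map_congr rfl fun x _ => congrArg _ (Multiset.map_congr rfl
    fun y _ => ?_))
  rcases x with _ | x <;> rcases y with _ | y <;> simp; omega

theorem count_pred (l : Multiset ℕ) (i : ℕ) : (l.map (· - 1)).count (i + 1) = l.count (i + 2) := by
  induction l using Multiset.induction_on with
  | empty => simp
  | cons x l ih =>
    simp only [Multiset.map_cons, Multiset.count_cons, ih]
    split_ifs <;> omega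

theorem nu_eq (hK : HK K b q) (B : ℕ) : ∀ (ι : Type) [Fintype ι] [DecidableEq ι] (l : Multiset ℕ),
    (∀ x ∈ l, x ≤ B) → Fintype.card ι = l.sum →
    nu K ι b l * (q ^ ipc l l * ∏ i ∈ range B, ph (sq b q) (l.count (i + 1))) = gg K ι b := by
  induction B with
  | zero =>
    intro ι _ _ l h hc
    rw [Multiset.eq_replicate_card.2 fun x hx => Nat.le_zero.1 (h x hx)] at hc ⊢
    haveI : IsEmpty ι := Fintype.card_eq_zero_iff.1 (by simpa using hc)
    haveI : Unique (Matrix ι ι K) := uniqueOfSubsingleton 0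
    simp [nu, gg, fc, HasT, ipc, Subsingleton.elim _ (0 : Matrix ι ι K), Fintype.card_unique]
  | succ B ih =>
    intro ι _ _ l h hc
    have h1 := ih (Fin (l.map (· - 1)).sum) (l.map (· - 1)) (fun x hx => by
      obtain ⟨y, hy, rfl⟩ := Multiset.mem_map.1 hx
      have := h y hy; omega) (Fintype.card_fin _)
    have h2 := nu_mul (κ := Fin (l.map (· - 1)).sum) hK hc (Fintype.card_fin _)
    have h3 := sum_pred l
    have h4 := sum_two_diff l 0
    have h5 := (ph_pos (Q := sq b q) (by rw [abs_sq]; exact_mod_cast hK.one_lt) (l.count 1)).ne'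
    have h6 : (q : ℚ) ≠ 0 := by have := hK.one_lt; positivity
    rw [sum_congr rfl (g := fun Y => (if (b → Y = Yᵀ.map star) ∧ HasT Y (l.map (· - 1)) then 1 else 0)
      * (gg K ι b * (ph (sq b q) (l.count 1))⁻¹ / q ^ (l.map (min · 1)).sum ^ 2)) fun Y _ => by
        split_ifs with hY
        · rw [one_mul, eq_div_iff (pow_ne_zero _ h6), cc_eq hK _ _ Y hY.1 (by
            rw [Fintype.card_fin, h3, hc]), ← pow_one Y, hY.2, map_pred_sub, Fintype.card_fin,
            show (_ - _ : ℤ) = l.count 1 by 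
              simp only [Nat.sub_zero, Multiset.map_id', zero_add, Nat.reduceAdd] at h4 ⊢; omega,
            ps, if_pos (by omega), Int.toNat_natCast]
        · exact (zero_mul _).symm, ← sum_mul, ← nu] at h2
    refine mul_right_cancel₀ (gg_pos (K := K) (κ := Fin (l.map (· - 1)).sum) (b := b)).ne' ?_
    rw [mul_right_comm, h2, ← h1, ipc_pred l, prod_range_succ']
    simp only [count_pred]
    field_simp
    ring

end Cfsg.GUn.Un
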