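import Cfsg.Agent.GUn.UniB
import Cfsg.Agent.GUn.FF

/-! Counting unipotent matrices over a finite field (Cayley transform). -/

set_option autoImplicit false

namespace Cfsg.GUn.Un

open Matrix Finset SymCh Classical

universe u

variable {K : Type u} [Field K] {ι : Type} [Fintype ι] [DecidableEq ι]

/-- the Cayley transform -/
noncomputable def cay (a c : K) (X : Matrix ι ι K) : Matrix ι ι K := c • (X * (1 - a • X)⁻¹)

theorem cay_mul (a c : K) {X : Matrix ι ι K} (h : IsNilpotent X) :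
    cay a c X * (1 - a • X) = c • X := by
  rw [cay, smul_mul_assoc, nonsing_inv_mul_cancel_right _ _
    ((isUnit_iff_isUnit_det _).1 (h.smul a).isUnit_one_sub)]

theorem jt_cay (a : K) {c : K} (hc : c ≠ 0) {X : Matrix ι ι K} (h : IsNilpotent X) :
    jt (cay a c X) = jt X := by
  obtain ⟨V, hV⟩ := (h.smul a).isUnit_one_sub
  rw [cay, jt_smul hc, ← hV, ← coe_units_inv, jt_mul_unit V⁻¹.isUnit (Commute.units_inv_right
    (hV ▸ (Commute.one_right X).sub_right ((Commute.refl X).smul_right a)))]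

theorem unit_aux (a : K) {c : K} (hc : c ≠ 0) {N : Matrix ι ι K} (h : IsNilpotent N) :
    IsUnit (c • (1 : Matrix ι ι K) + a • N) :=
  (h.smul a).isUnit_add_left_of_commute (Algebra.algebraMap_eq_smul_one (A := Matrix ι ι K) c ▸
    hc.isUnit.map _) ((Commute.one_right _).smul_right c)

theorem rel_iff {a c : K} {N X : Matrix ι ι K} :
    N * (1 - a • X) = c • X ↔ (c • (1 : Matrix ι ι K) + a • N) * X = N := by
  rw [mul_sub, add_mul, mul_one, smul_mul_assoc, one_mul, mul_smul_comm, smul_mul_assoc,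
    sub_eq_iff_eq_add, eq_comm]

theorem jt_iff {l : Multiset ℕ} (hl : l ∈ ptn (Fintype.card ι)) [Fintype K] [StarRing K]
    {X : Matrix ι ι K} : HasT X l ↔ jt X = l := by
  refine ⟨fun h => jt_eq_of_rank (c := 0) (fun e => (lt_irrefl 0) ((mem_ptn.1 hl).2 0 e))
    fun j => (h j).trans (zero_add _).symm, ?_⟩
  rintro rfl j
  have := rank_pow_add_sum X j
  have := (mem_ptn.1 hl).1
  omega

variable [StarRing K]

theorem cay_iff {a : K} (ha : a - star a ≠ 0) {X : Matrix ι ι K} (h : IsNilpotent X) :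
    (cay a (a - star a) X + 1)ᴴ * (cay a (a - star a) X + 1) = 1 ↔ X = Xᵀ.map star := by
  have hV := (h.smul a).isUnit_one_sub
  have h1 : (cay a (a - star a) X + 1) * (1 - a • X) = 1 - star a • X := by
    rw [add_mul, cay_mul _ _ h, one_mul, sub_smul]; abel
  have h2 : (1 - star a • X)ᴴ * (1 - star a • X) =
      (1 - a • X)ᴴ * (1 - a • X) + (a - star a) • (X - Xᴴ) := by
    simp only [conjTranspose_sub, conjTranspose_one, conjTranspose_smul, star_star, mul_sub, sub_mul,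
      one_mul, mul_one, smul_mul_assoc, mul_smul_comm]
    module
  rw [← hV.mul_left_inj, ← ((isUnit_conjTranspose _).2 hV).mul_right_inj, mul_assoc, ← mul_assoc _ _ᴴ,
    ← conjTranspose_mul, h1, h2, one_mul, add_eq_left, smul_eq_zero_iff_right ha, sub_eq_zero]
  rfl

variable [Fintype K] {b : Bool} {q : ℕ}

theorem gg_eq : gg K ι b = #{u : Matrix ι ι K | IsUnit u ∧ (b → uᴴ * u = 1)} := by
  simp only [gg, fc, sum_boole]
  congr 1
  refine card_bij (fun x _ => x.2) (fun ⟨A, B⟩ hx => ?_) (fun ⟨A, B⟩ hx ⟨A', B'⟩ hy e => ?_)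
    fun u hx => ⟨((u⁻¹)ᵀ, u), ?_, rfl⟩ <;> simp only [mem_filter, mem_univ, true_and] at *
  · exact ⟨IsUnit.of_mul_eq_one_right _ hx.2, fun e => by
      rw [← hx.2, hx.1 e]; congr 1; ext; simp⟩
  · subst e
    exact Prod.ext (transpose_injective ((inv_eq_left_inv hx.2).symm.trans (inv_eq_left_inv hy.2))) rfl
  · exact ⟨fun e => by rw [inv_eq_left_inv (hx.2 e)]; ext; simp,
      nonsing_inv_mul _ ((isUnit_iff_isUnit_det _).1 hx.1)⟩

theorem nu_eq_card (hK : HK K b q) {l : Multiset ℕ} (hl : l ∈ ptn (Fintype.card ι)) : nu K ι b l =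
    #{u : Matrix ι ι K | (IsUnit u ∧ (b → uᴴ * u = 1)) ∧ jt (u - 1) = l} := by
  obtain ⟨a, c, hc, h⟩ : ∃ a c : K, c ≠ 0 ∧ (b → c = a - star a) := by
    cases b
    · exact ⟨0, 1, one_ne_zero, by simp⟩
    · obtain ⟨a, ha⟩ := @Uni.exists_star_ne K _ _ _ q hK
      exact ⟨a, _, sub_ne_zero.2 ha.symm, fun _ => rfl⟩
  have hn : ∀ {X : Matrix ι ι K}, jt X = l → IsNilpotent X := fun e =>
    isNilpotent_iff_sum_jt.2 (e ▸ (mem_ptn.1 hl).1)
  simp only [nu, sum_boole, jt_iff hl]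
  congr 1
  refine card_bij (fun X _ => cay a c X + 1) (fun X hX => ?_) (fun X hX Y hY e => ?_)
    fun u hu => ?_ <;> simp only [mem_filter, mem_univ, true_and] at *
  · have h1 := (jt_cay a hc (hn hX.2)).trans hX.2
    exact ⟨⟨(hn h1).isUnit_add_one, fun e => by
      rw [h e] at hc ⊢; exact (cay_iff hc (hn hX.2)).2 (hX.1 e)⟩, by rwa [add_sub_cancel_right]⟩
  · refine (unit_aux a hc (hn ((jt_cay a hc (hn hX.2)).trans hX.2))).mul_left_cancel ?_
    rw [rel_iff.1 (cay_mul a c (hn hX.2)), add_right_cancel e, rel_iff.1 (cay_mul a c (hn hY.2))]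
  · obtain ⟨U, hU⟩ := unit_aux a hc (hn hu.2)
    have h1 : jt (U⁻¹.val * (u - 1)) = l := (jt_unit_mul U⁻¹.isUnit (Commute.units_inv_right (hU ▸
      ((Commute.one_right _).smul_right c).add_right ((Commute.refl _).smul_right a)))).trans hu.2
    have h2 : cay a c (U⁻¹.val * (u - 1)) + 1 = u := by
      rw [← eq_sub_iff_add_eq, ← ((hn h1).smul a).isUnit_one_sub.mul_left_inj, cay_mul _ _ (hn h1),
        rel_iff.2 (by rw [← hU, Units.mul_inv_cancel_left])]
    refine ⟨_, ⟨fun e => ?_, h1⟩, h2⟩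
    rw [h e] at hc h2
    exact (cay_iff hc (hn h1)).1 (h2.symm ▸ hu.1.2 e)

theorem card_unip (hK : HK K b q) {l : Multiset ℕ} (hl : l ∈ ptn (Fintype.card ι)) :
    (#{u : Matrix ι ι K | (IsUnit u ∧ (b → uᴴ * u = 1)) ∧ jt (u - 1) = l} : ℚ) * |aa (sq b q) l| =
      #{u : Matrix ι ι K | IsUnit u ∧ (b → uᴴ * u = 1)} := by
  have hQ : 1 < |sq b q| := by rw [abs_sq]; exact_mod_cast hK.one_lt
  rw [← nu_eq_card hK hl, ← gg_eq, ← nu_eq hK l.sum ι l (fun x hx => Multiset.le_sum_of_mem hx)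
    (mem_ptn.1 hl).1.symm, aa, abs_mul, abs_pow, abs_sq]
  congr 2
  have h1 := prod_range_succ' (fun i => ph (sq b q) (l.count i)) l.sum
  rw [Multiset.count_eq_zero.2 fun e => (lt_irrefl 0) ((mem_ptn.1 hl).2 0 e), ← prod_subset
    (s₁ := l.toFinset) (fun x hx => mem_range.2 (Nat.lt_succ_of_le (Multiset.le_sum_of_mem
      (Multiset.mem_toFinset.1 hx)))) fun x _ hx => by
        rw [Multiset.count_eq_zero.2 (mt Multiset.mem_toFinset.2 hx)]; rfl] at h1
  rw [← mul_one (∏ i ∈ range _, _)]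
  exact (abs_of_pos (prod_pos fun i _ => ph_pos hQ _)).trans h1

end Cfsg.GUn.Un

namespace Cfsg.GUn

open Matrix Finset Classical

theorem stUni (k : Type*) [Field k] [Big k] : StUni k := fun Φ ι _ _ l hl => by
  have hK : Un.HK Φ.FF Φ.neg Φ.q := by
    rw [Un.HK]; split_ifs with h
    · exact Φ.uf h
    · rw [Φ.card_FF, if_neg h, pow_one]
  have h1 : ∀ u : Matrix ι ι Φ.FF, (IsUnit u ∧ (Φ.neg → uᴴ * u = 1)) ↔ ∃ g, Φ.toFF ι g = u :=
    fun u => ⟨fun ⟨⟨A, hA⟩, h⟩ => by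
      cases e : Φ.neg
      exacts [hA ▸ Frob.exists_toFF_pos e A, Frob.exists_toFF_neg e (h e)], by
      rintro ⟨g, rfl⟩; exact ⟨(Group.isUnit g).map _, fun e => Frob.toFF_unitary e g⟩⟩
  have h2 : ∀ g : Φ.G ι, jt (Φ.toFF ι g - 1) = jt (g.1.val - 1) := fun g => by
    rw [← jt_map Φ.FF.subtype, Matrix.map_sub _ (map_sub _), Frob.map_toFF,
      Matrix.map_one _ (map_zero _) (map_one _)]
  have := Un.card_unip hK hl
  simp only [h1] at this
  rw [Nat.card_eq_fintype_card, Nat.card_eq_fintype_card, Fintype.card_subtype, ← card_univ,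
    ← card_image_of_injective _ Frob.toFF_injective, ← card_image_of_injective _ Frob.toFF_injective]
  convert this using 3
  · congr 1
    ext u
    simp only [mem_image, mem_filter, mem_univ, true_and]
    exact ⟨by rintro ⟨g, h, rfl⟩; exact ⟨⟨g, rfl⟩, (h2 g).trans h⟩,
      by rintro ⟨⟨g, rfl⟩, h⟩; exact ⟨g, (h2 g).symm.trans h, rfl⟩⟩
  · simp only [Frob.Q, Un.sq]; split_ifs <;> simp
  · ext u; simp

end Cfsg.GUn
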