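import Cfsg.Agent.GUn.Defs2

/-! # S4537, block side: pieces `Up` and `LW0` -/

set_option autoImplicit false

namespace Cfsg.GUn

open scoped MonoidAlgebra

universe u v

namespace Up

section tw

variable {G : Type u} [Group G] [Finite G] {k : Type v} [Field k]

/-- the twist of the group algebra by a linear character -/
noncomputable def tw (w : G →* kˣ) (a : k[G]) : k[G] := gaOfFun fun x => (w x : k) * a.coeff x

theorem coeff_tw (w : G →* kˣ) (a : k[G]) (x : G) : (tw w a).coeff x = (w x : k) * a.coeff x := rfl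

theorem tw_mul (w : G →* kˣ) (a b : k[G]) : tw w (a * b) = tw w a * tw w b := by
  have := Fintype.ofFinite G
  refine ga_ext fun x => ?_
  rw [coeff_tw, ga_coeff_mul, ga_coeff_mul, Finset.mul_sum]
  refine Finset.sum_congr rfl fun g _ => ?_
  have h : (w x : k) = w g * w (g⁻¹ * x) := by
    rw [← Units.val_mul, ← map_mul, mul_inv_cancel_left]
  rw [coeff_tw, coeff_tw, h]
  ring

theorem tw_inv_tw (w : G →* kˣ) (a : k[G]) : tw w⁻¹ (tw w a) = a := by
  refine ga_ext fun x => ?_
  rw [coeff_tw, coeff_tw, ← mul_assoc, ← Units.val_mul, MonoidHom.inv_apply, inv_mul_cancel,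
    Units.val_one, one_mul]

theorem tw_tw_inv (w : G →* kˣ) (a : k[G]) : tw w (tw w⁻¹ a) = a := by
  refine ga_ext fun x => ?_
  rw [coeff_tw, coeff_tw, ← mul_assoc, ← Units.val_mul, MonoidHom.inv_apply, mul_inv_cancel,
    Units.val_one, one_mul]

theorem tw_zero (w : G →* kˣ) : tw w (0 : k[G]) = 0 := by
  refine ga_ext fun x => ?_
  simp [coeff_tw]

theorem gaConj_tw (w : G →* kˣ) (g : G) (a : k[G]) :
    gaConj k g (tw w a) = tw w (gaConj k g a) := by
  refine ga_ext fun x => ?_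
  rw [coeff_gaConj, coeff_tw, coeff_tw, coeff_gaConj, map_mul, map_mul, mul_right_comm,
    ← map_mul, inv_mul_cancel, map_one, one_mul]

theorem tw_mem {N H : Subgroup G} (w : G →* kˣ) {a : k[G]} (ha : a ∈ fixSuppGA k N H) :
    tw w a ∈ fixSuppGA k N H := by
  rw [mem_fixSuppGA] at ha ⊢
  refine ⟨mem_suppGA.2 fun x hx => ?_, fun h hh => ?_⟩
  · rw [coeff_tw, mem_suppGA.1 ha.1 x hx, mul_zero]
  · rw [gaConj_tw, ha.2 h hh]

theorem brGA_tw (w : G →* kˣ) (Q : Subgroup G) (a : k[G]) :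
    brGA k Q (tw w a) = tw w (brGA k Q a) := by
  refine ga_ext fun x => ?_
  by_cases hx : x ∈ Subgroup.centralizer (Q : Set G)
  · rw [coeff_brGA_of_mem _ hx, coeff_tw, coeff_tw, coeff_brGA_of_mem _ hx]
  · rw [coeff_brGA_of_notMem _ hx, coeff_tw, coeff_brGA_of_notMem _ hx, mul_zero]

theorem isPrimIdem_tw {N H : Subgroup G} (w : G →* kˣ) {a : k[G]}
    (ha : IsPrimIdem (fixSuppGA k N H) a) : IsPrimIdem (fixSuppGA k N H) (tw w a) := by
  refine ⟨tw_mem w ha.mem, ?_, fun h => ha.ne_zero ?_, fun j hj hjj h1 h2 => ?_⟩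
  · rw [IsIdempotentElem, ← tw_mul, ha.idem]
  · rw [← tw_inv_tw w a, h, tw_zero]
  · have h3 := ha.prim (tw w⁻¹ j) (tw_mem _ hj) (by rw [IsIdempotentElem, ← tw_mul, hjj])
      (by rw [← tw_inv_tw w a, ← tw_mul, h1]) (by rw [← tw_inv_tw w a, ← tw_mul, h2])
    rcases h3 with h3 | h3
    · left
      rw [← tw_tw_inv w j, h3, tw_zero]
    · right
      rw [← h3, tw_tw_inv]

theorem tw_eq_iff (w : G →* kˣ) (a : k[G]) : tw w a = a ↔ a ∈ suppGA k w.ker := by
  rw [mem_suppGA]
  constructor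
  · intro h x hx
    have h1 : (w x : k) * a.coeff x = a.coeff x := by rw [← coeff_tw, h]
    by_contra h0
    exact hx (Units.ext (mul_right_cancel₀ h0 (h1.trans (one_mul _).symm)))
  · intro h
    refine ga_ext fun x => ?_
    rw [coeff_tw]
    by_cases hx : x ∈ w.ker
    · rw [MonoidHom.mem_ker.1 hx, Units.val_one, one_mul]
    · rw [h x hx, mul_zero]

theorem coeff_conj_pow {w : G →* kˣ} {a : k[G]} {c : G} (h : gaConj k c a = tw w a) (n : ℕ)
    (x : G) : (gaConj k (c ^ n) a).coeff x = (w x : k) ^ n * a.coeff x := by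
  induction n generalizing x with
  | zero => rw [pow_zero, gaConj_one, pow_zero, one_mul]
  | succ n ih =>
    rw [pow_succ, gaConj_mul, h, gaConj_tw, coeff_tw, ih, pow_succ', mul_assoc]

end tw

section step

variable {G : Type u} [Group G] [Finite G] {k : Type v} [Field k] {p : ℕ} [Fact p.Prime]
  [CharP k p] {R P : Subgroup G} {g e : k[G]}

/-- centric pairs -/
def Ctr (p : ℕ) (A : Subgroup G) (f : k[G]) : Prop :=
  ∀ S : Subgroup G, IsPGroup p S → S ≤ Subgroup.centralizer (A : Set G) → brGA k S f ≠ 0 → S ≤ A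

theorem Ctr.up (h : NSub p ⊤ R g P e) (hc : Ctr p R g) : Ctr p P e := by
  intro S hS hSP hb
  have hSR : S ≤ Subgroup.centralizer (R : Set G) := hSP.trans (Subgroup.centralizer_le h.le)
  refine (hc S hS hSR fun h0 => hb ?_).trans h.le
  have hg : IsFixedGA S g := fun s hs => h.left.fixed_cenIn s ⟨trivial, hSR hs⟩
  have he : IsFixedGA S e := fun s hs => h.right.fixed_cenIn s ⟨trivial, hSP hs⟩
  rw [← h.br, brGA_mul hS (hg.brGA (hSP.trans (centralizer_le_normalizer' P))) he, brGA_brGA,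
    sup_comm, ← brGA_brGA, h0, map_zero, zero_mul]

theorem isMaxPair_of_nsub (h : NSub p ⊤ R g P e) (hc : Ctr p R g) :
    IsMaxPair p (Subgroup.centralizer (R : Set G)) (Subgroup.centralizer (R : Set G) ⊔ P) g P e := by
  have hPN : P ≤ Subgroup.normalizer (Subgroup.centralizer (R : Set G) : Set G) :=
    h.le_normalizer.trans (normalizer_le_normalizer_centralizer R)
  have hH : Subgroup.centralizer (R : Set G) ⊔ P ≤
      Subgroup.normalizer (Subgroup.centralizer (R : Set G) : Set G) :=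
    sup_le Subgroup.le_normalizer hPN
  have hg : IsBlk k (Subgroup.centralizer (R : Set G)) g := (isPair_top_iff.1 h.left).2
  have hprim := hg.isPrimIdem_of_isFixed le_sup_left (IsFixedGA.sup hg.fixed h.fixed)
  have hcen : cenIn (Subgroup.centralizer (R : Set G)) P = Subgroup.centralizer (P : Set G) :=
    inf_eq_right.2 (Subgroup.centralizer_le h.le)
  have hpo : IsPairOf p (Subgroup.centralizer (R : Set G)) (Subgroup.centralizer (R : Set G) ⊔ P)
      g P e := ⟨⟨h.right.pgrp, hPN, by rw [hcen]; exact (isPair_top_iff.1 h.right).2⟩,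
        le_sup_right, h.br⟩
  refine hpo.isMaxPair_of_isDefGrp (hprim.isDefGrp_of_maximal hH h.right.pgrp le_sup_right
    h.br_ne_zero fun S hS hSH hb hPS => le_antisymm (fun s hs => ?_) hPS)
  obtain ⟨c, hc', u, hu, rfl⟩ := (mem_sup_of_le_normalizer hPN).1 (hSH hs)
  have h1 : c ∈ S := by
    have := S.mul_mem hs (S.inv_mem (hPS hu))
    rwa [mul_inv_cancel_right] at this
  have h2 := hc (S ⊓ Subgroup.centralizer (R : Set G)) (hS.to_le inf_le_left) inf_le_right
    (brGA_ne_zero_of_le inf_le_left hb)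
  exact P.mul_mem (h.le (h2 ⟨h1, hc'⟩)) hu

theorem tw_up (h : NSub p ⊤ R g P e) (hc : Ctr p R g) {w : G →* kˣ} {m : ℕ} (hm : ¬ p ∣ m)
    (hw : ∀ x, w x ^ m = 1) (hg : tw w g = g) : tw w e = e := by
  have hPN : P ≤ Subgroup.normalizer (Subgroup.centralizer (R : Set G) : Set G) :=
    h.le_normalizer.trans (normalizer_le_normalizer_centralizer R)
  have hH : Subgroup.centralizer (R : Set G) ⊔ P ≤
      Subgroup.normalizer (Subgroup.centralizer (R : Set G) : Set G) :=
    sup_le Subgroup.le_normalizer hPN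
  have hb : IsBlk k (Subgroup.centralizer (R : Set G)) g := (isPair_top_iff.1 h.left).2
  have hprim := hb.isPrimIdem_of_isFixed le_sup_left (IsFixedGA.sup hb.fixed h.fixed)
  have h' : NSub p ⊤ R g P (tw w e) :=
    ⟨h.left, ⟨h.right.pgrp, h.right.norm, isPrimIdem_tw w h.right.blk⟩, h.le, h.le_normalizer,
      h.fixed, by rw [← hg, brGA_tw, ← tw_mul, h.br]⟩
  obtain ⟨x, hx, hxP, hxe⟩ := (isMaxPair_of_nsub h' hc).exists_conj le_sup_left hH hprim
    (isMaxPair_of_nsub h hc)
  obtain ⟨c, hc', u, hu, rfl⟩ := (mem_sup_of_le_normalizer hPN).1 hx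
  rw [gaConj_mul, h.right.fixed_self u hu] at hxe
  rw [conjSub_mul, conjSub_of_mem hu, conjSub_eq_self_iff] at hxP
  obtain ⟨a, ha⟩ := IsPGroup.iff_card.1 h.right.pgrp
  have hCP : P ⊓ Subgroup.centralizer (R : Set G) ≤ R :=
    hc _ (h.right.pgrp.to_le inf_le_left) inf_le_right
      (brGA_ne_zero_of_le inf_le_left h.br_ne_zero)
  have hcen : c ^ p ^ a ∈ Subgroup.centralizer (P : Set G) := by
    rw [Subgroup.mem_centralizer_iff]
    intro v hv
    have hz1 : v⁻¹ * (c * v * c⁻¹) ∈ P :=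
      P.mul_mem (P.inv_mem hv) ((Subgroup.mem_normalizer_iff.1 hxP v).1 hv)
    have hz2 : v⁻¹ * (c * v * c⁻¹) ∈ Subgroup.centralizer (R : Set G) := by
      have h1 := (Subgroup.mem_normalizer_iff.1 (hPN (P.inv_mem hv)) c).1 hc'
      have h2 := Subgroup.mul_mem _ h1 (Subgroup.inv_mem _ hc')
      simpa only [mul_assoc, inv_inv] using h2
    set z := v⁻¹ * (c * v * c⁻¹) with hz
    have hcz : Commute z c := Subgroup.mem_centralizer_iff.1 hc' z (hCP ⟨hz1, hz2⟩)
    have key : ∀ n : ℕ, c ^ n * v = v * z ^ n * c ^ n := by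
      intro n
      induction n with
      | zero => simp
      | succ n ih =>
        have h1 : c * v = v * z * c := by rw [hz]; group
        rw [pow_succ', mul_assoc, ih, ← mul_assoc, ← mul_assoc, h1, mul_assoc (v * z),
          ← (hcz.pow_left n).eq, pow_succ' z]
        simp only [mul_assoc]
    have hz0 : z ^ p ^ a = 1 := by
      have := pow_card_eq_one' (x := (⟨z, hz1⟩ : P))
      rw [ha] at this
      exact congrArg Subtype.val this
    rw [key, hz0, mul_one]
  have hfix : gaConj k (c ^ p ^ a) e = e := h.right.fixed_cenIn _ ⟨trivial, hcen⟩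
  rw [tw_eq_iff, mem_suppGA]
  intro y hy
  by_contra h0
  have h1 := coeff_conj_pow hxe (p ^ a) y
  rw [hfix] at h1
  have h2 : w y ^ p ^ a = 1 :=
    Units.ext (mul_right_cancel₀ h0 (by rw [Units.val_pow_eq_pow_val, ← h1]; simp))
  have hcop : (p ^ a).Coprime m := ((Nat.Prime.coprime_iff_not_dvd Fact.out).2 hm).pow_left a
  have h3 := pow_gcd_eq_one.2 ⟨h2, hw y⟩
  rw [hcop, pow_one] at h3
  exact hy h3

end step

theorem pow_orderOf_apply {G : Type u} [Group G] (η : G →* ℂˣ) (x : G) : η x ^ orderOf η = 1 := by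
  rw [← MonoidHom.pow_apply, pow_orderOf_eq_one, MonoidHom.one_apply]

theorem exists_red {G : Type u} [Group G] {p : ℕ} {M : Ideal AlgInt} (hM : IsPModular p M)
    (η : G →* ℂˣ) (hη : ¬ p ∣ orderOf η) :
    ∃ w : G →* (resK M)ˣ, w.ker = η.ker ∧ ∀ x, w x ^ orderOf η = 1 := by
  have h0 : orderOf η ≠ 0 := fun h => hη (h ▸ dvd_zero p)
  have h1 : ∀ x, (η x : ℂ) ^ orderOf η = 1 := fun x => by
    rw [← Units.val_pow_eq_pow_val, pow_orderOf_apply, Units.val_one]
  have hv : ∀ x, (η x : ℂ) ∈ valO M := fun x =>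
    mem_valO_iff.2 (valM_eq_one_of_pow_eq_one h0 (h1 x)).le
  let w₀ : G →* resK M :=
    { toFun := fun x => red M (η x)
      map_one' := by rw [map_one, Units.val_one, red_one]
      map_mul' := fun x y => by rw [map_mul, Units.val_mul, red_mul (hv x) (hv y)] }
  refine ⟨w₀.toHomUnits, ?_, fun x => Units.ext ?_⟩
  · ext x
    rw [MonoidHom.mem_ker, MonoidHom.mem_ker, Units.ext_iff, Units.ext_iff]
    constructor
    · intro h
      exact hM.eq_one_of_red_eq_one hη (h1 x) h
    · intro h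
      change red M (η x) = 1
      rw [h, Units.val_one, red_one]
  · rw [Units.val_pow_eq_pow_val]
    change red M (η x) ^ orderOf η = 1
    rw [← red_pow (hv x), h1, red_one]

end Up

open Up in
theorem stUp : StUp.{u} := by
  intro Γ _ _ p M hM B _ η hη ⟨A, f, hf, hc, hs⟩
  have := hM.fact_prime
  have := hM.charP
  obtain ⟨w, hw, hw'⟩ := exists_red hM η hη
  obtain ⟨P, e, hm, hle⟩ := hf.exists_le_isMaxPair
  refine ⟨P, e, hm, ?_⟩
  rw [← hw, ← tw_eq_iff] at hs ⊢
  exact (hle.tail_induction (motive := fun P e => Ctr p P e ∧ tw w e = e) ⟨hc, hs⟩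
    fun R g P e _ h ih => ⟨ih.1.up h, tw_up h ih.1 hη hw' ih.2⟩).2

end Cfsg.GUn
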