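import Cfsg.Agent.GUn.Defs2
import Cfsg.Agent.GUn.Dec
import Cfsg.Agent.GUn.ArB
import Cfsg.Agent.CT.PiChar

/-!
# S4537, piece W: stabilizers of the covered blocks
-/

set_option autoImplicit false

namespace Cfsg.GUn

open Finset Matrix

universe u

variable {k : Type u} [Field k] [Big k]

namespace W

variable {Φ : Frob k} {ι : Type} [Fintype ι] [DecidableEq ι] {r : ℕ} {d m δ : Fin r → ℕ}
  (D : Dec ι d m δ Φ)

theorem not_dvd {G : Type*} [Group G] {p : ℕ} {z : kˣ} (hz : z ∈ Mk Φ 1) (h : ¬ p ∣ orderOf z)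
    (f : G →* kˣ) (hf : ∀ g, f g ∈ Mk Φ 1) : ¬ p ∣ orderOf ((pr Φ 1 z).comp f) := fun e =>
  h (e.trans (orderOf_dvd_of_pow_eq_one (MonoidHom.ext fun g => by
    rw [MonoidHom.pow_apply, MonoidHom.comp_apply, ← pr_pow hz (hf g), pow_orderOf_eq_one,
      pr_one (hf g), MonoidHom.one_apply])))

theorem lin_single {z : kˣ} (hz : z ∈ Mk Φ 1) (j : Fin r) (y : (Φ.pow (d j)).G (Fin (m j))) :
    lin Φ ι z (D.Ψ (Pi.mulSingle j y)) = lin (Φ.pow (d j)) _ (z ^ δ j) y := by
  have hd := D.pos j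
  have h1 := det_mem_Mk y.2
  rw [Mk_pow hd, mul_one] at h1
  change pr Φ 1 z (GeneralLinearGroup.det (D.Ψ _).1) = pr _ 1 _ (GeneralLinearGroup.det y.1)
  rw [D.det_Ψ, prod_eq_single j (fun i _ e => by simp [Pi.mulSingle_eq_of_ne e]) (by simp),
    Pi.mulSingle_eq_same, map_pow, ← pr_of_mem_one hz h1, pr_pow_frob hd, mul_one,
    pr_pow (mem_Mk_of_dvd hd (one_dvd _) hz) h1]

omit [Big k] in
theorem scalar (h : ∀ j, 0 < δ j) (j : Fin r) (y : (Φ.pow (d j)).G (Fin (m j)))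
    (hy : ∀ M ∈ (emb D.e D.h).range, Commute M (D.Ψ (Pi.mulSingle j y)).1.val) :
    ∃ ξ, y.1 = scal _ ξ := by
  have : y.1 ∈ Subgroup.center _ := Subgroup.mem_center_iff.2 fun g => by
    let x : Om d := ⟨j, ⟨0, D.pos j⟩⟩
    have := (hy _ ⟨Pi.single x g.val, rfl⟩).eq
    rw [D.Ψ_val] at this
    have := congrFun (emb_injective D.e D.h h ((map_mul _ _ _).trans (this.trans (map_mul _ _ _).symm))) x
    simp only [Pi.mul_apply, Pi.single_eq_same, x, Function.iterate_zero, id,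
      Pi.mulSingle_eq_same] at this
    exact Units.ext this
  rw [GeneralLinearGroup.center_eq_range_scalar] at this
  obtain ⟨ξ, e⟩ := this
  exact ⟨ξ, e.symm⟩

theorem exists_reg (hU : StUni k) (Φ : Frob k) {n : ℕ} (hn : 0 < n) :
    ∃ u : Φ.G (Fin n), jt (u.1.val - 1) = {n} := by
  have := hU Φ (Fin n) {n} (SymCh.mem_ptn.2 (by simpa using hn))
  by_contra e
  push Not at e
  rw [@Nat.card_of_isEmpty _ ⟨fun u => e u.1 u.2⟩, Nat.cast_zero, zero_mul] at this
  exact Nat.card_pos.ne (by exact_mod_cast this)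

theorem det_reg {n : ℕ} {u : GL (Fin n) k} (h : jt (u.val - 1) = {n}) :
    GeneralLinearGroup.det u = 1 := by
  have : IsNilpotent (u.val - ((1 : kˣ) : k) • 1) := by
    rw [Units.val_one, one_smul, isNilpotent_iff_sum_jt, h]; simp
  rw [← prod_eig, Multiset.eq_replicate_card.2 (isNilpotent_sub_iff.1 this)]
  simp

theorem pi_single {J : Type} [Fintype J] [DecidableEq J] {K : J → Type u} [∀ j, Group (K j)]
    [∀ j, Finite (K j)] (θ : ∀ j, IrrCharacter (K j)) (j : J) (y : K j) :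
    (piChar θ).1 (Pi.mulSingle j y) = (θ j).1 y * ∏ i ∈ univ.erase j, (θ i).1 1 := by
  rw [piChar_apply, ← mul_prod_erase _ _ (mem_univ j), Pi.mulSingle_eq_same]
  exact congrArg _ (prod_congr rfl fun i hi => by rw [Pi.mulSingle_eq_of_ne (mem_erase.1 hi).1])

theorem defect {J : Type} [Fintype J] [DecidableEq J] {K : J → Type u} [∀ j, Group (K j)]
    [∀ j, Finite (K j)] {p : ℕ} {M : Ideal AlgInt} (hM : IsPModular p M)
    {θ : ∀ j, IrrCharacter (K j)} {P : Subgroup (Π j, K j)}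
    (h : IsDefectGroup p M (blockOf M (piChar θ).1) P) (j : J) :
    IsDefectGroup p M (blockOf M (θ j).1) (P.comap (MonoidHom.mulSingle K j)) := by
  haveI := Fintype.ofFinite (K j)
  refine GLn.isDefectGroup_comap_of_cover hM _ (Pi.mulSingle_injective j) (top_unique fun x _ => ?_)
    (isPBlock_blockOf _) (isPBlock_blockOf _)
    ⟨_, hM.mem_blockOf_self _, _, hM.mem_blockOf_self _, ?_⟩ h
  · rw [← mul_inv_cancel_left (Pi.mulSingle j (x j)) x]
    refine Subgroup.mul_mem_sup ⟨x j, rfl⟩ (Subgroup.mem_centralizer_iff.2 ?_)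
    rintro _ ⟨y, rfl⟩
    funext i
    by_cases e : i = j
    · subst e; simp
    · simp [Pi.mulSingle_eq_of_ne e]
  · have := (θ j).classInner_self
    simp only [MonoidHom.mulSingle_apply, pi_single, classInner, mul_right_comm _ (∏ _ ∈ _, _),
      ← sum_mul, ← mul_assoc] at this ⊢
    rw [this, one_mul]
    exact prod_ne_zero_iff.2 fun i _ => (θ i).one_ne_zero

end W

open W in
theorem stW (hMC : StMC k) (hUp : StUp.{u}) (hL0 : StLW0.{u}) (hL : StLW.{u}) (hG : StGCT k)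
    (hN : StNrm k) (hC : StCan k) (hU : StUni k) : StW k := by
  intro Φ ι _ _ p hp M hM N μ χ hN' hμ z hz _ _ b hb hcov
  classical
  have hz1 := hz.1
  have hη := not_dvd hz1 hz.2.1 (GeneralLinearGroup.det.comp (Φ.G ι).subtype) fun g => det_mem_Mk g.2
  obtain ⟨R, e, hR, he⟩ := hUp _ p M hM _ (isPBlock_blockOf χ) _ hη (hMC Φ ι p hp M hM N μ χ hN' hμ z hz)
  have hp' := hR.pairOf.pair.pgrp
  obtain ⟨r, d, m, δ, D, hm, hδ, hE, hT⟩ := hG Φ ι p hM.1 hp R hp'
  have hδ0 : ∀ j, 0 < δ j := fun j => by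
    obtain ⟨a, e⟩ := hδ j
    exact e ▸ pow_pos hM.1.pos a
  have hr : D.Ψ.range = Subgroup.centralizer (R : Set (Φ.G ι)) := Subgroup.ext fun g => by
    rw [D.mem_range_Ψ hδ0, hE, Subgroup.mem_centralizer_iff]
    exact forall₂_congr fun x _ => ⟨fun e => Subtype.ext (Units.ext e.symm),
      fun e => (congrArg (fun g : Φ.G ι => g.1.val) e).symm⟩
  obtain ⟨θ, rfl, h1, h2, h3⟩ := hL0 _ _ p M hM _ (isPBlock_blockOf χ) R e hR _ hη he D.Ψ
    (D.Ψ_injective hδ0) hr
  obtain ⟨θ, rfl⟩ := piChar_surjective θ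
  have h0 : ∀ j, ∏ i ∈ univ.erase j, (θ i).1 1 ≠ 0 := fun j =>
    prod_ne_zero_iff.2 fun i _ => (θ i).one_ne_zero
  have key := fun j (hj : ¬ Triv D R j) => hC (Φ.pow (d j)) (Fin (m j)) p hp M hM
    (by rw [Φ.Q_pow (D.pos j)]; exact (hT j).resolve_right hj) (by simpa using hm j) (θ j) _
    (defect hM h3 j) fun x hx => scalar D hδ0 j x fun M hM => (hE M).1 hM _ hx
  choose u hu using fun j => exists_reg hU (Φ.pow (d j)) (hm j)
  haveI := finite_MG (Φ := Φ) one_pos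
  let dt : Φ.G ι →* MG Φ 1 := (GeneralLinearGroup.det.comp (Φ.G ι).subtype).codRestrict _
    fun g => (mem_MG one_pos).2 (det_mem_Mk g.2)
  let v : Π j, (Φ.pow (d j)).G (Fin (m j)) := fun j => if Triv D R j then 1 else u j
  let i₀ : (Π j : {j // Triv D R j}, (Φ.pow (d j)).G (Fin (m j))) →*
      Π j, (Φ.pow (d j)).G (Fin (m j)) :=
    MonoidHom.pi fun j => if h : Triv D R j then Pi.evalMonoidHom
      (fun j : {j // Triv D R j} => (Φ.pow (d j)).G (Fin (m j))) ⟨j, h⟩ else 1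
  have i1 : ∀ x j, ¬ Triv D R j → i₀ x j = 1 := fun x j h => by simp [i₀, h]
  have i2 : ∀ x (j : {j // Triv D R j}), i₀ x j = x j := fun x j => by simp [i₀, j.2]
  refine hL _ _ _ (MG Φ 1) dt (SG Φ ι) (MonoidHom.ker_codRestrict _ _ _).symm p M hM _
    (isPBlock_blockOf χ) R D.Ψ (D.Ψ_injective hδ0) hr _ hR h1 ((pr Φ 1 z).comp (MG Φ 1).subtype)
    (not_dvd hz1 hz.2.1 _ fun g => (mem_MG one_pos).1 g.2) h2 v i₀ (piChar fun j => θ j.1)
    (∏ j : {j // ¬ Triv D R j}, (θ j).1 (u j)) (Subtype.ext ?_) (fun x => funext fun j => ?_) ?_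
    (fun x => ?_) (fun g hg => ?_) b hb hcov
  · refine (D.det_Ψ v).trans (prod_eq_one fun j _ => ?_)
    simp only [v]
    split_ifs
    · simp
    · simp [det_reg (hu j)]
  · by_cases h : Triv D R j <;> simp [v, h, i1]
  · refine prod_induction _ (fun a : ℂ => a = 1 ∨ a = -1) ?_ (.inl rfl) fun j _ =>
      (key j j.2).1 _ (by simpa using hu j)
    rintro _ _ (rfl | rfl) (rfl | rfl) <;> simp
  · rw [piChar_apply, piChar_apply, ← Fintype.prod_subtype_mul_prod_subtype (Triv D R), mul_comm]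
    congr 1
    · exact prod_congr rfl fun j _ => by simp [v, j.2, i1 x j j.2]
    · exact prod_congr rfl fun j _ => by simp [v, j.2, i2]
  · obtain ⟨c, c1, c2, c3⟩ := hN Φ ι p hM.1 hp R hp' r d m δ D hm hδ0 hE v (fun j h => if_pos h)
      (fun j h => by simp only [v, if_neg h, hu]) g hg
    refine ⟨c, c1, fun x => c2 _ (i1 x), c3 z hz1 fun j hj => ?_⟩
    obtain ⟨a, ha⟩ := hδ j
    have h4 : orderOf (z ^ δ j) = orderOf z := Nat.Coprime.orderOf_pow
      (ha ▸ ((Nat.Prime.coprime_iff_not_dvd hM.1).2 hz.2.1).symm.pow_right a)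
    have := (key j hj).2 (z ^ δ j) (by
      rw [Mk_pow (D.pos j)]
      exact pow_mem_Mk (mem_Mk_of_dvd (mul_pos (D.pos j) one_pos) (one_dvd _) hz1) _)
      (h4 ▸ hz.2.1) (Subtype.ext (funext fun y => ?_))
    · simpa [h4] using this
    · have := congrFun (congrArg Subtype.val h2) (Pi.mulSingle j y)
      rw [IrrCharacter.twist_apply, pi_single, ← mul_assoc] at this
      rw [IrrCharacter.twist_apply, ← lin_single D hz1]
      exact mul_right_cancel₀ (h0 j) this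

end Cfsg.GUn
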